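import Cfsg.Statements.S0206
import Mathlib
import Cfsg.Agent.H1.Invol

set_option autoImplicit false
open Cfsg

namespace Cfsg.Agent.S0206

open scoped commutatorElement Pointwise


/-- Two distinct involutions x, y of a finite group generate a subgroup isomorphic to the dihedral group of order 2·|xy|. -/
theorem result {G : Type*} [Group G] [Finite G] (x y : G) (hx : orderOf x = 2) (hy : orderOf y = 2) (hxy : x ≠ y) : Nonempty (↥(Subgroup.closure ({x, y} : Set G)) ≃* DihedralGroup (orderOf (x * y))) := by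
  have hx1 := Cfsg.Agent.H1.inv_mul_self_of_two hx
  have hy1 := Cfsg.Agent.H1.inv_mul_self_of_two hy
  set n := orderOf (x * y) with hn
  set c := x * y with hc
  have hpos : 0 < n := orderOf_pos _
  haveI : NeZero n := ⟨hpos.ne'⟩
  -- the power map from ZMod n
  have hpow : ∀ k : ℤ, c ^ (((k : ZMod n)).val : ℤ) = c ^ k := by
    intro k
    rw [ZMod.val_intCast, hn, zpow_mod_orderOf]
  have hadd : ∀ i j : ZMod n, c ^ ((i + j).val : ℤ) = c ^ (i.val : ℤ) * c ^ (j.val : ℤ) := by
    intro i j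
    have h1 : i + j = (((i.val : ℤ) + (j.val : ℤ) : ℤ) : ZMod n) := by push_cast; simp
    rw [h1, hpow, zpow_add]
  have hneg : ∀ i : ZMod n, c ^ ((-i).val : ℤ) = c ^ (-(i.val : ℤ)) := by
    intro i
    have h1 : -i = ((-(i.val : ℤ) : ℤ) : ZMod n) := by push_cast; simp
    rw [h1, hpow]
  have hsub : ∀ i j : ZMod n, c ^ ((i - j).val : ℤ) = c ^ (i.val : ℤ) * c ^ (-(j.val : ℤ)) := by
    intro i j
    rw [sub_eq_add_neg, hadd, hneg]
  let f : DihedralGroup n →* G :=
    { toFun := fun d => match d with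
        | DihedralGroup.r i => c ^ (i.val : ℤ)
        | DihedralGroup.sr i => x * c ^ (i.val : ℤ)
      map_one' := by
        show c ^ ((0 : ZMod n).val : ℤ) = 1
        simp
      map_mul' := by
        rintro (i | i) (j | j)
        · show c ^ ((i + j).val : ℤ) = c ^ (i.val : ℤ) * c ^ (j.val : ℤ)
          exact hadd i j
        · show x * c ^ ((j - i).val : ℤ) = c ^ (i.val : ℤ) * (x * c ^ (j.val : ℤ))
          rw [hsub, ← mul_assoc (c ^ _) x]
          have h2 := Cfsg.Agent.H1.invol_mul_zpow hx1 hy1 (-(i.val : ℤ))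
          rw [neg_neg, ← hc] at h2
          rw [← h2, mul_assoc, ← zpow_add, ← zpow_add, add_comm]
        · show x * c ^ ((i + j).val : ℤ) = x * c ^ (i.val : ℤ) * c ^ (j.val : ℤ)
          rw [hadd, mul_assoc]
        · show c ^ ((j - i).val : ℤ) = x * c ^ (i.val : ℤ) * (x * c ^ (j.val : ℤ))
          have h2 := Cfsg.Agent.H1.invol_mul_zpow hx1 hy1 (i.val : ℤ)
          rw [← hc] at h2
          rw [h2, hsub]
          calc c ^ (j.val : ℤ) * c ^ (-(i.val : ℤ)) = c ^ (-(i.val : ℤ)) * c ^ (j.val : ℤ) := by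
                rw [← zpow_add, ← zpow_add, add_comm]
            _ = c ^ (-(i.val : ℤ)) * (x * x) * c ^ (j.val : ℤ) := by rw [hx1, mul_one]
            _ = _ := by group }
  have hxc : x ∉ Subgroup.zpowers c := by
    intro h
    obtain ⟨k, hk⟩ := Subgroup.mem_zpowers_iff.mp h
    have hcx : c * x = x * c := by rw [← hk]; exact (Commute.self_zpow c k).eq
    have h2 := Cfsg.Agent.H1.invol_mul_zpow hx1 hy1 1
    rw [zpow_one, ← hc, zpow_neg, zpow_one, ← hcx] at h2
    have h3 : c = c⁻¹ := mul_right_cancel h2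
    have h4 : c * c = 1 := by
      nth_rewrite 2 [h3]; exact mul_inv_cancel c
    have h5 : c ^ (2 : ℤ) = 1 := by rw [zpow_two]; exact h4
    have hx0 := Cfsg.Agent.H1.ne_one_of_two hx
    have hy0 := Cfsg.Agent.H1.ne_one_of_two hy
    rcases Int.even_or_odd' k with ⟨l, hl | hl⟩
    · rw [hl, zpow_mul, h5, one_zpow] at hk
      exact hx0 hk.symm
    · rw [hl, zpow_add, zpow_mul, h5, one_zpow, one_mul, zpow_one] at hk
      have h6 : x * y = x := hk
      exact hy0 (mul_eq_left.mp h6)
  have hinj : Function.Injective f := by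
    rw [injective_iff_map_eq_one]
    rintro (i | i) h
    · have h1 : c ^ (i.val : ℤ) = 1 := h
      rw [zpow_natCast] at h1
      have h2 := orderOf_dvd_of_pow_eq_one h1
      have h3 : i.val = 0 := Nat.eq_zero_of_dvd_of_lt h2 (ZMod.val_lt i)
      have h4 : i = 0 := (ZMod.val_eq_zero i).mp h3
      rw [h4]; rfl
    · have h1 : x * c ^ (i.val : ℤ) = 1 := h
      exact absurd (by rw [eq_inv_of_mul_eq_one_left h1]; exact Subgroup.inv_mem _ (Subgroup.zpow_mem_zpowers _ _)) hxc
  have hrange : f.range = Subgroup.closure ({x, y} : Set G) := by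
    ext d
    rw [Cfsg.Agent.H1.mem_closure_pair_iff hx1 hy1, ← hc]
    constructor
    · rintro ⟨i | i, rfl⟩
      · exact ⟨_, Or.inl rfl⟩
      · refine ⟨-(i.val : ℤ), Or.inr ?_⟩
        exact Cfsg.Agent.H1.invol_mul_zpow hx1 hy1 _
    · rintro ⟨k, rfl | rfl⟩
      · exact ⟨DihedralGroup.r (k : ZMod n), hpow k⟩
      · refine ⟨DihedralGroup.sr ((-k : ℤ) : ZMod n), ?_⟩
        show x * c ^ ((((-k : ℤ) : ZMod n)).val : ℤ) = _
        rw [hpow]
        have := Cfsg.Agent.H1.invol_mul_zpow hx1 hy1 (-k)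
        rw [neg_neg, ← hc] at this
        exact this
  rw [← hrange]
  exact ⟨(MonoidHom.ofInjective hinj).symm⟩

end Cfsg.Agent.S0206
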