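import Cfsg.Statements.S0281
import Cfsg.Agent.H7.UniStd
import Cfsg.Agent.H7.SLCard

set_option autoImplicit false
open Cfsg
open Module Matrix Cfsg.Agent.H7 Cfsg.Agent.H7.UTv Cfsg.Agent.H7.Tv

namespace Cfsg.Agent.S0281

/-- SU_2(q) is isomorphic to SL_2(q). -/
theorem result {F K : Type*} [Field F] [Fintype F] [Field K] [Fintype K] {q : ℕ} (hF : Fintype.card F = q ^ 2) (hK : Fintype.card K = q) : Nonempty (Cfsg.SU 2 F q ≃* Matrix.SpecialLinearGroup (Fin 2) K) := by
  classical
  obtain ⟨σ, hσ, hB, hBq, hGU⟩ := hm_std hF 2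
  have hq1 := Cfsg.Agent.H7.Herm.one_lt_q hF
  -- the embedding of the fields
  obtain ⟨j⟩ : Nonempty (K →+* F) := by
    obtain ⟨p, hp⟩ := CharP.exists K
    obtain ⟨a, hpp, hpa⟩ := FiniteField.card K p
    haveI : Fact p.Prime := ⟨hpp⟩
    haveI : CharP F p := by
      have h1 : (p : F) = 0 := by
        have h2 := FiniteField.cast_card_eq_zero F
        rw [hF, ← hK, hpa] at h2
        push_cast at h2
        exact (pow_eq_zero_iff a.ne_zero).1 ((pow_eq_zero_iff two_ne_zero).1 h2)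
      exact (CharP.charP_iff_prime_eq_zero hpp).2 h1
    letI := ZMod.algebra K p
    letI := ZMod.algebra F p
    have h3 : Module.finrank (ZMod p) K ∣ Module.finrank (ZMod p) F := by
      have e1 := Module.card_eq_pow_finrank (K := ZMod p) (V := K)
      have e2 := Module.card_eq_pow_finrank (K := ZMod p) (V := F)
      rw [ZMod.card] at e1 e2
      rw [hF, ← hK, e1, ← pow_mul] at e2
      have e3 := Nat.pow_right_injective hpp.two_le e2
      exact ⟨2, e3.symm⟩
    obtain ⟨φ⟩ := FiniteField.nonempty_algHom_of_finrank_dvd h3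
    exact ⟨φ.toRingHom⟩
  have hj : ∀ x, σ (j x) = j x := by
    intro x
    rw [hσ, ← map_pow, ← hK, FiniteField.pow_card]
  obtain ⟨e, -, f, -, he, hf, hef⟩ := exists_hyp hB (nd_top hB) (by rw [finrank_top, finrank_fintype_fun_eq_card]; simp)
  have hfe : Cfsg.Agent.H7.Herm.hB 2 σ f e = 1 := by rw [← hB.symm, hef, map_one]
  obtain ⟨k, hk0, hk⟩ := hB.exists_tz
  have hσk : σ k = -k := by rw [eq_neg_iff_add_eq_zero, add_comm]; exact hk
  let Pm : Matrix (Fin 2) (Fin 2) F := Matrix.of ![![e 0, k * f 0], ![e 1, k * f 1]]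
  have hPm : ∀ u : Fin 2 → F, Pm *ᵥ u = u 0 • e + (u 1 * k) • f := by
    intro u
    funext i
    fin_cases i <;> simp [Pm, Matrix.mulVec, dotProduct, Fin.sum_univ_two] <;> ring
  have hform : ∀ u v : Fin 2 → F, Cfsg.Agent.H7.Herm.hB 2 σ (Pm *ᵥ u) (Pm *ᵥ v) = k * (σ (u 0) * v 1 - σ (u 1) * v 0) := by
    intro u v
    rw [hPm, hPm]
    simp only [map_add, LinearMap.add_apply, map_smul, LinearMap.map_smulₛₗ, LinearMap.smul_apply, smul_eq_mul, he, hf, hef,
      hfe, map_mul, hσk]
    ring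
  have hdet : IsUnit Pm.det := by
    rw [isUnit_iff_ne_zero]
    intro h
    obtain ⟨v, hv0, hv⟩ := Matrix.exists_mulVec_eq_zero_iff.2 h
    have h1 := hform ![1, 0] v
    have h2 := hform ![0, 1] v
    rw [hv, map_zero] at h1 h2
    simp at h1 h2
    apply hv0
    funext i
    fin_cases i
    · exact h2.resolve_left hk0
    · exact h1.resolve_left hk0
  let Pg : GL (Fin 2) F := Matrix.GeneralLinearGroup.mk'' Pm hdet
  let ψ : SpecialLinearGroup (Fin 2) K →* GL (Fin 2) F :=
    (MulAut.conj Pg).toMonoidHom.comp (SpecialLinearGroup.toGL.comp (SpecialLinearGroup.map j))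
  have hψinj : Function.Injective ψ := by
    intro a b hab
    have h1 : SpecialLinearGroup.toGL (SpecialLinearGroup.map j a) = SpecialLinearGroup.toGL (SpecialLinearGroup.map j b) :=
      (MulAut.conj Pg).injective hab
    have h2 := SpecialLinearGroup.toGL_injective h1
    apply Matrix.SpecialLinearGroup.ext
    intro i i'
    have h3 := congrArg (fun M : SpecialLinearGroup (Fin 2) F => (M : Matrix (Fin 2) (Fin 2) F) i i') h2
    exact j.injective h3
  have hap : ∀ (g : SpecialLinearGroup (Fin 2) K) (u : Fin 2 → F), ap (ψ g) (Pm *ᵥ u) =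
      Pm *ᵥ (((SpecialLinearGroup.map j g : SpecialLinearGroup (Fin 2) F) : Matrix (Fin 2) (Fin 2) F) *ᵥ u) := by
    intro g u
    have h1 : ψ g = Pg * SpecialLinearGroup.toGL (SpecialLinearGroup.map j g) * Pg⁻¹ := rfl
    have h2 : Pm *ᵥ u = ap Pg u := rfl
    rw [h1, h2, ap_mul, ap_mul, ap_inv_ap]
    rfl
  have hle : ψ.range ≤ (suE 2 F q).range := by
    rw [suE_range hGU]
    rintro _ ⟨g, rfl⟩
    refine ⟨?_, ?_⟩
    · intro x y
      obtain ⟨u, rfl⟩ : ∃ u, Pm *ᵥ u = x := ⟨ap Pg⁻¹ x, ap_ap_inv Pg x⟩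
      obtain ⟨v, rfl⟩ : ∃ v, Pm *ᵥ v = y := ⟨ap Pg⁻¹ y, ap_ap_inv Pg y⟩
      rw [hap, hap, hform, hform]
      have hd : (g : Matrix (Fin 2) (Fin 2) K) 0 0 * (g : Matrix (Fin 2) (Fin 2) K) 1 1 -
          (g : Matrix (Fin 2) (Fin 2) K) 0 1 * (g : Matrix (Fin 2) (Fin 2) K) 1 0 = 1 := by
        rw [← Matrix.det_fin_two]; exact g.2
      have hd' := congrArg j hd
      rw [map_sub, map_mul, map_mul, map_one] at hd'
      have hg : ∀ i i', ((SpecialLinearGroup.map j g : SpecialLinearGroup (Fin 2) F) : Matrix (Fin 2) (Fin 2) F) i i' =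
        j ((g : Matrix (Fin 2) (Fin 2) K) i i') := fun i i' => rfl
      simp only [Matrix.mulVec, dotProduct, Fin.sum_univ_two, hg, map_add, map_mul, hj]
      linear_combination (k * (σ (u 0) * v 1 - σ (u 1) * v 0)) * hd'
    · rw [mem_SL_iff]
      have h1 : ψ g = Pg * SpecialLinearGroup.toGL (SpecialLinearGroup.map j g) * Pg⁻¹ := rfl
      have h2 : GeneralLinearGroup.det (ψ g) = 1 := by
        rw [h1, map_mul, map_mul, map_inv, mul_comm, inv_mul_cancel_left]
        apply Units.ext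
        exact (SpecialLinearGroup.map j g).2
      exact congrArg Units.val h2
  have hcard : Nat.card (SU 2 F q) ≤ Nat.card (SpecialLinearGroup (Fin 2) K) := by
    have h1 := Cfsg.Agent.H7.Herm.card_SU hF 2 (by norm_num)
    rw [Cfsg.Agent.H7.Herm.card_GU hF 2] at h1
    have h2 := Cfsg.Agent.H7.Tv.card_gl_eq_mul (F := K) 2 (by norm_num)
    have h3 := Matrix.card_GL_field (𝔽 := K) 2
    rw [h2, hK, Fin.prod_univ_two] at h3
    rw [Finset.prod_range_succ, Finset.prod_range_succ, Finset.prod_range_zero] at h1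
    obtain ⟨r, rfl⟩ : ∃ r, q = r + 1 := ⟨q - 1, by omega⟩
    have e1 : (r + 1) ^ 2 - (r + 1) ^ 0 = r * (r + 2) := by
      rw [pow_zero]
      apply Nat.sub_eq_of_eq_add
      ring
    have e2 : (r + 1) ^ 2 - (r + 1) ^ 1 = r * (r + 1) := by
      rw [pow_one]
      apply Nat.sub_eq_of_eq_add
      ring
    have e3 : (r + 1) ^ (1 + 1) - 1 = r * (r + 2) := by
      apply Nat.sub_eq_of_eq_add
      ring
    simp only [Fin.val_zero, Fin.val_one, Nat.add_sub_cancel] at h3
    rw [e1, e2] at h3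
    rw [if_pos (by decide : Even 0), if_neg (by decide : ¬ Even 1), one_mul, e3, show 2 * (2 - 1) / 2 = 1 from rfl, pow_one] at h1

    have hr : 0 < r := by omega
    have h4 : Nat.card (SpecialLinearGroup (Fin 2) K) = (r + 1) * (r * (r + 2)) := by
      apply Nat.eq_of_mul_eq_mul_left hr
      rw [h3]
      ring
    have h5 : Nat.card (SU 2 F (r + 1)) = (r + 1) * (r * (r + 2)) := by
      apply Nat.eq_of_mul_eq_mul_left (show 0 < r + 1 + 1 by omega)
      rw [h1]
      ring
    rw [h4, h5]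
  have hinjS := suE_inj 2 (F := F) (q := q)
  have heq : ψ.range = (suE 2 F q).range := by
    apply Subgroup.eq_of_le_of_card_ge hle
    rw [Nat.card_congr (MonoidHom.ofInjective hinjS).symm.toEquiv, Nat.card_congr (MonoidHom.ofInjective hψinj).symm.toEquiv]
    exact hcard
  exact ⟨((MonoidHom.ofInjective hψinj).trans ((MulEquiv.subgroupCongr heq).trans (MonoidHom.ofInjective hinjS).symm)).symm⟩

end Cfsg.Agent.S0281
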