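import Cfsg.Statements.S2352
import Mathlib
import Cfsg.Agent.H8.LAW1

set_option autoImplicit false
open Cfsg

namespace Cfsg.Agent.S2352



/-- A non-trivial law holds in only finitely many alternating groups: for every non-trivial element w of the free group on countably many generators there is N such that for all n ≥ N some substitution of elements of the alternating group of degree n into w is not the identity. -/
theorem result (w : FreeGroup ℕ) (hw : w ≠ 1) :
    ∃ N : ℕ, ∀ n : ℕ, N ≤ n → ∃ f : ℕ → alternatingGroup (Fin n), FreeGroup.lift f w ≠ 1 := by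
  obtain ⟨j, j', L', hseq⟩ := Cfsg.Agent.H8.Law.word_ne hw
  have hch := Cfsg.Agent.H8.Law.word_chain w
  obtain ⟨L, hL⟩ : ∃ L, L = Cfsg.Agent.H8.Law.seq w.toWord := ⟨_, rfl⟩
  rw [← hL] at hch hseq
  refine ⟨2 * (L.length + 1), fun n hn => ?_⟩
  obtain ⟨φ, hφ⟩ := Cfsg.Agent.H8.Law.perm_to_alt (L.length + 1) n hn
  refine ⟨fun i => φ (Cfsg.Agent.H8.Law.stepP L hch (2 * i) * Cfsg.Agent.H8.Law.stepP L hch (2 * i + 1)), fun h => ?_⟩
  have h2 : (φ.comp (FreeGroup.lift (fun i => Cfsg.Agent.H8.Law.stepP L hch (2 * i) * Cfsg.Agent.H8.Law.stepP L hch (2 * i + 1)))) =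
      FreeGroup.lift (fun i => φ (Cfsg.Agent.H8.Law.stepP L hch (2 * i) * Cfsg.Agent.H8.Law.stepP L hch (2 * i + 1))) := by
    ext i
    simp
  rw [← h2, MonoidHom.comp_apply] at h
  have h3 := hφ (h.trans (map_one φ).symm)
  rw [Cfsg.Agent.H8.Law.lift_eq _ (Cfsg.Agent.H8.Law.stepP_sq L hch), ← hL] at h3
  exact Cfsg.Agent.H8.Law.stepP_prod_ne L hch (by rw [hseq]; simp) h3

end Cfsg.Agent.S2352
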