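import Cfsg.Statements.S2353
import Mathlib
import Cfsg.Agent.H8.LAW1

set_option autoImplicit false
open Cfsg

namespace Cfsg.Agent.S2353



/-- A non-trivial law holds in PSL_2 over only finitely many finite fields: for every non-trivial element w of the free group on countably many generators there is N such that over every finite field with at least N elements some substitution of elements of PSL_2 into w is not the identity. -/
theorem result (w : FreeGroup ℕ) (hw : w ≠ 1) :
    ∃ N : ℕ, ∀ (F : Type*) [Field F] [Fintype F], N ≤ Fintype.card F →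
      ∃ f : ℕ → Matrix.ProjectiveSpecialLinearGroup (Fin 2) F, FreeGroup.lift f w ≠ 1 := by
  obtain ⟨N, hN⟩ := Cfsg.Agent.H8.Law.exists_t w hw
  refine ⟨N, fun F _ _ hF => ?_⟩
  obtain ⟨t, ht⟩ := hN F hF
  let π : Matrix.SpecialLinearGroup (Fin 2) F →* Matrix.ProjectiveSpecialLinearGroup (Fin 2) F := QuotientGroup.mk' _
  let z : ℕ → Matrix.ProjectiveSpecialLinearGroup (Fin 2) F := fun n => π (Cfsg.Agent.H8.Law.zm (t ^ (n + 1)))
  have hz : ∀ j, z j * z j = 1 := by
    intro j
    show π _ * π _ = 1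
    rw [← map_mul]
    refine (QuotientGroup.eq_one_iff _).2 ?_
    rw [Matrix.SpecialLinearGroup.mem_center_iff]
    refine ⟨-1, by simp, ?_⟩
    rw [Cfsg.Agent.H8.Law.zm_sq, map_neg, map_one]
  refine ⟨fun i => z (2 * i) * z (2 * i + 1), fun h => ?_⟩
  rw [Cfsg.Agent.H8.Law.lift_eq z hz] at h
  have h1 : ((Cfsg.Agent.H8.Law.seq w.toWord).map z).prod = π (((Cfsg.Agent.H8.Law.seq w.toWord).map (fun n => Cfsg.Agent.H8.Law.zm (t ^ (n + 1)))).prod) := by
    rw [map_list_prod, List.map_map]
    rfl
  rw [h1] at h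
  have h2 := (QuotientGroup.eq_one_iff _).1 h
  obtain ⟨r, -, hr⟩ := Matrix.SpecialLinearGroup.mem_center_iff.1 h2
  apply ht
  rw [← hr]
  simp

end Cfsg.Agent.S2353
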