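import Cfsg.Statements.S0058
import Mathlib
import Cfsg.Agent.L0.Coprime2

set_option autoImplicit false
open Cfsg

namespace Cfsg.Agent.S0058

open scoped commutatorElement


/-- Generation by centralisers: when a noncyclic abelian group A normalises K with coprime orders, K is generated by the fixed-point subgroups of the nonidentity elements of A. -/
theorem result {G : Type*} [Group G] [Finite G] (A K : Subgroup G)
    [IsMulCommutative A] (hA : ¬ IsCyclic A) (hAK : A ≤ Subgroup.normalizer (K : Set G)) (hcop : (Nat.card A).Coprime (Nat.card K)) :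
    (⨆ a ∈ {a : G | a ∈ A ∧ a ≠ 1}, K ⊓ Subgroup.centralizer {a}) = K := by
  have h := Cfsg.Agent.L0.closure_centralizers_eq (E := A) (N := K) inferInstance hA hAK hcop
  apply le_antisymm
  · exact iSup₂_le fun a _ => inf_le_left
  · conv_lhs => rw [← h]
    rw [Subgroup.closure_le]
    rintro x ⟨hxK, v, hv, hv1, hvx⟩
    have h1 : x ∈ K ⊓ Subgroup.centralizer {v} := ⟨hxK, Subgroup.mem_centralizer_singleton_iff.mpr hvx.symm⟩
    exact (le_iSup₂_of_le (f := fun a (_ : a ∈ {a : G | a ∈ A ∧ a ≠ 1}) => K ⊓ Subgroup.centralizer {a}) v ⟨hv, hv1⟩ le_rfl) h1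

end Cfsg.Agent.S0058
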