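import Cfsg.Statements.S0037
import Mathlib
import Cfsg.Agent.H1.Frob1

set_option autoImplicit false
open Pointwise
open Cfsg

namespace Cfsg.Agent.S0037

open scoped commutatorElement Pointwise
open Cfsg in
theorem aux {G : Type*} [Group G] [Finite G] (H H₀ : Subgroup G)
    (hH : IsFrobeniusComplement H) (hH₀ : IsFrobeniusComplement H₀) (hle : Nat.card H₀ ≤ Nat.card H)
    (hD : H ⊓ H₀ ≠ ⊥) : H₀ ≤ H := by
  classical
  by_contra hno
  set D := H ⊓ H₀ with hDd
  have hH' := (Cfsg.Agent.H3.isFrobeniusComplement_iff H).mp hH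
  have hH₀' := (Cfsg.Agent.H3.isFrobeniusComplement_iff H₀).mp hH₀
  have hDF : IsFrobeniusComplement D := by
    rw [Cfsg.Agent.H3.isFrobeniusComplement_iff]
    refine ⟨hD, ?_, ?_⟩
    · intro h
      apply hH'.2.1
      rw [eq_top_iff, ← h]; exact inf_le_left
    · intro g hg x hx hgx
      by_cases h1 : g ∈ H
      · have h2 : g ∉ H₀ := fun h => hg ⟨h1, h⟩
        exact hH₀'.2.2 g h2 x hx.2 hgx.2
      · exact hH'.2.2 g h1 x hx.1 hgx.1
  -- every element of H in a conjugate of H₀ is in a conjugate of D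
  have key : ∀ x ∈ H, x ≠ 1 → ∀ g : G, g⁻¹ * x * g ∈ H₀ → ∃ k : G, k⁻¹ * x * k ∈ D := by
    intro x hx hx1 g hg
    -- A = D as subgroup of H, B = H ∩ ^g H₀ as a subgroup of H
    have hB0 : H ⊓ (MulAut.conj g • H₀) ≠ ⊥ := by
      intro h
      have : x ∈ H ⊓ (MulAut.conj g • H₀) := ⟨hx, (Cfsg.Agent.H3.mem_conj_smul_iff H₀ g x).mpr hg⟩
      rw [h, Subgroup.mem_bot] at this
      exact hx1 this
    by_cases hBtop : H ≤ MulAut.conj g • H₀
    · exfalso
      have hcard : Nat.card (MulAut.conj g • H₀ : Subgroup G) = Nat.card H₀ := by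
        rw [Cfsg.Agent.H1.conj_smul_eq_map]
        exact Nat.card_congr (H₀.equivMapOfInjective _ (MulAut.conj g).injective).symm.toEquiv
      have heq : H = MulAut.conj g • H₀ := Subgroup.eq_of_le_of_card_ge hBtop (by rw [hcard]; exact hle)
      have hg0 : g ∈ H₀ := by
        by_contra hgn
        apply hD
        rw [eq_bot_iff]
        intro y hy
        rw [Subgroup.mem_bot]
        have hy1 : y ∈ H := hy.1
        rw [heq, Cfsg.Agent.H3.mem_conj_smul_iff] at hy1
        exact hH₀'.2.2 g hgn y hy.2 hy1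
      apply hno
      rw [heq]
      intro y hy
      rw [Cfsg.Agent.H3.mem_conj_smul_iff]
      exact H₀.mul_mem (H₀.mul_mem (H₀.inv_mem hg0) hy) hg0
    · have hA : IsFrobeniusComplement (D.subgroupOf H) := by
        rw [Cfsg.Agent.H3.isFrobeniusComplement_iff]
        refine ⟨?_, ?_, ?_⟩
        · intro h
          rw [Subgroup.subgroupOf_eq_bot] at h
          apply hD
          rw [disjoint_iff, inf_eq_left.mpr (inf_le_left : D ≤ H)] at h
          exact h
        · intro h
          rw [Subgroup.subgroupOf_eq_top] at h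
          have h2 : H ≤ H₀ := h.trans inf_le_right
          have h3 : H = H₀ := Subgroup.eq_of_le_of_card_ge h2 hle
          exact hno h3.symm.le
        · intro a ha y hy hay
          have ha' : (a : G) ∉ D := ha
          have := ((Cfsg.Agent.H3.isFrobeniusComplement_iff D).mp hDF).2.2 a ha' y hy hay
          exact Subtype.ext this
      have hB : IsFrobeniusComplement ((MulAut.conj g • H₀ : Subgroup G).subgroupOf H) := by
        rw [Cfsg.Agent.H3.isFrobeniusComplement_iff]
        refine ⟨?_, ?_, ?_⟩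
        · intro h
          rw [Subgroup.subgroupOf_eq_bot, disjoint_iff, inf_comm] at h
          exact hB0 h
        · intro h
          rw [Subgroup.subgroupOf_eq_top] at h
          exact hBtop h
        · intro a ha y hy hay
          rw [Subgroup.mem_subgroupOf, Cfsg.Agent.H3.mem_conj_smul_iff] at ha hy hay
          have h5 := hH₀'.2.2 (g⁻¹ * a * g) ha (g⁻¹ * y * g) hy (by
            have e : (g⁻¹ * (a : G) * g)⁻¹ * (g⁻¹ * y * g) * (g⁻¹ * a * g) = g⁻¹ * ((a⁻¹ * y * a : H) : G) * g := by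
              push_cast; group
            rw [e]; exact hay)
          apply Subtype.ext
          have : (y : G) = g * (g⁻¹ * y * g) * g⁻¹ := by group
          rw [this, h5]; simp
      obtain ⟨k, z, hz1, hzD, hzB⟩ := Cfsg.Agent.H1.exists_conj_inf_ne_bot hA hB
      -- z ∈ D, k⁻¹ z k ∈ ^g H₀ , k ∈ H: so ^{k} H₀^g meets H₀
      rw [Subgroup.mem_subgroupOf] at hzD
      rw [Subgroup.mem_subgroupOf, Cfsg.Agent.H3.mem_conj_smul_iff] at hzB
      have hkg : (k : G) * g ∈ H₀ := by
        by_contra hn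
        apply hz1
        apply Subtype.ext
        apply hH₀'.2.2 ((k : G) * g) hn z hzD.2
        have e : ((k : G) * g)⁻¹ * z * (k * g) = g⁻¹ * ((k⁻¹ * z * k : H) : G) * g := by push_cast; group
        rw [e]; exact hzB
      refine ⟨(k : G)⁻¹, ?_, ?_⟩
      · show (k : G)⁻¹⁻¹ * x * (k : G)⁻¹ ∈ H
        rw [inv_inv]
        exact H.mul_mem (H.mul_mem k.2 hx) (H.inv_mem k.2)
      · show (k : G)⁻¹⁻¹ * x * (k : G)⁻¹ ∈ H₀
        have e : (k : G)⁻¹⁻¹ * x * (k : G)⁻¹ = (k * g) * (g⁻¹ * x * g) * (k * g)⁻¹ := by group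
        rw [e]
        exact H₀.mul_mem (H₀.mul_mem hkg hg) (H₀.inv_mem hkg)
  -- counting
  have hinter : ((frobeniusKernel H ∪ frobeniusKernel H₀ : Set G)) = frobeniusKernel D := by
    ext z
    rw [Set.mem_union, Cfsg.Agent.H3.mem_frobeniusKernel_iff, Cfsg.Agent.H3.mem_frobeniusKernel_iff, Cfsg.Agent.H3.mem_frobeniusKernel_iff]
    constructor
    · rintro ((h | h) | (h | h))
      · exact Or.inl h
      · exact Or.inr fun g hg => h g hg.1
      · exact Or.inl h
      · exact Or.inr fun g hg => h g hg.2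
    · intro h
      rcases h with h | h
      · exact Or.inl (Or.inl h)
      · by_cases hz1 : z = 1
        · exact Or.inl (Or.inl hz1)
        by_contra hcon
        push Not at hcon
        obtain ⟨⟨-, g, hg⟩, -, k, hk⟩ := hcon
        obtain ⟨m, hm⟩ := key (g⁻¹ * z * g) hg (by
          intro h2
          apply hz1
          have : z = g * (g⁻¹ * z * g) * g⁻¹ := by group
          rw [this, h2]; group) (g⁻¹ * k) (by
            have : (g⁻¹ * k)⁻¹ * (g⁻¹ * z * g) * (g⁻¹ * k) = k⁻¹ * z * k := by group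
            rw [this]; exact hk)
        apply h (g * m)
        have : (g * m)⁻¹ * z * (g * m) = m⁻¹ * (g⁻¹ * z * g) * m := by group
        rw [this]; exact hm
  have h2 := Set.ncard_union_add_ncard_inter (frobeniusKernel H) (frobeniusKernel H₀)
  rw [hinter] at h2
  have h3 : 0 < (frobeniusKernel H ∩ frobeniusKernel H₀ : Set G).ncard := by
    rw [Set.ncard_pos]
    exact ⟨1, (Cfsg.Agent.H3.mem_frobeniusKernel_iff H 1).mpr (Or.inl rfl), (Cfsg.Agent.H3.mem_frobeniusKernel_iff H₀ 1).mpr (Or.inl rfl)⟩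
  have h4 : (frobeniusKernel H).ncard = H.index := Cfsg.Agent.H3.card_frobeniusKernel H hH
  have h5 : (frobeniusKernel H₀).ncard = H₀.index := Cfsg.Agent.H3.card_frobeniusKernel H₀ hH₀
  have h6 : (frobeniusKernel D).ncard = D.index := Cfsg.Agent.H3.card_frobeniusKernel D hDF
  rw [h4, h5, h6] at h2
  have h7 : D.relIndex H * H.index = D.index := Subgroup.relIndex_mul_index inf_le_left
  have h8 : D.relIndex H₀ * H₀.index = D.index := Subgroup.relIndex_mul_index inf_le_right
  have h9 : 2 ≤ D.relIndex H := by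
    have hne0 : D.relIndex H ≠ 0 := by
      intro h; rw [h, zero_mul] at h7; exact D.index_ne_zero_of_finite h7.symm
    have hne1 : D.relIndex H ≠ 1 := by
      rw [Ne, Subgroup.relIndex_eq_one]
      intro h
      have h2 : H ≤ H₀ := h.trans inf_le_right
      have h3 : H = H₀ := Subgroup.eq_of_le_of_card_ge h2 hle
      exact hno h3.symm.le
    omega
  have h10 : 2 ≤ D.relIndex H₀ := by
    have hne0 : D.relIndex H₀ ≠ 0 := by
      intro h; rw [h, zero_mul] at h8; exact D.index_ne_zero_of_finite h8.symm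
    have hne1 : D.relIndex H₀ ≠ 1 := by
      rw [Ne, Subgroup.relIndex_eq_one]
      intro h
      exact hno (h.trans inf_le_left)
    omega
  have h11 : 2 * H.index ≤ D.index := by rw [← h7]; exact Nat.mul_le_mul_right _ h9
  have h12 : 2 * H₀.index ≤ D.index := by rw [← h8]; exact Nat.mul_le_mul_right _ h10
  omega

/-- Of two Frobenius complements in one finite group, the one of smaller (or equal) order is conjugate to a subgroup of the other. -/
theorem result {G : Type*} [Group G] [Finite G] (H H₀ : Subgroup G)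
    (hH : Cfsg.IsFrobeniusComplement H) (hH₀ : Cfsg.IsFrobeniusComplement H₀) (hle : Nat.card H₀ ≤ Nat.card H) :
    ∃ g : G, MulAut.conj g • H₀ ≤ H := by
  obtain ⟨g, z, hz1, hzH, hzH₀⟩ := Cfsg.Agent.H1.exists_conj_inf_ne_bot hH hH₀
  refine ⟨g, ?_⟩
  have hcard : Nat.card (MulAut.conj g • H₀ : Subgroup G) = Nat.card H₀ := by
    rw [Cfsg.Agent.H1.conj_smul_eq_map]
    exact Nat.card_congr (H₀.equivMapOfInjective _ (MulAut.conj g).injective).symm.toEquiv
  apply aux H _ hH _ (by rw [hcard]; exact hle)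
  · intro h
    have : z ∈ H ⊓ (MulAut.conj g • H₀) := ⟨hzH, (Cfsg.Agent.H3.mem_conj_smul_iff H₀ g z).mpr hzH₀⟩
    rw [h, Subgroup.mem_bot] at this
    exact hz1 this
  · rw [Cfsg.Agent.H3.isFrobeniusComplement_iff] at hH₀ ⊢
    refine ⟨?_, ?_, ?_⟩
    · intro h
      apply hH₀.1
      rw [← Subgroup.card_eq_one, ← hcard, h, Subgroup.card_bot]
    · intro h
      apply hH₀.2.1
      apply Subgroup.eq_top_of_card_eq
      rw [← hcard, h, Subgroup.card_top]
    · intro a ha y hy hay
      rw [Cfsg.Agent.H3.mem_conj_smul_iff] at ha hy hay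
      have h5 := hH₀.2.2 (g⁻¹ * a * g) ha (g⁻¹ * y * g) hy (by
        have e : (g⁻¹ * (a : G) * g)⁻¹ * (g⁻¹ * y * g) * (g⁻¹ * a * g) = g⁻¹ * (a⁻¹ * y * a) * g := by group
        rw [e]; exact hay)
      have : y = g * (g⁻¹ * y * g) * g⁻¹ := by group
      rw [this, h5]; simp

end Cfsg.Agent.S0037
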