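import Cfsg.Statements.S0063
import Mathlib

set_option autoImplicit false
open Cfsg

namespace Cfsg.Agent.S0063

/-- A finite group of prime-power order p ^ m with m > 1 is nilpotent of class at most m - 1. -/
theorem result {G : Type*} [Group G] [Finite G] (p m : ℕ) [Fact p.Prime]
    (hG : Nat.card G = p ^ m) (hm : 1 < m) : Group.nilpotencyClass G ≤ m - 1 := by
  induction m using Nat.strong_induction_on generalizing G with
  | _ m ih =>
    have hpg : IsPGroup p G := IsPGroup.of_card hG
    have hnil : Group.IsNilpotent G := hpg.isNilpotent
    have hnt : Nontrivial G := by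
      apply (Finite.one_lt_card_iff_nontrivial).mp
      rw [hG]; exact Nat.one_lt_pow (by omega) (Fact.out : p.Prime).one_lt
    have hZ : Nontrivial (Subgroup.center G) := hpg.center_nontrivial
    obtain ⟨k, hk⟩ := IsPGroup.iff_card.mp (hpg.to_quotient (Subgroup.center G))
    have hcard := Subgroup.card_eq_card_quotient_mul_card_subgroup (Subgroup.center G)
    have hlt : Nat.card (G ⧸ Subgroup.center G) < Nat.card G := by
      rw [hcard]
      exact lt_mul_of_one_lt_right Nat.card_pos (Finite.one_lt_card_iff_nontrivial.mpr hZ)
    have hkm : k < m := by
      rw [hG, hk] at hlt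
      exact (Nat.pow_lt_pow_iff_right (Fact.out : p.Prime).one_lt).mp hlt
    rw [Group.nilpotencyClass_eq_quotient_center_plus_one]
    by_cases hk1 : 1 < k
    · have := ih k hkm hk hk1
      omega
    · -- G / Z cyclic, so G is abelian
      have hcyc : IsCyclic (G ⧸ Subgroup.center G) := by
        have : k = 0 ∨ k = 1 := by omega
        rcases this with rfl | rfl
        · rw [pow_zero] at hk
          have := (Nat.card_eq_one_iff_unique.mp hk).1
          infer_instance
        · rw [pow_one] at hk
          exact isCyclic_of_prime_card hk
      have hcomm : IsMulCommutative G := isMulCommutative_of_isCyclic_quotient_center_self G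
      have htop : Subgroup.center G = ⊤ := by
        rw [eq_top_iff]; intro x _
        rw [Subgroup.mem_center_iff]; intro g; exact mul_comm' g x
      have : Subsingleton (G ⧸ Subgroup.center G) := by
        rw [htop]; exact QuotientGroup.subsingleton_quotient_top
      rw [Group.nilpotencyClass_zero_iff_subsingleton.mpr this]
      omega

end Cfsg.Agent.S0063
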