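import Cfsg.Statements.S0111
import Mathlib
import Cfsg.Agent.H1.Invol

set_option autoImplicit false
open Cfsg

namespace Cfsg.Agent.S0111

open scoped commutatorElement Pointwise


/-- The Thompson transfer lemma states that an involution of a Sylow 2-subgroup P lying outside a subgroup Q of index 2 in P either lies outside some normal subgroup of index 2 in G or is conjugate to an element of Q. -/
theorem result {G : Type*} [Group G] [Finite G] (P : Sylow 2 G) (Q : Subgroup G) (hQP : Q ≤ (P : Subgroup G)) (hQi : Q.relIndex (P : Subgroup G) = 2) (u : G) (hu : orderOf u = 2) (huP : u ∈ (P : Subgroup G)) (huQ : u ∉ Q) : (∃ M : Subgroup G, M.Normal ∧ M.index = 2 ∧ u ∉ M) ∨ ∃ g : G, g * u * g⁻¹ ∈ Q := by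
  classical
  by_cases hconj : ∃ g : G, g * u * g⁻¹ ∈ Q
  · exact Or.inr hconj
  left
  push Not at hconj
  haveI : Fintype (G ⧸ Q) := Fintype.ofFinite _
  let f : G →* Equiv.Perm (G ⧸ Q) := MulAction.toPermHom G (G ⧸ Q)
  have hu1 := Cfsg.Agent.H1.inv_mul_self_of_two hu
  have hfix : ∀ c : G ⧸ Q, f u c ≠ c := by
    intro c
    induction c using QuotientGroup.induction_on with
    | H g =>
      intro h
      have h1 : ((u * g : G) : G ⧸ Q) = (g : G ⧸ Q) := h
      rw [eq_comm, QuotientGroup.eq] at h1
      apply hconj g⁻¹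
      rw [inv_inv, mul_assoc]; exact h1
  have hidx : Q.index = 2 * (P : Subgroup G).index := by
    rw [← Subgroup.relIndex_mul_index hQP, hQi]
  have hne : f u ≠ 1 := by
    intro h
    apply hfix ((1 : G) : G ⧸ Q)
    rw [h]; rfl
  have hord : orderOf (f u) = 2 := by
    rw [Cfsg.Agent.H1.orderOf_eq_two_iff']
    exact ⟨hne, by rw [← map_mul, hu1, map_one]⟩
  obtain ⟨k, hk⟩ := Equiv.Perm.cycleType_prime_order (σ := f u) (by rw [hord]; exact Nat.prime_two)
  have hsupp : (f u).support = Finset.univ := by
    ext c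
    simp only [Equiv.Perm.mem_support, Finset.mem_univ, iff_true]
    exact hfix c
  have hsum : (f u).cycleType.sum = Q.index := by
    rw [Equiv.Perm.sum_cycleType, hsupp, Finset.card_univ, Subgroup.index_eq_card, Nat.card_eq_fintype_card]
  have hk2 : 2 * (k + 1) = 2 * (P : Subgroup G).index := by
    rw [← hidx, ← hsum, hk, hord, Multiset.sum_replicate, smul_eq_mul, mul_comm]
  have hkodd : Odd (k + 1) := by
    have h1 : k + 1 = (P : Subgroup G).index := by omega
    rw [h1, ← Nat.not_even_iff_odd, even_iff_two_dvd]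
    exact P.not_dvd_index
  have hsign : Equiv.Perm.sign (f u) = -1 := by
    rw [Equiv.Perm.sign_of_cycleType, hk, hord, Multiset.sum_replicate, Multiset.card_replicate, smul_eq_mul]
    have h2 : Odd ((k + 1) * 2 + (k + 1)) := by
      obtain ⟨l, hl⟩ := hkodd
      exact ⟨3 * l + 1, by omega⟩
    exact h2.neg_one_pow
  let χ : G →* ℤˣ := Equiv.Perm.sign.comp f
  have hχu : χ u = -1 := hsign
  refine ⟨χ.ker, inferInstance, ?_, ?_⟩
  · have hsurj : Function.Surjective χ := by
      intro z
      rcases Int.units_eq_one_or z with rfl | rfl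
      · exact ⟨1, map_one χ⟩
      · exact ⟨u, hχu⟩
    rw [Subgroup.index_ker, MonoidHom.range_eq_top.mpr hsurj, Subgroup.card_top, Nat.card_eq_fintype_card]
    rfl
  · intro h
    rw [MonoidHom.mem_ker, hχu] at h
    exact absurd h (by decide)

end Cfsg.Agent.S0111
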