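import Cfsg.Statements.S0126
import Mathlib
import Cfsg.Agent.H1.CycNorm

set_option autoImplicit false
open Cfsg

namespace Cfsg.Agent.S0126

open scoped commutatorElement Pointwise


/-- For odd p, every non-cyclic p-group contains a normal elementary abelian subgroup of order p^2. -/
theorem result {R : Type*} [Group R] [Finite R] {p : ℕ} [Fact p.Prime] (hp : p ≠ 2) (hR : IsPGroup p R) (hnc : ¬ IsCyclic R) : ∃ A : Subgroup R, A.Normal ∧ Cfsg.IsElementaryAbelian p A ∧ Nat.card A = p ^ 2 := by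
  have hpp : p.Prime := Fact.out
  have comm_of_card : ∀ A : Subgroup R, Nat.card A = p ^ 2 → IsMulCommutative A := by
    intro A hA
    letI := IsPGroup.commGroupOfCardEqPrimeSq hA
    exact ⟨⟨fun a b => mul_comm a b⟩⟩
  by_cases hB : ∃ B : Subgroup R, B.Normal ∧ IsMulCommutative B ∧ ¬ IsCyclic B
  · obtain ⟨B, hBn, hBc, hBcy⟩ := hB
    have h1 := Cfsg.Agent.H1.card_omegaAb_ge hR hBcy
    haveI : (Cfsg.Agent.H1.omegaAb p B).Normal := Cfsg.Agent.H1.omegaAb_normal
    obtain ⟨b, hb⟩ := IsPGroup.iff_card.mp (hR.to_subgroup (Cfsg.Agent.H1.omegaAb p B))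
    rw [hb] at h1
    have h2 : 2 ≤ b := (Nat.pow_le_pow_iff_right hpp.one_lt).mp h1
    obtain ⟨L, hLn, hLB, hLc⟩ := Cfsg.Agent.H1.exists_normal_le_card hR (Cfsg.Agent.H1.omegaAb p B) hb h2
    exact ⟨L, hLn, ⟨comm_of_card L hLc, fun a ha => (hLB ha).2⟩, hLc⟩
  · push Not at hB
    obtain ⟨A, hAn, hAc, hmax⟩ := Cfsg.Agent.H1.exists_maximal_normal_abelian (G := R)
    have hAcy := hB A hAn hAc
    have hAt : A < ⊤ := by
      rw [lt_top_iff_ne_top]
      rintro rfl
      apply hnc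
      exact (Subgroup.topEquiv (G := R)).isCyclic.mp hAcy
    obtain ⟨L, hLn, hAL, -, hLc⟩ := Cfsg.Agent.H1.exists_normal_step hR A ⊤ hAt
    have hLne : L ≠ A := by
      rintro rfl
      have : 0 < Nat.card L := Nat.card_pos
      have := hpp.one_lt
      nlinarith
    have hLncy : ¬ IsCyclic L := by
      intro h
      have hLcomm : IsMulCommutative L := IsCyclic.isMulCommutative
      exact hLne (hmax L hLn hLcomm hAL)
    have hcA : IsCyclic (A.subgroupOf L) := (Subgroup.subgroupOfEquivOfLe hAL).symm.isCyclic.mp hAcy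
    have hidx : (A.subgroupOf L).index = p := by
      have h1 := (A.subgroupOf L).card_mul_index
      rw [Nat.card_congr (Subgroup.subgroupOfEquivOfLe hAL).toEquiv, hLc] at h1
      exact Nat.eq_of_mul_eq_mul_left Nat.card_pos h1
    obtain ⟨E, hE, hEc⟩ := Cfsg.Agent.H1.exists_omega_cyclic_normal hp (hR.to_subgroup L) hLncy (A.subgroupOf L) hcA hidx
    have hmem : ∀ x, x ∈ E.map L.subtype ↔ x ∈ L ∧ x ^ p = 1 := by
      intro x
      constructor
      · rintro ⟨y, hy, rfl⟩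
        exact ⟨y.2, by simpa using congrArg Subtype.val ((hE y).mp hy)⟩
      · rintro ⟨hx, hxp⟩
        exact ⟨⟨x, hx⟩, (hE _).mpr (Subtype.ext (by simpa using hxp)), rfl⟩
    have hcE : Nat.card (E.map L.subtype) = p ^ 2 := by rw [Cfsg.Agent.L0.card_map_subtype, hEc]
    refine ⟨E.map L.subtype, ⟨?_⟩, ⟨comm_of_card _ hcE, fun a ha => ((hmem a).mp ha).2⟩, hcE⟩
    intro x hx g
    rw [hmem] at hx ⊢
    refine ⟨hLn.conj_mem x hx.1 g, ?_⟩
    rw [conj_pow, hx.2]; group

end Cfsg.Agent.S0126
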