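import Cfsg.Statements.S0283
import Cfsg.Agent.H7.UniStd

set_option autoImplicit false
open Cfsg
open Module Matrix Cfsg.Agent.H7 Cfsg.Agent.H7.UTv Cfsg.Agent.H7.Tv

namespace Cfsg.Agent.S0283

/-- PSU_n(q) is simple for n at least 3 and (n, q) other than (3, 2). -/
theorem result {F : Type*} [Field F] [Fintype F] {q : ℕ} (hF : Fintype.card F = q ^ 2) (n : ℕ) (hn : 3 ≤ n) (h : ¬ (n = 3 ∧ q = 2)) : IsSimpleGroup (Cfsg.PSU n F q) := by
  obtain ⟨σ, hσ, hB, hBq, hGU⟩ := hm_std hF n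
  have hcond : 4 ≤ n ∨ (n = 3 ∧ 3 ≤ q) := by
    by_cases h4 : 4 ≤ n
    · exact Or.inl h4
    · right
      refine ⟨by omega, ?_⟩
      have h1 := Cfsg.Agent.H7.Herm.one_lt_q hF
      have h2 : q ≠ 2 := fun h2 => h ⟨by omega, h2⟩
      omega
  exact psu_simple hB (by rw [Fintype.card_fin]; exact hn) (gen_cond hF hσ hB hcond) (suE n F q) (suE_inj n) (suE_range hGU)

end Cfsg.Agent.S0283
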