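import Cfsg.Statements.S0436
import Mathlib

set_option autoImplicit false
open Cfsg

namespace Cfsg.Agent.S0436


theorem aux {G : Type*} [Group G] {E : Set G} (hE : IsThreeTranspositionSet E) {a b e : G} (ha : a ∈ E) (hb : b ∈ E) (he : e ∈ E)
    (hab : a ≠ b) (hcomm : Commute a b) (h : Commute e (a * b)) : Commute e a := by
  have hsq : ∀ d ∈ E, d * d = 1 := by
    intro d hd
    have := pow_orderOf_eq_one d
    rw [hE.1 d hd, sq] at this; exact this
  have ha2 := hsq a ha
  have hb2 := hsq b hb
  have he2 := hsq e he
  have hc : ∀ x y : G, x * x = 1 → y * y = 1 → (x * y) ^ 2 = 1 → Commute x y := by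
    intro x y hx hy hxy
    have h1 : x * y = (x * y)⁻¹ := by rw [eq_inv_iff_mul_eq_one, ← sq]; exact hxy
    show x * y = y * x
    rw [h1, mul_inv_rev, inv_eq_of_mul_eq_one_left hx, inv_eq_of_mul_eq_one_left hy]
  rcases hE.2 e he a ha with h1 | h1
  · exact hc e a he2 ha2 h1
  · -- c = a b commutes with e a
    have hca : Commute (e * a) (a * b) := by
      refine h.mul_left ?_
      exact (Commute.refl a).mul_right hcomm
    have hcc : (a * b) ^ 2 = 1 := by
      rw [hcomm.mul_pow, sq, sq, ha2, hb2, one_mul]
    have e1 : e * b = (e * a) * (a * b) := by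
      calc e * b = e * (a * a) * b := by rw [ha2, mul_one]
        _ = (e * a) * (a * b) := by group
    rcases hE.2 e he b hb with h2 | h2
    · rw [e1, hca.mul_pow, hcc, mul_one] at h2
      exact hc e a he2 ha2 h2
    · exfalso
      rw [e1, hca.mul_pow, h1, one_mul, pow_succ, hcc, one_mul] at h2
      have h3 : a = b⁻¹ := eq_inv_of_mul_eq_one_left h2
      rw [inv_eq_of_mul_eq_one_left hb2] at h3
      exact hab h3

/-- For distinct commuting members a, b of a set of 3-transpositions E, a member e of E centralises the product a * b if and only if it centralises both a and b. -/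
theorem result {G : Type*} [Group G] {E : Set G} (hE : Cfsg.IsThreeTranspositionSet E) {a b e : G} (ha : a ∈ E) (hb : b ∈ E) (he : e ∈ E) (hab : a ≠ b) (hcomm : Commute a b) : Commute e (a * b) ↔ (Commute e a ∧ Commute e b) := by
  constructor
  · intro h
    refine ⟨aux hE ha hb he hab hcomm h, aux hE hb ha he hab.symm hcomm.symm (by rw [← hcomm.eq]; exact h)⟩
  · rintro ⟨h1, h2⟩
    exact h1.mul_right h2

end Cfsg.Agent.S0436
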