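import Cfsg.Statements.S0437
import Cfsg.Agent.S0436
import Mathlib

set_option autoImplicit false
open Cfsg

namespace Cfsg.Agent.S0437


theorem four {G : Type*} [Group G] {a b e : G} (ha : a * a = 1) (hb : b * b = 1) (he : e * e = 1) (hab : a * b = b * a)
    (h1 : (e * a) ^ 3 = 1) (h2 : (e * b) ^ 3 = 1) : (e * (a * b)) ^ 4 = 1 := by
  have hbr : ∀ x : G, x * x = 1 → (e * x) ^ 3 = 1 → e * x * e = x * e * x := by
    intro x hx h
    have h3 : e * x * e * x * e * x = 1 := by
      have : (e * x) ^ 3 = e * x * e * x * e * x := by rw [pow_succ, pow_two]; group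
      rw [← this]; exact h
    have hxi : x⁻¹ = x := inv_eq_of_mul_eq_one_left hx
    have hei : e⁻¹ = e := inv_eq_of_mul_eq_one_left he
    calc e * x * e = (e * x * e * x * e * x) * x⁻¹ * e⁻¹ * x⁻¹ := by group
      _ = x⁻¹ * e⁻¹ * x⁻¹ := by rw [h3, one_mul]
      _ = x * e * x := by rw [hxi, hei]
  have e1 := hbr a ha h1
  have e2 := hbr b hb h2
  have key : e * (a * b) * (e * (a * b)) = a * e * a * b * e * a := by
    calc e * (a * b) * (e * (a * b)) = e * a * 1 * b * e * a * b := by group
      _ = e * a * (e * e) * b * e * a * b := by rw [he]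
      _ = (e * a * e) * (e * b * e) * a * b := by group
      _ = (a * e * a) * (b * e * b) * a * b := by rw [e1, e2]
      _ = a * e * a * b * e * (b * a) * b := by group
      _ = a * e * a * b * e * (a * b) * b := by rw [hab]
      _ = a * e * a * b * e * a * (b * b) := by group
      _ = a * e * a * b * e * a := by rw [hb, mul_one]
  have : (e * (a * b)) ^ 4 = (e * (a * b) * (e * (a * b))) * (e * (a * b) * (e * (a * b))) := by
    rw [pow_succ, pow_succ, pow_two]; group
  rw [this, key]
  calc a * e * a * b * e * a * (a * e * a * b * e * a) = a * e * a * b * e * (a * a) * e * a * b * e * a := by group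
    _ = a * e * a * b * (e * e) * a * b * e * a := by rw [ha]; group
    _ = a * e * a * (b * a) * b * e * a := by rw [he]; group
    _ = a * e * a * (a * b) * b * e * a := by rw [hab]
    _ = a * e * (a * a) * (b * b) * e * a := by group
    _ = a * (e * e) * a := by rw [ha, hb]; group
    _ = 1 := by rw [he, mul_one, ha]

/-- For three distinct, pairwise commuting members a, b, c of a set of 3-transpositions E, a member e of E centralises a * b * c if and only if it centralises each of a, b and c. -/
theorem result {G : Type*} [Group G] {E : Set G} (hE : Cfsg.IsThreeTranspositionSet E) {a b c e : G} (ha : a ∈ E) (hb : b ∈ E) (hc : c ∈ E) (he : e ∈ E) (hab : a ≠ b) (hac : a ≠ c) (hbc : b ≠ c) (h₁ : Commute a b) (h₂ : Commute a c) (h₃ : Commute b c) : Commute e (a * b * c) ↔ (Commute e a ∧ Commute e b ∧ Commute e c) := by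
  have hsq : ∀ d ∈ E, d * d = 1 := by
    intro d hd
    have := pow_orderOf_eq_one d
    rw [hE.1 d hd, sq] at this; exact this
  have ha2 := hsq a ha
  have hb2 := hsq b hb
  have hc2 := hsq c hc
  have he2 := hsq e he
  have hcm : ∀ x y : G, x * x = 1 → y * y = 1 → (x * y) ^ 2 = 1 → Commute x y := by
    intro x y hx hy hxy
    have h1 : x * y = (x * y)⁻¹ := by rw [eq_inv_iff_mul_eq_one, ← sq]; exact hxy
    show x * y = y * x
    rw [h1, mul_inv_rev, inv_eq_of_mul_eq_one_left hx, inv_eq_of_mul_eq_one_left hy]
  have pair := fun (x y : G) (hx : x ∈ E) (hy : y ∈ E) (hxy : x ≠ y) (h : Commute x y) =>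
    (Cfsg.Agent.S0436.result hE hx hy he hxy h)
  constructor
  · intro h
    -- if e commutes with one of them it commutes with all
    have hA : Commute e a → Commute e b ∧ Commute e c := by
      intro h1
      have h2 : Commute e (b * c) := by
        have e1 : b * c = a * (a * b * c) := by
          calc b * c = (a * a) * b * c := by rw [ha2, one_mul]
            _ = a * (a * b * c) := by group
        rw [e1]; exact h1.mul_right h
      exact (pair b c hb hc hbc h₃).1 h2
    have hB : Commute e b → Commute e a := by
      intro h1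
      have h2 : Commute e (a * c) := by
        have e1 : a * c = b * (a * b * c) := by
          calc a * c = (b * b) * a * c := by rw [hb2, one_mul]
            _ = b * (b * a) * c := by group
            _ = b * (a * b) * c := by rw [h₁.eq]
            _ = b * (a * b * c) := by group
        rw [e1]; exact h1.mul_right h
      exact ((pair a c ha hc hac h₂).1 h2).1
    suffices h1 : Commute e a from ⟨h1, hA h1⟩
    by_contra hcon
    have hnb : ¬ Commute e b := fun h1 => hcon (hB h1)
    have hnc : ¬ Commute e c := by
      intro h1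
      have h2 : Commute e (a * b) := by
        have e1 : a * b = (a * b * c) * c := by
          calc a * b = a * b * (c * c) := by rw [hc2, mul_one]
            _ = (a * b * c) * c := by group
        rw [e1]; exact h.mul_right h1
      exact hcon ((pair a b ha hb hab h₁).1 h2).1
    have h3a : (e * a) ^ 3 = 1 := (hE.2 e he a ha).resolve_left fun h1 => hcon (hcm e a he2 ha2 h1)
    have h3b : (e * b) ^ 3 = 1 := (hE.2 e he b hb).resolve_left fun h1 => hnb (hcm e b he2 hb2 h1)
    have h3c : (e * c) ^ 3 = 1 := (hE.2 e he c hc).resolve_left fun h1 => hnc (hcm e c he2 hc2 h1)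
    have h4 := four ha2 hb2 he2 h₁.eq h3a h3b
    -- z = a b c
    have hz2 : (a * b * c) ^ 2 = 1 := by
      rw [(h₂.mul_left h₃).mul_pow, h₁.mul_pow, sq, sq, sq, ha2, hb2, hc2]; simp
    have e1 : e * c = (e * (a * b)) * (a * b * c) := by
      calc e * c = e * ((a * a) * (b * b)) * c := by rw [ha2, hb2]; group
        _ = e * a * (a * b) * b * c := by group
        _ = e * a * (b * a) * b * c := by rw [h₁.eq]
        _ = (e * (a * b)) * (a * b * c) := by group
    have hzc : Commute (e * (a * b)) (a * b * c) := by
      refine h.mul_left ?_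
      refine (Commute.refl (a * b)).mul_right ?_
      exact h₂.mul_left h₃
    rw [e1, hzc.mul_pow] at h3c
    have h5 : (a * b * c) ^ 3 = a * b * c := by rw [pow_succ, hz2, one_mul]
    rw [h5] at h3c
    -- (e ab)^3 z = 1 , (e ab)^4 = 1
    have h6 : (e * (a * b)) = a * b * c := by
      have h7 : (e * (a * b)) ^ 3 = (a * b * c) := by
        have := eq_inv_of_mul_eq_one_left h3c
        rw [this, inv_eq_iff_mul_eq_one, ← sq]; exact hz2
      have h8 : (e * (a * b)) ^ 4 = (e * (a * b)) ^ 3 * (e * (a * b)) := pow_succ _ 3
      rw [h4, h7] at h8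
      have h9 := eq_inv_of_mul_eq_one_right h8.symm
      rw [h9, inv_eq_iff_mul_eq_one, ← sq]; exact hz2
    have h7 : (e * (a * b)) ^ 2 = 1 := by rw [h6]; exact hz2
    have hab2 : (a * b) * (a * b) = 1 := by
      rw [← sq, h₁.mul_pow, sq, sq, ha2, hb2, one_mul]
    have h8 := hcm e (a * b) he2 hab2 h7
    exact hcon ((pair a b ha hb hab h₁).1 h8).1
  · rintro ⟨h1, h2, h3⟩
    exact (h1.mul_right h2).mul_right h3

end Cfsg.Agent.S0437
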