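import Cfsg.Statements.S0438
import Mathlib

set_option autoImplicit false
open Cfsg

namespace Cfsg.Agent.S0438

/-- Let E be a set of 3-transpositions closed under conjugation, and x an involutory automorphism of the group mapping E to itself. If some a in E fails to commute with its image x a, then x fixes an element of E. -/
theorem result {G : Type*} [Group G] {E : Set G} (hE : Cfsg.IsThreeTranspositionSet E) (hconj : ∀ g : G, ∀ d ∈ E, g * d * g⁻¹ ∈ E) (x : G ≃* G) (hx : ∀ g : G, x (x g) = g) (hxE : ∀ d ∈ E, x d ∈ E) {a : G} (ha : a ∈ E) (h : ¬ Commute a (x a)) : ∃ d ∈ E, x d = d := by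
  have hsq : ∀ d ∈ E, d * d = 1 := by
    intro d hd
    have := pow_orderOf_eq_one d
    rw [hE.1 d hd, sq] at this; exact this
  have ha2 := hsq a ha
  have hb2 := hsq (x a) (hxE a ha)
  have h3 : (a * x a) ^ 3 = 1 := by
    refine (hE.2 a ha (x a) (hxE a ha)).resolve_left fun h1 => h ?_
    have h2 : a * x a = (a * x a)⁻¹ := by rw [eq_inv_iff_mul_eq_one, ← sq]; exact h1
    show a * x a = x a * a
    rw [h2, mul_inv_rev, inv_eq_of_mul_eq_one_left ha2, inv_eq_of_mul_eq_one_left hb2]
  have hai : a⁻¹ = a := inv_eq_of_mul_eq_one_left ha2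
  have hbi : (x a)⁻¹ = x a := inv_eq_of_mul_eq_one_left hb2
  refine ⟨a * x a * a⁻¹, hconj a _ (hxE a ha), ?_⟩
  rw [map_mul, map_mul, hx, map_inv, hai, hbi]
  have h4 : a * x a * a * x a * a * x a = 1 := by
    have : (a * x a) ^ 3 = a * x a * a * x a * a * x a := by rw [pow_succ, pow_two]; group
    rw [← this]; exact h3
  calc x a * a * x a = (a * x a * a * x a * a * x a) * (x a * a * x a) := by rw [h4, one_mul]
    _ = a * x a * a * x a * a * (x a * x a) * a * x a := by group
    _ = a * x a * a * x a * (a * a) * x a := by rw [hb2]; group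
    _ = a * x a * a * (x a * x a) := by rw [ha2]; group
    _ = a * x a * a := by rw [hb2, mul_one]

end Cfsg.Agent.S0438
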