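import Cfsg.Statements.S0481
import Cfsg.Agent.H2.Lay
import Mathlib

set_option autoImplicit false
open Cfsg

namespace Cfsg.Agent.S0481

open Cfsg.Agent.H6

theorem cent_of_pgroup {G : Type*} [Group G] [Finite G] {P : Subgroup G} (hP : IsPGroup 2 P) (hP1 : P ≠ ⊥) {z : G} (hz : orderOf z = 2)
    (h : ∀ y ∈ P, (∀ x ∈ P, x * y = y * x) → y = 1 ∨ y = z) : (∀ x ∈ P, x * z = z * x) ∧ z ∈ P := by
  haveI : Fact (Nat.Prime 2) := ⟨Nat.prime_two⟩
  obtain ⟨y, hy, hyo, hyc⟩ := exists_center_order_p (p := 2) hP hP1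
  rcases h y hy hyc with h1 | h1
  · rw [h1, orderOf_one] at hyo; omega
  · rw [← h1]; exact ⟨hyc, hy⟩

/-- Large extraspecial subgroups: let z be an involution of a finite group G whose centraliser C contains a normal 2-subgroup Q with centre of order 2 and all squares central, such that every element of G centralising Q lies in Q. Then C contains a Sylow 2-subgroup of G, and any involution of G whose centraliser contains a Sylow 2-subgroup of G is conjugate to z. -/
theorem result {G : Type*} [Group G] [Finite G] (z : G) (hz : orderOf z = 2) (Q : Subgroup G) (hQC : Q ≤ Subgroup.centralizer ({z} : Set G)) (hQn : ∀ g ∈ Subgroup.centralizer ({z} : Set G), ∀ q ∈ Q, g * q * g⁻¹ ∈ Q) (hQ2 : IsPGroup 2 Q) (hZ : Nat.card (Subgroup.center Q) = 2) (hsq : ∀ x : Q, x ^ 2 ∈ Subgroup.center Q) (hlarge : Subgroup.centralizer (Q : Set G) ≤ Q) : (∃ P : Sylow 2 G, (P : Subgroup G) ≤ Subgroup.centralizer ({z} : Set G)) ∧ ∀ u : G, orderOf u = 2 → (∃ P : Sylow 2 G, (P : Subgroup G) ≤ Subgroup.centralizer ({u} : Set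 G)) → IsConj z u := by
  haveI : Fact (Nat.Prime 2) := ⟨Nat.prime_two⟩
  have hz1 : z ≠ 1 := by rintro rfl; rw [orderOf_one] at hz; omega
  have hzQ : z ∈ Q := by
    apply hlarge
    rw [Subgroup.mem_centralizer_iff]
    intro q hq
    exact Subgroup.mem_centralizer_singleton_iff.1 (hQC hq)
  have hzc : ∀ y ∈ Q, (∀ x ∈ Q, x * y = y * x) → y = 1 ∨ y = z := by
    intro y hy hyc
    have hym : (⟨y, hy⟩ : Q) ∈ Subgroup.center Q := Subgroup.mem_center_iff.2 fun g => Subtype.ext (hyc g g.2)
    have hzm : (⟨z, hzQ⟩ : Q) ∈ Subgroup.center Q := Subgroup.mem_center_iff.2 fun g =>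
      Subtype.ext (Subgroup.mem_centralizer_singleton_iff.1 (hQC g.2))
    by_contra hcon
    rw [not_or] at hcon
    obtain ⟨a, b, hab, hu⟩ := Nat.card_eq_two_iff.1 hZ
    -- three distinct elements in a two element set
    have h3 : ∀ u v w : Subgroup.center Q, u ≠ v → u ≠ w → v ≠ w → False := by
      intro u v w huv huw hvw
      have hmem : ∀ t : Subgroup.center Q, t = a ∨ t = b := by
        intro t
        have : t ∈ ({a, b} : Set (Subgroup.center Q)) := by rw [hu]; trivial
        exact this
      rcases hmem u with h1 | h1 <;> rcases hmem v with h2 | h2 <;> rcases hmem w with h3 | h3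
      · exact huv (h1.trans h2.symm)
      · exact huv (h1.trans h2.symm)
      · exact huw (h1.trans h3.symm)
      · exact hvw (h2.trans h3.symm)
      · exact hvw (h2.trans h3.symm)
      · exact huw (h1.trans h3.symm)
      · exact huv (h1.trans h2.symm)
      · exact huv (h1.trans h2.symm)
    refine h3 ⟨_, hym⟩ ⟨_, hzm⟩ 1 ?_ ?_ ?_
    · intro h
      exact hcon.2 (congrArg (fun t : Subgroup.center Q => ((t : Q) : G)) h)
    · intro h
      exact hcon.1 (congrArg (fun t : Subgroup.center Q => ((t : Q) : G)) h)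
    · intro h
      exact hz1 (congrArg (fun t : Subgroup.center Q => ((t : Q) : G)) h)
  obtain ⟨P, hQP⟩ := hQ2.exists_le_sylow
  have hPz : ∀ y ∈ (P : Subgroup G), (∀ x ∈ (P : Subgroup G), x * y = y * x) → y = 1 ∨ y = z := by
    intro y hy hyc
    have hyQ : y ∈ Q := by
      apply hlarge
      rw [Subgroup.mem_centralizer_iff]
      intro q hq
      exact hyc q (hQP hq)
    exact hzc y hyQ fun x hx => hyc x (hQP hx)
  have hPb : (P : Subgroup G) ≠ ⊥ := by
    intro h
    have := hQP hzQ
    rw [h, Subgroup.mem_bot] at this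
    exact hz1 this
  obtain ⟨hPc, hzP⟩ := cent_of_pgroup P.2 hPb hz hPz
  refine ⟨⟨P, fun x hx => ?_⟩, ?_⟩
  · rw [Subgroup.mem_centralizer_singleton_iff]
    exact hPc x hx
  · rintro u hu ⟨R, hR⟩
    obtain ⟨g, hg⟩ := MulAction.exists_smul_eq G R P
    -- u ∈ R and central
    have huR : u ∈ (R : Subgroup G) := by
      have hup : IsPGroup 2 (Subgroup.zpowers u) := IsPGroup.of_card (n := 1) (by rw [Nat.card_zpowers, hu, pow_one])
      have hn : Subgroup.zpowers u ≤ Subgroup.normalizer ((R : Subgroup G) : Set G) := by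
        rw [Subgroup.zpowers_le]
        apply H6.centralizer_le_norm
        rw [Subgroup.mem_centralizer_iff]
        intro y hy
        exact Subgroup.mem_centralizer_singleton_iff.1 (hR hy)
      have h1 : IsPGroup 2 ((R : Subgroup G) ⊔ Subgroup.zpowers u : Subgroup G) := R.2.to_sup_of_normal_left' hup hn
      have h2 := R.3 h1 le_sup_left
      rw [← h2]
      exact Subgroup.mem_sup_right (Subgroup.mem_zpowers u)
    have hPe : (P : Subgroup G) = cj g (R : Subgroup G) := by rw [← hg]; rfl
    have hgu : g * u * g⁻¹ ∈ (P : Subgroup G) := by rw [hPe]; exact conj_mem_cj huR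
    have h1 := hPz _ hgu (by
      intro x hx
      rw [hPe, mem_cj] at hx
      have h2 := Subgroup.mem_centralizer_singleton_iff.1 (hR hx)
      calc x * (g * u * g⁻¹) = g * ((g⁻¹ * x * g) * u) * g⁻¹ := by group
        _ = g * (u * (g⁻¹ * x * g)) * g⁻¹ := by rw [h2]
        _ = g * u * g⁻¹ * x := by group)
    rcases h1 with h1 | h1
    · exfalso
      have h2 : u = 1 := by
        calc u = g⁻¹ * (g * u * g⁻¹) * g := by group
          _ = 1 := by rw [h1]; group
      rw [h2, orderOf_one] at hu; omega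
    · refine isConj_iff.2 ⟨g⁻¹, ?_⟩
      rw [← h1]; group

end Cfsg.Agent.S0481
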