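import Cfsg.Statements.S0528
import Mathlib
import Cfsg.Agent.H1.SSolv

set_option autoImplicit false
open Cfsg

namespace Cfsg.Agent.S0528

open scoped commutatorElement Pointwise


/-- An extension of a cyclic normal subgroup by a supersolvable group is supersolvable: if N is a cyclic normal subgroup of a finite group G and G modulo N is supersolvable, then G is supersolvable. -/
theorem result {G : Type*} [Group G] [Finite G] (N : Subgroup G) [N.Normal] [IsCyclic N] (h : Cfsg.IsSupersolvable (G ⧸ N)) : Cfsg.IsSupersolvable G := by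
  rw [Cfsg.Agent.H1.isSupersolvable_iff] at h ⊢
  obtain ⟨g, hg⟩ := (inferInstance : IsCyclic N).exists_generator
  have hN : N = Subgroup.zpowers (g : G) := by
    apply le_antisymm
    · intro x hx
      obtain ⟨k, hk⟩ := Subgroup.mem_zpowers_iff.mp (hg ⟨x, hx⟩)
      exact Subgroup.mem_zpowers_iff.mpr ⟨k, by rw [← Subgroup.coe_zpow, hk]⟩
    · rw [Subgroup.zpowers_le]; exact g.2
  have hk : Cfsg.Agent.H1.SChain (QuotientGroup.mk' N).ker := by
    rw [QuotientGroup.ker_mk']
    exact .step ⊥ N g .bot inferInstance (by rw [bot_sup_eq]; exact hN)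
  have h3 := Cfsg.Agent.H1.SChain.comap_of_ker (QuotientGroup.mk' N) (QuotientGroup.mk'_surjective N) hk h
  rwa [Subgroup.comap_top] at h3

end Cfsg.Agent.S0528
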