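import Cfsg.Statements.S0703
import Mathlib

set_option autoImplicit false
open Cfsg

namespace Cfsg.Agent.S0703


theorem cent_eq {α : Type*} {M N : Subgroup (Equiv.Perm α)} (hM : ∀ a b : α, ∃ m ∈ M, m a = b) (hN : ∀ a b : α, ∃ n ∈ N, n a = b)
    (hc : ∀ m ∈ M, ∀ n ∈ N, m * n = n * m) (a : α) : Subgroup.centralizer (M : Set (Equiv.Perm α)) = N := by
  apply le_antisymm
  · intro c hcM
    obtain ⟨n, hn, hna⟩ := hN a (c a)
    have : c = n := by
      ext b
      obtain ⟨m, hm, rfl⟩ := hM a b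
      have h1 : c (m a) = m (c a) := (congrArg (fun z : Equiv.Perm α => z a) (Subgroup.mem_centralizer_iff.1 hcM m hm)).symm
      have h2 : n (m a) = m (n a) := (congrArg (fun z : Equiv.Perm α => z a) (hc m hm n hn)).symm
      rw [h1, h2, hna]
    rw [this]; exact hn
  · intro n hn
    rw [Subgroup.mem_centralizer_iff]
    intro m hm
    exact hc m hm n hn

theorem stab_eq {α : Type*} {M N : Subgroup (Equiv.Perm α)} (hN : ∀ a b : α, ∃ n ∈ N, n a = b)
    (hc : ∀ m ∈ M, ∀ n ∈ N, m * n = n * m) {a : α} {m : Equiv.Perm α} (hm : m ∈ M) (hma : m a = a) : m = 1 := by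
  ext b
  obtain ⟨n, hn, rfl⟩ := hN a b
  have h2 : m (n a) = n (m a) := congrArg (fun z : Equiv.Perm α => z a) (hc m hm n hn)
  rw [h2, hma]; rfl

theorem trans_map {α : Type*} {G : Subgroup (Equiv.Perm α)} {M : Subgroup G} (h : MulAction.IsPretransitive M α) (a b : α) :
    ∃ m ∈ M.map G.subtype, m a = b := by
  obtain ⟨m, hm⟩ := h.exists_smul_eq a b
  exact ⟨((m : G) : Equiv.Perm α), ⟨_, m.2, rfl⟩, hm⟩

theorem comm_of_inf {G : Type*} [Group G] {M N : Subgroup G} [M.Normal] [N.Normal] (h : M ⊓ N = ⊥) : ∀ m ∈ M, ∀ n ∈ N, m * n = n * m := by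
  intro m hm n hn
  have h1 : ⁅M, N⁆ = ⊥ := by rw [eq_bot_iff, ← h]; exact Subgroup.commutator_le_inf M N
  have h2 := Subgroup.commutator_eq_bot_iff_le_centralizer.1 h1 hm
  exact (Subgroup.mem_centralizer_iff.1 h2 n hn).symm

theorem nonempty_of_ne_bot {α : Type*} {G : Subgroup (Equiv.Perm α)} {M : Subgroup G} (hM : M ≠ ⊥) : Nonempty α := by
  by_contra h
  rw [not_nonempty_iff] at h
  apply hM
  rw [eq_bot_iff]
  intro x _
  rw [Subgroup.mem_bot]
  apply Subtype.ext
  ext a
  exact h.elim a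

/-- An abelian transitive minimal normal subgroup `M` of a permutation group on a finite set is self-centralising in the symmetric group, regular, elementary abelian, and is the unique minimal normal subgroup. -/
theorem result {α : Type*} [Finite α] (G : Subgroup (Equiv.Perm α)) (M : Subgroup G) [M.Normal] (hM : M ≠ ⊥) (hmin : ∀ L : Subgroup G, L.Normal → L ≤ M → L = ⊥ ∨ L = M) (hab : IsMulCommutative M) (htrans : MulAction.IsPretransitive M α) : Subgroup.centralizer ((M.map G.subtype : Subgroup (Equiv.Perm α)) : Set (Equiv.Perm α)) = M.map G.subtype ∧ (∀ a : α, MulAction.stabilizer M a = ⊥) ∧ (∃ p : ℕ, p.Prime ∧ ∀ m ∈ M, m ^ p = 1) ∧ ∀ L : Subgroup G, L.Normal → L ≠ ⊥ → (∀ L' : Subgroup G, L'.Normal → L' ≤ L → L' = ⊥ ∨ L' = L) → L = M := by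
  obtain ⟨a₀⟩ := nonempty_of_ne_bot hM
  have ht := fun a b => trans_map htrans a b
  have hcm : ∀ m ∈ M.map G.subtype, ∀ n ∈ M.map G.subtype, m * n = n * m := by
    rintro _ ⟨m, hm, rfl⟩ _ ⟨n, hn, rfl⟩
    exact congrArg (fun z : M => ((z : G) : Equiv.Perm α)) (hab.is_comm.comm ⟨m, hm⟩ ⟨n, hn⟩)
  have hC := cent_eq ht ht hcm a₀
  refine ⟨hC, ?_, ?_, ?_⟩
  · intro a
    rw [eq_bot_iff]
    intro m hm
    rw [Subgroup.mem_bot]
    apply Subtype.ext
    apply Subtype.ext
    exact stab_eq ht hcm (a := a) ⟨_, m.2, rfl⟩ hm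
  · have h1 : Nat.card M ≠ 1 := fun h => hM (Subgroup.card_eq_one.1 h)
    obtain ⟨p, hp, hpd⟩ := Nat.exists_prime_and_dvd h1
    haveI : Fact p.Prime := ⟨hp⟩
    refine ⟨p, hp, ?_⟩
    have hcomm : ∀ x ∈ M, ∀ y ∈ M, x * y = y * x := by
      intro x hx y hy
      exact congrArg (fun z : M => (z : G)) (hab.is_comm.comm ⟨x, hx⟩ ⟨y, hy⟩)
    let L : Subgroup G :=
      { carrier := {m | m ∈ M ∧ m ^ p = 1}
        one_mem' := ⟨M.one_mem, one_pow p⟩
        mul_mem' := by
          rintro x y ⟨hx, hx'⟩ ⟨hy, hy'⟩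
          exact ⟨M.mul_mem hx hy, by rw [Commute.mul_pow (hcomm x hx y hy), hx', hy', one_mul]⟩
        inv_mem' := by
          rintro x ⟨hx, hx'⟩
          exact ⟨M.inv_mem hx, by rw [inv_pow, hx', inv_one]⟩ }
    have hL : L.Normal := ⟨fun x hx g => ⟨Subgroup.Normal.conj_mem inferInstance x hx.1 g, by rw [conj_pow, hx.2]; simp⟩⟩
    rcases hmin L hL (fun x hx => hx.1) with h | h
    · exfalso
      obtain ⟨x, hx⟩ := exists_prime_orderOf_dvd_card' p hpd
      have h2 : (x : G) ∈ L := ⟨x.2, by rw [← hx, ← Subgroup.orderOf_coe, pow_orderOf_eq_one]⟩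
      rw [h, Subgroup.mem_bot] at h2
      have h3 : x = 1 := Subtype.ext h2
      rw [h3, orderOf_one] at hx
      exact hp.one_lt.ne hx
    · intro m hm
      rw [← h] at hm
      exact hm.2
  · intro L hL hL1 hLmin
    by_contra hne
    have hinf : L ⊓ M = ⊥ := by
      rcases hmin (L ⊓ M) inferInstance inf_le_right with h | h
      · exact h
      · exfalso
        have h1 : M ≤ L := by rw [← h]; exact inf_le_left
        rcases hLmin M inferInstance h1 with h2 | h2
        · exact hM h2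
        · exact hne h2.symm
    have h1 := comm_of_inf hinf
    have h2 : L ≤ M := by
      intro x hx
      have h3 : (x : Equiv.Perm α) ∈ Subgroup.centralizer ((M.map G.subtype : Subgroup (Equiv.Perm α)) : Set (Equiv.Perm α)) := by
        rw [Subgroup.mem_centralizer_iff]
        rintro _ ⟨m, hm, rfl⟩
        exact congrArg Subtype.val (h1 x hx m hm).symm
      rw [hC] at h3
      obtain ⟨y, hy, hyx⟩ := h3
      have : y = x := Subtype.ext hyx
      rw [← this]; exact hy
    rcases hmin L hL h2 with h | h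
    · exact hL1 h
    · exact hne h

end Cfsg.Agent.S0703
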