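import Cfsg.Statements.S0704
import Mathlib

set_option autoImplicit false
open Cfsg

namespace Cfsg.Agent.S0704


theorem cent_eq {α : Type*} {M N : Subgroup (Equiv.Perm α)} (hM : ∀ a b : α, ∃ m ∈ M, m a = b) (hN : ∀ a b : α, ∃ n ∈ N, n a = b)
    (hc : ∀ m ∈ M, ∀ n ∈ N, m * n = n * m) (a : α) : Subgroup.centralizer (M : Set (Equiv.Perm α)) = N := by
  apply le_antisymm
  · intro c hcM
    obtain ⟨n, hn, hna⟩ := hN a (c a)
    have : c = n := by
      ext b
      obtain ⟨m, hm, rfl⟩ := hM a b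
      have h1 : c (m a) = m (c a) := (congrArg (fun z : Equiv.Perm α => z a) (Subgroup.mem_centralizer_iff.1 hcM m hm)).symm
      have h2 : n (m a) = m (n a) := (congrArg (fun z : Equiv.Perm α => z a) (hc m hm n hn)).symm
      rw [h1, h2, hna]
    rw [this]; exact hn
  · intro n hn
    rw [Subgroup.mem_centralizer_iff]
    intro m hm
    exact hc m hm n hn

theorem stab_eq {α : Type*} {M N : Subgroup (Equiv.Perm α)} (hN : ∀ a b : α, ∃ n ∈ N, n a = b)
    (hc : ∀ m ∈ M, ∀ n ∈ N, m * n = n * m) {a : α} {m : Equiv.Perm α} (hm : m ∈ M) (hma : m a = a) : m = 1 := by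
  ext b
  obtain ⟨n, hn, rfl⟩ := hN a b
  have h2 : m (n a) = n (m a) := congrArg (fun z : Equiv.Perm α => z a) (hc m hm n hn)
  rw [h2, hma]; rfl

theorem trans_map {α : Type*} {G : Subgroup (Equiv.Perm α)} {M : Subgroup G} (h : MulAction.IsPretransitive M α) (a b : α) :
    ∃ m ∈ M.map G.subtype, m a = b := by
  obtain ⟨m, hm⟩ := h.exists_smul_eq a b
  exact ⟨((m : G) : Equiv.Perm α), ⟨_, m.2, rfl⟩, hm⟩

theorem comm_of_inf {G : Type*} [Group G] {M N : Subgroup G} [M.Normal] [N.Normal] (h : M ⊓ N = ⊥) : ∀ m ∈ M, ∀ n ∈ N, m * n = n * m := by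
  intro m hm n hn
  have h1 : ⁅M, N⁆ = ⊥ := by rw [eq_bot_iff, ← h]; exact Subgroup.commutator_le_inf M N
  have h2 := Subgroup.commutator_eq_bot_iff_le_centralizer.1 h1 hm
  exact (Subgroup.mem_centralizer_iff.1 h2 n hn).symm

theorem nonempty_of_ne_bot {α : Type*} {G : Subgroup (Equiv.Perm α)} {M : Subgroup G} (hM : M ≠ ⊥) : Nonempty α := by
  by_contra h
  rw [not_nonempty_iff] at h
  apply hM
  rw [eq_bot_iff]
  intro x _
  rw [Subgroup.mem_bot]
  apply Subtype.ext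
  ext a
  exact h.elim a

theorem not_comm {α : Type*} {G : Subgroup (Equiv.Perm α)} {M N : Subgroup G} (a₀ : α)
    (ht : ∀ a b : α, ∃ m ∈ M.map G.subtype, m a = b) (hc : ∀ m ∈ M, ∀ n ∈ N, m * n = n * m) (hNM : ¬ N ≤ M) : ¬ IsMulCommutative M := by
  intro hab
  apply hNM
  have hcm : ∀ m ∈ M.map G.subtype, ∀ n ∈ M.map G.subtype, m * n = n * m := by
    rintro _ ⟨m, hm, rfl⟩ _ ⟨n, hn, rfl⟩
    exact congrArg (fun z : M => ((z : G) : Equiv.Perm α)) (hab.is_comm.comm ⟨m, hm⟩ ⟨n, hn⟩)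
  have hC := cent_eq ht ht hcm a₀
  intro x hx
  have h3 : (x : Equiv.Perm α) ∈ Subgroup.centralizer ((M.map G.subtype : Subgroup (Equiv.Perm α)) : Set (Equiv.Perm α)) := by
    rw [Subgroup.mem_centralizer_iff]
    rintro _ ⟨m, hm, rfl⟩
    exact congrArg Subtype.val (hc m hm x hx)
  rw [hC] at h3
  obtain ⟨y, hy, hyx⟩ := h3
  have : y = x := Subtype.ext hyx
  rw [← this]; exact hy

theorem iso_of {α : Type*} {G : Subgroup (Equiv.Perm α)} {M N : Subgroup G} (a₀ : α)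
    (hM : ∀ a b : α, ∃ m ∈ M.map G.subtype, m a = b) (hN : ∀ a b : α, ∃ m ∈ N.map G.subtype, m a = b)
    (hc : ∀ m ∈ M, ∀ n ∈ N, m * n = n * m) : Nonempty (M ≃* N) := by
  have hex : ∀ m : M, ∃ n : N, ((n : G) : Equiv.Perm α) a₀ = (((m : G) : Equiv.Perm α)⁻¹) a₀ := by
    intro m
    obtain ⟨_, ⟨n, hn, rfl⟩, h⟩ := hN a₀ ((((m : G) : Equiv.Perm α)⁻¹) a₀)
    exact ⟨⟨n, hn⟩, h⟩
  have hcm : ∀ m ∈ M.map G.subtype, ∀ n ∈ N.map G.subtype, m * n = n * m := by
    rintro _ ⟨m, hm, rfl⟩ _ ⟨n, hn, rfl⟩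
    exact congrArg Subtype.val (hc m hm n hn)
  have hcn : ∀ m ∈ N.map G.subtype, ∀ n ∈ M.map G.subtype, m * n = n * m := fun m hm n hn => (hcm n hn m hm).symm
  have huniq : ∀ n n' : N, ((n : G) : Equiv.Perm α) a₀ = ((n' : G) : Equiv.Perm α) a₀ → n = n' := by
    intro n n' h
    have h1 : (((n'⁻¹ * n : N) : G) : Equiv.Perm α) a₀ = a₀ := by
      show (((n' : G) : Equiv.Perm α)⁻¹) (((n : G) : Equiv.Perm α) a₀) = a₀
      rw [h]; simp
    have h2 := stab_eq hM hcn ⟨_, (n'⁻¹ * n).2, rfl⟩ h1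
    have h3 : n'⁻¹ * n = 1 := Subtype.ext (Subtype.ext h2)
    exact (inv_mul_eq_one.1 h3).symm
  have huniqM : ∀ n n' : M, ((n : G) : Equiv.Perm α) a₀ = ((n' : G) : Equiv.Perm α) a₀ → n = n' := by
    intro n n' h
    have h1 : (((n'⁻¹ * n : M) : G) : Equiv.Perm α) a₀ = a₀ := by
      show (((n' : G) : Equiv.Perm α)⁻¹) (((n : G) : Equiv.Perm α) a₀) = a₀
      rw [h]; simp
    have h2 := stab_eq hN hcm ⟨_, (n'⁻¹ * n).2, rfl⟩ h1
    have h3 : n'⁻¹ * n = 1 := Subtype.ext (Subtype.ext h2)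
    exact (inv_mul_eq_one.1 h3).symm
  choose φ hφ using hex
  have hmul : ∀ x y : M, φ (x * y) = φ x * φ y := by
    intro x y
    apply huniq
    rw [hφ]
    have h1 := congrArg (fun z : G => (z : Equiv.Perm α) a₀) (hc _ (y⁻¹).2 _ (φ x).2)
    have h2 : (((φ x : N) : G) : Equiv.Perm α) ((((y : G) : Equiv.Perm α)⁻¹) a₀) = (((y : G) : Equiv.Perm α)⁻¹) ((((φ x : N) : G) : Equiv.Perm α) a₀) := h1.symm
    show ((((x : G) : Equiv.Perm α) * ((y : G) : Equiv.Perm α))⁻¹) a₀ = (((φ x : N) : G) : Equiv.Perm α) ((((φ y : N) : G) : Equiv.Perm α) a₀)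
    rw [hφ y, h2, hφ x, mul_inv_rev]; rfl
  let f : M →* N := MonoidHom.mk' φ hmul
  refine ⟨MulEquiv.ofBijective f ⟨?_, ?_⟩⟩
  · intro x y hxy
    have h1 : φ x = φ y := hxy
    have h2 : (((x⁻¹ : M) : G) : Equiv.Perm α) a₀ = (((y⁻¹ : M) : G) : Equiv.Perm α) a₀ := by
      show (((x : G) : Equiv.Perm α)⁻¹) a₀ = (((y : G) : Equiv.Perm α)⁻¹) a₀
      rw [← hφ x, ← hφ y, h1]
    exact inv_injective (huniqM _ _ h2)
  · intro n
    obtain ⟨_, ⟨m, hm, rfl⟩, h⟩ := hM a₀ (((n : G) : Equiv.Perm α) a₀)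
    refine ⟨(⟨m, hm⟩ : M)⁻¹, ?_⟩
    apply huniq
    show (((φ (⟨m, hm⟩ : M)⁻¹ : N) : G) : Equiv.Perm α) a₀ = _
    rw [hφ]
    rw [← h]
    show (((m : Equiv.Perm α)⁻¹)⁻¹) a₀ = (m : Equiv.Perm α) a₀
    rw [inv_inv]

/-- Two distinct transitive minimal normal subgroups `M`, `N` of a permutation group are regular, non-abelian, isomorphic, each other's centraliser in the symmetric group, and the only minimal normal subgroups. -/
theorem result {α : Type*} (G : Subgroup (Equiv.Perm α)) (M N : Subgroup G) [M.Normal] [N.Normal] (hM : M ≠ ⊥) (hN : N ≠ ⊥) (hMmin : ∀ L : Subgroup G, L.Normal → L ≤ M → L = ⊥ ∨ L = M) (hNmin : ∀ L : Subgroup G, L.Normal → L ≤ N → L = ⊥ ∨ L = N) (hMN : M ≠ N) (hMt : MulAction.IsPretransitive M α) (hNt : MulAction.IsPretransitive N α) : (∀ a : α, MulAction.stabilizer M a = ⊥) ∧ (∀ a : α, MulAction.stabilizer N a = ⊥) ∧ ¬ IsMulCommutative M ∧ Nonempty (M ≃* N) ∧ Subgroup.centralizer ((M.map G.subtype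 : Subgroup (Equiv.Perm α)) : Set (Equiv.Perm α)) = N.map G.subtype ∧ Subgroup.centralizer ((N.map G.subtype : Subgroup (Equiv.Perm α)) : Set (Equiv.Perm α)) = M.map G.subtype ∧ ∀ L : Subgroup G, L.Normal → L ≠ ⊥ → (∀ L' : Subgroup G, L'.Normal → L' ≤ L → L' = ⊥ ∨ L' = L) → L = M ∨ L = N := by
  obtain ⟨a₀⟩ := nonempty_of_ne_bot hM
  have htM := fun a b => trans_map hMt a b
  have htN := fun a b => trans_map hNt a b
  have hinf : M ⊓ N = ⊥ := by
    rcases hMmin (M ⊓ N) inferInstance inf_le_left with h | h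
    · exact h
    · exfalso
      have h1 : M ≤ N := by rw [← h]; exact inf_le_right
      rcases hNmin M inferInstance h1 with h2 | h2
      · exact hM h2
      · exact hMN h2
  have hc := comm_of_inf hinf
  have hcm : ∀ m ∈ M.map G.subtype, ∀ n ∈ N.map G.subtype, m * n = n * m := by
    rintro _ ⟨m, hm, rfl⟩ _ ⟨n, hn, rfl⟩
    exact congrArg Subtype.val (hc m hm n hn)
  have hcn : ∀ m ∈ N.map G.subtype, ∀ n ∈ M.map G.subtype, m * n = n * m := fun m hm n hn => (hcm n hn m hm).symm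
  have hNM : ¬ N ≤ M := by
    intro h
    rw [inf_eq_right.2 h] at hinf
    exact hN hinf
  have hCM := cent_eq htM htN hcm a₀
  have hCN := cent_eq htN htM hcn a₀
  refine ⟨?_, ?_, not_comm a₀ htM hc hNM, iso_of a₀ htM htN hc, hCM, hCN, ?_⟩
  · intro a
    rw [eq_bot_iff]
    intro m hm
    rw [Subgroup.mem_bot]
    apply Subtype.ext
    apply Subtype.ext
    exact stab_eq htN hcm (a := a) ⟨_, m.2, rfl⟩ hm
  · intro a
    rw [eq_bot_iff]
    intro m hm
    rw [Subgroup.mem_bot]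
    apply Subtype.ext
    apply Subtype.ext
    exact stab_eq htM hcn (a := a) ⟨_, m.2, rfl⟩ hm
  · intro L hL hL1 hLmin
    by_contra hne
    rw [not_or] at hne
    have hLinf : L ⊓ M = ⊥ := by
      rcases hMmin (L ⊓ M) inferInstance inf_le_right with h | h
      · exact h
      · exfalso
        have h1 : M ≤ L := by rw [← h]; exact inf_le_left
        rcases hLmin M inferInstance h1 with h2 | h2
        · exact hM h2
        · exact hne.1 h2.symm
    have h1 := comm_of_inf hLinf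
    have h2 : L ≤ N := by
      intro x hx
      have h3 : (x : Equiv.Perm α) ∈ Subgroup.centralizer ((M.map G.subtype : Subgroup (Equiv.Perm α)) : Set (Equiv.Perm α)) := by
        rw [Subgroup.mem_centralizer_iff]
        rintro _ ⟨m, hm, rfl⟩
        exact congrArg Subtype.val (h1 x hx m hm).symm
      rw [hCM] at h3
      obtain ⟨y, hy, hyx⟩ := h3
      have : y = x := Subtype.ext hyx
      rw [← this]; exact hy
    rcases hNmin L hL h2 with h | h
    · exact hL1 h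
    · exact hne.2 h

end Cfsg.Agent.S0704
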