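import Cfsg.Statements.S1263
import Cfsg.Agent.H2.Lay
import Cfsg.Agent.H6.CharP
import Mathlib

set_option autoImplicit false
open Cfsg

namespace Cfsg.Agent.S1263

open Cfsg.Agent.H2 Cfsg.Agent.L0

theorem aux {G : Type*} [Group G] [Finite G] (s : Finset (Subgroup G)) : (∀ L ∈ s, IsComponent L) → ∀ z ∈ s.sup id,
    (∀ L ∈ s, ∀ y ∈ L, z * y = y * z) →
    z ∈ ⨆ L : {K : Subgroup G // IsComponent K}, (Subgroup.center ↥(L : Subgroup G)).map (L : Subgroup G).subtype := by
  classical
  induction s using Finset.induction_on with
  | empty =>
    intro _ z hz _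
    rw [Finset.sup_empty, Subgroup.mem_bot] at hz
    rw [hz]; exact Subgroup.one_mem _
  | insert L s hLs ih =>
    intro hs z hz hc
    rw [Finset.sup_insert] at hz
    have hL : IsComponent L := hs L (Finset.mem_insert_self _ _)
    have hcomm : ∀ l ∈ L, ∀ y ∈ s.sup id, l * y = y * l := by
      rw [← comm_bot_iff, Subgroup.commutator_comm, Subgroup.commutator_eq_bot_iff_le_centralizer]
      refine Finset.sup_le fun K hK => ?_
      show K ≤ _
      rw [← Subgroup.commutator_eq_bot_iff_le_centralizer]
      refine component_commute (hs K (Finset.mem_insert_of_mem hK)) hL ?_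
      rintro rfl; exact hLs hK
    have hnorm : s.sup id ≤ Subgroup.normalizer (L : Set G) := by
      refine le_trans ?_ (H6.centralizer_le_norm L)
      intro y hy
      rw [Subgroup.mem_centralizer_iff]
      intro l hl
      exact hcomm l hl y hy
    obtain ⟨l, hl, y, hy, rfl⟩ := (mem_sup_of_normalizes hnorm).1 hz
    have hlc : ∀ u ∈ L, l * u = u * l := by
      intro u hu
      have h1 := hc L (Finset.mem_insert_self _ _) u hu
      have h2 := hcomm u hu y hy
      have h3 : l * u * y = u * l * y := by
        calc l * u * y = l * (u * y) := by group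
          _ = l * (y * u) := by rw [h2]
          _ = l * y * u := by group
          _ = u * (l * y) := h1
          _ = u * l * y := by group
      exact mul_right_cancel h3
    refine Subgroup.mul_mem _ ?_ (ih (fun K hK => hs K (Finset.mem_insert_of_mem hK)) y hy ?_)
    · refine Subgroup.mem_iSup_of_mem (⟨L, hL⟩ : {K : Subgroup G // IsComponent K}) ?_
      exact ⟨⟨l, hl⟩, Subgroup.mem_center_iff.2 fun u => Subtype.ext (hlc u u.2).symm, rfl⟩
    · intro K hK u hu
      have h1 := hc K (Finset.mem_insert_of_mem hK) u hu
      have hus : u ∈ s.sup id := (Finset.le_sup (f := id) hK) hu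
      have h2 := hcomm l hl u hus
      have h3 : l * (y * u) = l * (u * y) := by
        calc l * (y * u) = l * y * u := by group
          _ = u * (l * y) := h1
          _ = (u * l) * y := by group
          _ = l * u * y := by rw [h2]
          _ = l * (u * y) := by group
      exact mul_left_cancel h3

/-- For a finite group G, Z(E(G)) is the subgroup generated by the centres Z(L) of the components L of G (all viewed as subgroups of G). -/
theorem result {G : Type*} [Group G] [Finite G] : (Subgroup.center ↥(Cfsg.layer G)).map (Cfsg.layer G).subtype = ⨆ L : {K : Subgroup G // Cfsg.IsComponent K}, (Subgroup.center ↥(L : Subgroup G)).map (L : Subgroup G).subtype := by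
  classical
  apply le_antisymm
  · rintro _ ⟨z, hz, rfl⟩
    have hfin : {K : Subgroup G | IsComponent K}.Finite := Set.toFinite _
    have hsup : hfin.toFinset.sup id = layer G := by
      apply le_antisymm
      · refine Finset.sup_le fun K hK => ?_
        exact le_layer ((Set.Finite.mem_toFinset hfin).1 hK)
      · rw [layer_le_iff]
        intro K hK
        exact Finset.le_sup (f := id) ((Set.Finite.mem_toFinset hfin).2 hK)
    refine aux hfin.toFinset (fun L hL => (Set.Finite.mem_toFinset hfin).1 hL) z (by rw [hsup]; exact z.2) ?_
    intro L hL y hy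
    have h1 := Subgroup.mem_center_iff.1 hz ⟨y, le_layer ((Set.Finite.mem_toFinset hfin).1 hL) hy⟩
    exact (congrArg Subtype.val h1).symm
  · refine iSup_le fun L => ?_
    obtain ⟨L, hL⟩ := L
    rintro _ ⟨z, hz, rfl⟩
    have hzc : layer G ≤ Subgroup.centralizer ({((z : ↥L) : G)} : Set G) := by
      rw [layer_le_iff]
      intro K hK x hx
      rw [Subgroup.mem_centralizer_iff]
      intro w hw
      rw [Set.mem_singleton_iff.1 hw]
      by_cases hKL : K = L
      · subst hKL
        exact (congrArg Subtype.val (Subgroup.mem_center_iff.1 hz ⟨x, hx⟩)).symm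
      · exact (comm_bot_iff.1 (component_commute hK hL hKL) x hx z z.2).symm
    refine ⟨⟨z, le_layer hL z.2⟩, ?_, rfl⟩
    refine Subgroup.mem_center_iff.2 fun y => Subtype.ext ?_
    exact (Subgroup.mem_centralizer_iff.1 (hzc y.2) _ rfl).symm

end Cfsg.Agent.S1263
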