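import Cfsg.Statements.S1266
import Cfsg.Agent.H2.Lay
import Cfsg.Agent.H6.CharP
import Cfsg.Agent.H6.PNil
import Mathlib

set_option autoImplicit false
open Cfsg

namespace Cfsg.Agent.S1266

open Cfsg.Agent.H2 Cfsg.Agent.L0 Cfsg.Agent.H6
open scoped commutatorElement

/-- Let P be a p-subgroup of the finite group G and N = N_G(P). Then the preimage in N of E(N / O_{p'}(N)) centralizes O_p(G). -/
theorem result {G : Type*} [Group G] [Finite G] (p : ℕ) [Fact p.Prime] (P : Subgroup G) (hP : IsPGroup p ↥P) : (((Cfsg.layer (↥(Subgroup.normalizer ((P : Subgroup G) : Set G)) ⧸ Cfsg.pPrimeCore p ↥(Subgroup.normalizer ((P : Subgroup G) : Set G)))).comap (QuotientGroup.mk' (Cfsg.pPrimeCore p ↥(Subgroup.normalizer ((P : Subgroup G) : Set G))))).map (Subgroup.normalizer ((P : Subgroup G) : Set G)).subtype) ≤ Subgroup.centralizer (Cfsg.pCore p G : Set G) := by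
  obtain ⟨N, hN⟩ : ∃ N, N = Subgroup.normalizer ((P : Subgroup G) : Set G) := ⟨_, rfl⟩
  rw [← hN]
  obtain ⟨M, hM⟩ : ∃ M : Subgroup ↥N, M = (layer (↥N ⧸ pPrimeCore p ↥N)).comap (QuotientGroup.mk' (pPrimeCore p ↥N)) := ⟨_, rfl⟩
  rw [← hM]
  have hMn : M.Normal := by rw [hM]; infer_instance
  have hOM : pPrimeCore p ↥N ≤ M := by
    rw [hM]
    intro x hx
    rw [Subgroup.mem_comap]
    have : QuotientGroup.mk' (pPrimeCore p ↥N) x = 1 := (QuotientGroup.eq_one_iff x).mpr hx
    rw [this]; exact one_mem _
  -- M centralizes every normal p-subgroup of N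
  have hcent : ∀ R : Subgroup ↥N, R.Normal → IsPGroup p R → ∀ m ∈ M, ∀ r ∈ R, m * r = r * m := by
    intro R hR hRp m hm r hr
    have h1 : IsPGroup p ↥(R.map (QuotientGroup.mk' (pPrimeCore p ↥N))) := hRp.map _
    haveI : (R.map (QuotientGroup.mk' (pPrimeCore p ↥N))).Normal := hR.map _ (QuotientGroup.mk'_surjective _)
    have h2 := layer_commutator_solvable (N := R.map (QuotientGroup.mk' (pPrimeCore p ↥N))) (Cfsg.Agent.H1.isSolvable_of_isPGroup h1)
    rw [hM] at hm
    have h3 := comm_bot_iff.1 h2 _ hm _ ⟨r, hr, rfl⟩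
    have h4 : ⁅m, r⁆ ∈ R ⊓ pPrimeCore p ↥N := by
      refine ⟨?_, ?_⟩
      · rw [commutatorElement_def]
        exact R.mul_mem (hR.conj_mem r hr m) (R.inv_mem hr)
      · have : QuotientGroup.mk' (pPrimeCore p ↥N) ⁅m, r⁆ = 1 := by
          rw [map_commutatorElement, commutatorElement_eq_one_iff_mul_comm]; exact h3
        exact (QuotientGroup.eq_one_iff _).1 this
    have h5 : R ⊓ pPrimeCore p ↥N = ⊥ := by
      apply inf_eq_bot_of_coprime'
      exact Cfsg.Agent.H1.coprime_of_isPGroup hRp (pPrimeCore_coprime p ↥N)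
    rw [h5, Subgroup.mem_bot, commutatorElement_eq_one_iff_mul_comm] at h4
    exact h4
  have hPN : P ≤ N := by rw [hN]; exact Subgroup.le_normalizer
  have hPn : (P.subgroupOf N).Normal := (Subgroup.normal_subgroupOf_iff_le_normalizer hPN).2 hN.le
  have hR0 : ((pCore p G).subgroupOf N).Normal := inferInstance
  have hcP := hcent _ hPn (hP.comap_of_injective _ (Subgroup.subtype_injective N))
  have hcR := hcent _ hR0 ((pCore_isPGroup p G).comap_of_injective _ (Subgroup.subtype_injective N))
  -- p'-elements of M centralize O_p(G)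
  have hel : ∀ m ∈ M, (orderOf m).Coprime p → ∀ r ∈ pCore p G, (m : G) * r = r * m := by
    intro m hm ho r hr
    have hAB : ∀ a ∈ Subgroup.zpowers (m : G), ∀ b ∈ P, a * b = b * a := by
      intro a ha b hb
      obtain ⟨k, rfl⟩ := Subgroup.mem_zpowers_iff.1 ha
      have h1 : (m : G) * b = b * m := congrArg Subtype.val (hcP m hm ⟨b, hPN hb⟩ hb)
      exact ((show Commute (m : G) b from h1).zpow_left k).eq
    have hC : pCore p G ⊓ Subgroup.centralizer (P : Set G) ≤ Subgroup.centralizer (Subgroup.zpowers (m : G) : Set G) := by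
      intro y hy
      rw [Subgroup.mem_centralizer_iff]
      intro a ha
      obtain ⟨k, rfl⟩ := Subgroup.mem_zpowers_iff.1 ha
      have hyN : y ∈ N := by rw [hN]; exact H6.centralizer_le_norm P hy.2
      have h1 : (m : G) * y = y * m := congrArg Subtype.val (hcR m hm ⟨y, hyN⟩ hy.1)
      exact ((show Commute (m : G) y from h1).zpow_left k).eq
    have hnt : ∀ A : Subgroup G, A ≤ Subgroup.normalizer ((pCore p G : Subgroup G) : Set G) := fun A => by
      rw [Subgroup.normalizer_eq_top]; exact le_top
    have h1 := axb_lemma (p := p) (hnt (Subgroup.zpowers (m : G))) (hnt P) (pCore_isPGroup p G) hP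
      (by rw [Nat.card_zpowers, Subgroup.orderOf_coe]; exact ho) hAB hC
    exact (comm_bot_iff.1 h1 r hr m (Subgroup.mem_zpowers _)).symm
  -- M is generated by O^p
  obtain ⟨M0, hM0⟩ : ∃ M0 : Subgroup ↥N, M0 = opR p M := ⟨_, rfl⟩
  have hM0c : M0 ≤ (Subgroup.centralizer (pCore p G : Set G)).subgroupOf N := by
    rw [hM0]
    refine (Subgroup.closure_le _).2 ?_
    rintro m ⟨hm, ho⟩
    refine Subgroup.mem_subgroupOf.2 ?_
    rw [Subgroup.mem_centralizer_iff]
    intro r hr
    exact (hel m hm ho r hr).symm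
  have hMM0 : M ≤ M0 := by
    -- every component image is inside the image of M0
    have hM0n : M ≤ Subgroup.normalizer (M0 : Set ↥N) := by rw [hM0]; exact le_norm_opR M
    have hOM0 : pPrimeCore p ↥N ≤ M0 := by
      intro x hx
      rw [hM0]
      refine mem_opR (hOM hx) ?_
      exact Nat.Coprime.coprime_dvd_left (Subgroup.orderOf_dvd_natCard _ hx) (pPrimeCore_coprime p _)
    have hmap : layer (↥N ⧸ pPrimeCore p ↥N) ≤ M0.map (QuotientGroup.mk' (pPrimeCore p ↥N)) := by
      rw [layer_le_iff]
      intro K hK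
      have hKM : K ≤ M.map (QuotientGroup.mk' (pPrimeCore p ↥N)) := by
        rw [hM, Subgroup.map_comap_eq_self_of_surjective (QuotientGroup.mk'_surjective _)]
        exact le_layer hK
      have hKn : K ≤ Subgroup.normalizer ((M0.map (QuotientGroup.mk' (pPrimeCore p ↥N)) : Subgroup _) : Set (↥N ⧸ pPrimeCore p ↥N)) :=
        hKM.trans ((Subgroup.map_mono hM0n).trans (Subgroup.le_normalizer_map _))
      rcases quasisimple_le_or_commutator (N := M0.map (QuotientGroup.mk' (pPrimeCore p ↥N)) ⊓ K) hK.2 inf_le_right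
        (le_norm_inf hKn Subgroup.le_normalizer) with h | h
      · exact h.trans inf_le_left
      · exfalso
        -- K has only p-power elements modulo center: every p'-element of K lies in M0-image ⊓ K
        have hz : ∀ k ∈ K, (orderOf k).Coprime p → k ∈ Subgroup.centralizer (K : Set (↥N ⧸ pPrimeCore p ↥N)) := by
          intro k hk ho
          have h1 : k ∈ M0.map (QuotientGroup.mk' (pPrimeCore p ↥N)) := by
            rw [hM0, ← opR_map]
            exact mem_opR (hKM hk) ho
          rw [Subgroup.mem_centralizer_iff]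
          intro y hy
          exact comm_bot_iff.1 h y hy k ⟨h1, hk⟩
        -- K / Z(K) is a p-group, contradiction
        have h2 : IsPGroup p (↥K ⧸ Subgroup.center ↥K) := by
          intro y
          obtain ⟨⟨k, hk⟩, rfl⟩ := QuotientGroup.mk'_surjective _ y
          obtain ⟨j, hj⟩ := pprime_part (p := p) k
          refine ⟨j, ?_⟩
          rw [← map_pow]
          refine (QuotientGroup.eq_one_iff _).2 ?_
          rw [Subgroup.mem_center_iff]
          intro g
          apply Subtype.ext
          exact Subgroup.mem_centralizer_iff.1 (hz _ (K.pow_mem hk _) hj) g g.2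
        have h3 : Group.IsSolvable (↥K ⧸ Subgroup.center ↥K) := by
          haveI := h2.isNilpotent
          infer_instance
        have h4 : Group.IsSolvable ↥K := by
          haveI := h3
          haveI : Group.IsSolvable ↥(Subgroup.center ↥K) := by
            refine Group.isSolvable_of_comm ?_
            rintro ⟨a, ha⟩ ⟨b, hb⟩
            exact Subtype.ext (Subgroup.mem_center_iff.1 hb a)
          refine Group.isSolvable_of_ker_le_range (Subgroup.center ↥K).subtype (QuotientGroup.mk' (Subgroup.center ↥K)) ?_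
          rw [QuotientGroup.ker_mk', Subgroup.range_subtype]
        exact quasisimple_not_isSolvable hK.2 h4
    intro m hm
    have h1 : QuotientGroup.mk' (pPrimeCore p ↥N) m ∈ M0.map (QuotientGroup.mk' (pPrimeCore p ↥N)) := by
      apply hmap
      rw [hM] at hm; exact hm
    obtain ⟨m0, hm0, he⟩ := h1
    rw [QuotientGroup.mk'_eq_mk'] at he
    obtain ⟨z, hz, rfl⟩ := he
    exact M0.mul_mem hm0 (hOM0 hz)
  rintro _ ⟨m, hm, rfl⟩
  exact Subgroup.mem_subgroupOf.1 (hM0c (hMM0 hm))

end Cfsg.Agent.S1266
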