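import Cfsg.Statements.S1267
import Cfsg.Agent.S1266
import Cfsg.Agent.H2.OddCore
import Mathlib

set_option autoImplicit false
open Cfsg

namespace Cfsg.Agent.S1267

open Cfsg.Agent.H2 Cfsg.Agent.L0 Cfsg.Agent.H6

/-- Let G be finite and P ≤ O_p(G). Then E(N_G(P)) = E(G). -/
theorem result {G : Type*} [Group G] [Finite G] (p : ℕ) [Fact p.Prime] (P : Subgroup G) (hP : P ≤ Cfsg.pCore p G) : (Cfsg.layer ↥(Subgroup.normalizer ((P : Subgroup G) : Set G))).map (Subgroup.normalizer ((P : Subgroup G) : Set G)).subtype = Cfsg.layer G := by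
  have hres := Cfsg.Agent.S1266.result p P ((pCore_isPGroup p G).to_le hP)
  obtain ⟨N, hN⟩ : ∃ N, N = Subgroup.normalizer ((P : Subgroup G) : Set G) := ⟨_, rfl⟩
  rw [← hN] at hres ⊢
  have hcR : ∀ K : Subgroup G, IsComponent K → K ≤ N := by
    intro K hK
    have h1 := component_commutator_solvable hK (N := pCore p G) (Cfsg.Agent.H1.isSolvable_of_isPGroup (pCore_isPGroup p G))
    have h2 := Subgroup.commutator_eq_bot_iff_le_centralizer.1 h1
    rw [hN]
    exact (h2.trans (Subgroup.centralizer_le hP)).trans (H6.centralizer_le_norm P)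
  apply le_antisymm
  · rw [Subgroup.map_le_iff_le_comap]
    refine sSup_le fun K hK => ?_
    rw [← Subgroup.map_le_iff_le_comap]
    obtain ⟨K', hK'⟩ : ∃ K', K' = K.map N.subtype := ⟨_, rfl⟩
    rw [← hK']
    have hKq : ⁅K', K'⁆ = K' := by
      rw [hK', ← Subgroup.map_commutator, commutator_self_of_isQuasisimple hK.2]
    have hKb : K' ≠ ⊥ := by
      rw [hK']
      intro h
      exact quasisimple_ne_bot hK.2 ((Subgroup.map_eq_bot_iff_of_injective _ N.subtype_injective).1 h)
    -- centralizes O_p
    have h1 : K' ≤ Subgroup.centralizer (pCore p G : Set G) := by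
      refine le_trans ?_ hres
      rw [hK']
      refine Subgroup.map_mono ?_
      rw [← Subgroup.map_le_iff_le_comap]
      by_cases hb : K.map (QuotientGroup.mk' (pPrimeCore p ↥N)) = ⊥
      · rw [hb]; exact bot_le
      · refine le_layer ⟨hK.1.map (QuotientGroup.mk'_surjective _), ?_⟩
        haveI := (Subgroup.nontrivial_iff_ne_bot _).2 hb
        exact qs_surj hK.2 _ ((QuotientGroup.mk' (pPrimeCore p ↥N)).subgroupMap_surjective K) inferInstance
    -- centralizes W
    obtain ⟨W, hW⟩ : ∃ W, W = fittingSubgroup G ⊓ pPrimeCore p G := ⟨_, rfl⟩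
    have hWn : W.Normal := by rw [hW]; infer_instance
    have hWP : W ≤ Subgroup.centralizer (P : Set G) := by
      have h2 : ⁅W, pCore p G⁆ = ⊥ := by
        rw [eq_bot_iff]
        refine (Subgroup.commutator_le_inf W (pCore p G)).trans ?_
        rw [le_bot_iff]
        apply inf_eq_bot_of_coprime'
        refine Nat.Coprime.symm (Cfsg.Agent.H1.coprime_of_isPGroup (pCore_isPGroup p G) ?_)
        rw [hW]
        exact Nat.Coprime.coprime_dvd_left (Subgroup.card_dvd_of_le inf_le_right) (pPrimeCore_coprime p G)
      exact (Subgroup.commutator_eq_bot_iff_le_centralizer.1 h2).trans (Subgroup.centralizer_le hP)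
    have hWN : W ≤ N := by rw [hN]; exact hWP.trans (H6.centralizer_le_norm P)
    have hWs : Group.IsSolvable ↥(W.subgroupOf N) := by
      haveI := fittingSubgroup_isNilpotent G
      have h2 : Group.IsSolvable ↥(fittingSubgroup G) := inferInstance
      exact isSolvable_subgroupOf (isSolvable_subgroup_of_le (by rw [hW]; exact inf_le_left) h2)
    have h2 : K' ≤ Subgroup.centralizer (W : Set G) := by
      have h3 := component_commutator_solvable hK (N := W.subgroupOf N) hWs
      rw [hK']
      rintro _ ⟨k, hk, rfl⟩
      rw [Subgroup.mem_centralizer_iff]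
      intro w hw
      exact (congrArg Subtype.val (comm_bot_iff.1 h3 k hk ⟨w, hWN hw⟩ (Subgroup.mem_subgroupOf.2 hw))).symm
    have h3 : K' ≤ Subgroup.centralizer (fittingSubgroup G : Set G) := by
      intro k hk
      rw [Subgroup.mem_centralizer_iff]
      intro x hx
      have h4 := map_subtype_le_sup (p := p) hx
      obtain ⟨a, ha, b, hb, rfl⟩ := Subgroup.mem_sup_of_normal_right.1 h4
      have haF : a ∈ fittingSubgroup G := by
        have : Group.IsNilpotent ↥(pCore p G) := (pCore_isPGroup p G).isNilpotent
        exact le_fittingSubgroup this ha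
      have hbF : b ∈ fittingSubgroup G := by
        have := Subgroup.mul_mem _ (Subgroup.inv_mem _ haF) hx
        simpa using this
      have hbW : b ∈ W := by rw [hW]; exact ⟨hbF, hb⟩
      have e1 := Subgroup.mem_centralizer_iff.1 (h1 hk) a ha
      have e2 := Subgroup.mem_centralizer_iff.1 (h2 hk) b hbW
      calc a * b * k = a * (b * k) := by group
        _ = a * (k * b) := by rw [e2]
        _ = (a * k) * b := by group
        _ = k * a * b := by rw [e1]
        _ = k * (a * b) := by group
    by_contra hcon
    have h4 : K' ≤ Subgroup.centralizer (layer G : Set G) := by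
      rw [← Subgroup.commutator_eq_bot_iff_le_centralizer, Subgroup.commutator_comm,
        Subgroup.commutator_eq_bot_iff_le_centralizer, layer_le_iff]
      intro L hL
      rw [← Subgroup.commutator_eq_bot_iff_le_centralizer]
      have hLN := hcR L hL
      have hLc := isComponent_subgroupOf hL hLN
      have hne : L.subgroupOf N ≠ K := by
        intro h
        apply hcon
        rw [hK', ← h, Subgroup.map_subgroupOf_eq_of_le hLN]
        exact le_layer hL
      have h5 := component_commute hLc hK hne
      have h6 := congrArg (Subgroup.map N.subtype) h5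
      rw [Subgroup.map_commutator, Subgroup.map_subgroupOf_eq_of_le hLN, Subgroup.map_bot, ← hK'] at h6
      exact h6
    have h5 : K' ≤ Subgroup.centralizer (generalizedFittingSubgroup G : Set G) := by
      rw [← Subgroup.commutator_eq_bot_iff_le_centralizer, Subgroup.commutator_comm,
        Subgroup.commutator_eq_bot_iff_le_centralizer]
      refine sup_le ?_ ?_
      · rw [← Subgroup.commutator_eq_bot_iff_le_centralizer, Subgroup.commutator_comm,
          Subgroup.commutator_eq_bot_iff_le_centralizer]
        exact h4
      · rw [← Subgroup.commutator_eq_bot_iff_le_centralizer, Subgroup.commutator_comm,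
          Subgroup.commutator_eq_bot_iff_le_centralizer]
        exact h3
    have h6 : K' ≤ generalizedFittingSubgroup G := h5.trans (centralizer_generalizedFitting_le G)
    have h7 : ⁅K', K'⁆ = ⊥ := by
      rw [Subgroup.commutator_eq_bot_iff_le_centralizer]
      exact h5.trans (Subgroup.centralizer_le h6)
    rw [hKq] at h7
    exact hKb h7
  · rw [layer_le_iff]
    intro K hK
    have hKN := hcR K hK
    have h3 := le_layer (isComponent_subgroupOf hK hKN)
    intro x hx
    exact ⟨⟨x, hKN hx⟩, h3 (Subgroup.mem_subgroupOf.2 hx), rfl⟩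

end Cfsg.Agent.S1267
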