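import Cfsg.Statements.S1273
import Cfsg.Agent.H2.Lay
import Cfsg.Agent.H6.Cocyc
import Mathlib

set_option autoImplicit false
open Cfsg

namespace Cfsg.Agent.S1273

open Cfsg.Agent.H2 Cfsg.Agent.H6 Cfsg.Agent.L0
open scoped commutatorElement

theorem pprime_subnormal_bot {Q : Type*} [Group Q] [Finite Q] {p : ℕ} [Fact p.Prime] (h : pPrimeCore p Q = ⊥) {H : Subgroup Q}
    (hH : H.IsSubnormal) : pPrimeCore p H = ⊥ := by
  have h1 := pPrimeCore_subnormal (p := p) hH
  rw [h, bot_inf_eq, Subgroup.map_eq_bot_iff_of_injective _ H.subtype_injective] at h1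
  exact h1

/-- Let K be a p-component of the finite group X and N a normal subgroup of K whose index in K is prime to p. Then N = K. -/
theorem result {X : Type*} [Group X] [Finite X] (p : ℕ) [Fact p.Prime] (K : Subgroup X) (hK : Cfsg.IsPComponent p K) (N : Subgroup ↥K) [N.Normal] (hidx : (N.index).Coprime p) : N = ⊤ := by
  have hQ : pPrimeCore p (X ⧸ pPrimeCore p X) = ⊥ := pPrimeCore_quotient_pPrimeCore p X
  have hn : K ≤ Subgroup.normalizer ((N.map K.subtype : Subgroup X) : Set X) := by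
    refine (Subgroup.normal_subgroupOf_iff_le_normalizer (Subgroup.map_subtype_le N)).1 ?_
    rw [Subgroup.subgroupOf, Subgroup.comap_map_eq_self_of_injective K.subtype_injective]
    infer_instance
  rcases pcomp_normal_cases hK (Subgroup.map_subtype_le N) hn with h | h
  · rw [eq_top_iff]
    intro x _
    have h1 : (x : X) ∈ N.map K.subtype := by rw [h]; exact x.2
    obtain ⟨y, hy, hyx⟩ := h1
    have : y = x := Subtype.ext hyx
    rw [← this]; exact hy
  · exfalso
    -- pass to the image Kb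
    obtain ⟨Kb, hKb⟩ : ∃ Kb, Kb = K.map (QuotientGroup.mk' (pPrimeCore p X)) := ⟨_, rfl⟩
    have hKc : IsComponent Kb := by rw [hKb]; exact hK.2.1
    let f0 : ↥K →* ↥(K.map (QuotientGroup.mk' (pPrimeCore p X))) := (QuotientGroup.mk' (pPrimeCore p X)).subgroupMap K
    have hf0 : Function.Surjective f0 := (QuotientGroup.mk' (pPrimeCore p X)).subgroupMap_surjective K
    let f : ↥K →* ↥Kb := (MulEquiv.subgroupCongr hKb.symm).toMonoidHom.comp f0
    have hf : Function.Surjective f := (MulEquiv.subgroupCongr hKb.symm).surjective.comp hf0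
    have hfv : ∀ x : ↥K, ((f x : ↥Kb) : X ⧸ pPrimeCore p X) = QuotientGroup.mk' (pPrimeCore p X) (x : X) := fun x => rfl
    -- N maps into the center
    have hNz : N.map f ≤ Subgroup.center ↥Kb := by
      rintro _ ⟨x, hx, rfl⟩
      rw [Subgroup.mem_center_iff]
      intro y
      obtain ⟨k, rfl⟩ := hf y
      apply Subtype.ext
      show ((f k : ↥Kb) : X ⧸ pPrimeCore p X) * ((f x : ↥Kb) : X ⧸ pPrimeCore p X) = ((f x : ↥Kb) : X ⧸ pPrimeCore p X) * ((f k : ↥Kb) : X ⧸ pPrimeCore p X)
      rw [hfv, hfv, ← map_mul, ← map_mul, QuotientGroup.mk'_eq_mk']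
      have h1 : ⁅(k : X), (x : X)⁆ ∈ pPrimeCore p X := h (Subgroup.commutator_mem_commutator k.2 ⟨x, hx, rfl⟩)
      refine ⟨((k : X) * x)⁻¹ * (x * k), ?_, by group⟩
      have h2 := (inferInstance : (pPrimeCore p X).Normal).conj_mem _ (Subgroup.inv_mem _ h1) ((k : X) * x)⁻¹
      have e : ((k : X) * x)⁻¹ * (x * k) = ((k : X) * x)⁻¹ * ⁅(k : X), (x : X)⁆⁻¹ * (((k : X) * x)⁻¹)⁻¹ := by
        rw [commutatorElement_def]; group
      rw [e]; exact h2
    -- the index of the center is prime to p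
    have hzi : (Subgroup.center ↥Kb).index.Coprime p := by
      refine Nat.Coprime.coprime_dvd_left (Subgroup.index_dvd_of_le hNz) ?_
      refine Nat.Coprime.coprime_dvd_left ?_ hidx
      exact Subgroup.index_map_dvd N hf
    -- center is a p-group
    have hO : pPrimeCore p ↥Kb = ⊥ := pprime_subnormal_bot hQ hKc.1
    have hOz : pPrimeCore p ↥(Subgroup.center ↥Kb) = ⊥ := by
      have h1 := pPrimeCore_subgroup_le p (Subgroup.center ↥Kb)
      rw [hO, le_bot_iff, Subgroup.map_eq_bot_iff_of_injective _ (Subgroup.subtype_injective _)] at h1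
      exact h1
    have hzp : IsPGroup p ↥(Subgroup.center ↥Kb) := by
      have h1 : fittingSubgroup ↥(Subgroup.center ↥Kb) = ⊤ := by
        rw [eq_top_iff]
        refine le_fittingSubgroup ?_
        refine nil_of_comm ?_
        rintro ⟨⟨a, ha⟩, ha'⟩ ⟨⟨b, hb⟩, hb'⟩
        exact Subtype.ext (Subtype.ext (Subgroup.mem_center_iff.1 hb a))
      have h2 := fitting_isP hOz
      rw [h1] at h2
      exact h2.of_equiv Subgroup.topEquiv
    obtain ⟨n, hn'⟩ := IsPGroup.iff_card.1 hzp
    have hcop : (Nat.card (Subgroup.center ↥Kb)).Coprime (Subgroup.center ↥Kb).index := by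
      rw [hn']; exact Nat.Coprime.pow_left n hzi.symm
    obtain ⟨H, hH⟩ := Subgroup.exists_right_complement'_of_coprime hcop
    have hHn : H.Normal := by
      refine ⟨fun x hx g => ?_⟩
      obtain ⟨⟨z, h'⟩, hzh⟩ := hH.2 g
      have hzh' : (z : ↥Kb) * (h' : ↥Kb) = g := hzh
      have h1 : g * x * g⁻¹ = h' * x * (h' : ↥Kb)⁻¹ := by
        rw [← hzh']
        have hz := Subgroup.mem_center_iff.1 z.2
        calc (z : ↥Kb) * h' * x * ((z : ↥Kb) * h')⁻¹ = z * (h' * x * (h' : ↥Kb)⁻¹) * (z : ↥Kb)⁻¹ := by group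
          _ = h' * x * (h' : ↥Kb)⁻¹ := by rw [← hz]; group
      rw [h1]
      exact H.mul_mem (H.mul_mem h'.2 hx) (H.inv_mem h'.2)
    have hHc : (Nat.card H).Coprime p := by rw [← hH.symm.index_eq_card]; exact hzi
    have hHb : H = ⊥ := by
      rw [eq_bot_iff, ← hO]; exact le_pPrimeCore hHc
    have hct : Subgroup.center ↥Kb = ⊤ := by
      have h1 := hH.symm.index_eq_card
      rw [hHb, Subgroup.card_bot] at h1
      exact Subgroup.index_eq_one.1 h1
    exact quasisimple_center_ne_top hKc.2 hct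

end Cfsg.Agent.S1273
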