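import Cfsg.Statements.S1277
import Cfsg.Agent.H2.PComp2
import Mathlib

set_option autoImplicit false
open Cfsg

namespace Cfsg.Agent.S1277

open Cfsg.Agent.H2 Cfsg.Agent.H6 Cfsg.Agent.L0

theorem comp_is_pcomp {X : Type*} [Group X] [Finite X] {p : ℕ} [Fact p.Prime] {L : Subgroup X} (hL : IsComponent L)
    (hc : IsComponent (L.map (QuotientGroup.mk' (pPrimeCore p X)))) : IsPComponent p L := by
  refine ⟨hL.1, hc, ?_⟩
  intro H hH hHL hm
  have h1 := component_subnormal_cases hL hH
  rcases h1 with h | h
  · exact le_antisymm hHL h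
  · exfalso
    have h2 : ⁅H, H⁆ = ⊥ := by rw [eq_bot_iff, ← h]; exact Subgroup.commutator_mono hHL le_rfl
    have h3 := commutator_self_of_isQuasisimple hc.2
    rw [← hm, ← Subgroup.map_commutator, h2, Subgroup.map_bot] at h3
    exact quasisimple_ne_bot hc.2 (hm ▸ h3.symm)

/-- For a finite group X with core O(X): the image of E(X) in X / O(X) is all of E(X / O(X)) if and only if every 2-component of X is a component, i.e. L_{2'}(X) ≤ E(X). -/
theorem result {X : Type*} [Group X] [Finite X] : (Cfsg.layer X).map (QuotientGroup.mk' (Cfsg.oddCore X)) = Cfsg.layer (X ⧸ Cfsg.oddCore X) ↔ Cfsg.pLayer 2 X ≤ Cfsg.layer X := by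
  constructor
  · intro h
    refine sSup_le fun K hK => ?_
    by_contra hcon
    -- the image of K commutes with the image of every component
    have h1 : K.map (QuotientGroup.mk' (oddCore X)) ≤ Subgroup.centralizer ((layer (X ⧸ oddCore X) : Subgroup (X ⧸ oddCore X)) : Set (X ⧸ oddCore X)) := by
      rw [← Subgroup.commutator_eq_bot_iff_le_centralizer, Subgroup.commutator_comm,
        Subgroup.commutator_eq_bot_iff_le_centralizer, ← h, Subgroup.map_le_iff_le_comap]
      refine sSup_le fun L hL => ?_
      rw [← Subgroup.map_le_iff_le_comap, ← Subgroup.commutator_eq_bot_iff_le_centralizer]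
      by_cases hn : L.map (QuotientGroup.mk' (oddCore X)) = ⊥
      · rw [hn, Subgroup.commutator_bot_left]
      · have hLc : IsComponent (L.map (QuotientGroup.mk' (oddCore X))) := by
          refine ⟨hL.1.map (QuotientGroup.mk'_surjective _), ?_⟩
          haveI := (Subgroup.nontrivial_iff_ne_bot _).2 hn
          exact qs_surj hL.2 _ ((QuotientGroup.mk' (oddCore X)).subgroupMap_surjective L) inferInstance
        have hLp : IsPComponent 2 L := comp_is_pcomp hL hLc
        refine component_commute hLc hK.2.1 ?_
        intro he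
        have h2 : L = K := pcomp_unique hLp hK he
        apply hcon
        rw [← h2]; exact le_layer hL
    have h2 : K.map (QuotientGroup.mk' (oddCore X)) ≤ layer (X ⧸ oddCore X) := le_layer hK.2.1
    have h3 : ⁅K.map (QuotientGroup.mk' (oddCore X)), K.map (QuotientGroup.mk' (oddCore X))⁆ = ⊥ := by
      rw [Subgroup.commutator_eq_bot_iff_le_centralizer]
      exact h1.trans (Subgroup.centralizer_le h2)
    rw [commutator_self_of_isQuasisimple hK.2.1.2] at h3
    exact quasisimple_ne_bot hK.2.1.2 h3
  · intro h
    apply le_antisymm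
    · rw [Subgroup.map_le_iff_le_comap]
      refine sSup_le fun L hL => ?_
      rw [← Subgroup.map_le_iff_le_comap]
      by_cases hn : L.map (QuotientGroup.mk' (oddCore X)) = ⊥
      · rw [hn]; exact bot_le
      · refine le_layer ⟨hL.1.map (QuotientGroup.mk'_surjective _), ?_⟩
        haveI := (Subgroup.nontrivial_iff_ne_bot _).2 hn
        exact qs_surj hL.2 _ ((QuotientGroup.mk' (oddCore X)).subgroupMap_surjective L) inferInstance
    · rw [← map_pLayer]
      exact Subgroup.map_mono h

end Cfsg.Agent.S1277
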