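import Cfsg.Statements.S1278
import Cfsg.Agent.H2.PComp2
import Mathlib

set_option autoImplicit false
open Cfsg

namespace Cfsg.Agent.S1278

open Cfsg.Agent.H2 Cfsg.Agent.H6 Cfsg.Agent.L0

/-- Let K ≠ L be 2-components of the finite group X. Then ⁅K, L⁆ ≤ O(K) ⊓ O(L), and if K is quasisimple then ⁅K, L⁆ = 1. -/
theorem result {X : Type*} [Group X] [Finite X] (K L : Subgroup X) (hK : Cfsg.IsPComponent 2 K) (hL : Cfsg.IsPComponent 2 L) (hne : K ≠ L) : ⁅K, L⁆ ≤ ((Cfsg.oddCore ↥K).map K.subtype) ⊓ ((Cfsg.oddCore ↥L).map L.subtype) ∧ (Cfsg.IsQuasisimple ↥K → ⁅K, L⁆ = ⊥) := by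
  have h1 := pcomp_comm hK hL hne
  have hKL : ⁅K, L⁆ ≤ K := Subgroup.le_normalizer_iff_commutator_le_left.1 (pcomp_norm hK hL)
  have hLK : ⁅K, L⁆ ≤ L := by
    rw [Subgroup.commutator_comm]
    exact Subgroup.le_normalizer_iff_commutator_le_left.1 (pcomp_norm hL hK)
  have h2 : ⁅K, L⁆ ≤ (oddCore ↥K).map K.subtype := by
    rw [pPrimeCore_subnormal hK.1]; exact le_inf h1 hKL
  have h3 : ⁅K, L⁆ ≤ (oddCore ↥L).map L.subtype := by
    rw [pPrimeCore_subnormal hL.1]; exact le_inf h1 hLK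
  refine ⟨le_inf h2 h3, fun hq => ?_⟩
  apply commutator_eq_bot_of_perfect_of_triple (pcomp_perfect hK)
  rw [eq_bot_iff, ← (pcomp_qs_iff hK).1 hq, Subgroup.commutator_comm]
  exact Subgroup.commutator_mono le_rfl h2

end Cfsg.Agent.S1278
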