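import Cfsg.Statements.S1289
import Cfsg.Agent.H2.PComp2
import Mathlib

set_option autoImplicit false
open Cfsg

namespace Cfsg.Agent.S1289

open Cfsg.Agent.H2 Cfsg.Agent.H6 Cfsg.Agent.L0

/-- A p-component K of the finite group X is subnormal, perfect, of order divisible by p, and minimal among the subnormal perfect subgroups of X of order divisible by p. -/
theorem result {X : Type*} [Group X] [Finite X] (p : ℕ) [Fact p.Prime] (K : Subgroup X) (hK : Cfsg.IsPComponent p K) : K.IsSubnormal ∧ ⁅K, K⁆ = K ∧ p ∣ Nat.card ↥K ∧ ∀ H : Subgroup X, H ≤ K → H.IsSubnormal → ⁅H, H⁆ = H → p ∣ Nat.card ↥H → H = K := by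
  have hQ : pPrimeCore p (X ⧸ pPrimeCore p X) = ⊥ := pPrimeCore_quotient_pPrimeCore p X
  refine ⟨hK.1, pcomp_perfect hK, ?_, ?_⟩
  · by_contra hnd
    have h1 : (Nat.card ↥(K.map (QuotientGroup.mk' (pPrimeCore p X)))).Coprime p := by
      refine Nat.Coprime.coprime_dvd_left (Subgroup.card_map_dvd K _) ?_
      exact ((Fact.out : p.Prime).coprime_iff_not_dvd.2 hnd).symm
    have h2 := pPrimeCore_subnormal (p := p) hK.2.1.1
    have h3 : pPrimeCore p ↥(K.map (QuotientGroup.mk' (pPrimeCore p X))) = ⊤ := by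
      rw [eq_top_iff]; exact le_pPrimeCore (by rw [Subgroup.card_top]; exact h1)
    rw [h3, hQ, bot_inf_eq, ← MonoidHom.range_eq_map, Subgroup.range_subtype] at h2
    exact quasisimple_ne_bot hK.2.1.2 h2
  · intro H hHK hH hHp hHd
    rcases component_subnormal_cases hK.2.1 (hH.map (QuotientGroup.mk'_surjective (pPrimeCore p X))) with h | h
    · exact hK.2.2 H hH hHK (le_antisymm (Subgroup.map_mono hHK) h)
    · exfalso
      have h2 : ⁅H.map (QuotientGroup.mk' (pPrimeCore p X)), H.map (QuotientGroup.mk' (pPrimeCore p X))⁆ = ⊥ := by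
        rw [eq_bot_iff, ← h]; exact Subgroup.commutator_mono (Subgroup.map_mono hHK) le_rfl
      rw [← Subgroup.map_commutator, hHp, Subgroup.map_eq_bot_iff, QuotientGroup.ker_mk'] at h2
      have h3 := hHd.trans (Subgroup.card_dvd_of_le h2)
      exact ((Fact.out : p.Prime).coprime_iff_not_dvd.1 (pPrimeCore_coprime p X).symm) h3

end Cfsg.Agent.S1289
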