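import Cfsg.Statements.S1306
import Cfsg.Agent.H2.Lay
import Cfsg.Agent.H6.CharP
import Mathlib

set_option autoImplicit false
open Cfsg

namespace Cfsg.Agent.S1306

open Cfsg.Agent.H2 Cfsg.Agent.L0 Cfsg.Agent.H6

theorem comp_cent_conj {G : Type*} [Group G] [Finite G] {y : G} {L : Subgroup G} (hL : L ≤ Subgroup.centralizer ({y} : Set G))
    (h : IsComponent (L.subgroupOf (Subgroup.centralizer ({y} : Set G)))) (g : G) :
    cj g L ≤ Subgroup.centralizer ({g * y * g⁻¹} : Set G) ∧
      IsComponent ((cj g L).subgroupOf (Subgroup.centralizer ({g * y * g⁻¹} : Set G))) := by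
  have hle : cj g L ≤ Subgroup.centralizer ({g * y * g⁻¹} : Set G) := by
    rw [← cj_centralizer_sing]; exact cj_mono hL
  refine ⟨hle, ?_⟩
  have hC : cj g (Subgroup.centralizer ({y} : Set G)) = Subgroup.centralizer ({g * y * g⁻¹} : Set G) := cj_centralizer_sing g y
  let e : ↥(Subgroup.centralizer ({y} : Set G)) ≃* ↥(cj g (Subgroup.centralizer ({y} : Set G))) :=
    (Subgroup.centralizer ({y} : Set G)).equivMapOfInjective (MulAut.conj g).toMonoidHom (MulAut.conj g).injective
  let e' := e.trans (MulEquiv.subgroupCongr hC)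
  have h1 := isComponent_map_equiv e' h
  have h2 : (L.subgroupOf (Subgroup.centralizer ({y} : Set G))).map e'.toMonoidHom =
      (cj g L).subgroupOf (Subgroup.centralizer ({g * y * g⁻¹} : Set G)) := by
    ext x
    rw [Subgroup.mem_subgroupOf]
    constructor
    · rintro ⟨z, hz, rfl⟩
      exact ⟨z, hz, rfl⟩
    · rintro ⟨z, hz, hzx⟩
      exact ⟨⟨z, hL hz⟩, Subgroup.mem_subgroupOf.2 hz, Subtype.ext hzx⟩
  rwa [h2] at h1

/-- Let G be finite, x an involution and L ≤ C_G(x) a component of C_G(x). Suppose L is a component of C_G(y) for every involution y ∈ C_G(L), and ⁅L, g L g⁻¹⁆ ≠ 1 whenever g L g⁻¹ ≠ L. Then L is a standard subgroup of G. -/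
theorem result {G : Type*} [Group G] [Finite G] (x : G) (hx : orderOf x = 2) (L : Subgroup G) (hLx : L ≤ Subgroup.centralizer ({x} : Set G)) (hL : Cfsg.IsComponent (L.subgroupOf (Subgroup.centralizer ({x} : Set G)))) (hne : ∀ y : G, orderOf y = 2 → y ∈ Subgroup.centralizer (L : Set G) → L ≤ Subgroup.centralizer ({y} : Set G) ∧ Cfsg.IsComponent (L.subgroupOf (Subgroup.centralizer ({y} : Set G)))) (hnc : ∀ g : G, L.map (MulAut.conj g).toMonoidHom ≠ L → ⁅L, L.map (MulAut.conj g).toMonoidHom⁆ ≠ ⊥) : Cfsg.IsStandardSubgroup L := by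
  have hq : IsQuasisimple L := by
    have := hL.2
    exact isQuasisimple_of_mulEquiv (Subgroup.subgroupOfEquivOfLe hLx) this
  have hxC : x ∈ Subgroup.centralizer (L : Set G) := by
    rw [Subgroup.mem_centralizer_iff]
    intro l hl
    exact (Subgroup.mem_centralizer_singleton_iff.1 (hLx hl))
  -- main claim
  have key : ∀ g y : G, orderOf y = 2 → y ∈ Subgroup.centralizer (L : Set G) →
      g⁻¹ * y * g ∈ Subgroup.centralizer (L : Set G) → L.map (MulAut.conj g).toMonoidHom = L := by
    intro g y hy hyC hyC'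
    by_contra hcon
    apply hnc g hcon
    obtain ⟨h1, h2⟩ := hne y hy hyC
    have ho : orderOf (g⁻¹ * y * g) = 2 := by
      have := orderOf_injective (MulAut.conj g⁻¹).toMonoidHom (MulAut.conj g⁻¹).injective y
      have e : (MulAut.conj g⁻¹).toMonoidHom y = g⁻¹ * y * g := by simp
      rw [e] at this; rw [this, hy]
    obtain ⟨h3, h4⟩ := hne _ ho hyC'
    obtain ⟨h5, h6⟩ := comp_cent_conj h3 h4 g
    have e : g * (g⁻¹ * y * g) * g⁻¹ = y := by group
    rw [e] at h5 h6
    have h7 := component_commute h2 h6 (by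
      intro he
      apply hcon
      have := congrArg (Subgroup.map (Subgroup.centralizer ({y} : Set G)).subtype) he
      rw [Subgroup.map_subgroupOf_eq_of_le h1, Subgroup.map_subgroupOf_eq_of_le h5] at this
      exact this.symm)
    have h8 := congrArg (Subgroup.map (Subgroup.centralizer ({y} : Set G)).subtype) h7
    rw [Subgroup.map_commutator, Subgroup.map_subgroupOf_eq_of_le h1, Subgroup.map_subgroupOf_eq_of_le h5, Subgroup.map_bot] at h8
    exact h8
  have hNle : Subgroup.normalizer (L : Set G) ≤ Subgroup.normalizer (Subgroup.centralizer (L : Set G) : Set G) :=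
    le_norm_centralizer le_rfl
  refine ⟨hq, ⟨?_, ?_⟩, hnc, le_antisymm hNle ?_⟩
  · rw [even_iff_two_dvd, ← hx]
    exact Subgroup.orderOf_dvd_natCard _ hxC
  · intro g hg
    rw [← Nat.not_even_iff_odd, even_iff_two_dvd]
    intro hd
    haveI : Fact (Nat.Prime 2) := ⟨Nat.prime_two⟩
    obtain ⟨y, hy⟩ := exists_prime_orderOf_dvd_card' 2 hd
    have hyo : orderOf (y : G) = 2 := by rw [Subgroup.orderOf_coe]; exact hy
    apply hg
    apply hNle
    rw [mem_norm]
    exact key g y hyo y.2.1 (by
      have h1 : (y : G) ∈ cj g (Subgroup.centralizer (L : Set G)) := y.2.2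
      exact mem_cj.1 h1)
  · intro g hg
    rw [mem_norm]
    exact key g x hx hxC (by
      have h1 := (Subgroup.mem_normalizer_iff.1 (Subgroup.inv_mem _ hg) x).1 hxC
      simpa using h1)

end Cfsg.Agent.S1306
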