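import Cfsg.Statements.S1314
import Cfsg.Agent.H2.Lay
import Mathlib

set_option autoImplicit false
open Cfsg

namespace Cfsg.Agent.S1314

open Cfsg.Agent.H6
open scoped commutatorElement

/-- Let x be an involution of a group G and L a perfect subgroup with ⁅L, x L x⁻¹⁆ = 1. Then l ↦ l (x l x⁻¹) is a group homomorphism π from L to G whose kernel is central in L and whose image lies in C_G(x); and the commutator subgroup of C_{L ⊔ xLx⁻¹}(x) equals the image of π. -/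
theorem result {G : Type*} [Group G] [Finite G] (x : G) (hx : orderOf x = 2) (L : Subgroup G) (hperf : ⁅L, L⁆ = L) (hcomm : ⁅L, L.map (MulAut.conj x).toMonoidHom⁆ = ⊥) : ∃ π : ↥L →* G, (∀ l : ↥L, π l = (l : G) * (x * (l : G) * x⁻¹)) ∧ π.ker ≤ Subgroup.center ↥L ∧ π.range ≤ Subgroup.centralizer ({x} : Set G) ∧ ⁅(L ⊔ L.map (MulAut.conj x).toMonoidHom) ⊓ Subgroup.centralizer ({x} : Set G), (L ⊔ L.map (MulAut.conj x).toMonoidHom) ⊓ Subgroup.centralizer ({x} : Set G)⁆ = π.range := by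
  have hx2 : x * x = 1 := by
    have := pow_orderOf_eq_one x
    rw [hx, sq] at this; exact this
  have hxi : x⁻¹ = x := inv_eq_of_mul_eq_one_left hx2
  have hc : ∀ a ∈ L, ∀ b ∈ L, a * (x * b * x⁻¹) = (x * b * x⁻¹) * a := by
    intro a ha b hb
    have h1 := Subgroup.commutator_eq_bot_iff_le_centralizer.1 hcomm ha
    exact (Subgroup.mem_centralizer_iff.1 h1 _ ⟨b, hb, rfl⟩).symm
  let π : ↥L →* G :=
    { toFun := fun l => (l : G) * (x * (l : G) * x⁻¹)
      map_one' := by simp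
      map_mul' := by
        intro a b
        have h1 := hc b b.2 a a.2
        show (a : G) * b * (x * (a * b) * x⁻¹) = a * (x * a * x⁻¹) * (b * (x * b * x⁻¹))
        calc (a : G) * b * (x * (a * b) * x⁻¹) = a * (b * (x * a * x⁻¹)) * (x * b * x⁻¹) := by group
          _ = a * ((x * a * x⁻¹) * b) * (x * b * x⁻¹) := by rw [h1]
          _ = a * (x * a * x⁻¹) * (b * (x * b * x⁻¹)) := by group }
  have hπ : ∀ l : ↥L, π l = (l : G) * (x * (l : G) * x⁻¹) := fun _ => rfl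
  have hπx : ∀ l : ↥L, x * π l * x⁻¹ = π l := by
    intro l
    rw [hπ]
    have h1 := hc l l.2 l l.2
    calc x * ((l : G) * (x * l * x⁻¹)) * x⁻¹ = (x * l * x⁻¹) * ((x * x) * l * (x * x)⁻¹) := by group
      _ = (x * l * x⁻¹) * l := by rw [hx2]; group
      _ = l * (x * l * x⁻¹) := h1.symm
  have hrange : π.range ≤ Subgroup.centralizer ({x} : Set G) := by
    rintro _ ⟨l, rfl⟩
    rw [Subgroup.mem_centralizer_singleton_iff]
    exact mul_inv_eq_iff_eq_mul.1 (hπx l) |>.symm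
  refine ⟨π, hπ, ?_, hrange, ?_⟩
  · intro l hl
    rw [Subgroup.mem_center_iff]
    intro a
    apply Subtype.ext
    have h1 : (l : G) * (x * l * x⁻¹) = 1 := hl
    have h2 : (l : G) = (x * l * x⁻¹)⁻¹ := eq_inv_of_mul_eq_one_left h1
    have h3 := hc a a.2 l l.2
    show (a : G) * l = l * a
    rw [h2]
    have h4 : (x * (l : G) * x⁻¹)⁻¹ * (a * (x * l * x⁻¹)) * (x * (l : G) * x⁻¹)⁻¹ = (x * (l : G) * x⁻¹)⁻¹ * ((x * l * x⁻¹) * a) * (x * (l : G) * x⁻¹)⁻¹ := by rw [h3]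
    have e1 : (x * (l : G) * x⁻¹)⁻¹ * (a * (x * l * x⁻¹)) * (x * (l : G) * x⁻¹)⁻¹ = (x * (l : G) * x⁻¹)⁻¹ * a := by group
    have e2 : (x * (l : G) * x⁻¹)⁻¹ * ((x * l * x⁻¹) * a) * (x * (l : G) * x⁻¹)⁻¹ = a * (x * (l : G) * x⁻¹)⁻¹ := by group
    rw [e1, e2] at h4
    exact h4.symm
  · obtain ⟨D, hD⟩ : ∃ D, D = (L ⊔ L.map (MulAut.conj x).toMonoidHom) ⊓ Subgroup.centralizer ({x} : Set G) := ⟨_, rfl⟩
    rw [← hD]
    have hπD : π.range ≤ D := by
      rw [hD]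
      refine le_inf ?_ hrange
      rintro _ ⟨l, rfl⟩
      rw [hπ]
      exact Subgroup.mul_mem_sup l.2 ⟨l, l.2, rfl⟩
    have hperf' : ⁅π.range, π.range⁆ = π.range := by
      have h1 : Group.IsPerfect ↥L := (Subgroup.isPerfect_iff).2 hperf
      haveI := h1
      have h2 : Group.IsPerfect ↥π.range := Group.IsPerfect.ofSurjective π.rangeRestrict_surjective
      exact (Subgroup.isPerfect_iff).1 h2
    -- structure of D
    have hDdec : ∀ d ∈ D, ∃ l : ↥L, ∃ c : G, (∀ y ∈ D, c * y = y * c) ∧ d = π l * c := by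
      intro d hd
      rw [hD] at hd
      have hMc : L.map (MulAut.conj x).toMonoidHom ≤ Subgroup.normalizer (L : Set G) := by
        refine le_trans ?_ (centralizer_le_norm L)
        rintro _ ⟨b, hb, rfl⟩
        rw [Subgroup.mem_centralizer_iff]
        intro a ha
        exact hc a ha b hb
      have h1 := (Subgroup.mem_inf.1 hd).1
      rw [← SetLike.mem_coe, Subgroup.coe_mul_of_right_le_normalizer_left _ _ hMc, Set.mem_mul] at h1
      obtain ⟨a, ha, _, ⟨b, hb, rfl⟩, hab⟩ := h1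
      have hab' : a * (x * b * x⁻¹) = d := hab
      have ha : a ∈ L := ha
      have hb : b ∈ L := hb
      have hdx : x * d * x⁻¹ = d := by
        have := Subgroup.mem_centralizer_singleton_iff.1 hd.2
        rw [← this]; group
      -- x d x⁻¹ = (x a x⁻¹) b
      have h2 : (x * a * x⁻¹) * b = a * (x * b * x⁻¹) := by
        calc (x * a * x⁻¹) * b = (x * a * x⁻¹) * ((x * x) * b * (x * x)⁻¹) := by rw [hx2]; group
          _ = x * (a * (x * b * x⁻¹)) * x⁻¹ := by group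
          _ = a * (x * b * x⁻¹) := by rw [hab']; exact hdx
      -- c = b⁻¹ a
      have h3 : b⁻¹ * a = x * (a * b⁻¹) * x⁻¹ := by
        have h4 := hc b hb a ha
        have h5 := hc (b⁻¹) (L.inv_mem hb) b hb
        -- (x a x⁻¹) b = a (x b x⁻¹), b commutes with x a x⁻¹
        have h6 : b * (x * a * x⁻¹) = a * (x * b * x⁻¹) := by rw [h4]; exact h2
        calc b⁻¹ * a = b⁻¹ * (a * (x * b * x⁻¹)) * (x * b⁻¹ * x⁻¹) := by group
          _ = b⁻¹ * (b * (x * a * x⁻¹)) * (x * b⁻¹ * x⁻¹) := by rw [h6]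
          _ = x * (a * b⁻¹) * x⁻¹ := by group
      have hcL : b⁻¹ * a ∈ L := L.mul_mem (L.inv_mem hb) ha
      refine ⟨⟨b, hb⟩, b⁻¹ * a, ?_, ?_⟩
      · -- central in L ⊔ M
        intro y hy
        rw [hD] at hy
        have h1 := (Subgroup.mem_inf.1 hy).1
        rw [← SetLike.mem_coe, Subgroup.coe_mul_of_right_le_normalizer_left _ _ hMc, Set.mem_mul] at h1
        obtain ⟨u, hu, _, ⟨v, hv, rfl⟩, huv⟩ := h1
        have huv' : u * (x * v * x⁻¹) = y := huv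
        have hu : u ∈ L := hu
        have hv : v ∈ L := hv
        have e1 := hc (b⁻¹ * a) hcL v hv
        have e2 := hc u hu (a * b⁻¹) (L.mul_mem ha (L.inv_mem hb))
        rw [← h3] at e2
        rw [← huv']
        calc b⁻¹ * a * (u * (x * v * x⁻¹)) = (b⁻¹ * a * u) * (x * v * x⁻¹) := by group
          _ = (u * (b⁻¹ * a)) * (x * v * x⁻¹) := by rw [e2]
          _ = u * (b⁻¹ * a * (x * v * x⁻¹)) := by group
          _ = u * ((x * v * x⁻¹) * (b⁻¹ * a)) := by rw [e1]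
          _ = u * (x * v * x⁻¹) * (b⁻¹ * a) := by group
      · rw [hπ, ← hab']
        show a * (x * b * x⁻¹) = b * (x * b * x⁻¹) * (b⁻¹ * a)
        have e1 := hc (b⁻¹ * a) hcL b hb
        calc a * (x * b * x⁻¹) = b * (b⁻¹ * a * (x * b * x⁻¹)) := by group
          _ = b * ((x * b * x⁻¹) * (b⁻¹ * a)) := by rw [e1]
          _ = b * (x * b * x⁻¹) * (b⁻¹ * a) := by group
    apply le_antisymm
    · rw [Subgroup.commutator_le]
      intro d₁ hd₁ d₂ hd₂
      obtain ⟨l₁, c₁, hc₁, rfl⟩ := hDdec d₁ hd₁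
      obtain ⟨l₂, c₂, hc₂, rfl⟩ := hDdec d₂ hd₂
      have hp₁ : π l₁ ∈ D := hπD ⟨l₁, rfl⟩
      have hp₂ : π l₂ ∈ D := hπD ⟨l₂, rfl⟩
      have hc₂D : c₂ ∈ D := by
        have := D.mul_mem (D.inv_mem hp₂) hd₂
        simpa using this
      have e : ⁅π l₁ * c₁, π l₂ * c₂⁆ = ⁅π l₁, π l₂⁆ := by
        rw [commutatorElement_def, commutatorElement_def]
        have e1 := hc₁ (π l₂ * c₂) hd₂
        have e2 := hc₂ (π l₁) hp₁
        calc π l₁ * c₁ * (π l₂ * c₂) * (π l₁ * c₁)⁻¹ * (π l₂ * c₂)⁻¹ = π l₁ * (c₁ * (π l₂ * c₂)) * c₁⁻¹ * (π l₁)⁻¹ * (π l₂ * c₂)⁻¹ := by group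
          _ = π l₁ * (π l₂ * c₂ * c₁) * c₁⁻¹ * (π l₁)⁻¹ * (π l₂ * c₂)⁻¹ := by rw [e1]
          _ = π l₁ * π l₂ * c₂ * (π l₁)⁻¹ * c₂⁻¹ * (π l₂)⁻¹ := by group
          _ = π l₁ * π l₂ * ((π l₁)⁻¹ * (π l₁ * c₂) * (π l₁)⁻¹) * c₂⁻¹ * (π l₂)⁻¹ := by group
          _ = π l₁ * π l₂ * ((π l₁)⁻¹ * (c₂ * π l₁) * (π l₁)⁻¹) * c₂⁻¹ * (π l₂)⁻¹ := by rw [e2]
          _ = π l₁ * π l₂ * (π l₁)⁻¹ * (π l₂)⁻¹ := by group
      rw [e]
      exact Subgroup.commutator_le_self π.range (Subgroup.commutator_mem_commutator ⟨l₁, rfl⟩ ⟨l₂, rfl⟩)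
    · conv_lhs => rw [← hperf']
      exact Subgroup.commutator_mono hπD hπD

end Cfsg.Agent.S1314
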