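import Cfsg.Statements.S1316
import Cfsg.Agent.H2.Lay
import Cfsg.Agent.H6.Cocyc
import Mathlib

set_option autoImplicit false
open Cfsg

namespace Cfsg.Agent.S1316

open Cfsg.Agent.H2 Cfsg.Agent.L0

/-- For a finite group X, E(X) equals the intersection of the derived series of F*(X) (its last term). -/
theorem result {X : Type*} [Group X] [Finite X] : (⨅ n : ℕ, (derivedSeries ↥(Cfsg.generalizedFittingSubgroup X) n).map (Cfsg.generalizedFittingSubgroup X).subtype) = Cfsg.layer X := by
  set W := generalizedFittingSubgroup X with hW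
  have hEW : layer X ≤ W := layer_le_generalized X
  let E : Subgroup W := (layer X).subgroupOf W
  haveI hEn : E.Normal := inferInstance
  have hEE : ⁅E, E⁆ = E := by
    apply Subgroup.map_injective W.subtype_injective
    rw [Subgroup.map_commutator, Subgroup.subgroupOf_map_subtype, inf_eq_left.2 hEW]
    apply le_antisymm (Subgroup.commutator_le_self _)
    rw [layer_le_iff]
    intro K hK
    rw [← commutator_self_of_isQuasisimple hK.2]
    exact Subgroup.commutator_mono (le_layer hK) (le_layer hK)
  apply le_antisymm
  · -- W / E is solvable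
    have hsolv : Group.IsSolvable (W ⧸ E) := by
      have hFs : Group.IsSolvable ↥(fittingSubgroup X) := by
        haveI := fittingSubgroup_isNilpotent X
        infer_instance
      have hFW : fittingSubgroup X ≤ W := fittingSubgroup_le_generalized X
      haveI := hFs
      refine Group.isSolvable_of_surjective (f := (QuotientGroup.mk' E).comp (Subgroup.inclusion hFW)) ?_
      intro y
      obtain ⟨⟨w, hw⟩, rfl⟩ := QuotientGroup.mk'_surjective E y
      have hw' := hw
      rw [hW] at hw'
      unfold generalizedFittingSubgroup at hw'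
      obtain ⟨e, he, f, hf, rfl⟩ := Subgroup.mem_sup_of_normal_right.1 hw'
      refine ⟨⟨f, hf⟩, ?_⟩
      show QuotientGroup.mk' E (⟨f, hFW hf⟩ : W) = QuotientGroup.mk' E ⟨e * f, hw⟩
      have h1 : (⟨e * f, hw⟩ : W) = ⟨e, hEW he⟩ * ⟨f, hFW hf⟩ := rfl
      have h2 : QuotientGroup.mk' E (⟨e, hEW he⟩ : W) = 1 := (QuotientGroup.eq_one_iff _).2 (Subgroup.mem_subgroupOf.2 he)
      rw [h1, map_mul, h2, one_mul]
    obtain ⟨n, hn⟩ := (Group.isSolvable_def (W ⧸ E)).1 hsolv
    refine (iInf_le _ n).trans ?_
    have h1 : derivedSeries W n ≤ E := by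
      rw [← QuotientGroup.ker_mk' E, ← Subgroup.map_eq_bot_iff, map_derivedSeries_eq (QuotientGroup.mk'_surjective E) n]
      exact hn
    refine (Subgroup.map_mono h1).trans ?_
    rw [Subgroup.subgroupOf_map_subtype]
    exact inf_le_left
  · refine le_iInf fun n => ?_
    have h1 : E ≤ derivedSeries W n := by
      induction n with
      | zero => exact le_top
      | succ n ih =>
        rw [derivedSeries_succ, ← hEE]
        exact Subgroup.commutator_mono ih ih
    refine le_trans ?_ (Subgroup.map_mono h1)
    rw [Subgroup.subgroupOf_map_subtype]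
    exact le_inf le_rfl hEW

end Cfsg.Agent.S1316
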