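import Cfsg.Statements.S1317
import Cfsg.Agent.H2.Lay
import Cfsg.Agent.H6.Cocyc
import Mathlib

set_option autoImplicit false
open Cfsg

namespace Cfsg.Agent.S1317

open Cfsg.Agent.L0 Cfsg.Agent.H2

/-- For a finite group X, the centre of the layer E(X) is F(X) ∩ E(X). -/
theorem result {X : Type*} [Group X] [Finite X] : (Subgroup.center ↥(Cfsg.layer X)).map (Cfsg.layer X).subtype = Cfsg.fittingSubgroup X ⊓ Cfsg.layer X := by
  apply le_antisymm
  · refine le_inf ?_ (Subgroup.map_subtype_le _)
    haveI : ((Subgroup.center ↥(layer X)).map (layer X).subtype).Normal := normal_map_subtype_of_characteristic _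
    apply le_fittingSubgroup
    have h1 : Group.IsNilpotent ↥(Subgroup.center ↥(layer X)) := by
      refine nil_of_comm ?_
      rintro ⟨a, ha⟩ ⟨b, hb⟩
      exact Subtype.ext (Subgroup.mem_center_iff.1 hb a)
    exact Group.nilpotent_of_mulEquiv ((Subgroup.center ↥(layer X)).equivMapOfInjective _ (layer X).subtype_injective)
  · intro x hx
    have hm : (⟨x, hx.2⟩ : ↥(layer X)) ∈ Subgroup.center ↥(layer X) := ?_
    · exact ⟨⟨x, hx.2⟩, hm, rfl⟩
    rw [Subgroup.mem_center_iff]
    rintro ⟨y, hy⟩
    apply Subtype.ext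
    have h1 := Subgroup.commutator_eq_bot_iff_le_centralizer.1 (layer_commutator_fitting X) hy
    exact (Subgroup.mem_centralizer_iff.1 h1 x hx.1).symm

end Cfsg.Agent.S1317
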