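import Cfsg.Statements.S1320
import Cfsg.Agent.H2.Lay
import Cfsg.Agent.H6.Cocyc
import Mathlib

set_option autoImplicit false
open Cfsg

namespace Cfsg.Agent.S1320

open Cfsg.Agent.H2 Cfsg.Agent.L0

/-- Let B be a normal subgroup of the finite group A. Then F*(A) ∩ B = F*(B). -/
theorem result {A : Type*} [Group A] [Finite A] (B : Subgroup A) [B.Normal] : Cfsg.generalizedFittingSubgroup A ⊓ B = (Cfsg.generalizedFittingSubgroup ↥B).map B.subtype := by
  have hBs : B.IsSubnormal := (inferInstance : B.Normal).isSubnormal
  apply le_antisymm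
  · obtain ⟨S, hS⟩ : ∃ S, S = generalizedFittingSubgroup A ⊓ B := ⟨_, rfl⟩
    have hSn : S.Normal := by rw [hS]; infer_instance
    have hSB : S ≤ B := by rw [hS]; exact inf_le_right
    have h1 := genFit_of_le hSn.isSubnormal (by rw [hS]; exact inf_le_left : S ≤ generalizedFittingSubgroup A)
    rw [← hS]
    have h2 : S = (fittingSubgroup ↥S).map S.subtype ⊔ (layer ↥S).map S.subtype := by
      rw [← Subgroup.map_sup, h1, ← MonoidHom.range_eq_map, Subgroup.range_subtype]
    rw [h2]
    unfold generalizedFittingSubgroup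
    rw [Subgroup.map_sup, sup_comm]
    refine sup_le_sup ?_ ?_
    · -- layer
      rw [Subgroup.map_le_iff_le_comap]
      refine sSup_le fun K hK => ?_
      rw [← Subgroup.map_le_iff_le_comap]
      have hK' := isComponent_map_subtype hSn.isSubnormal hK
      have hKB : K.map S.subtype ≤ B := (Subgroup.map_subtype_le K).trans hSB
      have h3 := le_layer (isComponent_subgroupOf hK' hKB)
      intro x hx
      exact ⟨⟨x, hKB hx⟩, h3 (Subgroup.mem_subgroupOf.2 hx), rfl⟩
    · rw [subnormal_fit_eq hSn.isSubnormal, subnormal_fit_eq hBs]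
      exact inf_le_inf_left _ hSB
  · unfold generalizedFittingSubgroup
    rw [Subgroup.map_sup]
    refine sup_le (le_inf ((layer_map_subtype_le hBs).trans le_sup_left) (Subgroup.map_subtype_le _)) ?_
    exact le_inf (fitting_map_subtype_le.trans le_sup_right) (Subgroup.map_subtype_le _)

end Cfsg.Agent.S1320
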