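import Cfsg.Statements.S1321
import Cfsg.Agent.H2.Lay
import Cfsg.Agent.H6.CharP
import Mathlib

set_option autoImplicit false
open Cfsg

namespace Cfsg.Agent.S1321

open Cfsg.Agent.H2 Cfsg.Agent.L0

/-- Let X be finite and U ≤ X. Then E(X) is generated by C_{E(X)}(U) together with ⁅E(X), U⁆ (indeed it is their product, ⁅E(X), U⁆ being normal in E(X)). -/
theorem result {X : Type*} [Group X] [Finite X] (U : Subgroup X) : Cfsg.layer X = (Cfsg.layer X ⊓ Subgroup.centralizer (U : Set X)) ⊔ ⁅Cfsg.layer X, U⁆ ∧ ⁅Cfsg.layer X, U⁆ ≤ Cfsg.layer X := by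
  have hle : ⁅layer X, U⁆ ≤ layer X := Subgroup.commutator_le_left _ _
  refine ⟨le_antisymm ?_ (sup_le inf_le_left hle), hle⟩
  rw [layer_le_iff]
  intro K hK
  -- [E,U] is normal in E
  have hn : layer X ≤ Subgroup.normalizer ((⁅layer X, U⁆ : Subgroup X) : Set X) := by
    exact Subgroup.normalizer_commutator_ge_left _ _
  have hNs : (⁅layer X, U⁆ : Subgroup X).IsSubnormal :=
    subnormal_of_normal_in (inferInstance : (layer X).Normal).isSubnormal hle hn
  rcases component_subnormal_cases hK hNs with h | h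
  · exact h.trans le_sup_right
  · refine le_trans (le_inf (le_layer hK) ?_) le_sup_left
    rw [← Subgroup.commutator_eq_bot_iff_le_centralizer]
    apply commutator_eq_bot_of_perfect_of_triple (commutator_self_of_isQuasisimple hK.2)
    rw [eq_bot_iff, ← h, Subgroup.commutator_comm K ⁅layer X, U⁆]
    exact Subgroup.commutator_mono (Subgroup.commutator_mono (le_layer hK) le_rfl) le_rfl

end Cfsg.Agent.S1321
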