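import Cfsg.Statements.S1335
import Cfsg.Agent.H2.Lay
import Mathlib

set_option autoImplicit false
open Cfsg

namespace Cfsg.Agent.S1335

open Cfsg.Agent.L0 Cfsg.Agent.H6

/-- Let H be a subgroup of the finite group G, p a prime, k ≥ 1, P a Sylow p-subgroup of H of p-rank at least k, and suppose N_G(X) ≤ H for every subgroup X ≤ P of p-rank at least k. Then P is a Sylow p-subgroup of G. -/
theorem result {G : Type*} [Group G] [Finite G] {p : ℕ} [Fact p.Prime] (k : ℕ) (hk : 1 ≤ k) (H : Subgroup G) (P : Sylow p ↥H) (hP : ¬ Cfsg.PRankLE p (k - 1) ↥(P : Subgroup ↥H)) (hΓ : (∀ X : Subgroup G, X ≤ (P : Subgroup ↥H).map H.subtype → ¬ Cfsg.PRankLE p (k - 1) ↥X → Subgroup.normalizer (X : Set G) ≤ H)) : ∃ Q : Sylow p G, (Q : Subgroup G) = (P : Subgroup ↥H).map H.subtype := by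
  obtain ⟨T, hT⟩ : ∃ T, T = (P : Subgroup ↥H).map H.subtype := ⟨_, rfl⟩
  have hTs : SylIn p T H := by rw [hT]; exact sylow_sylIn P
  have hrk : ¬ PRankLE p (k - 1) ↥T := by
    intro h
    apply hP
    have e : ↥(P : Subgroup ↥H) ≃* ↥T := ((P : Subgroup ↥H).equivMapOfInjective _ H.subtype_injective).trans (MulEquiv.subgroupCongr hT.symm)
    intro A hA1 hA2
    have h1 := h (A.map e.toMonoidHom) ?_ ?_
    · rwa [Nat.card_congr (A.equivMapOfInjective e.toMonoidHom e.injective).toEquiv]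
    · refine ⟨⟨?_⟩⟩
      rintro ⟨_, ⟨a, ha, rfl⟩⟩ ⟨_, ⟨b, hb, rfl⟩⟩
      apply Subtype.ext
      have := congrArg Subtype.val (hA1.is_comm.comm ⟨a, ha⟩ ⟨b, hb⟩)
      show e a * e b = e b * e a
      rw [← map_mul, ← map_mul]; exact congrArg e this
    · rintro _ ⟨a, ha, rfl⟩
      show e a ^ p = 1
      rw [← map_pow, hA2 a ha, map_one]
  rw [← hT] at hΓ ⊢
  have hN := hΓ T le_rfl hrk
  obtain ⟨Q, hTQ⟩ := hTs.2.1.exists_le_sylow
  refine ⟨Q, ?_⟩
  by_contra hne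
  have hlt : T < (Q : Subgroup G) := lt_of_le_of_ne hTQ (fun h => hne h.symm)
  have h1 := lt_inf_normalizer Q.2 hlt
  have h2 := hTs.eq_of_le (Q.2.to_le inf_le_left) (inf_le_right.trans hN) h1.le
  exact h1.ne h2

end Cfsg.Agent.S1335
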