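import Cfsg.Statements.S1343
import Cfsg.Agent.H2.Ext2
import Mathlib

set_option autoImplicit false
open Cfsg

namespace Cfsg.Agent.S1343

open Subgroup Cfsg.Agent.H2

theorem odd_sup {X : Type*} [Group X] [Finite X] {A B : Subgroup X} [A.Normal] (hA : Odd (Nat.card A)) (hB : Odd (Nat.card B)) : Odd (Nat.card ↥(A ⊔ B)) := by
  have h1 : Nat.card ↥(A ⊔ B) ∣ Nat.card A * Nat.card B := L0.card_sup_dvd_of_normal_left A B
  exact Odd.of_dvd_nat (hA.mul hB) h1

theorem exists_T {X : Type*} [Group X] [Finite X] (S : Sylow 2 X) (M : Subgroup X) [hM : M.Normal] : ∃ T : Sylow 2 ↥M,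
    (T : Subgroup ↥M).map M.subtype = (S : Subgroup X) ⊓ M := by
  have h1 := H6.sylIn_inf_subnormal S (K := M) hM.isSubnormal
  have h2 : IsPGroup 2 ↥((S : Subgroup X).subgroupOf M) := S.2.comap_of_injective M.subtype M.subtype_injective
  refine ⟨h2.toSylow ?_, ?_⟩
  · have h3 := h1.2.2
    rw [Subgroup.inf_relIndex_right] at h3
    exact h3
  · show ((S : Subgroup X).subgroupOf M).map M.subtype = _
    rw [Subgroup.subgroupOf_map_subtype]

/-- Let X be finite. Then L*_{2'}(X) = L_{2'}(X) ⊔ F for some subgroup F of odd order normalized by a Sylow 2-subgroup of X. -/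
theorem result {X : Type*} [Group X] [Finite X] : ∃ F : Subgroup X, Odd (Nat.card ↥F) ∧ (∃ S : Sylow 2 X, (S : Subgroup X) ≤ Subgroup.normalizer (F : Set X)) ∧ Cfsg.extendedTwoLayer X = Cfsg.pLayer 2 X ⊔ F := by
  obtain ⟨S⟩ : Nonempty (Sylow 2 X) := inferInstance
  obtain ⟨T, hT⟩ := exists_T S (pLayer 2 X ⊔ pPrimePCore 2 X)
  have hE := ext_eq T
  rw [hT] at hE
  refine ⟨oddCore X ⊔ OC ((S : Subgroup X) ⊓ (pLayer 2 X ⊔ pPrimePCore 2 X)), ?_, ⟨S, ?_⟩, ?_⟩
  · exact odd_sup (Nat.coprime_two_right.1 (L0.pPrimeCore_coprime 2 _)) (OC_odd _)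
  · intro s hs
    have h1 : s ∈ normalizer (((S : Subgroup X) ⊓ (pLayer 2 X ⊔ pPrimePCore 2 X) : Subgroup X) : Set X) := by
      apply mem_norm_of_map
      rw [Subgroup.map_inf _ _ _ (MulAut.conj s).injective, map_of_mem_norm (Subgroup.le_normalizer hs)]
      congr 1
      exact map_of_mem_norm (by rw [Subgroup.normalizer_eq_top]; exact mem_top s)
    apply mem_norm_of_map
    rw [Subgroup.map_sup, map_of_mem_norm (norm_OC h1)]
    congr 1
    exact map_of_mem_norm (by rw [Subgroup.normalizer_eq_top]; exact mem_top s)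
  · rw [hE, sup_assoc]

end Cfsg.Agent.S1343
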