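import Cfsg.Statements.S1344
import Cfsg.Agent.H2.Ext2
import Cfsg.Agent.S1343
import Cfsg.Agent.S1273
import Mathlib

set_option autoImplicit false
open Cfsg

namespace Cfsg.Agent.S1344

open Subgroup Cfsg.Agent.H2

/-- Let K be a 2-component of the finite group X. Then K ≤ L*_{2'}(X) and K is normal in L*_{2'}(X). -/
theorem result {X : Type*} [Group X] [Finite X] (K : Subgroup X) (hK : Cfsg.IsPComponent 2 K) : K ≤ Cfsg.extendedTwoLayer X ∧ (K.subgroupOf (Cfsg.extendedTwoLayer X)).Normal := by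
  haveI : Fact (Nat.Prime 2) := ⟨Nat.prime_two⟩
  obtain ⟨S⟩ : Nonempty (Sylow 2 X) := inferInstance
  obtain ⟨T, hT⟩ := S1343.exists_T S (pLayer 2 X ⊔ pPrimePCore 2 X)
  have hE := ext_eq T
  rw [hT] at hE
  have hKL : K ≤ pLayer 2 X := le_sSup hK
  have hKE : K ≤ extendedTwoLayer X := by rw [hE]; exact hKL.trans (le_sup_left.trans le_sup_left)
  refine ⟨hKE, (Subgroup.normal_subgroupOf_iff_le_normalizer hKE).2 ?_⟩
  rw [hE]
  refine sup_le (sup_le (pLayer_norm hK) ?_) ?_
  · intro x hx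
    apply mem_norm_of_map
    refine H6.pcomp_unique (isPComponent_map_equiv (MulAut.conj x) hK) hK ?_
    ext z
    have hx1 : QuotientGroup.mk' (pPrimeCore 2 X) x = 1 := (QuotientGroup.eq_one_iff x).2 hx
    constructor
    · rintro ⟨_, ⟨k, hk, rfl⟩, rfl⟩
      refine ⟨k, hk, ?_⟩
      show _ = QuotientGroup.mk' (pPrimeCore 2 X) (x * k * x⁻¹)
      rw [map_mul, map_mul, map_inv, hx1, one_mul, inv_one, mul_one]
    · rintro ⟨k, hk, rfl⟩
      refine ⟨_, ⟨k, hk, rfl⟩, ?_⟩
      show QuotientGroup.mk' (pPrimeCore 2 X) (x * k * x⁻¹) = _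
      rw [map_mul, map_mul, map_inv, hx1, one_mul, inv_one, mul_one]
  · intro y hy
    have hyC : y ∈ Subgroup.centralizer (((S : Subgroup X) ⊓ (pLayer 2 X ⊔ pPrimePCore 2 X) : Subgroup X) : Set X) :=
      Subgroup.map_subtype_le _ hy
    have hKy : IsPComponent 2 (K.map (MulAut.conj y).toMonoidHom) := isPComponent_map_equiv (MulAut.conj y) hK
    have hN : ((K ⊓ K.map (MulAut.conj y).toMonoidHom).subgroupOf K).Normal := by
      rw [Subgroup.normal_subgroupOf_iff_le_normalizer inf_le_left]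
      refine le_trans (le_inf Subgroup.le_normalizer (pcomp_norm hKy hK)) ?_
      intro a ha
      apply mem_norm_of_map
      rw [Subgroup.map_inf _ _ _ (MulAut.conj a).injective, map_of_mem_norm (Subgroup.mem_inf.1 ha).1, map_of_mem_norm (Subgroup.mem_inf.1 ha).2]
    have hsyl := H6.sylIn_inf_subnormal S hK.1
    have hle : (S : Subgroup X) ⊓ K ≤ K ⊓ K.map (MulAut.conj y).toMonoidHom := by
      intro s hs
      refine ⟨hs.2, ⟨s, hs.2, ?_⟩⟩
      show y * s * y⁻¹ = s
      have hsM : s ∈ (S : Subgroup X) ⊓ (pLayer 2 X ⊔ pPrimePCore 2 X) := ⟨hs.1, Subgroup.mem_sup_left (hKL hs.2)⟩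
      rw [← Subgroup.mem_centralizer_iff.1 hyC s hsM, mul_inv_cancel_right]
    have hidx : (((K ⊓ K.map (MulAut.conj y).toMonoidHom).subgroupOf K).index).Coprime 2 := by
      have h1 : ((K ⊓ K.map (MulAut.conj y).toMonoidHom).subgroupOf K).index ∣ (((S : Subgroup X) ⊓ K).subgroupOf K).index :=
        Subgroup.index_dvd_of_le (Subgroup.comap_mono hle)
      have h2 : ¬ 2 ∣ (((S : Subgroup X) ⊓ K).subgroupOf K).index := hsyl.2.2
      exact Nat.Coprime.symm ((Nat.Prime.coprime_iff_not_dvd Nat.prime_two).2 (fun h => h2 (h.trans h1)))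
    have h5 := S1273.result 2 K hK ((K ⊓ K.map (MulAut.conj y).toMonoidHom).subgroupOf K) hidx
    have h6 : K ≤ K.map (MulAut.conj y).toMonoidHom := by
      intro k hk
      have : (⟨k, hk⟩ : K) ∈ (K ⊓ K.map (MulAut.conj y).toMonoidHom).subgroupOf K := by rw [h5]; exact mem_top _
      exact (Subgroup.mem_inf.1 (Subgroup.mem_subgroupOf.1 this)).2
    apply mem_norm_of_map
    refine (Subgroup.eq_of_le_of_card_ge h6 ?_).symm
    exact (Nat.card_congr (K.equivMapOfInjective _ (MulAut.conj y).injective).toEquiv).symm.le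

end Cfsg.Agent.S1344
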