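import Cfsg.Statements.S1892
import Cfsg.Agent.H6.PSolvC

set_option autoImplicit false
open Cfsg

namespace Cfsg.Agent.S1892

/-- Let S be a finite p-solvable group with no nontrivial normal subgroup of order prime to p, A a p-subgroup of S, and Q a nontrivial A-invariant subgroup of order prime to p with [A, Q] = Q. Then the commutator [O_p(S), A, Q] is nontrivial. -/
theorem result {S : Type*} [Group S] [Finite S] {p : ℕ} [Fact p.Prime]
    (hS : Cfsg.IsPSolvable p S) (hred : Cfsg.pPrimeCore p S = ⊥)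
    (A Q : Subgroup S) (hA : IsPGroup p A) (hQ : ¬ p ∣ Nat.card Q) (hQ1 : Q ≠ ⊥)
    (hinv : ∀ a ∈ A, ∀ x ∈ Q, a * x * a⁻¹ ∈ Q) (hAQ : ⁅A, Q⁆ = Q) :
    ⁅⁅Cfsg.pCore p S, A⁆, Q⁆ ≠ ⊥ := by
  intro h
  have hp : Nat.Prime p := Fact.out
  have hQ' : (Nat.card Q).Coprime p := ((Nat.Prime.coprime_iff_not_dvd hp).2 hQ).symm
  have h1 := Agent.H6.cent_of_triple (p := p) (V := Cfsg.pCore p S) inferInstance (Agent.L0.pCore_isPGroup p S) hQ'
    Subgroup.le_normalizer hAQ.ge h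
  rw [Subgroup.commutator_comm] at h1
  have h2 := (Subgroup.commutator_eq_bot_iff_le_centralizer.1 h1).trans (Agent.H6.psolv_cent_le hp hS hred)
  apply hQ1
  have h3 : Q ⊓ Cfsg.pCore p S = ⊥ := Agent.L0.inf_eq_bot_of_coprime' (Agent.H6.coprime_of_p (Agent.L0.pCore_isPGroup p S) hQ')
  rw [inf_eq_left.2 h2] at h3
  exact h3

end Cfsg.Agent.S1892
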