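import Cfsg.Statements.S1898
import Cfsg.Agent.H6.Omega

set_option autoImplicit false
open Cfsg

namespace Cfsg.Agent.S1898

open scoped commutatorElement

/-- Let X be a finite 2-group whose derived subgroup is elementary abelian and central. Then the subgroup generated by the elements of order dividing 4 has exponent dividing 4, and every automorphism of X fixing each element of order dividing 4 has 2-power order. -/
theorem result {X : Type*} [Group X] [Finite X] (hX : IsPGroup 2 X)
    (hel : Cfsg.IsElementaryAbelian 2 (commutator X)) (hcen : commutator X ≤ Subgroup.center X) :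
    (∀ x ∈ Subgroup.closure {g : X | g ^ 4 = 1}, x ^ 4 = 1) ∧
      ∀ φ : MulAut X, (∀ g : X, g ^ 4 = 1 → φ g = g) → ∃ k : ℕ, φ ^ (2 ^ k) = 1 := by
  haveI : Fact (Nat.Prime 2) := ⟨Nat.prime_two⟩
  have hc : ∀ x y z : X, ⁅y, x⁆ * z = z * ⁅y, x⁆ := by
    intro x y z
    have : ⁅y, x⁆ ∈ Subgroup.center X := hcen (Subgroup.commutator_mem_commutator (Subgroup.mem_top _) (Subgroup.mem_top _))
    exact (Subgroup.mem_center_iff.1 this z).symm
  have hc2 : ∀ x y : X, ⁅y, x⁆ ^ 2 = 1 := by
    intro x y
    exact hel.2 ⁅y, x⁆ (Subgroup.commutator_mem_commutator (Subgroup.mem_top _) (Subgroup.mem_top _))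
  refine ⟨?_, ?_⟩
  · intro x hx
    induction hx using Subgroup.closure_induction with
    | mem x hx => exact hx
    | one => simp
    | mul a b _ _ iha ihb =>
      rw [Agent.H6.mul_pow_of_comm_central (hc a b a) (hc a b b), iha, ihb, show 4 * (4 - 1) / 2 = 2 * 3 from rfl, pow_mul, hc2]
      simp
    | inv a _ iha => rw [inv_pow, iha, inv_one]
  · intro φ hφ
    obtain ⟨k, m, hm, hn⟩ := Nat.exists_eq_pow_mul_and_not_dvd (orderOf_pos φ).ne' 2 (by norm_num)
    refine ⟨k, ?_⟩
    have ho : orderOf (φ ^ 2 ^ k) ∣ m := by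
      apply orderOf_dvd_of_pow_eq_one
      rw [← pow_mul, ← hn, pow_orderOf_eq_one]
    refine Agent.H6.omega_faithful hX _ ?_ ?_
    · have : Nat.Coprime m 2 := ((Nat.Prime.coprime_iff_not_dvd Nat.prime_two).2 hm).symm
      exact Nat.Coprime.coprime_dvd_left ho this
    · intro x hx
      have hx4 : x ^ 4 = 1 := by
        rcases hx with h | h
        · rw [show (4 : ℕ) = 2 * 2 from rfl, pow_mul, h, one_pow]
        · exact h.2
      have : ∀ n : ℕ, (φ ^ n) x = x := by
        intro n
        induction n with
        | zero => simp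
        | succ n ih => rw [pow_succ, MulAut.mul_apply, hφ x hx4, ih]
      exact this _

end Cfsg.Agent.S1898
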