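import Cfsg.Statements.S1899
import Cfsg.Agent.H6.Basic
import Cfsg.Agent.L0.Coprime

set_option autoImplicit false
open Cfsg

namespace Cfsg.Agent.S1899

/-- Let a dihedral group of order 2n, n odd and n > 1, act on a finite abelian 2-group A through automorphisms d and t with d^n = 1, t² = 1 and t d t⁻¹ = d⁻¹, and suppose that d fixes only the identity. Then A is the internal direct product of C_A(t) and its image under d. -/
theorem result {A : Type*} [CommGroup A] [Finite A] (hA : IsPGroup 2 A)
    {n : ℕ} (hn : Odd n) (hn1 : 1 < n) (d t : MulAut A) (hd : d ^ n = 1) (ht : t ^ 2 = 1) (hdt : t * d * t⁻¹ = d⁻¹)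
    (hfix : ∀ a : A, d a = a → a = 1) :
    (MulEquiv.toMonoidHom t).eqLocus (MonoidHom.id A) ⊓ ((MulEquiv.toMonoidHom t).eqLocus (MonoidHom.id A)).map d.toMonoidHom = ⊥ ∧
      (MulEquiv.toMonoidHom t).eqLocus (MonoidHom.id A) ⊔ ((MulEquiv.toMonoidHom t).eqLocus (MonoidHom.id A)).map d.toMonoidHom = ⊤ := by
  classical
  obtain ⟨C, hC⟩ : ∃ C : Subgroup A, C = (MulEquiv.toMonoidHom t).eqLocus (MonoidHom.id A) := ⟨_, rfl⟩
  rw [← hC]
  have hCm : ∀ a : A, a ∈ C ↔ t a = a := by intro a; rw [hC]; rfl
  have htt : ∀ a : A, t (t a) = a := by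
    intro a
    have := congrArg (fun f : MulAut A => f a) ht
    simpa [pow_two] using this
  -- t d = d⁻¹ t
  have htd : ∀ a : A, t (d a) = d⁻¹ (t a) := by
    intro a
    have h1 : t * d = d⁻¹ * t := by
      rw [← hdt]; simp [mul_assoc]
    have := congrArg (fun f : MulAut A => f a) h1
    simpa using this
  -- d^2 has only the trivial fixed point
  have hfix2 : ∀ a : A, d (d a) = a → a = 1 := by
    intro a ha
    apply hfix
    have h2 : ∀ k : ℕ, (d ^ (2 * k)) a = a := by
      intro k
      induction k with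
      | zero => simp
      | succ k ih =>
        have : d ^ (2 * (k + 1)) = d ^ (2 * k) * (d * d) := by rw [← pow_two, ← pow_add]; congr 1
        rw [this, MulAut.mul_apply, MulAut.mul_apply, ha, ih]
    obtain ⟨k, hk⟩ := hn
    have h3 : d ^ (2 * k + 1) = 1 := by rw [← hk]; exact hd
    have h4 : (d ^ (2 * k + 1)) a = a := by rw [h3]; rfl
    have h5 : d ^ (2 * k + 1) = d * d ^ (2 * k) := by rw [pow_succ']
    rw [h5, MulAut.mul_apply, h2 k] at h4
    exact h4
  have hinf : C ⊓ C.map d.toMonoidHom = ⊥ := by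
    rw [eq_bot_iff]
    rintro a ⟨ha1, b, hb, hba⟩
    have hb' : t b = b := (hCm b).1 hb
    have ha1' : t a = a := (hCm a).1 ha1
    have hba' : d b = a := hba
    rw [Subgroup.mem_bot]
    -- t a = a, a = d b: t (d b) = d⁻¹ b = d b
    have h1 : d⁻¹ b = d b := by
      have := htd b
      rw [hba', ha1', hb'] at this
      rw [← this, hba']
    have h2 : d (d b) = b := by
      rw [← h1]
      show d (d⁻¹ b) = b
      simp
    have := hfix2 b h2
    rw [← hba', this, map_one]
  -- the subgroup inverted by t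
  obtain ⟨I, hI⟩ : ∃ I : Subgroup A, I = (MonoidHom.range ({ toFun := fun a => a⁻¹ * t a, map_one' := by simp, map_mul' := fun a b => by rw [map_mul, mul_inv]; exact mul_mul_mul_comm _ _ _ _ } : A →* A)) := ⟨_, rfl⟩
  have hcardCI : Nat.card C * Nat.card I = Nat.card A := by
    let f : A →* A := { toFun := fun a => a⁻¹ * t a, map_one' := by simp, map_mul' := fun a b => by rw [map_mul, mul_inv]; exact mul_mul_mul_comm _ _ _ _ }
    have hk : f.ker = C := by
      ext a
      rw [MonoidHom.mem_ker, hCm]
      show a⁻¹ * t a = 1 ↔ _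
      rw [inv_mul_eq_one, eq_comm]
    have h1 := Subgroup.card_mul_index f.ker
    rw [Subgroup.index_ker, hk] at h1
    rw [hI]; exact h1
  have hII : I ⊓ I.map d.toMonoidHom = ⊥ := by
    rw [eq_bot_iff]
    rintro a ⟨ha1, b, hb, hba⟩
    have hinv : ∀ x ∈ I, t x = x⁻¹ := by
      intro x hx
      rw [hI] at hx
      obtain ⟨y, rfl⟩ := hx
      show t (y⁻¹ * t y) = (y⁻¹ * t y)⁻¹
      rw [map_mul, map_inv, htt, mul_inv, inv_inv, mul_comm]
    have hb' := hinv b hb
    have ha1' := hinv a ha1
    have hba' : d b = a := hba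
    rw [Subgroup.mem_bot]
    have h1 : d⁻¹ b = d b := by
      have := htd b
      rw [hba', ha1', hb', map_inv] at this
      rw [inv_inj] at this
      rw [← this, hba']
    have h2 : d (d b) = b := by
      rw [← h1]
      show d (d⁻¹ b) = b
      simp
    have := hfix2 b h2
    rw [← hba', this, map_one]
  have hcm : ∀ K : Subgroup A, Nat.card (K.map d.toMonoidHom) = Nat.card K := fun K =>
    Subgroup.card_map_of_injective d.injective
  have hprod : ∀ K : Subgroup A, K ⊓ K.map d.toMonoidHom = ⊥ → Nat.card ↥(K ⊔ K.map d.toMonoidHom) = Nat.card K * Nat.card K := by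
    intro K hK
    have h1 := Agent.L0.card_sup_of_normalizes (M := K) (A := K.map d.toMonoidHom) (by rw [Subgroup.normalizer_eq_top]; exact le_top) hK
    rw [h1, hcm]
  have hCle : Nat.card C * Nat.card C ≤ Nat.card A := by
    rw [← hprod C hinf]; exact Subgroup.card_le_card_group _
  have hIle : Nat.card I * Nat.card I ≤ Nat.card A := by
    rw [← hprod I hII]; exact Subgroup.card_le_card_group _
  refine ⟨hinf, ?_⟩
  have hCI : Nat.card I ≤ Nat.card C := by
    rw [← hcardCI] at hIle
    exact Nat.le_of_mul_le_mul_right hIle Nat.card_pos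
  refine Subgroup.eq_top_of_le_card _ ?_
  rw [hprod C hinf, ← hcardCI]
  exact Nat.mul_le_mul_left _ hCI

end Cfsg.Agent.S1899
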