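import Cfsg.Statements.S1900
import Cfsg.Agent.H6.TwoFac

set_option autoImplicit false
open Cfsg

namespace Cfsg.Agent.S1900

/-- Let S = PQ be a finite group with P a normal Sylow p-subgroup and Q elementary abelian of order q², q a prime different from p. If exactly two subgroups X₁, X₂ of order q in Q have a nontrivial centralizer in P, then P is the internal direct product of C_P(X₁) and C_P(X₂): they commute elementwise, meet trivially and generate P. -/
theorem result {S : Type*} [Group S] [Finite S] {p q : ℕ} [Fact p.Prime] [Fact q.Prime] (hpq : p ≠ q)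
    (P : Sylow p S) [(P : Subgroup S).Normal] (Q : Subgroup S) (hQ : Cfsg.IsElementaryAbelian q Q) (hQc : Nat.card Q = q ^ 2)
    (hS : (P : Subgroup S) ⊔ Q = ⊤)
    (X₁ X₂ : Subgroup S) (h₁ : X₁ ≤ Q) (h₂ : X₂ ≤ Q) (h₁₂ : X₁ ≠ X₂) (hc₁ : Nat.card X₁ = q) (hc₂ : Nat.card X₂ = q)
    (hf₁ : (P : Subgroup S) ⊓ Subgroup.centralizer (X₁ : Set S) ≠ ⊥)
    (hf₂ : (P : Subgroup S) ⊓ Subgroup.centralizer (X₂ : Set S) ≠ ⊥)
    (honly : ∀ X : Subgroup S, X ≤ Q → Nat.card X = q →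
      (P : Subgroup S) ⊓ Subgroup.centralizer (X : Set S) ≠ ⊥ → X = X₁ ∨ X = X₂) :
    ⁅(P : Subgroup S) ⊓ Subgroup.centralizer (X₁ : Set S), (P : Subgroup S) ⊓ Subgroup.centralizer (X₂ : Set S)⁆ = ⊥ ∧
      ((P : Subgroup S) ⊓ Subgroup.centralizer (X₁ : Set S)) ⊓ ((P : Subgroup S) ⊓ Subgroup.centralizer (X₂ : Set S)) = ⊥ ∧
      ((P : Subgroup S) ⊓ Subgroup.centralizer (X₁ : Set S)) ⊔ ((P : Subgroup S) ⊓ Subgroup.centralizer (X₂ : Set S)) = P := by
  have hqp : Nat.Prime q := Fact.out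
  have hpp : Nat.Prime p := Fact.out
  have hel := Agent.H6.elab_iff.1 hQ
  have hsup : X₁ ⊔ X₂ = Q := by
    refine Subgroup.eq_of_le_of_card_ge (sup_le h₁ h₂) ?_
    have hd : Nat.card (X₁ ⊔ X₂ : Subgroup S) ∣ q ^ 2 := hQc ▸ Subgroup.card_dvd_of_le (sup_le h₁ h₂)
    obtain ⟨k, hk, hk2⟩ := (Nat.dvd_prime_pow hqp).1 hd
    have h3 : X₁ < X₁ ⊔ X₂ := by
      refine lt_of_le_of_ne le_sup_left fun h => h₁₂ ?_
      have h4 : X₂ ≤ X₁ := by rw [h]; exact le_sup_right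
      exact (Subgroup.eq_of_le_of_card_ge h4 (by rw [hc₁, hc₂])).symm
    have h5 : Nat.card X₁ < Nat.card (X₁ ⊔ X₂ : Subgroup S) := by
      refine lt_of_le_of_ne (Subgroup.card_le_of_le h3.le) fun h => h3.ne ?_
      exact Subgroup.eq_of_le_of_card_ge h3.le h.ge
    rw [hk2, hc₁] at h5
    have h6 : 1 < k := by
      by_contra h7
      have : q ^ k ≤ q ^ 1 := Nat.pow_le_pow_right hqp.pos (by omega)
      rw [pow_one] at this
      omega
    rw [hk2, hQc]
    exact Nat.pow_le_pow_right hqp.pos (by omega)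
  have hcyc : ¬ IsCyclic ↥Q := by
    intro h
    obtain ⟨g, hg⟩ := IsCyclic.exists_generator (α := ↥Q)
    have h1 : orderOf g = Nat.card Q := orderOf_eq_card_of_forall_mem_zpowers hg
    have h2 : orderOf g ∣ q := orderOf_dvd_of_pow_eq_one (Subtype.ext (hel.2 g g.2))
    rw [h1, hQc] at h2
    have h3 := Nat.le_of_dvd hqp.pos h2
    have h4 : q * 2 ≤ q ^ 2 := by rw [pow_two]; exact Nat.mul_le_mul_left q hqp.two_le
    have := hqp.pos
    omega
  have hQp : (Nat.card Q).Coprime p := by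
    rw [hQc]
    exact Nat.Coprime.pow_left 2 ((Nat.coprime_primes hqp hpp).2 hpq.symm)
  exact Agent.H6.twofac (p := p) (q := q) ((Subgroup.normalizer_eq_top_iff.2 inferInstance).ge.trans' le_top) P.2 hQ hQp hcyc h₁ h₂ h₁₂ hc₁ hc₂ hsup honly

end Cfsg.Agent.S1900
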