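import Cfsg.Statements.S1901
import Cfsg.Agent.H6.NpA

set_option autoImplicit false
open Cfsg

namespace Cfsg.Agent.S1901

/-- Let G be a finite p-solvable group and Q a subgroup of order prime to p such that p divides the index of C_G(Q) in N_G(Q). Then Q normalizes no Sylow p-subgroup of G. -/
theorem result {G : Type*} [Group G] [Finite G] {p : ℕ} [Fact p.Prime]
    (hG : Cfsg.IsPSolvable p G) (Q : Subgroup G) (hQ : ¬ p ∣ Nat.card Q)
    (hA : p ∣ (Subgroup.centralizer (Q : Set G)).relIndex (Subgroup.normalizer (Q : Set G)))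
    (P : Sylow p G) : ¬ Q ≤ Subgroup.normalizer ((P : Subgroup G) : Set G) := by
  intro hQP
  have hp : Nat.Prime p := Fact.out
  have hQ' : (Nat.card Q).Coprime p := ((Nat.Prime.coprime_iff_not_dvd hp).2 hQ).symm
  have key := fun R => Agent.H6.npa (p := p) _ G rfl hG Q hQ' P hQP R
  obtain ⟨P₀, hP₀⟩ : ∃ P₀ : Subgroup G, P₀ = (P : Subgroup G) ⊓ Subgroup.centralizer (Q : Set G) := ⟨_, rfl⟩
  rw [← hP₀] at key
  have hP₀p : IsPGroup p ↥P₀ := P.2.to_le (by rw [hP₀]; exact inf_le_left)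
  obtain ⟨a, ha⟩ := IsPGroup.iff_card.1 hP₀p
  have hd1 : Nat.card P₀ ∣ Nat.card (Subgroup.centralizer (Q : Set G)) := Subgroup.card_dvd_of_le (by rw [hP₀]; exact inf_le_right)
  have hCN : Subgroup.centralizer (Q : Set G) ≤ Subgroup.normalizer (Q : Set G) := Subgroup.centralizer_le_normalizer _
  have hd2 : p ^ (a + 1) ∣ Nat.card (Subgroup.normalizer (Q : Set G)) := by
    rw [← Subgroup.relIndex_bot_left, ← Subgroup.relIndex_mul_relIndex ⊥ _ _ bot_le hCN, Subgroup.relIndex_bot_left, pow_succ, ← ha]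
    exact Nat.mul_dvd_mul hd1 hA
  obtain ⟨R, hR⟩ := Sylow.exists_subgroup_card_pow_prime p hd2
  have h1 := key (R.map (Subgroup.normalizer (Q : Set G)).subtype) ((IsPGroup.of_card hR).map _) (Subgroup.map_subtype_le _)
  rw [Subgroup.card_map_of_injective (Subgroup.subtype_injective _), hR, ha] at h1
  exact absurd h1 (not_le.2 (Nat.pow_lt_pow_right hp.one_lt (Nat.lt_succ_self a)))

end Cfsg.Agent.S1901
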