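import Cfsg.Statements.S1905
import Cfsg.Agent.L0.Coprime
import Cfsg.Agent.H6.PRed5

set_option autoImplicit false
open Cfsg

namespace Cfsg.Agent.S1905

open Subgroup Agent Agent.H6 in
theorem odd_prod {G : Type*} [Group G] {a b : G} (ha2 : a * a = 1) (hb2 : b * b = 1) {n : ℕ} (hn : orderOf (a * b) = 2 * n + 1) :
    ∃ w : G, w * w = 1 ∧ w * a * w = b := by
  have hai : a⁻¹ = a := inv_eq_of_mul_eq_one_right ha2
  have hbi : b⁻¹ = b := inv_eq_of_mul_eq_one_right hb2
  obtain ⟨d, hd⟩ : ∃ d, d = (a * b) ^ (n + 1) := ⟨_, rfl⟩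
  have hdd : d * d = a * b := by
    rw [hd, ← pow_add]
    have : n + 1 + (n + 1) = orderOf (a * b) + 1 := by omega
    rw [this, pow_succ, pow_orderOf_eq_one, one_mul]
  have hinv : ∀ k : ℕ, a * (a * b) ^ k * a = ((a * b) ^ k)⁻¹ := by
    intro k
    have h1 : a * (a * b) ^ k * a⁻¹ = (a * (a * b) * a⁻¹) ^ k := (conj_pow).symm
    rw [hai] at h1
    rw [h1, ← inv_pow]
    congr 1
    rw [mul_inv_rev, hai, hbi, ← mul_assoc, ha2, one_mul]
  have h1 : a * d * a = d⁻¹ := by rw [hd]; exact hinv _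
  refine ⟨a * d, ?_, ?_⟩
  · calc a * d * (a * d) = (a * d * a) * d := by group
      _ = 1 := by rw [h1]; group
  · calc a * d * a * (a * d) = (a * d * a) * (a * d * a) * a⁻¹ := by group
      _ = (d * d)⁻¹ * a⁻¹ := by rw [h1]; group
      _ = b⁻¹ * (a⁻¹ * a⁻¹) := by rw [hdd]; group
      _ = b := by rw [hai, ha2, mul_one, hbi]

theorem even_prod {G : Type*} [Group G] [Finite G] {M : Subgroup G}
    (hC : ∀ i ∈ M, orderOf i = 2 → Subgroup.centralizer ({i} : Set G) ≤ M) {a b : G} (ha : a ∈ M) (ha2 : orderOf a = 2) (hb2 : orderOf b = 2)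
    (h : 2 ∣ orderOf (a * b)) : b ∈ M := by
  have haa : a * a = 1 := by rw [← pow_two, ← ha2]; exact pow_orderOf_eq_one a
  have hbb : b * b = 1 := by rw [← pow_two, ← hb2]; exact pow_orderOf_eq_one b
  have hai : a⁻¹ = a := inv_eq_of_mul_eq_one_right haa
  have hbi : b⁻¹ = b := inv_eq_of_mul_eq_one_right hbb
  obtain ⟨m, hm⟩ := h
  have hpos : 0 < orderOf (a * b) := orderOf_pos _
  have hm0 : 0 < m := by omega
  obtain ⟨z, hz⟩ : ∃ z, z = (a * b) ^ m := ⟨_, rfl⟩
  have hzz : z * z = 1 := by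
    rw [hz, ← pow_add, show m + m = orderOf (a * b) by omega, pow_orderOf_eq_one]
  have hz1 : z ≠ 1 := by
    intro h
    rw [hz] at h
    have := Nat.le_of_dvd hm0 (orderOf_dvd_of_pow_eq_one h)
    omega
  have hzo : orderOf z = 2 := orderOf_eq_prime (by rw [pow_two]; exact hzz) hz1
  have hzi : z⁻¹ = z := inv_eq_of_mul_eq_one_right hzz
  have haz : a * z * a = z := by
    have h1 : a * (a * b) ^ m * a⁻¹ = (a * (a * b) * a⁻¹) ^ m := (conj_pow).symm
    rw [hai] at h1
    have h2 : a * (a * b) * a = (a * b)⁻¹ := by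
      rw [mul_inv_rev, hai, hbi, ← mul_assoc, haa, one_mul]
    rw [h2, inv_pow, ← hz, hzi] at h1
    exact h1
  have haz' : z * a = a * z := by
    calc z * a = (a * a) * z * a := by rw [haa, one_mul]
      _ = a * (a * z * a) := by group
      _ = a * z := by rw [haz]
  have hzM : z ∈ M := hC a ha ha2 (Subgroup.mem_centralizer_singleton_iff.2 haz')
  have hzab : Commute z (a * b) := by rw [hz]; exact (Commute.refl (a * b)).pow_left m
  have hzb : Commute z b := by
    have h3 : Commute z a := haz'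
    have h4 := h3.inv_right.mul_right hzab
    rwa [inv_mul_cancel_left] at h4
  exact hC z hzM hzo (Subgroup.mem_centralizer_singleton_iff.2 hzb.symm)

open Subgroup Agent Agent.H6 in
open scoped Pointwise in
theorem key_aux {S : Type*} [Group S] [Finite S] {M X' : Subgroup S} {I g : S}
    (hC : ∀ i ∈ M, orderOf i = 2 → Subgroup.centralizer ({i} : Set S) ≤ M) (hN : Subgroup.normalizer (X' : Set S) ≤ M)
    (hX'S : Agent.L0.IsSylowIn 2 X' M) (hIo' : orderOf I = 2) (hIX : ∀ y ∈ X', y * I = I * y)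
    (horder : ∀ g y : S, orderOf (g * y * g⁻¹) = orderOf y) (hg : g * I * g⁻¹ ∈ M) : g ∈ M := by
  have h1 : MulAut.conj g • X' ≤ M := by
    intro y hy
    refine hC _ hg (by rw [horder]; exact hIo') (Subgroup.mem_centralizer_singleton_iff.2 ?_)
    have h2 : g⁻¹ * y * g ∈ X' := (Agent.L0.mem_conj_smul).1 hy
    have h3 := hIX _ h2
    calc y * (g * I * g⁻¹) = g * ((g⁻¹ * y * g) * I) * g⁻¹ := by group
      _ = g * (I * (g⁻¹ * y * g)) * g⁻¹ := by rw [h3]
      _ = g * I * g⁻¹ * y := by group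
  have h2 : Agent.L0.IsSylowIn 2 (MulAut.conj g • X') M := by
    rw [Agent.L0.isSylowIn_iff_card] at hX'S ⊢
    exact ⟨h1, by rw [Agent.L0.card_conj_smul]; exact hX'S.2⟩
  obtain ⟨m, hm, hmX⟩ := h2.exists_conj hX'S
  have h3 : m * g ∈ Subgroup.normalizer (X' : Set S) := by
    rw [Agent.L0.mem_normalizer_conj, map_mul, mul_smul]
    exact hmX
  have h4 := mul_mem (inv_mem hm) (hN h3)
  rwa [inv_mul_cancel_left] at h4

/-- Let M be a subgroup of even order of a finite group S such that M contains the centralizer in S of each of its involutions and the normal core of M in S has odd order. Then all involutions of S are conjugate. If moreover N_S(X) ≤ M for a Sylow 2-subgroup X of M and I is an involution in the centre of X, then all involutions of M are conjugate in M and M = M₀ C_M(I) for some subgroup M₀ of M of odd order. -/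
theorem result {S : Type*} [Group S] [Finite S] (M : Subgroup S) (hM : Even (Nat.card M))
    (hC : ∀ i ∈ M, orderOf i = 2 → Subgroup.centralizer ({i} : Set S) ≤ M) (hcore : Odd (Nat.card M.normalCore)) :
    (∀ x y : S, orderOf x = 2 → orderOf y = 2 → IsConj x y) ∧
      ∀ (X : Sylow 2 M) (I : M), I ∈ (Subgroup.center ↥(X : Subgroup ↥M)).map (X : Subgroup ↥M).subtype → orderOf I = 2 →
        Subgroup.normalizer (((X : Subgroup M).map M.subtype : Subgroup S) : Set S) ≤ M →
        (∀ x y : M, orderOf x = 2 → orderOf y = 2 → IsConj x y) ∧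
          ∃ M₀ : Subgroup M, Odd (Nat.card M₀) ∧
            ∀ m : M, ∃ a ∈ M₀, ∃ c ∈ Subgroup.centralizer ({I} : Set M), m = a * c := by
  have horder : ∀ g y : S, orderOf (g * y * g⁻¹) = orderOf y := by
    intro g y
    have := orderOf_injective (MulAut.conj g).toMonoidHom (MulAut.conj g).injective y
    simpa using this
  obtain ⟨i₀, hi₀⟩ := exists_prime_orderOf_dvd_card' (G := ↥M) 2 hM.two_dvd
  have hi₀' : orderOf (i₀ : S) = 2 := by rw [Subgroup.orderOf_coe]; exact hi₀
  -- an involution outside `M`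
  obtain ⟨u, hu, huM⟩ : ∃ u : S, orderOf u = 2 ∧ u ∉ M := by
    by_contra hcon
    push Not at hcon
    have h1 : (Subgroup.closure {t : S | orderOf t = 2}).Normal := by
      refine ⟨fun n hn g => ?_⟩
      have h2 : (Subgroup.closure {t : S | orderOf t = 2}).map (MulAut.conj g).toMonoidHom ≤ Subgroup.closure {t : S | orderOf t = 2} := by
        rw [Subgroup.map_le_iff_le_comap, Subgroup.closure_le]
        intro t ht
        rw [SetLike.mem_coe, Subgroup.mem_comap]
        refine Subgroup.subset_closure ?_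
        have e : (MulAut.conj g).toMonoidHom t = g * t * g⁻¹ := by simp
        rw [e]
        show orderOf (g * t * g⁻¹) = 2
        rw [horder]; exact ht
      exact h2 ⟨n, hn, by simp⟩
    have h2 : Subgroup.closure {t : S | orderOf t = 2} ≤ M := by
      rw [Subgroup.closure_le]; exact fun t ht => hcon t ht
    have h3 : (i₀ : S) ∈ M.normalCore := (Subgroup.normal_le_normalCore.2 h2) (Subgroup.subset_closure hi₀')
    have h4 : 2 ∣ Nat.card M.normalCore := by
      rw [← hi₀']; exact Subgroup.orderOf_dvd_natCard _ h3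
    exact (Nat.not_even_iff_odd.2 hcore) (even_iff_two_dvd.2 h4)
  have sq : ∀ t : S, orderOf t = 2 → t * t = 1 := fun t ht => by rw [← pow_two, ← ht]; exact pow_orderOf_eq_one t
  have hodd : ∀ a b : S, a ∈ M → orderOf a = 2 → orderOf b = 2 → b ∉ M → ∃ w : S, w * w = 1 ∧ w * a * w = b := by
    intro a b ha ha2 hb2 hb
    rcases Nat.even_or_odd' (orderOf (a * b)) with ⟨n, hn | hn⟩
    · exact absurd (even_prod hC ha ha2 hb2 ⟨n, hn⟩) hb
    · exact odd_prod (sq a ha2) (sq b hb2) hn
  have hconj1 : ∀ a b : S, a ∈ M → orderOf a = 2 → orderOf b = 2 → b ∉ M → IsConj a b := by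
    intro a b ha ha2 hb2 hb
    obtain ⟨w, hw, hwab⟩ := hodd a b ha ha2 hb2 hb
    refine isConj_iff.2 ⟨w, ?_⟩
    rw [← hwab, inv_eq_of_mul_eq_one_right hw]
  have hall : ∀ x y : S, orderOf x = 2 → orderOf y = 2 → IsConj x y := by
    intro x y hx hy
    by_cases hxM : x ∈ M
    · by_cases hyM : y ∈ M
      · exact (hconj1 x u hxM hx hu huM).trans (hconj1 y u hyM hy hu huM).symm
      · exact hconj1 x y hxM hx hy hyM
    · by_cases hyM : y ∈ M
      · exact (hconj1 y x hyM hy hx hxM).symm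
      · exact (hconj1 _ x i₀.2 hi₀' hx hxM).symm.trans (hconj1 _ y i₀.2 hi₀' hy hyM)
  refine ⟨hall, ?_⟩
  intro X I hI hIo hN
  have hIo' : orderOf (I : S) = 2 := by rw [Subgroup.orderOf_coe]; exact hIo
  obtain ⟨X', hX'⟩ : ∃ X', X' = (X : Subgroup M).map M.subtype := ⟨_, rfl⟩
  rw [← hX'] at hN
  have hX'S : Agent.L0.IsSylowIn 2 X' M := ⟨X, hX'.symm⟩
  have hIX : ∀ y ∈ X', y * (I : S) = I * y := by
    intro y hy
    rw [hX'] at hy
    obtain ⟨y', hy', rfl⟩ := hy
    obtain ⟨c, hc, hcI⟩ := hI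
    have h1 := Subgroup.mem_center_iff.1 hc ⟨y', hy'⟩
    have h2 := congrArg Subtype.val (congrArg Subtype.val h1)
    have h3 : ((c : ↥M) : S) = (I : S) := congrArg Subtype.val hcI
    rw [← h3]
    exact h2
  have key : ∀ g : S, g * (I : S) * g⁻¹ ∈ M → g ∈ M := fun g hg => key_aux hC hN hX'S hIo' hIX horder hg
  have hMconj : ∀ y : M, orderOf y = 2 → ∃ g : M, y = g * I * g⁻¹ := by
    intro y hy
    obtain ⟨g, hg⟩ := isConj_iff.1 (hall I y hIo' (by rw [Subgroup.orderOf_coe]; exact hy))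
    have hgM : g ∈ M := key g (by rw [hg]; exact y.2)
    exact ⟨⟨g, hgM⟩, Subtype.ext hg.symm⟩
  have hSE : ∀ y ∈ M, orderOf y = 2 → ∀ g : S, g * y * g⁻¹ ∈ M → g ∈ M := by
    intro y hy hyo g hg
    obtain ⟨h, hh⟩ := hMconj ⟨y, hy⟩ (by rw [Subgroup.orderOf_mk]; exact hyo)
    have h1 : y = h * (I : S) * (h : S)⁻¹ := congrArg Subtype.val hh
    have h2 : g * h ∈ M := by
      refine key _ ?_
      have e : g * h * (I : S) * (g * h)⁻¹ = g * (h * (I : S) * (h : S)⁻¹) * g⁻¹ := by group
      rw [e, ← h1]; exact hg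
    have h3 := mul_mem h2 (inv_mem h.2)
    rwa [mul_inv_cancel_right] at h3
  refine ⟨?_, ?_⟩
  · intro x y hx hy
    obtain ⟨g, hg⟩ := hMconj x hx
    obtain ⟨h, hh⟩ := hMconj y hy
    rw [isConj_iff]
    exact ⟨h * g⁻¹, by rw [hg, hh]; group⟩
  · have huu := sq u hu
    have hui : u⁻¹ = u := inv_eq_of_mul_eq_one_right huu
    refine ⟨(M.comap (MulAut.conj u).toMonoidHom).subgroupOf M, ?_, ?_⟩
    · rw [← Nat.not_even_iff_odd]
      intro h
      obtain ⟨t, ht⟩ := exists_prime_orderOf_dvd_card' (G := ↥((M.comap (MulAut.conj u).toMonoidHom).subgroupOf M)) 2 h.two_dvd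
      have ht2 : ((t : ↥M) : S) ∈ M.comap (MulAut.conj u).toMonoidHom := t.2
      rw [Subgroup.mem_comap] at ht2
      have e : (MulAut.conj u).toMonoidHom ((t : ↥M) : S) = u * ((t : ↥M) : S) * u⁻¹ := by simp
      rw [e] at ht2
      refine huM (hSE _ (t : ↥M).2 ?_ u ht2)
      rw [Subgroup.orderOf_coe, Subgroup.orderOf_coe]; exact ht
    · intro m
      obtain ⟨i, hi⟩ : ∃ i : S, i = (m : S) * I * (m : S)⁻¹ := ⟨_, rfl⟩
      have hiM : i ∈ M := by rw [hi]; exact mul_mem (mul_mem m.2 I.2) (inv_mem m.2)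
      have hio : orderOf i = 2 := by rw [hi, horder]; exact hIo'
      have hj : u * i * u ∉ M := by
        intro h
        refine huM (hSE i hiM hio u ?_)
        rw [hui]; exact h
      have hjo : orderOf (u * i * u) = 2 := by
        have := horder u i
        rw [hui] at this
        rw [this]; exact hio
      obtain ⟨w, hw, hwI⟩ := hodd I (u * i * u) I.2 hIo' hjo hj
      have hwi : w⁻¹ = w := inv_eq_of_mul_eq_one_right hw
      have h1 : (u * w) * (I : S) * (u * w)⁻¹ = i := by
        rw [mul_inv_rev, hwi, hui]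
        calc u * w * (I : S) * (w * u) = u * (w * I * w) * u := by group
          _ = (u * u) * i * (u * u) := by rw [hwI]; group
          _ = i := by rw [huu]; group
      have hd : u * w ∈ M := key _ (by rw [h1]; exact hiM)
      refine ⟨⟨u * w, hd⟩, ?_, ⟨(u * w)⁻¹ * m, mul_mem (inv_mem hd) m.2⟩, ?_, ?_⟩
      · show (MulAut.conj u).toMonoidHom (u * w) ∈ M
        have e : (MulAut.conj u).toMonoidHom (u * w) = u * (u * w) * u⁻¹ := by simp
        rw [e, hui]
        have e2 : u * (u * w) * u = (u * w)⁻¹ := by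
          rw [mul_inv_rev, hwi, hui, ← mul_assoc, huu, one_mul]
        rw [e2]; exact inv_mem hd
      · rw [Subgroup.mem_centralizer_singleton_iff]
        apply Subtype.ext
        show (u * w)⁻¹ * (m : S) * I = I * ((u * w)⁻¹ * m)
        have h2 : (u * w) * (I : S) * (u * w)⁻¹ = (m : S) * I * (m : S)⁻¹ := by rw [h1, hi]
        calc (u * w)⁻¹ * (m : S) * I = (u * w)⁻¹ * ((m : S) * I * (m : S)⁻¹) * m := by group
          _ = (u * w)⁻¹ * ((u * w) * (I : S) * (u * w)⁻¹) * m := by rw [h2]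
          _ = I * ((u * w)⁻¹ * m) := by group
      · apply Subtype.ext
        show (m : S) = u * w * ((u * w)⁻¹ * m)
        group

end Cfsg.Agent.S1905
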