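import Cfsg.Statements.S1947
import Cfsg.Agent.H6.Omega2

set_option autoImplicit false
open Cfsg

namespace Cfsg.Agent.S1947

/-- Let G be a finite group and p a prime. If every element of G of order dividing p (dividing 4 when p = 2) lies in some fixed term Z_n(G) of the upper central series, then G has a normal p-complement. -/
theorem result {G : Type*} [Group G] [Finite G] {p : ℕ} [Fact p.Prime] (n : ℕ)
    (h : ∀ a : G, (a ^ p = 1 ∨ (p = 2 ∧ a ^ 4 = 1)) → a ∈ Subgroup.upperCentralSeries G n) : Cfsg.HasNormalPComplement p G := by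
  refine Agent.H1.frobenius_criterion ?_
  intro Q hQ g hg hgo
  refine Agent.H6.cent_of_chain hQ hg hgo (fun i => (Subgroup.upperCentralSeries G i : Set G)) ?_ ?_ n ?_
  · intro x hx
    simpa using hx
  · intro i c _ _ _ hcZ
    have h1 : c⁻¹ ∈ Subgroup.upperCentralSeries G (i + 1) := inv_mem hcZ
    have h2 := (Subgroup.mem_upperCentralSeries_succ_iff).1 h1 g
    have e : c⁻¹ * (g * c * g⁻¹) = c⁻¹ * g * c⁻¹⁻¹ * g⁻¹ := by group
    show c⁻¹ * (g * c * g⁻¹) ∈ Subgroup.upperCentralSeries G i
    rw [e]; exact h2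
  · intro c _ hc
    exact h c hc

end Cfsg.Agent.S1947
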