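import Cfsg.Statements.S1948
import Cfsg.Agent.H6.PNil4
import Cfsg.Agent.H6.SnJoin
import Cfsg.Agent.H6.CharP
import Cfsg.Agent.H1.PCon
import Cfsg.Agent.H1.Transfer

set_option autoImplicit false
open Cfsg

namespace Cfsg.Agent.S1948

open Subgroup Agent.H6 in
theorem nsyl {H : Type*} [Group H] [Finite H] {p : ℕ} [hp : Fact p.Prime] (S : Sylow p H) (hS : (S : Subgroup H).Normal) (hO : pPrimeCore p H = ⊥) :
    Subgroup.centralizer (pCore p H : Set H) ≤ pCore p H := by
  have e : pCore p H = (S : Subgroup H) := by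
    haveI := hS
    exact le_antisymm (L0.pCore_le_sylow S) (L0.le_pCore S.2)
  obtain ⟨C, hC⟩ : ∃ C, C = Subgroup.centralizer ((S : Subgroup H) : Set H) := ⟨_, rfl⟩
  haveI hCn : C.Normal := by
    rw [hC]; haveI := hS; infer_instance
  have h1 := SylIn.inf_subnormal (sylow_sylIn_top S) hCn.isSubnormal
  obtain ⟨P, hP⟩ := h1.exists_sylow
  have h2 : ∀ x ∈ (P : Subgroup ↥C), ∀ c : ↥C, x * c = c * x := by
    intro x hx c
    rw [hP, mem_subgroupOf] at hx
    have h3 : (c : H) ∈ Subgroup.centralizer ((S : Subgroup H) : Set H) := by rw [← hC]; exact c.2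
    exact Subtype.ext (mem_centralizer_iff.1 h3 x hx.1)
  have h3 : HasNormalPComplement p ↥C := by
    apply H1.hasNormalPComplement_of_normalizer_le_centralizer P
    intro c _
    rw [mem_centralizer_iff]
    intro x hx
    exact h2 x hx c
  have h4 : PN p C := npc_iff'.1 h3
  have h5 : opR p C = ⊥ := by
    rw [eq_bot_iff, ← hO]
    exact L0.le_pPrimeCore h4
  have h6 : IsPGroup p ↥C := by
    apply isPGroup_of_pprime
    intro w hw hwc
    have h7 : w ∈ opR p C := subset_closure ⟨hw, hwc⟩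
    rwa [h5, mem_bot] at h7
  rw [e, ← hC, ← e]
  exact L0.le_pCore h6

open Subgroup Agent.H6 in
theorem fwd {G : Type*} [Group G] [Finite G] {p : ℕ} [Fact p.Prime] (S : Sylow p G)
    (h : Subgroup.normalizer ((S : Subgroup G) : Set G) ⊔ Cfsg.pPrimeCore p G = ⊤) :
      (Cfsg.IsPConstrained p G ∧
        ∀ Q : Subgroup G, Q ≤ (S : Subgroup G) → ∀ g : G, cj g Q ≤ (S : Subgroup G) →
          ∃ n ∈ Subgroup.normalizer ((S : Subgroup G) : Set G), ∃ c ∈ Subgroup.centralizer (Q : Set G), g = n * c) := by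
  constructor
  · rw [H1.pConstrained_iff]
    have hs := QuotientGroup.mk'_surjective (pPrimeCore p G)
    refine nsyl (S.mapSurjective hs) ?_ (L0.pPrimeCore_quotient_pPrimeCore p G)
    show ((S : Subgroup G).map (QuotientGroup.mk' (pPrimeCore p G))).Normal
    rw [← normalizer_eq_top_iff, eq_top_iff, ← Subgroup.map_top_of_surjective _ hs, ← h, Subgroup.map_sup]
    refine sup_le (Subgroup.le_normalizer_map _) ?_
    rintro _ ⟨y, hy, rfl⟩
    have : QuotientGroup.mk' (pPrimeCore p G) y = 1 := (QuotientGroup.eq_one_iff y).2 hy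
    rw [this]; exact one_mem _
  · intro Q hQ g hg
    have h1 : g ∈ Subgroup.normalizer ((S : Subgroup G) : Set G) ⊔ Cfsg.pPrimeCore p G := by rw [h]; exact mem_top g
    obtain ⟨n, hn, k, hk, rfl⟩ := mem_sup_of_normal_right.1 h1
    refine ⟨n, hn, k, ?_, rfl⟩
    have h2 : cj k Q ≤ (S : Subgroup G) := by
      rw [cj_mul] at hg
      have h3 := cj_mono (g := n⁻¹) hg
      rw [cj_inv_cj, cj_of_mem_norm (inv_mem hn)] at h3
      exact h3
    rw [mem_centralizer_iff]
    intro q hq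
    have h3 : k * q * k⁻¹ ∈ (S : Subgroup G) := h2 (conj_mem_cj hq)
    have h4 : k * q * k⁻¹ * q⁻¹ ∈ (S : Subgroup G) := mul_mem h3 (inv_mem (hQ hq))
    have h5 : k * q * k⁻¹ * q⁻¹ ∈ pPrimeCore p G := by
      have e : k * q * k⁻¹ * q⁻¹ = k * (q * k⁻¹ * q⁻¹) := by group
      rw [e]
      exact mul_mem hk ((inferInstance : (pPrimeCore p G).Normal).conj_mem _ (inv_mem hk) q)
    have h6 : (S : Subgroup G) ⊓ pPrimeCore p G = ⊥ :=
      Subgroup.inf_eq_bot_of_coprime (H1.coprime_of_isPGroup S.2 (L0.pPrimeCore_coprime p G))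
    have h7 : k * q * k⁻¹ * q⁻¹ ∈ (S : Subgroup G) ⊓ pPrimeCore p G := ⟨h4, h5⟩
    rw [h6, mem_bot] at h7
    have := mul_inv_eq_one.1 h7
    rw [mul_inv_eq_iff_eq_mul] at this
    exact this.symm

open Subgroup Agent.H6 in
theorem bwd {G : Type*} [Group G] [Finite G] {p : ℕ} [Fact p.Prime] (S : Sylow p G)
    (hc : Cfsg.IsPConstrained p G)
    (hf : ∀ Q : Subgroup G, Q ≤ (S : Subgroup G) → ∀ g : G, cj g Q ≤ (S : Subgroup G) →
          ∃ n ∈ Subgroup.normalizer ((S : Subgroup G) : Set G), ∃ c ∈ Subgroup.centralizer (Q : Set G), g = n * c) :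
    Subgroup.normalizer ((S : Subgroup G) : Set G) ⊔ Cfsg.pPrimeCore p G = ⊤ := by
  obtain ⟨M, hM⟩ : ∃ M, M = pPrimePCore p G := ⟨_, rfl⟩
  have hMn : (pPrimePCore p G).Normal := by
    unfold pPrimePCore
    exact (inferInstance : (pCore p (G ⧸ pPrimeCore p G)).Normal).comap _
  have h1 := SylIn.inf_subnormal (sylow_sylIn_top S) hMn.isSubnormal
  obtain ⟨P, hP⟩ := h1.exists_sylow
  have hPm : (P : Subgroup ↥(pPrimePCore p G)).map (pPrimePCore p G).subtype = (S : Subgroup G) ⊓ pPrimePCore p G := by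
    rw [hP, subgroupOf_map_subtype, inf_eq_left.2 inf_le_right]
  have h2 := H1.map_sylow_pPrimePCore P
  rw [hPm] at h2
  have h3 : pPrimePCore p G ≤ ((S : Subgroup G) ⊓ pPrimePCore p G) ⊔ pPrimeCore p G := by
    have h4 := congrArg (Subgroup.comap (QuotientGroup.mk' (pPrimeCore p G))) h2
    rw [Subgroup.comap_map_eq, QuotientGroup.ker_mk'] at h4
    rw [h4]; exact le_rfl
  have h4 := Sylow.normalizer_sup_eq_top P
  rw [hPm] at h4
  have hSN : ((S : Subgroup G) ⊓ pPrimePCore p G) ⊔ pPrimeCore p G ≤ Subgroup.normalizer ((S : Subgroup G) : Set G) ⊔ Cfsg.pPrimeCore p G :=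
    sup_le_sup_right (inf_le_left.trans le_normalizer) _
  rw [eq_top_iff, ← h4]
  refine sup_le ?_ (h3.trans hSN)
  intro g hg
  obtain ⟨n, hn, c, hcc, rfl⟩ := hf _ inf_le_left g (by rw [cj_of_mem_norm hg]; exact inf_le_left)
  refine mul_mem (mem_sup_left hn) (hSN (h3 ?_))
  have h5 := hc P
  rw [hPm] at h5
  exact h5 hcc

/-- Let S be a Sylow p-subgroup of the finite group G. Then G = N_G(S)·O_{p'}(G) if and only if G is p-constrained and N_G(S) controls fusion in S, in the sense that whenever a subgroup Q of S has a conjugate g Q g⁻¹ inside S, the element g is a product n c with n normalizing S and c centralizing Q. -/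
theorem result {G : Type*} [Group G] [Finite G] {p : ℕ} [Fact p.Prime] (S : Sylow p G) :
    Subgroup.normalizer ((S : Subgroup G) : Set G) ⊔ Cfsg.pPrimeCore p G = ⊤ ↔
      (Cfsg.IsPConstrained p G ∧
        ∀ Q : Subgroup G, Q ≤ (S : Subgroup G) → ∀ g : G, Q.map (MulAut.conj g).toMonoidHom ≤ (S : Subgroup G) →
          ∃ n ∈ Subgroup.normalizer ((S : Subgroup G) : Set G), ∃ c ∈ Subgroup.centralizer (Q : Set G), g = n * c) := by
  exact ⟨fun h => fwd S h, fun h => bwd S h.1 h.2⟩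

end Cfsg.Agent.S1948
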