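import Cfsg.Statements.S1953
import Cfsg.Agent.H6.NoSL2

set_option autoImplicit false
open Cfsg

namespace Cfsg.Agent.S1953

open Cfsg.Agent.H6

/-- Let p be an odd prime and P a Sylow p-subgroup of the finite group G, and suppose that for no p-subgroup Q of G does N_G(Q)/C_G(Q) have a section isomorphic to SL₂(p). Call a subgroup Q of P centric-radical when Z(Q) is a Sylow p-subgroup of C_G(Q) and the only normal subgroup X of N_G(Q) containing Q·C_G(Q) such that the index of Q·C_G(Q) in X is a power of p is Q·C_G(Q) itself (that is, N_G(Q)/Q·C_G(Q) has no nontrivial normal p-subgroup). Then there is a centric-radical subgroup Q of P contained in every centric-radical subgroup of P; it is normal in P, and N_G(Q) controls strong fusion in P: whenever a subgroup A of P has g A g⁻¹ ≤ P, the element g is a product h c with h in N_G(Q) and c centralizing A. -/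
theorem result {G : Type*} [Group G] [Finite G] {p : ℕ} [Fact p.Prime] (hp : p ≠ 2) (P : Sylow p G)
    (hfree : ∀ Q : Subgroup G, IsPGroup p ↥Q → ¬ ∃ (H K : Subgroup G) (_ : (K.subgroupOf H).Normal),
      Subgroup.centralizer (Q : Set G) ≤ K ∧ K ≤ H ∧ H ≤ Subgroup.normalizer (Q : Set G) ∧
      Nonempty ((↥H ⧸ K.subgroupOf H) ≃* Matrix.SpecialLinearGroup (Fin 2) (ZMod p)))
    (cr : Subgroup G → Prop)
    (hcr : ∀ Q : Subgroup G, cr Q ↔ (Q ≤ (P : Subgroup G) ∧
      (∃ R : Sylow p ↥(Subgroup.centralizer (Q : Set G)),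
        (R : Subgroup ↥(Subgroup.centralizer (Q : Set G))).map (Subgroup.centralizer (Q : Set G)).subtype = Q ⊓ Subgroup.centralizer (Q : Set G)) ∧
      ∀ X : Subgroup G, X ≤ Subgroup.normalizer (Q : Set G) →
        (∀ n ∈ Subgroup.normalizer (Q : Set G), X.map (MulAut.conj n).toMonoidHom = X) →
        Q ⊔ Subgroup.centralizer (Q : Set G) ≤ X → (∃ k : ℕ, (Q ⊔ Subgroup.centralizer (Q : Set G)).relIndex X = p ^ k) →
        X = Q ⊔ Subgroup.centralizer (Q : Set G))) :
    ∃ Q : Subgroup G, cr Q ∧ (∀ R : Subgroup G, cr R → Q ≤ R) ∧ (∀ x ∈ (P : Subgroup G), Q.map (MulAut.conj x).toMonoidHom = Q) ∧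
      ∀ A : Subgroup G, A ≤ (P : Subgroup G) → ∀ g : G, A.map (MulAut.conj g).toMonoidHom ≤ (P : Subgroup G) →
        ∃ h ∈ Subgroup.normalizer (Q : Set G), ∃ c ∈ Subgroup.centralizer (A : Set G), g = h * c := by
  have hNoSL : NoSL p G := noSL_of_free hfree
  set W₀ := inducedFunctor (G := G) kInfLower (P : Subgroup G) with hW₀
  have hconj := inducedFunctor_isConj (klike_lower (p := p)).char G
  have hSF₀ : SFus (P : Subgroup G) W₀ := strongFusion_explicit hp klike_lower hNoSL P
  have hW₀P : W₀ ≤ (P : Subgroup G) := cf_le hconj P.2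
  have hPW₀ : (P : Subgroup G) ≤ Subgroup.normalizer (W₀ : Set G) := cf_self_norm hconj P.2
  have hcen₀ : (P : Subgroup G) ⊓ Subgroup.centralizer (W₀ : Set G) ≤ W₀ := by
    rintro x ⟨hxP, hx⟩
    have h1 : (⟨x, hxP⟩ : ↥(P : Subgroup G)) ∈ kInfLower ↥(P : Subgroup G) := by
      apply centralizer_kInfLower_le P.2
      rw [Subgroup.mem_centralizer_iff]
      intro y hy
      apply Subtype.ext
      exact Subgroup.mem_centralizer_iff.1 hx (y : G) ⟨y, hy, rfl⟩
    exact ⟨_, h1, rfl⟩
  -- a maximal one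
  obtain ⟨Q, ⟨hW₀Q, hQP, hPQ, hSF⟩, hmax⟩ := (Set.toFinite {Q : Subgroup G | W₀ ≤ Q ∧ Q ≤ (P : Subgroup G) ∧
    (P : Subgroup G) ≤ Subgroup.normalizer (Q : Set G) ∧ SFus (P : Subgroup G) Q}).exists_maximal ⟨W₀, le_rfl, hW₀P, hPW₀, hSF₀⟩
  have hcen : (P : Subgroup G) ⊓ Subgroup.centralizer (Q : Set G) ≤ Q := by
    refine le_trans (inf_le_inf_left _ (Subgroup.centralizer_le ?_)) (hcen₀.trans hW₀Q)
    exact hW₀Q
  have hNC : ∀ R : Subgroup G, Subgroup.normalizer (R : Set G) ≤
      Subgroup.normalizer ((Subgroup.centralizer (R : Set G) : Subgroup G) : Set G) := by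
    intro R n hn
    rw [mem_norm, cj_centralizer, cj_of_mem_norm hn]
  have hPs : SylIn p (P : Subgroup G) (Subgroup.normalizer (Q : Set G)) := sylIn_of_sylow_le P hPQ
  have hPC : (P : Subgroup G) ⊓ Subgroup.centralizer (Q : Set G) = Q ⊓ Subgroup.centralizer (Q : Set G) :=
    le_antisymm (le_inf hcen inf_le_right) (inf_le_inf_right _ hQP)
  refine ⟨Q, ?_, ?_, ?_, ?_⟩
  · rw [hcr]
    refine ⟨hQP, ?_, ?_⟩
    · have h1 : SylIn p (Q ⊓ Subgroup.centralizer (Q : Set G)) (Subgroup.centralizer (Q : Set G)) := by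
        rw [← hPC]
        exact sylIn_inf_normal hPs (centralizer_le_norm Q) (hNC Q)
      obtain ⟨R, hR⟩ := h1.exists_sylow
      refine ⟨R, ?_⟩
      rw [hR, Subgroup.map_subgroupOf_eq_of_le inf_le_right]
    · intro X hXN hNX hCX hk
      obtain ⟨k, hk⟩ := hk
      have hNX' : Subgroup.normalizer (Q : Set G) ≤ Subgroup.normalizer (X : Set G) := fun n hn => mem_norm.2 (hNX n hn)
      have hnorm : X ≤ Subgroup.normalizer ((Q ⊔ Subgroup.centralizer (Q : Set G) : Subgroup G) : Set G) := by
        intro x hx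
        rw [mem_norm]
        change (Q ⊔ Subgroup.centralizer (Q : Set G)).map _ = _
        rw [Subgroup.map_sup]
        exact congrArg₂ (· ⊔ ·) (cj_of_mem_norm (hXN hx)) (cj_of_mem_norm (hNC Q (hXN hx)))
      have hpow : ∀ x ∈ X, ∃ k : ℕ, x ^ p ^ k ∈ Q ⊔ Subgroup.centralizer (Q : Set G) := by
        intro x hx
        haveI : ((Q ⊔ Subgroup.centralizer (Q : Set G)).subgroupOf X).Normal :=
          (Subgroup.normal_subgroupOf_iff_le_normalizer hCX).2 hnorm
        have h1 := Subgroup.pow_index_mem ((Q ⊔ Subgroup.centralizer (Q : Set G)).subgroupOf X) (⟨x, hx⟩ : ↥X)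
        refine ⟨k, ?_⟩
        rw [Subgroup.relIndex] at hk
        rw [hk] at h1
        exact h1
      have hSF1 := SFus.enlarge P hQP hPQ hcen hSF hXN hNX' hCX hpow
      have hQX : Q ≤ X := le_sup_left.trans hCX
      have h2 := hmax ⟨hW₀Q.trans (le_inf hQP hQX), inf_le_left, by
        intro x hx
        rw [mem_norm, cj_inf, cj_of_mem hx, cj_of_mem_norm (hNX' (hPQ hx))], hSF1⟩ (le_inf hQP hQX)
      -- `P ⊓ X ≤ Q` is Sylow in `X`
      have h3 : SylIn p ((P : Subgroup G) ⊓ X) X := sylIn_inf_normal hPs hXN hNX'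
      have h4 : (Q ⊔ Subgroup.centralizer (Q : Set G)).relIndex X ∣ ((P : Subgroup G) ⊓ X).relIndex X :=
        Subgroup.relIndex_dvd_of_le_left _ (h2.trans le_sup_left)
      rcases Nat.eq_zero_or_pos k with h0 | h0
      · rw [h0, pow_zero, Subgroup.relIndex_eq_one] at hk
        exact le_antisymm hk hCX
      · exfalso
        apply h3.2.2
        refine dvd_trans ?_ h4
        rw [hk]
        exact dvd_pow_self p h0.ne'
  · intro R hR
    rw [hcr] at hR
    obtain ⟨hRP, ⟨Rs, hRs⟩, hrad⟩ := hR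
    have hRZ : SylIn p (R ⊓ Subgroup.centralizer (R : Set G)) (Subgroup.centralizer (R : Set G)) := by
      have := sylow_sylIn Rs
      rwa [hRs] at this
    -- `p`-elements of the centralizer
    have hPCR : (P : Subgroup G) ⊓ Subgroup.centralizer (R : Set G) ≤ R := by
      have h1 : IsPGroup p ↥((P : Subgroup G) ⊓ Subgroup.centralizer (R : Set G)) := P.2.to_le inf_le_left
      obtain ⟨c, hc, hcR⟩ := hRZ.exists_conj_le h1 inf_le_right
      rw [cj_le_iff] at hcR
      refine hcR.trans ?_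
      have h2 : cj c⁻¹ (R ⊓ Subgroup.centralizer (R : Set G)) ≤ cj c⁻¹ R := cj_mono inf_le_left
      refine h2.trans ?_
      rw [cj_of_mem_norm (Subgroup.inv_mem _ (centralizer_le_norm R hc))]
    by_contra hcon
    set NQ := Q ⊓ Subgroup.normalizer (R : Set G) with hNQ
    set T := NQ ⊔ (R ⊔ Subgroup.centralizer (R : Set G)) with hT
    have hRCn : ∀ n ∈ Subgroup.normalizer (R : Set G), cj n (R ⊔ Subgroup.centralizer (R : Set G)) = R ⊔ Subgroup.centralizer (R : Set G) := by
      intro n hn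
      change (R ⊔ Subgroup.centralizer (R : Set G)).map _ = _
      rw [Subgroup.map_sup]
      exact congrArg₂ (· ⊔ ·) (cj_of_mem_norm hn) (cj_of_mem_norm (hNC R hn))
    have hRCN : R ⊔ Subgroup.centralizer (R : Set G) ≤ Subgroup.normalizer (R : Set G) :=
      sup_le Subgroup.le_normalizer (centralizer_le_norm R)
    have hTN : T ≤ Subgroup.normalizer (R : Set G) := sup_le inf_le_right hRCN
    have hle : ∀ n ∈ Subgroup.normalizer (R : Set G), cj n T ≤ T := by
      intro n hn
      obtain ⟨h, hh, c, hc, rfl⟩ := hSF R hRP n (by rw [cj_of_mem_norm hn]; exact hRP)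
      have hcN := centralizer_le_norm R hc
      have hhN : h ∈ Subgroup.normalizer (R : Set G) := by
        have : h = (h * c) * c⁻¹ := by group
        rw [this]
        exact Subgroup.mul_mem _ hn (Subgroup.inv_mem _ hcN)
      have hcT : cj c T = T := cj_of_mem (Subgroup.mem_sup_right (Subgroup.mem_sup_right hc))
      rw [cj_mul, hcT]
      change (NQ ⊔ (R ⊔ Subgroup.centralizer (R : Set G))).map _ ≤ _
      rw [Subgroup.map_sup]
      apply sup_le
      · have : cj h NQ = NQ := by
          rw [hNQ, cj_inf, cj_of_mem_norm hh, cj_of_mem hhN]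
        exact this.le.trans le_sup_left
      · exact (hRCn h hhN).le.trans le_sup_right
    have hTn : ∀ n ∈ Subgroup.normalizer (R : Set G), cj n T = T := by
      intro n hn
      apply le_antisymm (hle n hn)
      rw [le_cj_iff]
      exact hle n⁻¹ (Subgroup.inv_mem _ hn)
    have hNQp : IsPGroup p ↥NQ := P.2.to_le (inf_le_left.trans hQP)
    have hTe : T = R ⊔ Subgroup.centralizer (R : Set G) := by
      refine hrad T hTN hTn le_sup_right ?_
      -- the index is a power of `p`
      have hn : NQ ≤ Subgroup.normalizer ((R ⊔ Subgroup.centralizer (R : Set G) : Subgroup G) : Set G) := fun x hx =>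
        mem_norm.2 (hRCn x (Subgroup.mem_inf.1 hx).2)
      have h1 : (R ⊔ Subgroup.centralizer (R : Set G)).relIndex T = (R ⊔ Subgroup.centralizer (R : Set G)).relIndex NQ := by
        rw [hT, sup_comm NQ]
        exact L0.relIndex_sup_of_normalizes hn
      rw [h1]
      obtain ⟨k, hk⟩ := hNQp.index ((R ⊔ Subgroup.centralizer (R : Set G)).subgroupOf NQ)
      exact ⟨k, hk⟩
    have hNQR : NQ ≤ R := by
      intro x hx
      have h1 : x ∈ ((R ⊔ Subgroup.centralizer (R : Set G) : Subgroup G) : Set G) := by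
        rw [SetLike.mem_coe, ← hTe]; exact Subgroup.mem_sup_left hx
      rw [Subgroup.coe_mul_of_left_le_normalizer_right R _ (Subgroup.le_normalizer.trans (hNC R)), Set.mem_mul] at h1
      obtain ⟨r, hr, c, hc, rfl⟩ := h1
      have h2 : c ∈ R := by
        apply hPCR
        refine ⟨?_, hc⟩
        have : c = r⁻¹ * (r * c) := by group
        change c ∈ (P : Subgroup G)
        rw [this]
        exact (P : Subgroup G).mul_mem ((P : Subgroup G).inv_mem (hRP hr)) (hQP (Subgroup.mem_inf.1 hx).1)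
      exact R.mul_mem hr h2
    have hRQ : R < Q ⊔ R := by
      refine lt_of_le_of_ne le_sup_right ?_
      intro h
      exact hcon (by rw [h]; exact le_sup_left)
    have hQRp : IsPGroup p ↥(Q ⊔ R) := P.2.to_le (sup_le hQP hRP)
    have h1 := lt_inf_normalizer hQRp hRQ
    obtain ⟨y, hy, hyR⟩ := Set.exists_of_ssubset h1
    obtain ⟨hy1, hy2⟩ := Subgroup.mem_inf.1 hy
    have hy1' : y ∈ ((R ⊔ Q : Subgroup G) : Set G) := by rw [sup_comm]; exact hy1
    rw [Subgroup.coe_mul_of_left_le_normalizer_right R Q (hRP.trans hPQ), Set.mem_mul] at hy1'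
    obtain ⟨r, hr, q, hq, rfl⟩ := hy1'
    apply hyR
    refine R.mul_mem hr (hNQR ⟨hq, ?_⟩)
    have : q = r⁻¹ * (r * q) := by group
    change q ∈ Subgroup.normalizer (R : Set G)
    rw [this]
    exact Subgroup.mul_mem _ (Subgroup.inv_mem _ (Subgroup.le_normalizer hr)) hy2
  · intro x hx
    exact cj_of_mem_norm (hPQ hx)
  · exact hSF

end Cfsg.Agent.S1953
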