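import Cfsg.Statements.S2010
import Cfsg.Agent.H6.S4Thom3

set_option autoImplicit false
open Cfsg

namespace Cfsg.Agent.S2010

open Cfsg.Agent.H6
open scoped commutatorElement

/-- Let G be a finite solvable group with no section isomorphic to the symmetric group of degree 4, whose Sylow 2-subgroup S has nilpotency class at most 2. Then G = N_G(J_e(S)) · O_{2'}(G), where J_e(S) is the subgroup generated by the elementary abelian subgroups of S of largest order. -/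
theorem result {G : Type*} [Group G] [Finite G]
    [Group.IsSolvable G] (hS4 : ¬ Cfsg.Involves (Equiv.Perm (Fin 4)) G) (S : Sylow 2 G)
    (hcl : Subgroup.lowerCentralSeries (S : Subgroup G) 2 = ⊥) :
    Subgroup.normalizer ((Cfsg.thompsonSubgroupOf 2 (S : Subgroup G)) : Set G) ⊔ Cfsg.pPrimeCore 2 G = ⊤ := by
  set N := pPrimeCore 2 G with hN
  have hNc : (Nat.card N).Coprime 2 := L0.pPrimeCore_coprime 2 G
  set f := QuotientGroup.mk' N with hf
  have hfs : Function.Surjective f := QuotientGroup.mk'_surjective N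
  have hSN : (S : Subgroup G) ⊓ N = ⊥ := inf_eq_bot_of_coprime S.2 hNc
  have hinj : Set.InjOn f ((S : Subgroup G) : Set G) := injOn_of_inf_eq_bot hSN
  obtain ⟨T, hT⟩ : ∃ T : Sylow 2 (G ⧸ N), (T : Subgroup (G ⧸ N)) = (S : Subgroup G).map f :=
    ⟨S.mapSurjective hfs, Sylow.coe_mapSurjective _ _⟩
  have hsol : Group.IsSolvable (G ⧸ N) := inferInstance
  have hO : pPrimeCore 2 (G ⧸ N) = ⊥ := L0.pPrimeCore_quotient_pPrimeCore 2 G
  have hS4' : ¬ Sec (Equiv.Perm (Fin 4)) (G ⧸ N) := fun h => hS4 ((h.trans ((Sec.refl G).quotient N)).involves)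
  have hcl' : ∀ a ∈ (S : Subgroup G), ∀ b ∈ (S : Subgroup G), ∀ c ∈ (S : Subgroup G),
      c * (a * b * a⁻¹ * b⁻¹) = (a * b * a⁻¹ * b⁻¹) * c := by
    intro a ha b hb c hc
    have h1 : ⁅⁅a, b⁆, c⁆ ∈ ⁅⁅(S : Subgroup G), (S : Subgroup G)⁆, (S : Subgroup G)⁆ :=
      Subgroup.commutator_mem_commutator (Subgroup.commutator_mem_commutator ha hb) hc
    have h2 : ⁅⁅(S : Subgroup G), (S : Subgroup G)⁆, (S : Subgroup G)⁆ = ⊥ := hcl
    rw [h2, Subgroup.mem_bot, commutatorElement_eq_one_iff_mul_comm, commutatorElement_def] at h1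
    exact h1.symm
  have hclT : ∀ a ∈ (T : Subgroup (G ⧸ N)), ∀ b ∈ (T : Subgroup (G ⧸ N)), ∀ c ∈ (T : Subgroup (G ⧸ N)),
      c * (a * b * a⁻¹ * b⁻¹) = (a * b * a⁻¹ * b⁻¹) * c := by
    rw [hT]
    rintro _ ⟨a, ha, rfl⟩ _ ⟨b, hb, rfl⟩ _ ⟨c, hc, rfl⟩
    have := congrArg f (hcl' a ha b hb c hc)
    simpa only [map_mul, map_inv] using this
  have hle : ∀ A ∈ H1.EH 2 (T : Subgroup (G ⧸ N)), A ≤ pCore 2 (G ⧸ N) :=
    fun A hA => EH_le_pCore hsol hO hS4' T hclT hA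
  have hnorm := thompsonOf_normal T hle
  rw [hT, ← thompsonOf_map hinj] at hnorm
  rw [eq_top_iff]
  intro g _
  have hJp : IsPGroup 2 ↥(thompsonSubgroupOf 2 (S : Subgroup G)) := S.2.to_le (H1.thompsonSubgroupOf_le _)
  obtain ⟨x, hx, hxg⟩ := exists_norm_lift (N := N) hNc hJp (f g) (by
    haveI := hnorm
    exact norm_of_normal (⊤ : Subgroup (G ⧸ N)) (Subgroup.mem_top _))
  have h1 : x⁻¹ * g ∈ N := QuotientGroup.eq.1 hxg
  have h2 : g = x * (x⁻¹ * g) := by group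
  rw [h2]
  exact Subgroup.mul_mem _ (Subgroup.mem_sup_left hx) (Subgroup.mem_sup_right h1)

end Cfsg.Agent.S2010
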