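import Cfsg.Statements.S2015
import Cfsg.Agent.H6.KFun

set_option autoImplicit false
universe u
open Cfsg

namespace Cfsg.Agent.S2015

/-- For p ≥ 5, every finite p-group P has a characteristic subgroup K containing Z(P), depending only on P, whose normalizer controls transfer wherever P is a Sylow subgroup: for every finite group G and every embedding ι of P onto a Sylow p-subgroup of G, the intersection of ι(P) with the derived subgroup of G equals its intersection with the derived subgroup of N_G(ι(K)). -/
theorem result (p : ℕ) [Fact p.Prime] (hp : 5 ≤ p) (P : Type u) [Group P] [Finite P] (hP : IsPGroup p P) : ∃ K : Subgroup P, K.Characteristic ∧ Subgroup.center P ≤ K ∧ ∀ (G : Type u) [Group G] [Finite G] (ι : P →* G), Function.Injective ι → (∃ T : Sylow p G, (T : Subgroup G) = ι.range) → ι.range ⊓ commutator G = ι.range ⊓ (commutator ↥(Subgroup.normalizer ((K.map ι : Subgroup G) : Set G))).map (Subgroup.normalizer ((K.map ι : Subgroup G) : Set G)).subtype := by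
  refine ⟨kInfLower P, ?_, H6.klike_lower.cent P hP, ?_⟩
  · rw [Subgroup.characteristic_iff_map_eq]; exact fun φ => (H6.kInf_map_equiv φ).1
  · intro G _ _ ι hι hT
    obtain ⟨T, hT⟩ := hT
    have h1 := H6.klike_lower.inf_comm_eq hp T
    have e : inducedFunctor (G := G) kInfLower (T : Subgroup G) = (kInfLower P).map ι := by
      rw [hT]
      have h2 := (H6.kInf_map_equiv (MonoidHom.ofInjective hι)).1
      change (kInfLower ↥ι.range).map ι.range.subtype = _
      rw [← h2, Subgroup.map_map]
      rfl
    rw [e, hT] at h1
    rw [h1, Subgroup.map_subtype_commutator]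

end Cfsg.Agent.S2015
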