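import Cfsg.Statements.S2162
import Mathlib
import Cfsg.Agent.H8.GLType

set_option autoImplicit false
open Cfsg

namespace Cfsg.Agent.S2162

set_option maxHeartbeats 1000000
open Cfsg.Agent.H8 Cfsg.Agent.H8.RCF

/-- Conjugacy of involutions in the special linear group over a finite field of characteristic two, in dimension at least 3: two elements of order 2 of SL_n(F) are conjugate in SL_n(F) exactly when the matrices a − 1 and b − 1 have the same rank (the rank of a − 1 is the dimension of the commutator space [V, a]). -/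
theorem result {F : Type*} [Field F] [Fintype F] [CharP F 2] {n : ℕ} (hn : 3 ≤ n) (a b : Matrix.SpecialLinearGroup (Fin n) F) (ha : orderOf a = 2) (hb : orderOf b = 2) :
    IsConj a b ↔ ((a : Matrix (Fin n) (Fin n) F) - 1).rank = ((b : Matrix (Fin n) (Fin n) F) - 1).rank := by
  classical
  have hinj : Function.Injective (Matrix.SpecialLinearGroup.toGL : Matrix.SpecialLinearGroup (Fin n) F →* GL (Fin n) F) := by
    intro a b h
    apply Subtype.ext
    exact congrArg Units.val h
  have hval : ∀ z : Matrix.SpecialLinearGroup (Fin n) F, ((Matrix.SpecialLinearGroup.toGL z : GL (Fin n) F) : Matrix (Fin n) (Fin n) F) = (z : Matrix (Fin n) (Fin n) F) := fun z => rfl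
  have hsq : ∀ z : Matrix.SpecialLinearGroup (Fin n) F, orderOf z = 2 → ((z : Matrix (Fin n) (Fin n) F) - 1) ^ 2 = 0 := by
    intro z hz
    have h1 : z ^ 2 = 1 := by rw [← hz]; exact pow_orderOf_eq_one z
    have h2 : (z : Matrix (Fin n) (Fin n) F) ^ 2 = 1 := by
      have := congrArg Subtype.val h1
      rwa [Matrix.SpecialLinearGroup.coe_pow] at this
    haveI : Nonempty (Fin n) := ⟨⟨0, by omega⟩⟩
    haveI : CharP (Matrix (Fin n) (Fin n) F) 2 := by infer_instance
    have h3 : (2 : Matrix (Fin n) (Fin n) F) = 0 := by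
      have := CharP.cast_eq_zero (Matrix (Fin n) (Fin n) F) 2
      exact_mod_cast this
    have h4 : ((z : Matrix (Fin n) (Fin n) F) - 1) ^ 2 = (z : Matrix (Fin n) (Fin n) F) ^ 2 - 2 * z + 1 := by
      noncomm_ring
    rw [h4, h2, h3]
    have : (1 : Matrix (Fin n) (Fin n) F) - 0 * z + 1 = 2 := by rw [zero_mul, sub_zero]; norm_num
    rw [this, h3]
  constructor
  · intro h
    obtain ⟨c, rfl⟩ := isConj_iff.1 h
    have h1 : ((c * a * c⁻¹ : Matrix.SpecialLinearGroup (Fin n) F) : Matrix (Fin n) (Fin n) F) - 1 = (c : Matrix (Fin n) (Fin n) F) * ((a : Matrix (Fin n) (Fin n) F) - 1) * ((c⁻¹ : Matrix.SpecialLinearGroup (Fin n) F) : Matrix (Fin n) (Fin n) F) := by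
      have h2 : (c : Matrix (Fin n) (Fin n) F) * ((c⁻¹ : Matrix.SpecialLinearGroup (Fin n) F) : Matrix (Fin n) (Fin n) F) = 1 := by
        rw [← Matrix.SpecialLinearGroup.coe_mul, mul_inv_cancel, Matrix.SpecialLinearGroup.coe_one]
      rw [mul_sub, sub_mul, mul_one, h2, Matrix.SpecialLinearGroup.coe_mul, Matrix.SpecialLinearGroup.coe_mul]
    rw [h1, Matrix.rank_mul_eq_left_of_isUnit_det, Matrix.rank_mul_eq_right_of_isUnit_det]
    · rw [c.2]; exact isUnit_one
    · rw [(c⁻¹).2]; exact isUnit_one
  · intro h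
    have hGL : IsConj (Matrix.SpecialLinearGroup.toGL a) (Matrix.SpecialLinearGroup.toGL b) := by
      refine gl_conj_of_unip_ranks (N := 2) _ _ (by rw [hval]; exact hsq a ha) (by rw [hval]; exact hsq b hb) ?_
      intro k
      match k with
      | 0 => simp
      | 1 => simpa using h
      | k + 2 =>
        rw [pow_add, pow_add, hval, hval, hsq a ha, hsq b hb]
        simp
    obtain ⟨g, hg⟩ := isConj_iff.1 hGL
    obtain ⟨k, f, hdf, hf⟩ := exists_isDec (a : Matrix (Fin n) (Fin n) F).mulVecLin
    have hk : 0 < k := by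
      by_contra h
      have hk0 : k = 0 := by omega
      subst hk0
      have := finrank_of_isDec hdf
      rw [Module.finrank_fintype_fun_eq_card, Fintype.card_fin] at this
      simp at this
      omega
    let i0 : Fin k := ⟨0, hk⟩
    obtain ⟨e, he1, he2, he⟩ := unip_type (hsq a ha) hdf hf i0
    haveI : FiniteDimensional F (AdjoinRoot (f i0)) := (hdf.1 i0).finite_adjoinRoot
    have hfr : Module.finrank F (AdjoinRoot (f i0)) = e := by
      have : Module.finrank F (AdjoinRoot (f i0)) = (f i0).natDegree := finrank_quotient_span_eq_natDegree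
      rw [this, he, Polynomial.natDegree_pow, X_sub_one_natDegree, mul_one]
    obtain ⟨s, hs⟩ : ∃ s : F, s ^ e = ((Matrix.GeneralLinearGroup.det g)⁻¹ : Fˣ) := by
      rcases (by omega : e = 1 ∨ e = 2) with h1 | h1
      · rw [h1]; exact ⟨_, pow_one _⟩
      · rw [h1]
        obtain ⟨s, hs⟩ := isSquare_of_charTwo' (((Matrix.GeneralLinearGroup.det g)⁻¹ : Fˣ) : F)
        exact ⟨s, by rw [hs, sq]⟩
    obtain ⟨C, hC, hdet⟩ := exists_commuting (a : Matrix (Fin n) (Fin n) F) hdf (Function.update (fun i => 1) i0 (algebraMap F _ s))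
    have hprod : ∏ i, Algebra.norm F ((Function.update (fun i => (1 : AdjoinRoot (f i))) i0 (algebraMap F _ s)) i) = ((Matrix.GeneralLinearGroup.det g)⁻¹ : Fˣ) := by
      rw [Finset.prod_eq_single i0]
      · rw [Function.update_self, Algebra.norm_algebraMap, hfr, hs]
      · intro j _ hj
        rw [Function.update_of_ne hj, map_one]
      · simp
    rw [hprod] at hdet
    have hu : IsUnit C := by
      rw [Matrix.isUnit_iff_isUnit_det, hdet]; exact Units.isUnit _
    have hdet2 : ((g : Matrix (Fin n) (Fin n) F) * C).det = 1 := by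
      rw [Matrix.det_mul, hdet]
      have := congrArg Units.val (mul_inv_cancel (Matrix.GeneralLinearGroup.det g))
      exact this
    let s' : Matrix.SpecialLinearGroup (Fin n) F := ⟨_, hdet2⟩
    have h2 : Matrix.SpecialLinearGroup.toGL s' = g * hu.unit := by
      apply Units.ext; rfl
    have hcomm : hu.unit * Matrix.SpecialLinearGroup.toGL a = Matrix.SpecialLinearGroup.toGL a * hu.unit := by
      apply Units.ext; exact hC
    rw [isConj_iff]
    refine ⟨s', hinj ?_⟩
    rw [map_mul, map_mul, map_inv, h2, ← hg, mul_assoc g, hcomm]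
    group

end Cfsg.Agent.S2162
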