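import Cfsg.Statements.S2163
import Mathlib
import Cfsg.Agent.H8.Mat

set_option autoImplicit false
open Cfsg

namespace Cfsg.Agent.S2163



/-- Over a finite field of characteristic two and for n ≥ 3: for every ℓ with 1 ≤ ℓ and 2ℓ ≤ n, the matrix j_ℓ that is the identity plus the entries 1 in positions (n − ℓ + i, i) for i < ℓ (an identity block of size ℓ in the lower left corner) lies in SL_n(F), has order 2, and j_ℓ − 1 has rank ℓ. Together with the conjugacy criterion by rank, these matrices represent the conjugacy classes of involutions of SL_n(F). -/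
theorem result {F : Type*} [Field F] [Fintype F] [CharP F 2] {n : ℕ} (hn : 3 ≤ n) (ℓ : ℕ) (h1 : 1 ≤ ℓ) (h2 : 2 * ℓ ≤ n) :
    ∃ a : Matrix.SpecialLinearGroup (Fin n) F, (a : Matrix (Fin n) (Fin n) F) = 1 + Matrix.of (fun i j : Fin n => if j.val < ℓ ∧ i.val = j.val + (n - ℓ) then (1 : F) else 0) ∧ orderOf a = 2 ∧ ((a : Matrix (Fin n) (Fin n) F) - 1).rank = ℓ := by
  set N : Matrix (Fin n) (Fin n) F := Matrix.of (fun i j : Fin n => if j.val < ℓ ∧ i.val = j.val + (n - ℓ) then (1 : F) else 0) with hN
  have hNN : N * N = 0 := by
    ext i j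
    rw [Matrix.mul_apply, Matrix.zero_apply]
    apply Finset.sum_eq_zero
    intro k _
    simp only [hN, Matrix.of_apply]
    by_cases h : k.val < ℓ ∧ i.val = k.val + (n - ℓ)
    · rw [if_neg (c := j.val < ℓ ∧ k.val = j.val + (n - ℓ)), mul_zero]
      omega
    · rw [if_neg h, zero_mul]
  have hdet : (1 + N).det = 1 := by
    rw [Matrix.det_of_lowerTriangular]
    · apply Finset.prod_eq_one
      intro i _
      simp only [hN, Matrix.add_apply, Matrix.one_apply_eq, Matrix.of_apply]
      rw [if_neg (by omega), add_zero]
    · intro i j hij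
      have : i < j := hij
      simp only [hN, Matrix.add_apply, Matrix.of_apply]
      rw [Matrix.one_apply_ne this.ne, if_neg, add_zero]
      have : i.val < j.val := this
      omega
  have hrank : N.rank = ℓ := by
    refine Cfsg.Agent.H8.rank_of_factor N
      (Matrix.of fun (i : Fin n) (k : Fin ℓ) => if i.val = k.val + (n - ℓ) then (1 : F) else 0)
      (Matrix.of fun (k : Fin ℓ) (j : Fin n) => if j.val = k.val then (1 : F) else 0) ?_
      (Matrix.of fun (k : Fin ℓ) (i : Fin n) => if i.val = k.val + (n - ℓ) then (1 : F) else 0)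
      (Matrix.of fun (j : Fin n) (k : Fin ℓ) => if j.val = k.val then (1 : F) else 0) ?_ ?_
    · ext i j
      rw [Matrix.mul_apply]
      simp only [hN, Matrix.of_apply]
      by_cases h : j.val < ℓ
      · rw [Finset.sum_eq_single (⟨j.val, h⟩ : Fin ℓ)]
        · simp [h]
        · intro k _ hk
          rw [if_neg (c := j.val = k.val), mul_zero]
          intro hc; apply hk; exact Fin.ext hc.symm
        · simp
      · rw [if_neg (by omega), Finset.sum_eq_zero]
        intro k _
        rw [if_neg (c := j.val = k.val), mul_zero]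
        have := k.2; omega
    · ext k l
      rw [Matrix.mul_apply, Finset.sum_eq_single (⟨k.val + (n - ℓ), by omega⟩ : Fin n)]
      · simp [Matrix.one_apply, Fin.ext_iff]
      · intro b _ hb
        simp only [Matrix.of_apply]
        rw [if_neg, zero_mul]
        intro hc; apply hb; exact Fin.ext hc
      · simp
    · ext k l
      rw [Matrix.mul_apply, Finset.sum_eq_single (⟨k.val, by omega⟩ : Fin n)]
      · simp [Matrix.one_apply, Fin.ext_iff]
      · intro b _ hb
        simp only [Matrix.of_apply]
        rw [if_neg, zero_mul]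
        intro hc; apply hb; exact Fin.ext hc
      · simp
  let a : Matrix.SpecialLinearGroup (Fin n) F := ⟨1 + N, hdet⟩
  refine ⟨a, rfl, ?_, ?_⟩
  · apply orderOf_eq_prime
    · apply Subtype.ext
      show (1 + N) ^ 2 = 1
      rw [pow_two, mul_add, add_mul, add_mul, hNN]
      simp only [mul_one, one_mul, add_zero]
      rw [add_assoc, ← two_nsmul]
      have : (2 : ℕ) • N = 0 := by
        rw [← Nat.cast_smul_eq_nsmul F, CharP.cast_eq_zero, zero_smul]
      rw [this, add_zero]
    · intro h
      have h' : (1 : Matrix (Fin n) (Fin n) F) + N = 1 := congrArg Subtype.val h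
      have h'' : N = 0 := by simpa using h'
      rw [h'', Matrix.rank_zero] at hrank
      omega
  · show ((1 + N) - 1).rank = ℓ
    rw [add_sub_cancel_left, hrank]

end Cfsg.Agent.S2163
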