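import Cfsg.Statements.S2165
import Mathlib
import Cfsg.Agent.H8.Mat

set_option autoImplicit false
open Cfsg

namespace Cfsg.Agent.S2165

theorem sgn_cast {F : Type*} [Field F] [CharP F 2] (u : ℤˣ) : ((u : ℤ) : F) = 1 := by
  rcases Int.units_eq_one_or u with rfl | rfl
  · simp
  · simp
    have := CharP.cast_eq_zero F 2
    push_cast at this
    linear_combination -this

/-- In SU_n(q), q even, n ≥ 3 (matrices of determinant 1 over the field with q² elements preserving Σ u_i v_i^q): for every ℓ with 1 ≤ ℓ and 2ℓ ≤ n, the permutation matrix of the involution of {0, …, n−1} exchanging i and n − ℓ + i for each i < ℓ lies in SU_n(q), has order 2, and differs from the identity by a matrix of rank ℓ. So every rank between 1 and n/2 occurs for involutions of SU_n(q). -/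
theorem result {F : Type*} [Field F] [Fintype F] [CharP F 2] {n q : ℕ} (hF : Fintype.card F = q ^ 2) (hn : 3 ≤ n) (ℓ : ℕ) (h1 : 1 ≤ ℓ) (h2 : 2 * ℓ ≤ n) :
    ∃ a : ↥(Cfsg.SU n F q), (((a : Matrix.SpecialLinearGroup (Fin n) F) : Matrix (Fin n) (Fin n) F) = Matrix.of (fun i j : Fin n => if (j.val < ℓ ∧ i.val = j.val + (n - ℓ)) ∨ (i.val < ℓ ∧ j.val = i.val + (n - ℓ)) ∨ (i = j ∧ ℓ ≤ i.val ∧ i.val < n - ℓ) then (1 : F) else 0)) ∧ orderOf a = 2 ∧ ((((a : Matrix.SpecialLinearGroup (Fin n) F) : Matrix (Fin n) (Fin n) F)) - 1).rank = ℓ := by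
  classical
  let f : Fin n → Fin n := fun i => if h : i.val < ℓ then ⟨i.val + (n - ℓ), by omega⟩ else
    if h' : n - ℓ ≤ i.val then ⟨i.val - (n - ℓ), by omega⟩ else i
  have hfv : ∀ i, (f i).val = if i.val < ℓ then i.val + (n - ℓ) else if n - ℓ ≤ i.val then i.val - (n - ℓ) else i.val := by
    intro i
    simp only [f]
    split_ifs <;> rfl
  have hf : ∀ i, f (f i) = i := by
    intro i
    apply Fin.ext
    rw [hfv, hfv]
    split_ifs <;> omega
  let π : Equiv.Perm (Fin n) := ⟨f, f, hf, hf⟩
  set P : Matrix (Fin n) (Fin n) F := Matrix.of (fun i j : Fin n => if (j.val < ℓ ∧ i.val = j.val + (n - ℓ)) ∨ (i.val < ℓ ∧ j.val = i.val + (n - ℓ)) ∨ (i = j ∧ ℓ ≤ i.val ∧ i.val < n - ℓ) then (1 : F) else 0) with hP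
  have hPf : ∀ i j, P i j = if j = f i then 1 else 0 := by
    intro i j
    simp only [hP, Matrix.of_apply]
    congr 1
    apply propext
    rw [Fin.ext_iff, Fin.ext_iff, hfv]
    split_ifs <;> omega
  have hPπ : P = π.toPEquiv.toMatrix := by
    ext i j
    rw [hPf, PEquiv.toMatrix_apply]
    simp only [Equiv.toPEquiv_apply, Option.mem_some_iff]
    show _ = if f i = j then (1:F) else 0
    simp only [eq_comm]
  have hdet : P.det = 1 := by
    rw [hPπ, Matrix.det_permutation]
    exact sgn_cast _
  have hmv : ∀ u : Fin n → F, ∀ i, (P.mulVec u) i = u (f i) := by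
    intro u i
    simp [Matrix.mulVec, dotProduct, hPf]
  have hsq : P * P = 1 := by
    ext i j
    rw [Matrix.mul_apply, Finset.sum_eq_single (f i)]
    · rw [hPf, hPf, hf, if_pos rfl, one_mul, Matrix.one_apply]
      simp only [eq_comm]
    · intro b _ hb
      rw [hPf, if_neg hb, zero_mul]
    · simp
  let a : Matrix.SpecialLinearGroup (Fin n) F := ⟨P, hdet⟩
  have ha : a ∈ Cfsg.SU n F q := by
    intro u v
    show Cfsg.hermForm n F q (P.mulVec u) (P.mulVec v) = Cfsg.hermForm n F q u v
    simp only [Cfsg.hermForm, hmv]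
    exact Equiv.sum_comp π (fun i => u i * v i ^ q)
  have h11 : (1 : F) + 1 = 0 := by
    have := CharP.cast_eq_zero F 2
    push_cast at this
    linear_combination this
  have hneg : ∀ x y : F, x - y = x + y := by
    intro x y
    linear_combination (-y) * h11
  have hrank : (P - 1).rank = ℓ := by
    refine Cfsg.Agent.H8.rank_of_factor (P - 1)
      (Matrix.of fun (i : Fin n) (k : Fin ℓ) => (if i.val = k.val then (1 : F) else 0) + if i.val = k.val + (n - ℓ) then (1 : F) else 0)
      (Matrix.of fun (k : Fin ℓ) (i : Fin n) => (if i.val = k.val then (1 : F) else 0) + if i.val = k.val + (n - ℓ) then (1 : F) else 0) ?_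
      (Matrix.of fun (k : Fin ℓ) (i : Fin n) => if i.val = k.val then (1 : F) else 0)
      (Matrix.of fun (j : Fin n) (k : Fin ℓ) => if j.val = k.val then (1 : F) else 0) ?_ ?_
    · ext i j
      rw [Matrix.mul_apply, Matrix.sub_apply, hPf, Matrix.one_apply, hneg]
      simp only [Matrix.of_apply]
      by_cases h : i.val < ℓ
      · rw [Finset.sum_eq_single (⟨i.val, h⟩ : Fin ℓ)]
        · have h3 : f i = ⟨i.val + (n - ℓ), by omega⟩ := Fin.ext (by rw [hfv, if_pos h])
          rw [h3]
          have h4 : ¬ (i.val = i.val + (n - ℓ)) := by omega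
          simp only [h4, if_true, if_false, add_zero, one_mul, Fin.ext_iff]
          rw [add_comm]
          simp only [eq_comm]
        · intro k _ hk
          rw [if_neg, if_neg]; ring
          · omega
          · intro hc; apply hk; exact Fin.ext hc.symm
        · simp
      · by_cases h' : n - ℓ ≤ i.val
        · rw [Finset.sum_eq_single (⟨i.val - (n - ℓ), by omega⟩ : Fin ℓ)]
          · have h3 : f i = ⟨i.val - (n - ℓ), by omega⟩ := Fin.ext (by rw [hfv, if_neg h, if_pos h'])
            rw [h3]
            have h4 : ¬ (i.val = i.val - (n - ℓ)) := by omega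
            have h5 : i.val = i.val - (n - ℓ) + (n - ℓ) := by omega
            simp only [h4, if_false, zero_add, Fin.ext_iff]
            rw [if_pos h5, one_mul, ← h5]
            simp only [eq_comm]
          · intro k _ hk
            rw [if_neg, if_neg]; ring
            · intro hc; apply hk; apply Fin.ext; simp only; omega
            · have := k.2; omega
          · simp
        · have h3 : f i = i := Fin.ext (by rw [hfv, if_neg h, if_neg h'])
          rw [h3, Finset.sum_eq_zero]
          · by_cases hij : i = j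
            · subst hij; simp [h11]
            · rw [if_neg hij, if_neg (Ne.symm hij), add_zero]
          · intro k _
            rw [if_neg, if_neg]; ring
            · omega
            · have := k.2; omega
    · ext k l
      rw [Matrix.mul_apply, Finset.sum_eq_single (⟨k.val, by omega⟩ : Fin n)]
      · have h3 : ¬ (k.val = l.val + (n - ℓ)) := by have := k.2; omega
        simp [Matrix.one_apply, Fin.ext_iff, h3]
      · intro b _ hb
        simp only [Matrix.of_apply]
        rw [if_neg, zero_mul]
        intro hc; apply hb; exact Fin.ext hc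
      · simp
    · ext k l
      rw [Matrix.mul_apply, Finset.sum_eq_single (⟨l.val, by omega⟩ : Fin n)]
      · have h3 : ¬ (l.val = k.val + (n - ℓ)) := by have := l.2; omega
        simp [Matrix.one_apply, Fin.ext_iff, h3, eq_comm]
      · intro b _ hb
        simp only [Matrix.of_apply]
        rw [if_neg (c := b.val = l.val), mul_zero]
        intro hc; apply hb; exact Fin.ext hc
      · simp
  refine ⟨⟨a, ha⟩, rfl, ?_, hrank⟩
  apply orderOf_eq_prime
  · apply Subtype.ext
    apply Subtype.ext
    show P ^ 2 = 1
    rw [pow_two, hsq]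
  · intro h
    have h' : P = 1 := congrArg (fun z : ↥(Cfsg.SU n F q) => ((z : Matrix.SpecialLinearGroup (Fin n) F) : Matrix (Fin n) (Fin n) F)) h
    rw [h', sub_self, Matrix.rank_zero] at hrank
    omega

end Cfsg.Agent.S2165
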