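import Cfsg.Statements.S2238
import Mathlib
import Cfsg.Agent.H8.SzM
open Cfsg.Agent.H8.Suz

set_option autoImplicit false
open Cfsg

namespace Cfsg.Agent.S2238



/-- The partition of the Suzuki group: with q = 2^(2m+1), m ≥ 1, r = 2^m and the Suzuki group realised as the stabiliser in SL₄ of the Suzuki–Tits ovoid, every non-identity element lies in exactly one subgroup that is either a Sylow 2-subgroup or a cyclic subgroup of order q − 1, q + 2r + 1 or q − 2r + 1. -/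
theorem result {F : Type*} [Field F] [Fintype F] {m : ℕ} (hm : 1 ≤ m) (hF : Fintype.card F = 2 ^ (2 * m + 1)) (g : ↥(Cfsg.Sz F m)) (hg : g ≠ 1) :
    ∃! U : Subgroup ↥(Cfsg.Sz F m), ((∃ P : Sylow 2 ↥(Cfsg.Sz F m), U = (P : Subgroup ↥(Cfsg.Sz F m))) ∨
      (IsCyclic ↥U ∧ Nat.card ↥U ∈ ({2 ^ (2 * m + 1) - 1, 2 ^ (2 * m + 1) + 2 ^ (m + 1) + 1, 2 ^ (2 * m + 1) - 2 ^ (m + 1) + 1} : Set ℕ))) ∧ g ∈ U := by
  haveI : Cfsg.Agent.H8.Suz.Hyp F m := ⟨hm, hF⟩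
  by_cases h : ∃ x, x⁻¹ * g * x ∈ Q F m
  · obtain ⟨x, hx⟩ := h
    have hx' : g ∈ cj x (Q F m) := mem_cj.2 hx
    obtain ⟨P, hP⟩ := cj_sylow m x
    refine ⟨cj x (Q F m), ⟨Or.inl ⟨P, hP⟩, hx'⟩, ?_⟩
    rintro V ⟨⟨R, rfl⟩ | ⟨hc, hcard⟩, hgV⟩
    · obtain ⟨y, hy⟩ := sylow_conj m R
      rw [hy] at hgV ⊢
      exact Q_uniq m hg hgV hx'
    · exfalso
      have hgn : g ^ Nat.card V = 1 := congrArg Subtype.val (pow_card_eq_one' (G := V) (x := ⟨g, hgV⟩))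
      exact not_unip_of_odd m (S3_odd (F := F) m hcard) hgn hg ⟨x, hx⟩
  · obtain ⟨hc, hcard⟩ := cent_tor m h
    refine ⟨Subgroup.centralizer {g}, ⟨Or.inr ⟨hc, hcard⟩, Subgroup.mem_centralizer_singleton_iff.2 rfl⟩, ?_⟩
    rintro V ⟨⟨R, rfl⟩ | ⟨hc, hcard⟩, hgV⟩
    · exfalso
      obtain ⟨y, hy⟩ := sylow_conj m R
      rw [hy] at hgV
      exact h ⟨y, mem_cj.1 hgV⟩
    · exact cyc_eq_cent m hc hcard hgV hg

end Cfsg.Agent.S2238
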