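import Cfsg.Statements.S2239
import Mathlib
import Cfsg.Agent.H8.SzS9
open Cfsg.Agent.H8.Suz

set_option autoImplicit false
open Cfsg

namespace Cfsg.Agent.S2239



/-- Subfield subgroups of the Suzuki group: let q = 2^(2m+1) and s = 2^(2k+1) with m, k ≥ 1 and 2k+1 dividing 2m+1 (so q is a power of s), both groups realised as stabilisers in SL₄ of the Suzuki–Tits ovoid. Then Sz(q) has a subgroup isomorphic to Sz(s), and any two subgroups of Sz(q) isomorphic to Sz(s) are conjugate. -/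
theorem result {F : Type*} [Field F] [Fintype F] {m : ℕ} (hm : 1 ≤ m) (hF : Fintype.card F = 2 ^ (2 * m + 1)) {K : Type*} [Field K] [Fintype K] {k : ℕ} (hk : 1 ≤ k) (hK : Fintype.card K = 2 ^ (2 * k + 1)) (hdiv : 2 * k + 1 ∣ 2 * m + 1) :
    (∃ S : Subgroup ↥(Cfsg.Sz F m), Nonempty (↥S ≃* ↥(Cfsg.Sz K k))) ∧
    ∀ S₁ S₂ : Subgroup ↥(Cfsg.Sz F m), Nonempty (↥S₁ ≃* ↥(Cfsg.Sz K k)) → Nonempty (↥S₂ ≃* ↥(Cfsg.Sz K k)) →
      ∃ g : ↥(Cfsg.Sz F m), S₂ = S₁.map (MulAut.conj g).toMonoidHom := by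
  haveI : Cfsg.Agent.H8.Suz.Hyp F m := ⟨hm, hF⟩
  haveI : Cfsg.Agent.H8.Suz.Hyp K k := ⟨hk, hK⟩
  constructor
  · obtain ⟨K₁, hK₁⟩ := subfield_exists (F := F) m (n := 2 * k + 1) (by omega) hdiv
    exact ⟨GK m K₁, GK_iso m K₁ hk hK₁ K hK⟩
  · rintro S₁ S₂ ⟨e₁⟩ ⟨e₂⟩
    obtain ⟨x₁, K₁, h₁, h₁'⟩ := suz_sub m k e₁
    obtain ⟨x₂, K₂, h₂, h₂'⟩ := suz_sub m k e₂
    have hKK := subfield_uniq K₁ K₂ (h₁.trans h₂.symm)
    subst hKK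
    refine ⟨x₂ * x₁⁻¹, ?_⟩
    show S₂ = cj (x₂ * x₁⁻¹) S₁
    rw [h₁', h₂', cj_cj, inv_mul_cancel_right]

end Cfsg.Agent.S2239
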