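import Cfsg.Statements.S2240
import Mathlib
import Cfsg.Agent.H8.SzO
open Cfsg.Agent.H8.Suz
open scoped Pointwise

set_option autoImplicit false
open Cfsg

namespace Cfsg.Agent.S2240

theorem U0_ne (F : Type*) [Field F] [Fintype F] (m : ℕ) [H : Hyp F m] {b : F} (hb : b ≠ 0) : U m 0 b ≠ 1 := by
  rw [← U_zero m]
  exact fun h => hb (U_inj m h).2

/-- Elementary abelian TI-subgroups of the Suzuki group: let q = 2^(2m+1) with m ≥ 1, the group realised as the stabiliser in SL₄ of the Suzuki–Tits ovoid, and n ≥ 2. There is an elementary abelian 2-subgroup E of order 2^n that is a TI-subgroup (every conjugate of E meeting E nontrivially is E itself) if and only if n divides 2m + 1. -/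
theorem result {F : Type*} [Field F] [Fintype F] {m : ℕ} (hm : 1 ≤ m) (hF : Fintype.card F = 2 ^ (2 * m + 1)) (n : ℕ) (hn : 2 ≤ n) :
    (∃ E : Subgroup ↥(Cfsg.Sz F m), Cfsg.IsElementaryAbelian 2 E ∧ Nat.card ↥E = 2 ^ n ∧
      ∀ x : ↥(Cfsg.Sz F m), E ⊓ E.map (MulAut.conj x).toMonoidHom ≠ ⊥ → x ∈ Subgroup.normalizer (E : Set ↥(Cfsg.Sz F m))) ↔ n ∣ 2 * m + 1 := by
  haveI : Cfsg.Agent.H8.Suz.Hyp F m := ⟨hm, hF⟩
  constructor
  · rintro ⟨E, ⟨hEc, hE2⟩, hcard, hTI⟩
    haveI := Fact.mk Nat.prime_two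
    have hp : IsPGroup 2 E := IsPGroup.of_card hcard
    obtain ⟨P, hP⟩ := hp.exists_le_sylow
    obtain ⟨x, hx⟩ := sylow_conj m P
    rw [hx] at hP
    set A : Set F := {b | x * U m 0 b * x⁻¹ ∈ E} with hA
    have hEA : ∀ g ∈ E, ∃ b ∈ A, g = x * U m 0 b * x⁻¹ := by
      intro g hg
      have h1 := mem_cj.1 (hP hg)
      have h2 := hE2 g hg
      obtain ⟨b, hb⟩ := mem_Z_of_sq m (g := x⁻¹ * g * x) (Q_le_B m h1) (by
        have : x⁻¹ * g * x * (x⁻¹ * g * x) = x⁻¹ * g ^ 2 * x := by rw [sq]; group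
        rw [this, h2]; group)
      have h3 : g = x * U m 0 b * x⁻¹ := by rw [← hb]; group
      exact ⟨b, by rw [hA]; show x * U m 0 b * x⁻¹ ∈ E; rw [← h3]; exact hg, h3⟩
    have hmul : ∀ b ∈ A, ∀ c ∈ A, b + c ∈ A := by
      intro b hb c hc
      have := E.mul_mem hb hc
      have e : x * U m 0 b * x⁻¹ * (x * U m 0 c * x⁻¹) = x * (U m 0 b * U m 0 c) * x⁻¹ := by group
      rw [e, U_mul, add_zero, mul_zero, add_zero] at this
      exact this
    have h0 : (0 : F) ∈ A := by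
      show x * U m 0 0 * x⁻¹ ∈ E
      rw [U_zero, mul_one, mul_inv_cancel]; exact E.one_mem
    have hcardA : Nat.card A = 2 ^ n := by
      rw [← hcard]
      refine Nat.card_congr (Equiv.ofBijective (fun b : A => (⟨x * U m (0 : F) (b : F) * x⁻¹, b.2⟩ : E)) ⟨?_, ?_⟩)
      · intro b c h
        have h1 : x * U m (0 : F) (b : F) * x⁻¹ = x * U m (0 : F) (c : F) * x⁻¹ := congrArg Subtype.val h
        have h2 := mul_left_cancel (mul_right_cancel h1)
        have h3 : (b : F) = (c : F) := (U_inj m h2).2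
        exact Subtype.ext h3
      · rintro ⟨g, hg⟩
        obtain ⟨b, hb, rfl⟩ := hEA g hg
        exact ⟨⟨b, hb⟩, rfl⟩
    -- the scaling property
    have hscale : ∀ y : F, y ≠ 0 → ∀ c ∈ A, c ≠ 0 → y * c ∈ A → ∀ d ∈ A, y * d ∈ A := by
      intro y hy c hc hc0 hyc d hd
      obtain ⟨k, hk⟩ := exists_kth m (Units.mk0 y hy)
      rw [Units.val_mk0] at hk
      have key : ∀ e : F, x * T m k * x⁻¹ * (x * U m 0 e * x⁻¹) * (x * T m k * x⁻¹)⁻¹ = x * U m 0 (y * e) * x⁻¹ := by
        intro e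
        have : x * T m k * x⁻¹ * (x * U m 0 e * x⁻¹) * (x * T m k * x⁻¹)⁻¹ = x * (T m k * U m 0 e * (T m k)⁻¹) * x⁻¹ := by group
        rw [this, T_conj_U, mul_zero, hk]
      have h1 : x * T m k * x⁻¹ ∈ Subgroup.normalizer (E : Set ↥(Cfsg.Sz F m)) := by
        apply hTI
        intro hbot
        have h2 : x * U m 0 (y * c) * x⁻¹ ∈ E ⊓ E.map (MulAut.conj (x * T m k * x⁻¹)).toMonoidHom := by
          refine ⟨hyc, mem_cj.2 ?_⟩
          rw [← key c]
          have e : (x * T m k * x⁻¹)⁻¹ * (x * T m k * x⁻¹ * (x * U m 0 c * x⁻¹) * (x * T m k * x⁻¹)⁻¹) * (x * T m k * x⁻¹) = x * U m 0 c * x⁻¹ := by group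
          rw [e]; exact hc
        rw [hbot, Subgroup.mem_bot] at h2
        have h3 : U m 0 (y * c) = 1 := by
          have e : U m 0 (y * c) = x⁻¹ * (x * U m 0 (y * c) * x⁻¹) * x := by group
          rw [e, h2]; group
        exact U0_ne F m (mul_ne_zero hy hc0) h3
      have h2 := (Subgroup.mem_normalizer_iff.1 h1 (x * U m 0 d * x⁻¹)).1 hd
      rw [key d] at h2
      exact h2
    -- a non-zero element
    obtain ⟨a, ha, ha0⟩ : ∃ a ∈ A, a ≠ 0 := by
      by_contra hcon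
      push Not at hcon
      have h1 : A = {0} := Set.eq_singleton_iff_unique_mem.2 ⟨h0, hcon⟩
      rw [h1] at hcardA
      simp only [Nat.card_unique] at hcardA
      have : 1 < 2 ^ n := Nat.one_lt_two_pow (by omega)
      omega
    obtain ⟨K, hK⟩ := subfield_of (F := F) m {y | y * a ∈ A} (by show 0 * a ∈ A; rw [zero_mul]; exact h0) (by show 1 * a ∈ A; rw [one_mul]; exact ha)
      (by intro y hy z hz; show (y + z) * a ∈ A; rw [add_mul]; exact hmul _ hy _ hz)
      (by
        intro y hy z hz hz0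
        show y * z⁻¹ * a ∈ A
        have h1 := hscale z⁻¹ (inv_ne_zero hz0) (z * a) hz (mul_ne_zero hz0 ha0) (by rw [inv_mul_cancel_left₀ hz0]; exact ha) (y * a) hy
        have e : y * z⁻¹ * a = z⁻¹ * (y * a) := by ring
        rw [e]; exact h1)
    apply subfield_dvd (F := F) m K
    rw [← hcardA]
    have e1 : Nat.card K = Nat.card {y | y * a ∈ A} := by
      show Nat.card (K : Set F) = _
      rw [hK]
    rw [e1]
    refine Nat.card_congr (Equiv.ofBijective (fun y : {y | y * a ∈ A} => (⟨(y : F) * a, y.2⟩ : A)) ⟨?_, ?_⟩)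
    · intro y z h
      exact Subtype.ext (mul_right_cancel₀ ha0 (congrArg Subtype.val h))
    · rintro ⟨b, hb⟩
      refine ⟨⟨b * a⁻¹, ?_⟩, ?_⟩
      · show b * a⁻¹ * a ∈ A
        rw [inv_mul_cancel_right₀ ha0]; exact hb
      · exact Subtype.ext (inv_mul_cancel_right₀ ha0 b)
  · intro hdvd
    obtain ⟨K, hK⟩ := subfield_exists (F := F) m (n := n) (by omega) hdvd
    refine ⟨ZA m K.toAddSubgroup, ⟨?_, ?_⟩, ?_, ?_⟩
    · constructor
      constructor
      rintro ⟨_, b, hb, rfl⟩ ⟨_, c, hc, rfl⟩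
      apply Subtype.ext
      show U m 0 b * U m 0 c = U m 0 c * U m 0 b
      rw [U_mul, U_mul, add_comm b c]
    · rintro _ ⟨b, hb, rfl⟩
      rw [sq, U_sq, mul_zero, U_zero]
    · rw [card_ZA]
      exact hK
    · intro x hx
      obtain ⟨⟨g, hg⟩, hg1⟩ := Subgroup.ne_bot_iff_exists_ne_one.1 hx
      obtain ⟨⟨b, hb, rfl⟩, h2⟩ := hg
      obtain ⟨c, hc, hc2⟩ := mem_cj.1 h2
      have hg2 : U m 0 b ≠ 1 := fun h => hg1 (Subtype.ext h)
      have hc1 : U m 0 c ≠ 1 := by
        rw [← hc2]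
        intro h
        apply hg2
        have : U m 0 b = x * (x⁻¹ * U m 0 b * x) * x⁻¹ := by group
        rw [this, h]; group
      have hc0 : c ≠ 0 := by rintro rfl; exact hc1 (U_zero m)
      have h3 : x * U m 0 c * x⁻¹ = U m 0 b := by rw [← hc2]; group
      have h4 := TI_Q m x (U m 0 c) (U_mem_Q m _ _) hc1 (by rw [h3]; exact U_mem_Q m _ _)
      rw [normalizer_Q] at h4
      obtain ⟨p, q, k, rfl⟩ := fix_oi m h4
      have key : ∀ e : F, U m p q * T m k * U m 0 e * (U m p q * T m k)⁻¹ = U m 0 ((k : F) * th m (k : F) * e) := by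
        intro e
        have : U m p q * T m k * U m 0 e * (U m p q * T m k)⁻¹ = U m p q * (T m k * U m 0 e * (T m k)⁻¹) * (U m p q)⁻¹ := by group
        rw [this, T_conj_U, mul_zero, mul_inv_eq_iff_eq_mul, U_mul, U_mul, add_zero, zero_add, mul_zero, add_zero, th_zero, zero_mul, add_zero, add_comm q]
      rw [key] at h3
      have h5 := (U_inj m h3).2
      have hk : (k : F) * th m (k : F) ∈ K := by
        have : (k : F) * th m (k : F) = b * c⁻¹ := by rw [← h5, mul_inv_cancel_right₀ hc0]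
        rw [this]
        exact K.mul_mem hb (K.inv_mem hc)
      have hk0 : (k : F) * th m (k : F) ≠ 0 := mul_ne_zero k.ne_zero (fun h => k.ne_zero ((th_eq_zero m).1 h))
      rw [Subgroup.mem_normalizer_iff]
      intro h
      constructor
      · rintro ⟨d, hd, rfl⟩
        exact ⟨_, K.mul_mem hk hd, key d⟩
      · rintro ⟨d, hd, hd2⟩
        refine ⟨((k : F) * th m (k : F))⁻¹ * d, K.mul_mem (K.inv_mem hk) hd, ?_⟩
        have h6 := key (((k : F) * th m (k : F))⁻¹ * d)
        rw [mul_inv_cancel_left₀ hk0, ← hd2] at h6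
        exact (mul_left_cancel (mul_right_cancel h6)).symm

end Cfsg.Agent.S2240
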