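import Cfsg.Statements.S2241
import Mathlib
import Cfsg.Agent.H8.SzM
open Cfsg.Agent.H8.Suz

set_option autoImplicit false
open Cfsg

namespace Cfsg.Agent.S2241

theorem U_order (F : Type*) [Field F] [Fintype F] (m : ℕ) [H : Hyp F m] {a b : F} (h : U m a b ≠ 1) : orderOf (U m a b) = 2 ↔ a = 0 := by
  constructor
  · intro h1
    have h2 : U m a b * U m a b = 1 := by rw [← sq, ← h1, pow_orderOf_eq_one]
    rw [U_sq, ← U_zero m] at h2
    have h3 := (U_inj m h2).2
    rcases mul_eq_zero.1 h3 with h4 | h4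
    · exact (th_eq_zero m).1 h4
    · exact h4
  · rintro rfl
    apply orderOf_eq_prime
    · rw [sq, U_sq, mul_zero, U_zero]
    · exact h

theorem key (F : Type*) [Field F] [Fintype F] (m : ℕ) [H : Hyp F m] {g : ↥(Cfsg.Sz F m)} (hg : g ∈ Q F m) (h1 : g ≠ 1) :
    IsConj g g⁻¹ ↔ orderOf g = 2 := by
  obtain ⟨a, b, rfl⟩ := hg
  constructor
  · intro h
    rw [isConj_iff] at h
    obtain ⟨x, hx⟩ := h
    by_contra hcon
    rw [U_order F m h1] at hcon
    -- x fixes infinity
    have hxB : x • oi F m = oi F m := by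
      apply U_fix m (a := a) (b := b) (fun h => hcon h.1)
      have h2 : (U m a b)⁻¹ • (x • oi F m) = x • oi F m := by
        rw [← hx, mul_smul, mul_smul, inv_smul_smul, U_oi]
      rw [inv_smul_eq_iff] at h2
      exact h2.symm
    obtain ⟨c, d, k, rfl⟩ := fix_oi m hxB
    have e : U m c d * T m k * U m a b * (U m c d * T m k)⁻¹ = U m c d * (T m k * U m a b * (T m k)⁻¹) * (U m c d)⁻¹ := by group
    rw [e, T_conj_U, U_inv, U_inv, U_mul, U_mul] at hx
    obtain ⟨h3, h4⟩ := U_inj m hx
    have h2 := (two0 m : (2 : F) = 0)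
    have hk : (k : F) = 1 := by
      have h5 : (k : F) * a = a := by linear_combination h3 - c * h2
      exact mul_right_cancel₀ hcon (h5.trans (one_mul a).symm)
    rw [hk, th_one, one_mul, one_mul, one_mul, th_add] at h4
    -- θ(c) a + (θ c + θ a) c + θ c c = θ a a
    have h6 : th m c * a + th m a * c = th m a * a := by
      linear_combination h4 - (d + th m c * c) * h2
    have ha : th m a ≠ 0 := fun h => hcon ((th_eq_zero m).1 h)
    apply no_sol m (c * a⁻¹)
    rw [th_mul, th_inv]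
    field_simp
    linear_combination h6 - (th m a * c) * h2
  · intro h
    have h2 : U m a b * U m a b = 1 := by rw [← sq, ← h, pow_orderOf_eq_one]
    rw [inv_eq_of_mul_eq_one_left h2]

/-- Real 2-elements of the Suzuki group: with q = 2^(2m+1), m ≥ 1, and the group realised as the stabiliser in SL₄ of the Suzuki–Tits ovoid, a non-identity element of a Sylow 2-subgroup is conjugate to its inverse if and only if it is an involution; in particular no element of order 4 is conjugate to its inverse. -/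
theorem result {F : Type*} [Field F] [Fintype F] {m : ℕ} (hm : 1 ≤ m) (hF : Fintype.card F = 2 ^ (2 * m + 1)) (P : Sylow 2 ↥(Cfsg.Sz F m)) (g : ↥(Cfsg.Sz F m)) (hg : g ∈ (P : Subgroup ↥(Cfsg.Sz F m))) (h1 : g ≠ 1) :
    IsConj g g⁻¹ ↔ orderOf g = 2 := by
  haveI : Cfsg.Agent.H8.Suz.Hyp F m := ⟨hm, hF⟩
  obtain ⟨x, hx⟩ := sylow_conj m P
  rw [hx] at hg
  have hg' := mem_cj.1 hg
  have h2 : x⁻¹ * g * x ≠ 1 := by
    intro h
    apply h1
    have : g = x * (x⁻¹ * g * x) * x⁻¹ := by group
    rw [this, h]; group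
  have h3 := key F m hg' h2
  have h4 : orderOf (x⁻¹ * g * x) = orderOf g := by
    have := (MulAut.conj x⁻¹).orderOf_eq g
    rw [← this]
    congr 1
    show _ = x⁻¹ * g * x⁻¹⁻¹
    rw [inv_inv]
  rw [h4] at h3
  rw [← h3]
  have h5 : IsConj g (x⁻¹ * g * x) := isConj_iff.2 ⟨x⁻¹, by rw [inv_inv]⟩
  have h6 : IsConj g⁻¹ (x⁻¹ * g * x)⁻¹ := isConj_iff.2 ⟨x⁻¹, by group⟩
  constructor
  · intro h; exact (h5.symm.trans h).trans h6
  · intro h; exact (h5.trans h).trans h6.symm

end Cfsg.Agent.S2241
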