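import Cfsg.Statements.S2251
import Mathlib
import Cfsg.Agent.H8.SzS8
open Cfsg.Agent.H8.Suz

set_option autoImplicit false
open Cfsg

namespace Cfsg.Agent.S2251



/-- The subgroups of the Suzuki group: with q = 2^(2m+1), m ≥ 1, r = 2^m and the group realised as the stabiliser in SL₄ of the Suzuki–Tits ovoid, every proper subgroup is contained in the normalizer of a Sylow 2-subgroup, or in the normalizer of a cyclic subgroup of order q − 1, q + 2r + 1 or q − 2r + 1, or in a subgroup isomorphic to a smaller Suzuki group Sz(s) with s = 2^(2k+1) ≥ 8 and 2k+1 a proper divisor of 2m+1. -/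
theorem result {F : Type*} [Field F] [Fintype F] {m : ℕ} (hm : 1 ≤ m) (hF : Fintype.card F = 2 ^ (2 * m + 1)) (M : Subgroup ↥(Cfsg.Sz F m)) (hM : M ≠ ⊤) :
    (∃ P : Sylow 2 ↥(Cfsg.Sz F m), M ≤ Subgroup.normalizer ((P : Subgroup ↥(Cfsg.Sz F m)) : Set ↥(Cfsg.Sz F m))) ∨
    (∃ U : Subgroup ↥(Cfsg.Sz F m), IsCyclic ↥U ∧ Nat.card ↥U ∈ ({2 ^ (2 * m + 1) - 1, 2 ^ (2 * m + 1) + 2 ^ (m + 1) + 1, 2 ^ (2 * m + 1) - 2 ^ (m + 1) + 1} : Set ℕ) ∧
      M ≤ Subgroup.normalizer (U : Set ↥(Cfsg.Sz F m))) ∨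
    (∃ (K : Type) (_ : Field K) (_ : Fintype K) (k : ℕ), 1 ≤ k ∧ k < m ∧ Fintype.card K = 2 ^ (2 * k + 1) ∧ 2 * k + 1 ∣ 2 * m + 1 ∧
      ∃ S : Subgroup ↥(Cfsg.Sz F m), Nonempty (↥S ≃* ↥(Cfsg.Sz K k)) ∧ M ≤ S) := by
  haveI : Cfsg.Agent.H8.Suz.Hyp F m := ⟨hm, hF⟩
  rcases subgroups m M with ⟨x, hx⟩ | ⟨X, hX, hle⟩ | ⟨x, K, hK, hx⟩
  · left
    obtain ⟨P, hP⟩ := cj_sylow m x
    refine ⟨P, ?_⟩
    rw [← hP, norm_cj, normalizer_Q]
    exact hx
  · right; left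
    exact ⟨X, comp2_cyclic m hX, comp2_card m hX, hle⟩
  · right; right
    obtain ⟨k, hk1, hk2, hk3⟩ := card_odd_exp m K hK
    have hlt : Nat.card K < Fintype.card F := by
      apply GK_ne_top m
      intro h
      apply hM
      rw [hx, h]
      ext z
      rw [mem_cj]; simp
    have hkm : k < m := by
      rw [hk2, hF] at hlt
      have := (Nat.pow_lt_pow_iff_right (by norm_num)).1 hlt
      omega
    haveI := Fact.mk Nat.prime_two
    haveI : Fintype (GaloisField 2 (2 * k + 1)) := Fintype.ofFinite _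
    have hL : Fintype.card (GaloisField 2 (2 * k + 1)) = 2 ^ (2 * k + 1) := by
      rw [← Nat.card_eq_fintype_card]; exact GaloisField.card 2 _ (by omega)
    obtain ⟨e⟩ := GK_iso m K hk1 hk2 (GaloisField 2 (2 * k + 1)) hL
    refine ⟨GaloisField 2 (2 * k + 1), inferInstance, inferInstance, k, hk1, hkm, hL, hk3, M, ?_, le_rfl⟩
    rw [hx]
    exact ⟨((GK m K).equivMapOfInjective _ (MulAut.conj x).injective).symm.trans e⟩

end Cfsg.Agent.S2251
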