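import Cfsg.Statements.S2259
import Mathlib
import Cfsg.Agent.H8.SzT5
open Cfsg.Agent.H8.Suz

set_option autoImplicit false
open Cfsg

namespace Cfsg.Agent.S2259

theorem cent_dvd {G : Type*} [Group G] [Finite G] (x : G) : orderOf x ∣ Nat.card (Subgroup.centralizer {x}) := by
  have h5 : orderOf (⟨x, mem_cent_self x⟩ : Subgroup.centralizer {x}) ∣ Nat.card (Subgroup.centralizer {x}) := orderOf_dvd_natCard _
  rwa [Subgroup.orderOf_mk] at h5

theorem s3_ne (F : Type*) [Field F] [Fintype F] (m : ℕ) [H : Hyp F m] : 2 ^ (2 * m + 1) - 1 ≠ 2 ^ (2 * m + 1) + 2 ^ (m + 1) + 1 ∧ 2 ^ (2 * m + 1) - 1 ≠ 2 ^ (2 * m + 1) - 2 ^ (m + 1) + 1 ∧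
    2 ^ (2 * m + 1) + 2 ^ (m + 1) + 1 ≠ 2 ^ (2 * m + 1) - 2 ^ (m + 1) + 1 := by
  obtain ⟨q1, q2, q3, q4⟩ := q_facts (F := F) m
  refine ⟨by omega, ?_, by omega⟩
  rw [q3]
  have : 2 ^ (2 * m + 1) = 2 ^ m * (2 * 2 ^ m) := by rw [q2]; ring
  have h6 : 4 * 2 ^ m ≤ 2 ^ m * (2 * 2 ^ m) := by nlinarith
  rw [this]
  omega

theorem tor_case (F : Type*) [Field F] [Fintype F] (m : ℕ) [H : Hyp F m] (hp : (2 * m + 1).Prime) (n n' : ℕ) (hn : n ∈ S3 m) (hn' : n' ∈ S3 m) (h0 : n ≠ n')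
    (h1 : n ≠ 2 ^ (2 * m + 1) - 1) (hall : ∀ x : ↥(Cfsg.Sz F m), Fpf m x → Nat.card (Subgroup.centralizer {x}) = n ∨ Nat.card (Subgroup.centralizer {x}) = n')
    {x : ↥(Cfsg.Sz F m)} (hx1 : x ≠ 1) (hx : orderOf x ∣ n) : Nat.card {y : ↥(Cfsg.Sz F m) // Slv x y} = 4 * n := by
  have hco : ∀ a ∈ S3 m, a ≠ n → orderOf x ∣ a → False := by
    intro a ha hne h
    have h2 := Nat.eq_one_of_dvd_coprimes (S3_coprime (F := F) m ha hn hne) h hx
    exact hx1 (orderOf_eq_one_iff.1 h2)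
  rcases trich m x with h | ⟨g, k, hk, hg⟩ | h
  · exfalso
    exact not_unip_of_odd m (S3_odd (F := F) m hn) (orderOf_dvd_iff_pow_eq_one.1 hx) hx1 h
  · exfalso
    apply hco (2 ^ (2 * m + 1) - 1) (Or.inl rfl) (Ne.symm h1)
    have h3 := cent_dvd x
    rw [hg, cent_conj_T m hk, card_cj, card_TT] at h3
    rw [hg]; exact h3
  · rcases hall x h with h3 | h3
    · rw [sol_fpf m hp h, h3]
    · exfalso
      apply hco n' hn' (Ne.symm h0)
      rw [← h3]; exact cent_dvd x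

/-- Let G be the Suzuki group Sz(q), q = 2^(2m+1) with 2m + 1 prime and m ≥ 1, realised inside Sp_4(F) for F the field of order q, write r = 2^(m+1) (so r² = 2q), and for x ∈ G call the solubilizer of x the set of y ∈ G such that x and y generate a solvable subgroup. Then the solubilizer of an involution has q²(4q − 3) elements; that of an element of order 4 has q²(q + 3) elements; that of a non-identity element of order dividing q − 1 has 2q²(q − 1) elements; that of a non-identity element of order dividing q + r + 1 has 4(q + r + 1) elements; and that of a non-identity element of order dividing q − r + 1 has 4(q − r + 1) elements. -/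
theorem result {F : Type*} [Field F] [Fintype F] {m : ℕ} (hm : 1 ≤ m)
    (hp : (2 * m + 1).Prime) (hF : Fintype.card F = 2 ^ (2 * m + 1)) (x : ↥(Cfsg.Lie.Sz F (2 ^ (m + 1)))) :
    (orderOf x = 2 → Nat.card {y : ↥(Cfsg.Lie.Sz F (2 ^ (m + 1))) // Group.IsSolvable ↥(Subgroup.closure ({x, y} : Set (↥(Cfsg.Lie.Sz F (2 ^ (m + 1))))))} = (2 ^ (2 * m + 1)) ^ 2 * (4 * 2 ^ (2 * m + 1) - 3)) ∧
    (orderOf x = 4 → Nat.card {y : ↥(Cfsg.Lie.Sz F (2 ^ (m + 1))) // Group.IsSolvable ↥(Subgroup.closure ({x, y} : Set (↥(Cfsg.Lie.Sz F (2 ^ (m + 1))))))} = (2 ^ (2 * m + 1)) ^ 2 * (2 ^ (2 * m + 1) + 3)) ∧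
    (x ≠ 1 → orderOf x ∣ 2 ^ (2 * m + 1) - 1 →
      Nat.card {y : ↥(Cfsg.Lie.Sz F (2 ^ (m + 1))) // Group.IsSolvable ↥(Subgroup.closure ({x, y} : Set (↥(Cfsg.Lie.Sz F (2 ^ (m + 1))))))} = 2 * (2 ^ (2 * m + 1)) ^ 2 * (2 ^ (2 * m + 1) - 1)) ∧
    (x ≠ 1 → orderOf x ∣ 2 ^ (2 * m + 1) + 2 ^ (m + 1) + 1 → Nat.card {y : ↥(Cfsg.Lie.Sz F (2 ^ (m + 1))) // Group.IsSolvable ↥(Subgroup.closure ({x, y} : Set (↥(Cfsg.Lie.Sz F (2 ^ (m + 1))))))} = 4 * (2 ^ (2 * m + 1) + 2 ^ (m + 1) + 1)) ∧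
    (x ≠ 1 → orderOf x ∣ 2 ^ (2 * m + 1) - 2 ^ (m + 1) + 1 → Nat.card {y : ↥(Cfsg.Lie.Sz F (2 ^ (m + 1))) // Group.IsSolvable ↥(Subgroup.closure ({x, y} : Set (↥(Cfsg.Lie.Sz F (2 ^ (m + 1))))))} = 4 * (2 ^ (2 * m + 1) - 2 ^ (m + 1) + 1)) := by
  haveI : Cfsg.Agent.H8.Suz.Hyp F m := ⟨hm, hF⟩
  obtain ⟨x', rfl⟩ := (eLie (F := F) m).surjective x
  have hc : Nat.card {y : ↥(Cfsg.Lie.Sz F (2 ^ (m + 1))) // Group.IsSolvable ↥(Subgroup.closure ({eLie (F := F) m x', y} : Set (↥(Cfsg.Lie.Sz F (2 ^ (m + 1))))))} = Nat.card {y : ↥(Cfsg.Sz F m) // Slv x' y} :=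
    card_slv (eLie (F := F) m) x'
  rw [hc, MulEquiv.orderOf_eq]
  have h1 : eLie (F := F) m x' ≠ 1 ↔ x' ≠ 1 := by
    rw [Ne, EmbeddingLike.map_eq_one_iff]
  rw [h1]
  obtain ⟨n1, n2, n3⟩ := s3_ne F m
  obtain ⟨C, D, hC, hD, hcC, hcD, hNC, hND, hrep⟩ := reps (F := F) m
  have hall : ∀ x : ↥(Cfsg.Sz F m), Fpf m x → Nat.card (Subgroup.centralizer {x}) = 2 ^ (2 * m + 1) + 2 ^ (m + 1) + 1 ∨ Nat.card (Subgroup.centralizer {x}) = 2 ^ (2 * m + 1) - 2 ^ (m + 1) + 1 := by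
    intro x hx
    obtain ⟨g, h | h⟩ := hrep x hx
    · left; rw [h, card_cj, hcC]
    · right; rw [h, card_cj, hcD]
  refine ⟨?_, ?_, ?_, ?_, ?_⟩
  · intro h
    apply sol_two m hp
    · rw [← sq, ← h, pow_orderOf_eq_one]
    · rintro rfl
      rw [orderOf_one] at h
      norm_num at h
  · intro h
    exact sol_four m hp h
  · intro hx1 hx
    have hodd : Odd (2 ^ (2 * m + 1) - 1) := S3_odd (F := F) m (Or.inl rfl)
    rcases trich m x' with h | ⟨g, k, hk, hg⟩ | h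
    · exfalso
      exact not_unip_of_odd m hodd (orderOf_dvd_iff_pow_eq_one.1 hx) hx1 h
    · rw [hg, card_slv_conj, sol_T m hp hk]
    · exfalso
      have h3 := cent_dvd x'
      apply hx1
      rw [← orderOf_eq_one_iff]
      rcases hall x' h with h4 | h4
      · rw [h4] at h3
        exact Nat.eq_one_of_dvd_coprimes (S3_coprime (F := F) m (Or.inl rfl) (Or.inr (Or.inl rfl)) n1) hx h3
      · rw [h4] at h3
        exact Nat.eq_one_of_dvd_coprimes (S3_coprime (F := F) m (Or.inl rfl) (Or.inr (Or.inr rfl)) n2) hx h3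
  · intro hx1 hx
    exact tor_case F m hp _ _ (Or.inr (Or.inl rfl)) (Or.inr (Or.inr rfl)) n3 (Ne.symm n1) hall hx1 hx
  · intro hx1 hx
    exact tor_case F m hp _ _ (Or.inr (Or.inr rfl)) (Or.inr (Or.inl rfl)) (Ne.symm n3) (Ne.symm n2) (fun x hx => (hall x hx).symm) hx1 hx

end Cfsg.Agent.S2259
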