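import Cfsg.Statements.S2268

set_option autoImplicit false
open Cfsg

namespace Cfsg.Agent.S2268



/-- Let G be a finite group with an abelian Sylow p-subgroup P and let Q ≤ P. Then N_G(Q) = (N_G(Q) ∩ N_G(P))·C_G(Q), so that N_G(Q)/C_G(Q) is a homomorphic image of the subgroup (N_G(Q) ∩ N_G(P))/C_G(P) of N_G(P)/C_G(P); in particular the order of N_G(Q)/C_G(Q) divides the order of N_G(P)/C_G(P). -/
theorem result {G : Type*} [Group G] [Finite G] {p : ℕ} [Fact p.Prime]
    (P : Sylow p G) (hP : IsMulCommutative (P : Subgroup G)) (Q : Subgroup G) (hQ : Q ≤ (P : Subgroup G)) :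
    Subgroup.normalizer (Q : Set G) =
      (Subgroup.normalizer (Q : Set G) ⊓ Subgroup.normalizer ((P : Subgroup G) : Set G)) ⊔ Subgroup.centralizer (Q : Set G) ∧
    ((Subgroup.centralizer (Q : Set G)).subgroupOf (Subgroup.normalizer (Q : Set G))).index ∣ ((Subgroup.centralizer ((P : Subgroup G) : Set G)).subgroupOf (Subgroup.normalizer ((P : Subgroup G) : Set G))).index := by
  classical
  have hPc : (P : Subgroup G) ≤ Subgroup.centralizer (Q : Set G) := by
    intro x hx
    rw [Subgroup.mem_centralizer_iff]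
    intro q hq
    exact congrArg Subtype.val (hP.is_comm.comm (⟨q, hQ hq⟩ : (P : Subgroup G)) ⟨x, hx⟩)
  have hCN : Subgroup.centralizer (Q : Set G) ≤ Subgroup.normalizer (Q : Set G) :=
    Subgroup.centralizer_le_normalizer _
  have key : ∀ g ∈ Subgroup.normalizer (Q : Set G), ∃ c ∈ Subgroup.centralizer (Q : Set G),
      c * g ∈ Subgroup.normalizer ((P : Subgroup G) : Set G) := by
    intro g hg
    set C := Subgroup.centralizer (Q : Set G) with hC
    have hgP : ((g • P : Sylow p G) : Subgroup G) ≤ C := by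
      intro x hx
      rw [Sylow.coe_subgroup_smul, Subgroup.mem_pointwise_smul_iff_inv_smul_mem] at hx
      rw [hC, Subgroup.mem_centralizer_iff]
      intro q hq
      have hx' := hPc hx
      rw [Subgroup.mem_centralizer_iff] at hx'
      have hgq : g⁻¹ * q * g ∈ (Q : Set G) := by
        have := (Subgroup.mem_normalizer_iff.1 (Subgroup.inv_mem _ hg) q).1 hq
        simpa using this
      have := hx' _ hgq
      have h2 : ((MulAut.conj g)⁻¹ • x : G) = g⁻¹ * x * g := by
        rw [← map_inv]; simp [MulAut.smul_def]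
      rw [h2] at this
      have h3 := congrArg (fun z => g * z * g⁻¹) this
      calc q * x = g * (g⁻¹ * q * g * (g⁻¹ * x * g)) * g⁻¹ := by group
        _ = x * q := by rw [h3]; group
    obtain ⟨c, hc⟩ := MulAction.exists_smul_eq C ((g • P).subtype hgP) (P.subtype hPc)
    refine ⟨c, c.2, ?_⟩
    refine Sylow.smul_eq_iff_mem_normalizer.1 ?_
    rw [mul_smul]
    rw [Sylow.smul_subtype] at hc
    exact Sylow.subtype_injective hc
  have hmain : Subgroup.normalizer (Q : Set G) =
      (Subgroup.normalizer (Q : Set G) ⊓ Subgroup.normalizer ((P : Subgroup G) : Set G)) ⊔ Subgroup.centralizer (Q : Set G) := by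
    apply le_antisymm
    · intro g hg
      obtain ⟨c, hc, hcg⟩ := key g hg
      have : g = c⁻¹ * (c * g) := by group
      rw [this]
      exact Subgroup.mul_mem _ (Subgroup.mem_sup_right (Subgroup.inv_mem _ hc))
        (Subgroup.mem_sup_left ⟨Subgroup.mul_mem _ (hCN hc) hg, hcg⟩)
    · exact sup_le inf_le_left hCN
  refine ⟨hmain, ?_⟩
  set NQ := Subgroup.normalizer (Q : Set G) with hNQ
  set NP := Subgroup.normalizer ((P : Subgroup G) : Set G) with hNP
  set CQ := Subgroup.centralizer (Q : Set G) with hCQ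
  set CP := Subgroup.centralizer ((P : Subgroup G) : Set G) with hCP
  change CQ.relIndex NQ ∣ CP.relIndex NP
  have hCPQ : CP ≤ CQ := Subgroup.centralizer_le hQ
  have h1 : CQ.relIndex NQ = CQ.relIndex (NQ ⊓ NP) := by
    have hnorm : (CQ.subgroupOf NQ).Normal := by
      rw [hCQ, hNQ]; infer_instance
    have h2 : CQ.relIndex NQ = (CQ.subgroupOf NQ).relIndex ((NQ ⊓ NP).subgroupOf NQ ⊔ CQ.subgroupOf NQ) := by
      have : (NQ ⊓ NP).subgroupOf NQ ⊔ CQ.subgroupOf NQ = ⊤ := by
        rw [← Subgroup.subgroupOf_sup inf_le_left hCN, ← hmain, Subgroup.subgroupOf_self]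
      rw [this, Subgroup.relIndex_top_right]
      rfl
    rw [h2, Subgroup.relIndex_sup_right, Subgroup.relIndex_subgroupOf inf_le_left]
  rw [h1]
  refine dvd_trans (Subgroup.relIndex_dvd_of_le_left _ hCPQ) ?_
  have hCPN : CP ≤ NQ ⊓ NP := le_inf (hCPQ.trans hCN) (Subgroup.centralizer_le_normalizer _)
  rw [← Subgroup.relIndex_mul_relIndex CP (NQ ⊓ NP) NP hCPN inf_le_right]
  exact dvd_mul_right _ _

end Cfsg.Agent.S2268
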