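import Cfsg.Statements.S2270
import Mathlib

set_option autoImplicit false
open Cfsg

namespace Cfsg.Agent.S2270



/-- Let n ≥ 3, p an odd prime, and P an abelian Sylow p-subgroup of the symmetric group S_n (with p dividing n!, so that P ≠ 1). Then N(P)/C(P) has even order. -/
theorem result (n : ℕ) (hn : 3 ≤ n) {p : ℕ} [Fact p.Prime] (hp : p ≠ 2) (hpn : p ≤ n)
    (P : Sylow p (Equiv.Perm (Fin n))) (hP : IsMulCommutative (P : Subgroup (Equiv.Perm (Fin n)))) :
    2 ∣ ((Subgroup.centralizer ((P : Subgroup (Equiv.Perm (Fin n))) : Set (Equiv.Perm (Fin n)))).subgroupOf (Subgroup.normalizer ((P : Subgroup (Equiv.Perm (Fin n))) : Set (Equiv.Perm (Fin n))))).index := by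
  classical
  have hpp : p.Prime := Fact.out
  obtain ⟨x, hx⟩ : ∃ x : (P : Subgroup (Equiv.Perm (Fin n))), x ≠ 1 := by
    have h1 : p ∣ Nat.card (P : Subgroup (Equiv.Perm (Fin n))) := by
      apply P.dvd_card_of_dvd_card
      rw [Nat.card_perm, Nat.card_fin]
      exact (Nat.Prime.dvd_factorial hpp).2 hpn
    by_contra hcon
    push Not at hcon
    have : Nat.card (P : Subgroup (Equiv.Perm (Fin n))) = 1 := by
      haveI : Subsingleton (P : Subgroup (Equiv.Perm (Fin n))) := ⟨fun a b => by rw [hcon a, hcon b]⟩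
      exact Nat.card_of_subsingleton 1
    rw [this] at h1
    exact hpp.one_lt.ne' (Nat.dvd_one.1 h1)
  have hcon : IsConj (x : Equiv.Perm (Fin n)) (x : Equiv.Perm (Fin n))⁻¹ := by
    rw [Equiv.Perm.isConj_iff_cycleType_eq, Equiv.Perm.cycleType_inv]
  obtain ⟨g, hg⟩ := isConj_iff.1 hcon
  have hg' : (g⁻¹)⁻¹ * (x : Equiv.Perm (Fin n)) * g⁻¹ ∈ P := by
    rw [inv_inv, hg]; exact (P : Subgroup (Equiv.Perm (Fin n))).inv_mem x.2
  obtain ⟨m, hm, hm2⟩ := Sylow.conj_eq_normalizer_conj_of_mem P (x : Equiv.Perm (Fin n)) g⁻¹ x.2 hg'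
  rw [inv_inv, hg] at hm2
  set C := Subgroup.centralizer ((P : Subgroup (Equiv.Perm (Fin n))) : Set (Equiv.Perm (Fin n))) with hC
  set N := Subgroup.normalizer ((P : Subgroup (Equiv.Perm (Fin n))) : Set (Equiv.Perm (Fin n))) with hN
  have hCn : (C.subgroupOf N).Normal := by
    rw [hC, hN]; infer_instance
  by_contra hodd
  have hodd' : Odd (C.subgroupOf N).index := by
    rw [← Nat.not_even_iff_odd, even_iff_two_dvd]; exact hodd
  have h1 : (⟨m, hm⟩ : N) ^ (C.subgroupOf N).index ∈ C.subgroupOf N := Subgroup.pow_index_mem _ _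
  have h2 : m ^ (C.subgroupOf N).index ∈ C := h1
  have h3 : ∀ j : ℕ, (Odd j → (m ^ j)⁻¹ * (x : Equiv.Perm (Fin n)) * m ^ j = (x : Equiv.Perm (Fin n))⁻¹) ∧
      (Even j → (m ^ j)⁻¹ * (x : Equiv.Perm (Fin n)) * m ^ j = (x : Equiv.Perm (Fin n))) := by
    intro j
    induction j with
    | zero => simp
    | succ j ih =>
      have e : (m ^ (j + 1))⁻¹ * (x : Equiv.Perm (Fin n)) * m ^ (j + 1) = m⁻¹ * ((m ^ j)⁻¹ * (x : Equiv.Perm (Fin n)) * m ^ j) * m := by
        rw [pow_succ]; group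
      constructor
      · intro ho
        have he : Even j := by
          rcases Nat.even_or_odd j with h | h
          · exact h
          · exact absurd ho (by rw [Nat.not_odd_iff_even]; exact h.add_one)
        rw [e, ih.2 he, ← hm2]
      · intro ho
        have he : Odd j := by
          rcases Nat.even_or_odd j with h | h
          · exact absurd ho (by rw [Nat.not_even_iff_odd]; exact h.add_one)
          · exact h
        rw [e, ih.1 he]
        have : m⁻¹ * (x : Equiv.Perm (Fin n))⁻¹ * m = (m⁻¹ * (x : Equiv.Perm (Fin n)) * m)⁻¹ := by group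
        rw [this, ← hm2, inv_inv]
  have h4 := (h3 _).1 hodd'
  rw [Subgroup.mem_centralizer_iff] at h2
  have h5 := h2 x x.2
  rw [mul_assoc, h5, ← mul_assoc, inv_mul_cancel, one_mul] at h4
  have h6 : (x : Equiv.Perm (Fin n)) ^ 2 = 1 := by
    rw [pow_two]; nth_rw 2 [h4]; simp
  have h7 : x ^ 2 = 1 := Subtype.ext h6
  obtain ⟨k, hk⟩ := (IsPGroup.iff_orderOf.1 P.isPGroup') x
  have h8 := orderOf_dvd_of_pow_eq_one h7
  rw [hk] at h8
  rcases Nat.eq_zero_or_pos k with h9 | h9
  · rw [h9, pow_zero, orderOf_eq_one_iff] at hk; exact hx hk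
  · have h10 : p ∣ 2 := dvd_trans (dvd_pow_self p h9.ne') h8
    exact hp ((Nat.prime_dvd_prime_iff_eq hpp Nat.prime_two).1 h10)

end Cfsg.Agent.S2270
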