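import Cfsg.Statements.S2337
import Mathlib
import Cfsg.Agent.H8.SzR
open Cfsg.Agent.H8.Suz

set_option autoImplicit false
open Cfsg

namespace Cfsg.Agent.S2337



/-- For the Suzuki group Sz(q), q = 2^(2m+1) with m ≥ 1 (realised inside Sp₄ over the field with q elements), every irreducible complex representation of degree at least 2 has degree at least 2^m·(q − 1). -/
theorem result {F : Type*} [Field F] [Fintype F] (m : ℕ) (hm : 1 ≤ m) (hF : Fintype.card F = 2 ^ (2 * m + 1)) :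
    (∀ (k : ℕ) (ρ : Representation ℂ (Cfsg.Lie.Sz F (2 ^ (m + 1))) (Fin k → ℂ)), ρ.IsIrreducible → 2 ≤ k → 2 ^ m * (2 ^ (2 * m + 1) - 1) ≤ k) := by
  haveI : Cfsg.Agent.H8.Suz.Hyp F m := ⟨hm, hF⟩
  intro k ρ hρ hk
  obtain ⟨-, h2⟩ := (Cfsg.Agent.H5.isIrreducible_iff_submodule ρ).1 hρ
  let e : ↥(Cfsg.Sz F m) ≃* ↥(Cfsg.Lie.Sz F (2 ^ (m + 1))) := eLie m
  have h3 := degree_bound m (ρ.comp e.toMonoidHom) (by
    intro W hW
    apply h2 W
    intro g v hv
    have := hW (e.symm g) v hv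
    have h4 : (ρ.comp e.toMonoidHom) (e.symm g) = ρ g := by
      show ρ (e (e.symm g)) = ρ g
      rw [e.apply_symm_apply]
    rwa [h4] at this) (by rw [Module.finrank_fin_fun]; exact hk)
  rwa [Module.finrank_fin_fun] at h3

end Cfsg.Agent.S2337
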