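import Cfsg.Statements.S2354
import Mathlib
import Cfsg.Agent.H8.SzLaw
open Cfsg.Agent.H8.Suz

set_option autoImplicit false
open Cfsg

namespace Cfsg.Agent.S2354



/-- A non-trivial law holds in only finitely many Suzuki groups: for every non-trivial element w of the free group on countably many generators there is N such that for q = 2^(2m+1) with m ≥ N some substitution of elements of the Suzuki group over the field with q elements into w is not the identity. -/
theorem result (w : FreeGroup ℕ) (hw : w ≠ 1) :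
    ∃ N : ℕ, ∀ (F : Type*) [Field F] [Fintype F] (m : ℕ), 1 ≤ m → N ≤ m →
      Fintype.card F = 2 ^ (2 * m + 1) →
      ∃ f : ℕ → ↥(Cfsg.Lie.Sz F (2 ^ (m + 1))), FreeGroup.lift f w ≠ 1 := by
  obtain ⟨L, hL⟩ : ∃ L, L = w.toWord := ⟨_, rfl⟩
  have hred : FreeGroup.IsReduced L := by rw [hL]; exact FreeGroup.isReduced_toWord
  have hne : L ≠ [] := by
    rw [hL]
    intro h
    exact hw (FreeGroup.toWord_eq_nil_iff.1 h)
  obtain ⟨j, j', L', hseq⟩ : ∃ j j' L', seq L = j :: j' :: L' := by
    cases L with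
    | nil => exact absurd rfl hne
    | cons x L =>
      obtain ⟨i, b⟩ := x
      cases b
      · exact ⟨_, _, _, rfl⟩
      · exact ⟨_, _, _, rfl⟩
  refine ⟨(j' :: L').length * ((j :: j' :: L').sum + 1), ?_⟩
  intro F _ _ m hm hN hF
  haveI : Cfsg.Agent.H8.Suz.Hyp F m := ⟨hm, hF⟩
  obtain ⟨t, ht⟩ := prodz_ne (F := F) m j j' L' (by rw [← hseq]; exact seq_chain L hred) (fun i hi => List.le_sum_of_mem hi)
    (lt_of_le_of_lt hN Nat.lt_two_pow_self)
  let e : ↥(Cfsg.Sz F m) ≃* ↥(Cfsg.Lie.Sz F (2 ^ (m + 1))) := eLie m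
  refine ⟨fun i => e (zz m t (2 * i) * zz m t (2 * i + 1)), ?_⟩
  intro h
  apply ht
  have h1 : FreeGroup.lift (fun i => zz m t (2 * i) * zz m t (2 * i + 1)) w = 1 := by
    apply e.injective
    rw [map_one, ← h]
    have h2 : (e.toMonoidHom.comp (FreeGroup.lift (fun i => zz m t (2 * i) * zz m t (2 * i + 1)))) = FreeGroup.lift (fun i => e (zz m t (2 * i) * zz m t (2 * i + 1))) := by
      ext i
      simp
    exact DFunLike.congr_fun h2 w
  rw [← FreeGroup.mk_toWord (x := w), ← hL, FreeGroup.lift_mk, seq_prod, hseq] at h1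
  exact h1

end Cfsg.Agent.S2354
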