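import Cfsg.Statements.S2355
import Mathlib
import Cfsg.Agent.H8.LAW3
open Cfsg.Agent.H8.Law

set_option autoImplicit false
open Cfsg

namespace Cfsg.Agent.S2355



/-- A non-trivial law is satisfied by only finitely many finite simple groups that are alternating or classical, up to isomorphism: for every non-trivial element w of the free group on countably many generators there is a bound N such that every alternating group of degree ≥ 5 and every simple classical group (linear, symplectic, unitary or orthogonal, in this problem's sense) in which w is a law has order at most N. -/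
theorem result (w : FreeGroup ℕ) (hw : w ≠ 1) :
    ∃ N : ℕ, ∀ (G : Type*) [Group G] [Finite G],
      (Cfsg.IsAlternating G ∨ Cfsg.IsPSL G ∨ Cfsg.IsPSp G ∨ Cfsg.IsPSU G ∨ Cfsg.IsPOmegaOdd G ∨
          Cfsg.IsPOmegaPlus G ∨ Cfsg.IsPOmegaMinus G) →
      (∀ f : ℕ → G, FreeGroup.lift f w = 1) → Nat.card G ≤ N := by
  obtain ⟨A, hA1, hA⟩ := alt_bound w hw
  obtain ⟨B, hB1, hB⟩ := sl_bound w hw
  refine ⟨A.factorial + (B * B + 1) ^ ((2 * A + 2) * (2 * A + 2)), ?_⟩
  intro G _ _ hG hlaw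
  rcases hG with ⟨n, hn, ⟨e⟩⟩ | ⟨F, _, _, n, hn, -, ⟨e⟩⟩ | ⟨F, _, _, m, hm, -, ⟨e⟩⟩ | ⟨F, _, _, n, q, hF, hn, -, ⟨e⟩⟩ | ⟨F, _, _, m, hm, -, ⟨e⟩⟩ | ⟨F, _, _, m, hm, ⟨e⟩⟩ | ⟨F, _, _, m, a, b, hm, -, ⟨e⟩⟩
  · have h1 : CLaw w (alternatingGroup (Fin n)) := by
      intro f
      rw [law_iso e hlaw f]
      exact one_mem _
    have h2 := hA n h1
    have h3 : Nat.card G ≤ n.factorial := by
      rw [Nat.card_congr e.toEquiv]
      calc Nat.card (alternatingGroup (Fin n)) ≤ Nat.card (Equiv.Perm (Fin n)) := Nat.card_le_card_of_injective _ Subtype.val_injective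
        _ = n.factorial := by rw [Nat.card_eq_fintype_card, Fintype.card_perm, Fintype.card_fin]
    have h4 := Nat.factorial_le h2.le
    omega
  · have h1 := claw_of_law (law_iso e hlaw)
    obtain ⟨h2, h3⟩ := sl_bounds hA hB hn h1
    refine le_trans ?_ (Nat.le_add_left _ _)
    rw [Nat.card_congr e.toEquiv]
    refine (card_le _ (ι := Fin n) (F := F) (fun g => g.1) Subtype.val_injective).trans (bnd ?_ ?_)
    · nlinarith
    · rw [Fintype.card_fin]; omega
  · have h1 := claw_of_law (law_iso e hlaw)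
    obtain ⟨h2, h3⟩ := sl_bounds hA hB hm (claw_inj (lvSp m F) lvSp_inj h1)
    refine le_trans ?_ (Nat.le_add_left _ _)
    rw [Nat.card_congr e.toEquiv]
    refine (card_le _ (ι := Fin m ⊕ Fin m) (F := F) (fun g => g.1) Subtype.val_injective).trans (bnd ?_ ?_)
    · nlinarith
    · rw [Fintype.card_sum, Fintype.card_fin]; omega
  · have h1 := claw_of_law (law_iso e hlaw)
    obtain ⟨h2, h3⟩ := su_bounds hA hB hF (by omega) h1
    refine le_trans ?_ (Nat.le_add_left _ _)
    rw [Nat.card_congr e.toEquiv]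
    refine (card_le (G := Cfsg.SU n F q) _ (ι := Fin n) (F := F) (fun g => (g : Matrix.SpecialLinearGroup (Fin n) F).1) (fun a b h => Subtype.ext (Subtype.ext h))).trans (bnd ?_ ?_)
    · rw [hF]; nlinarith
    · rw [Fintype.card_fin]; omega
  · have h1 := claw_of_law (law_iso e hlaw)
    obtain ⟨ψ, hψ⟩ := lv_odd (F := F) hm
    obtain ⟨h2, h3⟩ := sl_bounds hA hB (by omega) (claw_inj ψ hψ h1)
    refine le_trans ?_ (Nat.le_add_left _ _)
    rw [Nat.card_congr e.toEquiv]
    refine (card_le _ (ι := Unit ⊕ (Fin m ⊕ Fin m)) (F := F) (fun g => (g.1.1 : Matrix _ _ F)) (fun a b h => Subtype.ext (Subtype.ext (Units.ext h)))).trans (bnd ?_ ?_)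
    · nlinarith
    · rw [Fintype.card_sum, Fintype.card_sum, Fintype.card_fin, Fintype.card_unit]; omega
  · have h1 := claw_of_law (law_iso e hlaw)
    obtain ⟨ψ, hψ⟩ := lv_plus (F := F) (m := m) (by omega)
    obtain ⟨h2, h3⟩ := sl_bounds hA hB (by omega) (claw_inj ψ hψ h1)
    refine le_trans ?_ (Nat.le_add_left _ _)
    rw [Nat.card_congr e.toEquiv]
    refine (card_le _ (ι := Fin m ⊕ Fin m) (F := F) (fun g => (g.1.1 : Matrix _ _ F)) (fun a b h => Subtype.ext (Subtype.ext (Units.ext h)))).trans (bnd ?_ ?_)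
    · nlinarith
    · rw [Fintype.card_sum, Fintype.card_fin]; omega
  · have h1 := claw_of_law (law_iso e hlaw)
    obtain ⟨ψ, hψ⟩ := lv_minus (F := F) (m := m - 1) a b (by omega)
    obtain ⟨h2, h3⟩ := sl_bounds hA hB (by omega) (claw_inj ψ hψ h1)
    refine le_trans ?_ (Nat.le_add_left _ _)
    rw [Nat.card_congr e.toEquiv]
    refine (card_le _ (ι := (Fin (m - 1) ⊕ Fin (m - 1)) ⊕ Fin 2) (F := F) (fun g => (g.1.1 : Matrix _ _ F)) (fun a b h => Subtype.ext (Subtype.ext (Units.ext h)))).trans (bnd ?_ ?_)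
    · nlinarith
    · rw [Fintype.card_sum, Fintype.card_sum, Fintype.card_fin, Fintype.card_fin]; omega

end Cfsg.Agent.S2355
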