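import Cfsg.Statements.S2450
import Mathlib
import Cfsg.Agent.H8.SL2f

set_option autoImplicit false
open Cfsg

namespace Cfsg.Agent.S2450

open Cfsg.Agent.H8.SL2

/-- every nonscalar element is conjugate to one with nonzero lower left entry -/
theorem exists_conj_lower {F : Type*} [Field F] (A : Matrix.SpecialLinearGroup (Fin 2) F) (hA : NS A.1) :
    ∃ B : Matrix.SpecialLinearGroup (Fin 2) F, IsConj A B ∧ B.1 1 0 ≠ 0 := by
  by_cases h : A.1 1 0 = 0
  · let w : Matrix.SpecialLinearGroup (Fin 2) F := mkSL !![0, 1; -1, 0] (by simp)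
    let l : Matrix.SpecialLinearGroup (Fin 2) F := mkSL !![1, 0; 1, 1] (by simp)
    have hwi : (w⁻¹).1 = !![0, -1; 1, 0] := by
      show Matrix.adjugate !![(0 : F), 1; -1, 0] = _
      rw [Matrix.adjugate_fin_two_of]; simp
    have hli : (l⁻¹).1 = !![1, 0; -1, 1] := by
      show Matrix.adjugate !![(1 : F), 0; 1, 1] = _
      rw [Matrix.adjugate_fin_two_of]; simp
    by_cases h1 : A.1 0 1 = 0
    · have h2 : A.1 0 0 ≠ A.1 1 1 := by
        rcases hA with h3 | h3 | h3
        · exact absurd h1 h3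
        · exact absurd h h3
        · exact h3
      refine ⟨l * A * l⁻¹, isConj_iff.2 ⟨l, rfl⟩, ?_⟩
      show (!![1, 0; 1, 1] * A.1 * (l⁻¹).1 : Matrix (Fin 2) (Fin 2) F) 1 0 ≠ 0
      rw [hli]
      simp only [Matrix.mul_apply, Fin.sum_univ_two]
      simp [h, h1]
      intro h3
      apply h2
      linear_combination h3
    · refine ⟨w * A * w⁻¹, isConj_iff.2 ⟨w, rfl⟩, ?_⟩
      show (!![0, 1; -1, 0] * A.1 * (w⁻¹).1 : Matrix (Fin 2) (Fin 2) F) 1 0 ≠ 0
      rw [hwi]
      simp only [Matrix.mul_apply, Fin.sum_univ_two]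
      simp
      exact h1
  · exact ⟨A, IsConj.refl _, h⟩

theorem trace_sq_psl {F : Type*} [Field F] (g h : Matrix.SpecialLinearGroup (Fin 2) F) (H : IsConj (pr g) (pr h)) : g.1.trace ^ 2 = h.1.trace ^ 2 := by
  obtain ⟨x, hx⟩ := isConj_iff.1 H
  obtain ⟨c, rfl⟩ := pr_surj x
  rw [← map_inv, ← map_mul, ← map_mul] at hx
  have h1 : (c * g * c⁻¹)⁻¹ * h ∈ Subgroup.center (Matrix.SpecialLinearGroup (Fin 2) F) := QuotientGroup.eq.1 hx
  rw [center_iff] at h1
  have ht := trace_conj (isConj_iff.2 ⟨c, rfl⟩ : IsConj g (c * g * c⁻¹))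
  rcases h1 with h1 | h1
  · have : c * g * c⁻¹ = h := inv_mul_eq_one.1 h1
    rw [ht, this]
  · have : h = (c * g * c⁻¹) * -1 := by rw [← h1]; group
    rw [this, mul_neg, mul_one, trace_neg_SL, ← ht]; ring

/-- The Arad–Herzog conjecture for PSL(2,q): let F be a finite field with q ≥ 4 elements. For any two non-identity elements a, b of PSL(2,F), the set of products of a conjugate of a with a conjugate of b is not a single conjugacy class. -/
theorem result {F : Type*} [Field F] [Fintype F] (h4 : 4 ≤ Fintype.card F)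
    (a b : Matrix.ProjectiveSpecialLinearGroup (Fin 2) F) (ha : a ≠ 1) (hb : b ≠ 1) (c : Matrix.ProjectiveSpecialLinearGroup (Fin 2) F) :
    {g : Matrix.ProjectiveSpecialLinearGroup (Fin 2) F | ∃ u v : Matrix.ProjectiveSpecialLinearGroup (Fin 2) F, g = (u * a * u⁻¹) * (v * b * v⁻¹)} ≠ {g | IsConj c g} := by
  classical
  intro heq
  obtain ⟨A0, rfl⟩ := pr_surj a
  obtain ⟨B0, rfl⟩ := pr_surj b
  have hA0 : NS A0.1 := by
    rw [ns_iff']
    intro h
    exact ha ((pr_eq_one A0).2 h)
  have hB0 : NS B0.1 := by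
    rw [ns_iff']
    intro h
    exact hb ((pr_eq_one B0).2 h)
  obtain ⟨A, hA, hAc⟩ := exists_conj_lower A0 hA0
  obtain ⟨B, hB, hBc⟩ := exists_conj_lower B0 hB0
  have hAB : ∀ s t : F, (A * (u s * B * (u s)⁻¹)).1.trace ^ 2 = (A * (u t * B * (u t)⁻¹)).1.trace ^ 2 := by
    intro s t
    have hmem : ∀ s : F, IsConj c (pr (A * (u s * B * (u s)⁻¹))) := by
      intro s
      have h1 : pr (A * (u s * B * (u s)⁻¹)) ∈ {g : Matrix.ProjectiveSpecialLinearGroup (Fin 2) F | ∃ u v : Matrix.ProjectiveSpecialLinearGroup (Fin 2) F, g = (u * pr A0 * u⁻¹) * (v * pr B0 * v⁻¹)} := by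
        obtain ⟨k, hk⟩ := isConj_iff.1 hA
        obtain ⟨l, hl⟩ := isConj_iff.1 hB
        refine ⟨pr k, pr (u s * l), ?_⟩
        rw [← hk, ← hl]
        simp only [map_mul, map_inv]
        group
      rw [heq] at h1
      exact h1
    exact trace_sq_psl _ _ ((hmem s).symm.trans (hmem t))
  have hui : ∀ s : F, ((u s)⁻¹).1 = !![1, -s; 0, 1] := by
    intro s
    show Matrix.adjugate !![(1 : F), s; 0, 1] = _
    rw [Matrix.adjugate_fin_two_of]; simp
  have htr : ∀ s : F, (A * (u s * B * (u s)⁻¹)).1.trace = -(A.1 1 0 * B.1 1 0) * s ^ 2 + (A.1 0 0 * B.1 1 0 - A.1 1 0 * B.1 0 0 + A.1 1 0 * B.1 1 1 - A.1 1 1 * B.1 1 0) * s + (A * B).1.trace := by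
    intro s
    show (A.1 * (!![1, s; 0, 1] * B.1 * ((u s)⁻¹).1)).trace = _
    have h3 : (A * B).1 = A.1 * B.1 := rfl
    rw [hui, h3, Matrix.trace_fin_two, Matrix.trace_fin_two]
    simp only [Matrix.mul_apply, Fin.sum_univ_two]
    simp
    ring
  set α := A.1 1 0 * B.1 1 0 with hα
  have hα0 : α ≠ 0 := mul_ne_zero hAc hBc
  set κ := A.1 0 0 * B.1 1 0 - A.1 1 0 * B.1 0 0 + A.1 1 0 * B.1 1 1 - A.1 1 1 * B.1 1 0 with hκ
  set f0 := (A * B).1.trace with hf0
  -- polynomial
  let P : Polynomial F := Polynomial.C (-α) * Polynomial.X ^ 2 + Polynomial.C κ * Polynomial.X + Polynomial.C f0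
  have hdeg : ∀ t : F, (P - Polynomial.C t).natDegree = 2 := by
    intro t
    have : P - Polynomial.C t = Polynomial.C (-α) * Polynomial.X ^ 2 + Polynomial.C κ * Polynomial.X + Polynomial.C (f0 - t) := by
      simp only [P, map_sub]; ring
    rw [this]
    exact Polynomial.natDegree_quadratic (neg_ne_zero.2 hα0)
  have hev : ∀ s t : F, (P - Polynomial.C t).IsRoot s ↔ (A * (u s * B * (u s)⁻¹)).1.trace = t := by
    intro s t
    rw [htr, Polynomial.IsRoot.def, Polynomial.eval_sub, Polynomial.eval_C, sub_eq_zero]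
    simp [P]
  set t0 := (A * (u 0 * B * (u 0)⁻¹)).1.trace with ht0
  have hcov : ∀ s : F, (P - Polynomial.C t0).IsRoot s ∨ (P - Polynomial.C (-t0)).IsRoot s := by
    intro s
    rw [hev, hev]
    have h1 := hAB s 0
    exact sq_eq_sq_iff_eq_or_eq_neg.1 h1
  have hne : ∀ t : F, P - Polynomial.C t ≠ 0 := by
    intro t h
    have := hdeg t
    rw [h] at this
    simp at this
  have hrc : ∀ t : F, ((P - Polynomial.C t).roots.toFinset).card ≤ 2 := by
    intro t
    exact (Multiset.toFinset_card_le _).trans ((Polynomial.card_roots' _).trans (hdeg t).le)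
  by_cases hr2 : ringChar F = 2
  · haveI : CharP F 2 := by rw [← hr2]; exact ringChar.charP F
    have hsub : (Finset.univ : Finset F) ⊆ (P - Polynomial.C t0).roots.toFinset := by
      intro s _
      rw [Multiset.mem_toFinset, Polynomial.mem_roots (hne _)]
      rcases hcov s with h | h
      · exact h
      · rwa [CharTwo.neg_eq] at h
    have h1 := Finset.card_le_card hsub
    rw [Finset.card_univ] at h1
    have := hrc t0
    omega
  · have hodd := FiniteField.odd_card_of_char_ne_two hr2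
    have hsub : (Finset.univ : Finset F) ⊆ (P - Polynomial.C t0).roots.toFinset ∪ (P - Polynomial.C (-t0)).roots.toFinset := by
      intro s _
      rw [Finset.mem_union, Multiset.mem_toFinset, Polynomial.mem_roots (hne _), Multiset.mem_toFinset, Polynomial.mem_roots (hne _)]
      exact hcov s
    have h1 := (Finset.card_le_card hsub).trans (Finset.card_union_le _ _)
    rw [Finset.card_univ] at h1
    have h2 := hrc t0
    have h3 := hrc (-t0)
    omega

end Cfsg.Agent.S2450
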