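import Cfsg.Statements.S2455
import Mathlib
import Cfsg.Agent.H8.SL2f

set_option autoImplicit false
open Cfsg

namespace Cfsg.Agent.S2455

open Cfsg.Agent.H8.SL2

/-- A strong covering result in the direction of Thompson's conjecture (non-identity elements) for PSL(2,q), q odd: let F be a finite field of odd characteristic p with at least 5 elements and let x ∈ PSL(2,F) have order greater than 2 and not divisible by p (so x is not unipotent). Then every non-identity element of PSL(2,F) is a product of two conjugates of x. -/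
theorem result {F : Type*} [Field F] [Fintype F] (p : ℕ) [Fact p.Prime] [CharP F p] (hp : p ≠ 2) (h5 : 5 ≤ Fintype.card F)
    (x : Matrix.ProjectiveSpecialLinearGroup (Fin 2) F) (hx2 : 2 < orderOf x) (hxp : ¬ p ∣ orderOf x) : ∀ g : Matrix.ProjectiveSpecialLinearGroup (Fin 2) F, g ≠ 1 → ∃ u v : Matrix.ProjectiveSpecialLinearGroup (Fin 2) F, g = (u * x * u⁻¹) * (v * x * v⁻¹) := by
  classical
  have hpp : p.Prime := Fact.out
  have hr2 : ringChar F ≠ 2 := by rw [ringChar.eq F p]; exact hp
  have h2' : (2 : F) ≠ 0 := Ring.two_ne_zero hr2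
  have hqN : Nat.card F = Fintype.card F := Nat.card_eq_fintype_card
  obtain ⟨s, rfl⟩ := pr_surj x
  have hsn : NS s.1 := by
    rw [ns_iff']
    intro h
    rw [(pr_eq_one s).2 h, orderOf_one] at hx2
    omega
  have hs0 : s.1.trace ≠ 0 := by
    intro h0
    have h1 := (sq_eq_neg_one_iff s hr2).2 h0
    have h3 : (pr s) ^ 2 = 1 := by rw [pr_pow_eq_one]; right; exact h1
    have := Nat.le_of_dvd (by norm_num) (orderOf_dvd_of_pow_eq_one h3)
    omega
  have hs4 : s.1.trace ^ 2 ≠ 4 := by
    intro h4
    have h5 : (s.1.trace - 2) * (s.1.trace + 2) = 0 := by linear_combination h4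
    have key : ∀ g : Matrix.SpecialLinearGroup (Fin 2) F, NS g.1 → g.1.trace = 2 → orderOf (pr g) = p := by
      intro g hg h
      obtain ⟨b, hb, hgb⟩ := conj_u g hg h
      apply orderOf_eq_prime
      · rw [← map_pow]
        have : g ^ p = 1 := by rw [pow_conj_eq hgb, u_pow, CharP.cast_eq_zero, zero_mul, u_zero]
        rw [this, map_one]
      · rw [Ne, pr_eq_one, ← ns_iff']; exact hg
    apply hxp
    rcases mul_eq_zero.1 h5 with h6 | h6
    · rw [key s hsn (sub_eq_zero.1 h6)]
    · have h7 : s.1.trace = -2 := eq_neg_of_add_eq_zero_left h6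
      have h8 : NS (-s).1 := by
        rw [ns_iff'] at hsn ⊢
        rintro (h4 | h4)
        · apply hsn; right; rw [← h4, neg_neg]
        · apply hsn; left; rw [← neg_neg s, h4, neg_neg]
      have h9 := key (-s) h8 (by rw [trace_neg_SL, h7, neg_neg])
      have h10 : pr (-s) = pr s := by
        have : (-s) = (-1) * s := by rw [neg_mul, one_mul]
        rw [this, map_mul, (pr_eq_one (-1)).2 (Or.inr rfl), one_mul]
      rw [h10] at h9
      rw [h9]
  have main : ∀ t : Matrix.SpecialLinearGroup (Fin 2) F, NS t.1 → t.1.trace ≠ 2 → ∃ k l : Matrix.SpecialLinearGroup (Fin 2) F, t = (k * s * k⁻¹) * (l * s * l⁻¹) := by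
    intro t ht ht2
    obtain ⟨A, B, hA, hB, hAB⟩ := exists_prod hr2 s.1.trace t.1.trace hs4
    refine conj_prod s A B t hsn hs4 hA hB ?_ ht hAB
    rw [ns_iff']
    rintro (h | h)
    · apply ht2
      rw [← hAB, h, trace_one_SL]
    · have h3 : B = -A⁻¹ := by
        have : B = A⁻¹ * (A * B) := by group
        rw [this, h, mul_neg, mul_one]
      have h4 : (A⁻¹).1.trace = A.1.trace := by
        show (Matrix.adjugate A.1).trace = _
        rw [Matrix.adjugate_fin_two, Matrix.trace_fin_two, Matrix.trace_fin_two]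
        simp [add_comm]
      rw [h3, trace_neg_SL, h4, hA] at hB
      apply hs0
      have : 2 * s.1.trace = 0 := by linear_combination -hB
      exact (mul_eq_zero.1 this).resolve_left h2'
  intro g hg
  obtain ⟨t, rfl⟩ := pr_surj g
  have htn : NS t.1 := by
    rw [ns_iff']
    intro h
    exact hg ((pr_eq_one t).2 h)
  have fin : ∀ t' : Matrix.SpecialLinearGroup (Fin 2) F, pr t' = pr t → NS t'.1 → t'.1.trace ≠ 2 → ∃ u v : Matrix.ProjectiveSpecialLinearGroup (Fin 2) F, pr t = (u * pr s * u⁻¹) * (v * pr s * v⁻¹) := by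
    intro t' h1 h2 h3
    obtain ⟨k, l, hkl⟩ := main t' h2 h3
    refine ⟨pr k, pr l, ?_⟩
    rw [← h1, hkl]
    simp only [map_mul, map_inv]
  by_cases h2t : t.1.trace = 2
  · apply fin (-t)
    · have : (-t) = (-1) * t := by rw [neg_mul, one_mul]
      rw [this, map_mul, (pr_eq_one (-1)).2 (Or.inr rfl), one_mul]
    · rw [ns_iff'] at htn ⊢
      rintro (h4 | h4)
      · apply htn; right; rw [← h4, neg_neg]
      · apply htn; left; rw [← neg_neg t, h4, neg_neg]
    · rw [trace_neg_SL, h2t]
      intro h
      have : (2 : F) * 2 = 0 := by linear_combination -h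
      rcases mul_eq_zero.1 this with h | h <;> exact h2' h
  · exact fin t rfl htn h2t

end Cfsg.Agent.S2455
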