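import Cfsg.Statements.S2456
import Mathlib
import Cfsg.Agent.H8.SL2e

set_option autoImplicit false
open Cfsg

namespace Cfsg.Agent.S2456

open Cfsg.Agent.H8.SL2

/-- A strong covering result in the direction of Thompson's conjecture (non-identity elements) for PSL(2,q), q even: let F be a finite field of characteristic 2 with q ≥ 4 elements and let x ∈ PSL(2,F) have order greater than 2 and not dividing q + 1. Then every non-identity element of PSL(2,F) is a product of two conjugates of x. -/
theorem result {F : Type*} [Field F] [Fintype F] [CharP F 2] (h4 : 4 ≤ Fintype.card F)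
    (x : Matrix.ProjectiveSpecialLinearGroup (Fin 2) F) (hx2 : 2 < orderOf x) (hxq : ¬ orderOf x ∣ Fintype.card F + 1) : ∀ g : Matrix.ProjectiveSpecialLinearGroup (Fin 2) F, g ≠ 1 → ∃ u v : Matrix.ProjectiveSpecialLinearGroup (Fin 2) F, g = (u * x * u⁻¹) * (v * x * v⁻¹) := by
  classical
  have hr2 : ringChar F = 2 := ringChar.eq F 2
  haveI : Fact (Nat.Prime 2) := ⟨Nat.prime_two⟩
  have hqN : Nat.card F = Fintype.card F := Nat.card_eq_fintype_card
  obtain ⟨s, rfl⟩ := pr_surj x
  have hsn : NS s.1 := by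
    rw [ns_iff']
    intro h
    rw [(pr_eq_one s).2 h, orderOf_one] at hx2
    omega
  have hsplit : ∃ a : Fˣ, (a : F) ^ 2 ≠ 1 ∧ IsConj s (dg a) := by
    rcases trichotomy s hsn with h | h | h
    · exact h
    · exfalso
      have h2 : s.1.trace = 2 := by
        rcases h with h | h
        · exact h
        · rw [h]
          have : (2 : F) = 0 := CharTwo.two_eq_zero
          rw [this]; simp
      obtain ⟨b, hb, hgb⟩ := conj_u s hsn h2
      have h3 : s ^ 2 = 1 := by
        rw [pow_conj_eq hgb, u_pow]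
        have : ((2 : ℕ) : F) = 0 := CharP.cast_eq_zero F 2
        rw [this, zero_mul, u_zero]
      have h4 : (pr s) ^ 2 = 1 := by rw [← map_pow, h3, map_one]
      have := Nat.le_of_dvd (by norm_num) (orderOf_dvd_of_pow_eq_one h4)
      omega
    · exfalso
      apply hxq
      rw [orderOf_dvd_iff_pow_eq_one, ← hqN, ← map_pow, pow_nonsplit s h, map_one]
  obtain ⟨a, ha, hsa⟩ := hsplit
  intro g hg
  obtain ⟨t, rfl⟩ := pr_surj g
  have htn : NS t.1 := by
    rw [ns_iff']
    intro h
    exact hg ((pr_eq_one t).2 h)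
  have haa : (a : F) * ((a⁻¹ : Fˣ) : F) = 1 := Units.mul_inv a
  have ha0 : (a : F) ≠ 0 := a.ne_zero
  set b : F := ((a⁻¹ : Fˣ) : F) with hb
  let c : F := t.1.trace - a ^ 2 - b ^ 2
  let L := mkSL !![(a : F), 0; c, b] (by rw [Matrix.det_fin_two_of, haa]; ring)
  let U := mkSL !![(a : F), 1; 0, b] (by rw [Matrix.det_fin_two_of, haa]; ring)
  have hne : (a : F) ≠ b := by
    intro h
    apply ha
    rw [sq]
    nth_rw 2 [h]
    exact haa
  have hst : s.1.trace = a + b := by rw [trace_conj hsa, dg_trace]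
  have hL : IsConj s L := by
    apply sl_conj s L hsn _ _ (Or.inr hr2)
    · right; right; rw [mkSL_val]; simpa using hne
    · rw [hst, mkSL_val, Matrix.trace_fin_two]; simp
  have hU : IsConj s U := by
    apply sl_conj s U hsn _ _ (Or.inr hr2)
    · left; rw [mkSL_val]; simp
    · rw [hst, mkSL_val, Matrix.trace_fin_two]; simp
  have hLU : (L * U).1 = !![(a : F) * a, a; c * a, c + b * b] := by
    show !![(a : F), 0; c, b] * !![(a : F), 1; 0, b] = _
    ext i j
    fin_cases i <;> fin_cases j <;> simp [Matrix.mul_apply, Fin.sum_univ_two]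
  have hconj : IsConj (L * U) t := by
    apply sl_conj _ t _ htn _ (Or.inr hr2)
    · left; rw [hLU]; simpa using ha0
    · rw [hLU, Matrix.trace_fin_two]
      simp only [Matrix.of_apply, Matrix.cons_val', Matrix.cons_val_zero, Matrix.cons_val_one, Matrix.cons_val_fin_one]
      show (a : F) * a + (t.1.trace - a ^ 2 - b ^ 2 + b * b) = t.1.trace
      ring
  obtain ⟨k, hk⟩ := isConj_iff.1 hconj
  obtain ⟨l, hl⟩ := isConj_iff.1 hL
  obtain ⟨m, hm⟩ := isConj_iff.1 hU
  refine ⟨pr (k * l), pr (k * m), ?_⟩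
  rw [← map_inv, ← map_inv, ← map_mul, ← map_mul, ← map_mul, ← map_mul, ← map_mul, ← hk, ← hl, ← hm]
  congr 1
  group

end Cfsg.Agent.S2456
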