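import Cfsg.Statements.S2457
import Mathlib
import Cfsg.Agent.H8.SzCl2
open Cfsg.Agent.H8.Suz

set_option autoImplicit false
open Cfsg

namespace Cfsg.Agent.S2457

section
variable {F : Type*} [Field F] [Fintype F] (m : ℕ) [H : Hyp F m]

theorem to_one {a b : F} (ha : a ≠ 0) : ∃ β, IsConj (U m a b) (U m 1 β) := by
  obtain ⟨k, hk⟩ : ∃ k : Fˣ, (k : F) = a⁻¹ := ⟨Units.mk0 a⁻¹ (inv_ne_zero ha), rfl⟩
  refine ⟨a⁻¹ * th m a⁻¹ * b, isConj_iff.2 ⟨T m k, ?_⟩⟩
  rw [T_conj_U, hk, inv_mul_cancel₀ ha]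

theorem case_four_unip {β₀ : F} {g : ↥(Cfsg.Sz F m)} (hg : ¬ SS m g) (g1 : g ≠ 1) : CC (U m 1 β₀) g := by
  have h2 := (two0 m : (2 : F) = 0)
  have hg' : ∃ y, y⁻¹ * g * y ∈ Q F m := by
    by_contra hcon; exact hg hcon
  obtain ⟨y, a', b', hy⟩ := hg'
  have hgy : IsConj (U m a' b') g := by
    rw [← hy]; exact isConj_iff.2 ⟨y, by group⟩
  apply CC_right hgy
  by_cases ha : a' = 0
  · rw [ha]
    have b0 : b' ≠ 0 := by
      rintro rfl
      rw [ha, U_zero] at hy
      exact conj_ne g1 hy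
    have n2 : U m 0 b' ≠ 1 := by
      rw [← U_zero m]; intro h
      exact b0 (U_inj m h).2
    obtain ⟨z, hz⟩ := invol_conj m (U0_sq' m 1) (U01_ne (F := F) m) (U0_sq' m b') n2
    have : IsConj (U m 0 1) (U m 0 b') := isConj_iff.2 ⟨z⁻¹, by rw [hz, inv_inv]⟩
    apply CC_right this
    refine ⟨U m 1 β₀, U m 1 β₀, IsConj.refl _, IsConj.refl _, ?_⟩
    rw [U_sq, th_one, mul_one]
  · obtain ⟨b'', hb''⟩ := to_one m (b := b') ha
    apply CC_right hb''.symm
    obtain ⟨a, a0, a1⟩ := exists_ne01 (F := F) (by have := card_ge (F := F) m; omega)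
    have hρ1 : a * th m a ≠ 1 := by
      have := unit_th_ne m (k := Units.mk0 a a0) a1
      exact this
    have hρ0 : a * th m a ≠ 0 := mul_ne_zero a0 (fun h => a0 ((th_eq_zero m).1 h))
    have ha1 : a + 1 ≠ 0 := fun h => a1 (eq_of_add_zero m h)
    have hconj : ∀ a : F, a ≠ 0 → ∀ β, II m (β₀ + β) → IsConj (U m 1 β₀) (U m a (a * th m a * β)) := by
      intro a ha β hβ
      refine (U1_conj m hβ).trans (isConj_iff.2 ⟨T m (Units.mk0 a ha), ?_⟩)
      rw [T_conj_U, Units.val_mk0, mul_one]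
    obtain ⟨i, hi, hw⟩ : ∃ i, II m i ∧ II m (a * th m a * i + (a * th m a * β₀ + (a + 1) * th m (a + 1) * β₀ + th m a * (a + 1) + b'')) := by
      by_cases h : II m (a * th m a * β₀ + (a + 1) * th m (a + 1) * β₀ + th m a * (a + 1) + b'')
      · exact ⟨0, II_zero m, by rw [mul_zero, zero_add]; exact h⟩
      · have h3 : ∃ i, II m i ∧ ¬ II m (a * th m a * i) := by
          by_contra hcon
          push Not at hcon
          rcases II_mul m hcon with h | h
          · exact hρ0 h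
          · exact hρ1 h
        obtain ⟨i, hi, hi2⟩ := h3
        rw [II_not] at h hi2
        refine ⟨i, hi, ?_⟩
        have := II_add m hi2 h
        have e : a * th m a * i + 1 + (a * th m a * β₀ + (a + 1) * th m (a + 1) * β₀ + th m a * (a + 1) + b'' + 1) =
            a * th m a * i + (a * th m a * β₀ + (a + 1) * th m (a + 1) * β₀ + th m a * (a + 1) + b'') := by linear_combination h2
        rwa [e] at this
    have h4 : IsConj (U m 1 (a * th m a * (β₀ + i) + (a + 1) * th m (a + 1) * β₀ + th m a * (a + 1))) (U m 1 b'') := by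
      apply U1_conj
      have e : a * th m a * (β₀ + i) + (a + 1) * th m (a + 1) * β₀ + th m a * (a + 1) + b'' = a * th m a * i + (a * th m a * β₀ + (a + 1) * th m (a + 1) * β₀ + th m a * (a + 1) + b'') := by ring
      rw [e]; exact hw
    apply CC_right h4
    refine ⟨U m a (a * th m a * (β₀ + i)), U m (a + 1) ((a + 1) * th m (a + 1) * β₀), ?_, ?_, ?_⟩
    · apply hconj a a0
      have e : β₀ + (β₀ + i) = i := by linear_combination β₀ * h2
      rw [e]; exact hi
    · apply hconj (a + 1) ha1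
      rw [add_self m]; exact II_zero m
    · rw [U_mul]
      congr 1
      linear_combination -a * h2

theorem main {x : ↥(Cfsg.Sz F m)} (hx : 2 < orderOf x) {g : ↥(Cfsg.Sz F m)} (g1 : g ≠ 1) : CC x g := by
  by_cases hxs : SS m x
  · by_cases hgs : SS m g
    · exact case_ss_ss m (SS_tr m hxs) (SS_tr m hgs)
    · exact case_ss_unip m (SS_tr m hxs) hgs g1
  · have hx' : ∃ y, y⁻¹ * x * y ∈ Q F m := by
      by_contra hcon; exact hxs hcon
    obtain ⟨y, a, b, hy⟩ := hx'
    have hxy : IsConj x (U m a b) := by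
      rw [← hy]; exact isConj_iff.2 ⟨y⁻¹, by group⟩
    have ha : a ≠ 0 := by
      rintro rfl
      have h1 : x * x = 1 := by
        have e : x = y * (y⁻¹ * x * y) * y⁻¹ := by group
        rw [e, hy]
        calc y * U m 0 b * y⁻¹ * (y * U m 0 b * y⁻¹) = y * (U m 0 b * U m 0 b) * y⁻¹ := by group
          _ = 1 := by rw [U0_sq']; group
      have h2 : orderOf x ∣ 2 := orderOf_dvd_of_pow_eq_one (by rw [sq, h1])
      have := Nat.le_of_dvd (by norm_num) h2
      omega
    obtain ⟨β₀, hβ₀⟩ := to_one m (b := b) ha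
    have h3 : IsConj x (U m 1 β₀) := hxy.trans hβ₀
    have h4 : CC (U m 1 β₀) g := by
      by_cases hgs : SS m g
      · exact case_four_ss m (SS_tr m hgs)
      · exact case_four_unip m hgs g1
    obtain ⟨u, v, hu, hv, huv⟩ := h4
    exact ⟨u, v, h3.trans hu, h3.trans hv, huv⟩
end

/-- A strong covering result in the direction of Thompson's conjecture (non-identity elements) for the Suzuki groups: let q = 2^(2m+1) ≥ 8, F the field with q elements and Sz(q) the Suzuki group over F. For every element x of Sz(q) of order greater than 2, every non-identity element of Sz(q) is a product of two conjugates of x. -/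
theorem result {F : Type*} [Field F] [Fintype F] (m : ℕ) (hm : 1 ≤ m) (hF : Fintype.card F = 2 ^ (2 * m + 1))
    (x : Cfsg.Lie.Sz F (2 ^ (m + 1))) (hx2 : 2 < orderOf x) : ∀ g : Cfsg.Lie.Sz F (2 ^ (m + 1)), g ≠ 1 → ∃ u v : Cfsg.Lie.Sz F (2 ^ (m + 1)), g = (u * x * u⁻¹) * (v * x * v⁻¹) := by
  haveI : Cfsg.Agent.H8.Suz.Hyp F m := ⟨hm, hF⟩
  intro g hg
  obtain ⟨x', rfl⟩ := (eLie (F := F) m).surjective x
  obtain ⟨g', rfl⟩ := (eLie (F := F) m).surjective g
  rw [MulEquiv.orderOf_eq] at hx2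
  have hg' : g' ≠ 1 := by rintro rfl; exact hg (map_one _)
  obtain ⟨y, y', hy, hy', h⟩ := main m hx2 hg'
  obtain ⟨u, hu⟩ := isConj_iff.1 hy
  obtain ⟨v, hv⟩ := isConj_iff.1 hy'
  refine ⟨eLie (F := F) m u, eLie (F := F) m v, ?_⟩
  rw [h, ← hu, ← hv]
  simp only [map_mul, map_inv]

end Cfsg.Agent.S2457
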