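import Cfsg.Statements.S2466
import Mathlib
import Cfsg.Agent.H8.Alt

set_option autoImplicit false
open Cfsg

namespace Cfsg.Agent.S2466



/-- Adjacency of odd primes in the prime graph of the alternating groups: let r ≠ s be odd primes at most n. The alternating group of degree n has an element of order r·s if and only if r + s ≤ n. -/
theorem result (n r s : ℕ) (hr : r.Prime) (hs : s.Prime) (hr2 : r ≠ 2) (hs2 : s ≠ 2) (hrs : r ≠ s) (hrn : r ≤ n) (hsn : s ≤ n) :
    (r * s ∈ Set.range (orderOf : alternatingGroup (Fin n) → ℕ)) ↔ r + s ≤ n := by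
  constructor
  · rintro ⟨σ, hσ⟩
    have hord : orderOf (σ : Equiv.Perm (Fin n)) = r * s := by
      rw [← hσ, Subgroup.orderOf_coe]
    have hlcm : (σ : Equiv.Perm (Fin n)).cycleType.lcm = r * s := by
      rw [Equiv.Perm.lcm_cycleType, hord]
    have hsum : (σ : Equiv.Perm (Fin n)).cycleType.sum ≤ n := by
      have := Equiv.Perm.sum_cycleType_le (σ : Equiv.Perm (Fin n))
      simpa [lcm_eq_nat_lcm] using this
    have hr3 : 3 ≤ r := by have := hr.two_le; omega
    have hs3 : 3 ≤ s := by have := hs.two_le; omega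
    have hex : ∀ t : ℕ, t.Prime → t ∣ r * s → ∃ a ∈ (σ : Equiv.Perm (Fin n)).cycleType, t ∣ a :=
      fun t ht h => Cfsg.Agent.H8.exists_cycle_dvd _ ht (by rwa [hord])
    obtain ⟨a, ha, hra⟩ := hex r hr (dvd_mul_right _ _)
    obtain ⟨b, hb, hsb⟩ := hex s hs (dvd_mul_left _ _)
    have hapos := Equiv.Perm.two_le_of_mem_cycleType ha
    have hbpos := Equiv.Perm.two_le_of_mem_cycleType hb
    by_cases hab : a = b
    · subst hab
      have h1 : r * s ∣ a := Nat.Coprime.mul_dvd_of_dvd_of_dvd ((Nat.coprime_primes hr hs).2 hrs) hra hsb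
      have h2 : r * s ≤ a := Nat.le_of_dvd (by omega) h1
      have h3 : a ≤ (σ : Equiv.Perm (Fin n)).cycleType.sum := Multiset.le_sum_of_mem ha
      nlinarith
    · obtain ⟨T, hT⟩ := Multiset.exists_cons_of_mem ha
      have hbT : b ∈ T := by
        rw [hT, Multiset.mem_cons] at hb
        exact hb.resolve_left (Ne.symm hab)
      have h3 : b ≤ T.sum := Multiset.le_sum_of_mem hbT
      rw [hT, Multiset.sum_cons] at hsum
      have h4 := Nat.le_of_dvd (by omega) hra
      have h5 := Nat.le_of_dvd (by omega) hsb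
      omega
  · intro h
    obtain ⟨σ, hσ⟩ := (Equiv.Perm.exists_with_cycleType_iff (Fin n) (m := {r, s})).2
      (by
        refine ⟨by simpa using h, ?_⟩
        intro a ha
        simp only [Multiset.insert_eq_cons, Multiset.mem_cons, Multiset.mem_singleton] at ha
        rcases ha with rfl | rfl
        · exact hr.two_le
        · exact hs.two_le)
    have hro := hr.odd_of_ne_two hr2
    have hso := hs.odd_of_ne_two hs2
    have hsg : Equiv.Perm.sign σ = 1 := by
      rw [Equiv.Perm.sign_of_cycleType, hσ]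
      simp only [Multiset.insert_eq_cons, Multiset.sum_cons, Multiset.sum_singleton, Multiset.card_cons, Multiset.card_singleton]
      exact Even.neg_one_pow (by obtain ⟨a, ha⟩ := hro; obtain ⟨b, hb⟩ := hso; exact ⟨a + b + 2, by omega⟩)
    refine ⟨⟨σ, Equiv.Perm.mem_alternatingGroup.2 hsg⟩, ?_⟩
    rw [← Subgroup.orderOf_coe, ← Equiv.Perm.lcm_cycleType, hσ]
    simp only [Multiset.insert_eq_cons, Multiset.lcm_cons, Multiset.lcm_singleton]
    have : Nat.lcm r s = r * s := Nat.Coprime.lcm_eq_mul ((Nat.coprime_primes hr hs).2 hrs)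
    simpa [lcm_eq_nat_lcm] using this

end Cfsg.Agent.S2466
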