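import Cfsg.Statements.S2467
import Mathlib
import Cfsg.Agent.H8.Alt

set_option autoImplicit false
open Cfsg

namespace Cfsg.Agent.S2467



/-- Adjacency of 2 and an odd prime in the prime graph of the alternating groups: let r be an odd prime at most n, with n ≥ 4. The alternating group of degree n has an element of order 2r if and only if r + 4 ≤ n. -/
theorem result (n r : ℕ) (hn : 4 ≤ n) (hr : r.Prime) (hr2 : r ≠ 2) (hrn : r ≤ n) :
    (2 * r ∈ Set.range (orderOf : alternatingGroup (Fin n) → ℕ)) ↔ r + 4 ≤ n := by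
  have hro := hr.odd_of_ne_two hr2
  have hr3 : 3 ≤ r := by have := hr.two_le; omega
  constructor
  · rintro ⟨σ, hσ⟩
    have hord : orderOf (σ : Equiv.Perm (Fin n)) = 2 * r := by
      rw [← hσ, Subgroup.orderOf_coe]
    have hsum := Cfsg.Agent.H8.sum_cycleType_fin_le (σ : Equiv.Perm (Fin n))
    have hsg : Equiv.Perm.sign (σ : Equiv.Perm (Fin n)) = 1 := Equiv.Perm.mem_alternatingGroup.1 σ.2
    obtain ⟨a, ha, h2a⟩ := Cfsg.Agent.H8.exists_cycle_dvd (σ : Equiv.Perm (Fin n)) Nat.prime_two (by rw [hord]; exact dvd_mul_right _ _)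
    obtain ⟨b, hb, hrb⟩ := Cfsg.Agent.H8.exists_cycle_dvd (σ : Equiv.Perm (Fin n)) hr (by rw [hord]; exact dvd_mul_left _ _)
    obtain ⟨T, hT⟩ := Multiset.exists_cons_of_mem ha
    have hge : ∀ c ∈ (σ : Equiv.Perm (Fin n)).cycleType, 2 ≤ c := fun c hc => Equiv.Perm.two_le_of_mem_cycleType hc
    have hex : ∃ a' ∈ T, 2 ∣ a' := by
      by_contra hcon
      push Not at hcon
      rw [Equiv.Perm.sign_of_cycleType', hT, Multiset.map_cons, Multiset.prod_cons] at hsg
      have h1 : (T.map (fun n => -(-1 : ℤˣ) ^ n)).prod = 1 := by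
        apply Multiset.prod_eq_one
        intro x hx
        rw [Multiset.mem_map] at hx
        obtain ⟨c, hc, rfl⟩ := hx
        have : Odd c := by
          rw [← Nat.not_even_iff_odd, even_iff_two_dvd]; exact hcon c hc
        rw [this.neg_one_pow, neg_neg]
      rw [h1, mul_one, (even_iff_two_dvd.2 h2a).neg_one_pow] at hsg
      exact absurd hsg (by decide)
    obtain ⟨a', ha', h2a'⟩ := hex
    obtain ⟨T', hT'⟩ := Multiset.exists_cons_of_mem ha'
    have hA := hge a ha
    have hA' := hge a' (by rw [hT]; exact Multiset.mem_cons_of_mem ha')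
    have hB := hge b hb
    have hcop : Nat.Coprime 2 r := (Nat.coprime_primes Nat.prime_two hr).2 (Ne.symm hr2)
    rw [hT, hT', Multiset.sum_cons, Multiset.sum_cons] at hsum
    rw [hT, hT', Multiset.mem_cons, Multiset.mem_cons] at hb
    rcases hb with rfl | rfl | hb
    · have h1 := Nat.le_of_dvd (by omega) (Nat.Coprime.mul_dvd_of_dvd_of_dvd hcop h2a hrb)
      omega
    · have h1 := Nat.le_of_dvd (by omega) (Nat.Coprime.mul_dvd_of_dvd_of_dvd hcop h2a' hrb)
      omega
    · have h1 := Nat.le_of_dvd (by omega) hrb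
      have h2 : b ≤ T'.sum := Multiset.le_sum_of_mem hb
      omega
  · intro h
    obtain ⟨σ, hσ⟩ := (Equiv.Perm.exists_with_cycleType_iff (Fin n) (m := {r, 2, 2})).2
      (by
        refine ⟨by simp; omega, ?_⟩
        intro a ha
        simp only [Multiset.insert_eq_cons, Multiset.mem_cons, Multiset.mem_singleton] at ha
        rcases ha with rfl | rfl | rfl
        · exact hr.two_le
        · exact le_rfl
        · exact le_rfl)
    have hsg : Equiv.Perm.sign σ = 1 := by
      rw [Equiv.Perm.sign_of_cycleType, hσ]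
      simp only [Multiset.insert_eq_cons, Multiset.sum_cons, Multiset.sum_singleton, Multiset.card_cons, Multiset.card_singleton]
      exact Even.neg_one_pow (by obtain ⟨a, ha⟩ := hro; exact ⟨a + 4, by omega⟩)
    refine ⟨⟨σ, Equiv.Perm.mem_alternatingGroup.2 hsg⟩, ?_⟩
    rw [← Subgroup.orderOf_coe, ← Equiv.Perm.lcm_cycleType, hσ]
    simp only [Multiset.insert_eq_cons, Multiset.lcm_cons, Multiset.lcm_singleton]
    have : Nat.lcm r 2 = r * 2 := Nat.Coprime.lcm_eq_mul ((Nat.coprime_primes hr Nat.prime_two).2 hr2)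
    simp [lcm_eq_nat_lcm, this, mul_comm]

end Cfsg.Agent.S2467
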