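import Cfsg.Statements.S2471
import Mathlib

-- import your own Cfsg.Agent.* helpers here

set_option autoImplicit false
open Cfsg

namespace Cfsg.Agent.S2471

/-- In PSL(2,q) with q odd, the characteristic p is isolated from 2 in the prime graph: for F a finite field of odd characteristic p with at least 5 elements, PSL(2,F) has no element of order 2p. -/
theorem result {F : Type*} [Field F] [Fintype F] (p : ℕ) [Fact p.Prime] [CharP F p] (hp : p ≠ 2) (h5 : 5 ≤ Fintype.card F) (g : Matrix.ProjectiveSpecialLinearGroup (Fin 2) F) :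
    orderOf g ≠ 2 * p := by
  classical
  intro hg
  have hpp := (Fact.out : p.Prime)
  obtain ⟨A, rfl⟩ := QuotientGroup.mk_surjective g
  let M : Matrix (Fin 2) (Fin 2) F := (A : Matrix (Fin 2) (Fin 2) F)
  have hMd : M = (A : Matrix (Fin 2) (Fin 2) F) := rfl
  have hscal : ∀ (B : Matrix.SpecialLinearGroup (Fin 2) F) (c : F), (B : Matrix (Fin 2) (Fin 2) F) = c • (1 : Matrix (Fin 2) (Fin 2) F) →
      B ∈ Subgroup.center (Matrix.SpecialLinearGroup (Fin 2) F) := by
    intro B c hB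
    rw [Subgroup.mem_center_iff]
    intro C
    apply Subtype.ext
    rw [Matrix.SpecialLinearGroup.coe_mul, Matrix.SpecialLinearGroup.coe_mul, hB]
    simp
  have hpow : ∀ (n : ℕ) (c : F), M ^ n = c • (1 : Matrix (Fin 2) (Fin 2) F) → n ≠ 0 → 2 * p ∣ n := by
    intro n c h hn
    have h1 : A ^ n ∈ Subgroup.center (Matrix.SpecialLinearGroup (Fin 2) F) := hscal _ c (by rw [Matrix.SpecialLinearGroup.coe_pow]; exact h)
    have h2 : (QuotientGroup.mk A : Matrix.ProjectiveSpecialLinearGroup (Fin 2) F) ^ n = 1 := by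
      rw [← QuotientGroup.mk_pow]
      exact (QuotientGroup.eq_one_iff _).mpr h1
    rw [← hg]
    exact orderOf_dvd_of_pow_eq_one h2
  have h3 : A ^ (2 * p) ∈ Subgroup.center (Matrix.SpecialLinearGroup (Fin 2) F) := by
    rw [← QuotientGroup.eq_one_iff, QuotientGroup.mk_pow, ← hg, pow_orderOf_eq_one]
  obtain ⟨r, hr, hrA⟩ := Matrix.SpecialLinearGroup.mem_center_iff.mp h3
  have hM2 : (M ^ 2) ^ p = r • (1 : Matrix (Fin 2) (Fin 2) F) := by
    rw [← pow_mul, hMd, ← Matrix.SpecialLinearGroup.coe_pow, ← hrA, Matrix.scalar_apply, ← Matrix.smul_one_eq_diagonal]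
  rw [Fintype.card_fin] at hr
  have hrp : r ^ p = r := by
    obtain ⟨k, hk⟩ := hpp.eq_two_or_odd'.resolve_left hp
    rw [hk, pow_add, pow_mul, hr, one_pow, one_mul, pow_one]
  haveI hCP : CharP (Matrix (Fin 2) (Fin 2) F) p := inferInstance
  have hN : (M ^ 2 - r • (1 : Matrix (Fin 2) (Fin 2) F)) ^ p = 0 := by
    have hc : Commute (M ^ 2) (r • (1 : Matrix (Fin 2) (Fin 2) F)) := by simp [Commute, SemiconjBy]
    rw [sub_pow_char_of_commute p hc, hM2, smul_pow, one_pow, hrp, sub_self]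
  have hCH : M ^ 2 = (M 0 0 + M 1 1) • M - (1 : Matrix (Fin 2) (Fin 2) F) := by
    have hdet : M 0 0 * M 1 1 - M 0 1 * M 1 0 = 1 := by
      have := A.2
      rwa [Matrix.det_fin_two] at this
    rw [pow_two]
    ext i j
    fin_cases i <;> fin_cases j <;> simp [Matrix.mul_apply, Fin.sum_univ_two] <;> first | linear_combination -hdet | ring
  by_cases ht : M 0 0 + M 1 1 = 0
  · rw [ht, zero_smul, zero_sub] at hCH
    have := hpow 2 (-1) (by rw [hCH, neg_smul, one_smul]) (by norm_num)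
    have h6 := Nat.le_of_dvd (by norm_num) this
    have := hpp.two_le
    omega
  · obtain ⟨N, hNd⟩ : ∃ N, N = M ^ 2 - r • (1 : Matrix (Fin 2) (Fin 2) F) := ⟨_, rfl⟩
    rw [← hNd] at hN
    have h7 : (M 0 0 + M 1 1) • M = N + (1 + r) • (1 : Matrix (Fin 2) (Fin 2) F) := by
      rw [hNd, hCH, add_smul (1 : F) r, one_smul]; abel
    have h8 : ((M 0 0 + M 1 1) • M) ^ p = (1 + r) ^ p • (1 : Matrix (Fin 2) (Fin 2) F) := by
      have hc : Commute N ((1 + r) • (1 : Matrix (Fin 2) (Fin 2) F)) := by simp [Commute, SemiconjBy]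
      rw [h7, add_pow_char_of_commute p hc, hN, zero_add, smul_pow, one_pow]
    rw [smul_pow] at h8
    have h9 : M ^ p = (((M 0 0 + M 1 1) ^ p)⁻¹ * (1 + r) ^ p) • (1 : Matrix (Fin 2) (Fin 2) F) := by
      rw [mul_smul, ← h8, smul_smul, inv_mul_cancel₀ (pow_ne_zero p ht), one_smul]
    have := hpow p _ h9 hpp.ne_zero
    have h10 := Nat.le_of_dvd hpp.pos this
    have := hpp.pos
    omega

end Cfsg.Agent.S2471
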