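import Cfsg.Statements.S2475
import Mathlib
import Cfsg.Agent.H8.SL2e

set_option autoImplicit false
open Cfsg

namespace Cfsg.Agent.S2475

open Cfsg.Agent.H8.SL2

theorem odd_of {F : Type*} [Field F] [Fintype F] (h2 : ringChar F ≠ 2) : Fintype.card F % 2 = 1 := by
  have := FiniteField.odd_card_of_char_ne_two h2
  omega

theorem even_of {F : Type*} [Field F] [Fintype F] (h2 : ringChar F = 2) : Fintype.card F % 2 = 0 := by
  have := FiniteField.even_card_of_char_two h2
  omega

/-- The set of element orders of PSL(2,q): let F be a finite field of characteristic p with q ≥ 4 elements and d = gcd(2, q − 1). The orders of elements of PSL(2,F) are exactly the divisors of p, of (q − 1)/d and of (q + 1)/d. -/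
theorem result {F : Type*} [Field F] [Fintype F] (p : ℕ) [Fact p.Prime] [CharP F p] (h4 : 4 ≤ Fintype.card F) :
    Set.range (orderOf : Matrix.ProjectiveSpecialLinearGroup (Fin 2) F → ℕ) =
      {m : ℕ | m ∣ p ∨ m ∣ (Fintype.card F - 1) / Nat.gcd 2 (Fintype.card F - 1) ∨ m ∣ (Fintype.card F + 1) / Nat.gcd 2 (Fintype.card F - 1)} := by
  classical
  have hp : p.Prime := Fact.out
  have hq1 : 1 < Fintype.card F := Fintype.one_lt_card
  set q := Fintype.card F with hq
  have hqN : Nat.card F = q := Nat.card_eq_fintype_card
  set d := Nat.gcd 2 (q - 1) with hd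
  have hdval : d = if ringChar F = 2 then 1 else 2 := by
    by_cases h2 : ringChar F = 2
    · rw [if_pos h2, hd]
      have := even_of (F := F) h2
      have h3 : (q - 1) % 2 = 1 := by omega
      exact Nat.coprime_two_left.2 (Nat.odd_iff.2 h3)
    · rw [if_neg h2, hd]
      have := odd_of (F := F) h2
      have h3 : 2 ∣ q - 1 := by omega
      exact Nat.gcd_eq_left h3
  have hdc : Nat.card (Subgroup.center (Matrix.SpecialLinearGroup (Fin 2) F)) = d := by rw [card_center, hdval]
  have hd1 : d ∣ q - 1 := Nat.gcd_dvd_right _ _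
  have hd2 : d ∣ q + 1 := by
    have h3 : d ∣ 2 := Nat.gcd_dvd_left _ _
    have : q + 1 = (q - 1) + 2 := by omega
    rw [this]
    exact dvd_add hd1 h3
  have hdpos : 0 < d := Nat.gcd_pos_of_pos_left _ (by norm_num)
  -- x ^ (d * k) = 1 → ± 1
  have hroot : ∀ (g : Matrix.SpecialLinearGroup (Fin 2) F) (N : ℕ), d ∣ N → g ^ N = 1 → (pr g) ^ (N / d) = 1 := by
    intro g N hdN h1
    rw [pr_pow_eq_one]
    by_cases h2 : ringChar F = 2
    · left
      rw [hdval, if_pos h2, Nat.div_one]; exact h1
    · apply sq_eq_one _ _ h2
      rw [← pow_mul]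
      have : N / d * 2 = N := by
        rw [hdval, if_neg h2] at hdN ⊢
        exact Nat.div_mul_cancel hdN
      rw [this, h1]
  ext m
  constructor
  · rintro ⟨x, rfl⟩
    obtain ⟨g, rfl⟩ := pr_surj x
    by_cases hg : NS g.1
    · rcases trichotomy g hg with ⟨a, ha, hga⟩ | h | h
      · right; left
        rw [orderOf_dvd_iff_pow_eq_one]
        apply hroot g _ hd1
        rw [pow_conj_eq hga]
        show dgHom a ^ (q - 1) = 1
        rw [← map_pow]
        have : a ^ (q - 1) = 1 := by
          have h3 := pow_card_eq_one (x := a)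
          rwa [Fintype.card_units] at h3
        rw [this, map_one]
      · left
        rw [orderOf_dvd_iff_pow_eq_one]
        have key : ∀ g : Matrix.SpecialLinearGroup (Fin 2) F, NS g.1 → g.1.trace = 2 → g ^ p = 1 := by
          intro g hg h
          obtain ⟨b, hb, hgb⟩ := conj_u g hg h
          rw [pow_conj_eq hgb, u_pow, CharP.cast_eq_zero, zero_mul, u_zero]
        rw [pr_pow_eq_one]
        rcases h with h | h
        · left; exact key g hg h
        · have h3 : NS (-g).1 := by
            rw [ns_iff'] at hg ⊢
            rintro (h4 | h4)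
            · apply hg; right; rw [← h4, neg_neg]
            · apply hg; left; rw [← neg_neg g, h4, neg_neg]
          have h4 := key (-g) h3 (by rw [trace_neg_SL, h, neg_neg])
          rcases neg_one_pow_eq_or (Matrix.SpecialLinearGroup (Fin 2) F) p with h5 | h5
          · left
            rw [neg_pow, h5, one_mul] at h4; exact h4
          · right
            rw [neg_pow, h5, neg_mul, one_mul] at h4
            rw [← neg_neg (g ^ p), h4]
      · right; right
        rw [orderOf_dvd_iff_pow_eq_one]
        apply hroot g _ hd2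
        have := pow_nonsplit g h
        rwa [hqN] at this
    · left
      rw [ns_iff', not_not] at hg
      rw [(pr_eq_one g).2 hg, orderOf_one]
      exact one_dvd _
  · rintro (h | h | h)
    · rcases (Nat.dvd_prime hp).1 h with rfl | rfl
      · exact ⟨1, orderOf_one⟩
      · refine ⟨pr (u 1), ?_⟩
        apply orderOf_eq_prime
        · have h5 : (u (1 : F)) ^ m = 1 := by
            rw [u_pow, CharP.cast_eq_zero, zero_mul, u_zero]
          rw [← map_pow, h5, map_one]
        · rw [Ne, pr_eq_one, ← ns_iff']
          exact u_ns one_ne_zero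
    · obtain ⟨a, ha⟩ := exists_split (F := F) (by rw [hqN]; exact h4)
      obtain ⟨x, hx⟩ := exists_order_of_cyclic (F := F) (dgHom (F := F)).range (isCyclic_of_surjective (dgHom (F := F)).rangeRestrict (dgHom (F := F)).rangeRestrict_surjective)
        (by rw [← cent_dg a ha]; exact center_le_cent _) m (by
          rw [hdc]
          have h3 : Nat.card (dgHom (F := F)).range = q - 1 := by
            rw [← cent_dg a ha, card_cent_dg a ha, hqN]
          rw [h3]
          obtain ⟨k, hk⟩ := h
          refine ⟨k, ?_⟩
          rw [← Nat.div_mul_cancel hd1, hk]; ring)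
      exact ⟨x, hx⟩
    · obtain ⟨g, hg⟩ := exists_nonsplit F
      obtain ⟨hcyc, hcard⟩ := cent_nonsplit g hg
      obtain ⟨x, hx⟩ := exists_order_of_cyclic (F := F) _ hcyc (center_le_cent _) m (by
          rw [hdc, hcard, hqN]
          obtain ⟨k, hk⟩ := h
          refine ⟨k, ?_⟩
          rw [← Nat.div_mul_cancel hd2, hk]; ring)
      exact ⟨x, hx⟩

end Cfsg.Agent.S2475
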