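import Cfsg.Statements.S2478
import Mathlib
import Cfsg.Agent.H8.GLType
import Cfsg.Agent.H8.MonicCount

set_option autoImplicit false
open Cfsg

namespace Cfsg.Agent.S2478

open Cfsg.Agent.H8 Cfsg.Agent.H8.RCF Polynomial

variable {F : Type*} [Field F] [Finite F]

theorem sum_sing {ι α : Type*} (s : Finset ι) (f : ι → α) : ∑ i ∈ s, ({f i} : Multiset α) = s.val.map f := by
  show (s.val.map (fun i => ({f i} : Multiset α))).sum = _
  conv_rhs => rw [← Multiset.sum_map_singleton (s.val.map f), Multiset.map_map]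
  rfl

abbrev Mon (F : Type*) [Field F] (d : ℕ) := {g : F[X] // (g.Monic ∧ g.natDegree = d) ∧ g.coeff 0 ≠ 0}

abbrev Sq (F : Type*) [Field F] (j n : ℕ) := {h : Fin j → F[X] // (∀ i, (h i).Monic ∧ (h i).coeff 0 ≠ 0) ∧ ∑ i, (i.val + 1) * (h i).natDegree = n}

instance (d : ℕ) : Finite (Mon F d) :=
  Finite.of_injective (β := {g : F[X] // g.Monic ∧ g.natDegree = d}) (fun g => ⟨g.1, g.2.1⟩) (by
    intro a b h
    exact Subtype.ext (congrArg (fun x => x.1) h))

theorem card_Mon_zero : Nat.card (Mon F 0) = 1 := by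
  rw [Nat.card_eq_one_iff_unique]
  refine ⟨⟨?_⟩, ⟨⟨1, ⟨monic_one, natDegree_one⟩, by simp⟩⟩⟩
  rintro ⟨a, ⟨ha1, ha2⟩, -⟩ ⟨b, ⟨hb1, hb2⟩, -⟩
  apply Subtype.ext
  show a = b
  rw [ha1.natDegree_eq_zero.1 ha2, hb1.natDegree_eq_zero.1 hb2]

theorem card_Mon_succ (m : ℕ) : Nat.card (Mon F (m + 1)) = (Nat.card F - 1) * Nat.card F ^ m := by
  rw [card_monic_coeff m (fun a => a ≠ 0), card_ne_zero]

/-- splitting -/
def splitSq (j n : ℕ) (h : Sq F (j + 1) n) : Σ d : Fin (n / (j + 1) + 1), Mon F d × Sq F j (n - (j + 1) * d) :=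
  have hs : ∑ i : Fin j, (i.val + 1) * (h.1 i.castSucc).natDegree + (j + 1) * (h.1 (Fin.last j)).natDegree = n := by
    have := h.2.2
    rw [Fin.sum_univ_castSucc] at this
    simpa using this
  ⟨⟨(h.1 (Fin.last j)).natDegree, by
      rw [Nat.lt_succ_iff, Nat.le_div_iff_mul_le (by omega), mul_comm]
      omega⟩,
    ⟨h.1 (Fin.last j), ⟨(h.2.1 _).1, rfl⟩, (h.2.1 _).2⟩, ⟨fun i => h.1 i.castSucc, fun i => h.2.1 _, by
      exact (by omega : ∑ i : Fin j, (i.val + 1) * (h.1 i.castSucc).natDegree = n - (j + 1) * (h.1 (Fin.last j)).natDegree)⟩⟩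

theorem splitSq_injective (j n : ℕ) : Function.Injective (splitSq (F := F) j n) := by
  intro h h' heq
  have h1 := congrArg (fun x : (Σ d : Fin (n / (j + 1) + 1), Mon F d × Sq F j (n - (j + 1) * d)) => (x.2.1.1, x.2.2.1)) heq
  have h2 : h.1 (Fin.last j) = h'.1 (Fin.last j) := congrArg Prod.fst h1
  have h3 : (fun i : Fin j => h.1 i.castSucc) = (fun i : Fin j => h'.1 i.castSucc) := congrArg Prod.snd h1
  apply Subtype.ext
  funext i
  refine Fin.lastCases h2 (fun i => congrFun h3 i) i

instance finSq (j n : ℕ) : Finite (Sq F j n) := by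
  induction j generalizing n with
  | zero => infer_instance
  | succ j ih => exact Finite.of_injective _ (splitSq_injective (F := F) j n)

theorem card_Sq_le (j n : ℕ) : Nat.card (Sq F (j + 1) n) ≤ ∑ d ∈ Finset.range (n / (j + 1) + 1), Nat.card (Mon F d) * Nat.card (Sq F j (n - (j + 1) * d)) := by
  have h1 := Nat.card_le_card_of_injective _ (splitSq_injective (F := F) j n)
  rw [Nat.card_sigma] at h1
  simp only [Nat.card_prod] at h1
  rw [Finset.sum_range (fun d => Nat.card (Mon F d) * Nat.card (Sq F j (n - (j + 1) * d)))]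
  exact h1

theorem card_Sq_zero (j : ℕ) : Nat.card (Sq F j 0) ≤ 1 := by
  rw [Finite.card_le_one_iff_subsingleton]
  constructor
  rintro ⟨a, ha1, ha2⟩ ⟨b, hb1, hb2⟩
  apply Subtype.ext
  funext i
  show a i = b i
  rw [Finset.sum_eq_zero_iff] at ha2 hb2
  have h1 : (a i).natDegree = 0 := by
    have := ha2 i (Finset.mem_univ i)
    simpa using this
  have h2 : (b i).natDegree = 0 := by
    have := hb2 i (Finset.mem_univ i)
    simpa using this
  rw [(ha1 i).1.natDegree_eq_zero.1 h1, (hb1 i).1.natDegree_eq_zero.1 h2]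

theorem bound (j n : ℕ) (hn : 1 ≤ n) : (Nat.card (Sq F j n) : ℚ) ≤ (1 - ((Nat.card F : ℚ)⁻¹) ^ j) * (Nat.card F : ℚ) ^ n := by
  have hq : (1 : ℚ) < Nat.card F := by
    have : 1 < Nat.card F := Finite.one_lt_card
    exact_mod_cast this
  have hqN : 1 ≤ Nat.card F := Finite.one_lt_card.le
  set q : ℚ := (Nat.card F : ℚ) with hqdef
  set r : ℚ := q⁻¹ with hr
  have hqr : q * r = 1 := mul_inv_cancel₀ (by linarith)
  have hr0 : 0 < r := inv_pos.2 (by linarith)
  have hr1 : r < 1 := inv_lt_one_of_one_lt₀ hq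
  induction j generalizing n with
  | zero =>
    have : Nat.card (Sq F 0 n) = 0 := by
      haveI : IsEmpty (Sq F 0 n) := ⟨fun h => by
        have := h.2.2
        simp at this
        omega⟩
      exact Nat.card_of_isEmpty
    rw [this]; simp
  | succ j ih =>
    -- partial sums
    have hps : ∀ M, (1 - r ^ j) * (∑ d ∈ Finset.range (M + 1), (Nat.card (Mon F d) : ℚ) * r ^ ((j + 1) * d)) = 1 - r ^ (j + 1) - (1 - r) * r ^ (j * (M + 1)) := by
      intro M
      induction M with
      | zero =>
        simp only [zero_add, Finset.range_one, Finset.sum_singleton, card_Mon_zero, mul_zero, pow_zero, Nat.cast_one, mul_one]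
        ring
      | succ M ihM =>
        rw [Finset.sum_range_succ, mul_add, ihM, card_Mon_succ]
        rw [Nat.cast_mul, Nat.cast_pow, Nat.cast_sub hqN, ← hqdef]
        have h1 : r ^ ((j + 1) * (M + 1)) = r ^ (j * (M + 1)) * r ^ M * r := by ring
        have h2 : q ^ M * r ^ M = 1 := by rw [← mul_pow, hqr, one_pow]
        rw [h1]
        have h3 : (1 - r ^ j) * ((q - ((1 : ℕ) : ℚ)) * q ^ M * (r ^ (j * (M + 1)) * r ^ M * r)) = (1 - r ^ j) * (q * r - r) * r ^ (j * (M + 1)) * (q ^ M * r ^ M) := by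
          push_cast; ring
        rw [h3, h2, hqr]
        ring
    have hqn : ∀ a b : ℕ, b ≤ a → q ^ (a - b) = q ^ a * r ^ b := by
      intro a b hab
      have : q ^ a = q ^ (a - b) * q ^ b := by rw [← pow_add]; congr 1; omega
      rw [this, mul_assoc, ← mul_pow, hqr, one_pow, mul_one]
    have hle := card_Sq_le (F := F) j n
    have hle' : (Nat.card (Sq F (j + 1) n) : ℚ) ≤ ∑ d ∈ Finset.range (n / (j + 1) + 1), (Nat.card (Mon F d) : ℚ) * Nat.card (Sq F j (n - (j + 1) * d)) := by
      exact_mod_cast hle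
    refine hle'.trans ?_
    have hterm : ∀ d, (j + 1) * d < n → (Nat.card (Mon F d) : ℚ) * Nat.card (Sq F j (n - (j + 1) * d)) ≤ (1 - r ^ j) * q ^ n * ((Nat.card (Mon F d) : ℚ) * r ^ ((j + 1) * d)) := by
      intro d hd
      have h1 := ih (n - (j + 1) * d) (by omega)
      rw [hqn n _ hd.le] at h1
      calc _ ≤ (Nat.card (Mon F d) : ℚ) * ((1 - r ^ j) * (q ^ n * r ^ ((j + 1) * d))) := mul_le_mul_of_nonneg_left h1 (Nat.cast_nonneg _)
        _ = _ := by ring
    have hqn0 : 0 < q ^ n := pow_pos (by linarith) _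
    by_cases hdiv : (j + 1) ∣ n
    · obtain ⟨D, hD⟩ := hdiv
      have hD1 : 1 ≤ D := by
        rcases Nat.eq_zero_or_pos D with h | h
        · subst h; omega
        · exact h
      obtain ⟨D', rfl⟩ : ∃ D', D = D' + 1 := ⟨D - 1, by omega⟩
      have hnd : n / (j + 1) = D' + 1 := by rw [hD]; exact Nat.mul_div_cancel_left _ (by omega)
      rw [hnd, Finset.sum_range_succ]
      have h1 : ∑ d ∈ Finset.range (D' + 1), (Nat.card (Mon F d) : ℚ) * Nat.card (Sq F j (n - (j + 1) * d)) ≤ ∑ d ∈ Finset.range (D' + 1), (1 - r ^ j) * q ^ n * ((Nat.card (Mon F d) : ℚ) * r ^ ((j + 1) * d)) := by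
        apply Finset.sum_le_sum
        intro d hd
        apply hterm
        rw [hD]
        exact Nat.mul_lt_mul_of_pos_left (Finset.mem_range.1 hd) (by omega)
      have h2 : (Nat.card (Mon F (D' + 1)) : ℚ) * Nat.card (Sq F j (n - (j + 1) * (D' + 1))) ≤ (q - 1) * q ^ D' := by
        rw [← hD, Nat.sub_self, card_Mon_succ, Nat.cast_mul, Nat.cast_pow, Nat.cast_sub hqN, ← hqdef]
        have h3 : (Nat.card (Sq F j 0) : ℚ) ≤ 1 := by exact_mod_cast card_Sq_zero (F := F) j
        have h4 : 0 ≤ (q - 1) * q ^ D' := mul_nonneg (by linarith) (pow_nonneg (by linarith) _)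
        have h5 : (q - ((1 : ℕ) : ℚ)) * q ^ D' = (q - 1) * q ^ D' := by push_cast; ring
        rw [h5]
        exact mul_le_of_le_one_right h4 h3
      refine (add_le_add h1 h2).trans ?_
      rw [← Finset.mul_sum]
      have h6 : (1 - r ^ j) * q ^ n * ∑ d ∈ Finset.range (D' + 1), (Nat.card (Mon F d) : ℚ) * r ^ ((j + 1) * d) = q ^ n * (1 - r ^ (j + 1) - (1 - r) * r ^ (j * (D' + 1))) := by
        rw [← hps D']; ring
      rw [h6]
      have h7 : q ^ n * r ^ (j * (D' + 1)) = q ^ (D' + 1) := by
        rw [← hqn]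
        · congr 1
          rw [hD]
          have : (j + 1) * (D' + 1) = j * (D' + 1) + (D' + 1) := by ring
          omega
        · rw [hD]
          exact Nat.mul_le_mul_right _ (by omega)
      have h8 : q ^ n * (1 - r ^ (j + 1) - (1 - r) * r ^ (j * (D' + 1))) = (1 - r ^ (j + 1)) * q ^ n - (1 - r) * (q ^ n * r ^ (j * (D' + 1))) := by ring
      rw [h8, h7]
      have h9 : (1 - r) * q ^ (D' + 1) = (q - 1) * q ^ D' := by
        have : (1 - r) * q ^ (D' + 1) = (q - q * r) * q ^ D' := by ring
        rw [this, hqr]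
      rw [h9]
      linarith
    · have h1 : ∑ d ∈ Finset.range (n / (j + 1) + 1), (Nat.card (Mon F d) : ℚ) * Nat.card (Sq F j (n - (j + 1) * d)) ≤ ∑ d ∈ Finset.range (n / (j + 1) + 1), (1 - r ^ j) * q ^ n * ((Nat.card (Mon F d) : ℚ) * r ^ ((j + 1) * d)) := by
        apply Finset.sum_le_sum
        intro d hd
        apply hterm
        have h2 : d ≤ n / (j + 1) := Nat.lt_succ_iff.1 (Finset.mem_range.1 hd)
        rw [Nat.le_div_iff_mul_le (by omega), mul_comm] at h2
        refine lt_of_le_of_ne h2 ?_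
        intro h3
        exact hdiv ⟨d, h3.symm⟩
      refine h1.trans ?_
      rw [← Finset.mul_sum]
      have h6 : (1 - r ^ j) * q ^ n * ∑ d ∈ Finset.range (n / (j + 1) + 1), (Nat.card (Mon F d) : ℚ) * r ^ ((j + 1) * d) = q ^ n * (1 - r ^ (j + 1) - (1 - r) * r ^ (j * (n / (j + 1) + 1))) := by
        rw [← hps]; ring
      rw [h6]
      have h7 : 0 ≤ (1 - r) * r ^ (j * (n / (j + 1) + 1)) := mul_nonneg (by linarith) (pow_nonneg hr0.le _)
      nlinarith

/-- The number of conjugacy classes of GL(n,q): for F a finite field with q elements and n ≥ 1, the number k of conjugacy classes of GL(n,F) satisfies q^n − q^(n−1) ≤ k ≤ q^n. -/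
theorem result {F : Type*} [Field F] [Fintype F] (n : ℕ) (hn : 1 ≤ n) :
    Fintype.card F ^ n - Fintype.card F ^ (n - 1) ≤ Nat.card (ConjClasses (Matrix.GeneralLinearGroup (Fin n) F)) ∧ Nat.card (ConjClasses (Matrix.GeneralLinearGroup (Fin n) F)) ≤ Fintype.card F ^ n := by
  classical
  obtain ⟨p, hp⟩ := CharP.exists F
  haveI : Fact p.Prime := ⟨CharP.char_is_prime F p⟩
  have hcF : Fintype.card F = Nat.card F := (Nat.card_eq_fintype_card).symm
  constructor
  · obtain ⟨m, rfl⟩ : ∃ m, n = m + 1 := ⟨n - 1, by omega⟩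
    have hex : ∀ g : Mon F (m + 1), ∃ x : GL (Fin (m + 1)) F, (orderOf x).Coprime p ∧ (x : Matrix (Fin (m + 1)) (Fin (m + 1)) F).charpoly = g.1 :=
      fun g => exists_semisimple p g.1 g.2.1.1 g.2.1.2 g.2.2
    choose x hx1 hx2 using hex
    have hinj : Function.Injective (fun g => ConjClasses.mk (x g)) := by
      intro g g' h
      have h1 := ConjClasses.mk_eq_mk_iff_isConj.1 h
      have h2 := charpoly_eq_of_gl_conj h1
      rw [hx2, hx2] at h2
      exact Subtype.ext h2
    have h1 := Nat.card_le_card_of_injective _ hinj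
    rw [card_Mon_succ] at h1
    rw [hcF]
    refine le_trans (le_of_eq ?_) h1
    rw [Nat.add_sub_cancel, Nat.sub_mul, pow_succ]
    ring_nf
  · have hrep : ∀ C : ConjClasses (GL (Fin n) F), ∃ x : GL (Fin n) F, ConjClasses.mk x = C := fun C => ConjClasses.exists_rep C
    choose x hx using hrep
    have hdec : ∀ C, ∃ (k : ℕ) (f : Fin k → F[X]) (p : Fin k → F[X]) (e : Fin k → ℕ), IsDec (x C : Matrix (Fin n) (Fin n) F).mulVecLin f ∧
        ∀ i, (p i).Monic ∧ Irreducible (p i) ∧ 1 ≤ e i ∧ f i = (p i) ^ (e i) := by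
      intro C
      obtain ⟨k, f, h1, h2⟩ := exists_isDec (x C : Matrix (Fin n) (Fin n) F).mulVecLin
      choose p e h3 using h2
      exact ⟨k, f, p, e, h1, h3⟩
    choose k f P e hdec hPe using hdec
    have hn' : ∀ C, ∑ i, e C i * (P C i).natDegree = n := by
      intro C
      have := finrank_of_isDec (hdec C)
      rw [Module.finrank_fintype_fun_eq_card, Fintype.card_fin] at this
      conv_rhs => rw [this]
      apply Finset.sum_congr rfl
      intro i _
      rw [(hPe C i).2.2.2, natDegree_pow]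
    have he : ∀ C i, e C i - 1 < n := by
      intro C i
      have h1 : e C i * (P C i).natDegree ≤ n := by
        rw [← hn' C]
        exact Finset.single_le_sum (f := fun i => e C i * (P C i).natDegree) (fun _ _ => Nat.zero_le _) (Finset.mem_univ i)
      have h2 := (hPe C i).2.1.natDegree_pos
      have h3 := (hPe C i).2.2.1
      have h4 : e C i ≤ e C i * (P C i).natDegree := Nat.le_mul_of_pos_right _ h2
      omega
    let e' : ∀ C, Fin (k C) → Fin n := fun C i => ⟨e C i - 1, he C i⟩
    have he' : ∀ C i, (e' C i).val + 1 = e C i := fun C i => Nat.sub_add_cancel (hPe C i).2.2.1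
    have hc0 : ∀ C i, (P C i).coeff 0 ≠ 0 := by
      intro C i h0
      have h1 : IsUnit (x C : Matrix (Fin n) (Fin n) F).det := (Matrix.isUnit_iff_isUnit_det _).1 (x C).isUnit
      rw [Matrix.det_eq_sign_charpoly_coeff, ← Matrix.charpoly_toLin', Matrix.toLin'_apply', charpoly_of_isDec (hdec C), coeff_zero_eq_eval_zero, eval_prod,
        Finset.prod_eq_zero (Finset.mem_univ i), mul_zero] at h1
      · exact not_isUnit_zero h1
      · rw [(hPe C i).2.2.2, eval_pow, ← coeff_zero_eq_eval_zero, h0, zero_pow]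
        have := (hPe C i).2.2.1
        omega
    let H : ConjClasses (GL (Fin n) F) → Sq F n n := fun C =>
      ⟨fun j => ∏ i ∈ Finset.univ.filter (fun i => e' C i = j), P C i, by
        constructor
        · intro j
          refine ⟨monic_prod_of_monic _ _ (fun i _ => (hPe C i).1), ?_⟩
          rw [coeff_zero_eq_eval_zero, eval_prod, Finset.prod_ne_zero_iff]
          intro i _
          rw [← coeff_zero_eq_eval_zero]
          exact hc0 C i
        · have h1 : ∀ j : Fin n, (j.val + 1) * (∏ i ∈ Finset.univ.filter (fun i => e' C i = j), P C i).natDegree = ∑ i ∈ Finset.univ.filter (fun i => e' C i = j), e C i * (P C i).natDegree := by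
            intro j
            rw [natDegree_prod_of_monic _ _ (fun i _ => (hPe C i).1), Finset.mul_sum]
            apply Finset.sum_congr rfl
            intro i hi
            rw [← he' C i, (Finset.mem_filter.1 hi).2]
          rw [Finset.sum_congr rfl (fun j _ => h1 j), Finset.sum_fiberwise, hn' C]⟩
    have hHinj : Function.Injective H := by
      intro C D hCD
      have h1 : ∀ j, ∏ i ∈ Finset.univ.filter (fun i => e' C i = j), P C i = ∏ i ∈ Finset.univ.filter (fun i => e' D i = j), P D i :=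
        fun j => congrFun (congrArg Subtype.val hCD) j
      have h2 : ∀ j, (Finset.univ.filter (fun i => e' C i = j)).val.map (P C) = (Finset.univ.filter (fun i => e' D i = j)).val.map (P D) := by
        intro j
        apply multiset_eq_of_prod_eq
        · intro p hp
          obtain ⟨i, -, rfl⟩ := Multiset.mem_map.1 hp
          exact ⟨(hPe C i).1, (hPe C i).2.1⟩
        · intro p hp
          obtain ⟨i, -, rfl⟩ := Multiset.mem_map.1 hp
          exact ⟨(hPe D i).1, (hPe D i).2.1⟩
        · exact h1 j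
      have h3 : ∀ C, (Finset.univ : Finset (Fin (k C))).val.map (f C) = ∑ j : Fin n, ((Finset.univ.filter (fun i => e' C i = j)).val.map (P C)).map (fun p => p ^ (j.val + 1)) := by
        intro C
        have e1 : (Finset.univ : Finset (Fin (k C))).val.map (f C) = ∑ i, {f C i} := by
          rw [sum_sing]
        rw [e1, ← Finset.sum_fiberwise Finset.univ (e' C)]
        apply Finset.sum_congr rfl
        intro j _
        rw [sum_sing, Multiset.map_map]
        apply Multiset.map_congr rfl
        intro i hi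
        have hi0 : i ∈ Finset.univ.filter (fun i => e' C i = j) := hi
        have hi' : e' C i = j := (Finset.mem_filter.1 hi0).2
        rw [(hPe C i).2.2.2, ← he' C i, hi']
        rfl
      have h4 : (Finset.univ : Finset (Fin (k C))).val.map (f C) = (Finset.univ : Finset (Fin (k D))).val.map (f D) := by
        rw [h3, h3]
        apply Finset.sum_congr rfl
        intro j _
        rw [h2]
      have h5 := gl_conj_of_multiset (hdec C) (hdec D) h4
      rw [← hx C, ← hx D, ConjClasses.mk_eq_mk_iff_isConj]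
      exact h5
    have h1 := Nat.card_le_card_of_injective _ hHinj
    have h2 := bound (F := F) n n hn
    have h3 : (Nat.card (Sq F n n) : ℚ) ≤ (Nat.card F : ℚ) ^ n := by
      refine h2.trans ?_
      have hq : (0 : ℚ) < Nat.card F := by
        have : 0 < Nat.card F := Nat.card_pos
        exact_mod_cast this
      have h4 : 0 < (Nat.card F : ℚ) ^ n := pow_pos hq _
      have h5 : 0 < ((Nat.card F : ℚ)⁻¹) ^ n := pow_pos (inv_pos.2 hq) _
      nlinarith
    have h4 : Nat.card (Sq F n n) ≤ Nat.card F ^ n := by exact_mod_cast h3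
    rw [hcF]
    exact h1.trans h4

end Cfsg.Agent.S2478
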