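import Cfsg.Statements.S2503
import Mathlib
import Cfsg.Agent.H8.SL2f

set_option autoImplicit false
open Cfsg

namespace Cfsg.Agent.S2503

open Cfsg.Agent.H8.SL2

/-- the quadratic form `x² + t x y + y²` adapted to `g0 = [[0,-1],[1,t]]` in characteristic two -/
def Nf {F : Type*} [Field F] (t : F) (v : Fin 2 → F) : F := v 0 ^ 2 + t * v 0 * v 1 + v 1 ^ 2

/-- Let F be a finite field with q = 2^t ≥ 4 elements and L = PSL(2,F). Then L has a cyclic subgroup A of order q + 1 and an elementary abelian 2-subgroup B of order q such that L = ABA: every element of L is a product a·b·a' with a, a' ∈ A and b ∈ B. -/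
theorem result {F : Type*} [Field F] [Fintype F]
    (h2 : 2 ∣ Fintype.card F) (h4 : 4 ≤ Fintype.card F) :
    ∃ A B : Subgroup (Matrix.ProjectiveSpecialLinearGroup (Fin 2) F),
      IsCyclic A ∧ Nat.card A = Fintype.card F + 1 ∧ IsMulCommutative B ∧ (∀ b ∈ B, b * b = 1) ∧
        Nat.card B = Fintype.card F ∧
        ∀ g : Matrix.ProjectiveSpecialLinearGroup (Fin 2) F, ∃ a ∈ A, ∃ b ∈ B, ∃ c ∈ A, g = a * b * c := by
  classical
  have hr2 : ringChar F = 2 := by
    by_contra h
    have := FiniteField.odd_card_of_char_ne_two h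
    omega
  haveI : CharP F 2 := by rw [← hr2]; exact ringChar.charP F
  have h20 : (2 : F) = 0 := CharTwo.two_eq_zero
  set q := Fintype.card F with hq
  have hqN : Nat.card F = q := Nat.card_eq_fintype_card
  obtain ⟨g1, hg1⟩ := exists_nonsplit F
  set t := g1.1.trace with ht
  let g0 := mkSL !![0, 1; 1, t] (by rw [Matrix.det_fin_two_of]; linear_combination -h20)
  have hg0t : g0.1.trace = t := by rw [mkSL_val, Matrix.trace_fin_two]; simp
  have hg0 : ∀ c : F, c ^ 2 - g0.1.trace * c + 1 ≠ 0 := by rw [hg0t]; exact hg1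
  have hg0ns := nonsplit_ns g0 hg0
  obtain ⟨hcyc, hcard⟩ := cent_nonsplit g0 hg0
  set T := Subgroup.centralizer ({g0} : Set (Matrix.SpecialLinearGroup (Fin 2) F)) with hT
  have hcen1 : Nat.card (Subgroup.center (Matrix.SpecialLinearGroup (Fin 2) F)) = 1 := by rw [card_center, if_pos hr2]
  have hinj : Function.Injective (pr (F := F)) := by
    rw [injective_iff_map_eq_one]
    intro a ha
    rcases (pr_eq_one a).1 ha with h | h
    · exact h
    · rw [h, charTwo_neg hr2]
  have haniso : ∀ v : Fin 2 → F, Nf t v = 0 → v = 0 := by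
    intro v hv
    by_cases h0 : v 0 = 0
    · have h1 : v 1 = 0 := by
        simp only [Nf] at hv
        rw [h0] at hv
        have : v 1 ^ 2 = 0 := by linear_combination hv
        exact pow_eq_zero_iff two_ne_zero |>.1 this
      funext i; fin_cases i <;> simp [h0, h1]
    · exfalso
      apply hg1 (-(v 1 / v 0))
      simp only [Nf] at hv
      field_simp
      linear_combination hv
  -- T preserves the form
  have hTN : ∀ x : Matrix.SpecialLinearGroup (Fin 2) F, x ∈ T → ∀ v, Nf t (x.1.mulVec v) = Nf t v := by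
    intro x hx v
    have hxc : x * g0 = g0 * x := Subgroup.mem_centralizer_singleton_iff.1 hx
    obtain ⟨a, b, hab⟩ := commutant g0.1 x.1 hg0ns (congrArg Subtype.val hxc)
    have hdet := x.2
    rw [hab, det_xy, g0.2, one_mul, hg0t] at hdet
    have e0 : x.1.mulVec v 0 = a * v 0 + b * v 1 := by
      rw [hab, mkSL_val]
      simp [Matrix.mulVec, dotProduct, Fin.sum_univ_two]
    have e1 : x.1.mulVec v 1 = b * v 0 + (a + b * t) * v 1 := by
      rw [hab, mkSL_val]
      simp [Matrix.mulVec, dotProduct, Fin.sum_univ_two]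
    simp only [Nf]
    rw [e0, e1]
    linear_combination (v 0 ^ 2 + t * v 0 * v 1 + v 1 ^ 2) * hdet + (v 0 * v 1 * (2 * a * b + b ^ 2 * t) + v 1 ^ 2 * (a * b * t + b ^ 2 * t ^ 2)) * h20
  let e0 : Fin 2 → F := ![1, 0]
  have hex : ∀ v : Fin 2 → F, Nf t v = 1 → ∃ x : Matrix.SpecialLinearGroup (Fin 2) F, x ∈ T ∧ x.1.mulVec e0 = v := by
    intro v hv
    simp only [Nf] at hv
    refine ⟨mkSL (v 0 • (1 : Matrix (Fin 2) (Fin 2) F) + v 1 • g0.1) (by rw [det_xy, g0.2, one_mul, hg0t, hv]), ?_, ?_⟩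
    · rw [hT, Subgroup.mem_centralizer_singleton_iff]
      apply Subtype.ext
      exact xy_comm g0.1 _ _
    · funext i
      fin_cases i <;> simp [mkSL_val, g0, e0, Matrix.mulVec, dotProduct, Fin.sum_univ_two]
  have hsqrt : ∀ a : F, ∃ b : F, b ^ 2 = a := by
    intro a
    obtain ⟨b, hb⟩ := FiniteField.isSquare_of_char_two hr2 a
    exact ⟨b, by rw [hb]; ring⟩
  have hNg : ∀ (g : Matrix.SpecialLinearGroup (Fin 2) F) (v : Fin 2 → F), Nf t (g.1.mulVec v) - Nf t v = (Nf t (g.1.mulVec ![1, 0]) - 1) * v 0 ^ 2 + (Nf t (g.1.mulVec ![0, 1]) - 1) * v 1 ^ 2 := by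
    intro g v
    have hd := det_eq g
    simp only [Nf, Matrix.mulVec, dotProduct, Fin.sum_univ_two]
    simp
    linear_combination (t * v 0 * v 1) * hd + (v 0 * v 1 * (g.1 0 0 * g.1 0 1 + g.1 1 0 * g.1 1 1 + t * g.1 0 1 * g.1 1 0)) * h20
  have hscale : ∀ (c : F) (v : Fin 2 → F), Nf t (c • v) = c ^ 2 * Nf t v := by
    intro c v
    simp only [Nf, Pi.smul_apply, smul_eq_mul]; ring
  have hmeet : ∀ g : Matrix.SpecialLinearGroup (Fin 2) F, ∃ v : Fin 2 → F, Nf t v = 1 ∧ Nf t (g.1.mulVec v) = 1 := by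
    intro g
    have h1 : ∃ v : Fin 2 → F, v ≠ 0 ∧ Nf t (g.1.mulVec v) = Nf t v := by
      obtain ⟨m, hm⟩ := hsqrt (Nf t (g.1.mulVec ![1, 0]) - 1)
      obtain ⟨n, hn⟩ := hsqrt (Nf t (g.1.mulVec ![0, 1]) - 1)
      by_cases h : m = 0 ∧ n = 0
      · refine ⟨![1, 0], ?_, ?_⟩
        · intro h0
          have := congrFun h0 0
          simp at this
        · have := hNg g ![1, 0]
          rw [← hm, h.1, ← hn, h.2] at this
          linear_combination this
      · refine ⟨![n, m], ?_, ?_⟩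
        · intro h0
          have e1 := congrFun h0 0
          have e2 := congrFun h0 1
          simp at e1 e2
          exact h ⟨e2, e1⟩
        · have := hNg g ![n, m]
          rw [← hm, ← hn] at this
          simp only [Matrix.cons_val_zero, Matrix.cons_val_one] at this
          linear_combination this + m ^ 2 * n ^ 2 * h20
    obtain ⟨v, hv, hgv⟩ := h1
    obtain ⟨l, hl⟩ := hsqrt (Nf t v)
    have hl0 : l ≠ 0 := by
      rintro rfl
      apply hv
      apply haniso
      rw [← hl]; ring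
    refine ⟨l⁻¹ • v, ?_, ?_⟩
    · rw [hscale, ← hl]; field_simp
    · rw [Matrix.mulVec_smul, hscale, hgv, ← hl]; field_simp
  refine ⟨T.map (pr (F := F)), (Subgroup.map pr (MonoidHom.range (MonoidHom.mk' (fun b : Multiplicative F => u b.toAdd) (fun a b => u_add _ _)))), ?_, ?_, ?_, ?_, ?_, ?_⟩
  · haveI := hcyc
    exact isCyclic_of_surjective (T.equivMapOfInjective pr hinj) (T.equivMapOfInjective pr hinj).surjective
  · rw [← Nat.card_congr (T.equivMapOfInjective pr hinj).toEquiv, hcard, hqN]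
  · constructor
    constructor
    rintro ⟨a, ha⟩ ⟨b, hb⟩
    obtain ⟨_, ⟨x, rfl⟩, rfl⟩ := ha
    obtain ⟨_, ⟨y, rfl⟩, rfl⟩ := hb
    apply Subtype.ext
    show pr (u _) * pr (u _) = pr (u _) * pr (u _)
    rw [← map_mul, ← map_mul, ← u_add, ← u_add, add_comm]
  · rintro b ⟨_, ⟨x, rfl⟩, rfl⟩
    show pr (u _) * pr (u _) = 1
    rw [← map_mul, ← u_add, CharTwo.add_self_eq_zero, u_zero, map_one]
  · have h1 : Function.Injective (MonoidHom.mk' (fun b : Multiplicative F => u b.toAdd) (fun a b => u_add _ _) : Multiplicative F →* Matrix.SpecialLinearGroup (Fin 2) F) := by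
      intro a b h
      have := congrFun (congrFun (congrArg Subtype.val h) 0) 1
      exact this
    rw [← Nat.card_congr ((MonoidHom.range _).equivMapOfInjective pr hinj).toEquiv, ← Nat.card_congr (MonoidHom.ofInjective h1).toEquiv]
    rw [← hqN]
    exact Nat.card_congr Multiplicative.toAdd
  · intro gg
    obtain ⟨g, rfl⟩ := pr_surj gg
    obtain ⟨v, hv1, hv2⟩ := hmeet g
    obtain ⟨y, hyT, hy⟩ := hex v hv1
    obtain ⟨x, hxT, hx⟩ := hex _ hv2
    have hfix : (x⁻¹ * g * y).1.mulVec e0 = e0 := by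
      show ((x⁻¹).1 * g.1 * y.1).mulVec e0 = e0
      rw [← Matrix.mulVec_mulVec, hy, ← Matrix.mulVec_mulVec, ← hx, Matrix.mulVec_mulVec]
      have : (x⁻¹).1 * x.1 = 1 := congrArg Subtype.val (inv_mul_cancel x)
      rw [this, Matrix.one_mulVec]
    have hu : x⁻¹ * g * y = u ((x⁻¹ * g * y).1 0 1) := by
      set z := x⁻¹ * g * y with hz
      have f0 := congrFun hfix 0
      have f1 := congrFun hfix 1
      simp [Matrix.mulVec, dotProduct, Fin.sum_univ_two, e0] at f0 f1
      have hd := det_eq z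
      rw [f0, f1, one_mul, mul_zero, sub_zero] at hd
      apply Subtype.ext
      rw [u_val]
      ext i j
      fin_cases i <;> fin_cases j
      · exact f0
      · rfl
      · exact f1
      · exact hd
    refine ⟨pr x, ⟨x, hxT, rfl⟩, pr (x⁻¹ * g * y), ⟨x⁻¹ * g * y, ⟨Multiplicative.ofAdd ((x⁻¹ * g * y).1 0 1), hu.symm⟩, rfl⟩, pr y⁻¹, ⟨y⁻¹, T.inv_mem hyT, rfl⟩, ?_⟩
    rw [← map_mul, ← map_mul]
    congr 1
    group

end Cfsg.Agent.S2503
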