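import Cfsg.Statements.S2505
import Mathlib

set_option autoImplicit false
open Cfsg

namespace Cfsg.Agent.S2505

open Equiv

theorem lb {I : Type} [Fintype I] (n : I → ℕ) (hn : ∀ i, n i ≠ 0) {N : ℕ} (hN : ∑ i, n i = N) :
    ∃ A : Subgroup (Equiv.Perm (Fin N)), IsMulCommutative A ∧ Nat.card A = ∏ i, n i := by
  haveI : ∀ i, NeZero (n i) := fun i => ⟨hn i⟩
  let C : I → Type := fun i => Multiplicative (ZMod (n i))
  haveI : ∀ i, Finite (C i) := fun i => inferInstanceAs (Finite (ZMod (n i)))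
  have hC : ∀ i, Nat.card (C i) = n i := fun i => Nat.card_zmod (n i)
  have hcard : Nat.card (Σ i, C i) = N := by
    rw [Nat.card_sigma, ← hN]
    exact Finset.sum_congr rfl (fun i _ => hC i)
  let e : (Σ i, C i) ≃ Fin N := Finite.equivFinOfCardEq hcard
  let h1 : (∀ i, C i) →* ∀ i, Equiv.Perm (C i) := Pi.monoidHom (fun i => (MulAction.toPermHom (C i) (C i)).comp (Pi.evalMonoidHom C i))
  have h1i : Function.Injective h1 := by
    intro a b hab
    funext i
    exact MulAction.toPerm_injective (congrFun hab i)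
  let h2 : (∀ i, C i) →* Equiv.Perm (Fin N) := ((Equiv.permCongrHom e).toMonoidHom.comp (Equiv.Perm.sigmaCongrRightHom C)).comp h1
  have h2i : Function.Injective h2 :=
    ((Equiv.permCongrHom e).injective.comp Equiv.Perm.sigmaCongrRightHom_injective).comp h1i
  refine ⟨h2.range, ?_, ?_⟩
  · refine ⟨⟨?_⟩⟩
    rintro ⟨a, x, hx⟩ ⟨b, y, hy⟩
    apply Subtype.ext
    show a * b = b * a
    rw [← hx, ← hy, ← map_mul, mul_comm, map_mul]
  · rw [← Nat.card_congr (MonoidHom.ofInjective h2i).toEquiv, Nat.card_pi]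
    exact Finset.prod_congr rfl (fun i _ => hC i)

theorem ub {X : Type} [Fintype X] [DecidableEq X] (A : Subgroup (Equiv.Perm X)) (hA : IsMulCommutative A) :
    ∃ (Ω : Type) (_ : Fintype Ω) (n : Ω → ℕ), (∀ ω, 1 ≤ n ω) ∧ ∑ ω, n ω = Fintype.card X ∧ Nat.card A ≤ ∏ ω, n ω := by
  classical
  haveI : Fintype (MulAction.orbitRel.Quotient A X) := Fintype.ofFinite _
  refine ⟨MulAction.orbitRel.Quotient A X, inferInstance, fun ω => Nat.card ω.orbit, fun ω => ?_, ?_, ?_⟩
  · haveI : Nonempty ω.orbit := ⟨⟨Quotient.out ω, by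
      rw [MulAction.orbitRel.Quotient.mem_orbit]
      exact Quotient.out_eq ω⟩⟩
    exact Nat.card_pos
  · rw [← Nat.card_eq_fintype_card, Nat.card_congr (MulAction.selfEquivSigmaOrbits' A X), Nat.card_sigma]
  · rw [← Nat.card_pi]
    let f : A → ∀ ω : MulAction.orbitRel.Quotient A X, ω.orbit := fun a ω => ⟨a • Quotient.out ω, by
      rw [MulAction.orbitRel.Quotient.mem_orbit]
      conv_rhs => rw [← Quotient.out_eq ω]
      exact Quotient.sound' (MulAction.orbitRel_apply.2 (MulAction.mem_orbit _ _))⟩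
    apply Nat.card_le_card_of_injective f
    intro a b hab
    have h1 : ∀ ω : MulAction.orbitRel.Quotient A X, a • Quotient.out ω = b • Quotient.out ω := fun ω => congrArg Subtype.val (congrFun hab ω)
    apply Subtype.ext
    apply Equiv.ext
    intro x
    have h2 : x ∈ MulAction.orbit A (Quotient.out (Quotient.mk'' x : MulAction.orbitRel.Quotient A X)) := by
      rw [← MulAction.orbitRel_apply]
      have := Quotient.mk_out (s := MulAction.orbitRel A X) x
      exact Setoid.symm' _ this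
    obtain ⟨c, hc⟩ := h2
    show a • x = b • x
    rw [← hc]
    show a • (c • _) = b • (c • _)
    rw [← mul_smul, ← mul_smul, hA.is_comm.comm a c, hA.is_comm.comm b c, mul_smul, mul_smul, h1]

def f : ℕ → ℕ
  | 0 => 1
  | 1 => 1
  | 2 => 2
  | 3 => 3
  | 4 => 4
  | (n + 5) => 3 * f (n + 2)

theorem f3 : ∀ n, 3 * f n ≤ f (n + 3)
  | 0 => by simp [f]
  | 1 => by simp [f]
  | (n + 2) => by
    show 3 * f (n + 2) ≤ f (n + 5)
    rw [f]

theorem f1 : ∀ n, f n ≤ f (n + 1)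
  | 0 => by simp [f]
  | 1 => by simp [f]
  | 2 => by simp [f]
  | 3 => by simp [f]
  | 4 => by simp [f]
  | (n + 5) => by
    have := f1 (n + 2)
    show f (n + 5) ≤ f ((n + 1) + 5)
    rw [f, f]
    exact Nat.mul_le_mul_left 3 this

theorem f2 : ∀ n, 2 * f n ≤ f (n + 2)
  | 0 => by simp [f]
  | 1 => by simp [f]
  | 2 => by simp [f]
  | 3 => by simp [f]
  | 4 => by simp [f]
  | (n + 5) => by
    have := f2 (n + 2)
    show 2 * f (n + 5) ≤ f ((n + 2) + 5)
    rw [f, f]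
    show 2 * (3 * f (n + 2)) ≤ 3 * f (n + 2 + 2)
    omega

theorem fa (b : ℕ) : ∀ a, 1 ≤ a → a * f b ≤ f (a + b)
  | 0, h => by omega
  | 1, _ => by rw [one_mul, add_comm]; exact f1 b
  | 2, _ => by rw [add_comm]; exact f2 b
  | 3, _ => by rw [add_comm]; exact f3 b
  | 4, _ => by
    have h1 := f2 b
    have h2 := f2 (b + 2)
    rw [show 4 + b = b + 2 + 2 by omega]
    omega
  | (a + 5), _ => by
    have h1 := fa b (a + 2) (by omega)
    have h2 := f3 (a + 2 + b)
    rw [show a + 5 + b = a + 2 + b + 3 by omega]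
    nlinarith [Nat.zero_le (a * f b), Nat.zero_le (f b)]

theorem fprod {Ω : Type} (s : Finset Ω) (n : Ω → ℕ) (hn : ∀ ω, 1 ≤ n ω) : ∏ ω ∈ s, n ω ≤ f (∑ ω ∈ s, n ω) := by
  classical
  induction s using Finset.induction_on with
  | empty => simp [f]
  | insert a s ha ih =>
    rw [Finset.prod_insert ha, Finset.sum_insert ha]
    exact (Nat.mul_le_mul_left _ ih).trans (fa _ _ (hn a))

theorem fval (k : ℕ) : f (3 * k + 3) = 3 ^ (k + 1) ∧ f (3 * k + 4) = 4 * 3 ^ k ∧ f (3 * k + 2) = 2 * 3 ^ k := by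
  induction k with
  | zero => simp [f]
  | succ k ih =>
    obtain ⟨h1, h2, h3⟩ := ih
    refine ⟨?_, ?_, ?_⟩
    · rw [show 3 * (k + 1) + 3 = (3 * k + 1) + 5 by omega, f, show 3 * k + 1 + 2 = 3 * k + 3 by omega, h1]; ring
    · rw [show 3 * (k + 1) + 4 = (3 * k + 2) + 5 by omega, f, show 3 * k + 2 + 2 = 3 * k + 4 by omega, h2]; ring
    · rw [show 3 * (k + 1) + 2 = (3 * k) + 5 by omega, f, h3]; ring

theorem bound {N : ℕ} (A : Subgroup (Equiv.Perm (Fin N))) (hA : IsMulCommutative A) : Nat.card A ≤ f N := by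
  obtain ⟨Ω, _, n, h1, h2, h3⟩ := ub A hA
  have := fprod Finset.univ n h1
  rw [h2, Fintype.card_fin] at this
  exact h3.trans this

/-- The largest order of an abelian subgroup of the symmetric group of degree n is 3^k when n = 3k, 4·3^(k−1) when n = 3k + 1, and 2·3^k when n = 3k + 2, for every k ≥ 1. -/
theorem result (k : ℕ) (hk : 1 ≤ k) :
    IsGreatest {c : ℕ | ∃ A : Subgroup (Equiv.Perm (Fin (3 * k))), IsMulCommutative A ∧ Nat.card A = c} (3 ^ k) ∧
    IsGreatest {c : ℕ | ∃ A : Subgroup (Equiv.Perm (Fin (3 * k + 1))), IsMulCommutative A ∧ Nat.card A = c}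
      (4 * 3 ^ (k - 1)) ∧
    IsGreatest {c : ℕ | ∃ A : Subgroup (Equiv.Perm (Fin (3 * k + 2))), IsMulCommutative A ∧ Nat.card A = c}
      (2 * 3 ^ k) := by
  obtain ⟨j, rfl⟩ : ∃ j, k = j + 1 := ⟨k - 1, by omega⟩
  obtain ⟨h1, h2, -⟩ := fval j
  have h3 := (fval (j + 1)).2.2
  refine ⟨⟨?_, ?_⟩, ⟨?_, ?_⟩, ⟨?_, ?_⟩⟩
  · obtain ⟨A, hA, hc⟩ := lb (fun _ : Fin (j + 1) => 3) (fun _ => by norm_num) (N := 3 * (j + 1)) (by simp; ring)
    exact ⟨A, hA, by rw [hc]; simp⟩
  · rintro c ⟨A, hA, rfl⟩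
    rw [← h1]
    exact bound A hA
  · obtain ⟨A, hA, hc⟩ := lb (fun o : Option (Fin j) => o.elim 4 (fun _ => 3)) (fun o => by cases o <;> simp) (N := 3 * (j + 1) + 1) (by
      rw [Fintype.sum_option]; simp; ring)
    exact ⟨A, hA, by rw [hc, Fintype.prod_option]; simp⟩
  · rintro c ⟨A, hA, rfl⟩
    rw [Nat.add_sub_cancel, ← h2]
    exact bound A hA
  · obtain ⟨A, hA, hc⟩ := lb (fun o : Option (Fin (j + 1)) => o.elim 2 (fun _ => 3)) (fun o => by cases o <;> simp) (N := 3 * (j + 1) + 2) (by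
      rw [Fintype.sum_option]; simp; ring)
    exact ⟨A, hA, by rw [hc, Fintype.prod_option]; simp⟩
  · rintro c ⟨A, hA, rfl⟩
    rw [← h3]
    exact bound A hA

end Cfsg.Agent.S2505
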