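import Cfsg.Statements.S2507
import Mathlib
import Cfsg.Agent.H8.SL2e

set_option autoImplicit false
open Cfsg

namespace Cfsg.Agent.S2507

open Cfsg.Agent.H8.SL2

/-- Let F be a finite field with q = 2^f ≥ 4 elements. The conjugacy class sizes of PSL(2,F) are exactly 1, q(q − 1), q² − 1 and q(q + 1). -/
theorem result {F : Type*} [Field F] [Fintype F]
    (h2 : 2 ∣ Fintype.card F) (h4 : 4 ≤ Fintype.card F) :
    Set.range (fun g : (Matrix.ProjectiveSpecialLinearGroup (Fin 2) F) => (Subgroup.centralizer ({g} : Set (Matrix.ProjectiveSpecialLinearGroup (Fin 2) F))).index) =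
      {1, Fintype.card F * (Fintype.card F - 1), Fintype.card F ^ 2 - 1, Fintype.card F * (Fintype.card F + 1)} := by
  classical
  have hr2 : ringChar F = 2 := by
    by_contra h
    have := FiniteField.odd_card_of_char_ne_two h
    omega
  set q := Fintype.card F with hq
  have hqN : Nat.card F = q := Nat.card_eq_fintype_card
  have hsq : q ^ 2 - 1 = (q + 1) * (q - 1) := by
    have := Nat.sq_sub_sq q 1
    rwa [one_pow] at this
  have key : ∀ g : Matrix.SpecialLinearGroup (Fin 2) F, (Subgroup.centralizer ({pr g} : Set (Matrix.ProjectiveSpecialLinearGroup (Fin 2) F))).index * Nat.card (Subgroup.centralizer ({g} : Set (Matrix.SpecialLinearGroup (Fin 2) F))) = q * (q ^ 2 - 1) := by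
    intro g
    have := index_cent_psl g
    rwa [card_pm_of_trace_ne g (Or.inl hr2), hqN] at this
  have hS : ∀ (g : Matrix.SpecialLinearGroup (Fin 2) F) (a : Fˣ), (a : F) ^ 2 ≠ 1 → IsConj g (dg a) → (Subgroup.centralizer ({pr g} : Set (Matrix.ProjectiveSpecialLinearGroup (Fin 2) F))).index = q * (q + 1) := by
    intro g a ha hga
    have h1 := key g
    rw [card_cent_conj hga, card_cent_dg a ha, hqN, hsq, ← mul_assoc] at h1
    exact Nat.eq_of_mul_eq_mul_right (by omega) h1
  have hU : ∀ (g : Matrix.SpecialLinearGroup (Fin 2) F), NS g.1 → (g.1.trace = 2 ∨ g.1.trace = -2) → (Subgroup.centralizer ({pr g} : Set (Matrix.ProjectiveSpecialLinearGroup (Fin 2) F))).index = q ^ 2 - 1 := by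
    intro g hg ht
    have h1 := key g
    rw [card_cent_unip g hg ht, if_pos hr2, hqN, one_mul, mul_comm] at h1
    exact Nat.eq_of_mul_eq_mul_left (by omega) h1
  have hN : ∀ (g : Matrix.SpecialLinearGroup (Fin 2) F), (∀ c : F, c ^ 2 - g.1.trace * c + 1 ≠ 0) → (Subgroup.centralizer ({pr g} : Set (Matrix.ProjectiveSpecialLinearGroup (Fin 2) F))).index = q * (q - 1) := by
    intro g hg
    have h1 := key g
    rw [(cent_nonsplit g hg).2, hqN, hsq, mul_comm (q + 1), ← mul_assoc] at h1
    exact Nat.eq_of_mul_eq_mul_right (by omega) h1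
  ext m
  simp only [Set.mem_range, Set.mem_insert_iff, Set.mem_singleton_iff]
  constructor
  · rintro ⟨x, rfl⟩
    obtain ⟨g, rfl⟩ := pr_surj x
    by_cases hg : NS g.1
    · rcases trichotomy g hg with ⟨a, ha, hga⟩ | h | h
      · right; right; right; exact hS g a ha hga
      · right; right; left; exact hU g hg h
      · right; left; exact hN g h
    · left
      rw [ns_iff', not_not] at hg
      rw [(pr_eq_one g).2 hg, Subgroup.index_eq_one]
      rw [eq_top_iff]
      intro x _
      rw [Subgroup.mem_centralizer_singleton_iff]; simp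
  · rintro (h | h | h | h)
    · refine ⟨1, ?_⟩
      rw [h, Subgroup.index_eq_one, eq_top_iff]
      intro x _
      rw [Subgroup.mem_centralizer_singleton_iff]; simp
    · obtain ⟨g, hg⟩ := exists_nonsplit F
      exact ⟨pr g, by rw [h]; exact hN g hg⟩
    · exact ⟨pr (u 1), by rw [h]; exact hU _ (u_ns one_ne_zero) (Or.inl (u_trace _))⟩
    · obtain ⟨a, ha⟩ := exists_split (F := F) (by rw [hqN]; exact h4)
      exact ⟨pr (dg a), by rw [h]; exact hS _ a ha (IsConj.refl _)⟩

end Cfsg.Agent.S2507
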