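import Cfsg.Statements.S2508
import Mathlib
import Cfsg.Agent.H8.SL2e

set_option autoImplicit false
open Cfsg

namespace Cfsg.Agent.S2508

open Cfsg.Agent.H8.SL2

/-- Let F be a finite field with q elements, q odd and q ≥ 7. If q ≡ 1 (mod 4) the conjugacy class sizes of PSL(2,F) are exactly 1, (q² − 1)/2, q(q + 1)/2, q(q − 1) and q(q + 1); if q ≡ 3 (mod 4) they are exactly 1, (q² − 1)/2, q(q − 1)/2, q(q + 1) and q(q − 1). -/
theorem result {F : Type*} [Field F] [Fintype F]
    (hodd : ¬ 2 ∣ Fintype.card F) (h7 : 7 ≤ Fintype.card F) :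
    (Fintype.card F % 4 = 1 →
      Set.range (fun g : (Matrix.ProjectiveSpecialLinearGroup (Fin 2) F) => (Subgroup.centralizer ({g} : Set (Matrix.ProjectiveSpecialLinearGroup (Fin 2) F))).index) =
        {1, (Fintype.card F ^ 2 - 1) / 2, Fintype.card F * (Fintype.card F + 1) / 2,
          Fintype.card F * (Fintype.card F - 1), Fintype.card F * (Fintype.card F + 1)}) ∧
    (Fintype.card F % 4 = 3 →
      Set.range (fun g : (Matrix.ProjectiveSpecialLinearGroup (Fin 2) F) => (Subgroup.centralizer ({g} : Set (Matrix.ProjectiveSpecialLinearGroup (Fin 2) F))).index) =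
        {1, (Fintype.card F ^ 2 - 1) / 2, Fintype.card F * (Fintype.card F - 1) / 2,
          Fintype.card F * (Fintype.card F + 1), Fintype.card F * (Fintype.card F - 1)}) := by
  classical
  have hr2 : ringChar F ≠ 2 := by
    intro h
    have := FiniteField.even_card_of_char_two h
    omega
  have h2' : (2 : F) ≠ 0 := Ring.two_ne_zero hr2
  set q := Fintype.card F with hq
  have hqN : Nat.card F = q := Nat.card_eq_fintype_card
  have hqodd : q % 2 = 1 := by omega
  have hsq : q ^ 2 - 1 = (q + 1) * (q - 1) := by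
    have := Nat.sq_sub_sq q 1
    rwa [one_pow] at this
  have key1 : ∀ g : Matrix.SpecialLinearGroup (Fin 2) F, g.1.trace ≠ 0 → (Subgroup.centralizer ({pr g} : Set (Matrix.ProjectiveSpecialLinearGroup (Fin 2) F))).index * Nat.card (Subgroup.centralizer ({g} : Set (Matrix.SpecialLinearGroup (Fin 2) F))) = q * (q ^ 2 - 1) := by
    intro g hg
    have := index_cent_psl g
    rwa [card_pm_of_trace_ne g (Or.inr hg), hqN] at this
  have key0 : ∀ g : Matrix.SpecialLinearGroup (Fin 2) F, g.1.trace = 0 → (Subgroup.centralizer ({pr g} : Set (Matrix.ProjectiveSpecialLinearGroup (Fin 2) F))).index * (2 * Nat.card (Subgroup.centralizer ({g} : Set (Matrix.SpecialLinearGroup (Fin 2) F)))) = q * (q ^ 2 - 1) := by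
    intro g hg
    have := index_cent_psl g
    rwa [card_pm_of_trace_zero g hr2 hg, hqN] at this
  have hS : ∀ (g : Matrix.SpecialLinearGroup (Fin 2) F) (a : Fˣ), (a : F) ^ 2 ≠ 1 → IsConj g (dg a) → (Subgroup.centralizer ({pr g} : Set (Matrix.ProjectiveSpecialLinearGroup (Fin 2) F))).index = if g.1.trace = 0 then q * (q + 1) / 2 else q * (q + 1) := by
    intro g a ha hga
    split_ifs with h0
    · have h1 := key0 g h0
      rw [card_cent_conj hga, card_cent_dg a ha, hqN, hsq, ← mul_assoc, ← mul_assoc] at h1
      have h2 := Nat.eq_of_mul_eq_mul_right (by omega) h1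
      omega
    · have h1 := key1 g h0
      rw [card_cent_conj hga, card_cent_dg a ha, hqN, hsq, ← mul_assoc] at h1
      exact Nat.eq_of_mul_eq_mul_right (by omega) h1
  have hU : ∀ (g : Matrix.SpecialLinearGroup (Fin 2) F), NS g.1 → (g.1.trace = 2 ∨ g.1.trace = -2) → (Subgroup.centralizer ({pr g} : Set (Matrix.ProjectiveSpecialLinearGroup (Fin 2) F))).index = (q ^ 2 - 1) / 2 := by
    intro g hg ht
    have h0 : g.1.trace ≠ 0 := by
      rcases ht with h | h <;> rw [h]
      · exact h2'
      · exact neg_ne_zero.2 h2'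
    have h1 := key1 g h0
    rw [card_cent_unip g hg ht, if_neg hr2, hqN] at h1
    have h2 : q * ((Subgroup.centralizer ({pr g} : Set (Matrix.ProjectiveSpecialLinearGroup (Fin 2) F))).index * 2) = q * (q ^ 2 - 1) := by rw [← h1]; ring
    have h3 := Nat.eq_of_mul_eq_mul_left (by omega) h2
    omega
  have hN : ∀ (g : Matrix.SpecialLinearGroup (Fin 2) F), (∀ c : F, c ^ 2 - g.1.trace * c + 1 ≠ 0) → (Subgroup.centralizer ({pr g} : Set (Matrix.ProjectiveSpecialLinearGroup (Fin 2) F))).index = if g.1.trace = 0 then q * (q - 1) / 2 else q * (q - 1) := by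
    intro g hg
    split_ifs with h0
    · have h1 := key0 g h0
      rw [(cent_nonsplit g hg).2, hqN, hsq, mul_comm (q + 1), ← mul_assoc, ← mul_assoc] at h1
      have h2 := Nat.eq_of_mul_eq_mul_right (by omega) h1
      omega
    · have h1 := key1 g h0
      rw [(cent_nonsplit g hg).2, hqN, hsq, mul_comm (q + 1), ← mul_assoc] at h1
      exact Nat.eq_of_mul_eq_mul_right (by omega) h1
  have h1idx : (Subgroup.centralizer ({(1 : Matrix.ProjectiveSpecialLinearGroup (Fin 2) F)} : Set (Matrix.ProjectiveSpecialLinearGroup (Fin 2) F))).index = 1 := by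
    rw [Subgroup.index_eq_one, eq_top_iff]
    intro x _
    rw [Subgroup.mem_centralizer_singleton_iff]; simp
  have hId : ∀ g : Matrix.SpecialLinearGroup (Fin 2) F, ¬ NS g.1 → (Subgroup.centralizer ({pr g} : Set (Matrix.ProjectiveSpecialLinearGroup (Fin 2) F))).index = 1 := by
    intro g hg
    rw [ns_iff', not_not] at hg
    rw [(pr_eq_one g).2 hg, h1idx]
  -- the eigenvalues for trace zero
  have hfour : (4 : F) ≠ 0 := by
    have : (4 : F) = 2 * 2 := by norm_num
    rw [this]; exact mul_ne_zero h2' h2'
  -- existence of split elements with nonzero trace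
  have hexS : ∃ a : Fˣ, (a : F) ^ 2 ≠ 1 ∧ (dg a).1.trace ≠ 0 := by
    obtain ⟨a, ha⟩ := IsCyclic.exists_ofOrder_eq_natCard (α := Fˣ)
    rw [Nat.card_units, hqN] at ha
    have hne : ∀ k : ℕ, 0 < k → k < 6 → (a : F) ^ k ≠ 1 := by
      intro k hk hk6 h
      have h1 : a ^ k = 1 := Units.ext (by rw [Units.val_pow_eq_pow_val, h]; rfl)
      have h2 := Nat.le_of_dvd hk (orderOf_dvd_of_pow_eq_one h1)
      omega
    refine ⟨a, hne 2 (by norm_num) (by norm_num), ?_⟩
    rw [dg_trace]
    intro h
    apply hne 4 (by norm_num) (by norm_num)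
    have h1 : (a : F) * ((a⁻¹ : Fˣ) : F) = 1 := Units.mul_inv a
    have h2 : (a : F) ^ 2 = -1 := by linear_combination (a : F) * h - h1
    calc (a : F) ^ 4 = ((a : F) ^ 2) ^ 2 := by ring
      _ = 1 := by rw [h2]; ring
  have hexN : ∃ g : Matrix.SpecialLinearGroup (Fin 2) F, (∀ c : F, c ^ 2 - g.1.trace * c + 1 ≠ 0) ∧ g.1.trace ≠ 0 := by
    obtain ⟨g, hg, ho⟩ := exists_nonsplit_gen F
    refine ⟨g, hg, ?_⟩
    intro h0
    have h1 := (sq_eq_neg_one_iff g hr2).2 h0
    have h2 : g ^ 4 = 1 := by
      have : g ^ 4 = (g ^ 2) ^ 2 := by rw [← pow_mul]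
      rw [this, h1]; simp
    have h3 := Nat.le_of_dvd (by norm_num) (orderOf_dvd_of_pow_eq_one h2)
    omega
  constructor
  · intro hmod
    have hsqm : ∃ i : F, i ^ 2 = -1 := by
      have : IsSquare (-1 : F) := by
        rw [FiniteField.isSquare_neg_one_iff]
        omega
      obtain ⟨i, hi⟩ := this
      exact ⟨i, by rw [hi]; ring⟩
    obtain ⟨i, hi⟩ := hsqm
    have hi0 : i ≠ 0 := by rintro rfl; simp at hi
    have hNt : ∀ (g : Matrix.SpecialLinearGroup (Fin 2) F), (∀ c : F, c ^ 2 - g.1.trace * c + 1 ≠ 0) → g.1.trace ≠ 0 := by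
      intro g hg h0
      apply hg i
      rw [h0, hi]; ring
    ext m
    simp only [Set.mem_range, Set.mem_insert_iff, Set.mem_singleton_iff]
    constructor
    · rintro ⟨x, rfl⟩
      obtain ⟨g, rfl⟩ := pr_surj x
      by_cases hg : NS g.1
      · rcases trichotomy g hg with ⟨a, ha, hga⟩ | h | h
        · have h1 := hS g a ha hga
          split_ifs at h1 with h0
          · right; right; left; exact h1
          · right; right; right; right; exact h1
        · right; left; exact hU g hg h
        · have h1 := hN g h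
          rw [if_neg (hNt g h)] at h1
          right; right; right; left; exact h1
      · left; exact hId g hg
    · rintro (h | h | h | h | h)
      · exact ⟨1, by rw [h1idx, h]⟩
      · exact ⟨pr (u 1), by rw [h]; exact hU _ (u_ns one_ne_zero) (Or.inl (u_trace _))⟩
      · refine ⟨pr (dg (Units.mk0 i hi0)), ?_⟩
        rw [h]
        have h1 : ((Units.mk0 i hi0 : Fˣ) : F) ^ 2 ≠ 1 := by
          show i ^ 2 ≠ 1
          rw [hi]; intro h3; apply h2'; linear_combination -h3
        have h2 := hS (dg (Units.mk0 i hi0)) _ h1 (IsConj.refl _)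
        rw [if_pos] at h2
        · exact h2
        · rw [dg_trace]
          simp only [Units.val_mk0, Units.val_inv_eq_inv_val]
          field_simp
          linear_combination hi
      · obtain ⟨g, hg, h0⟩ := hexN
        refine ⟨pr g, ?_⟩
        rw [h]
        have := hN g hg
        rwa [if_neg h0] at this
      · obtain ⟨a, ha, h0⟩ := hexS
        refine ⟨pr (dg a), ?_⟩
        rw [h]
        have := hS (dg a) a ha (IsConj.refl _)
        rwa [if_neg h0] at this
  · intro hmod
    have hns : ∀ c : F, c ^ 2 ≠ -1 := by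
      intro c hc
      have : IsSquare (-1 : F) := ⟨c, by rw [← hc]; ring⟩
      rw [FiniteField.isSquare_neg_one_iff] at this
      omega
    have hSt : ∀ (g : Matrix.SpecialLinearGroup (Fin 2) F) (a : Fˣ), IsConj g (dg a) → g.1.trace ≠ 0 := by
      intro g a hga h0
      rw [trace_conj hga, dg_trace] at h0
      apply hns (a : F)
      have h1 : (a : F) * ((a⁻¹ : Fˣ) : F) = 1 := Units.mul_inv a
      linear_combination (a : F) * h0 - h1
    ext m
    simp only [Set.mem_range, Set.mem_insert_iff, Set.mem_singleton_iff]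
    constructor
    · rintro ⟨x, rfl⟩
      obtain ⟨g, rfl⟩ := pr_surj x
      by_cases hg : NS g.1
      · rcases trichotomy g hg with ⟨a, ha, hga⟩ | h | h
        · have h1 := hS g a ha hga
          rw [if_neg (hSt g a hga)] at h1
          right; right; right; left; exact h1
        · right; left; exact hU g hg h
        · have h1 := hN g h
          split_ifs at h1 with h0
          · right; right; left; exact h1
          · right; right; right; right; exact h1
      · left; exact hId g hg
    · rintro (h | h | h | h | h)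
      · exact ⟨1, by rw [h1idx, h]⟩
      · exact ⟨pr (u 1), by rw [h]; exact hU _ (u_ns one_ne_zero) (Or.inl (u_trace _))⟩
      · obtain ⟨g, -, hg0⟩ := exists_trace (0 : F)
        refine ⟨pr g, ?_⟩
        rw [h]
        have := hN g (by
          intro c hc
          rw [hg0] at hc
          exact hns c (by linear_combination hc))
        rwa [if_pos hg0] at this
      · obtain ⟨a, ha, h0⟩ := hexS
        refine ⟨pr (dg a), ?_⟩
        rw [h]
        have := hS (dg a) a ha (IsConj.refl _)
        rwa [if_neg h0] at this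
      · obtain ⟨g, hg, h0⟩ := hexN
        refine ⟨pr g, ?_⟩
        rw [h]
        have := hN g hg
        rwa [if_neg h0] at this

end Cfsg.Agent.S2508
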