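import Cfsg.Statements.S2510
import Cfsg.Agent.H9.Lin.Psl

set_option autoImplicit false
open Cfsg

namespace Cfsg.Agent.S2510

open Cfsg.Agent.H9.Lin Polynomial

section

variable {F : Type*} [Field F] [Fintype F]

omit [Fintype F] in
theorem pow_one_of_scalar {n : ℕ} (A : Matrix.SpecialLinearGroup (Fin n) F) (k : ℕ) (l : F)
    (h : (A : Matrix (Fin n) (Fin n) F) ^ k = Matrix.scalar (Fin n) l) :
    (QuotientGroup.mk A : PSL n F) ^ k = 1 := by
  rw [← QuotientGroup.mk_pow, QuotientGroup.eq_one_iff, Matrix.SpecialLinearGroup.mem_center_iff]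
  refine ⟨l, ?_, ?_⟩
  · have h1 := congrArg Matrix.det h
    rw [Matrix.det_pow, A.2, one_pow, Matrix.scalar_apply, Matrix.det_diagonal,
      Finset.prod_const, Finset.card_univ] at h1
    exact h1.symm
  · rw [Matrix.SpecialLinearGroup.coe_pow, h]

/-- elements of an extension killed by `q - 1` lie in the base field -/
theorem mem_base {K : Type*} [Field K] [Algebra F K] [Finite K] (y : K) (hy : y ^ (Fintype.card F - 1) = 1) :
    ∃ l : F, y = algebraMap F K l := by
  classical
  have hq : 2 ≤ Fintype.card F := Fintype.one_lt_card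
  set q := Fintype.card F with hqq
  have hP : (X ^ q - X : K[X]) ≠ 0 := FiniteField.X_pow_card_sub_X_ne_zero K (by omega)
  let S : Finset K := Finset.univ.image (algebraMap F K)
  have hS : S.card = q := by
    rw [Finset.card_image_of_injective _ (algebraMap F K).injective, Finset.card_univ]
  have hsub : S ⊆ (X ^ q - X : K[X]).roots.toFinset := by
    intro a ha
    obtain ⟨l, -, rfl⟩ := Finset.mem_image.1 ha
    rw [Multiset.mem_toFinset, mem_roots hP, IsRoot.def, eval_sub, eval_pow, eval_X, ← map_pow,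
      FiniteField.pow_card, sub_self]
  have hcard : (X ^ q - X : K[X]).roots.toFinset.card ≤ q := by
    refine (Multiset.toFinset_card_le _).trans ((card_roots' _).trans ?_)
    rw [FiniteField.X_pow_card_sub_X_natDegree_eq K (by omega)]
  have heq := Finset.eq_of_subset_of_card_le hsub (by rw [hS]; exact hcard)
  have hy' : y ∈ (X ^ q - X : K[X]).roots.toFinset := by
    rw [Multiset.mem_toFinset, mem_roots hP, IsRoot.def, eval_sub, eval_pow, eval_X]
    obtain ⟨m, hm⟩ : ∃ m, q = m + 1 := ⟨q - 1, by omega⟩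
    rw [hm] at hy ⊢
    rw [Nat.add_sub_cancel] at hy
    rw [pow_succ, hy, one_mul, sub_self]
  rw [← heq] at hy'
  obtain ⟨l, -, hl⟩ := Finset.mem_image.1 hy'
  exact ⟨l, hl.symm⟩

theorem NN_one {q : ℕ} (hq : 2 ≤ q) : NN q 1 = 1 := by
  unfold NN; rw [pow_one]; exact Nat.div_self (by omega)

theorem tri (p : ℕ) [Fact p.Prime] [CharP F p] {n r : ℕ} (hn : 2 ≤ n) (hr : r.Prime)
    (hrq : r ∣ Fintype.card F - 1) (hrn : ¬ r ∣ n) (x : PSL n F) :
    (∃ x' : PSL n F, Nat.lcm (orderOf x) r ∣ orderOf x') ∨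
    orderOf x ∣ NN (Fintype.card F) n / Nat.gcd (NN (Fintype.card F) n) (Fintype.card F - 1) ∨
    (∃ j c, n - 1 = p ^ j ∧ orderOf x ∣ p ^ c) := by
  classical
  obtain ⟨A, rfl⟩ := QuotientGroup.mk_surjective x
  haveI : Nonempty (Fin n) := ⟨⟨0, by omega⟩⟩
  set M : Matrix (Fin n) (Fin n) F := (A : Matrix (Fin n) (Fin n) F) with hM
  have hint := Matrix.isIntegral (R := F) M
  have hmne : minpoly F M ≠ 0 := minpoly.ne_zero hint
  obtain ⟨f, hfm, hf, hfd⟩ := exists_monic_irreducible_factor (minpoly F M) (minpoly.not_isUnit F M)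
  have hfin : FiniteMultiplicity f (minpoly F M) := FiniteMultiplicity.of_not_isUnit hf.not_isUnit hmne
  obtain ⟨b, hb1, hb2⟩ := hfin.exists_eq_pow_mul_and_not_dvd
  set e := multiplicity f (minpoly F M) with he
  have he1 : 1 ≤ e := by
    by_contra h0
    have h0' : e = 0 := by omega
    rw [h0', pow_zero, one_mul] at hb1
    exact hb2 (hb1 ▸ hfd)
  have hcop : IsCoprime (f ^ e) b := ((hf.coprime_iff_not_dvd).2 hb2).pow_left
  by_cases hbu : IsUnit b
  swap
  · left
    refine coprime_case A hr hrq hrn (f ^ e) b hcop hb1.symm ?_ hbu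
    intro hu
    exact hf.not_isUnit ((isUnit_pow_iff (by omega)).1 hu)
  have hmd : minpoly F M ∣ f ^ e := by
    rw [hb1]; exact (hbu.mul_right_dvd).2 dvd_rfl
  have hfch : f ∣ M.charpoly := hfd.trans (Matrix.minpoly_dvd_charpoly M)
  obtain ⟨hfX, hd1, hdn⟩ := charpoly_factor M (by rw [hM, A.2]; exact one_ne_zero) f hf hfch
  set d := f.natDegree with hd
  have hed : e * d ≤ n := by
    have h1 : f ^ e ∣ M.charpoly := (Dvd.intro _ hb1.symm).trans (Matrix.minpoly_dvd_charpoly M)
    have h2 := natDegree_le_of_dvd h1 M.charpoly_monic.ne_zero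
    rwa [natDegree_pow, Matrix.charpoly_natDegree_eq_dim, Fintype.card_fin] at h2
  haveI : Fact (Irreducible f) := ⟨hf⟩
  haveI : Module.Finite F (AdjoinRoot f) := (AdjoinRoot.powerBasis hf.ne_zero).finite
  haveI : Finite (AdjoinRoot f) := Module.finite_of_finite F
  have hcK : Nat.card (AdjoinRoot f) = Fintype.card F ^ d := by
    rw [Module.natCard_eq_pow_finrank (K := F), (AdjoinRoot.powerBasis hf.ne_zero).finrank,
      AdjoinRoot.powerBasis_dim, Nat.card_eq_fintype_card]
  have hnorm : AdjoinRoot.root f ^ NN (Fintype.card F) d =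
      algebraMap F (AdjoinRoot f) (Algebra.norm F (AdjoinRoot.root f)) := by
    rw [FiniteField.algebraMap_norm_eq_pow, hcK, Nat.card_eq_fintype_card]; rfl
  set ν := Algebra.norm F (AdjoinRoot.root f) with hν
  have key : ∀ (k : ℕ) (l : F), AdjoinRoot.root f ^ k = algebraMap F (AdjoinRoot f) l →
      f ∣ X ^ k - C l := by
    intro k l h
    rw [← AdjoinRoot.mk_eq_zero, map_sub, map_pow, AdjoinRoot.mk_X, h, AdjoinRoot.mk_C]
    exact sub_self _
  have hpow : ∀ c, e ≤ p ^ c →
      (QuotientGroup.mk A : PSL n F) ^ (NN (Fintype.card F) d * p ^ c) = 1 := by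
    intro c hc
    have h1 : minpoly F M ∣ (X ^ NN (Fintype.card F) d - C ν) ^ p ^ c :=
      hmd.trans ((pow_dvd_pow _ hc).trans (pow_dvd_pow_of_dvd (key _ _ hnorm) _))
    rw [sub_pow_char_pow, ← pow_mul, ← map_pow] at h1
    obtain ⟨R, hR⟩ := h1
    have h2 := congrArg (aeval M) hR
    rw [map_mul, minpoly.aeval, zero_mul, map_sub, map_pow, aeval_X, aeval_C, sub_eq_zero] at h2
    exact pow_one_of_scalar A _ (ν ^ p ^ c) h2
  rcases Nat.lt_or_ge d n with hlt | hge
  · set c := Nat.clog p e with hc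
    have hp1 : 1 < p := (Fact.out : p.Prime).one_lt
    have hec : e ≤ p ^ c := Nat.le_pow_clog hp1 _
    have hmc : ∀ m, m < c → p ^ m < e := by
      intro m hm
      by_contra hcon
      exact absurd ((Nat.clog_le_iff_le_pow hp1).2 (not_lt.1 hcon)) (by omega)
    have hox : orderOf (QuotientGroup.mk A : PSL n F) ∣ NN (Fintype.card F) d * p ^ c :=
      orderOf_dvd_of_pow_eq_one (hpow c hec)
    by_cases hall : ∀ m, m < c → p ^ m < n - d
    · left
      obtain ⟨x', hx'⟩ := block (F := F) p (n := n) (d := d) (e := n - d) (c := c) (r := r) hd1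
        (by omega) (by omega) hall hr hrq hrn
      exact ⟨x', Nat.lcm_dvd (hox.trans ((Nat.dvd_lcm_left _ _).trans hx'))
        ((Nat.dvd_lcm_right _ _).trans hx')⟩
    · right; right
      push Not at hall
      obtain ⟨m, hm, hm2⟩ := hall
      have hm3 := hmc m hm
      have hpm : 1 ≤ p ^ m := Nat.one_le_pow _ _ (by omega)
      have hd1' : d = 1 := by
        by_contra hne
        obtain ⟨d', hd'⟩ : ∃ d', d = d' + 2 := ⟨d - 2, by omega⟩
        obtain ⟨e', he'⟩ : ∃ e', e = e' + 2 := ⟨e - 2, by omega⟩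
        rw [hd', he'] at hed
        have : (e' + 2) * (d' + 2) = e' * d' + 2 * e' + 2 * d' + 4 := by ring
        have h0 : 0 ≤ e' * d' := Nat.zero_le _
        omega
      rw [hd1'] at hm2 hed hox
      rw [NN_one Fintype.one_lt_card, one_mul] at hox
      exact ⟨m, c, by omega, hox⟩
  · right; left
    have hdn' : d = n := le_antisymm hdn hge
    have hfe : f = M.charpoly := by
      refine (eq_of_monic_of_dvd_of_natDegree_le hfm M.charpoly_monic hfch ?_).symm
      rw [Matrix.charpoly_natDegree_eq_dim, Fintype.card_fin]; omega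
    have hν1 : ν = 1 := by
      have h1 := Algebra.PowerBasis.norm_gen_eq_coeff_zero_minpoly (AdjoinRoot.powerBasis hf.ne_zero)
      rw [AdjoinRoot.powerBasis_gen, AdjoinRoot.powerBasis_dim, AdjoinRoot.minpoly_root hf.ne_zero,
        hfm.leadingCoeff, inv_one, map_one, mul_one] at h1
      have h2 := Matrix.det_eq_sign_charpoly_coeff M
      rw [hM, A.2, ← hM, Fintype.card_fin, ← hfe] at h2
      rw [hν, h1, ← hd, hdn', ← h2]
    rw [hν1, map_one, hdn'] at hnorm
    set q := Fintype.card F with hq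
    have hq2 : 2 ≤ q := Fintype.one_lt_card
    set g := Nat.gcd (NN q n) (q - 1) with hg
    have hy : (AdjoinRoot.root f ^ (NN q n / g)) ^ (q - 1) = 1 := by
      have hgpos : 0 < g := Nat.gcd_pos_of_pos_right _ (by omega)
      obtain ⟨a, ha⟩ : g ∣ NN q n := Nat.gcd_dvd_left _ _
      obtain ⟨b', hb'⟩ : g ∣ q - 1 := Nat.gcd_dvd_right _ _
      have e1 : NN q n / g * (q - 1) = NN q n * b' := by
        rw [ha, Nat.mul_div_cancel_left _ hgpos, hb']; ring
      rw [← pow_mul, e1, pow_mul, hnorm, one_pow]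
    obtain ⟨l, hl⟩ := mem_base _ hy
    apply orderOf_dvd_of_pow_eq_one
    apply pow_one_of_scalar A _ l
    have h1 : minpoly F M ∣ X ^ (NN q n / g) - C l := by
      refine dvd_trans ?_ (key _ _ hl)
      have he1' : e = 1 := by
        rw [hdn'] at hed
        have : e * n ≤ 1 * n := by omega
        have := Nat.le_of_mul_le_mul_right this (by omega)
        omega
      rw [he1', pow_one] at hmd
      exact hmd
    obtain ⟨R, hR⟩ := h1
    have h2 := congrArg (aeval M) hR
    rw [map_mul, minpoly.aeval, zero_mul, map_sub, map_pow, aeval_X, aeval_C, sub_eq_zero] at h2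
    exact h2

theorem step {G : Type*} [Group G] (p N : ℕ) [Fact p.Prime] (b t : G) (i : ℕ)
    (hb : orderOf b = p ^ i) (ht : orderOf t ∣ N ∨ ∃ c, orderOf t ∣ p ^ c) :
    ∃ (b' : G) (i' : ℕ), orderOf b' = p ^ i' ∧ orderOf b ∣ orderOf b' ∧
      (orderOf t ∣ N ∨ orderOf t ∣ orderOf b') := by
  rcases ht with h | ⟨c, h⟩
  · exact ⟨b, i, hb, dvd_rfl, Or.inl h⟩
  · obtain ⟨k, -, hk⟩ := (Nat.dvd_prime_pow Fact.out).1 h
    rcases le_total k i with h1 | h1
    · exact ⟨b, i, hb, dvd_rfl, Or.inr (by rw [hb, hk]; exact pow_dvd_pow _ h1)⟩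
    · exact ⟨t, k, hk, by rw [hb, hk]; exact pow_dvd_pow _ h1, Or.inr dvd_rfl⟩

theorem exact_of_dvd {G : Type*} [Group G] [Finite G] (g : G) (D : ℕ) (h : D ∣ orderOf g) :
    ∃ g' : G, orderOf g' = D := by
  have hpos := orderOf_pos g
  obtain ⟨k, hk⟩ := h
  refine ⟨g ^ k, ?_⟩
  rw [orderOf_pow, hk, Nat.gcd_mul_left_left]
  exact Nat.mul_div_cancel _ (by
    rcases Nat.eq_zero_or_pos k with h | h
    · rw [hk, h, mul_zero] at hpos; exact absurd hpos (lt_irrefl _)
    · exact h)

theorem order_w {m r : ℕ} (w : Multiplicative (Fin m → ZMod r)) : orderOf w ∣ r := by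
  apply orderOf_dvd_of_pow_eq_one
  apply Multiplicative.toAdd.injective
  rw [toAdd_pow, toAdd_one]
  funext i
  simp

end

/-- Let F be a finite field with q = p^a elements, n ≥ 2 (with q ≥ 4 when n = 2), L = PSL(n, F), and let r be a prime dividing q − 1 and not dividing n. Then for every m the direct product L × L × L × (ℤ/r)^m has the same set of element orders as L × L × L; and if n − 1 ≠ p^j for every j ≥ 0 (so never when n = 2, since 1 = p^0), then already L × L × (ℤ/r)^m has the same set of element orders as L × L. -/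
theorem result {F : Type*} [Field F] [Fintype F] (p a n r m : ℕ) (hp : p.Prime) (ha : 1 ≤ a) (hF : Fintype.card F = p ^ a)
    (hn : 2 ≤ n) (hn2 : n = 2 → 4 ≤ Fintype.card F) (hr : r.Prime) (hrq : r ∣ Fintype.card F - 1) (hrn : ¬ r ∣ n) :
    Set.range (orderOf : Matrix.ProjectiveSpecialLinearGroup (Fin n) F × Matrix.ProjectiveSpecialLinearGroup (Fin n) F × Matrix.ProjectiveSpecialLinearGroup (Fin n) F × Multiplicative (Fin m → ZMod r) → ℕ) =
      Set.range (orderOf : Matrix.ProjectiveSpecialLinearGroup (Fin n) F × Matrix.ProjectiveSpecialLinearGroup (Fin n) F × Matrix.ProjectiveSpecialLinearGroup (Fin n) F → ℕ) ∧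
    ((¬ ∃ j : ℕ, n - 1 = p ^ j) →
      Set.range (orderOf : Matrix.ProjectiveSpecialLinearGroup (Fin n) F × Matrix.ProjectiveSpecialLinearGroup (Fin n) F × Multiplicative (Fin m → ZMod r) → ℕ) =
        Set.range (orderOf : Matrix.ProjectiveSpecialLinearGroup (Fin n) F × Matrix.ProjectiveSpecialLinearGroup (Fin n) F → ℕ)) := by
  classical
  haveI : Fact p.Prime := ⟨hp⟩
  haveI : CharP F p := charP_of_card_eq_prime_pow hF
  haveI : Finite (PSL n F) := by
    unfold PSL Matrix.ProjectiveSpecialLinearGroup; infer_instance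
  haveI : Fact r.Prime := ⟨hr⟩
  have hq2 : 2 ≤ Fintype.card F := Fintype.one_lt_card
  obtain ⟨s, hs⟩ := singer (F := F) p (n := n) (by omega)
  obtain ⟨v, hv⟩ := block (F := F) p (n := n) (d := 1) (e := n - 1) (c := 0) (r := r) le_rfl
    (by omega) (by omega) (fun m hm => absurd hm (Nat.not_lt_zero _)) hr hrq hrn
  have hv' : r ∣ orderOf v := (Nat.dvd_lcm_right _ _).trans hv
  set N := NN (Fintype.card F) n / Nat.gcd (NN (Fintype.card F) n) (Fintype.card F - 1) with hN
  have htri := fun x : PSL n F => tri p hn hr hrq hrn x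
  constructor
  · apply Set.Subset.antisymm
    · rintro _ ⟨⟨x, y, z, w⟩, rfl⟩
      have hD : orderOf (x, y, z, w) ∣
          Nat.lcm (orderOf x) (Nat.lcm (orderOf y) (Nat.lcm (orderOf z) r)) := by
        rw [Prod.orderOf, Prod.orderOf, Prod.orderOf]
        exact Nat.lcm_dvd (Nat.dvd_lcm_left _ _) (Nat.lcm_dvd
          ((Nat.dvd_lcm_left _ _).trans (Nat.dvd_lcm_right _ _)) (Nat.lcm_dvd
          ((Nat.dvd_lcm_left _ _).trans ((Nat.dvd_lcm_right _ _).trans (Nat.dvd_lcm_right _ _)))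
          ((order_w w).trans ((Nat.dvd_lcm_right _ _).trans
            ((Nat.dvd_lcm_right _ _).trans (Nat.dvd_lcm_right _ _))))))
      suffices h : ∃ h : PSL n F × PSL n F × PSL n F, orderOf x ∣ orderOf h ∧ orderOf y ∣ orderOf h ∧
          orderOf z ∣ orderOf h ∧ r ∣ orderOf h by
        obtain ⟨g, h1, h2, h3, h4⟩ := h
        exact exact_of_dvd g _ (hD.trans (Nat.lcm_dvd h1 (Nat.lcm_dvd h2 (Nat.lcm_dvd h3 h4))))
      have co : ∀ a b c : PSL n F, orderOf a ∣ orderOf (a, b, c) ∧ orderOf b ∣ orderOf (a, b, c) ∧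
          orderOf c ∣ orderOf (a, b, c) := by
        intro a b c
        rw [Prod.orderOf, Prod.orderOf]
        exact ⟨Nat.dvd_lcm_left _ _, (Nat.dvd_lcm_left _ _).trans (Nat.dvd_lcm_right _ _),
          (Nat.dvd_lcm_right _ _).trans (Nat.dvd_lcm_right _ _)⟩
      rcases htri x with ⟨x', hx'⟩ | hx
      · exact ⟨(x', y, z), ((Nat.dvd_lcm_left _ _).trans hx').trans (co _ _ _).1, (co _ _ _).2.1,
          (co _ _ _).2.2, ((Nat.dvd_lcm_right _ _).trans hx').trans (co _ _ _).1⟩
      rcases htri y with ⟨y', hy'⟩ | hy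
      · exact ⟨(x, y', z), (co _ _ _).1, ((Nat.dvd_lcm_left _ _).trans hy').trans (co _ _ _).2.1,
          (co _ _ _).2.2, ((Nat.dvd_lcm_right _ _).trans hy').trans (co _ _ _).2.1⟩
      rcases htri z with ⟨z', hz'⟩ | hz
      · exact ⟨(x, y, z'), (co _ _ _).1, (co _ _ _).2.1,
          ((Nat.dvd_lcm_left _ _).trans hz').trans (co _ _ _).2.2,
          ((Nat.dvd_lcm_right _ _).trans hz').trans (co _ _ _).2.2⟩
      have cv : ∀ t : PSL n F, (orderOf t ∣ N ∨ (∃ j c, n - 1 = p ^ j ∧ orderOf t ∣ p ^ c)) →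
          (orderOf t ∣ N ∨ ∃ c, orderOf t ∣ p ^ c) := by
        rintro t (h | ⟨j, c, -, h⟩)
        · exact Or.inl h
        · exact Or.inr ⟨c, h⟩
      obtain ⟨b1, i1, hb1, -, hc1⟩ := step p N (1 : PSL n F) x 0 (by simp) (cv x hx)
      obtain ⟨b2, i2, hb2, hd2, hc2⟩ := step p N b1 y i1 hb1 (cv y hy)
      obtain ⟨b3, i3, hb3, hd3, hc3⟩ := step p N b2 z i2 hb2 (cv z hz)
      refine ⟨(s, b3, v), ?_, ?_, ?_, hv'.trans (co _ _ _).2.2⟩
      · rcases hc1 with h | h
        · exact (h.trans hs).trans (co _ _ _).1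
        · exact ((h.trans hd2).trans hd3).trans (co _ _ _).2.1
      · rcases hc2 with h | h
        · exact (h.trans hs).trans (co _ _ _).1
        · exact (h.trans hd3).trans (co _ _ _).2.1
      · rcases hc3 with h | h
        · exact (h.trans hs).trans (co _ _ _).1
        · exact h.trans (co _ _ _).2.1
    · rintro _ ⟨⟨x, y, z⟩, rfl⟩
      refine ⟨(x, y, z, 1), ?_⟩
      rw [Prod.orderOf, Prod.orderOf, Prod.orderOf, Prod.orderOf, Prod.orderOf]
      simp
  · intro hj
    apply Set.Subset.antisymm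
    · rintro _ ⟨⟨x, y, w⟩, rfl⟩
      have hD : orderOf (x, y, w) ∣ Nat.lcm (orderOf x) (Nat.lcm (orderOf y) r) := by
        rw [Prod.orderOf, Prod.orderOf]
        exact Nat.lcm_dvd (Nat.dvd_lcm_left _ _) (Nat.lcm_dvd
          ((Nat.dvd_lcm_left _ _).trans (Nat.dvd_lcm_right _ _))
          ((order_w w).trans ((Nat.dvd_lcm_right _ _).trans (Nat.dvd_lcm_right _ _))))
      suffices h : ∃ h : PSL n F × PSL n F, orderOf x ∣ orderOf h ∧ orderOf y ∣ orderOf h ∧
          r ∣ orderOf h by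
        obtain ⟨g, h1, h2, h4⟩ := h
        exact exact_of_dvd g _ (hD.trans (Nat.lcm_dvd h1 (Nat.lcm_dvd h2 h4)))
      have co : ∀ a b : PSL n F, orderOf a ∣ orderOf (a, b) ∧ orderOf b ∣ orderOf (a, b) := by
        intro a b
        rw [Prod.orderOf]
        exact ⟨Nat.dvd_lcm_left _ _, Nat.dvd_lcm_right _ _⟩
      rcases htri x with ⟨x', hx'⟩ | hx | ⟨j, c, h1, -⟩
      · exact ⟨(x', y), ((Nat.dvd_lcm_left _ _).trans hx').trans (co _ _).1, (co _ _).2,
          ((Nat.dvd_lcm_right _ _).trans hx').trans (co _ _).1⟩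
      swap
      · exact absurd ⟨j, h1⟩ hj
      rcases htri y with ⟨y', hy'⟩ | hy | ⟨j, c, h1, -⟩
      · exact ⟨(x, y'), (co _ _).1, ((Nat.dvd_lcm_left _ _).trans hy').trans (co _ _).2,
          ((Nat.dvd_lcm_right _ _).trans hy').trans (co _ _).2⟩
      swap
      · exact absurd ⟨j, h1⟩ hj
      exact ⟨(s, v), (hx.trans hs).trans (co _ _).1, (hy.trans hs).trans (co _ _).1,
        hv'.trans (co _ _).2⟩
    · rintro _ ⟨⟨x, y⟩, rfl⟩
      refine ⟨(x, y, 1), ?_⟩
      rw [Prod.orderOf, Prod.orderOf, Prod.orderOf]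
      simp

end Cfsg.Agent.S2510
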