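import Cfsg.Statements.S2513
import Cfsg.Agent.H9.Lin.Ord

set_option autoImplicit false
open Cfsg

namespace Cfsg.Agent.S2513

open Cfsg.Agent.H9.Lin Polynomial

theorem units_one {F : Type*} [Field F] [Fintype F] (hF : Fintype.card F = 2) (x : F)
    (hx : x ≠ 0) : x = 1 := by
  have := FiniteField.pow_card_sub_one_eq_one x hx
  rwa [hF, show 2 - 1 = 1 from rfl, pow_one] at this

/-- every unit of an algebra of dimension `n` gives an element of `PSL` of the same order -/
theorem exists_psl {F : Type*} [Field F] [Fintype F] (hF : Fintype.card F = 2) {n : ℕ}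
    (hn : 1 ≤ n) {A : Type*} [CommRing A] [Algebra F A] (hA : Module.finrank F A = n)
    (u : Aˣ) : ∃ g : Matrix.ProjectiveSpecialLinearGroup (Fin n) F, orderOf g = orderOf u := by
  classical
  haveI : Module.Finite F A := Module.finite_of_finrank_pos (by omega)
  let b := Module.finBasisOfFinrankEq F A hA
  let φ := Algebra.leftMulMatrix b
  have hφ : Function.Injective φ := Algebra.leftMulMatrix_injective b
  have hdet : ∀ v : Aˣ, (φ (v : A)).det = 1 := by
    intro v
    apply units_one hF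
    intro h0
    have h1 : φ (v : A) * φ ((v⁻¹ : Aˣ) : A) = 1 := by
      rw [← map_mul, Units.mul_inv, map_one]
    have h2 := congrArg Matrix.det h1
    rw [Matrix.det_mul, h0, zero_mul, Matrix.det_one] at h2
    exact zero_ne_one h2
  let S : Aˣ →* Matrix.SpecialLinearGroup (Fin n) F :=
    { toFun := fun v => ⟨φ (v : A), hdet v⟩
      map_one' := by ext1; simp
      map_mul' := fun v w => Subtype.ext (by
        show φ ((v * w : Aˣ) : A) = φ (v : A) * φ (w : A)
        rw [Units.val_mul, map_mul]) }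
  have hS : Function.Injective S := by
    intro v w h
    have h1 : φ (v : A) = φ (w : A) := congrArg Subtype.val h
    exact Units.ext (hφ h1)
  have hc : ∀ g : Matrix.SpecialLinearGroup (Fin n) F,
      g ∈ Subgroup.center (Matrix.SpecialLinearGroup (Fin n) F) → g = 1 := by
    intro g hg
    obtain ⟨r, hr1, hr2⟩ := Matrix.SpecialLinearGroup.mem_center_iff.1 hg
    have hr0 : r ≠ 0 := by
      rintro rfl
      rw [zero_pow (by simp; omega)] at hr1
      exact zero_ne_one hr1
    rw [units_one hF r hr0, map_one] at hr2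
    exact Subtype.ext hr2.symm
  refine ⟨QuotientGroup.mk (S u), ?_⟩
  rw [← orderOf_injective S hS u]
  rw [orderOf_eq_orderOf_iff]
  intro k
  rw [← QuotientGroup.mk_pow, QuotientGroup.eq_one_iff]
  exact ⟨fun h => hc _ h, fun h => by rw [h]; exact one_mem _⟩

theorem exists_field {F : Type*} [Field F] [Fintype F] (hF : Fintype.card F = 2) (i : ℕ)
    (hi : 1 ≤ i) : ∃ (K : Type) (_ : Field K) (_ : Fintype K) (_ : Algebra F K),
      Module.finrank F K = i ∧ ∃ u : Kˣ, orderOf u = 2 ^ i - 1 := by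
  classical
  haveI : Fact (Nat.Prime 2) := ⟨Nat.prime_two⟩
  let e : F ≃+* ZMod 2 := (ZMod.ringEquivOfPrime F Nat.prime_two hF).symm
  letI : Algebra F (GaloisField 2 i) :=
    ((algebraMap (ZMod 2) (GaloisField 2 i)).comp e.toRingHom).toAlgebra
  letI : Fintype (GaloisField 2 i) := Fintype.ofFinite _
  have hcard : Fintype.card (GaloisField 2 i) = 2 ^ i := by
    rw [← Nat.card_eq_fintype_card]; exact GaloisField.card 2 i (by omega)
  refine ⟨GaloisField 2 i, inferInstance, inferInstance, inferInstance, ?_, ?_⟩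
  · have h := Module.card_eq_pow_finrank (K := F) (V := GaloisField 2 i)
    rw [hcard, hF] at h
    exact (Nat.pow_right_injective le_rfl h).symm
  · obtain ⟨u, hu⟩ := IsCyclic.exists_generator (α := (GaloisField 2 i)ˣ)
    refine ⟨u, ?_⟩
    rw [orderOf_eq_card_of_forall_mem_zpowers hu, Nat.card_units, Nat.card_eq_fintype_card, hcard]

theorem exists_pair {F : Type*} [Field F] [Fintype F] (hF : Fintype.card F = 2) (i j n : ℕ)
    (hi : 1 ≤ i) (hj : 1 ≤ j) (hn : i + j = n) :
    ∃ g : Matrix.ProjectiveSpecialLinearGroup (Fin n) F,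
      2 ^ i - 1 ∣ orderOf g ∧ 2 ^ j - 1 ∣ orderOf g := by
  obtain ⟨K, _, _, _, h1, u, hu⟩ := exists_field hF i hi
  obtain ⟨L, _, _, _, h2, v, hv⟩ := exists_field hF j hj
  have h3 : Module.finrank F (K × L) = n := by
    haveI : Module.Finite F K := Module.finite_of_finrank_pos (by omega)
    haveI : Module.Finite F L := Module.finite_of_finrank_pos (by omega)
    rw [Module.finrank_prod, h1, h2, hn]
  obtain ⟨g, hg⟩ := exists_psl hF (by omega) h3 (MulEquiv.prodUnits.symm (u, v))
  refine ⟨g, ?_, ?_⟩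
  · rw [hg, MulEquiv.orderOf_eq, Prod.orderOf, ← hu]; exact Nat.dvd_lcm_left _ _
  · rw [hg, MulEquiv.orderOf_eq, Prod.orderOf, ← hv]; exact Nat.dvd_lcm_right _ _

theorem exists_unip {F : Type*} [Field F] [Fintype F] (hF : Fintype.card F = 2) (n : ℕ)
    (hn : 2 ≤ n) : ∃ g : Matrix.ProjectiveSpecialLinearGroup (Fin n) F,
      2 ^ Nat.clog 2 n ∣ orderOf g := by
  classical
  haveI : Fact (Nat.Prime 2) := ⟨Nat.prime_two⟩
  haveI : CharP F 2 := by
    have := charP_of_card_eq_prime_pow (R := F) (p := 2) (f := 1) (by rw [hF, pow_one])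
    exact this
  have hm : (X ^ n : F[X]).Monic := monic_X_pow n
  let A := AdjoinRoot (X ^ n : F[X])
  have hfin : Module.finrank F A = n := by
    rw [(AdjoinRoot.powerBasis' hm).finrank, AdjoinRoot.powerBasis'_dim, natDegree_X_pow]
  haveI : Module.Finite F A := Module.finite_of_finrank_pos (by omega)
  haveI : Nontrivial A := Module.nontrivial_of_finrank_pos (R := F) (by omega)
  haveI : CharP A 2 := charP_of_injective_algebraMap (algebraMap F A).injective 2
  let x : A := AdjoinRoot.root _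
  have hx : ∀ k, x ^ k = 0 ↔ n ≤ k := by
    intro k
    have : x ^ k = AdjoinRoot.mk (X ^ n : F[X]) (X ^ k) := by rw [map_pow]; rfl
    rw [this, AdjoinRoot.mk_eq_zero]
    constructor
    · intro h
      have := natDegree_le_of_dvd h (monic_X_pow k).ne_zero
      rwa [natDegree_X_pow, natDegree_X_pow] at this
    · intro h; exact pow_dvd_pow _ h
  have hnil : IsNilpotent x := ⟨n, (hx n).2 le_rfl⟩
  obtain ⟨u, hu⟩ : IsUnit (1 + x) := hnil.isUnit_one_add
  obtain ⟨g, hg⟩ := exists_psl hF (by omega) hfin u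
  have hpow : ∀ m, u ^ 2 ^ m = 1 ↔ n ≤ 2 ^ m := by
    intro m
    rw [← hx, Units.ext_iff, Units.val_pow_eq_pow_val, hu, add_pow_char_pow, one_pow, Units.val_one,
      add_eq_left]
  refine ⟨g, ?_⟩
  rw [hg]
  have h1 : u ^ 2 ^ Nat.clog 2 n = 1 := (hpow _).2 (Nat.le_pow_clog (by norm_num) _)
  obtain ⟨m, hm1, hm2⟩ := (Nat.dvd_prime_pow Nat.prime_two).1 (orderOf_dvd_of_pow_eq_one h1)
  have h2 : n ≤ 2 ^ m := (hpow m).1 (by rw [← hm2]; exact pow_orderOf_eq_one u)
  rw [hm2]
  exact pow_dvd_pow _ ((Nat.clog_le_iff_le_pow (by norm_num)).2 h2)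

theorem exists_top {F : Type*} [Field F] [Fintype F] (hF : Fintype.card F = 2) (n : ℕ)
    (hn : 1 ≤ n) : ∃ g : Matrix.ProjectiveSpecialLinearGroup (Fin n) F,
      2 ^ n - 1 ∣ orderOf g := by
  obtain ⟨K, _, _, _, h1, u, hu⟩ := exists_field hF n hn
  obtain ⟨g, hg⟩ := exists_psl hF hn h1 u
  exact ⟨g, by rw [hg, hu]⟩

/-- the odd part of the exponent -/
def MM (n : ℕ) : ℕ := (Finset.Icc 1 n).lcm (fun i => 2 ^ i - 1)

theorem odd_MM (n : ℕ) : Nat.Coprime (2 ^ Nat.clog 2 n) (MM n) := by
  apply Nat.Coprime.pow_left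
  rw [Nat.coprime_comm]
  have : ∀ s : Finset ℕ, (∀ i ∈ s, 1 ≤ i) → Nat.Coprime (s.lcm (fun i => 2 ^ i - 1)) 2 := by
    intro s
    induction s using Finset.induction_on with
    | empty => intro _; simp
    | insert a s ha ih =>
      intro h
      rw [Finset.lcm_insert]
      have h1 : Nat.Coprime (2 ^ a - 1) 2 := by
        rw [Nat.coprime_two_right]
        have := h a (Finset.mem_insert_self _ _)
        obtain ⟨b, rfl⟩ : ∃ b, a = b + 1 := ⟨a - 1, by omega⟩
        refine ⟨2 ^ b - 1, ?_⟩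
        have := Nat.one_le_two_pow (n := b)
        rw [pow_succ]; omega
      have h2 := ih (fun i hi => h i (Finset.mem_insert_of_mem hi))
      exact Nat.Coprime.coprime_dvd_left (Nat.lcm_dvd_mul _ _) (h1.mul_left h2)
  exact this _ (fun i hi => (Finset.mem_Icc.1 hi).1)

theorem all_pow {F : Type*} [Field F] [Fintype F] (hF : Fintype.card F = 2) (n : ℕ)
    (g : Matrix.ProjectiveSpecialLinearGroup (Fin n) F) : g ^ (2 ^ Nat.clog 2 n * MM n) = 1 := by
  classical
  haveI : Fact (Nat.Prime 2) := ⟨Nat.prime_two⟩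
  haveI : CharP F 2 := by
    have := charP_of_card_eq_prime_pow (R := F) (p := 2) (f := 1) (by rw [hF, pow_one])
    exact this
  obtain ⟨A, rfl⟩ := QuotientGroup.mk_surjective g
  rw [← QuotientGroup.mk_pow, QuotientGroup.eq_one_iff]
  have h := pow_eq_one (F := F) (p := 2) (c := Nat.clog 2 n) (M := MM n)
    (Nat.le_pow_clog (by norm_num) _)
    (fun i h1 h2 => by
      rw [hF]; exact Finset.dvd_lcm (f := fun i => 2 ^ i - 1) (Finset.mem_Icc.2 ⟨h1, h2⟩))
    (A : Matrix (Fin n) (Fin n) F) (by rw [A.2]; exact one_ne_zero)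
  have : A ^ (2 ^ Nat.clog 2 n * MM n) = 1 := by
    apply Subtype.ext
    rw [mul_comm]
    simpa using h
  rw [this]; exact one_mem _

theorem exists_full {F : Type*} [Field F] [Fintype F] (hF : Fintype.card F = 2) (n k : ℕ)
    (hn : 2 ≤ n) (hk : (n + 3) / 2 ≤ k) :
    ∃ f : Fin k → Matrix.ProjectiveSpecialLinearGroup (Fin n) F,
      orderOf f = 2 ^ Nat.clog 2 n * MM n := by
  classical
  have key : ∀ j : Fin k, ∃ g : Matrix.ProjectiveSpecialLinearGroup (Fin n) F,
      ((j : ℕ) = 0 → 2 ^ Nat.clog 2 n ∣ orderOf g) ∧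
      ((j : ℕ) = 1 → 2 ^ n - 1 ∣ orderOf g) ∧
      (2 ≤ (j : ℕ) → (j : ℕ) ≤ n → 2 ^ ((j : ℕ) - 1) - 1 ∣ orderOf g ∧
        2 ^ (n - ((j : ℕ) - 1)) - 1 ∣ orderOf g) := by
    intro j
    rcases Nat.lt_or_ge (j : ℕ) 2 with h | h
    · rcases Nat.lt_or_ge (j : ℕ) 1 with h' | h'
      · obtain ⟨g, hg⟩ := exists_unip hF n hn
        exact ⟨g, fun _ => hg, fun h2 => by omega, fun h2 => by omega⟩
      · obtain ⟨g, hg⟩ := exists_top hF n (by omega)
        exact ⟨g, fun h2 => by omega, fun _ => hg, fun h2 => by omega⟩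
    · by_cases h3 : (j : ℕ) ≤ n
      · obtain ⟨g, hg⟩ := exists_pair hF ((j : ℕ) - 1) (n - ((j : ℕ) - 1)) n (by omega) (by omega)
          (by omega)
        exact ⟨g, fun h2 => by omega, fun h2 => by omega, fun _ _ => hg⟩
      · exact ⟨1, fun h2 => by omega, fun h2 => by omega, fun _ h4 => absurd h4 h3⟩
  choose f hf using key
  refine ⟨f, Nat.dvd_antisymm ?_ ?_⟩
  · apply orderOf_dvd_of_pow_eq_one
    funext j
    exact all_pow hF n (f j)
  · have hd : ∀ j : Fin k, orderOf (f j) ∣ orderOf f := by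
      intro j
      apply orderOf_dvd_of_pow_eq_one
      have := pow_orderOf_eq_one f
      exact congrFun this j
    apply (odd_MM n).mul_dvd_of_dvd_of_dvd
    · exact ((hf ⟨0, by omega⟩).1 rfl).trans (hd _)
    · apply Finset.lcm_dvd
      intro i hi
      obtain ⟨hi1, hi2⟩ := Finset.mem_Icc.1 hi
      have htop : 2 ^ n - 1 ∣ orderOf f := ((hf ⟨1, by omega⟩).2.1 rfl).trans (hd _)
      rcases Nat.lt_trichotomy (2 * i) n with h | h | h
      · exact ((hf ⟨i + 1, by omega⟩).2.2 (by simp; omega) (by simp; omega)).1.trans (hd _)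
      · have : 2 ^ i - 1 ∣ 2 ^ n - 1 := by
          rw [← h, mul_comm, pow_mul]
          simpa using Nat.sub_dvd_pow_sub_pow (2 ^ i) 1 2
        exact this.trans htop
      · rcases Nat.lt_or_ge i n with h' | h'
        · have := ((hf ⟨n - i + 1, by omega⟩).2.2 (by show 2 ≤ n - i + 1; omega)
            (by show n - i + 1 ≤ n; omega)).2.trans (hd _)
          have e : n - (n - i + 1 - 1) = i := by omega
          simpa only [e] using this
        · have : i = n := by omega
          subst this; exact htop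

theorem range_eq {F : Type*} [Field F] [Fintype F] (hF : Fintype.card F = 2) (n k : ℕ)
    (hn : 2 ≤ n) (hk : (n + 3) / 2 ≤ k) :
    Set.range (orderOf : (Fin k → Matrix.ProjectiveSpecialLinearGroup (Fin n) F) → ℕ) =
      {d | d ∣ 2 ^ Nat.clog 2 n * MM n} := by
  ext d
  constructor
  · rintro ⟨f, rfl⟩
    apply orderOf_dvd_of_pow_eq_one
    funext j
    exact all_pow hF n (f j)
  · intro hd
    obtain ⟨f, hf⟩ := exists_full hF n k hn hk
    have hd' : d ∣ 2 ^ Nat.clog 2 n * MM n := hd
    obtain ⟨e, he⟩ := hd'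
    have hpos : 0 < 2 ^ Nat.clog 2 n * MM n := by
      rw [← hf]
      haveI : Finite (Matrix.ProjectiveSpecialLinearGroup (Fin n) F) := by
        unfold Matrix.ProjectiveSpecialLinearGroup; infer_instance
      exact orderOf_pos f
    refine ⟨f ^ e, ?_⟩
    rw [orderOf_pow, hf, he, Nat.gcd_mul_left_left]
    exact Nat.mul_div_cancel _ (by
      rcases Nat.eq_zero_or_pos e with h | h
      · rw [he, h, mul_zero] at hpos; exact absurd hpos (lt_irrefl _)
      · exact h)

/-- Let F be the field with two elements, n ≥ 2, L = PSL(n, F) and k₀ = ⌊(n + 3)/2⌋. Then for every k ≥ k₀ the direct product of k copies of L has the same set of element orders as the direct product of k₀ copies of L. -/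
theorem result {F : Type*} [Field F] [Fintype F] (hF : Fintype.card F = 2) (n k : ℕ) (hn : 2 ≤ n) (hk : (n + 3) / 2 ≤ k) :
    Set.range (orderOf : (Fin k → Matrix.ProjectiveSpecialLinearGroup (Fin n) F) → ℕ) = Set.range (orderOf : (Fin ((n + 3) / 2) → Matrix.ProjectiveSpecialLinearGroup (Fin n) F) → ℕ) := by
  rw [range_eq hF n k hn hk, range_eq hF n _ hn le_rfl]

end Cfsg.Agent.S2513
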