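import Cfsg.Statements.S2514

set_option autoImplicit false
open Cfsg

namespace Cfsg.Agent.S2514

theorem dvd_range {G : Type*} [Group G] [Finite G] {n : ℕ} {x : G} (h : n ∣ orderOf x) :
    n ∈ Set.range (orderOf : G → ℕ) :=
  ⟨x ^ (orderOf x / n), orderOf_pow_orderOf_div (orderOf_pos x).ne' h⟩

theorem exists_max {G : Type*} [Group G] [Finite G] (x : G) :
    ∃ y : G, orderOf x ∣ orderOf y ∧
      ∀ m ∈ Set.range (orderOf : G → ℕ), orderOf y ∣ m → m = orderOf y := by
  classical
  obtain ⟨y, hy, hmax⟩ := Set.Finite.exists_maximalFor (fun z : G => orderOf z)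
    {z : G | orderOf x ∣ orderOf z} (Set.toFinite _) ⟨x, dvd_rfl⟩
  refine ⟨y, hy, ?_⟩
  rintro m ⟨z, rfl⟩ hz
  have h1 : orderOf y ≤ orderOf z := Nat.le_of_dvd (orderOf_pos z) hz
  exact le_antisymm (hmax (show orderOf x ∣ orderOf z from dvd_trans hy hz) h1) h1

theorem pi_dvd {ι : Type*} {G : Type*} [Group G] (f : ι → G) (n : ℕ) :
    orderOf f ∣ n ↔ ∀ i, orderOf (f i) ∣ n := by
  simp only [orderOf_dvd_iff_pow_eq_one, funext_iff, Pi.pow_apply, Pi.one_apply]

/-- For a finite group X write μ(X) for the set of element orders of X that are maximal under divisibility. Let G and H be finite groups and k ≥ 1 such that μ(H) ⊆ μ(G) and μ(G) has fewer than k elements outside μ(H). Then the direct product of k copies of G has the same set of element orders as the direct product of k − 1 copies of G with H. -/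
theorem result {G H : Type*} [Group G] [Finite G] [Group H] [Finite H] (k : ℕ) (hk : 1 ≤ k)
    (hsub : {n : ℕ | n ∈ Set.range (orderOf : H → ℕ) ∧ ∀ m ∈ Set.range (orderOf : H → ℕ), n ∣ m → m = n} ⊆ {n : ℕ | n ∈ Set.range (orderOf : G → ℕ) ∧ ∀ m ∈ Set.range (orderOf : G → ℕ), n ∣ m → m = n})
    (hfew : ({n : ℕ | n ∈ Set.range (orderOf : G → ℕ) ∧ ∀ m ∈ Set.range (orderOf : G → ℕ), n ∣ m → m = n} \ {n : ℕ | n ∈ Set.range (orderOf : H → ℕ) ∧ ∀ m ∈ Set.range (orderOf : H → ℕ), n ∣ m → m = n}).ncard < k) :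
    Set.range (orderOf : (Fin k → G) → ℕ) = Set.range (orderOf : (Fin (k - 1) → G) × H → ℕ) := by
  obtain ⟨k, rfl⟩ : ∃ k', k = k' + 1 := ⟨k - 1, by omega⟩
  show _ = Set.range (orderOf : (Fin k → G) × H → ℕ)
  apply Set.Subset.antisymm
  · rintro n ⟨f, rfl⟩
    choose y hy hymax using fun i => exists_max (f i)
    suffices h : ∃ z : (Fin k → G) × H, ∀ i, orderOf (y i) ∣ orderOf z by
      obtain ⟨z, hz⟩ := h
      refine dvd_range (x := z) ?_
      rw [pi_dvd]
      intro i
      exact (hy i).trans (hz i)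
    by_cases hA : ∃ i0, orderOf (y i0) ∈ {n : ℕ | n ∈ Set.range (orderOf : H → ℕ) ∧ ∀ m ∈ Set.range (orderOf : H → ℕ), n ∣ m → m = n}
    · obtain ⟨i0, ⟨h, hh⟩, -⟩ := hA
      refine ⟨(fun j => y (i0.succAbove j), h), ?_⟩
      intro i
      rw [Prod.orderOf]
      by_cases hi : i = i0
      · subst hi
        simp only [hh]
        exact Nat.dvd_lcm_right _ _
      · obtain ⟨j, hj⟩ := Fin.exists_succAbove_eq hi
        refine dvd_trans ?_ (Nat.dvd_lcm_left _ _)
        rw [← hj]
        exact (pi_dvd (fun j => y (i0.succAbove j)) _).1 dvd_rfl j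
    · push Not at hA
      classical
      set D := ({n : ℕ | n ∈ Set.range (orderOf : G → ℕ) ∧ ∀ m ∈ Set.range (orderOf : G → ℕ), n ∣ m → m = n} \ {n : ℕ | n ∈ Set.range (orderOf : H → ℕ) ∧ ∀ m ∈ Set.range (orderOf : H → ℕ), n ∣ m → m = n}) with hD
      have hDf : D.Finite := by
        refine Set.Finite.subset (Set.finite_range (orderOf : G → ℕ)) ?_
        rintro n ⟨⟨h1, -⟩, -⟩
        exact h1
      have hmem : ∀ i, orderOf (y i) ∈ D := fun i => ⟨⟨⟨y i, rfl⟩, hymax i⟩, hA i⟩
      obtain ⟨i0, -, j0, -, hne, heq⟩ := Finset.exists_ne_map_eq_of_card_lt_of_maps_to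
        (s := (Finset.univ : Finset (Fin (k + 1)))) (t := hDf.toFinset) (f := fun i => orderOf (y i))
        (by rw [← Set.ncard_eq_toFinset_card _ hDf]; simpa using hfew)
        (fun i _ => by simpa using hmem i)
      refine ⟨(fun j => y (i0.succAbove j), 1), ?_⟩
      intro i
      rw [Prod.orderOf]
      refine dvd_trans ?_ (Nat.dvd_lcm_left _ _)
      by_cases hi : i = i0
      · subst hi
        obtain ⟨j, hj⟩ := Fin.exists_succAbove_eq hne.symm
        rw [heq, ← hj]
        exact (pi_dvd (fun j => y (i.succAbove j)) _).1 dvd_rfl j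
      · obtain ⟨j, hj⟩ := Fin.exists_succAbove_eq hi
        rw [← hj]
        exact (pi_dvd (fun j => y (i0.succAbove j)) _).1 dvd_rfl j
  · rintro n ⟨⟨f, h⟩, rfl⟩
    obtain ⟨y, hy, hymax⟩ := exists_max h
    have := hsub ⟨⟨y, rfl⟩, hymax⟩
    obtain ⟨⟨g, hg⟩, -⟩ := this
    refine dvd_range (x := (Fin.snoc (α := fun _ => G) f g : Fin (k + 1) → G)) ?_
    rw [Prod.orderOf]
    apply Nat.lcm_dvd
    · show orderOf f ∣ _
      rw [pi_dvd]
      intro i
      have := (pi_dvd (Fin.snoc (α := fun _ => G) f g : Fin (k + 1) → G) _).1 dvd_rfl i.castSucc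
      simpa using this
    · show orderOf h ∣ _
      refine hy.trans ?_
      rw [← hg]
      have := (pi_dvd (Fin.snoc (α := fun _ => G) f g : Fin (k + 1) → G) _).1 dvd_rfl (Fin.last k)
      simpa using this

end Cfsg.Agent.S2514
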