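import Cfsg.Statements.S2516

set_option autoImplicit false
open Cfsg

namespace Cfsg.Agent.S2516



/-- Let F be a field of characteristic p > 0, V a non-zero finite-dimensional F-vector space, G a finite group and ρ a representation of G on V; form the semidirect product V ⋊ G. For g ∈ G of order k, the coset Vg contains an element of order pk if and only if the minimal polynomial of ρ(g) does not divide 1 + X + ⋯ + X^(k−1). -/
theorem result {F : Type*} [Field F] (p : ℕ) [Fact p.Prime] [CharP F p] {V : Type*} [AddCommGroup V] [Module F V] [FiniteDimensional F V] [Nontrivial V]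
    {G : Type*} [Group G] [Finite G] (ρ : Representation F G V) (g : G) :
    (∃ x : Multiplicative V ⋊[(MulAutMultiplicative V).symm.toMonoidHom.comp
        ((DistribMulAction.toAddAut ((V →ₗ[F] V)ˣ) V).comp ρ.asGroupHom)] G,
        x.right = g ∧ orderOf x = p * orderOf g) ↔
      ¬ (minpoly F (ρ g) ∣ ∑ i ∈ Finset.range (orderOf g), (Polynomial.X : Polynomial F) ^ i) := by
  classical
  set φ := ((MulAutMultiplicative V).symm.toMonoidHom.comp
        ((DistribMulAction.toAddAut ((V →ₗ[F] V)ˣ) V).comp ρ.asGroupHom)) with hφ
  have hφa : ∀ (h : G) (v : V), φ h (Multiplicative.ofAdd v) = Multiplicative.ofAdd (ρ h v) := fun h v => rfl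
  have hpow : ∀ (x : Multiplicative V ⋊[φ] G) (n : ℕ), (x ^ n).right = x.right ^ n ∧
      (x ^ n).left = Multiplicative.ofAdd ((∑ i ∈ Finset.range n, (ρ x.right) ^ i) (Multiplicative.toAdd x.left)) := by
    intro x n
    induction n with
    | zero => simp
    | succ n ih =>
      rw [pow_succ]
      constructor
      · rw [SemidirectProduct.mul_right, ih.1, pow_succ]
      · rw [SemidirectProduct.mul_left, ih.1, ih.2, Finset.sum_range_succ, LinearMap.add_apply, ofAdd_add]
        congr 1
        have : x.left = Multiplicative.ofAdd (Multiplicative.toAdd x.left) := rfl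
        rw [this, hφa, map_pow]
        rfl
  have haev : (Polynomial.aeval (ρ g)) (∑ i ∈ Finset.range (orderOf g), (Polynomial.X : Polynomial F) ^ i) =
      ∑ i ∈ Finset.range (orderOf g), (ρ g) ^ i := by
    simp
  have hint : IsIntegral F (ρ g) := Algebra.IsIntegral.isIntegral _
  constructor
  · rintro ⟨x, hx, hord⟩ hdvd
    have h0 : (∑ i ∈ Finset.range (orderOf g), (ρ g) ^ i) = 0 := by
      rw [← haev]
      exact (minpoly.dvd_iff).1 hdvd
    have h1 : x ^ (orderOf g) = 1 := by
      have := hpow x (orderOf g)
      rw [hx] at this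
      apply SemidirectProduct.ext
      · rw [this.2, h0]; rfl
      · rw [this.1, pow_orderOf_eq_one]; rfl
    have h2 := orderOf_dvd_of_pow_eq_one h1
    rw [hord] at h2
    have h3 := Nat.le_of_dvd (orderOf_pos g) h2
    have h4 := (Fact.out : p.Prime).two_le
    have h5 := orderOf_pos g
    nlinarith
  · intro hnd
    have h0 : (∑ i ∈ Finset.range (orderOf g), (ρ g) ^ i) ≠ 0 := by
      intro h
      apply hnd
      rw [minpoly.dvd_iff, haev, h]
    obtain ⟨v, hv⟩ : ∃ v, (∑ i ∈ Finset.range (orderOf g), (ρ g) ^ i) v ≠ 0 := by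
      by_contra hcon
      push Not at hcon
      exact h0 (LinearMap.ext hcon)
    set x : Multiplicative V ⋊[φ] G := ⟨Multiplicative.ofAdd v, g⟩ with hx
    have hxk := hpow x (orderOf g)
    have hne : x ^ orderOf g ≠ 1 := by
      intro h
      apply hv
      have := congrArg SemidirectProduct.left h
      rw [hxk.2] at this
      exact Multiplicative.ofAdd.injective this
    have hp1 : x ^ (orderOf g * p) = 1 := by
      rw [pow_mul]
      have hr : (x ^ orderOf g).right = 1 := by rw [hxk.1]; exact pow_orderOf_eq_one g
      have := hpow (x ^ orderOf g) p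
      apply SemidirectProduct.ext
      · rw [this.2, hr, map_one]
        simp only [one_pow, Finset.sum_const, Finset.card_range]
        have : (p • (1 : V →ₗ[F] V)) = 0 := by
          rw [← Nat.cast_smul_eq_nsmul F, CharP.cast_eq_zero, zero_smul]
        rw [this]; rfl
      · rw [this.1, hr, one_pow]; rfl
    have hd1 : orderOf g ∣ orderOf x := by
      have := orderOf_map_dvd (SemidirectProduct.rightHom (φ := φ)) x
      exact this
    obtain ⟨m, hm⟩ := hd1
    have hd2 : orderOf g * m ∣ orderOf g * p := by rw [← hm]; exact orderOf_dvd_of_pow_eq_one hp1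
    have hd3 : m ∣ p := Nat.dvd_of_mul_dvd_mul_left (orderOf_pos g) hd2
    rcases (Nat.dvd_prime (Fact.out : p.Prime)).1 hd3 with h1 | h1
    · exfalso
      apply hne
      rw [← orderOf_dvd_iff_pow_eq_one, hm, h1, mul_one]
    · exact ⟨x, rfl, by rw [hm, h1, mul_comm]⟩

end Cfsg.Agent.S2516
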