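import Cfsg.Statements.S2896
import Cfsg.Agent.H6.CharP

set_option autoImplicit false
open Cfsg

namespace Cfsg.Agent.S2896

/-- Let p be a prime dividing the order of the finite group G, S a Sylow p-subgroup of G and X a subgroup of S. (i) If some nontrivial element z of the centre of X has F*(C_G(z)) = O_p(C_G(z)), then F*(N_G(X)) = O_p(N_G(X)). (ii) G has parabolic characteristic p if and only if F*(C_G(z)) = O_p(C_G(z)) for every nontrivial z ∈ Ω₁(Z(S)). (iii) If F*(C_G(z)) = O_p(C_G(z)) for every element z of S of order p, then G has local characteristic p. -/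
theorem result {G : Type*} [Group G] [Finite G] {p : ℕ} [Fact p.Prime] (hdiv : p ∣ Nat.card G) (S : Sylow p G) (X : Subgroup G) (hX : X ≤ (S : Subgroup G)) : (∀ z : G, z ≠ 1 → z ∈ X → (∀ x ∈ X, x * z = z * x) → Cfsg.generalizedFittingSubgroup ↥(Subgroup.centralizer ({z} : Set G)) = Cfsg.pCore p ↥(Subgroup.centralizer ({z} : Set G)) → Cfsg.generalizedFittingSubgroup ↥(Subgroup.normalizer (X : Set G)) = Cfsg.pCore p ↥(Subgroup.normalizer (X : Set G))) ∧ (Cfsg.IsOfParabolicCharacteristic p G ↔ ∀ z : G, z ≠ 1 → z ∈ Cfsg.omegaOne p ((S : Subgroup G) ⊓ Subgroup.centralizer ((S : Subgroup G) : Set G)) → Cfsg.generalizedFittingSubgroup ↥(Subgroup.centralizer ({z} : Set G)) = Cfsg.pCore p ↥(Subgroup.centralizer ({z} : Set G))) ∧ ((∀ z : G, z ∈ (S : Subgroup G) → orderOf z = p → Cfsg.generalizedFittingSubgroup ↥(Subgroup.centralizer ({z} : Set G)) = Cfsg.pCore p ↥(Subgroup.centralizer ({z} : Set G))) → Cfsg.IsOfLocalCharacteristic p G) := by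
  refine ⟨?_, ?_, ?_⟩
  · intro z hz1 hzX hzc hF
    rw [Cfsg.Agent.H6.F_iff_cent, ← Cfsg.Agent.H6.cp_iff_cent] at hF ⊢
    exact Cfsg.Agent.H6.cp_norm_of_cent (S.2.to_le hX) hzX hzc hF
  · rw [Cfsg.Agent.H6.parab_iff S]
    constructor
    · intro h z h1 h2
      rw [Cfsg.Agent.H6.F_iff_cent, ← Cfsg.Agent.H6.cp_iff_cent]
      exact h z h1 h2
    · intro h z h1 h2
      have := h z h1 h2
      rwa [Cfsg.Agent.H6.F_iff_cent, ← Cfsg.Agent.H6.cp_iff_cent] at this
  · intro h
    refine Cfsg.Agent.H6.local_of_cent hdiv S ?_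
    intro z h1 h2
    have := h z h1 h2
    rwa [Cfsg.Agent.H6.F_iff_cent, ← Cfsg.Agent.H6.cp_iff_cent] at this

end Cfsg.Agent.S2896
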