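import Cfsg.Statements.S2898
import Cfsg.Agent.H6.CharP2

set_option autoImplicit false
open Cfsg

namespace Cfsg.Agent.S2898

/-- Let G be a finite group of even order with parabolic characteristic 2. If the centre of G ⧸ O(G) is trivial, then O(G) = 1. -/
theorem result {G : Type*} [Group G] [Finite G] (h2 : 2 ∣ Nat.card G) (hG : Cfsg.IsOfParabolicCharacteristic 2 G) [hN : (Cfsg.oddCore G).Normal] (hZ : Subgroup.center (G ⧸ Cfsg.oddCore G) = ⊥) : Cfsg.oddCore G = ⊥ := by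
  refine H6.odd_core_trivial rfl h2 hG ?_
  intro z hz
  have h1 : (QuotientGroup.mk z : G ⧸ Cfsg.oddCore G) ∈ Subgroup.center (G ⧸ Cfsg.oddCore G) := by
    rw [Subgroup.mem_center_iff]
    intro g'
    obtain ⟨g, rfl⟩ := QuotientGroup.mk_surjective g'
    have h2 : (QuotientGroup.mk (z * g * z⁻¹ * g⁻¹) : G ⧸ Cfsg.oddCore G) = 1 := (QuotientGroup.eq_one_iff _).2 (hz g)
    have h3 : (QuotientGroup.mk z : G ⧸ Cfsg.oddCore G) * QuotientGroup.mk g * (QuotientGroup.mk z)⁻¹ * (QuotientGroup.mk g)⁻¹ = 1 := h2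
    rw [mul_inv_eq_one, mul_inv_eq_iff_eq_mul] at h3
    exact h3.symm
  rw [hZ, Subgroup.mem_bot, QuotientGroup.eq_one_iff] at h1
  exact h1

end Cfsg.Agent.S2898
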