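import Cfsg.Statements.S2904
import Cfsg.Agent.H6.Zsig

set_option autoImplicit false
open Cfsg

namespace Cfsg.Agent.S2904

/-- Zsigmondy's Theorem: for natural numbers a > 1 and n > 1 there is a prime dividing aⁿ − 1 that divides aᵏ − 1 for no natural number 0 < k < n, unless a = 2 and n = 6, or n = 2 and a + 1 is a power of two. -/
theorem result (a n : ℕ) (ha : 1 < a) (hn : 1 < n) (h6 : ¬ (a = 2 ∧ n = 6)) (h2 : ¬ (n = 2 ∧ ∃ m : ℕ, a + 1 = 2 ^ m)) : ∃ r : ℕ, r.Prime ∧ r ∣ a ^ n - 1 ∧ ∀ k : ℕ, 0 < k → k < n → ¬ r ∣ a ^ k - 1 := by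
  classical
  by_cases hn2 : n = 2
  · subst hn2
    have hodd : ∃ r : ℕ, r.Prime ∧ r ≠ 2 ∧ r ∣ a + 1 := by
      by_contra hcon
      push Not at hcon
      apply h2
      refine ⟨rfl, (a + 1).primeFactorsList.length, ?_⟩
      apply Nat.eq_prime_pow_of_unique_prime_dvd (by omega)
      intro d hd hdv
      by_contra hne
      exact hcon d hd hne hdv
    obtain ⟨r, hr, hr2, hrd⟩ := hodd
    refine ⟨r, hr, ?_, ?_⟩
    · have : a ^ 2 - 1 = (a + 1) * (a - 1) := by
        have := Nat.sq_sub_sq a 1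
        simpa using this
      rw [this]
      exact hrd.mul_right _
    · intro k hk0 hk2 hdv
      have hk : k = 1 := by omega
      rw [hk, pow_one] at hdv
      have h3 := Nat.dvd_sub hrd hdv
      have h4 : a + 1 - (a - 1) = 2 := by omega
      rw [h4] at h3
      exact hr2 ((Nat.prime_dvd_prime_iff_eq hr Nat.prime_two).1 h3)
  · exact Cfsg.Agent.H6.zs_main a n ha (by omega) h6

end Cfsg.Agent.S2904
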