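import Cfsg.Statements.S2907
import Cfsg.Agent.H6.SnJoin

set_option autoImplicit false
open Cfsg

namespace Cfsg.Agent.S2907

open Subgroup in
theorem main {X : Type*} [Group X] [Finite X] {p : ℕ} [hp : Fact p.Prime] (hX : Cfsg.IsSemiExtraspecial p X) (x : X) (hx : x ∉ Subgroup.center X) : (Subgroup.centralizer ({x} : Set X)).index = Nat.card ↥(Subgroup.center X) ∧ {z : X | ∃ y : X, z = x * y * x⁻¹ * y⁻¹} = (Subgroup.center X : Set X) := by
  have hcen : ∀ y : X, x * y * x⁻¹ * y⁻¹ ∈ Subgroup.center X := by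
    intro y
    rw [← hX.1.2.2]
    exact commutator_mem_commutator (mem_top x) (mem_top y)
  let φ : X →* X :=
    { toFun := fun y => x * y * x⁻¹ * y⁻¹
      map_one' := by simp
      map_mul' := by
        intro y z
        have h1 := mem_center_iff.1 (hcen z) y
        calc x * (y * z) * x⁻¹ * (y * z)⁻¹ = x * y * x⁻¹ * (x * z * x⁻¹ * z⁻¹) * y⁻¹ := by group
          _ = x * y * x⁻¹ * y⁻¹ * (y * (x * z * x⁻¹ * z⁻¹)) * y⁻¹ := by group
          _ = x * y * x⁻¹ * y⁻¹ * ((x * z * x⁻¹ * z⁻¹) * y) * y⁻¹ := by rw [h1]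
          _ = _ := by group }
  have hφ : ∀ y, φ y = x * y * x⁻¹ * y⁻¹ := fun y => rfl
  have hker : φ.ker = Subgroup.centralizer ({x} : Set X) := by
    ext y
    rw [MonoidHom.mem_ker, hφ, mem_centralizer_singleton_iff]
    constructor
    · intro h
      have := mul_inv_eq_one.1 h
      rw [mul_inv_eq_iff_eq_mul] at this
      exact this.symm
    · intro h
      rw [← h]; group
  have hRZ : φ.range ≤ Subgroup.center X := by
    rintro _ ⟨y, rfl⟩
    exact hcen y
  have hR : φ.range = Subgroup.center X := by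
    by_contra hne
    have h1 : φ.range.subgroupOf (Subgroup.center X) ≠ ⊤ := by
      intro h
      rw [subgroupOf_eq_top] at h
      exact hne (le_antisymm hRZ h)
    obtain ⟨Y', hY', hle⟩ := (eq_top_or_exists_le_coatom (φ.range.subgroupOf (Subgroup.center X))).resolve_left h1
    obtain ⟨Y, hY⟩ : ∃ Y, Y = Y'.map (Subgroup.center X).subtype := ⟨_, rfl⟩
    have hYZ : Y ≤ Subgroup.center X := by rw [hY]; exact map_subtype_le _
    have hYs : Y.subgroupOf (Subgroup.center X) = Y' := by
      rw [hY, subgroupOf, comap_map_eq_self_of_injective (Subgroup.center X).subtype_injective]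
    obtain ⟨hYn, hext⟩ := hX.2 Y hYZ (by rw [hYs]; exact hY')
    have hRY : φ.range ≤ Y := by
      have := Subgroup.map_mono (f := (Subgroup.center X).subtype) hle
      rw [subgroupOf_map_subtype, inf_eq_left.2 hRZ, ← hY] at this
      exact this
    have h2 : (QuotientGroup.mk' Y) x ∈ Subgroup.center (X ⧸ Y) := by
      rw [mem_center_iff]
      intro g
      obtain ⟨y, rfl⟩ := QuotientGroup.mk'_surjective Y g
      have h3 : (QuotientGroup.mk' Y) (x * y * x⁻¹ * y⁻¹) = 1 := by
        rw [← MonoidHom.mem_ker, QuotientGroup.ker_mk']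
        exact hRY ⟨y, rfl⟩
      rw [map_mul, map_mul, map_mul, map_inv, map_inv] at h3
      have := mul_inv_eq_one.1 h3
      rw [mul_inv_eq_iff_eq_mul] at this
      exact this.symm
    have h4 : (Subgroup.center X).map (QuotientGroup.mk' Y) ≤ Subgroup.center (X ⧸ Y) := by
      rintro _ ⟨z, hz, rfl⟩
      rw [mem_center_iff]
      intro g
      obtain ⟨y, rfl⟩ := QuotientGroup.mk'_surjective Y g
      rw [← map_mul, ← map_mul, mem_center_iff.1 hz y]
    have h5 : (Subgroup.center X).map (QuotientGroup.mk' Y) ≠ ⊥ := by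
      intro h
      rw [Subgroup.map_eq_bot_iff, QuotientGroup.ker_mk'] at h
      have h6 : Y.subgroupOf (Subgroup.center X) = ⊤ := subgroupOf_eq_top.2 h
      rw [hYs] at h6
      exact hY'.1 h6
    have h7 : (Subgroup.center X).map (QuotientGroup.mk' Y) = Subgroup.center (X ⧸ Y) := by
      apply Subgroup.eq_of_le_of_card_ge h4
      rw [hext.2]
      have h8 := card_dvd_of_le h4
      rw [hext.2] at h8
      rcases (Nat.dvd_prime hp.out).1 h8 with h9 | h9
      · exact absurd (Subgroup.card_eq_one.1 h9) h5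
      · exact h9.ge
    rw [← h7] at h2
    obtain ⟨z, hz, hzx⟩ := h2
    have h9 : z⁻¹ * x ∈ Y := by
      rw [← QuotientGroup.ker_mk' Y, MonoidHom.mem_ker, map_mul, map_inv, hzx, inv_mul_cancel]
    apply hx
    have := mul_mem hz (hYZ h9)
    rwa [mul_inv_cancel_left] at this
  refine ⟨?_, ?_⟩
  · rw [← hker, ← hR, Subgroup.index_ker]
  · rw [← hR]
    ext z
    constructor
    · rintro ⟨y, rfl⟩; exact ⟨y, rfl⟩
    · rintro ⟨y, rfl⟩; exact ⟨y, rfl⟩

/-- Let X be a finite semi-extraspecial p-group and x an element of X outside the centre. Then the index of C_X(x) in X equals the order of Z(X), and the commutators [x, y], y ∈ X, form exactly the centre Z(X). -/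
theorem result {X : Type*} [Group X] [Finite X] {p : ℕ} [Fact p.Prime] (hX : Cfsg.IsSemiExtraspecial p X) (x : X) (hx : x ∉ Subgroup.center X) : (Subgroup.centralizer ({x} : Set X)).index = Nat.card ↥(Subgroup.center X) ∧ {z : X | ∃ y : X, z = x * y * x⁻¹ * y⁻¹} = (Subgroup.center X : Set X) := by
  exact main hX x hx

end Cfsg.Agent.S2907
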