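import Cfsg.Statements.S2909
import Cfsg.Agent.H6.DualAxB
import Cfsg.Agent.H6.PRed5
import Cfsg.Agent.L0.Coprime2

set_option autoImplicit false
open Cfsg

namespace Cfsg.Agent.S2909

open Subgroup Agent.H6 Agent in
theorem key {G : Type*} [Group G] [Finite G] {p : ℕ} [Fact p.Prime] (E : Subgroup G) [hEn : E.Normal] (hE : IsPGroup p ↥E) (U : Subgroup G)
    (hU : Cfsg.IsElementaryAbelian p U)
    (hcond : (∀ u ∈ U, u ≠ 1 → E ⊓ Subgroup.centralizer (U : Set G) = E ⊓ Subgroup.centralizer ({u} : Set G)) ∨ (∀ u ∈ U, u ≠ 1 → ⁅E, U⁆ = ⁅E, Subgroup.zpowers u⁆)) (R : Subgroup G)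
    (hR : ¬ p ∣ Nat.card ↥R) (hRU : U ≤ Subgroup.normalizer (R : Set G)) {u : G} (hu : u ∈ U) (hu1 : u ≠ 1) {r : G} (hr : r ∈ R)
    (hur : u * r = r * u) {v : G} (hv : v ∈ U) : r * v * r⁻¹ * v⁻¹ ∈ centralizer (E : Set G) := by
  have hel := elab_iff.1 hU
  obtain ⟨c, hc⟩ : ∃ c, c = r * v * r⁻¹ * v⁻¹ := ⟨_, rfl⟩
  rw [← hc]
  have hcR : c ∈ R := by
    have e : c = r * (v * r⁻¹ * v⁻¹) := by rw [hc]; group
    rw [e]
    exact mul_mem hr (le_norm_iff.1 hRU v hv _ (inv_mem hr))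
  have hco : (orderOf c).Coprime p := by
    have h1 : orderOf c ∣ Nat.card R := Subgroup.orderOf_dvd_natCard R hcR
    exact Nat.Coprime.coprime_dvd_left h1 (((Nat.Prime.coprime_iff_not_dvd Fact.out).2 hR).symm)
  have hcr : Commute u r := hur
  have hcv : Commute u v := hel.1 u hu v hv
  have huc : Commute u c := by
    rw [hc]
    exact ((hcr.mul_right hcv).mul_right hcr.inv_right).mul_right hcv.inv_right
  have hup : IsPGroup p ↥(zpowers u) := (elab_isPGroup hU).to_le (by rwa [zpowers_le])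
  rcases hcond with h | h
  · have h1 := L0.axb_lemma (p := p) (A := zpowers c) (B := zpowers u) (P := E)
      ((normalizer_eq_top_iff.2 hEn).ge.trans' le_top) ((normalizer_eq_top_iff.2 hEn).ge.trans' le_top) hE hup (zpowers_cop hco) ?_ ?_
    · have h2 := Subgroup.commutator_eq_bot_iff_le_centralizer.1 h1
      rw [mem_centralizer_iff]
      intro e he
      exact (mem_centralizer_iff.1 (h2 he) c (mem_zpowers c)).symm
    · intro a ha b hb
      obtain ⟨n, rfl⟩ := mem_zpowers_iff.1 ha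
      obtain ⟨m, rfl⟩ := mem_zpowers_iff.1 hb
      exact (huc.symm.zpow_zpow n m).eq
    · intro e he
      have he1 : e ∈ E := he.1
      have he2 : u * e = e * u := mem_centralizer_iff.1 he.2 u (mem_zpowers u)
      have key2 : ∀ f ∈ E, u * f = f * u → v * f = f * v := by
        intro f hf huf
        have h3 : f ∈ E ⊓ centralizer ({u} : Set G) := ⟨hf, mem_centralizer_singleton_iff.2 huf.symm⟩
        rw [← h u hu hu1] at h3
        exact mem_centralizer_iff.1 h3.2 v hv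
      have hf : r⁻¹ * e * r⁻¹⁻¹ ∈ E := hEn.conj_mem _ he1 _
      have hf2 : Commute u (r⁻¹ * e * r⁻¹⁻¹) := by
        have h4 : Commute u e := he2
        exact (hcr.inv_right.mul_right h4).mul_right hcr.inv_right.inv_right
      have h5 := key2 _ hf hf2
      have h6 := key2 e he1 he2
      have h7 : v⁻¹ * e * v = e := by
        rw [mul_assoc, ← h6]; group
      have h8 : v * (r⁻¹ * e * r⁻¹⁻¹) * v⁻¹ = r⁻¹ * e * r⁻¹⁻¹ := by rw [h5]; group
      have h9 : c * e * c⁻¹ = e := by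
        calc c * e * c⁻¹ = r * (v * (r⁻¹ * (v⁻¹ * e * v) * r⁻¹⁻¹) * v⁻¹) * r⁻¹ := by rw [hc]; group
          _ = e := by rw [h7, h8]; group
      rw [mem_centralizer_iff]
      intro a ha
      obtain ⟨n, rfl⟩ := mem_zpowers_iff.1 ha
      have h10 : Commute c e := by
        show c * e = e * c
        calc c * e = c * e * c⁻¹ * c := by group
          _ = e * c := by rw [h9]
      exact (h10.zpow_left n).eq
  · refine axb_dual hEn hE hup hco huc ?_
    rw [← h u hu hu1]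
    obtain ⟨K, hK, hKn⟩ := exists_cmod (W := ⁅E, U⁆) hEn
    have hUn : U ≤ normalizer ((⁅E, U⁆ : Subgroup G) : Set G) := Subgroup.normalizer_commutator_ge_right _ _
    have hvK : v ∈ K := by
      rw [hK]
      refine ⟨hUn hv, fun e he => ?_⟩
      have h1 := inv_mem (comm_el (A := E) (B := U) he hv)
      have e1 : (e * v * e⁻¹ * v⁻¹)⁻¹ = v * e * v⁻¹ * e⁻¹ := by group
      rwa [e1] at h1
    have hrN : r ∈ normalizer ((⁅E, U⁆ : Subgroup G) : Set G) := by
      rw [← zpowers_le, h u hu hu1]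
      refine norm_comm ?_ ?_
      · exact (normalizer_eq_top_iff.2 hEn).ge.trans' le_top
      · rw [le_norm_iff]
        intro g hg b hb
        obtain ⟨n, rfl⟩ := mem_zpowers_iff.1 hg
        obtain ⟨m, rfl⟩ := mem_zpowers_iff.1 hb
        have h1 : Commute (u ^ m) (r ^ n) := hcr.zpow_zpow m n
        rw [← h1.eq, mul_inv_cancel_right]
        exact zpow_mem (mem_zpowers u) m
    have hcK : c ∈ K := by
      rw [hc]
      exact mul_mem (le_norm_iff.1 le_rfl r (hKn hrN) v hvK) (inv_mem hvK)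
    exact ((hK c).1 hcK).2

/-- Let p be a prime, E a normal p-subgroup of the finite group G, and U a non-cyclic elementary abelian p-subgroup of G such that either C_E(U) = C_E(u) for every nontrivial u ∈ U, or [E, U] = [E, ⟨u⟩] for every nontrivial u ∈ U. If R is a subgroup of order prime to p normalized by U, then [R, U] centralizes E. -/
theorem result {G : Type*} [Group G] [Finite G] {p : ℕ} [Fact p.Prime] (E : Subgroup G) [E.Normal] (hE : IsPGroup p ↥E) (U : Subgroup G) (hU : Cfsg.IsElementaryAbelian p U) (hnc : ¬ IsCyclic ↥U) (hcond : (∀ u ∈ U, u ≠ 1 → E ⊓ Subgroup.centralizer (U : Set G) = E ⊓ Subgroup.centralizer ({u} : Set G)) ∨ (∀ u ∈ U, u ≠ 1 → ⁅E, U⁆ = ⁅E, Subgroup.zpowers u⁆)) (R : Subgroup G) (hR : ¬ p ∣ Nat.card ↥R) (hRU : U ≤ Subgroup.normalizer (R : Set G)) : ⁅R, U⁆ ≤ Subgroup.centralizer (E : Set G) := by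
  obtain ⟨T, hT⟩ : ∃ T : Subgroup G, ∀ r, r ∈ T ↔ ∀ v ∈ U, r * v * r⁻¹ * v⁻¹ ∈ Subgroup.centralizer (E : Set G) := by
    have hCn : (Subgroup.centralizer (E : Set G)).Normal := inferInstance
    refine ⟨{ carrier := {r | ∀ v ∈ U, r * v * r⁻¹ * v⁻¹ ∈ Subgroup.centralizer (E : Set G)}, mul_mem' := ?_, one_mem' := ?_, inv_mem' := ?_ }, fun r => Iff.rfl⟩
    · intro a b ha hb v hv
      have h1 := mul_mem (hCn.conj_mem _ (hb v hv) a) (ha v hv)
      have e : a * (b * v * b⁻¹ * v⁻¹) * a⁻¹ * (a * v * a⁻¹ * v⁻¹) = a * b * v * (a * b)⁻¹ * v⁻¹ := by group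
      rwa [e] at h1
    · intro v _
      have e : (1 : G) * v * 1⁻¹ * v⁻¹ = 1 := by group
      rw [e]; exact one_mem _
    · intro a ha v hv
      have h1 := inv_mem (hCn.conj_mem _ (ha v hv) a⁻¹)
      have e : (a⁻¹ * (a * v * a⁻¹ * v⁻¹) * a⁻¹⁻¹)⁻¹ = a⁻¹ * v * a⁻¹⁻¹ * v⁻¹ := by group
      rwa [e] at h1
  have hcl := Agent.L0.closure_centralizers_eq (E := U) (N := R) hU.1 hnc hRU
    ((Agent.H6.coprime_of_p (Agent.H6.elab_isPGroup hU) (((Nat.Prime.coprime_iff_not_dvd Fact.out).2 hR).symm)).symm)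
  have hRT : R ≤ T := by
    rw [← hcl, Subgroup.closure_le]
    rintro r ⟨hr, u, hu, hu1, hur⟩
    exact (hT r).2 fun v hv => key E hE U hU hcond R hR hRU hu hu1 hr hur hv
  rw [Subgroup.commutator_le]
  intro r hr v hv
  exact (hT r).1 (hRT hr) v hv

end Cfsg.Agent.S2909
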