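import Cfsg.Statements.S2922
import Cfsg.Agent.H6.CharP

set_option autoImplicit false
open Cfsg

namespace Cfsg.Agent.S2922

/-- Let p be a prime, X a finite group, B a p-subgroup of X and C a normal subgroup of B. If N_X(C) has characteristic p (its generalized Fitting subgroup is O_p(N_X(C))), then N_X(B) and C_X(B) have characteristic p. -/
theorem result {X : Type*} [Group X] [Finite X] {p : ℕ} [Fact p.Prime] (B C : Subgroup X) (hB : IsPGroup p ↥B) (hCB : C ≤ B) (hCn : (C.subgroupOf B).Normal) (hC : Cfsg.generalizedFittingSubgroup ↥(Subgroup.normalizer (C : Set X)) = Cfsg.pCore p ↥(Subgroup.normalizer (C : Set X))) : Cfsg.generalizedFittingSubgroup ↥(Subgroup.normalizer (B : Set X)) = Cfsg.pCore p ↥(Subgroup.normalizer (B : Set X)) ∧ Cfsg.generalizedFittingSubgroup ↥(Subgroup.centralizer (B : Set X)) = Cfsg.pCore p ↥(Subgroup.centralizer (B : Set X)) := by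
  rw [Cfsg.Agent.H6.F_iff_cent, Cfsg.Agent.H6.F_iff_cent, ← Cfsg.Agent.H6.cp_iff_cent, ← Cfsg.Agent.H6.cp_iff_cent]
  rw [Cfsg.Agent.H6.F_iff_cent, ← Cfsg.Agent.H6.cp_iff_cent] at hC
  have hBN : B ≤ Subgroup.normalizer (C : Set X) := (Subgroup.normal_subgroupOf_iff_le_normalizer hCB).1 hCn
  have h1 : Cfsg.Agent.H6.CP p (Subgroup.normalizer (B : Set X)) := by
    refine hC.loc hBN hB (Cfsg.Agent.H6.le_pCoreOf Subgroup.le_normalizer le_rfl hB) ?_ ?_
    · exact inf_le_right.trans ((Subgroup.centralizer_le hCB).trans (Subgroup.centralizer_le_normalizer _))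
    · exact inf_le_right.trans (Subgroup.centralizer_le_normalizer _)
  refine ⟨h1, h1.normal (Subgroup.centralizer_le_normalizer _) ?_⟩
  intro x hx
  rw [Cfsg.Agent.H6.mem_norm, Cfsg.Agent.H6.cj_centralizer, Cfsg.Agent.H6.cj_of_mem_norm hx]

end Cfsg.Agent.S2922
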