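import Cfsg.Statements.S2924
import Cfsg.Agent.H2.OddCore
import Mathlib

set_option autoImplicit false
open Cfsg

namespace Cfsg.Agent.S2924

open Cfsg.Agent.L0 Cfsg.Agent.H2

section
variable {X : Type*} [Group X] [Finite X]

/-- `O(C(x))` inside `X`. -/
noncomputable def W (x : X) : Subgroup X := (oddCore ↥(Subgroup.centralizer ({x} : Set X))).map (Subgroup.centralizer ({x} : Set X)).subtype

theorem W_comm {x w : X} (h : w ∈ W x) : w * x = x * w := by
  obtain ⟨c, hc, rfl⟩ := h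
  exact Subgroup.mem_centralizer_singleton_iff.1 c.2

theorem W_odd (x : X) : Odd (Nat.card (W x)) := by
  unfold W
  rw [card_map_subtype]
  exact odd_card_oddCore _

theorem W_conj {x c w : X} (hc : c * x = x * c) (hw : w ∈ W x) : c * w * c⁻¹ ∈ W x := by
  obtain ⟨v, hv, rfl⟩ := hw
  have hcm : c ∈ Subgroup.centralizer ({x} : Set X) := Subgroup.mem_centralizer_singleton_iff.2 hc
  have hn : (oddCore ↥(Subgroup.centralizer ({x} : Set X))).Normal := inferInstance
  exact ⟨⟨c, hcm⟩ * v * ⟨c, hcm⟩⁻¹, hn.conj_mem v hv _, rfl⟩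

theorem W_coprime (x : X) : (Nat.card (W x)).Coprime 2 := Nat.coprime_two_right.2 (W_odd x)

theorem mem_W_of_fitting {x : X} (D : Subgroup X) (hD : (Nat.card D).Coprime 2)
    (hf : (D.subgroupOf (Subgroup.centralizer ({x} : Set X))) ≤ fittingSubgroup ↥(Subgroup.centralizer ({x} : Set X)))
    {d : X} (hd : d ∈ D) (hdx : d * x = x * d) : d ∈ W x := by
  have : Fact (Nat.Prime 2) := ⟨Nat.prime_two⟩
  have h1 : D.subgroupOf (Subgroup.centralizer ({x} : Set X)) ≤ pPrimeCore 2 _ :=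
    le_pPrimeCore_of_le_fitting hf (Nat.Coprime.coprime_dvd_left (card_subgroupOf_dvd _ _) hD)
  exact ⟨⟨d, Subgroup.mem_centralizer_singleton_iff.2 hdx⟩, h1 (Subgroup.mem_subgroupOf.2 hd), rfl⟩

theorem W_max {x : X} (D : Subgroup X) (hDx : ∀ d ∈ D, d * x = x * d)
    (hn : ∀ c, c * x = x * c → ∀ d ∈ D, c * d * c⁻¹ ∈ D) (hD : (Nat.card D).Coprime 2) : D ≤ W x := by
  intro d hd
  have hDC : D ≤ Subgroup.centralizer ({x} : Set X) := fun d hd => Subgroup.mem_centralizer_singleton_iff.2 (hDx d hd)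
  have h1 : (D.subgroupOf (Subgroup.centralizer ({x} : Set X))).Normal := by
    constructor
    intro a ha g
    rw [Subgroup.mem_subgroupOf] at ha ⊢
    exact hn g (Subgroup.mem_centralizer_singleton_iff.1 g.2) a ha
  have h2 : D.subgroupOf (Subgroup.centralizer ({x} : Set X)) ≤ pPrimeCore 2 _ :=
    le_pPrimeCore (Nat.Coprime.coprime_dvd_left (card_subgroupOf_dvd _ _) hD)
  exact ⟨⟨d, hDC hd⟩, h2 (Subgroup.mem_subgroupOf.2 hd), rfl⟩

theorem W_map {x g w : X} (hw : w ∈ W x) : g * w * g⁻¹ ∈ W (g * x * g⁻¹) := by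
  have h1 : (W x).map (MulAut.conj g).toMonoidHom ≤ W (g * x * g⁻¹) := by
    apply W_max
    · rintro _ ⟨v, hv, rfl⟩
      have := W_comm hv
      show g * v * g⁻¹ * (g * x * g⁻¹) = g * x * g⁻¹ * (g * v * g⁻¹)
      calc g * v * g⁻¹ * (g * x * g⁻¹) = g * (v * x) * g⁻¹ := by group
        _ = g * (x * v) * g⁻¹ := by rw [this]
        _ = _ := by group
    · intro c hc d hd
      obtain ⟨v, hv, rfl⟩ := hd
      have h2 : (g⁻¹ * c * g) * x = x * (g⁻¹ * c * g) := by
        calc (g⁻¹ * c * g) * x = g⁻¹ * (c * (g * x * g⁻¹)) * g := by group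
          _ = g⁻¹ * ((g * x * g⁻¹) * c) * g := by rw [hc]
          _ = _ := by group
      refine ⟨(g⁻¹ * c * g) * v * (g⁻¹ * c * g)⁻¹, W_conj h2 hv, ?_⟩
      show g * ((g⁻¹ * c * g) * v * (g⁻¹ * c * g)⁻¹) * g⁻¹ = c * (g * v * g⁻¹) * c⁻¹
      group
    · have : Nat.card ((W x).map (MulAut.conj g).toMonoidHom) = Nat.card (W x) :=
        card_map_equiv (MulAut.conj g) (W x)
      rw [this]; exact W_coprime x
  exact h1 ⟨w, hw, rfl⟩

/-- `W y ∩ C(x)` centralizes `O_2(C(x))` -/
theorem W_inf_comm {x y : X} (hy : y * y = 1) (hyx : y * x = x * y) :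
    ⁅pCore 2 ↥(Subgroup.centralizer ({x} : Set X)), (W y).subgroupOf (Subgroup.centralizer ({x} : Set X))⁆ = ⊥ := by
  have : Fact (Nat.Prime 2) := ⟨Nat.prime_two⟩
  refine comm_pCore_of_centralizer (p := 2) (⟨y, Subgroup.mem_centralizer_singleton_iff.2 hyx⟩ : Subgroup.centralizer ({x} : Set X)) 1 ?_ _ ?_ ?_ ?_
  · apply Subtype.ext
    rw [Subgroup.coe_pow, pow_one, pow_two]; exact hy
  · exact Nat.Coprime.coprime_dvd_left (card_subgroupOf_dvd _ _) (W_coprime y)
  · intro d hd
    apply Subtype.ext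
    exact W_comm (Subgroup.mem_subgroupOf.1 hd)
  · intro c hc d hd
    rw [Subgroup.mem_subgroupOf] at hd ⊢
    exact W_conj (congrArg Subtype.val hc) hd

/-- first step: if `F*(C(z)) = O_2(C(z))` then `W y ∩ C(z) = 1` -/
theorem W_inf_z {z y : X} (hz : generalizedFittingSubgroup ↥(Subgroup.centralizer ({z} : Set X)) = pCore 2 ↥(Subgroup.centralizer ({z} : Set X)))
    (hy : y * y = 1) (hyz : y * z = z * y) {w : X} (hw : w ∈ W y) (hwz : w * z = z * w) : w = 1 := by
  have : Fact (Nat.Prime 2) := ⟨Nat.prime_two⟩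
  have h1 := W_inf_comm hy hyz
  have h2 : (W y).subgroupOf (Subgroup.centralizer ({z} : Set X)) ≤ pCore 2 ↥(Subgroup.centralizer ({z} : Set X)) := by
    refine le_trans ?_ (hz ▸ centralizer_generalizedFitting_le _)
    rw [Subgroup.commutator_comm, Subgroup.commutator_eq_bot_iff_le_centralizer] at h1
    exact h1
  have h3 : (⟨w, Subgroup.mem_centralizer_singleton_iff.2 hwz⟩ : Subgroup.centralizer ({z} : Set X)) ∈
      (W y).subgroupOf (Subgroup.centralizer ({z} : Set X)) := Subgroup.mem_subgroupOf.2 hw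
  have h4 : (W y).subgroupOf (Subgroup.centralizer ({z} : Set X)) ⊓ pCore 2 ↥(Subgroup.centralizer ({z} : Set X)) = ⊥ := by
    apply Subgroup.inf_eq_bot_of_coprime
    obtain ⟨j, hj⟩ := IsPGroup.iff_card.1 (pCore_isPGroup 2 ↥(Subgroup.centralizer ({z} : Set X)))
    rw [hj]
    exact Nat.Coprime.pow_right j (Nat.Coprime.coprime_dvd_left (card_subgroupOf_dvd _ _) (W_coprime y))
  have h5 : (⟨w, Subgroup.mem_centralizer_singleton_iff.2 hwz⟩ : Subgroup.centralizer ({z} : Set X)) ∈
      (W y).subgroupOf (Subgroup.centralizer ({z} : Set X)) ⊓ pCore 2 ↥(Subgroup.centralizer ({z} : Set X)) := ⟨h3, h2 h3⟩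
  rw [h4, Subgroup.mem_bot] at h5
  exact congrArg Subtype.val h5

end

/-- Let X be a finite group and Y an elementary abelian 2-subgroup of X of order at least 8 such that C_X(x) has no components (E(C_X(x)) = 1) for every nontrivial x ∈ Y, and F*(C_X(z)) = O₂(C_X(z)) for some nontrivial z ∈ Y. Then the subgroup generated by the cores O(C_X(y)), y ∈ Y nontrivial, has odd order and is normalized by N_X(Y). -/
theorem result {X : Type*} [Group X] [Finite X] (Y : Subgroup X) (hY : Cfsg.IsElementaryAbelian 2 Y) (h8 : 8 ≤ Nat.card ↥Y) (hE : ∀ x ∈ Y, x ≠ 1 → Cfsg.layer ↥(Subgroup.centralizer ({x} : Set X)) = ⊥) (hz : ∃ z ∈ Y, z ≠ 1 ∧ Cfsg.generalizedFittingSubgroup ↥(Subgroup.centralizer ({z} : Set X)) = Cfsg.pCore 2 ↥(Subgroup.centralizer ({z} : Set X))) : Odd (Nat.card ↥(⨆ y : {y : X // y ∈ Y ∧ y ≠ 1}, (Cfsg.oddCore ↥(Subgroup.centralizer ({(y : X)} : Set X))).map (Subgroup.centralizer ({(y : X)} : Set X)).subtype)) ∧ Subgroup.normalizer (Y : Set X) ≤ Subgroup.normalizer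 ((⨆ y : {y : X // y ∈ Y ∧ y ≠ 1}, (Cfsg.oddCore ↥(Subgroup.centralizer ({(y : X)} : Set X))).map (Subgroup.centralizer ({(y : X)} : Set X)).subtype : Subgroup X) : Set X) := by
  classical
  have h2p : Fact (Nat.Prime 2) := ⟨Nat.prime_two⟩
  obtain ⟨z, hzY, hz1, hzF⟩ := hz
  have hYc : ∀ a ∈ Y, ∀ b ∈ Y, a * b = b * a := by
    intro a ha b hb
    exact congrArg Subtype.val (isMulCommutative_iff.1 hY.1 ⟨a, ha⟩ ⟨b, hb⟩)
  have hY2 : ∀ a ∈ Y, a * a = 1 := fun a ha => by rw [← pow_two]; exact hY.2 a ha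
  have hYi : ∀ a ∈ Y, a⁻¹ = a := fun a ha => inv_eq_of_mul_eq_one_left (hY2 a ha)
  -- inversion
  have hfix : ∀ y ∈ Y, ∀ w ∈ W y, w * z = z * w → w = 1 := fun y hy w hw hwz =>
    W_inf_z hzF (hY2 y hy) (hYc y hy z hzY) hw hwz
  have hinvW : ∀ y ∈ Y, (∀ w ∈ W y, z * w * z⁻¹ = w⁻¹) ∧ (∀ a ∈ W y, ∀ b ∈ W y, a * b = b * a) := by
    intro y hy
    have hcz : z * y = y * z := hYc z hzY y hy
    let σ : W y →* W y := (MulAut.conj z).toMonoidHom.restrict (fun w hw => W_conj hcz hw)
    have hσ : ∀ w : W y, ((σ w : W y) : X) = z * w * z⁻¹ := fun w => rfl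
    have hF : Fpf σ := by
      intro w hw
      apply Subtype.ext
      apply hfix y hy w w.2
      have h1 := congrArg Subtype.val hw
      rw [hσ] at h1
      rw [mul_inv_eq_iff_eq_mul] at h1
      exact h1.symm
    have h2 : ∀ w, σ (σ w) = w := by
      intro w
      apply Subtype.ext
      rw [hσ, hσ]
      have : z * (z * w * z⁻¹) * z⁻¹ = (z * z) * w * (z * z)⁻¹ := by group
      rw [this, hY2 z hzY]; simp
    constructor
    · intro w hw
      have := hF.eq_inv h2 ⟨w, hw⟩
      exact congrArg Subtype.val this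
    · intro a ha b hb
      exact congrArg Subtype.val (hF.comm_of_sq h2 ⟨a, ha⟩ ⟨b, hb⟩)
  have hinv : ∀ y ∈ Y, ∀ w ∈ W y, z * w * z⁻¹ = w⁻¹ := fun y hy => (hinvW y hy).1
  have hab : ∀ y ∈ Y, ∀ a ∈ W y, ∀ b ∈ W y, a * b = b * a := fun y hy => (hinvW y hy).2
  have hWz : ∀ w ∈ W z, w = 1 := fun w hw => hfix z hzY w hw (W_comm hw)
  -- odd order elements: square roots
  have hodd : ∀ y : X, ∀ w ∈ W y, ∃ k : ℕ, w = (w * w) ^ k := by
    intro y w hw
    obtain ⟨k, hk⟩ := W_odd y
    refine ⟨k + 1, ?_⟩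
    have h1 : (⟨w, hw⟩ : W y) ^ Nat.card (W y) = 1 := pow_card_eq_one'
    have h3 : w ^ (2 * k + 1) = 1 := by rw [← hk]; exact congrArg Subtype.val h1
    rw [← pow_two, ← pow_mul, show 2 * (k + 1) = (2 * k + 1) + 1 by ring, pow_succ, h3, one_mul]
  -- balance
  have hbal : ∀ y ∈ Y, ∀ x ∈ Y, x ≠ 1 → ∀ w ∈ W y, w * x = x * w → w ∈ W x := by
    intro y hy x hx hx1 w hw hwx
    have h1 := W_inf_comm (hY2 y hy) (hYc y hy x hx)
    apply mem_W_of_fitting (W y) (W_coprime y) _ hw hwx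
    set H := Subgroup.centralizer ({x} : Set X) with hH
    have hlay : layer ↥H = ⊥ := hE x hx hx1
    have hgf : generalizedFittingSubgroup ↥H = fittingSubgroup ↥H := by
      unfold generalizedFittingSubgroup; rw [hlay, bot_sup_eq]
    have h3 : (W y).subgroupOf H ≤ Subgroup.centralizer (generalizedFittingSubgroup ↥H : Set ↥H) := by
      rw [hgf]
      have h4 : fittingSubgroup ↥H ≤ Subgroup.centralizer ((W y).subgroupOf H : Set ↥H) := by
        refine le_trans (map_subtype_le_sup (p := 2)) (sup_le ?_ ?_)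
        · rw [← Subgroup.commutator_eq_bot_iff_le_centralizer]; exact h1
        · intro v hv
          rw [Subgroup.mem_centralizer_iff]
          intro d hd
          have hd' : (d : X) ∈ W y := Subgroup.mem_subgroupOf.1 hd
          have hv' : (v : X) ∈ W x := ⟨v, hv, rfl⟩
          have hdx : (d : X) * x = x * d := Subgroup.mem_centralizer_singleton_iff.1 d.2
          apply Subtype.ext
          show (d : X) * v = v * d
          set e := (d : X) with he
          set u := (v : X) with hu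
          have hdz := hinv y hy e hd'
          have huz := hinv x hx u hv'
          have hconj : e * u * e⁻¹ ∈ W x := W_conj hdx hv'
          have h5 := hinv x hx _ hconj
          have h6 : z * (e * u * e⁻¹) * z⁻¹ = e⁻¹ * u⁻¹ * e := by
            calc z * (e * u * e⁻¹) * z⁻¹ = (z * e * z⁻¹) * (z * u * z⁻¹) * (z * e * z⁻¹)⁻¹ := by group
              _ = e⁻¹ * u⁻¹ * (e⁻¹)⁻¹ := by rw [hdz, huz]
              _ = _ := by group
          rw [h6] at h5
          -- e⁻¹ u⁻¹ e = (e u e⁻¹)⁻¹ = e u⁻¹ e⁻¹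
          have h7 : (e * e) * u = u * (e * e) := by
            have h8 : e⁻¹ * u⁻¹ * e = e * u⁻¹ * e⁻¹ := by rw [h5]; group
            have h9 : u⁻¹ * (e * e) = (e * e) * u⁻¹ := by
              calc u⁻¹ * (e * e) = e * (e⁻¹ * u⁻¹ * e) * e := by group
                _ = e * (e * u⁻¹ * e⁻¹) * e := by rw [h8]
                _ = _ := by group
            calc (e * e) * u = u * (u⁻¹ * (e * e)) * u := by group
              _ = u * ((e * e) * u⁻¹) * u := by rw [h9]
              _ = _ := by group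
          obtain ⟨k, hk⟩ := hodd y e hd'
          have h10 : Commute ((e * e) ^ k) u := Commute.pow_left h7 k
          rw [hk]; exact h10
      intro d hd
      rw [Subgroup.mem_centralizer_iff]
      intro v hv
      exact ((Subgroup.mem_centralizer_iff.1 (h4 hv)) d hd).symm
    refine le_trans h3 ?_
    have := centralizer_generalizedFitting_le ↥H
    rw [hgf] at this ⊢
    exact this
  -- decomposition
  have hdec : ∀ y ∈ Y, ∀ u ∈ Y, u ≠ 1 → u * z ≠ 1 → ∀ w ∈ W y, ∃ a b, w = a * b ∧ a ∈ W y ∧ a ∈ W u ∧ b ∈ W y ∧ b ∈ W (u * z) := by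
    intro y hy u hu hu1 huz w hw
    have hwu : u * w * u⁻¹ ∈ W y := W_conj (hYc u hu y hy) hw
    set v := u * w * u⁻¹ with hv
    have huv : u * v * u⁻¹ = w := by
      rw [hv]
      have : u * (u * w * u⁻¹) * u⁻¹ = (u * u) * w * (u * u)⁻¹ := by group
      rw [this, hY2 u hu]; simp
    have hwv : w * v = v * w := hab y hy w hw v hwu
    obtain ⟨k, hk⟩ := hodd y w hw
    have ha : w * v ∈ W y := (W y).mul_mem hw hwu
    have hb : w * v⁻¹ ∈ W y := (W y).mul_mem hw ((W y).inv_mem hwu)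
    refine ⟨(w * v) ^ k, (w * v⁻¹) ^ k, ?_, (W y).pow_mem ha k, ?_, (W y).pow_mem hb k, ?_⟩
    · have hc : Commute (w * v) (w * v⁻¹) := hab y hy _ ha _ hb
      rw [← hc.mul_pow]
      have : w * v * (w * v⁻¹) = w * w := by
        calc w * v * (w * v⁻¹) = w * (v * w) * v⁻¹ := by group
          _ = w * (w * v) * v⁻¹ := by rw [hwv]
          _ = w * w := by group
      rw [this]; exact hk
    · apply hbal y hy u hu hu1 _ ((W y).pow_mem ha k)
      have h1 : Commute (w * v) u := by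
        have : u * (w * v) * u⁻¹ = w * v := by
          have : u * (w * v) * u⁻¹ = (u * w * u⁻¹) * (u * v * u⁻¹) := by group
          rw [this, huv, ← hv, hwv]
        show w * v * u = u * (w * v)
        rw [← mul_inv_eq_iff_eq_mul.1 this]
      exact h1.pow_left k
    · apply hbal y hy (u * z) (Y.mul_mem hu hzY) huz _ ((W y).pow_mem hb k)
      have h1 : Commute (w * v⁻¹) (u * z) := by
        have h2 : u * (w * v⁻¹) * u⁻¹ = (w * v⁻¹)⁻¹ := by
          have : u * (w * v⁻¹) * u⁻¹ = (u * w * u⁻¹) * (u * v * u⁻¹)⁻¹ := by group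
          rw [this, huv, ← hv]; group
        have h3 : z * (w * v⁻¹) * z⁻¹ = (w * v⁻¹)⁻¹ := hinv y hy _ hb
        have h4 : (u * z) * (w * v⁻¹) * (u * z)⁻¹ = w * v⁻¹ := by
          have : (u * z) * (w * v⁻¹) * (u * z)⁻¹ = u * (z * (w * v⁻¹) * z⁻¹) * u⁻¹ := by group
          rw [this, h3]
          have : u * (w * v⁻¹)⁻¹ * u⁻¹ = (u * (w * v⁻¹) * u⁻¹)⁻¹ := by group
          rw [this, h2, inv_inv]
        show w * v⁻¹ * (u * z) = u * z * (w * v⁻¹)
        exact (mul_inv_eq_iff_eq_mul.1 h4).symm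
      exact h1.pow_left k
  -- commuting
  have hne : ∀ a ∈ Y, ∀ b ∈ Y, a ≠ b → a * b ≠ 1 := by
    intro a ha b hb hab h
    apply hab
    have := eq_inv_of_mul_eq_one_left h
    rw [this, hYi b hb]
  have hcom1 : ∀ y ∈ Y, y ≠ 1 → ∀ x ∈ Y, x ≠ 1 → y ≠ z → x ≠ z → y * x ≠ z → ∀ a ∈ W y, ∀ b ∈ W x, a * b = b * a := by
    intro y hy hy1 x hx hx1 hyz hxz hyxz a ha b hb
    obtain ⟨a1, a2, rfl, ha1y, ha1x, ha2y, ha2x⟩ := hdec y hy x hx hx1 (hne x hx z hzY hxz) a ha
    obtain ⟨b1, b2, rfl, hb1x, hb1y, hb2x, hb2y⟩ := hdec x hx y hy hy1 (hne y hy z hzY hyz) b hb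
    have hv1 : y * x * z ≠ 1 := hne (y * x) (Y.mul_mem hy hx) z hzY hyxz
    have hvY : y * x * z ∈ Y := Y.mul_mem (Y.mul_mem hy hx) hzY
    have h22 : a2 * b2 = b2 * a2 := by
      apply hab (y * x * z) hvY
      · apply hbal y hy _ hvY hv1 a2 ha2y
        have e1 : Commute a2 y := W_comm ha2y
        have e2 : Commute a2 (x * z) := W_comm ha2x
        have := e1.mul_right e2
        rw [← mul_assoc] at this; exact this
      · apply hbal x hx _ hvY hv1 b2 hb2x
        have e1 : Commute b2 x := W_comm hb2x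
        have e2 : Commute b2 (y * z) := W_comm hb2y
        have := e1.mul_right e2
        have e3 : x * (y * z) = y * x * z := by rw [← mul_assoc, hYc x hx y hy]
        rw [e3] at this; exact this
    have h11 : Commute a1 (b1 * b2) := hab x hx a1 ha1x _ ((W x).mul_mem hb1x hb2x)
    have h21 : Commute a2 b1 := hab y hy a2 ha2y b1 hb1y
    exact (h11.mul_left (h21.mul_right h22))
  have hcomm : ∀ y ∈ Y, y ≠ 1 → ∀ x ∈ Y, x ≠ 1 → ∀ a ∈ W y, ∀ b ∈ W x, a * b = b * a := by
    intro y hy hy1 x hx hx1 a ha b hb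
    by_cases hyz : y = z
    · rw [hWz a (hyz ▸ ha)]; simp
    by_cases hxz : x = z
    · rw [hWz b (hxz ▸ hb)]; simp
    by_cases hyxz : y * x = z
    · -- choose u outside {1,y,z,yz}
      obtain ⟨u, huY, hu⟩ : ∃ u ∈ Y, u ∉ ({1, y, z, y * z} : Set X) := by
        by_contra hcon
        push Not at hcon
        have h1 : (Y : Set X) ⊆ {1, y, z, y * z} := fun u hu => hcon u hu
        have h3 := Set.ncard_le_ncard h1 (Set.toFinite _)
        have h4 : (Y : Set X).ncard = Nat.card Y := rfl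
        rw [h4] at h3
        have h5 : ({1, y, z, y * z} : Set X).ncard ≤ 4 := by
          refine le_trans (Set.ncard_insert_le _ _) ?_
          refine Nat.add_le_add_right (m := 3) (le_trans (Set.ncard_insert_le _ _) ?_) 1
          refine Nat.add_le_add_right (m := 2) (le_trans (Set.ncard_insert_le _ _) ?_) 1
          rw [Set.ncard_singleton]
        omega
      simp only [Set.mem_insert_iff, Set.mem_singleton_iff, not_or] at hu
      obtain ⟨hu1, huy, huz, huyz⟩ := hu
      have huzne : u * z ≠ 1 := hne u huY z hzY huz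
      obtain ⟨b1, b2, rfl, hb1x, hb1u, hb2x, hb2u⟩ := hdec x hx u huY hu1 huzne b hb
      have e1 : Commute a b1 := by
        apply hcom1 y hy hy1 u huY hu1 hyz huz _ a ha b1 hb1u
        intro h
        apply huyz
        rw [← h, ← mul_assoc, hY2 y hy, one_mul]
      have e2 : Commute a b2 := by
        apply hcom1 y hy hy1 (u * z) (Y.mul_mem huY hzY) huzne hyz _ _ a ha b2 hb2u
        · intro h; exact hu1 (mul_eq_right.1 h)
        · intro h
          rw [← mul_assoc] at h
          exact hne y hy u huY (fun h => huy h.symm) (mul_eq_right.1 h)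
      exact e1.mul_right e2
    · exact hcom1 y hy hy1 x hx hx1 hyz hxz hyxz a ha b hb
  -- the join
  set S : Subgroup X := ⨆ y : {y : X // y ∈ Y ∧ y ≠ 1}, (oddCore ↥(Subgroup.centralizer ({(y : X)} : Set X))).map (Subgroup.centralizer ({(y : X)} : Set X)).subtype with hS
  have hSW : S = ⨆ y : {y : X // y ∈ Y ∧ y ≠ 1}, W (y : X) := rfl
  have hScom : ∀ a ∈ S, ∀ b ∈ S, a * b = b * a := by
    have h1 : ∀ y : {y : X // y ∈ Y ∧ y ≠ 1}, ∀ a ∈ W (y : X), ∀ b ∈ S, a * b = b * a := by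
      intro y a ha b hb
      have h3 : S ≤ Subgroup.centralizer ({a} : Set X) := by
        rw [hSW]
        apply iSup_le
        intro x b hb
        rw [Subgroup.mem_centralizer_singleton_iff]
        exact (hcomm y y.2.1 y.2.2 x x.2.1 x.2.2 a ha b hb).symm
      exact (Subgroup.mem_centralizer_singleton_iff.1 (h3 hb)).symm
    intro a ha b hb
    have h3 : S ≤ Subgroup.centralizer ({b} : Set X) := by
      rw [hSW]
      apply iSup_le
      intro x a ha
      rw [Subgroup.mem_centralizer_singleton_iff]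
      exact h1 x a ha b hb
    exact Subgroup.mem_centralizer_singleton_iff.1 (h3 ha)
  have hSodd : ∀ s ∈ S, s ∈ S ∧ Odd (orderOf s) := by
    intro s hs
    refine Subgroup.iSup_induction (fun y : {y : X // y ∈ Y ∧ y ≠ 1} => W (y : X)) (C := fun s => s ∈ S ∧ Odd (orderOf s)) (hSW ▸ hs) ?_ ?_ ?_
    · intro y w hw
      refine ⟨hSW ▸ (le_iSup (fun y : {y : X // y ∈ Y ∧ y ≠ 1} => W (y : X)) y) hw, ?_⟩
      have h1 : orderOf w ∣ Nat.card (W (y : X)) := by
        have := orderOf_dvd_natCard (⟨w, hw⟩ : W (y : X))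
        rwa [Subgroup.orderOf_mk] at this
      exact Odd.of_dvd_nat (W_odd _) h1
    · exact ⟨S.one_mem, by rw [orderOf_one]; exact odd_one⟩
    · rintro a b ⟨ha, hao⟩ ⟨hb, hbo⟩
      refine ⟨S.mul_mem ha hb, ?_⟩
      have h1 : Commute a b := hScom a ha b hb
      exact Odd.of_dvd_nat (hao.mul hbo) h1.orderOf_mul_dvd_mul_orderOf
  constructor
  · rw [← Nat.not_even_iff_odd, even_iff_two_dvd]
    intro h
    obtain ⟨s, hs⟩ := exists_prime_orderOf_dvd_card' (G := S) 2 h
    have h1 := (hSodd s s.2).2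
    rw [Subgroup.orderOf_coe, hs] at h1
    exact absurd h1 (by decide)
  · have key : ∀ g ∈ Subgroup.normalizer (Y : Set X), ∀ s ∈ S, g * s * g⁻¹ ∈ S := by
      intro g hg s hs
      have h1 : S ≤ S.comap (MulAut.conj g).toMonoidHom := by
        conv_lhs => rw [hSW]
        apply iSup_le
        intro y w hw
        show g * w * g⁻¹ ∈ S
        have h3 := W_map (g := g) hw
        have h4 : g * y * g⁻¹ ∈ Y := (Subgroup.mem_normalizer_iff.1 hg y).1 y.2.1
        have h5 : g * (y : X) * g⁻¹ ≠ 1 := by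
          intro h
          apply y.2.2
          have : (y : X) = g⁻¹ * (g * y * g⁻¹) * g := by group
          rw [this, h]; group
        rw [hSW]
        exact (le_iSup (fun y : {y : X // y ∈ Y ∧ y ≠ 1} => W (y : X)) ⟨_, h4, h5⟩) h3
      exact h1 hs
    intro g hg
    rw [Subgroup.mem_normalizer_iff]
    intro h
    constructor
    · intro hh; exact key g hg h hh
    · intro hh
      have := key g⁻¹ ((Subgroup.normalizer (Y : Set X)).inv_mem hg) _ hh
      have e : g⁻¹ * (g * h * g⁻¹) * g⁻¹⁻¹ = h := by group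
      rwa [e] at this

end Cfsg.Agent.S2924
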