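import Cfsg.Statements.S2955
import Cfsg.Agent.H6.SCh3

set_option autoImplicit false
open Cfsg

namespace Cfsg.Agent.S2955

theorem syl_iff {G : Type*} [Group G] [Finite G] {p : ℕ} [Fact p.Prime] {S X : Subgroup G} :
    (∃ P : Sylow p ↥X, (P : Subgroup ↥X).map X.subtype = S ⊓ X) ↔ Agent.H6.SylIn p (S ⊓ X) X := by
  constructor
  · rintro ⟨P, hP⟩
    rw [← hP]
    exact Agent.H6.sylow_sylIn P
  · intro h
    obtain ⟨P, hP⟩ := h.exists_sylow
    refine ⟨P, ?_⟩
    rw [hP, Subgroup.map_subgroupOf_eq_of_le inf_le_right]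

/-- Let p be a prime dividing the order of the finite group G and 𝓕 a conjugation-closed family of subgroups that controls Sylow p-intersections in G. Suppose the Sylow p-subgroups of G are chain-connected: any two of them are joined by a chain of Sylow p-subgroups, consecutive ones distinct with nontrivial intersection, all containing the intersection of the two ends (equivalently, the graph on the Sylow p-subgroups whose edges are the distinct pairs meeting nontrivially is connected). Then for every Sylow p-subgroup S, G is generated by N_G(S) together with the members of 𝓕 that meet S in a Sylow p-subgroup of themselves. -/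
theorem result {G : Type*} [Group G] [Finite G] (p : ℕ) [Fact p.Prime] (hdiv : p ∣ Nat.card G)
    (𝓕 : Set (Subgroup G)) (h𝓕 : Cfsg.IsNormalSet 𝓕) (hc : Cfsg.ControlsSylowIntersections p 𝓕)
    (hconn : Cfsg.IsSylowChainConnected p G) (S : Sylow p G) :
    (⨆ X ∈ Cfsg.sylowMembers p 𝓕 (S : Subgroup G), X) ⊔ Subgroup.normalizer ((S : Subgroup G) : Set G) = ⊤ := by
  rw [Cfsg.Agent.H6.conn_iff] at hconn
  obtain ⟨Y, hY⟩ : ∃ Y, Y = (⨆ X ∈ Cfsg.sylowMembers p 𝓕 (S : Subgroup G), X) ⊔ Subgroup.normalizer ((S : Subgroup G) : Set G) := ⟨_, rfl⟩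
  rw [← hY]
  have hmem : ∀ y ∈ Y, ∀ X ∈ Cfsg.sylowMembers p 𝓕 ((y • S : Sylow p G) : Subgroup G), X ≤ Y := by
    intro y hy X hX
    have h1 : Agent.H6.cj y⁻¹ X ≤ Y := by
      rw [hY]
      refine le_trans ?_ le_sup_left
      refine le_iSup₂_of_le (Agent.H6.cj y⁻¹ X) ?_ le_rfl
      refine ⟨h𝓕 X hX.1 y, ?_⟩
      rw [syl_iff]
      have h2 := (syl_iff.1 hX.2).cj y⁻¹
      rwa [Agent.H6.cj_inf, Agent.H6.smul_sylow_coe, Agent.H6.cj_inv_cj] at h2
    have h2 := Agent.H6.cj_mono (g := y) h1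
    rw [Agent.H6.cj_cj_inv, Agent.H6.cj_of_mem_norm (Subgroup.le_normalizer hy)] at h2
    exact h2
  have hadj : ∀ T : Sylow p G, Agent.H6.SAdj S T → ∃ y ∈ Y, T = y • S := by
    intro T hT
    obtain ⟨n, c, X, x, h0, hl, hc'⟩ := hc S T hT.1 hT.2
    have key : ∀ k : ℕ, ∀ hk : k < n + 1, ∃ y ∈ Y, c ⟨k, hk⟩ = y • S := by
      intro k
      induction k with
      | zero => intro hk; exact ⟨1, one_mem _, by rw [one_smul]; exact h0⟩
      | succ k ih =>
        intro hk
        obtain ⟨y, hy, he⟩ := ih (by omega)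
        obtain ⟨hX1, hX2, hx, hxe, -⟩ := hc' ⟨k, by omega⟩
        have he' : c (Fin.castSucc ⟨k, by omega⟩) = y • S := he
        rw [he'] at hX1 hxe
        have hXY := hmem y hy _ hX1
        refine ⟨x ⟨k, by omega⟩ * y, mul_mem (hXY hx) hy, ?_⟩
        rw [mul_smul]
        ext1
        rw [Agent.H6.smul_sylow_coe, ← hxe]
        exact (Agent.H6.cj_cj_inv _ _).symm
    obtain ⟨y, hy, he⟩ := key n (by omega)
    exact ⟨y, hy, by rw [← he, ← hl]; rfl⟩
  have hall : ∀ T : Sylow p G, ∃ y ∈ Y, T = y • S := by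
    intro T
    have h1 := hconn S T
    induction h1 with
    | refl => exact ⟨1, one_mem _, (one_smul _ _).symm⟩
    | tail _ hbc ih =>
      obtain ⟨y, hy, rfl⟩ := ih
      have h2 := hbc.smul y⁻¹
      rw [inv_smul_smul] at h2
      obtain ⟨z, hz, he⟩ := hadj _ h2
      refine ⟨y * z, mul_mem hy hz, ?_⟩
      rw [mul_smul, ← he, smul_inv_smul]
  rw [eq_top_iff]
  intro g _
  obtain ⟨y, hy, he⟩ := hall (g • S)
  have h1 : y⁻¹ * g ∈ Subgroup.normalizer ((S : Subgroup G) : Set G) := by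
    rw [Agent.H6.mem_norm, ← Agent.H6.smul_sylow_coe, mul_smul, he, inv_smul_smul]
  have h2 : y⁻¹ * g ∈ Y := hY ▸ (le_sup_right (a := ⨆ X ∈ Cfsg.sylowMembers p 𝓕 (S : Subgroup G), X) h1)
  have := mul_mem hy h2
  simpa using this

end Cfsg.Agent.S2955
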