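import Cfsg.Statements.S2958

-- import your own Cfsg.Agent.* helpers here

set_option autoImplicit false
open Cfsg

namespace Cfsg.Agent.S2958

/-- Let X, A, B be subgroups of a group G such that G is generated by the conjugates of X and every conjugate of X is contained in A or in B. Then A = G or B = G. -/
theorem result {G : Type*} [Group G] (X A B : Subgroup G) (hgen : (⨆ g : G, X.map (MulAut.conj g).toMonoidHom) = ⊤) (hcover : ∀ g : G, X.map (MulAut.conj g).toMonoidHom ≤ A ∨ X.map (MulAut.conj g).toMonoidHom ≤ B) : A = ⊤ ∨ B = ⊤ := by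
  classical
  by_cases hall : ∀ g : G, X.map (MulAut.conj g).toMonoidHom ≤ A
  · left
    rw [eq_top_iff, ← hgen]
    exact iSup_le hall
  · right
    push Not at hall
    obtain ⟨g0, hg0⟩ := hall
    obtain ⟨D, hD⟩ : ∃ D : Subgroup G, D = ⨆ g : {g : G // ¬ X.map (MulAut.conj g).toMonoidHom ≤ A}, X.map (MulAut.conj (g : G)).toMonoidHom := ⟨_, rfl⟩
    have hDle : ∀ g : G, ¬ X.map (MulAut.conj g).toMonoidHom ≤ A → X.map (MulAut.conj g).toMonoidHom ≤ D := by
      intro g hg
      rw [hD]
      exact le_iSup (fun g : {g : G // ¬ X.map (MulAut.conj g).toMonoidHom ≤ A} => X.map (MulAut.conj (g : G)).toMonoidHom) ⟨g, hg⟩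
    have hmm : ∀ a g : G, (X.map (MulAut.conj g).toMonoidHom).map (MulAut.conj a).toMonoidHom = X.map (MulAut.conj (a * g)).toMonoidHom := by
      intro a g
      rw [Subgroup.map_map]
      congr 1
      ext y
      simp [mul_assoc]
    have hAD1 : ∀ a ∈ A, D.map (MulAut.conj a).toMonoidHom ≤ D := by
      intro a ha
      rw [hD, Subgroup.map_iSup, ← hD]
      refine iSup_le ?_
      rintro ⟨g, hg⟩
      rw [hmm]
      apply hDle
      intro h1
      apply hg
      intro y hy
      have h2 : a * y * a⁻¹ ∈ X.map (MulAut.conj (a * g)).toMonoidHom := by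
        rw [← hmm]; exact ⟨y, hy, rfl⟩
      have h3 := A.mul_mem (A.mul_mem (A.inv_mem ha) (h1 h2)) ha
      have h4 : a⁻¹ * (a * y * a⁻¹) * a = y := by group
      rwa [h4] at h3
    have hAD : A ≤ Subgroup.normalizer (D : Set G) := by
      intro a ha
      rw [Subgroup.mem_set_normalizer_iff]
      intro y
      constructor
      · intro hy
        exact hAD1 a ha ⟨y, hy, rfl⟩
      · intro hy
        have h1 := hAD1 a⁻¹ (A.inv_mem ha) ⟨_, hy, rfl⟩
        have h2 : (MulAut.conj a⁻¹).toMonoidHom (a * y * a⁻¹) = y := by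
          change a⁻¹ * (a * y * a⁻¹) * a⁻¹⁻¹ = y
          group
        rwa [h2] at h1
    have htop : Subgroup.normalizer (D : Set G) = ⊤ := by
      rw [eq_top_iff, ← hgen]
      refine iSup_le ?_
      intro g
      by_cases hg : X.map (MulAut.conj g).toMonoidHom ≤ A
      · exact hg.trans hAD
      · exact (hDle g hg).trans Subgroup.le_normalizer
    have hDn : D.Normal := Subgroup.normalizer_eq_top_iff.mp htop
    have hDB : D ≤ B := by
      rw [hD]
      refine iSup_le ?_
      rintro ⟨g, hg⟩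
      exact (hcover g).resolve_left hg
    have hXD : ∀ g : G, X.map (MulAut.conj g).toMonoidHom ≤ D := by
      intro g
      rintro _ ⟨y, hy, rfl⟩
      have h1 : g0 * y * g0⁻¹ ∈ D := hDle g0 hg0 ⟨y, hy, rfl⟩
      have h2 := hDn.conj_mem _ h1 (g * g0⁻¹)
      have h3 : g * g0⁻¹ * (g0 * y * g0⁻¹) * (g * g0⁻¹)⁻¹ = g * y * g⁻¹ := by group
      rw [h3] at h2
      exact h2
    rw [eq_top_iff, ← hgen]
    exact (iSup_le hXD).trans hDB

end Cfsg.Agent.S2958
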