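import Cfsg.Statements.S2959
import Cfsg.Agent.H6.CharP
-- import your own Cfsg.Agent.* helpers here

set_option autoImplicit false
open Cfsg

namespace Cfsg.Agent.S2959

/-- Let G be a finite group of characteristic p, that is C_G(O_p(G)) ≤ O_p(G), with p prime, and let L be a subgroup of G normalized by O_p(G). Then L has characteristic p: C_L(O_p(L)) ≤ O_p(L). -/
theorem result {G : Type*} [Group G] [Finite G] {p : ℕ} [Fact p.Prime] (hG : Subgroup.centralizer (Cfsg.pCore p G : Set G) ≤ Cfsg.pCore p G) (L : Subgroup G) (hL : Cfsg.pCore p G ≤ Subgroup.normalizer (L : Set G)) : Subgroup.centralizer (Cfsg.pCore p ↥L : Set ↥L) ≤ Cfsg.pCore p ↥L := by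
  have h1 : Cfsg.Agent.H6.CP p (⊤ : Subgroup G) := Cfsg.Agent.H6.cp_top_iff.mpr hG
  obtain ⟨R, hR⟩ : ∃ R, R = Cfsg.pCore p G := ⟨_, rfl⟩
  rw [← hR] at hL
  have hRp : IsPGroup p R := by rw [hR]; exact Cfsg.Agent.L0.pCore_isPGroup p G
  have hRn : R.Normal := by rw [hR]; infer_instance
  have h2 : Cfsg.Agent.H6.CP p (L ⊔ R) := by
    intro w hw hwo hwc
    refine h1 w (Subgroup.mem_top w) hwo ?_
    intro a ha
    rw [Cfsg.Agent.H6.pCoreOf_top, ← hR] at ha
    refine hwc a ?_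
    exact Cfsg.Agent.H6.le_pCoreOf (le_sup_right : R ≤ L ⊔ R) (by rw [Subgroup.normalizer_eq_top R]; exact le_top) hRp ha
  have h3 : Cfsg.Agent.H6.CP p L := h2.normal le_sup_left (sup_le Subgroup.le_normalizer hL)
  exact Cfsg.Agent.H6.cp_iff_cent.mp h3

end Cfsg.Agent.S2959
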