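import Cfsg.Statements.S2960
import Cfsg.Agent.H6.CharP
-- import your own Cfsg.Agent.* helpers here

set_option autoImplicit false
open Cfsg

namespace Cfsg.Agent.S2960

/-- Let G be a finite group of characteristic p (C_G(O_p(G)) ≤ O_p(G)), p prime, T a Sylow p-subgroup of G and Q a normal subgroup of T with C_T(Q) ≤ Q. Then C_G(Q) ≤ Q. -/
theorem result {G : Type*} [Group G] [Finite G] {p : ℕ} [Fact p.Prime] (hG : Subgroup.centralizer (Cfsg.pCore p G : Set G) ≤ Cfsg.pCore p G) (T : Sylow p G) (Q : Subgroup G) (hQT : Q ≤ (T : Subgroup G)) (hQn : (T : Subgroup G) ≤ Subgroup.normalizer (Q : Set G)) (hC : (T : Subgroup G) ⊓ Subgroup.centralizer (Q : Set G) ≤ Q) : Subgroup.centralizer (Q : Set G) ≤ Q := by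
  have h1 : Cfsg.Agent.H6.CP p (⊤ : Subgroup G) := Cfsg.Agent.H6.cp_top_iff.mpr hG
  have h2 : IsPGroup p ↥(Subgroup.centralizer (Q : Set G)) := by
    refine Cfsg.Agent.H6.isPGroup_of_pprime ?_
    intro w hw hwo
    obtain ⟨L, hL⟩ : ∃ L : Subgroup G, L = Q ⊔ Subgroup.zpowers w := ⟨_, rfl⟩
    have hQL : Q ≤ L := by rw [hL]; exact le_sup_left
    have hwL : w ∈ L := by rw [hL]; exact Subgroup.mem_sup_right (Subgroup.mem_zpowers w)
    have h3 := Cfsg.Agent.H6.cp_of_ge h1 (Cfsg.Agent.H6.sylow_sylIn_top T) hQT hQn hC hQL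
    refine h3 w hwL hwo ?_
    intro a ha
    have haL : a ∈ L := Cfsg.Agent.H6.pCoreOf_le L ha
    have hle : L ≤ Subgroup.centralizer ({w} : Set G) := by
      rw [hL]
      refine sup_le ?_ ?_
      · intro q hq
        rw [Subgroup.mem_centralizer_singleton_iff]
        exact Subgroup.mem_centralizer_iff.mp hw q hq
      · rw [Subgroup.zpowers_le, Subgroup.mem_centralizer_singleton_iff]
    exact Subgroup.mem_centralizer_singleton_iff.mp (hle haL)
  have hTn : (T : Subgroup G) ≤ Subgroup.normalizer (Subgroup.centralizer (Q : Set G) : Set G) := by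
    intro t ht
    rw [Subgroup.mem_set_normalizer_iff]
    have key : ∀ s ∈ Subgroup.normalizer (Q : Set G), ∀ y ∈ Subgroup.centralizer (Q : Set G), s * y * s⁻¹ ∈ Subgroup.centralizer (Q : Set G) := by
      intro s hs y hy
      rw [Subgroup.mem_centralizer_iff]
      intro q hq
      have h4 : s⁻¹ * q * s ∈ Q := by
        have := (Subgroup.mem_set_normalizer_iff.mp ((Subgroup.normalizer (Q : Set G)).inv_mem hs) q).mp hq
        rwa [inv_inv] at this
      have h5 := Subgroup.mem_centralizer_iff.mp hy _ h4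
      calc q * (s * y * s⁻¹) = s * ((s⁻¹ * q * s) * y) * s⁻¹ := by group
        _ = s * y * s⁻¹ * q := by rw [h5]; group
    intro y
    constructor
    · intro hy; exact key t (hQn ht) y hy
    · intro hy
      have := key t⁻¹ ((Subgroup.normalizer (Q : Set G)).inv_mem (hQn ht)) _ hy
      have h6 : t⁻¹ * (t * y * t⁻¹) * t⁻¹⁻¹ = y := by group
      rwa [h6] at this
  have h7 : IsPGroup p ↥((T : Subgroup G) ⊔ Subgroup.centralizer (Q : Set G)) :=
    IsPGroup.to_sup_of_normal_right' T.isPGroup' h2 hTn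
  have h8 : (T : Subgroup G) ⊔ Subgroup.centralizer (Q : Set G) = T := T.3 h7 le_sup_left
  have h9 : Subgroup.centralizer (Q : Set G) ≤ (T : Subgroup G) := by rw [← h8]; exact le_sup_right
  exact (le_inf h9 le_rfl).trans hC

end Cfsg.Agent.S2960
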