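import Cfsg.Statements.S3006
import Cfsg.Agent.H6.CD2

set_option autoImplicit false
open scoped Pointwise
open Cfsg

namespace Cfsg.Agent.S3006

/-- Let P be a finite p-group, Q a centrally large subgroup of P (|Q|·|Z(Q)| maximal among subgroups of P) and A an abelian subgroup of P of largest order. Then QA = AQ is a centrally large subgroup of P, C_{QA}(Q ∩ A) = Z(Q)·A, and the subgroup generated by all centrally large subgroups of P contains C_P(Z(J(P))), where J(P) is generated by the abelian subgroups of largest order. -/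
theorem result {p : ℕ} [Fact p.Prime] (P : Type*) [Group P] [Finite P] (hP : IsPGroup p P) (Q A : Subgroup P) (hQ : Cfsg.IsCentrallyLarge Q) (hA : A ∈ Cfsg.maxAbelianSubgroups P) : ((Q ⊔ A : Subgroup P) : Set P) = (Q : Set P) * (A : Set P) ∧ Cfsg.IsCentrallyLarge (Q ⊔ A) ∧ (Q ⊔ A) ⊓ Subgroup.centralizer ((Q ⊓ A : Subgroup P) : Set P) = (Q ⊓ Subgroup.centralizer (Q : Set P)) ⊔ A ∧ (((Q ⊓ Subgroup.centralizer (Q : Set P)) ⊔ A : Subgroup P) : Set P) = ((Q ⊓ Subgroup.centralizer (Q : Set P)) : Set P) * (A : Set P) ∧ Subgroup.centralizer ((Cfsg.thompsonSubgroupA P ⊓ Subgroup.centralizer (Cfsg.thompsonSubgroupA P : Set P) : Subgroup P) : Set P) ≤ Cfsg.centrallyLargeJoin P := by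
  rw [Agent.H6.CD.isCentrallyLarge_iff] at hQ ⊢
  obtain ⟨h1, h2, h3⟩ := Agent.H6.CD.cl_sup_maxab hQ hA
  have hself := Agent.H6.CD.maxab_self hA
  have hAA : A ≤ Subgroup.centralizer ((Q ⊓ A : Subgroup P) : Set P) := by
    exact hself.ge.trans (Subgroup.centralizer_le inf_le_right)
  obtain ⟨Z, hZ⟩ : ∃ Z, Z = Q ⊓ Subgroup.centralizer (Q : Set P) := ⟨_, rfl⟩
  have hZQ : Z ≤ Subgroup.centralizer (Q : Set P) := hZ ▸ inf_le_right
  have hZQ' : Z ≤ Q := hZ ▸ inf_le_left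
  have hset : ((Q ⊓ Subgroup.centralizer (Q : Set P) : Subgroup P) : Set P) = (Z : Set P) := by rw [hZ]
  have hset' : (Q ⊓ Subgroup.centralizer (Q : Set P) : Set P) = (Z : Set P) := by rw [← hset]; rfl
  rw [hset', ← hZ]
  rw [← hZ] at h3
  have hsub : (((Q ⊔ A) ⊓ Subgroup.centralizer ((Q ⊓ A : Subgroup P) : Set P) : Subgroup P) : Set P) ⊆ (Z : Set P) * (A : Set P) := by
    intro x hx
    have hx1 : x ∈ ((Q ⊔ A : Subgroup P) : Set P) := hx.1
    have hx2 : x ∈ Subgroup.centralizer ((Q ⊓ A : Subgroup P) : Set P) := hx.2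
    rw [h2] at hx1
    obtain ⟨q, hq, a, ha, hqa⟩ := hx1
    have hqa' : q * a = x := hqa
    have hq' : q ∈ Q := hq
    have ha' : a ∈ A := ha
    have hqc : q ∈ Subgroup.centralizer ((Q ⊓ A : Subgroup P) : Set P) := by
      have : q = x * a⁻¹ := by rw [← hqa']; group
      rw [this]
      exact mul_mem hx2 (inv_mem (hAA ha'))
    have hqZ : q ∈ Subgroup.centralizer (Z : Set P) := by
      exact (Subgroup.le_centralizer_iff.1 hZQ) hq'
    have hqB : q ∈ (Q ⊓ A) ⊔ Z := by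
      rw [← Agent.H6.CD.maxab_self h3, Agent.H6.CD.centralizer_sup']
      exact Subgroup.mem_inf.2 ⟨hqc, hqZ⟩
    have hn : Z ≤ Subgroup.normalizer ((Q ⊓ A : Subgroup P) : Set P) :=
      hZQ.trans ((Subgroup.centralizer_le (inf_le_left : Q ⊓ A ≤ Q)).trans (Subgroup.centralizer_le_normalizer _))
    have hqB' : q ∈ (((Q ⊓ A) ⊔ Z : Subgroup P) : Set P) := hqB
    rw [sup_comm, Subgroup.coe_mul_of_left_le_normalizer_right _ _ hn] at hqB'
    obtain ⟨z, hz, c, hc, hzc⟩ := hqB'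
    have hc' : c ∈ Q ⊓ A := hc
    refine ⟨z, hz, c * a, A.mul_mem (Subgroup.mem_inf.1 hc').2 ha', ?_⟩
    have hzc' : z * c = q := hzc
    show z * (c * a) = x
    rw [← mul_assoc, hzc', hqa']
  have hsup : (Z : Set P) * (A : Set P) ⊆ ((Z ⊔ A : Subgroup P) : Set P) := by
    rintro _ ⟨z, hz, a, ha, rfl⟩
    exact mul_mem (Subgroup.mem_sup_left hz) (Subgroup.mem_sup_right ha)
  have hle : Z ⊔ A ≤ (Q ⊔ A) ⊓ Subgroup.centralizer ((Q ⊓ A : Subgroup P) : Set P) := by
    refine le_inf (sup_le_sup_right hZQ' _) (sup_le ?_ hAA)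
    exact hZQ.trans (Subgroup.centralizer_le inf_le_left)
  have heq : (Q ⊔ A) ⊓ Subgroup.centralizer ((Q ⊓ A : Subgroup P) : Set P) = Z ⊔ A :=
    le_antisymm (fun x hx => hsup (hsub hx)) hle
  refine ⟨h2, h1, heq, Set.Subset.antisymm ?_ hsup, ?_⟩
  · intro x hx
    exact hsub (hle hx)
  · refine Agent.H6.CD.cent_le_of_J_le Agent.H6.CD.clJoin ?_
    refine sSup_le fun B hB => ?_
    have := Agent.H6.CD.le_clJoin (Agent.H6.CD.cl_sup_maxab hQ hB).1
    exact le_sup_right.trans this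

end Cfsg.Agent.S3006
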