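import Cfsg.Statements.S3053
import Cfsg.Agent.H6.Exp2

set_option autoImplicit false
open Cfsg

namespace Cfsg.Agent.S3053

/-- Let p be an odd prime and G a finite group with a Sylow p-subgroup P that is extraspecial of order p³ and exponent p². Then the centre of P is strongly closed in P with respect to G: a G-conjugate of an element of Z(P) that lies in P already lies in Z(P). In particular a nontrivial central element of P is conjugate in G to no noncentral element of P. -/
theorem result {G : Type*} [Group G] [Finite G]
    {p : ℕ} [Fact p.Prime] (hp : p ≠ 2) (P : Sylow p G) (hE : Cfsg.IsExtraspecial p ↥P)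
    (hcard : Nat.card P = p ^ 3) (hexp : Monoid.exponent ↥P = p ^ 2) :
    Cfsg.IsStronglyClosed ((Subgroup.center ↥P).map (P : Subgroup G).subtype) (P : Subgroup G) := by
  refine ⟨Subgroup.map_subtype_le _, ?_⟩
  intro x hx g hg
  by_contra hcon
  refine Cfsg.Agent.H6.exp2_closed hp P hE hcard ?_ x g hx hg hcon
  by_contra hall
  push Not at hall
  have h1 : Monoid.exponent ↥P ∣ p := by
    refine Monoid.exponent_dvd_of_forall_pow_eq_one ?_
    intro y
    exact Subtype.ext (hall y y.2)
  rw [hexp] at h1
  have h2 := Nat.le_of_dvd (Fact.out : p.Prime).pos h1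
  have h3 := (Fact.out : p.Prime).one_lt
  nlinarith

end Cfsg.Agent.S3053
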