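import Cfsg.Statements.S3061
import Cfsg.Agent.H1.Class2
import Cfsg.Agent.H6.SnJoin

set_option autoImplicit false
open Cfsg

namespace Cfsg.Agent.S3061

open Subgroup Agent.H6 in
theorem step {S : Type*} [Group S] [Finite S] {A B : Subgroup S} (hA : A ∈ dStarFamily S) (hB : B.Normal) (hBc : ∀ a ∈ B, ∀ b ∈ B, a * b = b * a)
    (hnil : Group.IsNilpotent S) : ∀ x ∈ B, ∀ a ∈ A, a * x = x * a := by
  have key : ∀ n : ℕ, ∀ x ∈ B, x ∈ Subgroup.upperCentralSeries S n → ∀ a ∈ A, a * x = x * a := by
    intro n
    induction n with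
    | zero =>
      intro x hx hxn a ha
      rw [Subgroup.upperCentralSeries_zero, mem_bot] at hxn
      rw [hxn, mul_one, one_mul]
    | succ n ih =>
      intro x hx hxn
      obtain ⟨W, hW⟩ : ∃ W, W = B ⊓ Subgroup.upperCentralSeries S n := ⟨_, rfl⟩
      haveI hWn : W.Normal := by rw [hW]; infer_instance
      obtain ⟨f, hf⟩ : ∃ f : S →* S ⧸ W, f = QuotientGroup.mk' W := ⟨_, rfl⟩
      have hker : f.ker = W := by rw [hf, QuotientGroup.ker_mk']
      obtain ⟨M, hM⟩ : ∃ M, M = A ⊔ zpowers x := ⟨_, rfl⟩
      have hAc : ∀ a ∈ A, ∀ b ∈ A, a * b = b * a := by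
        intro a ha b hb
        have := hA.1
        exact congrArg Subtype.val (this.is_comm.comm ⟨a, ha⟩ ⟨b, hb⟩)
      have hax : ∀ a ∈ A, f a * f x = f x * f a := by
        intro a ha
        have h1 : x * a * x⁻¹ * a⁻¹ ∈ Subgroup.upperCentralSeries S n := Subgroup.mem_upperCentralSeries_succ_iff.1 hxn a
        have h2 : x * a * x⁻¹ * a⁻¹ ∈ B := by
          have e : x * a * x⁻¹ * a⁻¹ = x * (a * x⁻¹ * a⁻¹) := by group
          rw [e]
          exact mul_mem hx (hB.conj_mem _ (inv_mem hx) a)
        have h3 : x * a * x⁻¹ * a⁻¹ ∈ f.ker := by rw [hker, hW]; exact mem_inf.2 ⟨h2, h1⟩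
        rw [MonoidHom.mem_ker, map_mul, map_mul, map_mul, map_inv, map_inv] at h3
        have h4 := mul_inv_eq_iff_eq_mul.1 (mul_inv_eq_one.1 h3)
        exact h4.symm
      have hMA : ∀ m ∈ M, ∀ a ∈ A, f a * f m = f m * f a := by
        intro m hm a ha
        have h1 : M ≤ (centralizer {f a}).comap f := by
          rw [hM, sup_le_iff, zpowers_le]
          refine ⟨fun b hb => ?_, ?_⟩
          · rw [mem_comap, mem_centralizer_singleton_iff, ← map_mul, ← map_mul, hAc b hb a ha]
          · rw [mem_comap, mem_centralizer_singleton_iff]; exact (hax a ha).symm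
        exact (mem_centralizer_singleton_iff.1 (h1 hm)).symm
      have hMx : ∀ m ∈ M, f x * f m = f m * f x := by
        intro m hm
        have h1 : M ≤ (centralizer {f x}).comap f := by
          rw [hM, sup_le_iff, zpowers_le]
          refine ⟨fun b hb => ?_, ?_⟩
          · rw [mem_comap, mem_centralizer_singleton_iff]; exact hax b hb
          · rw [mem_comap, mem_centralizer_singleton_iff]
        exact (mem_centralizer_singleton_iff.1 (h1 hm)).symm
      have hMM : ∀ m ∈ M, ∀ k ∈ M, f k * f m = f m * f k := by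
        intro m hm k hk
        have h1 : M ≤ (centralizer {f m}).comap f := by
          rw [hM, sup_le_iff, zpowers_le]
          refine ⟨fun b hb => ?_, ?_⟩
          · rw [mem_comap, mem_centralizer_singleton_iff]; exact hMA m hm b hb
          · rw [mem_comap, mem_centralizer_singleton_iff]; exact hMx m hm
        exact mem_centralizer_singleton_iff.1 (h1 hk)
      have hcW : ⁅M, M⁆ ≤ W := by
        rw [commutator_le]
        intro a ha b hb
        rw [← hker, MonoidHom.mem_ker, map_commutatorElement, commutatorElement_eq_one_iff_mul_comm]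
        exact hMM b hb a ha
      have hWM : ⁅W, M⁆ = ⊥ := by
        rw [commutator_eq_bot_iff_le_centralizer, le_centralizer_iff, hM, sup_le_iff, zpowers_le]
        refine ⟨fun a ha => ?_, ?_⟩
        · rw [mem_centralizer_iff]
          intro w hw
          rw [SetLike.mem_coe, hW] at hw
          exact (ih w (mem_inf.1 hw).1 (mem_inf.1 hw).2 a ha).symm
        · rw [mem_centralizer_iff]
          intro w hw
          rw [SetLike.mem_coe, hW] at hw
          exact hBc w (mem_inf.1 hw).1 x hx
      have hfin : ⁅⁅A ⊔ Subgroup.zpowers x, A ⊔ Subgroup.zpowers x⁆, A ⊔ Subgroup.zpowers x⁆ = ⊥ := by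
        rw [← hM, eq_bot_iff, ← hWM]
        exact commutator_mono hcW le_rfl
      exact hA.2 x hfin
  obtain ⟨n, hn⟩ := hnil.nilpotent'
  intro x hx
  exact key n x hx (by rw [hn]; exact mem_top x)

open Subgroup Agent.H6 in
theorem main {S : Type*} [Group S] [Finite S] {p : ℕ} [Fact p.Prime] (hS : IsPGroup p S) :
    Cfsg.dStar S ∈ Cfsg.dStarFamily S := by
  haveI hnil : Group.IsNilpotent S := hS.isNilpotent
  obtain ⟨B, hBn, hBc, hBmax⟩ := H1.exists_maximal_normal_abelian (G := S)
  haveI := hBn
  haveI := hBc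
  have hcB : centralizer (B : Set S) = B := H1.centralizer_eq_of_maximal_normal_abelian B hBmax
  have hBc' : ∀ a ∈ B, ∀ b ∈ B, a * b = b * a := by
    intro a ha b hb
    exact congrArg Subtype.val (hBc.is_comm.comm ⟨a, ha⟩ ⟨b, hb⟩)
  have hle : dStar S ≤ B := by
    unfold dStar
    refine sSup_le fun A hA => ?_
    rw [← hcB]
    intro a ha
    rw [mem_centralizer_iff]
    intro x hx
    exact (step hA hBn hBc' hnil x hx a ha).symm
  refine ⟨?_, ?_⟩
  · exact isMulComm_of fun a ha b hb => hBc' a (hle ha) b (hle hb)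
  · intro x hx
    have h1 : dStar S ≤ centralizer ({x} : Set S) := by
      unfold dStar
      refine sSup_le fun A hA => ?_
      have hAD : A ⊔ zpowers x ≤ dStar S ⊔ zpowers x := sup_le_sup_right (le_sSup hA) _
      have h2 : ⁅⁅A ⊔ Subgroup.zpowers x, A ⊔ Subgroup.zpowers x⁆, A ⊔ Subgroup.zpowers x⁆ = ⊥ := by
        rw [eq_bot_iff, ← hx]
        exact commutator_mono (commutator_mono hAD hAD) hAD
      intro a ha
      rw [mem_centralizer_singleton_iff]
      exact hA.2 x h2 a ha
    intro a ha
    exact mem_centralizer_singleton_iff.1 (h1 ha)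

/-- Let S be a finite p-group. Then D*(S) itself belongs to the family that generates it: D*(S) is abelian, and every x ∈ S with ⟨D*(S), x⟩ of class at most two centralizes D*(S). Hence D*(S) is the unique maximal member of that family. -/
theorem result {S : Type*} [Group S] [Finite S] {p : ℕ} [Fact p.Prime] (hS : IsPGroup p S) :
    Cfsg.dStar S ∈ Cfsg.dStarFamily S := by
  exact main hS

end Cfsg.Agent.S3061
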