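import Cfsg.Statements.S3080
import Cfsg.Agent.H2.PStab
import Mathlib

set_option autoImplicit false
open Cfsg

namespace Cfsg.Agent.S3080

open Cfsg.Agent.H2

/-- Let p be an odd prime, G a finite group that is p-stable in the normalizer form, P a Sylow p-subgroup such that N_G(U) is p-constrained for every nontrivial subgroup U of P, and D a subgroup of P strongly closed in P with respect to G. Then N_G(Z(J(D))) controls strong G-fusion in P (for every subset A of P and every g ∈ G with gAg⁻¹ ⊆ P, some element of that normalizer acts on A exactly as g does; J(D) is generated by the abelian subgroups of D of largest order), and so does N_G(Ω₁(Z(J_e(D)))) (J_e(D) generated by the elementary abelian subgroups of largest order). -/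
theorem result {G : Type*} [Group G] [Finite G] {p : ℕ} [Fact p.Prime] (hp : p ≠ 2) (P : Sylow p G) (D : Subgroup G) (hD : Cfsg.IsStronglyClosed D (P : Subgroup G)) (hst : Cfsg.IsNormalizerPStable p G) (hc : ∀ U : Subgroup G, U ≤ (P : Subgroup G) → U ≠ ⊥ → Cfsg.IsPConstrained p ↥(Subgroup.normalizer (U : Set G))) : (∀ A : Set G, A ⊆ (P : Subgroup G) → Cfsg.ControlsStrongFusionOf (Subgroup.normalizer ((Cfsg.centerThompsonAOf D) : Set G)) (P : Subgroup G) A) ∧ (∀ A : Set G, A ⊆ (P : Subgroup G) → Cfsg.ControlsStrongFusionOf (Subgroup.normalizer ((Cfsg.omegaOne p (Cfsg.centerThompsonOf p D)) : Set G)) (P : Subgroup G) A) := by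
  rw [centerThompsonAOf_eq, omegaCenterThompsonOf_eq]
  have key : ∀ m : ℕ, (m = 0 ∨ m = p) → ∀ A : Set G, A ⊆ (P : Subgroup G) →
      ControlsStrongFusionOf (Subgroup.normalizer ((zz m D : Subgroup G) : Set G)) (P : Subgroup G) A := by
    intro m hm A hA
    refine ⟨hA, fun g hg => ?_⟩
    by_cases hne : D = ⊥
    · refine ⟨g, ?_, fun _ _ => rfl⟩
      have : zz m D = ⊥ := by rw [eq_bot_iff, ← hne]; exact zz_le
      rw [this]
      exact H6.norm_of_normal ⊤ (Subgroup.mem_top _)
    · obtain ⟨n, hn, hna⟩ := zf_of_local hm P hD hne (fun T hT1 hT =>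
        zf_of_pcons_pstable hp hm (hc T hT.1 hT1) (pstable_subgroup hst _)) A g⁻¹ hA (by simpa [H6.rc] using hg)
      refine ⟨n⁻¹, Subgroup.inv_mem _ hn, ?_⟩
      intro a ha
      have := hna a ha
      simpa using this.symm
  exact ⟨key 0 (Or.inl rfl), key p (Or.inr rfl)⟩

end Cfsg.Agent.S3080
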