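import Cfsg.Statements.S3155
import Mathlib

set_option autoImplicit false
open Cfsg

namespace Cfsg.Agent.S3155

open scoped commutatorElement Pointwise


/-- Let B be the direct product of three cyclic groups of order 4. Then the automorphism of B inverting every element is not the square of any automorphism of B. -/
theorem result {B : Type*} [CommGroup B] [Finite B] (hB : Nonempty (B ≃* Multiplicative (ZMod 4 × ZMod 4 × ZMod 4)))
    (τ : B ≃* B) : τ.trans τ ≠ MulEquiv.inv B := by
  obtain ⟨e⟩ := hB
  haveI : Fact (1 < 4) := ⟨by norm_num⟩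
  haveI : Nontrivial (ZMod 4) := ZMod.nontrivial 4
  intro h
  have hτ : ∀ b, τ (τ b) = b⁻¹ := fun b => congrArg (fun f : B ≃* B => f b) h
  let f : (ZMod 4 × ZMod 4 × ZMod 4) →+ (ZMod 4 × ZMod 4 × ZMod 4) :=
    { toFun := fun m => Multiplicative.toAdd (e (τ (e.symm (Multiplicative.ofAdd m))))
      map_zero' := by
        rw [ofAdd_zero, map_one, map_one, map_one, toAdd_one]
      map_add' := by
        intro a b
        rw [ofAdd_add, map_mul, map_mul, map_mul, toAdd_mul] }
  let L := f.toZModLinearMap 4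
  have hL : ∀ m, L m = Multiplicative.toAdd (e (τ (e.symm (Multiplicative.ofAdd m)))) := fun m => rfl
  have h1 : L * L = (-1 : ZMod 4) • (1 : (ZMod 4 × ZMod 4 × ZMod 4) →ₗ[ZMod 4] (ZMod 4 × ZMod 4 × ZMod 4)) := by
    apply LinearMap.ext
    intro m
    rw [Module.End.mul_apply, hL, hL, LinearMap.smul_apply, Module.End.one_apply, neg_one_smul]
    rw [ofAdd_toAdd, e.symm_apply_apply, hτ, map_inv, e.apply_symm_apply, toAdd_inv, toAdd_ofAdd]
  have h2 := congrArg LinearMap.det h1
  rw [map_mul, LinearMap.det_smul, map_one] at h2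
  have h3 : Module.finrank (ZMod 4) (ZMod 4 × ZMod 4 × ZMod 4) = 3 := by
    rw [Module.finrank_prod, Module.finrank_prod, Module.finrank_self]
  rw [h3] at h2
  have h4 : ∀ u : ZMod 4, u * u ≠ (-1) ^ 3 * 1 := by decide
  exact h4 _ h2

end Cfsg.Agent.S3155
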