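import Cfsg.Statements.S3180
import Mathlib

set_option autoImplicit false
open Cfsg

namespace Cfsg.Agent.S3180

open scoped commutatorElement Pointwise


/-- Let P be a Sylow p-subgroup of a finite group J and P₁ a subgroup of P that is weakly closed in P with respect to J. If J acts on a set and two points, each fixed by every element of P₁, lie in one J-orbit, then they lie in one orbit of the normalizer of P₁ in J. -/
theorem result {J : Type*} [Group J] [Finite J]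
    {p : ℕ} [Fact p.Prime] (P : Sylow p J) (P₁ : Subgroup J) (hW : Cfsg.IsWeaklyClosed P₁ (P : Subgroup J))
    {Ω : Type*} [MulAction J Ω] (x y : Ω) (hx : ∀ g ∈ P₁, g • x = x) (hy : ∀ g ∈ P₁, g • y = y)
    (hc : ∃ g : J, g • x = y) :
    ∃ g ∈ Subgroup.normalizer (P₁ : Set J), g • x = y := by
  obtain ⟨g, hg⟩ := hc
  -- stabilizer of y
  let Y : Subgroup J := MulAction.stabilizer J y
  have h1 : P₁ ≤ Y := fun t ht => hy t ht
  have h2 : P₁.map (MulAut.conj g).toMonoidHom ≤ Y := by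
    rintro _ ⟨t, ht, rfl⟩
    change (g * t * g⁻¹) • y = y
    rw [← hg, mul_smul, mul_smul, inv_smul_smul, hx t ht]
  have hp1 : IsPGroup p P₁ := P.2.to_le hW.1
  have hp2 : IsPGroup p (P₁.map (MulAut.conj g).toMonoidHom) := hp1.map _
  have hq1 : IsPGroup p (P₁.subgroupOf Y) := hp1.of_equiv (Subgroup.subgroupOfEquivOfLe h1).symm
  have hq2 : IsPGroup p ((P₁.map (MulAut.conj g).toMonoidHom).subgroupOf Y) := hp2.of_equiv (Subgroup.subgroupOfEquivOfLe h2).symm
  obtain ⟨Q, hQ⟩ := hq1.exists_le_sylow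
  obtain ⟨Q', hQ'⟩ := hq2.exists_le_sylow
  obtain ⟨s, hs⟩ := MulAction.exists_smul_eq Y Q' Q
  -- Q maps into a Sylow of J
  have hQp : IsPGroup p ((Q : Subgroup Y).map Y.subtype) := Q.2.map _
  obtain ⟨R, hR⟩ := hQp.exists_le_sylow
  obtain ⟨r, hr⟩ := MulAction.exists_smul_eq J R P
  have key : ∀ a : J, P₁.map (MulAut.conj a).toMonoidHom ≤ (Q : Subgroup Y).map Y.subtype → P₁.map (MulAut.conj (r * a)).toMonoidHom = P₁ := by
    intro a ha
    apply hW.2
    rintro _ ⟨t, ht, rfl⟩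
    have h3 : a * t * a⁻¹ ∈ (R : Subgroup J) := hR (ha ⟨t, ht, rfl⟩)
    rw [← hr]
    have h4 : r * (a * t * a⁻¹) * r⁻¹ ∈ ((r • R : Sylow p J) : Subgroup J) := ⟨_, h3, rfl⟩
    have e : (MulAut.conj (r * a)).toMonoidHom t = r * (a * t * a⁻¹) * r⁻¹ := by
      change (r * a) * t * (r * a)⁻¹ = _
      group
    rw [e]; exact h4
  have k1 := key 1 (by
    rintro _ ⟨t, ht, rfl⟩
    refine ⟨⟨t, h1 ht⟩, hQ (Subgroup.mem_subgroupOf.mpr ht), ?_⟩
    change t = 1 * t * 1⁻¹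
    group)
  have k2 := key ((s : J) * g) (by
    rintro _ ⟨t, ht, rfl⟩
    have h3 : (⟨g * t * g⁻¹, h2 ⟨t, ht, rfl⟩⟩ : Y) ∈ (Q' : Subgroup Y) := hQ' (Subgroup.mem_subgroupOf.mpr ⟨t, ht, rfl⟩)
    have h4 : s * ⟨g * t * g⁻¹, h2 ⟨t, ht, rfl⟩⟩ * s⁻¹ ∈ (Q : Subgroup Y) := by
      rw [← hs]; exact ⟨_, h3, rfl⟩
    refine ⟨_, h4, ?_⟩
    change (s : J) * (g * t * g⁻¹) * (s : J)⁻¹ = ((s : J) * g) * t * ((s : J) * g)⁻¹
    group)
  have mem_of : ∀ a : J, P₁.map (MulAut.conj a).toMonoidHom = P₁ → a ∈ Subgroup.normalizer (P₁ : Set J) := by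
    intro a ha
    rw [Subgroup.mem_normalizer_iff]
    intro h
    constructor
    · intro hh
      rw [← ha]; exact ⟨h, hh, rfl⟩
    · intro hh
      rw [← ha] at hh
      obtain ⟨t, ht, hth⟩ := hh
      have : t = h := mul_left_cancel (mul_right_cancel hth)
      rw [← this]; exact ht
  have m1 : r ∈ Subgroup.normalizer (P₁ : Set J) := by
    have := mem_of _ k1
    rwa [mul_one] at this
  have m2 := mem_of _ k2
  refine ⟨(s : J) * g, ?_, ?_⟩
  · have := mul_mem (inv_mem m1) m2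
    rwa [← mul_assoc, inv_mul_cancel, one_mul] at this
  · rw [mul_smul, hg]; exact s.2

end Cfsg.Agent.S3180
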