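import Cfsg.Statements.S3208
import Mathlib

set_option autoImplicit false
open Cfsg

namespace Cfsg.Agent.S3208

open scoped commutatorElement Pointwise


/-- Let j be an involution of a finite group G, H a subgroup of G, and T a Sylow 2-subgroup of H ∩ C_G(j) containing j such that ⟨j⟩ is a characteristic subgroup of T. Then T is a Sylow 2-subgroup of H. -/
theorem result {G : Type*} [Group G] [Finite G]
    (j : G) (hj : orderOf j = 2) (H T : Subgroup G) (hT : T ≤ H ⊓ Subgroup.centralizer ({j} : Set G)) (h2 : IsPGroup 2 ↥T)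
    (hSyl : ¬ 2 ∣ T.relIndex (H ⊓ Subgroup.centralizer ({j} : Set G))) (hjT : j ∈ T)
    (hchar : ((Subgroup.zpowers j).subgroupOf T).Characteristic) :
    ¬ 2 ∣ T.relIndex H := by
  haveI : Fact (Nat.Prime 2) := ⟨Nat.prime_two⟩
  intro hdvd
  have hTH : T ≤ H := hT.trans inf_le_left
  obtain ⟨n, hn⟩ := IsPGroup.iff_card.mp h2
  have hcT : Nat.card (T.subgroupOf H) = 2 ^ n := by rw [Nat.card_congr (Subgroup.subgroupOfEquivOfLe hTH).toEquiv, hn]
  have h3 : 2 ^ (n + 1) ∣ Nat.card H := by
    rw [← (T.subgroupOf H).card_mul_index, hcT, pow_succ]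
    exact Nat.mul_dvd_mul_left _ hdvd
  have h4 := Sylow.prime_dvd_card_quotient_normalizer h3 hcT
  -- the normalizer lies in the centralizer of j
  set N := Subgroup.normalizer ((T.subgroupOf H : Subgroup H) : Set H) with hN
  have hNj : ∀ g ∈ N, (g : G) ∈ Subgroup.centralizer ({j} : Set G) := by
    intro g hg
    have hgT : ∀ t ∈ T, (g : G) * t * (g : G)⁻¹ ∈ T := by
      intro t ht
      have := (Subgroup.mem_normalizer_iff.mp hg ⟨t, hTH ht⟩).mp (Subgroup.mem_subgroupOf.mpr ht)
      exact Subgroup.mem_subgroupOf.mp this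
    have hgT' : ∀ t, t ∈ T ↔ (g : G) * t * (g : G)⁻¹ ∈ T := by
      intro t
      refine ⟨hgT t, fun h => ?_⟩
      have hgi : ∀ t ∈ T, (g : G)⁻¹ * t * (g : G) ∈ T := by
        intro t ht
        have := (Subgroup.mem_normalizer_iff.mp (inv_mem hg) ⟨t, hTH ht⟩).mp (Subgroup.mem_subgroupOf.mpr ht)
        have := Subgroup.mem_subgroupOf.mp this
        simpa using this
      have := hgi _ h
      have e : (g : G)⁻¹ * ((g : G) * t * (g : G)⁻¹) * (g : G) = t := by group
      rwa [e] at this
    have hgN : (g : G) ∈ Subgroup.normalizer (T : Set G) := Subgroup.mem_normalizer_iff.mpr hgT'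
    have h5 := hchar.fixed (T.normalizerMonoidHom ⟨g, hgN⟩)
    have h6 : (⟨j, hjT⟩ : T) ∈ (Subgroup.zpowers j).subgroupOf T := Subgroup.mem_subgroupOf.mpr (Subgroup.mem_zpowers j)
    rw [← h5] at h6
    have h7 : (g : G) * j * (g : G)⁻¹ ∈ Subgroup.zpowers j := Subgroup.mem_subgroupOf.mp (Subgroup.mem_comap.mp h6)
    have h8 : (g : G) * j * (g : G)⁻¹ = j := by
      obtain ⟨i, hi⟩ := Subgroup.mem_zpowers_iff.mp h7
      have hjj : j * j = 1 := by rw [← pow_two, ← hj, pow_orderOf_eq_one]
      rcases Int.even_or_odd' i with ⟨l, hl | hl⟩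
      · exfalso
        rw [hl, zpow_mul, show j ^ (2 : ℤ) = j * j from zpow_two j, hjj, one_zpow] at hi
        have h9 : j = 1 := by
          have := hi.symm
          rw [mul_inv_eq_one] at this
          exact mul_eq_left.mp this
        rw [h9, orderOf_one] at hj
        norm_num at hj
      · rw [hl, zpow_add, zpow_mul, show j ^ (2 : ℤ) = j * j from zpow_two j, hjj, one_zpow, one_mul, zpow_one] at hi
        exact hi.symm
    rw [Subgroup.mem_centralizer_singleton_iff]
    exact mul_inv_eq_iff_eq_mul.mp h8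
  apply hSyl
  have h5 : N.map H.subtype ≤ H ⊓ Subgroup.centralizer ({j} : Set G) := by
    rintro _ ⟨g, hg, rfl⟩
    exact Subgroup.mem_inf.mpr ⟨g.2, hNj g hg⟩
  have h6 : T ≤ N.map H.subtype := by
    intro t ht
    exact ⟨⟨t, hTH ht⟩, Subgroup.le_normalizer (Subgroup.mem_subgroupOf.mpr ht), rfl⟩
  have h7 : T.relIndex (N.map H.subtype) = (T.subgroupOf H).relIndex N := by
    have e : T = (T.subgroupOf H).map H.subtype := (Subgroup.map_subgroupOf_eq_of_le hTH).symm
    conv_lhs => rw [e]
    exact Subgroup.relIndex_map_map_of_injective _ _ H.subtype_injective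
  have h8 : 2 ∣ T.relIndex (N.map H.subtype) := by
    rw [h7]; exact h4
  exact h8.trans (Dvd.intro _ (Subgroup.relIndex_mul_relIndex T _ _ h6 h5))

end Cfsg.Agent.S3208
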