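import Cfsg.Statements.S3246
import Cfsg.Agent.L0.Misc.Con2
-- import your own Cfsg.Agent.* helpers here

set_option autoImplicit false
open Cfsg

namespace Cfsg.Agent.S3246

/-- Let G be a finite group whose Sylow 2-subgroup S has a self-centralizing normal subgroup of rank at least 3. Suppose that either every maximal 2-local subgroup of G is 2-constrained with no nontrivial normal subgroup of odd order, or the centralizer of every involution of G is 2-constrained with no nontrivial normal subgroup of odd order. Then S normalizes no nontrivial subgroup of G of odd order and every 2-local subgroup of G is 2-constrained. -/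
theorem result {G : Type*} [Group G] [Finite G]
    (S : Sylow 2 G) (A : Subgroup G) (hA : Cfsg.IsSCN (S : Subgroup G) A) (hA3 : ¬ Cfsg.PRankLE 2 2 ↥A)
    (h : (∀ M : Subgroup G, Cfsg.IsMaximalTwoLocal M → Cfsg.IsPConstrained 2 ↥M ∧ Cfsg.oddCore ↥M = ⊥) ∨
      (∀ t : G, orderOf t = 2 → Cfsg.IsPConstrained 2 ↥(Subgroup.centralizer ({t} : Set G)) ∧
        Cfsg.oddCore ↥(Subgroup.centralizer ({t} : Set G)) = ⊥)) :
    (∀ X : Subgroup G, Odd (Nat.card ↥X) → (S : Subgroup G) ≤ Subgroup.normalizer (X : Set G) → X = ⊥) ∧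
      (∀ T : Subgroup G, IsPGroup 2 ↥T → T ≠ ⊥ → Cfsg.IsPConstrained 2 ↥(Subgroup.normalizer (T : Set G))) := by
  classical
  haveI : Fact (Nat.Prime 2) := ⟨Nat.prime_two⟩
  have hN : ∀ T : Subgroup G, IsPGroup 2 T → T ≠ ⊥ → Cfsg.Agent.H6.CP 2 (Subgroup.normalizer (T : Set G)) := by
    intro T hT hT1
    rcases h with h | h
    · have hex : ∃ M : Subgroup G, Cfsg.IsMaximalTwoLocal M ∧ Subgroup.normalizer (T : Set G) ≤ M := by
        set Ω : Set (Subgroup G) := {M | Cfsg.IsTwoLocal M ∧ Subgroup.normalizer (T : Set G) ≤ M} with hΩ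
        have hne : Ω.Nonempty := ⟨_, ⟨T, hT, hT1, rfl⟩, le_rfl⟩
        obtain ⟨M, hM⟩ := (Set.toFinite Ω).exists_maximal hne
        refine ⟨M, ⟨hM.prop.1, ?_⟩, hM.prop.2⟩
        intro N hN hMN
        exact le_antisymm (hM.le_of_ge ⟨hN, hM.prop.2.trans hMN⟩ hMN) hMN
      obtain ⟨M, hM, hTM⟩ := hex
      obtain ⟨h1, h2⟩ := h M hM
      have hCP : Cfsg.Agent.H6.CP 2 M := by
        rw [Cfsg.Agent.H6.cp_iff_cent]
        exact (Cfsg.Agent.L0.Con2.con_iff h2).mp h1
      exact hCP.loc (Subgroup.le_normalizer.trans hTM) hT (Cfsg.Agent.H6.le_pCoreOf Subgroup.le_normalizer le_rfl hT)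
        (inf_le_left.trans hTM) (inf_le_right.trans (by
          intro x hx
          exact Subgroup.centralizer_le_normalizer _ hx))
    · obtain ⟨z, hz, hzo, hzc⟩ := Cfsg.Agent.H6.exists_center_order_p (p := 2) hT hT1
      obtain ⟨h1, h2⟩ := h z hzo
      have hCP : Cfsg.Agent.H6.CP 2 (Subgroup.centralizer ({z} : Set G)) := by
        rw [Cfsg.Agent.H6.cp_iff_cent]
        exact (Cfsg.Agent.L0.Con2.con_iff h2).mp h1
      exact Cfsg.Agent.H6.cp_norm_of_cent hT hz hzc hCP
  refine ⟨?_, ?_⟩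
  swap
  · intro T hT hT1
    have h1 := Cfsg.Agent.H6.cp_iff_cent.mp (hN T hT hT1)
    exact (Cfsg.Agent.L0.Con2.con_iff (Cfsg.Agent.L0.Con2.core_bot h1)).mpr h1
  intro X hX hSX
  obtain ⟨hA1, hA2, hA4⟩ := hA
  have hAc : ∀ a ∈ A, ∀ b ∈ A, a * b = b * a := by
    intro a ha b hb
    rw [← hA4] at hb
    exact Subgroup.mem_centralizer_iff.mp (Subgroup.mem_inf.mp hb).2 a ha
  -- E0
  obtain ⟨E0, hE0⟩ : ∃ E0 : Subgroup ↥(S : Subgroup G), ∀ x, x ∈ E0 ↔ (x : G) ∈ A ∧ (x : G) * x = 1 := by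
    refine ⟨{ carrier := {x | (x : G) ∈ A ∧ (x : G) * x = 1}, mul_mem' := ?_, one_mem' := ⟨A.one_mem, one_mul 1⟩, inv_mem' := ?_ }, fun x => Iff.rfl⟩
    · rintro x y ⟨hx1, hx2⟩ ⟨hy1, hy2⟩
      refine ⟨A.mul_mem hx1 hy1, ?_⟩
      change (x : G) * y * ((x : G) * y) = 1
      calc (x : G) * y * (x * y) = x * (y * x) * y := by group
        _ = (x * x) * (y * y) := by rw [hAc y hy1 x hx1]; group
        _ = 1 := by rw [hx2, hy2, one_mul]
    · rintro x ⟨hx1, hx2⟩
      refine ⟨A.inv_mem hx1, ?_⟩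
      change (x : G)⁻¹ * (x : G)⁻¹ = 1
      rw [← mul_inv_rev, hx2, inv_one]
  haveI hE0n : E0.Normal := by
    constructor
    intro x hx g
    rw [hE0] at hx ⊢
    refine ⟨(Subgroup.mem_set_normalizer_iff.mp (hA2 g.2) _).mp hx.1, ?_⟩
    change (g : G) * x * (g : G)⁻¹ * ((g : G) * x * (g : G)⁻¹) = 1
    calc (g : G) * x * (g : G)⁻¹ * ((g : G) * x * (g : G)⁻¹) = (g : G) * (x * x) * (g : G)⁻¹ := by group
      _ = 1 := by rw [hx.2]; group
  have hE0c : 4 < Nat.card E0 := by
    unfold Cfsg.PRankLE at hA3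
    push Not at hA3
    obtain ⟨B, hB1, hB2, hB3⟩ := hA3
    refine lt_of_lt_of_le (by simpa using hB3) ?_
    refine Nat.card_le_card_of_injective (fun b : B => (⟨⟨((b : A) : G), hA1 b.1.2⟩, (hE0 _).mpr ⟨b.1.2, by
      have := hB2 b.1 b.2
      rw [pow_two] at this
      exact congrArg Subtype.val this⟩⟩ : E0)) ?_
    intro b b' hbb
    apply Subtype.ext
    apply Subtype.ext
    exact congrArg (fun x : E0 => ((x : ↥(S : Subgroup G)) : G)) hbb
  obtain ⟨k, hk⟩ := IsPGroup.iff_card.mp (S.isPGroup'.to_subgroup E0)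
  have hk2 : 2 ≤ k := by
    by_contra hlt
    have : k = 0 ∨ k = 1 := by omega
    rw [hk] at hE0c
    rcases this with rfl | rfl <;> norm_num at hE0c
  obtain ⟨L, hLn, hLE, hLc⟩ := Cfsg.Agent.H1.exists_normal_le_card S.isPGroup' E0 hk hk2
  haveI := hLn
  have hLne : L ≠ ⊥ := by
    rintro rfl
    rw [Subgroup.card_bot] at hLc; norm_num at hLc
  haveI : Group.IsNilpotent ↥(S : Subgroup G) := S.isPGroup'.isNilpotent
  have hLz := Cfsg.Agent.H1.inf_center_ne_bot L hLne
  obtain ⟨z, hz, hz1⟩ : ∃ z ∈ L ⊓ Subgroup.center ↥(S : Subgroup G), z ≠ 1 := by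
    by_contra hcon
    push Not at hcon
    exact hLz ((Subgroup.eq_bot_iff_forall _).mpr hcon)
  obtain ⟨hzL, hzZ⟩ := Subgroup.mem_inf.mp hz
  rw [Subgroup.mem_center_iff] at hzZ
  have hLsq : ∀ x ∈ L, x * x = 1 := fun x hx => Subtype.ext ((hE0 x).mp (hLE hx)).2
  have hLcm : ∀ x ∈ L, ∀ y ∈ L, x * y = y * x := fun x hx y hy => Subtype.ext (hAc _ ((hE0 x).mp (hLE hx)).1 _ ((hE0 y).mp (hLE hy)).1)
  -- conjugation
  have hconj : ∀ u ∈ L, u ≠ 1 → ∀ b : ↥(S : Subgroup G), b * u * b⁻¹ = u ∨ b * u * b⁻¹ = u * z := by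
    intro u hu hu1 b
    by_cases huz : u = z
    · left
      rw [huz, hzZ b]; group
    · have hset : ({1, z, u, u * z} : Set ↥(S : Subgroup G)) ⊆ (L : Set ↥(S : Subgroup G)) := by
        rintro x (rfl | rfl | rfl | rfl)
        · exact L.one_mem
        · exact hzL
        · exact hu
        · exact L.mul_mem hu hzL
      have hzz := hLsq z hzL
      have hn4 : ({1, z, u, u * z} : Set ↥(S : Subgroup G)).ncard = 4 := by
        rw [Set.ncard_insert_of_notMem, Set.ncard_insert_of_notMem, Set.ncard_pair]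
        · intro h
          exact hz1 (left_eq_mul.mp h)
        · rintro (h | h)
          · exact huz h.symm
          · have h2 : z = u * z := h
            exact hu1 (right_eq_mul.mp h2)
        · rintro (h | h | h)
          · exact hz1 h.symm
          · exact hu1 h.symm
          · have h2 : 1 = u * z := h
            apply huz
            have h3 : u = z⁻¹ := eq_inv_of_mul_eq_one_left h2.symm
            rw [h3]
            exact inv_eq_of_mul_eq_one_left hzz
      have hLeq := Set.eq_of_subset_of_ncard_le hset (by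
        rw [hn4]
        have : (L : Set ↥(S : Subgroup G)).ncard = 4 := by
          have h5 : Nat.card L = 4 := by rw [hLc]; norm_num
          exact h5
        rw [this]) (Set.toFinite _)
      have hbL : b * u * b⁻¹ ∈ ({1, z, u, u * z} : Set ↥(S : Subgroup G)) := by
        rw [hLeq]; exact hLn.conj_mem u hu b
      rcases hbL with h | h | h | h
      · exfalso
        apply hu1
        have : u = b⁻¹ * (b * u * b⁻¹) * b := by group
        rw [this, h]; group
      · exfalso
        apply huz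
        have : u = b⁻¹ * (b * u * b⁻¹) * b := by group
        rw [this, h, hzZ b⁻¹]; group
      · left; exact h
      · right; exact h
  have hU : ∀ u ∈ L, u ≠ 1 → X ⊓ Subgroup.centralizer ({(u : G)} : Set G) = ⊥ := by
    intro u hu hu1
    have hou : orderOf (u : G) = 2 := by
      rw [Subgroup.orderOf_coe]
      exact orderOf_eq_prime (by rw [pow_two]; exact hLsq u hu) hu1
    refine Cfsg.Agent.L0.Con2.fix_bot S hN hX hSX hou ?_
    rw [Subgroup.relIndex_dvd_two_iff]
    by_cases hall : ∀ b : ↥(S : Subgroup G), b * u * b⁻¹ = u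
    · refine ⟨1, one_mem _, fun b hb => Or.inr ?_⟩
      rw [Subgroup.mem_centralizer_singleton_iff]
      have h3 := hall ⟨b, hb⟩
      have h4 := congrArg Subtype.val h3
      change b * (u : G) * b⁻¹ = u at h4
      calc b * (u : G) = (b * (u : G) * b⁻¹) * b := by group
        _ = u * b := by rw [h4]
    · push Not at hall
      obtain ⟨a, ha⟩ := hall
      have ha2 := (hconj u hu hu1 a).resolve_left ha
      refine ⟨a, a.2, fun b hb => ?_⟩
      rcases hconj u hu hu1 ⟨b, hb⟩ with h3 | h3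
      · right
        rw [Subgroup.mem_centralizer_singleton_iff]
        have h4 := congrArg Subtype.val h3
        change b * (u : G) * b⁻¹ = u at h4
        calc b * (u : G) = (b * (u : G) * b⁻¹) * b := by group
          _ = u * b := by rw [h4]
      · left
        rw [Subgroup.mem_centralizer_singleton_iff]
        have h5 : (⟨b, hb⟩ : ↥(S : Subgroup G)) * a * u * ((⟨b, hb⟩ : ↥(S : Subgroup G)) * a)⁻¹ = u := by
          calc (⟨b, hb⟩ : ↥(S : Subgroup G)) * a * u * ((⟨b, hb⟩ : ↥(S : Subgroup G)) * a)⁻¹ = ⟨b, hb⟩ * (a * u * a⁻¹) * ⟨b, hb⟩⁻¹ := by group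
            _ = ⟨b, hb⟩ * u * (z * ⟨b, hb⟩⁻¹) := by rw [ha2]; group
            _ = (⟨b, hb⟩ * u * ⟨b, hb⟩⁻¹) * z := by rw [← hzZ ⟨b, hb⟩⁻¹]; group
            _ = u * (z * z) := by rw [h3, mul_assoc]
            _ = u := by rw [hLsq z hzL, mul_one]
        have h6 := congrArg Subtype.val h5
        change b * (a : G) * (u : G) * (b * (a : G))⁻¹ = u at h6
        calc b * (a : G) * (u : G) = (b * (a : G) * (u : G) * (b * (a : G))⁻¹) * (b * a) := by group
          _ = u * (b * a) := by rw [h6]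
  -- conclusion
  obtain ⟨U, hUd⟩ : ∃ U : Subgroup G, U = L.map (S : Subgroup G).subtype := ⟨_, rfl⟩
  have hUm : ∀ y, y ∈ U → ∃ u ∈ L, (u : G) = y := by
    intro y hy
    rw [hUd] at hy
    obtain ⟨u, hu, rfl⟩ := hy
    exact ⟨u, hu, rfl⟩
  have hUcard : Nat.card U = 4 := by
    rw [hUd, Cfsg.Agent.L0.card_map_subtype, hLc]; norm_num
  haveI hUc : IsMulCommutative U := by
    constructor; constructor
    rintro ⟨a, ha⟩ ⟨b, hb⟩
    obtain ⟨x, hx, rfl⟩ := hUm a ha
    obtain ⟨y, hy, rfl⟩ := hUm b hb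
    apply Subtype.ext
    change (x : G) * (y : G) = (y : G) * (x : G)
    exact congrArg (fun w : ↥(S : Subgroup G) => (w : G)) (hLcm x hx y hy)
  have hUnc : ¬ IsCyclic U := by
    intro hcyc
    obtain ⟨g, hg⟩ := hcyc.exists_generator
    have h1 : Nat.card (Subgroup.zpowers g) = Nat.card U := by
      have : Subgroup.zpowers g = ⊤ := eq_top_iff.mpr fun x _ => hg x
      rw [this, Subgroup.card_top]
    rw [Nat.card_zpowers, hUcard] at h1
    obtain ⟨x, hx, hxg⟩ := hUm g g.2
    have h2 : g ^ 2 = 1 := by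
      apply Subtype.ext
      change (g : G) ^ 2 = 1
      rw [← hxg, pow_two]
      exact congrArg Subtype.val (hLsq x hx)
    have h3 := orderOf_dvd_of_pow_eq_one h2
    rw [h1] at h3
    norm_num at h3
  have hUX : U ≤ Subgroup.normalizer (X : Set G) := by
    rw [hUd]
    exact (Subgroup.map_subtype_le L).trans hSX
  have hcop : (Nat.card U).Coprime (Nat.card X) := by
    rw [hUcard]
    have : (2 ^ 2).Coprime (Nat.card X) := Nat.Coprime.pow_left 2 (Nat.coprime_two_left.mpr hX)
    simpa using this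
  have hfin := Cfsg.Agent.S0058.result U X hUnc hUX hcop
  rw [← hfin, eq_bot_iff]
  refine iSup₂_le ?_
  rintro a ⟨ha1, ha2⟩
  obtain ⟨x, hx, rfl⟩ := hUm a ha1
  rw [hU x hx (fun h => ha2 (by rw [h]; rfl))]

end Cfsg.Agent.S3246
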