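import Cfsg.Statements.S3276
import Mathlib
import Cfsg.Agent.H1.Misc1

set_option autoImplicit false
open Cfsg

namespace Cfsg.Agent.S3276

open scoped commutatorElement Pointwise


/-- Let x and y be commuting, non-conjugate involutions of a finite group G, and suppose that for every involution u commuting with x, each conjugate of y that commutes with u also commutes with y. Then the normal closure of y is a proper, normal, elementary abelian 2-subgroup of G; and if y is the only involution of that normal closure commuting with x, it has order at most 4. -/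
theorem result {G : Type*} [Group G] [Finite G] (x y : G) (hx : orderOf x = 2) (hy : orderOf y = 2)
    (hxy : Commute x y) (hnc : ¬ IsConj x y)
    (hstar : ∀ u : G, orderOf u = 2 → Commute u x → ∀ g : G, Commute (g * y * g⁻¹) u → Commute (g * y * g⁻¹) y) :
    Subgroup.normalClosure ({y} : Set G) ≠ ⊤ ∧ Cfsg.IsElementaryAbelian 2 (Subgroup.normalClosure ({y} : Set G)) ∧
      ((∀ u ∈ Subgroup.normalClosure ({y} : Set G), orderOf u = 2 → Commute u x → u = y) →
        Nat.card ↥(Subgroup.normalClosure ({y} : Set G)) ≤ 4) := by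
  have hxx : x * x = 1 := H1.inv_mul_self_of_two hx
  have hyy : y * y = 1 := H1.inv_mul_self_of_two hy
  have hy1 : y ≠ 1 := H1.ne_one_of_two hy
  have hx1 : x ≠ 1 := H1.ne_one_of_two hx
  have hsq : ∀ g : G, (g * y * g⁻¹) * (g * y * g⁻¹) = 1 := by
    intro g
    calc g * y * g⁻¹ * (g * y * g⁻¹) = g * (y * y) * g⁻¹ := by group
      _ = 1 := by rw [hyy]; group
  -- all conjugates of y commute with y
  have key : ∀ g : G, Commute (g * y * g⁻¹) y := by
    intro g
    have hnc' : ¬ IsConj x (g * y * g⁻¹) := fun h => hnc (h.trans (isConj_iff.mpr ⟨g⁻¹, by group⟩))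
    obtain ⟨u, hu, hux, huw⟩ := H1.exists_common_invol hxx (hsq g) hnc'
    exact hstar u hu hux g huw.symm
  have key2 : ∀ g h : G, Commute (g * y * g⁻¹) (h * y * h⁻¹) := by
    intro g h
    have h1 := key (h⁻¹ * g)
    have h2 : h * (h⁻¹ * g * y * (h⁻¹ * g)⁻¹) * h⁻¹ = g * y * g⁻¹ := by group
    rw [← h2]
    change h * (h⁻¹ * g * y * (h⁻¹ * g)⁻¹) * h⁻¹ * (h * y * h⁻¹) = h * y * h⁻¹ * (h * (h⁻¹ * g * y * (h⁻¹ * g)⁻¹) * h⁻¹)
    calc h * (h⁻¹ * g * y * (h⁻¹ * g)⁻¹) * h⁻¹ * (h * y * h⁻¹) = h * ((h⁻¹ * g * y * (h⁻¹ * g)⁻¹) * y) * h⁻¹ := by group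
      _ = h * (y * (h⁻¹ * g * y * (h⁻¹ * g)⁻¹)) * h⁻¹ := by rw [h1.eq]
      _ = _ := by group
  set N := Subgroup.normalClosure ({y} : Set G) with hN
  have hgen : ∀ t ∈ Group.conjugatesOfSet ({y} : Set G), ∃ g : G, g * y * g⁻¹ = t := by
    intro t ht
    obtain ⟨a, ha, hat⟩ := Group.mem_conjugatesOfSet_iff.mp ht
    rw [Set.mem_singleton_iff] at ha
    subst ha
    exact isConj_iff.mp hat
  have hNc : N ≤ Subgroup.centralizer (N : Set G) := by
    have h1 : ∀ g : G, N ≤ Subgroup.centralizer ({g * y * g⁻¹} : Set G) := by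
      intro g
      rw [hN, Subgroup.normalClosure, Subgroup.closure_le]
      intro t ht
      obtain ⟨h, rfl⟩ := hgen t ht
      exact Subgroup.mem_centralizer_singleton_iff.mpr (key2 h g)
    rw [hN, Subgroup.normalClosure, Subgroup.closure_le]
    intro t ht
    obtain ⟨h, rfl⟩ := hgen t ht
    rw [SetLike.mem_coe, Subgroup.mem_centralizer_iff]
    intro s hs
    exact Subgroup.mem_centralizer_singleton_iff.mp (h1 h hs)
  have hcomm : ∀ a ∈ N, ∀ b ∈ N, a * b = b * a := fun a ha b hb => (Subgroup.mem_centralizer_iff.mp (hNc ha) b hb).symm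
  have hNsq : ∀ a ∈ N, a * a = 1 := by
    intro a ha
    have : ∀ a (ha : a ∈ Subgroup.closure (Group.conjugatesOfSet ({y} : Set G))), a * a = 1 := by
      intro a ha
      induction ha using Subgroup.closure_induction with
      | mem t ht =>
        obtain ⟨h, rfl⟩ := hgen t ht
        exact hsq h
      | one => exact one_mul 1
      | mul a b ha hb iha ihb =>
        have h1 := hcomm b hb a ha
        calc a * b * (a * b) = a * (b * a) * b := by group
          _ = a * (a * b) * b := by rw [h1]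
          _ = (a * a) * (b * b) := by group
          _ = 1 := by rw [iha, ihb, one_mul]
      | inv a ha iha => rw [← mul_inv_rev, iha, inv_one]
    exact this a ha
  have hyN : y ∈ N := Subgroup.subset_normalClosure rfl
  refine ⟨?_, ⟨⟨⟨fun a b => Subtype.ext (hcomm a a.2 b b.2)⟩⟩, fun a ha => by rw [pow_two]; exact hNsq a ha⟩, ?_⟩
  · intro htop
    have hcen : ∀ g : G, g * y * g⁻¹ = y := by
      intro g
      rw [hcomm g (htop ▸ Subgroup.mem_top g) y hyN, mul_assoc, mul_inv_cancel, mul_one]
    have h1 : N ≤ Subgroup.zpowers y := by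
      rw [hN, Subgroup.normalClosure, Subgroup.closure_le]
      intro t ht
      obtain ⟨h, rfl⟩ := hgen t ht
      rw [hcen h]; exact Subgroup.mem_zpowers y
    have h2 : x ∈ Subgroup.zpowers y := h1 (htop ▸ Subgroup.mem_top x)
    obtain ⟨i, hi⟩ := Subgroup.mem_zpowers_iff.mp h2
    rcases Int.even_or_odd' i with ⟨l, hl | hl⟩
    · rw [hl, zpow_mul, zpow_two, hyy, one_zpow] at hi
      exact hx1 hi.symm
    · rw [hl, zpow_add, zpow_mul, zpow_two, hyy, one_zpow, one_mul, zpow_one] at hi
      rw [hi] at hnc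
      exact hnc (IsConj.refl _)
  · intro huniq
    have hNn : N.Normal := Subgroup.normalClosure_normal
    have hxN : ∀ n ∈ N, x * n * x⁻¹ ∈ N := fun n hn => hNn.conj_mem n hn x
    let f : N →* N := MonoidHom.mk' (fun n => ⟨(n : G) * (x * n * x⁻¹), N.mul_mem n.2 (hxN n n.2)⟩) (by
      intro a b
      apply Subtype.ext
      change (a : G) * b * (x * (a * b) * x⁻¹) = a * (x * a * x⁻¹) * (b * (x * b * x⁻¹))
      have h1 := hcomm b b.2 (x * (a : G) * x⁻¹) (hxN a a.2)
      calc (a : G) * b * (x * (a * b) * x⁻¹) = a * (b * (x * a * x⁻¹)) * (x * b * x⁻¹) := by group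
        _ = a * ((x * a * x⁻¹) * b) * (x * b * x⁻¹) := by rw [h1]
        _ = _ := by group)
    let C : Subgroup N := (Subgroup.centralizer ({x} : Set G)).subgroupOf N
    have hC2 : Nat.card C ≤ 2 := by
      have h1 : C ≤ (Subgroup.zpowers y).subgroupOf N := by
        intro u hu
        rw [Subgroup.mem_subgroupOf] at hu ⊢
        by_cases hu1 : (u : G) = 1
        · rw [hu1]; exact one_mem _
        · have h2 := huniq u u.2 (H1.orderOf_eq_two_iff'.mpr ⟨hu1, hNsq u u.2⟩) (Subgroup.mem_centralizer_singleton_iff.mp hu)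
          rw [h2]; exact Subgroup.mem_zpowers y
      calc Nat.card C ≤ Nat.card ((Subgroup.zpowers y).subgroupOf N) := Subgroup.card_le_of_le h1
        _ = Nat.card (Subgroup.zpowers y) := Nat.card_congr (Subgroup.subgroupOfEquivOfLe (Subgroup.zpowers_le.mpr hyN)).toEquiv
        _ = 2 := by rw [Nat.card_zpowers, hy]
    have hker : f.ker ≤ C := by
      intro n hn
      have h1 : (n : G) * (x * n * x⁻¹) = 1 := congrArg Subtype.val (MonoidHom.mem_ker.mp hn)
      rw [Subgroup.mem_subgroupOf, Subgroup.mem_centralizer_singleton_iff]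
      have h2 : (n : G)⁻¹ = x * n * x⁻¹ := inv_eq_of_mul_eq_one_right h1
      have h3 : (n : G)⁻¹ = n := inv_eq_of_mul_eq_one_left (hNsq n n.2)
      rw [h3] at h2
      exact eq_mul_inv_iff_mul_eq.mp h2
    have hran : f.range ≤ C := by
      rintro _ ⟨n, rfl⟩
      rw [Subgroup.mem_subgroupOf, Subgroup.mem_centralizer_singleton_iff]
      change (n : G) * (x * n * x⁻¹) * x = x * (n * (x * n * x⁻¹))
      have h1 := hcomm n n.2 (x * (n : G) * x⁻¹) (hxN n n.2)
      have hxi : x⁻¹ = x := H1.inv_eq_of_two hx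
      calc (n : G) * (x * n * x⁻¹) * x = n * x * n := by group
        _ = (x * x) * (n * x * n) := by rw [hxx, one_mul]
        _ = x * ((x * n * x) * n) := by group
        _ = x * ((x * n * x⁻¹) * n) := by rw [hxi]
        _ = x * (n * (x * n * x⁻¹)) := by rw [h1]
    have h1 := f.ker.card_mul_index
    rw [Subgroup.index_ker] at h1
    calc Nat.card N = Nat.card f.ker * Nat.card f.range := h1.symm
      _ ≤ 2 * 2 := Nat.mul_le_mul ((Subgroup.card_le_of_le hker).trans hC2) ((Subgroup.card_le_of_le hran).trans hC2)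
      _ = 4 := rfl

end Cfsg.Agent.S3276
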