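import Cfsg.Statements.S3349


set_option autoImplicit false
open Cfsg

namespace Cfsg.Agent.S3349

/-- Let Q be a finite extraspecial p-group and α an automorphism of Q fixing every element of some maximal abelian subgroup of Q. Then the order of α is a power of p. -/
theorem result {Q : Type*} [Group Q] [Finite Q]
    (p : ℕ) [Fact p.Prime] (hQ : Cfsg.IsExtraspecial p Q) (α : MulAut Q)
    (A : Subgroup Q) (hA : IsMulCommutative A) (hmax : ∀ B : Subgroup Q, A ≤ B → IsMulCommutative B → B = A)
    (hfix : ∀ a ∈ A, α a = a) :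
    ∃ k : ℕ, orderOf α = p ^ k := by
  obtain ⟨⟨hp, _, hcom⟩, _⟩ := hQ
  have hAc : ∀ a ∈ A, ∀ b ∈ A, a * b = b * a := by
    intro a ha b hb
    have := hA.is_comm.comm ⟨a, ha⟩ ⟨b, hb⟩
    exact congrArg Subtype.val this
  -- an element centralizing A lies in A
  have hCA : ∀ c : Q, (∀ a ∈ A, c * a = a * c) → c ∈ A := by
    intro c hc
    have hcomm : IsMulCommutative ↥(Subgroup.closure (insert c (A : Set Q))) := by
      have h1 : ∀ x ∈ Subgroup.closure (insert c (A : Set Q)), x ∈ Subgroup.centralizer (insert c (A : Set Q)) := by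
        intro x hx
        have : Subgroup.closure (insert c (A : Set Q)) ≤ Subgroup.centralizer (insert c (A : Set Q)) := by
          rw [Subgroup.closure_le]
          intro y hy
          rw [SetLike.mem_coe, Subgroup.mem_centralizer_iff]
          intro z hz
          rcases hy with rfl | hy <;> rcases hz with rfl | hz
          · rfl
          · exact (hc z hz).symm
          · exact hc y hy
          · exact hAc z hz y hy
        exact this hx
      refine ⟨⟨fun x y => Subtype.ext ?_⟩⟩
      have h2 : Subgroup.closure (insert c (A : Set Q)) ≤ Subgroup.centralizer ({(x : Q)} : Set Q) := by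
        rw [Subgroup.closure_le]
        intro e he
        rw [SetLike.mem_coe, Subgroup.mem_centralizer_singleton_iff]
        exact Subgroup.mem_centralizer_iff.1 (h1 x x.2) e he
      exact (Subgroup.mem_centralizer_singleton_iff.1 (h2 y.2)).symm
    have h3 := hmax _ (fun a ha => Subgroup.subset_closure (Set.mem_insert_of_mem _ ha)) hcomm
    rw [← h3]; exact Subgroup.subset_closure (Set.mem_insert _ _)
  have hZA : Subgroup.center Q ≤ A := by
    intro z hz
    exact hCA z (fun a _ => (Subgroup.mem_center_iff.1 hz a).symm)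
  have hnorm : ∀ x : Q, ∀ a ∈ A, x * a * x⁻¹ ∈ A := by
    intro x a ha
    have h1 : x * a * x⁻¹ * a⁻¹ ∈ commutator Q := Subgroup.commutator_mem_commutator (Subgroup.mem_top x) (Subgroup.mem_top a)
    rw [hcom] at h1
    have : x * a * x⁻¹ = (x * a * x⁻¹ * a⁻¹) * a := by group
    rw [this]; exact A.mul_mem (hZA h1) ha
  have hx : ∀ x : Q, ∃ a ∈ A, α x = a * x := by
    intro x
    refine ⟨α x * x⁻¹, ?_, by group⟩
    apply hCA
    intro a ha
    -- x⁻¹ a x ∈ A is fixed
    have h1 : x⁻¹ * a * x ∈ A := by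
      have := hnorm x⁻¹ a ha
      rwa [inv_inv] at this
    have h2 := hfix _ h1
    rw [map_mul, map_mul, map_inv, hfix a ha] at h2
    -- (α x)⁻¹ a (α x) = x⁻¹ a x
    calc α x * x⁻¹ * a = α x * (x⁻¹ * a * x) * x⁻¹ := by group
      _ = α x * ((α x)⁻¹ * a * α x) * x⁻¹ := by rw [h2]
      _ = a * (α x * x⁻¹) := by group
  obtain ⟨n, hn⟩ := hp.exists_card_eq
  have hpow : α ^ (p ^ n) = 1 := by
    ext x
    obtain ⟨a, ha, hxa⟩ := hx x
    have h1 : ∀ k : ℕ, (α ^ k) x = a ^ k * x := by
      intro k
      induction k with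
      | zero => simp
      | succ k ih =>
        rw [pow_succ', MulAut.mul_apply, ih, map_mul, hxa, map_pow, hfix a ha, ← mul_assoc, ← pow_succ]
    rw [h1, ← hn, pow_card_eq_one', one_mul]; rfl
  have h4 := orderOf_dvd_of_pow_eq_one hpow
  obtain ⟨k, _, hk⟩ := (Nat.dvd_prime_pow Fact.out).1 h4
  exact ⟨k, hk⟩

end Cfsg.Agent.S3349
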