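import Cfsg.Statements.S3391
import Mathlib
import Cfsg.Agent.H8.SzT5
open Cfsg.Agent.H8.Suz

set_option autoImplicit false
open Cfsg

namespace Cfsg.Agent.S3391

theorem sq_fix {G Ω : Type*} [Group G] [MulAction G Ω] [Finite Ω] {P : Set Ω} (hP : P.ncard ≤ 2) {b : G} (hb : ∀ p ∈ P, b • p ∈ P) {α : Ω} (hα : α ∈ P) : (b * b) • α = α := by
  classical
  by_contra hne
  have h1 : b • α ≠ α := by
    intro h
    apply hne
    rw [mul_smul, h, h]
  have h2 : (b * b) • α ≠ b • α := by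
    intro h
    rw [mul_smul] at h
    exact h1 (smul_left_cancel b h)
  have h3 : ({α, b • α, (b * b) • α} : Set Ω) ⊆ P := by
    rintro p (rfl | rfl | rfl)
    · exact hα
    · exact hb _ hα
    · rw [mul_smul]; exact hb _ (hb _ hα)
  have h4 := Set.ncard_le_ncard h3 (Set.toFinite _)
  have h5 : ({α, b • α, (b * b) • α} : Set Ω).ncard = 3 := by
    rw [Set.ncard_eq_toFinset_card']
    simp only [Set.toFinset_insert, Set.toFinset_singleton]
    rw [Finset.card_insert_of_notMem, Finset.card_pair (Ne.symm h2)]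
    simp only [Finset.mem_insert, Finset.mem_singleton, not_or]
    exact ⟨Ne.symm h1, Ne.symm hne⟩
  omega

section
variable {F : Type*} [Field F] [Fintype F] (m : ℕ) [H : Hyp F m] {Ω : Type*} [Finite Ω] [MulAction ↥(Cfsg.Sz F m) Ω]

theorem invol_case (hfix : ∀ g : ↥(Cfsg.Sz F m), g ≠ 1 → Nat.card (MulAction.fixedBy Ω g) ≤ 2) (α : Ω) (htop : MulAction.stabilizer ↥(Cfsg.Sz F m) α ≠ ⊤)
    {t : ↥(Cfsg.Sz F m)} (ht : t • α = α) (t2 : t * t = 1) (t1 : t ≠ 1) : ∃ x, MulAction.stabilizer ↥(Cfsg.Sz F m) α = cj x (B F m) := by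
  obtain ⟨x, b, hx⟩ := invol_unip m t2 t1
  have ht' : t = x * U m 0 b * x⁻¹ := by rw [← hx]; group
  have hcomm : ∀ g ∈ Q F m, ∀ c : F, g * U m 0 c = U m 0 c * g := by
    rintro _ ⟨p, q, rfl⟩ c
    rw [U_mul, U_mul, mul_zero, add_zero, zero_add, th_zero, zero_mul, add_zero, add_zero, add_comm]
  have hZ : ∀ c : F, (x * U m 0 c * x⁻¹) • α = α := by
    intro c
    by_cases hc : c = 0
    · rw [hc, U_zero, mul_one, mul_inv_cancel, one_smul]
    · obtain ⟨k, hk⟩ := exists_kth m (Units.mk0 c hc)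
      rw [Units.val_mk0] at hk
      have h1 : x * U m 0 c * x⁻¹ = (x * U m (k : F) 0 * x⁻¹) * (x * U m (k : F) 0 * x⁻¹) := by
        calc x * U m 0 c * x⁻¹ = x * (U m (k : F) 0 * U m (k : F) 0) * x⁻¹ := by rw [U_sq, mul_comm (th m (k : F)), hk]
          _ = _ := by group
      rw [h1]
      apply sq_fix (P := MulAction.fixedBy Ω t) (hfix t t1) _ ht
      intro p hp
      have hp : t • p = p := hp
      show t • ((x * U m (k : F) 0 * x⁻¹) • p) = (x * U m (k : F) 0 * x⁻¹) • p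
      have h2 : t * (x * U m (k : F) 0 * x⁻¹) = (x * U m (k : F) 0 * x⁻¹) * t := by
        rw [ht']
        calc x * U m 0 b * x⁻¹ * (x * U m (k : F) 0 * x⁻¹) = x * (U m 0 b * U m (k : F) 0) * x⁻¹ := by group
          _ = x * (U m (k : F) 0 * U m 0 b) * x⁻¹ := by rw [hcomm _ (U_mem_Q m _ _)]
          _ = _ := by group
      rw [← mul_smul, h2, mul_smul, hp]
  have hsq : ∀ d ∈ B F m, ((x * d * x⁻¹) * (x * d * x⁻¹)) • α = α := by
    intro d hd
    have hd' := (B F m).inv_mem hd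
    obtain ⟨p', q', k, hpq⟩ := fix_oi m hd'
    apply sq_fix (P := {p : Ω | ∀ c : F, (x * U m 0 c * x⁻¹) • p = p})
    · refine le_trans (Set.ncard_le_ncard (t := MulAction.fixedBy Ω t) ?_ (Set.toFinite _)) (hfix t t1)
      intro p hp
      show t • p = p
      rw [ht']; exact hp b
    · intro p hp c
      have h3 : d⁻¹ * U m 0 c * d = U m 0 ((k : F) * th m (k : F) * c) := by
        have := conj_U0 m p' q' k c
        rw [← hpq] at this
        rw [← this, inv_inv]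
      rw [← mul_smul]
      have h4 : x * U m 0 c * x⁻¹ * (x * d * x⁻¹) = (x * d * x⁻¹) * (x * (d⁻¹ * U m 0 c * d) * x⁻¹) := by group
      rw [h4, h3, mul_smul, hp]
    · exact hZ
  refine ⟨x, ?_⟩
  obtain ⟨S, hS⟩ : ∃ S, S = cj x⁻¹ (MulAction.stabilizer ↥(Cfsg.Sz F m) α) := ⟨_, rfl⟩
  have hmem : ∀ y, y ∈ S ↔ (x * y * x⁻¹) • α = α := by
    intro y
    rw [hS, mem_cj, inv_inv, MulAction.mem_stabilizer_iff]
  have hsq' : ∀ d ∈ B F m, d * d ∈ S := by
    intro d hd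
    rw [hmem]
    have := hsq d hd
    have e : (x * d * x⁻¹) * (x * d * x⁻¹) = x * (d * d) * x⁻¹ := by group
    rwa [e] at this
  have hT : ∀ k : Fˣ, T m k ∈ S := by
    intro k
    obtain ⟨l, hl⟩ := unit_sq m k
    rw [hl, sq, map_mul]
    exact hsq' _ (T_mem_B m l)
  have hQ : Q F m ≤ S := by
    apply Q_le_of m
    intro a
    obtain ⟨k, hk⟩ := exists_unit_ne (F := F) m
    have hk1 : (1 : F) + k ≠ 0 := by
      intro h
      apply hk
      exact (eq_of_add_zero m h).symm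
    obtain ⟨l, hl⟩ := unit_sq m k
    obtain ⟨c, hc⟩ : ∃ c, c = a * (1 + (k : F))⁻¹ := ⟨_, rfl⟩
    have h1 : U m c 0 * T m k * (U m c 0)⁻¹ ∈ S := by
      have h2 := hsq' (U m c 0 * T m l * (U m c 0)⁻¹) ((B F m).mul_mem ((B F m).mul_mem (Q_le_B m (U_mem_Q m c 0)) (T_mem_B m l)) ((B F m).inv_mem (Q_le_B m (U_mem_Q m c 0))))
      have e : U m c 0 * T m l * (U m c 0)⁻¹ * (U m c 0 * T m l * (U m c 0)⁻¹) = U m c 0 * (T m l * T m l) * (U m c 0)⁻¹ := by group
      rw [e, ← map_mul, ← sq, ← hl] at h2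
      exact h2
    have h3 : U m c 0 * T m k * (U m c 0)⁻¹ * (T m k)⁻¹ ∈ S := S.mul_mem h1 (S.inv_mem (hT k))
    have e : U m c 0 * T m k * (U m c 0)⁻¹ * (T m k)⁻¹ = U m c 0 * (T m k * (U m c 0)⁻¹ * (T m k)⁻¹) := by group
    rw [e, U_inv, T_conj_U, U_mul] at h3
    have e2 : c + (k : F) * c = a := by rw [hc]; field_simp
    rw [e2] at h3
    exact ⟨_, h3⟩
  have hB : B F m ≤ S := by
    intro y hy
    obtain ⟨p, q, k, rfl⟩ := fix_oi m hy
    exact S.mul_mem (hQ (U_mem_Q m p q)) (hT k)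
  have hSB : S = B F m := by
    rcases lt_or_eq_of_le hB with h | h
    · exfalso
      have h1 := (B_coatom (F := F) m).2 S h
      apply htop
      rw [eq_top_iff]
      intro y _
      have : x⁻¹ * y * x ∈ S := by rw [h1]; trivial
      rw [hmem] at this
      have e : x * (x⁻¹ * y * x) * x⁻¹ = y := by group
      rw [e] at this
      exact this
    · exact h.symm
  rw [← hSB, hS, cj_cj, mul_inv_cancel, cj_one]

theorem odd_case (hfix : ∀ g : ↥(Cfsg.Sz F m), g ≠ 1 → Nat.card (MulAction.fixedBy Ω g) ≤ 2) (α : Ω)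
    (hno : ∀ t : ↥(Cfsg.Sz F m), t • α = α → t * t = 1 → t = 1) {g : ↥(Cfsg.Sz F m)} (hg : g • α = α) (g1 : g ≠ 1) (hg2 : Nat.card (MulAction.fixedBy Ω g) = 2) :
    Nat.card (MulAction.stabilizer ↥(Cfsg.Sz F m) α) = 2 ^ (2 * m + 1) - 1 := by
  obtain ⟨S, hS⟩ : ∃ S, S = MulAction.stabilizer ↥(Cfsg.Sz F m) α := ⟨_, rfl⟩
  have hmem : ∀ y, y ∈ S ↔ y • α = α := by intro y; rw [hS, MulAction.mem_stabilizer_iff]
  rw [← hS]
  have hnouni : ∀ y ∈ S, y ≠ 1 → ¬ ∃ x, x⁻¹ * y * x ∈ Q F m := by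
    rintro y hy hy1 ⟨x, hx⟩
    have h4 := unip_pow4 m hx
    have hy2 : y * y ∈ S := S.mul_mem hy hy
    have h5 : (y * y) * (y * y) = 1 := by rw [← h4]; simp only [pow_succ, pow_zero, one_mul, mul_assoc]
    have h6 := hno _ ((hmem _).1 hy2) h5
    exact hy1 (hno _ ((hmem _).1 hy) h6)
  have hX : Comp2 m (Subgroup.centralizer {g}) := by
    rcases trich m g with h | ⟨x, k, hk, hx⟩ | h
    · exact absurd h (hnouni g ((hmem g).2 hg) g1)
    · rw [hx, cent_conj_T m hk]; exact Or.inl ⟨x, rfl⟩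
    · exact Or.inr ⟨_, h, rfl⟩
  obtain ⟨X, hXd⟩ : ∃ X, X = Subgroup.centralizer {g} := ⟨_, rfl⟩
  rw [← hXd] at hX
  have hgX : g ∈ X := by rw [hXd]; exact mem_cent_self g
  -- `X ≤ S`
  have hXS : X ≤ S := by
    intro v hv
    obtain ⟨u, hu, rfl⟩ := odd_root m hX hv
    rw [hmem]
    apply sq_fix (P := MulAction.fixedBy Ω g) (hfix g g1) _ hg
    intro p hp
    have hp : g • p = p := hp
    show g • (u • p) = u • p
    rw [← mul_smul, comp2_comm m hX hgX hu, mul_smul, hp]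
  -- `X` fixes all the fixed points of `g`
  have hXfix : ∀ p : Ω, g • p = p → ∀ u ∈ X, u • p = p := by
    intro p hp v hv
    obtain ⟨u, hu, rfl⟩ := odd_root m hX hv
    apply sq_fix (P := MulAction.fixedBy Ω g) (hfix g g1) _ hp
    intro p hp
    have hp : g • p = p := hp
    show g • (u • p) = u • p
    rw [← mul_smul, comp2_comm m hX hgX hu, mul_smul, hp]
  have hN : ∀ n ∈ NN m X, n * n ∈ S := by
    intro n hn
    rw [hmem]
    apply sq_fix (P := MulAction.fixedBy Ω g) (hfix g g1) _ hg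
    intro p hp
    have hp : g • p = p := hp
    show g • (n • p) = n • p
    have h1 : n⁻¹ * g * n ∈ X := by
      have := (Subgroup.mem_normalizer_iff.1 (Subgroup.inv_mem _ hn) g).1 hgX
      rwa [inv_inv] at this
    have h2 : g * n = n * (n⁻¹ * g * n) := by group
    rw [← mul_smul, h2, mul_smul, hXfix p hp _ h1]
  -- the type of the torus
  have hcX : Nat.card X = 2 ^ (2 * m + 1) - 1 := by
    rcases hX with ⟨x, hx⟩ | hX'
    · rw [hx, card_cj, card_TT]
    · exfalso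
      obtain ⟨w, hw, hw2, hw4⟩ := exists_four m (Or.inr hX') (tor_four m hX').1
      exact hw2 (hno _ ((hmem _).1 (hN w hw)) hw4)
  have hSX : S ≤ X := by
    have key : ∀ s ∈ S, s * s ∈ X → s ∈ X := by
      intro s hs hss
      by_cases h1 : s * s = 1
      · rw [hno s ((hmem s).1 hs) h1]; exact X.one_mem
      · rw [comp2_cent m hX hss h1, Subgroup.mem_centralizer_singleton_iff, mul_assoc]
    rcases subgroups m S with ⟨x, hx⟩ | ⟨Y, hY, hle⟩ | ⟨x, K, hK, hx⟩
    · intro s hs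
      rw [hXd, Subgroup.mem_centralizer_singleton_iff]
      have h1 := mem_cj.1 (hx hs)
      have h2 := mem_cj.1 (hx (hXS hgX))
      have h3 := B_comm m h1 h2
      have e : x⁻¹ * s * x * (x⁻¹ * g * x) * (x⁻¹ * s * x)⁻¹ * (x⁻¹ * g * x)⁻¹ = x⁻¹ * (s * g * s⁻¹ * g⁻¹) * x := by group
      rw [e] at h3
      by_cases h4 : s * g * s⁻¹ * g⁻¹ = 1
      · calc s * g = (s * g * s⁻¹ * g⁻¹) * g * s := by group
          _ = g * s := by rw [h4, one_mul]
      · exfalso
        have hgS := hXS hgX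
        exact hnouni _ (S.mul_mem (S.mul_mem (S.mul_mem hs hgS) (S.inv_mem hs)) (S.inv_mem hgS)) h4 ⟨x, h3⟩
    · have h1 : X = Y := norm_odd m hX hY hgX g1 (hle (hXS hgX))
      rw [← h1] at hle
      intro s hs
      have h2 := pow4_mem m hX (hle hs)
      apply key s hs
      apply key _ (S.mul_mem hs hs)
      have : s * s * (s * s) = s ^ 4 := by simp only [pow_succ, pow_zero, one_mul, mul_assoc]
      rw [this]; exact h2
    · exfalso
      have h1 : x * U m 0 1 * x⁻¹ ∈ S := by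
        rw [hx, mem_cj]
        have : x⁻¹ * (x * U m 0 1 * x⁻¹) * x = U m 0 1 := by group
        rw [this]
        exact U_mem_GK m K K.zero_mem K.one_mem
      have h2 := conj_invol (y := x) (U0_sq' m 1) (U01_ne (F := F) m)
      exact h2.2 (hno _ ((hmem _).1 h1) h2.1)
  rw [← hcX, le_antisymm hSX hXS]

theorem main (htr : MulAction.IsPretransitive ↥(Cfsg.Sz F m) Ω)
    (hfix : ∀ g : ↥(Cfsg.Sz F m), g ≠ 1 → Nat.card (MulAction.fixedBy Ω g) ≤ 2) (hex : ∃ g : ↥(Cfsg.Sz F m), g ≠ 1 ∧ Nat.card (MulAction.fixedBy Ω g) = 2) :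
    (Nat.card Ω = (2 ^ (2 * m + 1)) ^ 2 + 1 ∧ MulAction.IsMultiplyPretransitive ↥(Cfsg.Sz F m) Ω 2) ∨
    (Nat.card Ω = (2 ^ (2 * m + 1)) ^ 2 * ((2 ^ (2 * m + 1)) ^ 2 + 1) ∧ ∀ α : Ω, Nat.card (MulAction.stabilizer ↥(Cfsg.Sz F m) α) = 2 ^ (2 * m + 1) - 1) := by
  obtain ⟨g, g1, hg2⟩ := hex
  obtain ⟨q1, q2, q3, q4⟩ := q_facts (F := F) m
  obtain ⟨α, hα⟩ : ∃ α : Ω, g • α = α := by
    have h1 : 0 < Nat.card (MulAction.fixedBy Ω g) := by rw [hg2]; norm_num
    obtain ⟨⟨α, hα⟩⟩ := (Nat.card_pos_iff.1 h1).1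
    exact ⟨α, hα⟩
  have hindex : Nat.card Ω * Nat.card (MulAction.stabilizer ↥(Cfsg.Sz F m) α) = Nat.card ↥(Cfsg.Sz F m) := by
    rw [← MulAction.index_stabilizer_of_transitive ↥(Cfsg.Sz F m) α, mul_comm]
    exact Subgroup.card_mul_index _
  by_cases hno : ∀ t : ↥(Cfsg.Sz F m), t • α = α → t * t = 1 → t = 1
  · right
    have h1 := odd_case m hfix α hno hα g1 hg2
    refine ⟨?_, ?_⟩
    · rw [h1, card_G] at hindex
      exact Nat.eq_of_mul_eq_mul_right (by omega) hindex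
    · intro β
      have hb : Nat.card Ω * Nat.card (MulAction.stabilizer ↥(Cfsg.Sz F m) β) = Nat.card ↥(Cfsg.Sz F m) := by
        rw [← MulAction.index_stabilizer_of_transitive ↥(Cfsg.Sz F m) β, mul_comm]
        exact Subgroup.card_mul_index _
      rw [← h1]
      haveI : Nonempty Ω := ⟨α⟩
      exact Nat.eq_of_mul_eq_mul_left (Nat.card_pos (α := Ω)) (hb.trans hindex.symm)
  · left
    push Not at hno
    obtain ⟨t, ht, t2, t1⟩ := hno
    have htop : MulAction.stabilizer ↥(Cfsg.Sz F m) α ≠ ⊤ := by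
      intro h
      rw [h, Subgroup.card_top] at hindex
      have h1 : Nat.card Ω = 1 := by
        have : Nat.card Ω * Nat.card ↥(Cfsg.Sz F m) = 1 * Nat.card ↥(Cfsg.Sz F m) := by rw [hindex, one_mul]
        exact Nat.eq_of_mul_eq_mul_right Nat.card_pos this
      have h2 : Nat.card (MulAction.fixedBy Ω g) ≤ Nat.card Ω := Nat.card_le_card_of_injective _ Subtype.val_injective
      omega
    obtain ⟨x, hx⟩ := invol_case m hfix α htop ht t2 t1
    refine ⟨?_, ?_⟩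
    · rw [hx, card_cj, card_B, card_G] at hindex
      have h3 : 0 < (2 ^ (2 * m + 1)) ^ 2 * (2 ^ (2 * m + 1) - 1) := Nat.mul_pos (by positivity) (by omega)
      apply Nat.eq_of_mul_eq_mul_right h3
      rw [hindex]; ring
    · rw [MulAction.is_two_pretransitive_iff]
      have h2 : ∀ {a b c d : Om F m}, a ≠ b → c ≠ d → ∃ g : ↥(Cfsg.Sz F m), g • a = c ∧ g • b = d := (MulAction.is_two_pretransitive_iff).1 (two_trans (F := F) m)
      have hst : ∀ y z : ↥(Cfsg.Sz F m), y • α = z • α ↔ y • (x • oi F m) = z • (x • oi F m) := by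
        intro y z
        have e1 : y • α = z • α ↔ z⁻¹ * y ∈ MulAction.stabilizer ↥(Cfsg.Sz F m) α := by
          rw [MulAction.mem_stabilizer_iff, mul_smul, inv_smul_eq_iff]
        have e2 : y • (x • oi F m) = z • (x • oi F m) ↔ z⁻¹ * y ∈ cj x (B F m) := by
          rw [mem_cj, mem_B, mul_smul, mul_smul, mul_smul, inv_smul_eq_iff, inv_smul_eq_iff]
        rw [e1, e2, hx]
      intro a b c d hab hcd
      obtain ⟨g₁, rfl⟩ := MulAction.exists_smul_eq ↥(Cfsg.Sz F m) α a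
      obtain ⟨g₂, rfl⟩ := MulAction.exists_smul_eq ↥(Cfsg.Sz F m) α b
      obtain ⟨g₃, rfl⟩ := MulAction.exists_smul_eq ↥(Cfsg.Sz F m) α c
      obtain ⟨g₄, rfl⟩ := MulAction.exists_smul_eq ↥(Cfsg.Sz F m) α d
      obtain ⟨y, hy1, hy2⟩ := h2 (fun h => hab ((hst g₁ g₂).2 h)) (fun h => hcd ((hst g₃ g₄).2 h))
      refine ⟨y, ?_, ?_⟩
      · rw [← mul_smul, hst, mul_smul, hy1]
      · rw [← mul_smul, hst, mul_smul, hy2]
end

/-- Let q = 2^{2m+1} ≥ 8 and let G be isomorphic to the Suzuki group Sz(q). If G acts faithfully and transitively on a finite set Ω with fixity 2 (every non-identity element fixes at most two points, and some fixes exactly two), then either |Ω| = q² + 1 and the action is 2-transitive, or |Ω| = q²(q² + 1) and the point stabilizers have order q − 1. -/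
theorem result {G : Type*} [Group G] [Finite G] (F : Type) [Field F] [Fintype F] (m : ℕ) (hm : 1 ≤ m) (hF : Fintype.card F = 2 ^ (2 * m + 1))
    (e : G ≃* ↥(Cfsg.Lie.Sz F (2 ^ (m + 1)))) {Ω : Type*} [Fintype Ω] [MulAction G Ω] [FaithfulSMul G Ω] (htr : MulAction.IsPretransitive G Ω)
    (hfix : ∀ g : G, g ≠ 1 → Nat.card (MulAction.fixedBy Ω g) ≤ 2) (hex : ∃ g : G, g ≠ 1 ∧ Nat.card (MulAction.fixedBy Ω g) = 2) :
    (Fintype.card Ω = Fintype.card F ^ 2 + 1 ∧ MulAction.IsMultiplyPretransitive G Ω 2) ∨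
    (Fintype.card Ω = Fintype.card F ^ 2 * (Fintype.card F ^ 2 + 1) ∧ ∀ α : Ω, Nat.card (MulAction.stabilizer G α) = Fintype.card F - 1) := by
  haveI : Cfsg.Agent.H8.Suz.Hyp F m := ⟨hm, hF⟩
  let f : ↥(Cfsg.Sz F m) ≃* G := (eLie (F := F) m).trans e.symm
  letI : MulAction ↥(Cfsg.Sz F m) Ω := MulAction.compHom Ω f.toMonoidHom
  have hsm : ∀ (g : ↥(Cfsg.Sz F m)) (p : Ω), g • p = f g • p := fun _ _ => rfl
  have hfb : ∀ g : ↥(Cfsg.Sz F m), Nat.card (MulAction.fixedBy Ω g) = Nat.card (MulAction.fixedBy Ω (f g)) := fun g => rfl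
  have h := main (F := F) m (Ω := Ω) ?_ ?_ ?_
  · rw [hF, ← Nat.card_eq_fintype_card]
    rcases h with ⟨h1, h2⟩ | ⟨h1, h2⟩
    · left
      refine ⟨h1, ?_⟩
      rw [MulAction.is_two_pretransitive_iff] at h2 ⊢
      intro a b c d hab hcd
      obtain ⟨g, hg⟩ := h2 hab hcd
      exact ⟨f g, hg⟩
    · right
      refine ⟨h1, ?_⟩
      intro α
      rw [← h2 α]
      symm
      refine Nat.card_congr ⟨fun g => ⟨f g.1, g.2⟩, fun g => ⟨f.symm g.1, ?_⟩, fun g => ?_, fun g => ?_⟩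
      · rw [MulAction.mem_stabilizer_iff, hsm, MulEquiv.apply_symm_apply]
        exact g.2
      · apply Subtype.ext; exact f.symm_apply_apply _
      · apply Subtype.ext; exact f.apply_symm_apply _
  · constructor
    intro a b
    obtain ⟨g, hg⟩ := htr.exists_smul_eq a b
    refine ⟨f.symm g, ?_⟩
    rw [hsm, MulEquiv.apply_symm_apply, hg]
  · intro g hg
    rw [hfb]
    apply hfix
    rw [Ne, EmbeddingLike.map_eq_one_iff]
    exact hg
  · obtain ⟨g, hg1, hg2⟩ := hex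
    refine ⟨f.symm g, ?_, ?_⟩
    · rw [Ne, EmbeddingLike.map_eq_one_iff]; exact hg1
    · rw [hfb, MulEquiv.apply_symm_apply]; exact hg2

end Cfsg.Agent.S3391
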