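import Cfsg.Statements.S3495
import Mathlib

set_option autoImplicit false
open Cfsg

namespace Cfsg.Agent.S3495

open MulAction

/-- Let a finite group G act faithfully and primitively on a finite set Ω with non-trivial point stabilizers, each acting primitively on every one of its orbits (an extremely primitive group), and suppose G has an elementary abelian normal p-subgroup N acting regularly on Ω (affine type). Then every non-trivial subgroup M of a point stabilizer G_α that is normal in G_α has the same orbits on Ω as G_α, and normalizes no subgroup of N other than 1 and N. -/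
theorem result {G : Type*} [Group G] [Finite G] {Ω : Type*} [Fintype Ω] [MulAction G Ω] [FaithfulSMul G Ω] (hprim : MulAction.IsPreprimitive G Ω) (hH : ∀ α : Ω, MulAction.stabilizer G α ≠ ⊥) (hep : ∀ (α : Ω) (ω : Ω), MulAction.IsPreprimitive (MulAction.stabilizer G α) (MulAction.orbit (MulAction.stabilizer G α) ω))
    (N : Subgroup G) [N.Normal] (hNc : IsMulCommutative N) (p : ℕ) (hp : p.Prime) (hNp : ∀ n ∈ N, n ^ p = 1)
    (hNtr : MulAction.IsPretransitive N Ω) (hNreg : ∀ ω : Ω, MulAction.stabilizer N ω = ⊥) (α : Ω) (M : Subgroup G) (hM : M ≠ ⊥) (hMle : M ≤ MulAction.stabilizer G α)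
    (hMn : MulAction.stabilizer G α ≤ Subgroup.normalizer (M : Set G)) :
    (∀ ω : Ω, MulAction.orbit M ω = MulAction.orbit (MulAction.stabilizer G α) ω) ∧
    (∀ L : Subgroup G, L ≤ N → M ≤ Subgroup.normalizer (L : Set G) → L = ⊥ ∨ L = N) := by
  classical
  have hst : ∀ (n n' : G), n ∈ N → n' ∈ N → ∀ ω : Ω, n • ω = n' • ω → n = n' := by
    intro n n' hn hn' ω h
    have h1 : (⟨n'⁻¹ * n, N.mul_mem (N.inv_mem hn') hn⟩ : N) ∈ stabilizer N ω := by
      rw [mem_stabilizer_iff]
      show (n'⁻¹ * n) • ω = ω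
      rw [mul_smul, h, inv_smul_smul]
    rw [hNreg ω, Subgroup.mem_bot] at h1
    have h2 := congrArg Subtype.val h1
    have h3 : n'⁻¹ * n = 1 := h2
    exact (inv_mul_eq_one.mp h3).symm
  have hNa : ∀ a b : G, a ∈ N → b ∈ N → a * b = b * a := by
    intro a b ha hb
    have := hNc.is_comm.comm (⟨a, ha⟩ : N) ⟨b, hb⟩
    exact congrArg Subtype.val this
  -- normality criterion
  have hnormal : ∀ L : Subgroup G, L ≤ N → (∀ g ∈ stabilizer G α, ∀ l ∈ L, g * l * g⁻¹ ∈ L) → L.Normal := by
    intro L hL hg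
    constructor
    intro l hl x
    obtain ⟨n, hn⟩ := hNtr.exists_smul_eq α (x • α)
    have hn' : (n : G) • α = x • α := hn
    have h1 : (n : G)⁻¹ * x ∈ stabilizer G α := by
      rw [mem_stabilizer_iff, mul_smul, ← hn', inv_smul_smul]
    have h2 := hg _ h1 l hl
    have h3 : x * l * x⁻¹ = (n : G) * ((n : G)⁻¹ * x * l * ((n : G)⁻¹ * x)⁻¹) * (n : G)⁻¹ := by group
    rw [h3, hNa _ _ n.2 (hL h2), mul_inv_cancel_right]
    exact h2
  have hdich : ∀ L : Subgroup G, L ≤ N → L.Normal → L = ⊥ ∨ L = N := by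
    intro L hL hLn
    by_cases hb : L = ⊥
    · left; exact hb
    right
    have hfix : fixedPoints L Ω ≠ Set.univ := by
      intro h
      apply hb
      rw [eq_bot_iff]
      intro l hl
      rw [Subgroup.mem_bot]
      apply FaithfulSMul.eq_of_smul_eq_smul (α := Ω)
      intro ω
      have : ω ∈ fixedPoints L Ω := by rw [h]; trivial
      rw [one_smul]
      exact this ⟨l, hl⟩
    have ht : IsPretransitive L Ω := IsQuasiPreprimitive.isPretransitive_of_normal hfix
    apply le_antisymm hL
    intro n hn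
    obtain ⟨l, hl⟩ := ht.exists_smul_eq α (n • α)
    have h1 : n = l := hst n l hn (hL l.2) α hl.symm
    rw [h1]; exact l.2
  -- M-fixed points
  have hMfix : ∀ ω : Ω, (∀ m ∈ M, m • ω = ω) → ω = α := by
    intro ω hω
    set C : Subgroup G := N ⊓ Subgroup.centralizer (M : Set G) with hC
    have hCn : C.Normal := by
      apply hnormal C inf_le_left
      intro g hg l hl
      refine Subgroup.mem_inf.mpr ⟨(‹N.Normal›).conj_mem _ hl.1 g, ?_⟩
      rw [Subgroup.mem_centralizer_iff]
      intro m hm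
      have h1 : g⁻¹ * m * g ∈ M := by
        have := (Subgroup.mem_normalizer_iff.mp ((Subgroup.normalizer (M : Set G)).inv_mem (hMn hg)) m).mp hm
        rwa [inv_inv] at this
      have h2 := (Subgroup.mem_centralizer_iff.mp hl.2) _ h1
      calc m * (g * l * g⁻¹) = g * ((g⁻¹ * m * g) * l) * g⁻¹ := by group
        _ = g * (l * (g⁻¹ * m * g)) * g⁻¹ := by rw [h2]
        _ = g * l * g⁻¹ * m := by group
    rcases hdich C inf_le_left hCn with h | h
    · obtain ⟨n, hn⟩ := hNtr.exists_smul_eq α ω
      have hn' : (n : G) • α = ω := hn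
      have h1 : (n : G) ∈ C := by
        refine Subgroup.mem_inf.mpr ⟨n.2, ?_⟩
        rw [Subgroup.mem_centralizer_iff]
        intro m hm
        have h2 : (m * n * m⁻¹) • α = (n : G) • α := by
          have h3 : m⁻¹ • α = α := by
            rw [inv_smul_eq_iff]; exact (mem_stabilizer_iff.mp (hMle hm)).symm
          rw [mul_smul, h3, mul_smul, hn', hω m hm]
        have h4 := hst _ _ ((‹N.Normal›).conj_mem _ n.2 m) n.2 α h2
        exact mul_inv_eq_iff_eq_mul.mp h4
      rw [h, Subgroup.mem_bot] at h1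
      rw [← hn', h1, one_smul]
    · exfalso
      apply hM
      rw [eq_bot_iff]
      intro m hm
      rw [Subgroup.mem_bot]
      apply FaithfulSMul.eq_of_smul_eq_smul (α := Ω)
      intro ω'
      obtain ⟨n, hn⟩ := hNtr.exists_smul_eq α ω'
      have hn' : (n : G) • α = ω' := hn
      have h1 : (n : G) ∈ C := by rw [h]; exact n.2
      have h2 := (Subgroup.mem_centralizer_iff.mp h1.2) m hm
      rw [← hn', one_smul, ← mul_smul, h2, mul_smul, mem_stabilizer_iff.mp (hMle hm)]
  have horb : ∀ ω : Ω, orbit M ω = orbit (stabilizer G α) ω := by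
    intro ω
    apply le_antisymm
    · rintro _ ⟨m, rfl⟩
      exact ⟨⟨m, hMle m.2⟩, rfl⟩
    by_cases hωα : ω = α
    · rintro _ ⟨g, rfl⟩
      subst hωα
      refine ⟨1, ?_⟩
      show (1 : M) • ω = (g : G) • ω
      rw [one_smul]; exact (mem_stabilizer_iff.mp g.2).symm
    have hp := hep α ω
    have hMN : (M.subgroupOf (stabilizer G α)).Normal := by
      constructor
      intro m hm g
      exact (Subgroup.mem_normalizer_iff.mp (hMn g.2) _).mp hm
    have hfix : fixedPoints (M.subgroupOf (stabilizer G α)) (orbit (stabilizer G α) ω) ≠ Set.univ := by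
      intro h
      apply hωα
      apply hMfix
      intro m hm
      have h1 : (⟨ω, mem_orbit_self ω⟩ : orbit (stabilizer G α) ω) ∈
        fixedPoints (M.subgroupOf (stabilizer G α)) (orbit (stabilizer G α) ω) := by rw [h]; trivial
      have h2 := h1 ⟨⟨m, hMle hm⟩, hm⟩
      exact congrArg Subtype.val h2
    have ht : IsPretransitive (M.subgroupOf (stabilizer G α)) (orbit (stabilizer G α) ω) :=
      IsQuasiPreprimitive.isPretransitive_of_normal hfix
    intro ω' hω'
    obtain ⟨m, hm⟩ := ht.exists_smul_eq ⟨ω, mem_orbit_self ω⟩ ⟨ω', hω'⟩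
    exact ⟨⟨((m : stabilizer G α) : G), m.2⟩, congrArg Subtype.val hm⟩
  refine ⟨horb, ?_⟩
  intro L hL hML
  apply hdich L hL
  apply hnormal L hL
  intro g hg l hl
  have h1 : g • (l • α) ∈ orbit M (l • α) := by
    rw [horb]; exact ⟨⟨g, hg⟩, rfl⟩
  obtain ⟨m, hm⟩ := h1
  have hm' : (m : G) • l • α = g • l • α := hm
  have h2 : (g * l * g⁻¹) • α = ((m : G) * l * (m : G)⁻¹) • α := by
    have h3 : g⁻¹ • α = α := by
      rw [inv_smul_eq_iff]; exact (mem_stabilizer_iff.mp hg).symm
    have h4 : (m : G)⁻¹ • α = α := by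
      rw [inv_smul_eq_iff]; exact (mem_stabilizer_iff.mp (hMle m.2)).symm
    rw [mul_smul, h3, mul_smul, mul_smul, h4, mul_smul, hm']
  have h5 := hst _ _ ((‹N.Normal›).conj_mem _ (hL hl) g) ((‹N.Normal›).conj_mem _ (hL hl) (m : G)) α h2
  rw [h5]
  exact (Subgroup.mem_normalizer_iff.mp (hML m.2) l).mp hl

end Cfsg.Agent.S3495
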