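import Cfsg.Statements.S3498
import Mathlib
import Cfsg.Agent.H3.Basic
import Cfsg.Agent.L0.Coprime
import Cfsg.Agent.H1.Transfer

set_option autoImplicit false
open Cfsg

namespace Cfsg.Agent.S3498

theorem isMulCommutative_of_simple_solvable {T : Type*} [Group T] [IsSimpleGroup T] (h : Group.IsSolvable T) :
    IsMulCommutative T := ⟨⟨fun a b => by
      exact IsSimpleGroup.comm_iff_isSolvable.mpr h a b⟩⟩

/-- A maximal subgroup of a finite almost simple group does not have prime order. Here G is almost simple in the sense that it has a non-abelian simple normal subgroup T with trivial centralizer. -/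
theorem result {G : Type*} [Group G] [Finite G] (T : Subgroup G) [T.Normal] (hT : IsSimpleGroup T) (hTc : ¬ IsMulCommutative T)
    (hC : Subgroup.centralizer (T : Set G) = ⊥) (H : Subgroup G) (hmax : IsCoatom H) : ¬ (Nat.card H).Prime := by
  classical
  intro hr
  set r := Nat.card H with hrdef
  have := Fact.mk hr
  have hcycH : IsCyclic H := isCyclic_of_prime_card (p := r) rfl
  have hHne : H ≠ ⊥ := by
    intro h
    rw [hrdef, h, Subgroup.card_bot] at hr
    exact hr.one_lt.ne rfl
  have hprime_sub : ∀ X : Subgroup G, X ≤ H → X = ⊥ ∨ X = H := by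
    intro X hX
    rcases (Nat.dvd_prime hr).mp (Subgroup.card_dvd_of_le hX) with h | h
    · exact Or.inl (Subgroup.card_eq_one.mp h)
    · exact Or.inr (Subgroup.eq_of_le_of_card_ge hX (by rw [h]))
  -- H is not normal
  have hHn : ¬ H.Normal := by
    intro hN
    rcases hprime_sub (T ⊓ H) inf_le_right with h | h
    · -- [T, H] = 1
      apply hHne
      rw [eq_bot_iff, ← hC]
      intro x hx
      rw [Subgroup.mem_centralizer_iff]
      intro t ht
      have h1 : t * x * t⁻¹ * x⁻¹ ∈ T ⊓ H := by
        refine ⟨?_, ?_⟩
        · have : t * x * t⁻¹ * x⁻¹ = t * (x * t⁻¹ * x⁻¹) := by group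
          rw [this]
          exact T.mul_mem ht (Subgroup.Normal.conj_mem inferInstance _ (T.inv_mem ht) x)
        · exact H.mul_mem (hN.conj_mem x hx t) (H.inv_mem hx)
      rw [h, Subgroup.mem_bot, mul_inv_eq_one, mul_inv_eq_iff_eq_mul] at h1
      exact h1
    · have hHT : H ≤ T := by rw [← h]; exact inf_le_left
      rcases hT.eq_bot_or_eq_top_of_normal (H.subgroupOf T) inferInstance with h1 | h1
      · rw [Subgroup.subgroupOf_eq_bot, disjoint_iff, inf_of_le_left hHT] at h1
        exact hHne h1
      · rw [Subgroup.subgroupOf_eq_top] at h1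
        have hTH : T = H := le_antisymm h1 hHT
        apply hTc
        rw [hTH]
        exact hcycH.isMulCommutative
  have hnorm : Subgroup.normalizer (H : Set G) = H := by
    rcases hmax.le_iff.mp (Subgroup.le_normalizer (H := H)) with h | h
    · exact absurd (Subgroup.normalizer_eq_top_iff.mp h) hHn
    · exact h
  -- H is a Sylow r-subgroup
  have hHr : IsPGroup r H := IsPGroup.of_card (n := 1) (by rw [pow_one])
  obtain ⟨P, hP⟩ := hHr.exists_le_sylow
  have hPH : (P : Subgroup G) = H := by
    rcases hmax.le_iff.mp hP with h | h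
    · exfalso
      have hG : IsPGroup r G := by
        have h2 : IsPGroup r (⊤ : Subgroup G) := by rw [← h]; exact P.2
        exact h2.of_equiv Subgroup.topEquiv
      have hnil : Group.IsNilpotent G := hG.isNilpotent
      exact hHn (Subgroup.NormalizerCondition.normal_of_coatom H (Group.normalizerCondition_of_isNilpotent (h := hnil)) hmax)
    · exact h
  have hNC : Subgroup.normalizer (P : Set G) ≤ Subgroup.centralizer (P : Set G) := by
    show Subgroup.normalizer ((P : Subgroup G) : Set G) ≤ Subgroup.centralizer ((P : Subgroup G) : Set G)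
    rw [hPH, hnorm, Subgroup.le_centralizer_iff_isMulCommutative]
    exact hcycH.isMulCommutative
  have hK := MonoidHom.ker_transferSylow_isComplement' P hNC
  set K := (MonoidHom.transferSylow P hNC).ker with hKdef
  have hKcop : (Nat.card H).Coprime (Nat.card K) := by
    rw [← hPH]
    have h1 := hK.symm.index_eq_card
    have h2 := P.card_coprime_index
    have h3 : (P : Subgroup G).index = Nat.card K := hK.symm.symm.index_eq_card
    rw [← h3]; exact h2
  have hKne : Nat.card K ≠ 1 := by
    intro h
    have h1 : K = ⊥ := Subgroup.card_eq_one.mp h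
    have h2 := hK.sup_eq_top
    rw [h1, bot_sup_eq, hPH] at h2
    exact hmax.1 h2
  obtain ⟨q, hq, hqd⟩ := Nat.exists_prime_and_dvd hKne
  have := Fact.mk hq
  obtain ⟨Q, hQ, hQH⟩ := Cfsg.Agent.L0.exists_invariant_sylow (p := q) (A := H) (N := K)
    (by rw [Subgroup.normalizer_eq_top]; exact le_top) hKcop (Or.inl (by
      have := hcycH.isMulCommutative
      infer_instance))
  have hQne : Q ≠ ⊥ := by
    intro h
    obtain ⟨S, hS⟩ := hQ
    have h1 := S.dvd_card_of_dvd_card hqd
    have h2 : Nat.card (S : Subgroup K) = Nat.card Q := by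
      rw [← hS]; exact (Cfsg.Agent.L0.card_sylow_map S).symm
    rw [h2, h, Subgroup.card_bot] at h1
    exact hq.one_lt.ne' (Nat.dvd_one.mp h1)
  have hQK : Q ≤ K := hQ.le
  have hKH : K ⊓ H = ⊥ := by rw [← hPH]; exact hK.disjoint.eq_bot
  have hsup : Q ⊔ H = ⊤ := by
    rcases hmax.le_iff.mp (le_sup_right : H ≤ Q ⊔ H) with h | h
    · exact h
    · exfalso
      apply hQne
      rw [eq_bot_iff, ← hKH]
      exact le_inf hQK (by rw [← h]; exact le_sup_left)
  have hQn : Q.Normal := by
    rw [← Subgroup.normalizer_eq_top_iff, ← top_le_iff, ← hsup]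
    exact sup_le Subgroup.le_normalizer hQH
  -- G is solvable
  have hQs : Group.IsSolvable Q := by
    have : Group.IsNilpotent Q := hQ.isPGroup.isNilpotent
    infer_instance
  have hGQ : Group.IsSolvable (G ⧸ Q) := by
    have hsurj : Function.Surjective ((QuotientGroup.mk' Q).comp H.subtype) := by
      intro y
      obtain ⟨g, rfl⟩ := QuotientGroup.mk_surjective y
      have hg : g ∈ Q ⊔ H := by rw [hsup]; trivial
      rw [Subgroup.mem_sup_of_normal_left] at hg
      obtain ⟨a, ha, b, hb, rfl⟩ := hg
      refine ⟨⟨b, hb⟩, ?_⟩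
      show (b : G ⧸ Q) = ((a * b : G) : G ⧸ Q)
      rw [QuotientGroup.mk_mul, (QuotientGroup.eq_one_iff a).mpr ha, one_mul]
    have hHs : Group.IsSolvable H := by
      have := hcycH.isMulCommutative
      infer_instance
    exact solvable_of_surjective hsurj
  have hG : Group.IsSolvable G := by
    apply solvable_of_ker_le_range (Q.subtype) (QuotientGroup.mk' Q)
    rw [QuotientGroup.ker_mk', Subgroup.range_subtype]
  apply hTc
  have hTs : Group.IsSolvable T := inferInstance
  exact isMulCommutative_of_simple_solvable hTs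

end Cfsg.Agent.S3498
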