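import Cfsg.Statements.S3504
import Mathlib

set_option autoImplicit false
open Cfsg

namespace Cfsg.Agent.S3504

/-- For n ≥ 5, the fixed-point-free permutations of prime order in the symmetric group of degree n form a single conjugacy class if and only if n is a prime power. -/
theorem result (n : ℕ) (hn : 5 ≤ n) :
    Nat.card {c : ConjClasses (Equiv.Perm (Fin n)) // ∃ g : Equiv.Perm (Fin n), ConjClasses.mk g = c ∧ (orderOf g).Prime ∧ ∀ i : Fin n, g i ≠ i} = 1 ↔ IsPrimePow n := by
  classical
  have hg : ∀ p : ℕ, ∃ g : Equiv.Perm (Fin n), p ∈ n.primeFactors → g.cycleType = Multiset.replicate (n / p) p := by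
    intro p
    by_cases hp : p ∈ n.primeFactors
    · obtain ⟨h1, h2, h3⟩ := Nat.mem_primeFactors.mp hp
      have := (Equiv.Perm.exists_with_cycleType_iff (α := Fin n) (m := Multiset.replicate (n / p) p)).mpr ⟨by
        rw [Multiset.sum_replicate, smul_eq_mul, Nat.div_mul_cancel h2, Fintype.card_fin], by
        intro a ha
        rw [Multiset.eq_of_mem_replicate ha]; exact h1.two_le⟩
      obtain ⟨g, hg⟩ := this
      exact ⟨g, fun _ => hg⟩
    · exact ⟨1, fun h => absurd h hp⟩
  choose G hG using hg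
  have hord : ∀ p ∈ n.primeFactors, orderOf (G p) = p := by
    intro p hp
    obtain ⟨h1, h2, h3⟩ := Nat.mem_primeFactors.mp hp
    rw [← Equiv.Perm.lcm_cycleType, hG p hp]
    have h4 : n / p ≠ 0 := (Nat.div_pos (Nat.le_of_dvd (Nat.pos_of_ne_zero h3) h2) h1.pos).ne'
    apply Nat.dvd_antisymm
    · rw [Multiset.lcm_dvd]
      intro b hb
      rw [Multiset.eq_of_mem_replicate hb]
    · exact Multiset.dvd_lcm (Multiset.mem_replicate.mpr ⟨h4, rfl⟩)
  have hsupp : ∀ g : Equiv.Perm (Fin n), (∀ i, g i ≠ i) ↔ g.cycleType.sum = n := by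
    intro g
    rw [Equiv.Perm.sum_cycleType]
    constructor
    · intro h
      have : g.support = Finset.univ := by
        rw [Finset.eq_univ_iff_forall]
        intro i; rw [Equiv.Perm.mem_support]; exact h i
      rw [this, Finset.card_univ, Fintype.card_fin]
    · intro h i
      have : g.support = Finset.univ := by
        rw [← Finset.card_eq_iff_eq_univ, h, Fintype.card_fin]
      rw [← Equiv.Perm.mem_support, this]; exact Finset.mem_univ i
  let φ : n.primeFactors → {c : ConjClasses (Equiv.Perm (Fin n)) // ∃ g : Equiv.Perm (Fin n), ConjClasses.mk g = c ∧ (orderOf g).Prime ∧ ∀ i : Fin n, g i ≠ i} :=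
    fun p => ⟨ConjClasses.mk (G p), G p, rfl, by
      rw [hord p p.2]; exact Nat.prime_of_mem_primeFactors p.2, by
      rw [hsupp, hG p p.2, Multiset.sum_replicate, smul_eq_mul, Nat.div_mul_cancel (Nat.dvd_of_mem_primeFactors p.2)]⟩
  have hφ : Function.Bijective φ := by
    constructor
    · intro p q h
      have h1 : ConjClasses.mk (G p) = ConjClasses.mk (G q) := congrArg Subtype.val h
      rw [ConjClasses.mk_eq_mk_iff_isConj] at h1
      have h2 : orderOf (G p) = orderOf (G q) := by
        rw [← Equiv.Perm.lcm_cycleType, ← Equiv.Perm.lcm_cycleType, Equiv.Perm.isConj_iff_cycleType_eq.mp h1]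
      rw [hord p p.2, hord q q.2] at h2
      exact Subtype.ext h2
    · rintro ⟨c, g, rfl, hp, hfix⟩
      obtain ⟨k, hk⟩ := Equiv.Perm.cycleType_prime_order hp
      have h1 := (hsupp g).mp hfix
      rw [hk, Multiset.sum_replicate, smul_eq_mul] at h1
      have hmem : orderOf g ∈ n.primeFactors := Nat.mem_primeFactors.mpr ⟨hp, ⟨k + 1, h1.symm.trans (mul_comm _ _)⟩, by omega⟩
      refine ⟨⟨orderOf g, hmem⟩, Subtype.ext ?_⟩
      show ConjClasses.mk (G (orderOf g)) = ConjClasses.mk g
      rw [ConjClasses.mk_eq_mk_iff_isConj, Equiv.Perm.isConj_iff_cycleType_eq, hG _ hmem, hk]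
      congr 1
      exact Nat.div_eq_of_eq_mul_left hp.pos h1.symm
  rw [← Nat.card_congr (Equiv.ofBijective φ hφ), Nat.card_eq_fintype_card, Fintype.card_coe,
    isPrimePow_iff_card_primeFactors_eq_one]

end Cfsg.Agent.S3504
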