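import Cfsg.Statements.S3508
import Mathlib
import Cfsg.Agent.H3.Unip

set_option autoImplicit false
open Cfsg

namespace Cfsg.Agent.S3508

open MulAction

theorem key {G : Type*} [Group G] [Finite G] {Ω : Type*} [Fintype Ω] [MulAction G Ω] [FaithfulSMul G Ω] (p m : ℕ) (hp : p.Prime) (hcard : Fintype.card Ω = p ^ m)
    (N : Subgroup G) [N.Normal] (hNc : IsMulCommutative N) (hNp : ∀ n ∈ N, n ^ p = 1)
    (hNtr : MulAction.IsPretransitive N Ω) (hNreg : ∀ ω : Ω, MulAction.stabilizer N ω = ⊥)
    (g : G) (r s : ℕ) (hg : g ^ (p ^ r) = 1) (hs : m + 1 ≤ p ^ s) : g ^ (p ^ s) = 1 := by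
  classical
  have := Fact.mk hp
  have hneΩ : Nonempty Ω := Fintype.card_pos_iff.mp (by rw [hcard]; exact pow_pos hp.pos _)
  let iC : CommGroup N := { (inferInstance : Group N) with mul_comm := fun a b => hNc.is_comm.comm a b }
  have hcardN : Nat.card N = p ^ m := by
    obtain ⟨ω⟩ := hneΩ
    have h1 := (MulAction.stabilizer N ω).card_mul_index
    rw [MulAction.index_stabilizer_of_transitive, hNreg, Subgroup.card_bot, one_mul, Nat.card_eq_fintype_card, hcard] at h1
    exact h1.symm
  -- conjugation by g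
  let c : N →* N := ((MulAut.conjNormal g : MulAut N) : N →* N)
  have hc : ∀ n : N, ((c n : N) : G) = g * n * g⁻¹ := fun n => MulAut.conjNormal_apply g n
  have hci : ∀ (i : ℕ) (n : N), ((c^[i] n : N) : G) = g ^ i * n * (g ^ i)⁻¹ := by
    intro i
    induction i with
    | zero => intro n; simp
    | succ i ih =>
      intro n
      rw [Function.iterate_succ_apply, ih, hc, pow_succ]
      group
  have hprod := Cfsg.Agent.H3.prod_iterate_eq_one (A := N) p m r s hcardN
    (fun a => Subtype.ext (hNp a a.2)) c (fun a => Subtype.ext (by rw [hci, hg]; simp)) hs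
  apply FaithfulSMul.eq_of_smul_eq_smul (α := Ω)
  intro ω
  rw [one_smul]
  obtain ⟨n0, hn0⟩ := hNtr.exists_smul_eq ω (g • ω)
  have hn0' : (n0 : G) • ω = g • ω := hn0
  have hstep : ∀ i : ℕ, g ^ i • ω = ((∏ j ∈ Finset.range i, c^[j] n0 : N) : G) • ω := by
    intro i
    induction i with
    | zero => simp
    | succ i ih =>
      have h1 : (∏ j ∈ Finset.range (i + 1), c^[j] n0) = c (∏ j ∈ Finset.range i, c^[j] n0) * n0 := by
        rw [Finset.prod_range_succ', map_prod]
        congr 1
        apply Finset.prod_congr rfl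
        intro j _
        rw [Function.iterate_succ_apply']
      rw [pow_succ', mul_smul, ih, h1, Subgroup.coe_mul, hc, mul_smul, hn0', mul_smul _ g⁻¹, inv_smul_smul, mul_smul]
  rw [hstep, hprod]
  simp

/-- Let a finite group G act faithfully on a set Ω with p ^ m points (p prime) and have an elementary abelian normal p-subgroup N acting regularly on Ω (so G is a group of affine transformations of an m-dimensional space over the field with p elements). If G contains an element of order p ^ r with r ≥ 1, then p ^ (r − 1) ≤ m. In particular an element of order p ^ m forces m ≤ 2, and m ≤ 1 when p is odd. -/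
theorem result {G : Type*} [Group G] [Finite G] {Ω : Type*} [Fintype Ω] [MulAction G Ω] [FaithfulSMul G Ω] (p m : ℕ) (hp : p.Prime) (hcard : Fintype.card Ω = p ^ m)
    (N : Subgroup G) [N.Normal] (hNc : IsMulCommutative N) (hNp : ∀ n ∈ N, n ^ p = 1)
    (hNtr : MulAction.IsPretransitive N Ω) (hNreg : ∀ ω : Ω, MulAction.stabilizer N ω = ⊥)
    (g : G) (r : ℕ) (hr : 1 ≤ r) (hg : orderOf g = p ^ r) :
    p ^ (r - 1) ≤ m ∧ (r = m → m ≤ 2 ∧ (2 < p → m ≤ 1)) := by
  have h1 : p ^ (r - 1) ≤ m := by
    by_contra hcon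
    push Not at hcon
    have h2 := key p m hp hcard N hNc hNp hNtr hNreg g r (r - 1) (by rw [← hg]; exact pow_orderOf_eq_one g) hcon
    have h3 := orderOf_dvd_of_pow_eq_one h2
    rw [hg] at h3
    have h4 := (Nat.pow_dvd_pow_iff_le_right hp.one_lt).mp h3
    omega
  refine ⟨h1, ?_⟩
  rintro rfl
  have h2 : 2 ^ (r - 1) ≤ p ^ (r - 1) := Nat.pow_le_pow_left hp.two_le _
  constructor
  · by_contra hcon
    push Not at hcon
    obtain ⟨k, rfl⟩ := Nat.exists_eq_add_of_lt hcon
    have h3 : ∀ k : ℕ, 2 + k + 1 < 2 ^ (2 + k + 1 - 1) := by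
      intro k
      induction k with
      | zero => norm_num
      | succ k ih =>
        have : 2 + (k + 1) + 1 - 1 = (2 + k + 1 - 1) + 1 := by omega
        rw [this, pow_succ]
        omega
    have := h3 k
    omega
  · intro h2p
    by_contra hcon
    push Not at hcon
    have h4 : 3 ^ (r - 1) ≤ p ^ (r - 1) := Nat.pow_le_pow_left h2p _
    obtain ⟨k, rfl⟩ := Nat.exists_eq_add_of_lt hcon
    have h3 : ∀ k : ℕ, 1 + k + 1 < 3 ^ (1 + k + 1 - 1) := by
      intro k
      induction k with
      | zero => norm_num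
      | succ k ih =>
        have : 1 + (k + 1) + 1 - 1 = (1 + k + 1 - 1) + 1 := by omega
        rw [this, pow_succ]
        omega
    have := h3 k
    omega

end Cfsg.Agent.S3508
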