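import Cfsg.Statements.S3511
import Mathlib
import Cfsg.Agent.H3.Basic

set_option autoImplicit false
open Cfsg

namespace Cfsg.Agent.S3511

/-- Let a finite group G act faithfully on a set Ω. If every element of G of square-free order has a regular cycle (an orbit of the cyclic group it generates with trivial stabilizer), then every element of G has a regular cycle. -/
theorem result {G : Type*} [Group G] [Finite G] {Ω : Type*} [MulAction G Ω] [FaithfulSMul G Ω]
    (h : ∀ g : G, Squarefree (orderOf g) → ∃ ω : Ω, MulAction.stabilizer (Subgroup.zpowers g) ω = ⊥) (g : G) :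
    ∃ ω : Ω, MulAction.stabilizer (Subgroup.zpowers g) ω = ⊥ := by
  classical
  set n := orderOf g with hn
  have hn0 : n ≠ 0 := (orderOf_pos g).ne'
  set r := ∏ p ∈ n.primeFactors, p with hr
  have hrn : r ∣ n := Nat.prod_primeFactors_dvd n
  have hr0 : r ≠ 0 := fun h => hn0 (Nat.eq_zero_of_zero_dvd (h ▸ hrn))
  have hnr0 : n / r ≠ 0 := (Nat.div_pos (Nat.le_of_dvd (Nat.pos_of_ne_zero hn0) hrn) (Nat.pos_of_ne_zero hr0)).ne'
  have hord : orderOf (g ^ (n / r)) = r := by
    rw [orderOf_pow_of_dvd hnr0 (Nat.div_dvd_of_dvd hrn), ← hn, Nat.div_div_self hrn hn0]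
  have hsq : Squarefree r := by
    rw [hr, ← Nat.radical_eq_prod_primeFactors]
    exact UniqueFactorizationMonoid.squarefree_radical
  obtain ⟨ω, hω⟩ := h (g ^ (n / r)) (by rw [hord]; exact hsq)
  refine ⟨ω, ?_⟩
  by_contra hne
  have hcard : Nat.card (MulAction.stabilizer (Subgroup.zpowers g) ω) ≠ 1 := fun h => hne (Subgroup.card_eq_one.mp h)
  obtain ⟨q, hq, hqd⟩ := Nat.exists_prime_and_dvd hcard
  have := Fact.mk hq
  obtain ⟨y, hy⟩ := exists_prime_orderOf_dvd_card' (G := MulAction.stabilizer (Subgroup.zpowers g) ω) q hqd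
  have hyo : orderOf (y : Subgroup.zpowers g) = q := by rw [Subgroup.orderOf_coe, hy]
  have hqn : q ∣ n := by
    rw [← hyo, hn, ← Nat.card_zpowers g]
    exact orderOf_dvd_natCard (y : Subgroup.zpowers g)
  have hqr : q ∣ r := by
    rw [hr]
    exact Finset.dvd_prod_of_mem _ (Nat.mem_primeFactors.mpr ⟨hq, hqn, hn0⟩)
  let g0 : Subgroup.zpowers g := ⟨g ^ (n / r), Subgroup.pow_mem _ (Subgroup.mem_zpowers g) _⟩
  have hg0 : orderOf g0 = r := by
    have : orderOf g0 = orderOf (g ^ (n / r)) := Subgroup.orderOf_mk _ _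
    rw [this, hord]
  have hmem := Cfsg.Agent.H3.mem_zpowers_of_orderOf_dvd g0 (y : Subgroup.zpowers g) (by rw [hyo, hg0]; exact hqr)
  obtain ⟨k, hk⟩ := hmem
  have hk' : (g ^ (n / r)) ^ k = ((y : Subgroup.zpowers g) : G) := congrArg Subtype.val hk
  have h1 : (⟨((y : Subgroup.zpowers g) : G), ⟨k, hk'⟩⟩ : Subgroup.zpowers (g ^ (n / r))) ∈
      MulAction.stabilizer (Subgroup.zpowers (g ^ (n / r))) ω := by
    have := y.2
    rw [MulAction.mem_stabilizer_iff] at this ⊢
    exact this
  rw [hω, Subgroup.mem_bot] at h1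
  have h2 : ((y : Subgroup.zpowers g) : G) = 1 := congrArg Subtype.val h1
  have h3 : (y : Subgroup.zpowers g) = 1 := Subtype.ext h2
  rw [h3, orderOf_one] at hyo
  exact hq.one_lt.ne hyo

end Cfsg.Agent.S3511
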