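import Cfsg.Statements.S3514
import Mathlib
import Cfsg.Agent.H3.Basic
import Cfsg.Agent.L0.Coprime

set_option autoImplicit false
open Cfsg

namespace Cfsg.Agent.S3514

theorem card_orb {G X : Type*} [Group G] [MulAction G X] (L : Subgroup G) (v : X) :
    Nat.card {u : X | ∃ h ∈ L, h • v = u} = (MulAction.stabilizer G v).relIndex L := by
  have h1 : (MulAction.stabilizer G v).subgroupOf L = MulAction.stabilizer L v := by
    ext x; rfl
  have h2 : {u : X | ∃ h ∈ L, h • v = u} = MulAction.orbit L v := by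
    ext u
    constructor
    · rintro ⟨h, hh, rfl⟩; exact ⟨⟨h, hh⟩, rfl⟩
    · rintro ⟨⟨h, hh⟩, rfl⟩; exact ⟨h, hh, rfl⟩
  rw [h2, Subgroup.relIndex, h1]
  exact Nat.card_congr (MulAction.orbitEquivQuotientStabilizer L v)

theorem gen {G X : Type*} [Group G] [Finite G] [MulAction G X] (p : ℕ) [Fact p.Prime] (H : Subgroup G)
    (hH : ∀ v : X, ¬ p ∣ (MulAction.stabilizer G v).relIndex H) :
    (∀ K : Subgroup G, K ≤ H → H ≤ Subgroup.normalizer (K : Set G) → ∀ v : X, ¬ p ∣ (MulAction.stabilizer G v).relIndex K) ∧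
    (∀ N : Subgroup G, ¬ p ∣ Nat.card N → H ≤ Subgroup.normalizer (N : Set G) → ∀ v : X, ¬ p ∣ (MulAction.stabilizer G v).relIndex (N ⊔ H)) := by
  constructor
  · intro K hKH hHK v hp
    apply hH v
    refine hp.trans ?_
    have hn : (K.subgroupOf H).Normal := by
      rw [Subgroup.normal_subgroupOf_iff_le_normalizer hKH]; exact hHK
    have h1 := Cfsg.Agent.H3.relIndex_dvd_index_of_normal_right ((MulAction.stabilizer G v).subgroupOf H) (K.subgroupOf H)
    have h2 : ((MulAction.stabilizer G v).subgroupOf H).relIndex (K.subgroupOf H) = (MulAction.stabilizer G v).relIndex K :=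
      Subgroup.relIndex_subgroupOf hKH
    rw [h2] at h1
    exact h1
  · intro N hN hHN v hp
    set A := MulAction.stabilizer G v
    have h1 : (A ⊓ H).relIndex H * H.relIndex (N ⊔ H) = (A ⊓ H).relIndex (N ⊔ H) :=
      Subgroup.relIndex_mul_relIndex _ _ _ inf_le_right le_sup_right
    have h2 : A.relIndex (N ⊔ H) ∣ (A ⊓ H).relIndex (N ⊔ H) := Subgroup.relIndex_dvd_of_le_left _ inf_le_left
    rw [← h1, Subgroup.inf_relIndex_right] at h2
    rcases (Nat.Prime.dvd_mul Fact.out).mp (hp.trans h2) with h3 | h3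
    · exact hH v h3
    · apply hN
      refine h3.trans ?_
      have e1 : N.relIndex (N ⊔ H) = N.relIndex H := Cfsg.Agent.L0.relIndex_sup_of_normalizes hHN
      have e2 : N.relIndex (N ⊔ H) * Nat.card N = Nat.card (N ⊔ H : Subgroup G) := Cfsg.Agent.H3.relIndex_mul_card le_sup_left
      have e3 : H.relIndex (N ⊔ H) * Nat.card H = Nat.card (N ⊔ H : Subgroup G) := Cfsg.Agent.H3.relIndex_mul_card le_sup_right
      have e4 : N.relIndex H * Nat.card (N ⊓ H : Subgroup G) = Nat.card H := Cfsg.Agent.H3.relIndex_mul_card_inf N H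
      refine ⟨Nat.card (N ⊓ H : Subgroup G), ?_⟩
      have hpos : 0 < N.relIndex H := Nat.pos_of_ne_zero Subgroup.index_ne_zero_of_finite
      apply Nat.eq_of_mul_eq_mul_left hpos
      rw [← e1, e2, ← e3, ← e4, ← e1]; ring

/-- Let p be a prime, V a finite vector space over the field with p elements, and H a group of linear transformations of V all of whose orbits on V have size coprime to p. (i) Every normal subgroup K of H has all its orbits on V of size coprime to p. (ii) If N is a group of linear transformations of V of order coprime to p that is normalized by H, then the group generated by N and H has all its orbits on V of size coprime to p. -/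
theorem result (p : ℕ) [Fact p.Prime] {V : Type*} [AddCommGroup V] [Module (ZMod p) V] [Finite V]
    (H : Subgroup (V ≃ₗ[ZMod p] V)) (hH : ∀ v : V, ¬ p ∣ Nat.card {u : V | ∃ h ∈ H, h v = u}) :
    (∀ K : Subgroup (V ≃ₗ[ZMod p] V), K ≤ H → H ≤ Subgroup.normalizer (K : Set (V ≃ₗ[ZMod p] V)) →
        ∀ v : V, ¬ p ∣ Nat.card {u : V | ∃ k ∈ K, k v = u}) ∧
    (∀ N : Subgroup (V ≃ₗ[ZMod p] V), ¬ p ∣ Nat.card N → H ≤ Subgroup.normalizer (N : Set (V ≃ₗ[ZMod p] V)) →
        ∀ v : V, ¬ p ∣ Nat.card {u : V | ∃ x ∈ N ⊔ H, x v = u}) := by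
  have hfin : Finite (V ≃ₗ[ZMod p] V) := by
    apply Finite.of_injective (fun e : V ≃ₗ[ZMod p] V => (e : V → V)) DFunLike.coe_injective
  have key : ∀ (L : Subgroup (V ≃ₗ[ZMod p] V)) (v : V), Nat.card {u : V | ∃ h ∈ L, h v = u} =
      (MulAction.stabilizer (V ≃ₗ[ZMod p] V) v).relIndex L := fun L v => card_orb L v
  obtain ⟨h1, h2⟩ := gen p H (fun v => by rw [← key]; exact hH v)
  refine ⟨fun K hK hHK v => by rw [key]; exact h1 K hK hHK v, fun N hN hHN v => by rw [key]; exact h2 N hN hHN v⟩

end Cfsg.Agent.S3514
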