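import Cfsg.Statements.S3515
import Mathlib
import Cfsg.Agent.H3.Lin

set_option autoImplicit false
open Cfsg

namespace Cfsg.Agent.S3515

theorem two_case (τ : Equiv.Perm (Fin 2 → ZMod 2)) (h0 : τ 0 = 0) (h1 : τ ![1, 0] = ![1, 0])
    (h2 : τ ![0, 1] = ![0, 1]) : τ = 1 := by
  have h3 : τ ![1, 1] = ![1, 1] := by
    have hall : ∀ v : Fin 2 → ZMod 2, v = 0 ∨ v = ![1, 0] ∨ v = ![0, 1] ∨ v = ![1, 1] := by decide
    rcases hall (τ ![1, 1]) with h | h | h | h
    · rw [← h0] at h
      have := τ.injective h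
      exact absurd this (by decide)
    · rw [← h1] at h
      have := τ.injective h
      exact absurd this (by decide)
    · rw [← h2] at h
      have := τ.injective h
      exact absurd this (by decide)
    · exact h
  have hall : ∀ v : Fin 2 → ZMod 2, v = 0 ∨ v = ![1, 0] ∨ v = ![0, 1] ∨ v = ![1, 1] := by decide
  apply Equiv.ext
  intro v
  rcases hall v with rfl | rfl | rfl | rfl
  · exact h0
  · exact h1
  · exact h2
  · exact h3

/-- Every primitive affine permutation group of degree p² is 3-closed. Let p be a prime and G a group of permutations of the plane V = F_p² consisting of affine maps x ↦ Ax + b, containing all translations, and acting primitively on V. Then any permutation σ of V that agrees on every triple of points with some element of G (σ preserves every G-orbit on ordered triples) already lies in G. -/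
theorem result (p : ℕ) [Fact p.Prime] (G : Subgroup (Equiv.Perm (Fin 2 → ZMod p)))
    (haff : (G : Set (Equiv.Perm (Fin 2 → ZMod p))) ⊆ {τ : Equiv.Perm (Fin 2 → ZMod p) | ∃ (A : (Fin 2 → ZMod p) ≃ₗ[ZMod p] (Fin 2 → ZMod p)) (b : Fin 2 → ZMod p), ∀ x, τ x = A x + b})
    (htrans : ∀ b : Fin 2 → ZMod p, ∃ g ∈ G, ∀ x, g x = x + b) (hprim : MulAction.IsPreprimitive G (Fin 2 → ZMod p))
    (σ : Equiv.Perm (Fin 2 → ZMod p)) (hσ : (∀ t : Fin 3 → (Fin 2 → ZMod p), ∃ g ∈ G, ∀ i, σ (t i) = g (t i))) : σ ∈ G := by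
  obtain ⟨g, hg, ht⟩ := hσ ![0, ![1, 0], ![0, 1]]
  have e0 : σ 0 = g 0 := ht 0
  have e1 : σ ![1, 0] = g ![1, 0] := ht 1
  have e2 : σ ![0, 1] = g ![0, 1] := ht 2
  by_cases hp : p = 2
  · subst hp
    have h1 : g⁻¹ * σ = 1 := by
      apply two_case
      · rw [Equiv.Perm.mul_apply, e0]; simp
      · rw [Equiv.Perm.mul_apply, e1]; simp
      · rw [Equiv.Perm.mul_apply, e2]; simp
    rw [← inv_mul_eq_one.mp h1]; exact hg
  · obtain ⟨A, b, hA⟩ := Cfsg.Agent.H3.affine_of_midpoint hp σ
      (Cfsg.Agent.H3.midpoint_of_three_closed hp (G : Set (Equiv.Perm (Fin 2 → ZMod p))) (fun τ hτ => haff hτ) σ hσ)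
    obtain ⟨B, c, hB⟩ := haff hg
    rw [hA, hB, map_zero, map_zero, zero_add, zero_add] at e0
    subst e0
    rw [hA, hB, add_left_inj] at e1 e2
    have : σ = g := by
      apply Equiv.ext
      intro v
      rw [hA, hB, add_left_inj]
      have hv : v = v 0 • (![1, 0] : Fin 2 → ZMod p) + v 1 • (![0, 1] : Fin 2 → ZMod p) := by
        ext i; fin_cases i <;> simp
      rw [hv, map_add, map_add, map_smul, map_smul, map_smul, map_smul, e1, e2]
    rw [this]; exact hg

end Cfsg.Agent.S3515
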