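import Cfsg.Statements.S3516
import Mathlib
import Cfsg.Agent.H3.Lin

set_option autoImplicit false
open Cfsg

namespace Cfsg.Agent.S3516

/-- Let p be an odd prime, d ≥ 3, and G a group of affine permutations x ↦ Ax + b of V = F_p^d containing all translations and all maps x ↦ Ax with A of determinant 1. Then the 3-closure of G is the full affine group: a permutation σ of V agrees on every triple of points with some element of G if and only if σ is an affine map. -/
theorem result (p : ℕ) [Fact p.Prime] (hp : p ≠ 2) (d : ℕ) (hd : 3 ≤ d) (G : Subgroup (Equiv.Perm (Fin d → ZMod p)))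
    (haff : (G : Set (Equiv.Perm (Fin d → ZMod p))) ⊆ {τ : Equiv.Perm (Fin d → ZMod p) | ∃ (A : (Fin d → ZMod p) ≃ₗ[ZMod p] (Fin d → ZMod p)) (b : Fin d → ZMod p), ∀ x, τ x = A x + b})
    (htrans : ∀ b : Fin d → ZMod p, ∃ g ∈ G, ∀ x, g x = x + b)
    (hsl : ∀ A : (Fin d → ZMod p) ≃ₗ[ZMod p] (Fin d → ZMod p), LinearMap.det (A : (Fin d → ZMod p) →ₗ[ZMod p] (Fin d → ZMod p)) = 1 → ∃ g ∈ G, ∀ x, g x = A x)
    (σ : Equiv.Perm (Fin d → ZMod p)) :
    (∀ t : Fin 3 → (Fin d → ZMod p), ∃ g ∈ G, ∀ i, σ (t i) = g (t i)) ↔ σ ∈ {τ : Equiv.Perm (Fin d → ZMod p) | ∃ (A : (Fin d → ZMod p) ≃ₗ[ZMod p] (Fin d → ZMod p)) (b : Fin d → ZMod p), ∀ x, τ x = A x + b} := by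
  constructor
  · intro hσ
    exact Cfsg.Agent.H3.affine_of_midpoint hp σ
      (Cfsg.Agent.H3.midpoint_of_three_closed hp (G : Set (Equiv.Perm (Fin d → ZMod p))) (fun τ hτ => haff hτ) σ hσ)
  · rintro ⟨A, b, hA⟩ t
    let U : Submodule (ZMod p) (Fin d → ZMod p) := Submodule.span (ZMod p) {t 1 - t 0, t 2 - t 0}
    have hU : U ≠ ⊤ := by
      intro h
      have h1 : Module.finrank (ZMod p) U ≤ 2 := by
        have h3 := finrank_span_le_card (R := ZMod p) ({t 1 - t 0, t 2 - t 0} : Set (Fin d → ZMod p))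
        refine h3.trans ?_
        rw [Set.toFinset_insert, Set.toFinset_singleton]
        exact Finset.card_le_two
      rw [h, finrank_top, Module.finrank_fin_fun] at h1
      omega
    obtain ⟨B, hB, hdet⟩ := Cfsg.Agent.H3.exists_sl_agree U hU A
    obtain ⟨g, hg, hgB⟩ := hsl B hdet
    obtain ⟨s, hs, hsT⟩ := htrans (A (t 0) + b - B (t 0))
    refine ⟨s * g, G.mul_mem hs hg, fun i => ?_⟩
    rw [Equiv.Perm.mul_apply, hsT, hgB, hA]
    have hi : t i - t 0 ∈ U := by
      fin_cases i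
      · simp
      · exact Submodule.subset_span (by simp)
      · exact Submodule.subset_span (by simp)
    have h1 := hB _ hi
    rw [map_sub, map_sub] at h1
    have h2 : A (t i) = B (t i) - B (t 0) + A (t 0) := by rw [h1]; abel
    rw [h2]; abel

end Cfsg.Agent.S3516
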