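import Cfsg.Statements.S3517
import Mathlib
import Cfsg.Agent.H3.Lin

set_option autoImplicit false
open Cfsg

namespace Cfsg.Agent.S3517

theorem two_vec {d : ℕ} (hd : 3 ≤ d) (u1 u2 w1 w2 : Fin d → ZMod 2) (h1 : u1 = 0 ↔ w1 = 0) (h2 : u2 = 0 ↔ w2 = 0)
    (h12 : u1 = u2 ↔ w1 = w2) : ∃ A : (Fin d → ZMod 2) ≃ₗ[ZMod 2] (Fin d → ZMod 2), A u1 = w1 ∧ A u2 = w2 := by
  have h01 : ∀ a : ZMod 2, a = 0 ∨ a = 1 := by decide
  have single : ∀ u w : Fin d → ZMod 2, u ≠ 0 → w ≠ 0 → ∃ A : (Fin d → ZMod 2) ≃ₗ[ZMod 2] (Fin d → ZMod 2), A u = w := by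
    intro u w hu hw
    obtain ⟨e, he⟩ := Cfsg.Agent.H3.exists_equiv_of_linearIndependent (K := ZMod 2) (ι := Fin 1) (fun _ => u) (fun _ => w)
      (by rw [linearIndependent_unique_iff]; exact hu) (by rw [linearIndependent_unique_iff]; exact hw)
    exact ⟨e, he 0⟩
  by_cases hu1 : u1 = 0
  · have hw1 := h1.mp hu1
    by_cases hu2 : u2 = 0
    · have hw2 := h2.mp hu2
      exact ⟨LinearEquiv.refl _ _, by rw [hu1, hw1]; rfl, by rw [hu2, hw2]; rfl⟩
    · have hw2 : w2 ≠ 0 := fun h => hu2 (h2.mpr h)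
      obtain ⟨A, hA⟩ := single u2 w2 hu2 hw2
      exact ⟨A, by rw [hu1, hw1, map_zero], hA⟩
  · have hw1 : w1 ≠ 0 := fun h => hu1 (h1.mpr h)
    by_cases hu2 : u2 = 0
    · have hw2 := h2.mp hu2
      obtain ⟨A, hA⟩ := single u1 w1 hu1 hw1
      exact ⟨A, hA, by rw [hu2, hw2, map_zero]⟩
    · have hw2 : w2 ≠ 0 := fun h => hu2 (h2.mpr h)
      by_cases he : u1 = u2
      · have hw := h12.mp he
        obtain ⟨A, hA⟩ := single u1 w1 hu1 hw1
        exact ⟨A, hA, by rw [← he, ← hw]; exact hA⟩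
      · have hw : w1 ≠ w2 := fun h => he (h12.mpr h)
        have li : ∀ a b : Fin d → ZMod 2, a ≠ 0 → b ≠ 0 → a ≠ b → LinearIndependent (ZMod 2) ![a, b] := by
          intro a b ha hb hab
          rw [LinearIndependent.pair_iff]
          intro s t hst
          rcases h01 s with rfl | rfl <;> rcases h01 t with rfl | rfl
          · exact ⟨rfl, rfl⟩
          · exfalso; apply hb; simpa using hst
          · exfalso; apply ha; simpa using hst
          · exfalso; apply hab
            rw [one_smul, one_smul] at hst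
            have h3 : b + b = 0 := by
              ext i
              have : ∀ c : ZMod 2, c + c = 0 := by decide
              exact this (b i)
            calc a = a + (b + b) := by rw [h3, add_zero]
              _ = (a + b) + b := by abel
              _ = b := by rw [hst, zero_add]
        obtain ⟨e, he2⟩ := Cfsg.Agent.H3.exists_equiv_of_linearIndependent _ _ (li u1 u2 hu1 hu2 he) (li w1 w2 hw1 hw2 hw)
        exact ⟨e, he2 0, he2 1⟩

/-- For d ≥ 3, the 3-closure of the affine group AGL_d(2) acting on F_2^d is the full symmetric group: every permutation of F_2^d agrees on every ordered triple of points with some affine map (AGL_d(2) is 3-transitive). -/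
theorem result (d : ℕ) (hd : 3 ≤ d) (σ : Equiv.Perm (Fin d → ZMod 2)) (t : Fin 3 → (Fin d → ZMod 2)) :
    ∃ (A : (Fin d → ZMod 2) ≃ₗ[ZMod 2] (Fin d → ZMod 2)) (b : Fin d → ZMod 2), ∀ i, σ (t i) = A (t i) + b := by
  obtain ⟨A, hA1, hA2⟩ := two_vec hd (t 1 - t 0) (t 2 - t 0) (σ (t 1) - σ (t 0)) (σ (t 2) - σ (t 0))
    (by rw [sub_eq_zero, sub_eq_zero, σ.injective.eq_iff]) (by rw [sub_eq_zero, sub_eq_zero, σ.injective.eq_iff])
    (by rw [sub_left_inj, sub_left_inj, σ.injective.eq_iff])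
  refine ⟨A, σ (t 0) - A (t 0), fun i => ?_⟩
  rw [map_sub] at hA1 hA2
  fin_cases i
  · simp
  · show σ (t 1) = A (t 1) + (σ (t 0) - A (t 0))
    have : A (t 1) = (σ (t 1) - σ (t 0)) + A (t 0) := by rw [← hA1]; abel
    rw [this]; abel
  · show σ (t 2) = A (t 2) + (σ (t 0) - A (t 0))
    have : A (t 2) = (σ (t 2) - σ (t 0)) + A (t 0) := by rw [← hA2]; abel
    rw [this]; abel

end Cfsg.Agent.S3517
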