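import Cfsg.Statements.S3546
import Mathlib

set_option autoImplicit false
open Cfsg

namespace Cfsg.Agent.S3546

open MulAction

theorem normal_derange (G Ω : Type*) [Group G] [MulAction G Ω] :
    (Subgroup.closure {g : G | ∀ ω : Ω, g • ω ≠ ω}).Normal := by
  constructor
  intro n hn g
  induction hn using Subgroup.closure_induction with
  | mem x hx =>
    apply Subgroup.subset_closure
    intro ω h
    apply hx (g⁻¹ • ω)
    rw [mul_smul, mul_smul] at h
    rw [eq_inv_smul_iff]
    exact h
  | one => simp [Subgroup.one_mem]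
  | mul x y _ _ hx hy =>
    have : g * (x * y) * g⁻¹ = (g * x * g⁻¹) * (g * y * g⁻¹) := by group
    rw [this]; exact Subgroup.mul_mem _ hx hy
  | inv x _ hx =>
    have : g * x⁻¹ * g⁻¹ = (g * x * g⁻¹)⁻¹ := by group
    rw [this]; exact Subgroup.inv_mem _ hx

theorem transSum {D Ω : Type*} [Group D] [Fintype D] [Fintype Ω] [DecidableEq Ω] [Nonempty Ω] [MulAction D Ω]
    [IsPretransitive D Ω] (f : Ω → Ω) :
    ∑ d : D, (Finset.univ.filter (fun ω : Ω => d • f ω = ω)).card = Fintype.card D := by
  classical
  have h1 : ∀ ω : Ω, (Finset.univ.filter (fun d : D => d • f ω = ω)).card * Fintype.card Ω = Fintype.card D := by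
    intro ω
    obtain ⟨d0, hd0⟩ := exists_smul_eq D (f ω) ω
    have h2 : (Finset.univ.filter (fun d : D => d • f ω = ω)).card = Nat.card (stabilizer D ω) := by
      rw [Nat.card_eq_fintype_card, ← Fintype.card_coe]
      refine Fintype.card_congr
        { toFun := fun d => ⟨d.1 * d0⁻¹, ?_⟩
          invFun := fun s => ⟨s.1 * d0, ?_⟩
          left_inv := fun d => Subtype.ext (by simp)
          right_inv := fun s => Subtype.ext (by simp) }
      · have := (Finset.mem_filter.mp d.2).2
        have h5 : d0⁻¹ • ω = f ω := by rw [inv_smul_eq_iff, hd0]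
        rw [mem_stabilizer_iff, mul_smul, h5]
        exact this
      · have := s.2
        rw [mem_stabilizer_iff] at this
        refine Finset.mem_filter.mpr ⟨Finset.mem_univ _, ?_⟩
        rw [mul_smul, hd0]
        exact this
    rw [h2, ← Nat.card_eq_fintype_card, ← Nat.card_eq_fintype_card, ← index_stabilizer_of_transitive D ω]
    exact (stabilizer D ω).card_mul_index
  have h2 : ∑ d : D, (Finset.univ.filter (fun ω : Ω => d • f ω = ω)).card =
      ∑ ω : Ω, (Finset.univ.filter (fun d : D => d • f ω = ω)).card := by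
    simp only [Finset.card_filter]
    exact Finset.sum_comm
  rw [h2]
  have h3 : (∑ ω : Ω, (Finset.univ.filter (fun d : D => d • f ω = ω)).card) * Fintype.card Ω =
      Fintype.card D * Fintype.card Ω := by
    rw [Finset.sum_mul, Finset.sum_congr rfl (fun ω _ => h1 ω), Finset.sum_const, Finset.card_univ, smul_eq_mul, mul_comm]
  exact Nat.eq_of_mul_eq_mul_right Fintype.card_pos h3

/-- a transitive action in which every element has a fixed point is trivial -/
theorem subsingleton_of_fixed {G X : Type*} [Group G] [Finite G] [MulAction G X] [Finite X]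
    (ht : IsPretransitive G X) (h : ∀ g : G, ∃ x : X, g • x = x) : Subsingleton X := by
  classical
  have := Fintype.ofFinite G
  have := Fintype.ofFinite X
  have : Fintype (Quotient (orbitRel G X)) := Fintype.ofFinite _
  by_contra hcon
  rw [not_subsingleton_iff_nontrivial] at hcon
  have h1 := sum_card_fixedBy_eq_card_orbits_mul_card_group G X
  have h2 : Fintype.card (Quotient (orbitRel G X)) = 1 := by
    have : Subsingleton (Quotient (orbitRel G X)) := (pretransitive_iff_subsingleton_quotient G X).mp ht
    obtain ⟨x⟩ : Nonempty X := inferInstance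
    exact Fintype.card_eq_one_iff.mpr ⟨Quotient.mk _ x, fun y => Subsingleton.elim _ _⟩
  rw [h2, one_mul] at h1
  have h3 : ∀ g : G, 1 ≤ Fintype.card (fixedBy X g) := by
    intro g
    obtain ⟨x, hx⟩ := h g
    exact Fintype.card_pos_iff.mpr ⟨⟨x, hx⟩⟩
  have h4 : ∑ g : G, 1 < ∑ g : G, Fintype.card (fixedBy X g) := by
    apply Finset.sum_lt_sum (fun g _ => h3 g)
    refine ⟨1, Finset.mem_univ _, ?_⟩
    have : Fintype.card (fixedBy X (1 : G)) = Fintype.card X := by
      apply Fintype.card_congr
      exact ⟨fun x => x.1, fun x => ⟨x, one_smul G x⟩, fun x => rfl, fun x => rfl⟩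
    rw [this]
    exact Fintype.one_lt_card
  rw [h1] at h4
  simp at h4

/-- Let G act faithfully and transitively on a finite set and let D be the subgroup of G generated by the derangements (the elements fixing no point). Then D is itself transitive, and D contains every element of G whose number of fixed points is different from 1. -/
theorem result {G Ω : Type*} [Group G] [Finite G] [MulAction G Ω] [FaithfulSMul G Ω] [Finite Ω]
    (htrans : MulAction.IsPretransitive G Ω) :
    MulAction.IsPretransitive ↥(Subgroup.closure {g : G | ∀ ω : Ω, g • ω ≠ ω}) Ω ∧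
    ∀ g : G, Nat.card (MulAction.fixedBy Ω g) ≠ 1 → g ∈ Subgroup.closure {g : G | ∀ ω : Ω, g • ω ≠ ω} := by
  classical
  set D := Subgroup.closure {g : G | ∀ ω : Ω, g • ω ≠ ω} with hD
  have hDn : D.Normal := normal_derange G Ω
  have hnd : ∀ g : G, g ∉ D → ∃ ω : Ω, g • ω = ω := by
    intro g hg
    by_contra hcon
    push Not at hcon
    exact hg (Subgroup.subset_closure hcon)
  have hDt : IsPretransitive D Ω := by
    rcases isEmpty_or_nonempty Ω with he | ⟨⟨ω⟩⟩
    · exact ⟨fun x => he.elim x⟩
    set K := D ⊔ stabilizer G ω with hK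
    have hKtop : K = ⊤ := by
      have hs := subsingleton_of_fixed (G := G) (X := G ⧸ K) inferInstance (by
        intro g
        by_cases hg : g ∈ D
        · refine ⟨((1 : G) : G ⧸ K), ?_⟩
          show ((g * 1 : G) : G ⧸ K) = ((1 : G) : G ⧸ K)
          rw [QuotientGroup.eq, mul_one, mul_one]
          exact K.inv_mem (Subgroup.mem_sup_left hg)
        · obtain ⟨ω', hω'⟩ := hnd g hg
          obtain ⟨x, rfl⟩ := htrans.exists_smul_eq ω ω'
          refine ⟨(x : G ⧸ K), ?_⟩
          show ((g * x : G) : G ⧸ K) = (x : G ⧸ K)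
          rw [QuotientGroup.eq]
          have h1 : x⁻¹ * g * x ∈ K := by
            apply Subgroup.mem_sup_right
            rw [mem_stabilizer_iff, mul_smul, mul_smul, hω', inv_smul_smul]
          have h2 := K.inv_mem h1
          have h3 : (x⁻¹ * g * x)⁻¹ = (g * x)⁻¹ * x := by group
          rwa [h3] at h2)
      rw [← Subgroup.index_eq_one]
      exact Nat.card_eq_one_iff_unique.mpr ⟨hs, inferInstance⟩
    have key : ∀ ω' : Ω, ∃ d : D, d • ω = ω' := by
      intro ω'
      obtain ⟨x, rfl⟩ := htrans.exists_smul_eq ω ω'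
      have hx : x ∈ D ⊔ stabilizer G ω := by rw [← hK, hKtop]; trivial
      obtain ⟨d, hd, s, hs, rfl⟩ := Subgroup.mem_sup_of_normal_left.mp hx
      refine ⟨⟨d, hd⟩, ?_⟩
      show d • ω = (d * s) • ω
      rw [mul_smul, mem_stabilizer_iff.mp hs]
    constructor
    intro a b
    obtain ⟨d, hd⟩ := key a
    obtain ⟨e, he⟩ := key b
    exact ⟨e * d⁻¹, by rw [mul_smul, ← hd, inv_smul_smul, he]⟩
  refine ⟨hDt, ?_⟩
  intro g hg1
  by_contra hg
  apply hg1
  have := Fintype.ofFinite Ω
  have := Fintype.ofFinite D
  have hne : Nonempty Ω := ⟨(hnd g hg).choose⟩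
  have hsum := transSum (D := D) (fun ω : Ω => g • ω)
  have hpos : ∀ d : D, 1 ≤ (Finset.univ.filter (fun ω : Ω => d • (g • ω) = ω)).card := by
    intro d
    have h1 : (d : G) * g ∉ D := fun h => hg ((D.mul_mem_cancel_left d.2).mp h)
    obtain ⟨ω, hω⟩ := hnd _ h1
    apply Finset.card_pos.mpr
    refine ⟨ω, Finset.mem_filter.mpr ⟨Finset.mem_univ _, ?_⟩⟩
    rw [mul_smul] at hω
    exact hω
  have hall : ∀ d : D, (Finset.univ.filter (fun ω : Ω => d • (g • ω) = ω)).card = 1 := by
    by_contra hcon
    push Not at hcon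
    obtain ⟨d, hd⟩ := hcon
    have h1 : ∑ d : D, 1 < ∑ d : D, (Finset.univ.filter (fun ω : Ω => d • (g • ω) = ω)).card := by
      apply Finset.sum_lt_sum (fun d _ => hpos d)
      exact ⟨d, Finset.mem_univ _, lt_of_le_of_ne (hpos d) (Ne.symm hd)⟩
    rw [hsum] at h1
    simp at h1
  have h1 := hall 1
  simp only [one_smul] at h1
  rw [← h1, Nat.card_eq_fintype_card, Fintype.card_subtype]
  rfl

end Cfsg.Agent.S3546
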