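import Cfsg.Statements.S3547
import Mathlib
import Cfsg.Agent.S3546

set_option autoImplicit false
open Cfsg

namespace Cfsg.Agent.S3547

open MulAction

theorem burnside_pairs {H Ω : Type*} [Group H] [Fintype H] [Fintype Ω] [DecidableEq Ω] [MulAction H Ω] :
    ∑ g : H, (Nat.card (fixedBy Ω g)) ^ 2 = Nat.card (orbitRel.Quotient H (Ω × Ω)) * Fintype.card H := by
  classical
  have : Fintype (Quotient (orbitRel H (Ω × Ω))) := Fintype.ofFinite _
  have h1 := sum_card_fixedBy_eq_card_orbits_mul_card_group H (Ω × Ω)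
  rw [← Nat.card_eq_fintype_card (α := Quotient (orbitRel H (Ω × Ω)))] at h1
  rw [show Nat.card (orbitRel.Quotient H (Ω × Ω)) = Nat.card (Quotient (orbitRel H (Ω × Ω))) from rfl, ← h1]
  apply Finset.sum_congr rfl
  intro g _
  rw [sq, ← Nat.card_prod, Nat.card_eq_fintype_card]
  apply Fintype.card_congr
  exact
    { toFun := fun x => ⟨(x.1.1, x.2.1), Prod.ext x.1.2 x.2.2⟩
      invFun := fun x => (⟨x.1.1, congrArg Prod.fst x.2⟩, ⟨x.1.2, congrArg Prod.snd x.2⟩)
      left_inv := fun x => rfl
      right_inv := fun x => rfl }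

/-- Let G act faithfully and transitively on a finite set Ω, let D be the subgroup generated by the derangements, and let r_G and r_D be the numbers of orbits of G and of D on ordered pairs of points (the permutation ranks). Then r_D − 1 = (r_G − 1)·[G : D]. -/
theorem result {G Ω : Type*} [Group G] [Finite G] [MulAction G Ω] [FaithfulSMul G Ω] [Finite Ω]
    (htrans : MulAction.IsPretransitive G Ω) :
    Nat.card (MulAction.orbitRel.Quotient ↥(Subgroup.closure {g : G | ∀ ω : Ω, g • ω ≠ ω}) (Ω × Ω)) - 1 =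
      (Nat.card (MulAction.orbitRel.Quotient G (Ω × Ω)) - 1) * (Subgroup.closure {g : G | ∀ ω : Ω, g • ω ≠ ω}).index := by
  classical
  obtain ⟨hDt, hD1⟩ := Cfsg.Agent.S3546.result (G := G) (Ω := Ω) htrans
  set D := Subgroup.closure {g : G | ∀ ω : Ω, g • ω ≠ ω} with hD
  have := Fintype.ofFinite Ω
  have := Fintype.ofFinite G
  rcases isEmpty_or_nonempty Ω with he | hne
  · have h1 : Nat.card (orbitRel.Quotient D (Ω × Ω)) = 0 := by
      rw [Nat.card_eq_zero]; left; exact ⟨fun x => by
        induction x using Quotient.inductionOn with | _ x => exact he.elim x.1⟩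
    have h2 : Nat.card (orbitRel.Quotient G (Ω × Ω)) = 0 := by
      rw [Nat.card_eq_zero]; left; exact ⟨fun x => by
        induction x using Quotient.inductionOn with | _ x => exact he.elim x.1⟩
    rw [h1, h2]; simp
  have hG := burnside_pairs (H := G) (Ω := Ω)
  have hDD := burnside_pairs (H := D) (Ω := Ω)
  have hsplit := Finset.sum_filter_add_sum_filter_not Finset.univ (fun g : G => g ∈ D) (fun g => (Nat.card (fixedBy Ω g)) ^ 2)
  have h1 : ∑ g ∈ Finset.univ.filter (fun g : G => g ∈ D), (Nat.card (fixedBy Ω g)) ^ 2 =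
      ∑ d : D, (Nat.card (fixedBy Ω d)) ^ 2 := by
    rw [Finset.sum_subtype (p := fun g => g ∈ D)]
    · rfl
    · intro x; simp
  have h2 : ∑ g ∈ Finset.univ.filter (fun g : G => ¬ g ∈ D), (Nat.card (fixedBy Ω g)) ^ 2 =
      (Finset.univ.filter (fun g : G => ¬ g ∈ D)).card := by
    rw [Finset.card_eq_sum_ones]
    apply Finset.sum_congr rfl
    intro g hg
    have h3 : g ∉ D := (Finset.mem_filter.mp hg).2
    by_cases h4 : Nat.card (fixedBy Ω g) = 1
    · rw [h4]; rfl
    · exact absurd (hD1 g h4) h3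
  have h3 : (Finset.univ.filter (fun g : G => g ∈ D)).card + (Finset.univ.filter (fun g : G => ¬ g ∈ D)).card = Fintype.card G := by
    rw [Finset.card_filter_add_card_filter_not, Finset.card_univ]
  have h4 : (Finset.univ.filter (fun g : G => g ∈ D)).card = Fintype.card D := by
    rw [Fintype.card_subtype]
  have h5 : Fintype.card D * D.index = Fintype.card G := by
    have := D.card_mul_index
    rwa [Nat.card_eq_fintype_card, Nat.card_eq_fintype_card] at this
  rw [h1, h2, hDD, hG] at hsplit
  have hrG : 1 ≤ Nat.card (orbitRel.Quotient G (Ω × Ω)) := by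
    obtain ⟨ω⟩ := hne
    have : Nonempty (orbitRel.Quotient G (Ω × Ω)) := ⟨Quotient.mk _ (ω, ω)⟩
    exact Nat.card_pos
  have hrD : 1 ≤ Nat.card (orbitRel.Quotient D (Ω × Ω)) := by
    obtain ⟨ω⟩ := hne
    have : Nonempty (orbitRel.Quotient D (Ω × Ω)) := ⟨Quotient.mk _ (ω, ω)⟩
    exact Nat.card_pos
  obtain ⟨a, ha⟩ := Nat.exists_eq_add_of_le hrG
  obtain ⟨b, hb⟩ := Nat.exists_eq_add_of_le hrD
  rw [ha, hb] at hsplit
  rw [ha, hb]
  rw [h4] at h3
  have hpos : 0 < Fintype.card D := Fintype.card_pos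
  have h6 : b * Fintype.card D = a * D.index * Fintype.card D := by
    have e1 : (1 + b) * Fintype.card D + (Finset.univ.filter (fun g : G => ¬ g ∈ D)).card = (1 + a) * Fintype.card G := hsplit
    have e2 : (1 + b) * Fintype.card D + (Fintype.card G - Fintype.card D) = (1 + a) * Fintype.card G := by
      rw [← e1]; congr 1; omega
    have e3 : Fintype.card D ≤ Fintype.card G := by omega
    rw [← h5] at e2 e3
    zify [e3] at e2 ⊢
    linarith
  have h7 := Nat.eq_of_mul_eq_mul_right hpos h6
  simp [h7]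

end Cfsg.Agent.S3547
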