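import Cfsg.Statements.S3619
import Mathlib

set_option autoImplicit false
open Cfsg

namespace Cfsg.Agent.S3619

open MulAction SubMulAction
open scoped Pointwise

/-- Let G act faithfully on a finite set in such a way that every non-trivial normal subgroup of G is transitive (G is quasiprimitive). Let Γ be a subset with more than one point and not the whole set, such that the pointwise stabilizer of the complement of Γ acts transitively on Γ (a Jordan set). If that pointwise stabilizer acts primitively on Γ, then G is k-fold transitive where k is one more than the number of points outside Γ (the Jordan set is a trivial one). -/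
theorem result {G Ω : Type*} [Group G] [Finite G] [MulAction G Ω] [FaithfulSMul G Ω] [Finite Ω]
    (hqp : ∀ N : Subgroup G, N.Normal → N ≠ ⊥ → MulAction.IsPretransitive ↥N Ω)
    (Γ : Set Ω) (hΓ1 : 1 < Γ.ncard) (hΓ2 : Γ.ncard < Nat.card Ω)
    (hJ : MulAction.IsPretransitive ↥(fixingSubgroup G Γᶜ) ↥(SubMulAction.ofFixingSubgroup G Γᶜ))
    (hJp : MulAction.IsPreprimitive ↥(fixingSubgroup G Γᶜ) ↥(SubMulAction.ofFixingSubgroup G Γᶜ)) :
    MulAction.IsMultiplyPretransitive G Ω (Nat.card Ω - Γ.ncard + 1) := by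
  classical
  have hG : IsPreprimitive G Ω := by
    -- a point of Γ moved by H
    obtain ⟨γ0, hγ0, γ1, hγ1, hne⟩ : ∃ a ∈ Γ, ∃ b ∈ Γ, a ≠ b := by
      obtain ⟨a, b, ha, hb, hab⟩ := (Set.one_lt_ncard_iff (Set.toFinite Γ)).1 hΓ1
      exact ⟨a, ha, b, hb, hab⟩
    have htrans : ∀ a ∈ Γ, ∀ b ∈ Γ, ∃ h ∈ fixingSubgroup G Γᶜ, h • a = b := by
      intro a ha b hb
      obtain ⟨h, hh⟩ := hJ.exists_smul_eq ⟨a, (mem_ofFixingSubgroup_iff G).2 (fun h => h ha)⟩ ⟨b, (mem_ofFixingSubgroup_iff G).2 (fun h => h hb)⟩
      exact ⟨h, h.2, congrArg Subtype.val hh⟩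
    have hH1 : fixingSubgroup G Γᶜ ≠ ⊥ := by
      intro hb
      obtain ⟨h, hh, hh2⟩ := htrans γ0 hγ0 γ1 hγ1
      rw [hb, Subgroup.mem_bot] at hh
      rw [hh, one_smul] at hh2
      exact hne hh2
    have htop : IsPretransitive G Ω := by
      have h1 := hqp ⊤ inferInstance (fun h => hH1 (le_bot_iff.1 (h ▸ le_top)))
      refine ⟨fun x y => ?_⟩
      obtain ⟨g, hg⟩ := h1.exists_smul_eq x y
      exact ⟨g, hg⟩
    have main : ∀ B : Set Ω, IsBlock G B → ¬ B.Subsingleton → ∀ γ0 ∈ Γ, γ0 ∈ B → B = Set.univ := by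
      intro B hB hBs γ0 hγ0 hγ0B
      have hBm := (isBlock_iff_smul_eq_of_mem).1 hB
      have hsub : Γ ⊆ B := by
        by_contra hcon
        rw [Set.not_subset] at hcon
        obtain ⟨γ1, hγ1, hγ1B⟩ := hcon
        have hblock : IsBlock ↥(fixingSubgroup G Γᶜ) ((Subtype.val : ↥(ofFixingSubgroup G Γᶜ) → Ω) ⁻¹' B) := by
          rw [isBlock_iff_smul_eq_of_mem]
          intro h a ha hha
          have h1 : (h : G) • B = B := hBm (a := (a : Ω)) ha hha
          ext x
          rw [Set.mem_smul_set_iff_inv_smul_mem]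
          show ((h⁻¹ : ↥(fixingSubgroup G Γᶜ)) : G) • (x : Ω) ∈ B ↔ (x : Ω) ∈ B
          conv_rhs => rw [← h1, Set.mem_smul_set_iff_inv_smul_mem]
          rfl
        rcases hJp.isTrivialBlock_of_isBlock hblock with h1 | h1
        · obtain ⟨b, hb, hbne⟩ : ∃ b ∈ B, b ≠ γ0 := by
            by_contra hc
            push Not at hc
            exact hBs (fun x hx y hy => by rw [hc x hx, hc y hy])
          have hbΓ : b ∉ Γ := by
            intro hbΓ
            have := h1 (show (⟨b, (mem_ofFixingSubgroup_iff G).2 (fun h => h hbΓ)⟩ : ↥(ofFixingSubgroup G Γᶜ)) ∈ Subtype.val ⁻¹' B from hb)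
              (show (⟨γ0, (mem_ofFixingSubgroup_iff G).2 (fun h => h hγ0)⟩ : ↥(ofFixingSubgroup G Γᶜ)) ∈ Subtype.val ⁻¹' B from hγ0B)
            exact hbne (congrArg Subtype.val this)
          obtain ⟨h, hh, hhγ⟩ := htrans γ0 hγ0 γ1 hγ1
          have hhb : h • b = b := (mem_fixingSubgroup_iff G).1 hh b hbΓ
          have h2 : h • B = B := hBm (a := b) hb (by rw [hhb]; exact hb)
          apply hγ1B
          rw [← h2, ← hhγ]
          exact Set.smul_mem_smul_set hγ0B
        · have : (⟨γ1, (mem_ofFixingSubgroup_iff G).2 (fun h => h hγ1)⟩ : ↥(ofFixingSubgroup G Γᶜ)) ∈ (Subtype.val : ↥(ofFixingSubgroup G Γᶜ) → Ω) ⁻¹' B := by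
            rw [h1]; exact Set.mem_univ _
          exact hγ1B this
      let N : Subgroup G :=
        { carrier := {x | ∀ g : G, x • g • B = g • B}
          one_mem' := fun g => one_smul _ _
          mul_mem' := by
            intro a b ha hb g
            rw [mul_smul, hb g, ha g]
          inv_mem' := by
            intro a ha g
            rw [inv_smul_eq_iff, ha g] }
      have hNn : N.Normal := by
        refine ⟨fun n hn x g => ?_⟩
        have := hn (x⁻¹ * g)
        rw [mul_smul, mul_smul, ← mul_smul x⁻¹ g B, this, mul_smul, smul_inv_smul]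
      have hHN : fixingSubgroup G Γᶜ ≤ N := by
        intro h hh g
        by_cases hgB : g • B = B
        · rw [hgB]
          obtain ⟨γ2, hγ2⟩ : ∃ γ2, γ2 = h • γ0 := ⟨_, rfl⟩
          have hγ2Γ : h • γ0 ∈ Γ := by
            by_contra hcon
            have h3 := (mem_fixingSubgroup_iff G).1 (inv_mem hh) (h • γ0) hcon
            rw [inv_smul_smul] at h3
            exact hcon (h3 ▸ hγ0)
          exact hBm (a := γ0) hγ0B (hsub hγ2Γ)
        · have hdis : Disjoint (g • B) B := by
            have := hB (g₁ := g) (g₂ := 1) (by rw [one_smul]; exact hgB)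
            rwa [one_smul] at this
          ext x
          rw [Set.mem_smul_set_iff_inv_smul_mem]
          constructor
          · intro hx
            have h4 : h⁻¹ • x ∉ Γ := fun h5 => Set.disjoint_left.1 hdis hx (hsub h5)
            have h5 := (mem_fixingSubgroup_iff G).1 hh _ h4
            rw [smul_inv_smul] at h5
            rw [h5]; exact hx
          · intro hx
            have h4 : x ∉ Γ := fun h5 => Set.disjoint_left.1 hdis hx (hsub h5)
            have h5 := (mem_fixingSubgroup_iff G).1 (inv_mem hh) _ h4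
            rw [h5]; exact hx
      have hN1 : N ≠ ⊥ := fun h => hH1 (le_bot_iff.1 (h ▸ hHN))
      have hNt := hqp N hNn hN1
      rw [Set.eq_univ_iff_forall]
      intro y
      obtain ⟨x, hx⟩ := hNt.exists_smul_eq γ0 y
      have h6 : (x : G) • B = B := by
        have := x.2 1
        rwa [one_smul] at this
      rw [← h6, ← hx]
      exact Set.smul_mem_smul_set hγ0B
    refine { toIsPretransitive := htop, isTrivialBlock_of_isBlock := ?_ }
    intro B hB
    by_cases hBs : B.Subsingleton
    · exact Or.inl hBs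
    · right
      obtain ⟨b, hb⟩ : B.Nonempty := by
        by_contra hc
        exact hBs (Set.not_nonempty_iff_eq_empty.1 hc ▸ Set.subsingleton_empty)
      obtain ⟨g, hg⟩ := htop.exists_smul_eq b γ0
      have h7 := main (g • B) (hB.translate g) (by
        intro hc
        apply hBs
        intro x hx y hy
        exact smul_left_cancel g (hc (Set.smul_mem_smul_set hx) (Set.smul_mem_smul_set hy))) γ0 hγ0 (hg ▸ Set.smul_mem_smul_set hb)
      rw [smul_eq_iff_eq_inv_smul, Set.smul_set_univ] at h7
      exact h7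
  have hcompl : Γᶜ.ncard + Γ.ncard = Nat.card Ω := by
    rw [add_comm]; exact Set.ncard_add_ncard_compl Γ
  obtain ⟨n, hn⟩ : ∃ n, Nat.card Ω - Γ.ncard = n + 1 := ⟨Nat.card Ω - Γ.ncard - 1, by omega⟩
  have h1 := hG.isMultiplyPreprimitive (s := Γᶜ) (n := n) (by omega) (by omega) hJp
  rw [hn]
  exact h1.isMultiplyPretransitive

end Cfsg.Agent.S3619
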