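import Cfsg.Statements.S3639
import Mathlib
import Cfsg.Agent.H8.SzGK
open Cfsg.Agent.H8.Suz

set_option autoImplicit false
open Cfsg

namespace Cfsg.Agent.S3639



/-- Let S be the Suzuki group over the field with q = 2^(2m+1) ≥ 8 elements. Then there are finite groups of arbitrarily large order with the same prime graph as S. -/
theorem result {F : Type*} [Field F] [Fintype F] {m : ℕ} (hm : 1 ≤ m) (hF : Fintype.card F = 2 ^ (2 * m + 1)) (N : ℕ) :
    ∃ (H : Type) (_ : Group H) (_ : Fintype H), N < Fintype.card H ∧ ((∀ r : ℕ, r.Prime → (r ∣ Nat.card ↥(Cfsg.Lie.Sz F (2 ^ (m + 1))) ↔ r ∣ Nat.card H)) ∧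
      (∀ r s : ℕ, r.Prime → s.Prime → r ≠ s → ((∃ x : ↥(Cfsg.Lie.Sz F (2 ^ (m + 1))), orderOf x = r * s) ↔ (∃ y : H, orderOf y = r * s)))) := by
  haveI : Cfsg.Agent.H8.Suz.Hyp F m := ⟨hm, hF⟩
  obtain ⟨K, hK1, hK2, ⟨e⟩⟩ := exists_type0 (HH F m N)
  let e' : ↥(Cfsg.Sz F m) ≃* ↥(Cfsg.Lie.Sz F (2 ^ (m + 1))) := eLie m
  refine ⟨K, hK1, hK2, ?_, ?_, ?_⟩
  · rw [← Nat.card_eq_fintype_card, Nat.card_congr e.toEquiv, card_HH]
    calc N < 2 ^ N := Nat.lt_two_pow_self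
      _ ≤ (2 ^ (2 * m + 1)) ^ (4 * N) := by
        rw [← pow_mul]
        exact Nat.pow_le_pow_right (by norm_num) (by nlinarith)
      _ ≤ _ := Nat.le_mul_of_pos_right _ Nat.card_pos
  · intro r hr
    rw [← Nat.card_congr e'.toEquiv, Nat.card_congr e.toEquiv, card_HH]
    constructor
    · intro h; exact dvd_mul_of_dvd_right h _
    · intro h
      rcases (Nat.Prime.dvd_mul hr).1 h with h | h
      · have h1 : r ∣ 2 := hr.dvd_of_dvd_pow (hr.dvd_of_dvd_pow h)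
        rw [card_G]
        refine h1.trans ?_
        apply Dvd.dvd.mul_right
        apply Dvd.dvd.mul_right
        apply dvd_pow _ two_ne_zero
        exact dvd_pow_self 2 (by omega)
      · exact h
  · intro r s hr hs hrs
    have h1 := graph (F := F) m N hr hs hrs
    constructor
    · rintro ⟨x, hx⟩
      obtain ⟨y, hy⟩ := h1.1 ⟨e'.symm x, by rw [MulEquiv.orderOf_eq, hx]⟩
      exact ⟨e.symm y, by rw [MulEquiv.orderOf_eq, hy]⟩
    · rintro ⟨y, hy⟩
      obtain ⟨x, hx⟩ := h1.2 ⟨e y, by rw [MulEquiv.orderOf_eq, hy]⟩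
      exact ⟨e' x, by rw [MulEquiv.orderOf_eq, hx]⟩

end Cfsg.Agent.S3639
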