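import Cfsg.Statements.S3660
import Mathlib
import Cfsg.Agent.H8.VSL
open Cfsg.Agent.H8.VSL

set_option autoImplicit false
open Cfsg

namespace Cfsg.Agent.S3660

noncomputable def pslE {F : Type*} [Field F] [CharP F 2] : Matrix.SpecialLinearGroup (Fin 2) F ≃* Matrix.ProjectiveSpecialLinearGroup (Fin 2) F :=
  MulEquiv.ofBijective (QuotientGroup.mk' (Subgroup.center (Matrix.SpecialLinearGroup (Fin 2) F))) (by
    constructor
    · rw [← MonoidHom.ker_eq_bot_iff, QuotientGroup.ker_mk', eq_bot_iff]
      intro g hg
      obtain ⟨r, hr, hrg⟩ := Matrix.SpecialLinearGroup.mem_center_iff.1 hg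
      rw [Fintype.card_fin] at hr
      have h1 : (r - 1) ^ 2 = 0 := by
        have h20 : (2 : F) = 0 := CharTwo.two_eq_zero
        linear_combination hr + (1 - r) * h20
      have h2 : r = 1 := by
        have := pow_eq_zero_iff (two_ne_zero) |>.1 h1
        linear_combination this
      rw [Subgroup.mem_bot]
      apply Subtype.ext
      rw [← hrg, h2, map_one]; rfl
    · exact QuotientGroup.mk'_surjective _)

/-- The prime graph of a finite group has the prime divisors of its order as vertices, two distinct primes p, q being joined when the group has an element of order pq; two groups have the same prime graph when they have the same prime divisors and the same joined pairs. Let F be a finite field of characteristic 2 with at least 4 elements. Then there are finite groups of arbitrarily large order with the same prime graph as PSL(2,F); in particular PSL(2,F) is not determined by its prime graph. -/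
theorem result {F : Type*} [Field F] [Fintype F] [CharP F 2] (hF : 4 ≤ Fintype.card F) (N : ℕ) :
    ∃ (H : Type) (_ : Group H) (_ : Finite H), N < Nat.card H ∧
      ((∀ p : ℕ, p.Prime → (p ∣ Nat.card (Matrix.ProjectiveSpecialLinearGroup (Fin 2) F) ↔ p ∣ Nat.card H)) ∧
      (∀ p q : ℕ, p.Prime → q.Prime → p ≠ q → ((∃ g : (Matrix.ProjectiveSpecialLinearGroup (Fin 2) F), orderOf g = p * q) ↔ (∃ g : H, orderOf g = p * q)))) := by
  let e : Matrix.SpecialLinearGroup (Fin 2) F ≃* Matrix.ProjectiveSpecialLinearGroup (Fin 2) F := pslE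
  obtain ⟨H, hH1, hH2, ⟨f⟩⟩ := Finite.exists_type_univ_nonempty_mulEquiv.{_, 0} (Multiplicative (Vk F (N + 1)) ⋊[ph (N + 1)] SL F)
  refine ⟨H, hH1, inferInstance, ?_, ?_, ?_⟩
  · rw [← Nat.card_congr f.toEquiv]; exact big N
  · intro p hp
    rw [← Nat.card_congr f.toEquiv, ← Nat.card_congr e.toEquiv]
    exact prime_iff _ hp
  · intro p q hp hq hpq
    constructor
    · rintro ⟨g, hg⟩
      obtain ⟨x, hx⟩ := order_up (k := N + 1) (e.symm g) (n := p * q) (by rw [e.symm.orderOf_eq, hg])
      exact ⟨f x, by rw [f.orderOf_eq, hx]⟩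
    · rintro ⟨g, hg⟩
      obtain ⟨x, hx⟩ := order_down hp hq hpq (f.symm g) (by rw [f.symm.orderOf_eq, hg])
      exact ⟨e x, by rw [e.orderOf_eq, hx]⟩

end Cfsg.Agent.S3660
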