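import Cfsg.Statements.S3678
import Mathlib
import Cfsg.Agent.H8.VSL
import Cfsg.Agent.H8.SL2c
import Cfsg.Agent.H7.PSLSmall
open Cfsg.Agent.H8.VSL

set_option autoImplicit false
open Cfsg

namespace Cfsg.Agent.S3678

section
variable {F : Type*} [Field F]
open Matrix

theorem step {g : SL F} {n : ℕ} {a b : F} (h : (g : Matrix (Fin 2) (Fin 2) F) ^ n = a • (g : Matrix (Fin 2) (Fin 2) F) + b • (1 : Matrix (Fin 2) (Fin 2) F)) :
    (g : Matrix (Fin 2) (Fin 2) F) ^ (n + 1) = (a * g.1.trace + b) • (g : Matrix (Fin 2) (Fin 2) F) + (-a) • (1 : Matrix (Fin 2) (Fin 2) F) := by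
  rw [pow_succ, h, add_mul, smul_mul_assoc, smul_mul_assoc, one_mul, Cfsg.Agent.H8.SL2.cayley]
  module

theorem pows (g : SL F) (t : F) (ht : g.1.trace = t) :
    (g : Matrix (Fin 2) (Fin 2) F) ^ 2 = t • (g : Matrix (Fin 2) (Fin 2) F) + (-1 : F) • (1 : Matrix (Fin 2) (Fin 2) F) ∧
    (g : Matrix (Fin 2) (Fin 2) F) ^ 3 = (t ^ 2 - 1) • (g : Matrix (Fin 2) (Fin 2) F) + (-t) • (1 : Matrix (Fin 2) (Fin 2) F) ∧
    (g : Matrix (Fin 2) (Fin 2) F) ^ 4 = (t ^ 3 - 2 * t) • (g : Matrix (Fin 2) (Fin 2) F) + (-(t ^ 2 - 1)) • (1 : Matrix (Fin 2) (Fin 2) F) ∧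
    (g : Matrix (Fin 2) (Fin 2) F) ^ 7 = (t ^ 6 - 5 * t ^ 4 + 6 * t ^ 2 - 1) • (g : Matrix (Fin 2) (Fin 2) F) + (-(t ^ 5 - 4 * t ^ 3 + 3 * t)) • (1 : Matrix (Fin 2) (Fin 2) F) ∧
    (g : Matrix (Fin 2) (Fin 2) F) ^ 9 = (t ^ 8 - 7 * t ^ 6 + 15 * t ^ 4 - 10 * t ^ 2 + 1) • (g : Matrix (Fin 2) (Fin 2) F) +
      (-(t ^ 7 - 6 * t ^ 5 + 10 * t ^ 3 - 4 * t)) • (1 : Matrix (Fin 2) (Fin 2) F) := by
  have h1 : (g : Matrix (Fin 2) (Fin 2) F) ^ 1 = (1 : F) • (g : Matrix (Fin 2) (Fin 2) F) + (0 : F) • (1 : Matrix (Fin 2) (Fin 2) F) := by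
    rw [pow_one, one_smul, zero_smul, add_zero]
  have h2 := step h1
  have h3 := step h2
  have h4 := step h3
  have h5 := step h4
  have h6 := step h5
  have h7 := step h6
  have h8 := step h7
  have h9 := step h8
  rw [ht] at h2 h3 h4 h7 h9
  refine ⟨h2.trans ?_, h3.trans ?_, h4.trans ?_, h7.trans ?_, h9.trans ?_⟩
  · congr 2 <;> ring
  · congr 2 <;> ring
  · congr 2 <;> ring
  · congr 2 <;> ring
  · congr 2 <;> ring

theorem scal_center {g : SL F} {n : ℕ} {r : F} (h : (g : Matrix (Fin 2) (Fin 2) F) ^ n = r • (1 : Matrix (Fin 2) (Fin 2) F)) :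
    r ^ 2 = 1 ∧ g ^ n ∈ Subgroup.center (SL F) := by
  have h1 : r ^ 2 = 1 := by
    have := (g ^ n).2
    rw [Matrix.SpecialLinearGroup.coe_pow, h, Matrix.det_smul, Matrix.det_one, mul_one, Fintype.card_fin] at this
    exact this
  refine ⟨h1, Matrix.SpecialLinearGroup.mem_center_iff.2 ⟨r, by rw [Fintype.card_fin]; exact h1, ?_⟩⟩
  rw [Matrix.SpecialLinearGroup.coe_pow, h]
  ext i j
  simp [Matrix.scalar_apply, Matrix.diagonal_apply, Matrix.one_apply]

end

theorem ord7 {F : Type*} [Field F] [Fintype F] (hF : Fintype.card F = 7) (x : Matrix.ProjectiveSpecialLinearGroup (Fin 2) F) :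
    orderOf x ∣ 3 ∨ orderOf x ∣ 4 ∨ orderOf x ∣ 7 := by
  obtain ⟨g, rfl⟩ := QuotientGroup.mk_surjective x
  have toPSL : ∀ n, g ^ n ∈ Subgroup.center (SL F) → orderOf (QuotientGroup.mk g : Matrix.ProjectiveSpecialLinearGroup (Fin 2) F) ∣ n := by
    intro n hn
    apply orderOf_dvd_of_pow_eq_one
    rw [← QuotientGroup.mk_pow]
    exact (QuotientGroup.eq_one_iff _).2 hn
  have h70 : (7 : F) = 0 := by
    have := Nat.cast_card_eq_zero F
    rw [hF] at this
    exact_mod_cast this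
  obtain ⟨t, ht⟩ : ∃ t, g.1.trace = t := ⟨_, rfl⟩
  obtain ⟨p2, p3, p4, p7, p9⟩ := pows g t ht
  have h1 : t = 0 ∨ t ^ 2 = 1 ∨ t ^ 2 = 4 ∨ t ^ 2 = 2 := by
    have h2 : t ^ 7 = t := by
      have := FiniteField.pow_card t
      rwa [hF] at this
    have h3 : t * ((t ^ 2 - 1) * ((t ^ 2 - 4) * (t ^ 2 - 2))) = 0 := by
      linear_combination h2 - t * (t ^ 4 - 2 * t ^ 2 + 1) * h70
    rcases mul_eq_zero.1 h3 with h | h
    · exact Or.inl h
    · rcases mul_eq_zero.1 h with h | h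
      · exact Or.inr (Or.inl (sub_eq_zero.1 h))
      · rcases mul_eq_zero.1 h with h | h
        · exact Or.inr (Or.inr (Or.inl (sub_eq_zero.1 h)))
        · exact Or.inr (Or.inr (Or.inr (sub_eq_zero.1 h)))
  rcases h1 with h | h | h | h
  · right; left
    refine (toPSL 2 (scal_center (r := -1) ?_).2).trans (by norm_num)
    rw [p2, h, zero_smul, zero_add]
  · left
    refine toPSL 3 (scal_center (r := -t) ?_).2
    rw [p3, h, sub_self, zero_smul, zero_add]
  · right; right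
    refine toPSL 7 (scal_center (r := -(t ^ 5 - 4 * t ^ 3 + 3 * t)) ?_).2
    have : t ^ 6 - 5 * t ^ 4 + 6 * t ^ 2 - 1 = 0 := by
      linear_combination (t ^ 4 - t ^ 2 + 2) * h + h70
    rw [p7, this, zero_smul, zero_add]
  · right; left
    refine toPSL 4 (scal_center (r := -(t ^ 2 - 1)) ?_).2
    have : t ^ 3 - 2 * t = 0 := by linear_combination t * h
    rw [p4, this, zero_smul, zero_add]

theorem ord8 {F : Type*} [Field F] [Finite F] [CharP F 2] (hF : Nat.card F = 8) (g : SL F) :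
    orderOf g ∣ 2 ∨ orderOf g ∣ 7 ∨ orderOf g ∣ 9 := by
  haveI := Fintype.ofFinite F
  have h20 : (2 : F) = 0 := CharTwo.two_eq_zero
  have fin : ∀ n : ℕ, ∀ r : F, (g : Matrix (Fin 2) (Fin 2) F) ^ n = r • (1 : Matrix (Fin 2) (Fin 2) F) → g ^ n = 1 := by
    intro n r h
    have h1 := (scal_center h).1
    have h2 : (r - 1) ^ 2 = 0 := by linear_combination h1 + (1 - r) * h20
    have h3 : r = 1 := by
      have := pow_eq_zero_iff (two_ne_zero) |>.1 h2
      linear_combination this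
    apply Subtype.ext
    rw [Matrix.SpecialLinearGroup.coe_pow, h, h3, one_smul, Matrix.SpecialLinearGroup.coe_one]
  obtain ⟨t, ht⟩ : ∃ t, g.1.trace = t := ⟨_, rfl⟩
  obtain ⟨p2, p3, p4, p7, p9⟩ := pows g t ht
  have h1 : t = 0 ∨ t ^ 3 + t ^ 2 + 1 = 0 ∨ (t + 1) * (t ^ 3 + t + 1) = 0 := by
    have h2 : t ^ 8 = t := by
      have := FiniteField.pow_card t
      rwa [← Nat.card_eq_fintype_card, hF] at this
    have h3 : t * ((t ^ 3 + t ^ 2 + 1) * ((t + 1) * (t ^ 3 + t + 1))) = 0 := by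
      linear_combination h2 + (t ^ 7 + t ^ 6 + 2 * t ^ 5 + 2 * t ^ 4 + t^3 + t^2 + t) * h20
    rcases mul_eq_zero.1 h3 with h | h
    · exact Or.inl h
    · exact Or.inr (mul_eq_zero.1 h)
  rcases h1 with h | h | h
  · left
    refine orderOf_dvd_of_pow_eq_one (fin 2 (-1) ?_)
    rw [p2, h, zero_smul, zero_add]
  · right; left
    refine orderOf_dvd_of_pow_eq_one (fin 7 (-(t ^ 5 - 4 * t ^ 3 + 3 * t)) ?_)
    have : t ^ 6 - 5 * t ^ 4 + 6 * t ^ 2 - 1 = 0 := by
      have e : t ^ 6 - 5 * t ^ 4 + 6 * t ^ 2 - 1 = (t ^ 3 + t ^ 2 + 1) ^ 2 + 2 * (-(t ^ 5) - 3 * t ^ 4 - t ^ 3 + 2 * t ^ 2 - 1) := by ring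
      rw [e, h, h20]; ring
    rw [p7, this, zero_smul, zero_add]
  · right; right
    refine orderOf_dvd_of_pow_eq_one (fin 9 (-(t ^ 7 - 6 * t ^ 5 + 10 * t ^ 3 - 4 * t)) ?_)
    have : t ^ 8 - 7 * t ^ 6 + 15 * t ^ 4 - 10 * t ^ 2 + 1 = 0 := by
      have e : t ^ 8 - 7 * t ^ 6 + 15 * t ^ 4 - 10 * t ^ 2 + 1 = ((t + 1) * (t ^ 3 + t + 1)) ^ 2 +
        2 * (-2 * t - 8 * t ^ 2 - 3 * t ^ 3 + 4 * t ^ 4 - 3 * t ^ 5 - 5 * t ^ 6 - t ^ 7) := by ring
      rw [e, h, h20]; ring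
    rw [p9, this, zero_smul, zero_add]

/-- The prime graph of a finite group has the prime divisors of its order as vertices, two distinct primes p, q being joined when the group has an element of order pq; two groups have the same prime graph when they have the same prime divisors and the same joined pairs. Let F be the field with 7 elements. There are finite groups of arbitrarily large order with the same prime graph as PSL(2,F) (the graph on {2, 3, 7} with no edges, which is also the prime graph of PSL(2,8)). -/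
theorem result {F : Type*} [Field F] [Fintype F] (hF : Fintype.card F = 7) (N : ℕ) :
    ∃ (H : Type) (_ : Group H) (_ : Finite H), N < Nat.card H ∧
      ((∀ p : ℕ, p.Prime → (p ∣ Nat.card (Matrix.ProjectiveSpecialLinearGroup (Fin 2) F) ↔ p ∣ Nat.card H)) ∧
      (∀ p q : ℕ, p.Prime → q.Prime → p ≠ q → ((∃ g : (Matrix.ProjectiveSpecialLinearGroup (Fin 2) F), orderOf g = p * q) ↔ (∃ g : H, orderOf g = p * q)))) := by
  have c8 : Nat.card (GaloisField 2 3) = 8 := by rw [GaloisField.card 2 3 (by norm_num)]; norm_num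
  haveI : Finite (GaloisField 2 3) := Nat.finite_of_card_ne_zero (by rw [c8]; norm_num)
  obtain ⟨H, hH1, hH2, ⟨f⟩⟩ := Finite.exists_type_univ_nonempty_mulEquiv.{_, 0} (Multiplicative (Vk (GaloisField 2 3) (N + 1)) ⋊[ph (N + 1)] SL (GaloisField 2 3))
  have hpr : ∀ p q : ℕ, p.Prime → q.Prime → p ≠ q → ∀ r s : ℕ, r.Prime → ¬ p * q ∣ r ^ s := by
    intro p q hp hq hpq r s hr h
    have h1 := (Nat.prime_dvd_prime_iff_eq hp hr).1 (hp.dvd_of_dvd_pow ((Nat.dvd_mul_right p q).trans h))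
    have h2 := (Nat.prime_dvd_prime_iff_eq hq hr).1 (hq.dvd_of_dvd_pow ((Nat.dvd_mul_left q p).trans h))
    exact hpq (h1.trans h2.symm)
  refine ⟨H, hH1, inferInstance, ?_, ?_, ?_⟩
  · rw [← Nat.card_congr f.toEquiv]; exact big N
  · intro p hp
    rw [← Nat.card_congr f.toEquiv, ← prime_iff _ hp]
    have h1 : Nat.card (SL (GaloisField 2 3)) = 504 := by
      rw [Cfsg.Agent.H8.SL2.card_SL2, c8]; norm_num
    have h2 : Nat.card (Matrix.ProjectiveSpecialLinearGroup (Fin 2) F) = 168 := by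
      have := Cfsg.Agent.H7.Tv.card_psl_two hF
      norm_num at this
      omega
    rw [h1, h2]
    constructor
    · intro h
      exact h.trans (by norm_num)
    · intro h
      exact hp.dvd_of_dvd_pow (n := 2) (h.trans (by norm_num))
  · intro p q hp hq hpq
    constructor
    · rintro ⟨g, hg⟩
      exfalso
      rcases ord7 hF g with h | h | h
      · exact hpr p q hp hq hpq 3 1 (by norm_num) (by rw [← hg]; simpa using h)
      · exact hpr p q hp hq hpq 2 2 (by norm_num) (by rw [← hg]; simpa using h)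
      · exact hpr p q hp hq hpq 7 1 (by norm_num) (by rw [← hg]; simpa using h)
    · rintro ⟨g, hg⟩
      exfalso
      obtain ⟨x, hx⟩ := order_down hp hq hpq (f.symm g) (by rw [f.symm.orderOf_eq, hg])
      rcases ord8 c8 x with h | h | h
      · exact hpr p q hp hq hpq 2 1 (by norm_num) (by rw [← hx]; simpa using h)
      · exact hpr p q hp hq hpq 7 1 (by norm_num) (by rw [← hx]; simpa using h)
      · exact hpr p q hp hq hpq 3 2 (by norm_num) (by rw [← hx]; simpa using h)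

end Cfsg.Agent.S3678
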