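import Cfsg.Statements.S3680
import Cfsg.Agent.S0703
import Cfsg.Agent.S0704
import Cfsg.Agent.H4.CharSimp
import Cfsg.Agent.H2.CharSimple
import Mathlib

set_option autoImplicit false
open Cfsg

namespace Cfsg.Agent.S3680

open Pointwise

variable {G Ω : Type*} [Group G] [MulAction G Ω]

theorem trans_of_map [FaithfulSMul G Ω] (e : G ≃* (MulAction.toPermHom G Ω).range) (he : ∀ g, ((e g : (MulAction.toPermHom G Ω).range) : Equiv.Perm Ω) = MulAction.toPermHom G Ω g)
    (M : Subgroup G) (h : MulAction.IsPretransitive M Ω) :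
    MulAction.IsPretransitive (M.map e.toMonoidHom) Ω := by
  refine ⟨fun x y => ?_⟩
  obtain ⟨m, hm⟩ := h.exists_smul_eq x y
  refine ⟨⟨e m, ⟨_, m.2, rfl⟩⟩, ?_⟩
  show ((e m : (MulAction.toPermHom G Ω).range) : Equiv.Perm Ω) x = y
  rw [he]; exact hm

theorem min_map {G' : Type*} [Group G'] (e : G ≃* G') (M : Subgroup G) (h : ∀ L : Subgroup G, L.Normal → L ≤ M → L = ⊥ ∨ L = M) :
    ∀ L : Subgroup G', L.Normal → L ≤ M.map e.toMonoidHom → L = ⊥ ∨ L = M.map e.toMonoidHom := by
  intro L hL hLM
  have h1 := h (L.comap e.toMonoidHom) (hL.comap _) (by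
    intro x hx
    obtain ⟨y, hy, hyx⟩ := hLM hx
    have : y = x := e.injective hyx
    rw [← this]; exact hy)
  have h2 : (L.comap e.toMonoidHom).map e.toMonoidHom = L := Subgroup.map_comap_eq_self_of_surjective e.surjective L
  rcases h1 with h1 | h1
  · left; rw [← h2, h1, Subgroup.map_bot]
  · right; rw [← h2, h1]

theorem pow_prod (T : Type*) [Group T] (m : ℕ) : Nonempty ((Fin m → T) × (Fin m → T) ≃* (Fin (m + m) → T)) := by
  refine ⟨{ (Fin.appendEquiv m m : (Fin m → T) × (Fin m → T) ≃ (Fin (m + m) → T)) with map_mul' := ?_ }⟩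
  intro x y
  funext i
  refine Fin.addCases (fun j => ?_) (fun j => ?_) i
  · simp [Fin.appendEquiv]
  · show Fin.append (x.1 * y.1) (x.2 * y.2) (Fin.natAdd m j) = Fin.append x.1 x.2 (Fin.natAdd m j) * Fin.append y.1 y.2 (Fin.natAdd m j)
    rw [Fin.append_right, Fin.append_right, Fin.append_right]; rfl

/-- The socle of a finite primitive permutation group. Let a finite group G act faithfully and primitively on a set Ω, and let N be the subgroup generated by the minimal normal subgroups of G. Then either N is an elementary abelian p-group for some prime p and acts regularly on Ω (transitively with trivial point stabilizers), or N is isomorphic to a direct product of m ≥ 1 copies of a non-abelian simple group. -/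
theorem result {G Ω : Type*} [Group G] [Finite G] [MulAction G Ω] [FaithfulSMul G Ω] [Finite Ω]
    (hprim : MulAction.IsPreprimitive G Ω) (N : Subgroup G)
    (hN : N = sSup {V : Subgroup G | V.Normal ∧ V ≠ ⊥ ∧ ∀ M : Subgroup G, M.Normal → M ≤ V → M = ⊥ ∨ M = V}) :
    (∃ p : ℕ, p.Prime ∧ IsMulCommutative N ∧ (∀ x : N, x ^ p = 1) ∧
      MulAction.IsPretransitive N Ω ∧ ∀ ω : Ω, MulAction.stabilizer N ω = ⊥) ∨
    (∃ (T : Type) (_ : Group T) (m : ℕ), 1 ≤ m ∧ IsSimpleGroup T ∧ ¬ IsMulCommutative T ∧ Nonempty (N ≃* (Fin m → T))) := by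
  classical
  have hinj : Function.Injective (MulAction.toPermHom G Ω) := MulAction.toPerm_injective
  let e : G ≃* (MulAction.toPermHom G Ω).range := MonoidHom.ofInjective hinj
  have he : ∀ g, ((e g : (MulAction.toPermHom G Ω).range) : Equiv.Perm Ω) = MulAction.toPermHom G Ω g := fun g => rfl
  have htr : ∀ M : Subgroup G, M.Normal → M ≠ ⊥ → MulAction.IsPretransitive M Ω := by
    intro M hMn hM
    refine MulAction.IsQuasiPreprimitive.isPretransitive_of_normal (G := G) (X := Ω) (N := M) ?_
    intro h
    apply hM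
    rw [eq_bot_iff]
    intro m hm
    rw [Subgroup.mem_bot]
    apply FaithfulSMul.eq_of_smul_eq_smul (α := Ω)
    intro x
    rw [one_smul]
    have : x ∈ MulAction.fixedPoints M Ω := h ▸ Set.mem_univ x
    exact this ⟨m, hm⟩
  have hmapne : ∀ M : Subgroup G, M ≠ ⊥ → M.map e.toMonoidHom ≠ ⊥ := by
    intro M hM h
    exact hM ((Subgroup.map_eq_bot_iff_of_injective M e.injective).1 h)
  have hmapinj : ∀ M L : Subgroup G, M.map e.toMonoidHom = L.map e.toMonoidHom → M = L := fun M L h => Subgroup.map_injective e.injective h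
  by_cases hG : ∃ M : Subgroup G, M.Normal ∧ M ≠ ⊥ ∧ ∀ L : Subgroup G, L.Normal → L ≤ M → L = ⊥ ∨ L = M
  · obtain ⟨M, hMn, hM1, hMm⟩ := hG
    have hmn : (M.map e.toMonoidHom).Normal := hMn.map _ e.surjective
    by_cases hab : IsMulCommutative M
    · left
      have habm : IsMulCommutative (M.map e.toMonoidHom) := by
        refine ⟨⟨?_⟩⟩
        rintro ⟨_, x, hx, rfl⟩ ⟨_, y, hy, rfl⟩
        apply Subtype.ext
        show e x * e y = e y * e x
        rw [← map_mul, ← map_mul]
        exact congrArg e (congrArg Subtype.val (hab.is_comm.comm ⟨x, hx⟩ ⟨y, hy⟩))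
      obtain ⟨-, h2, ⟨p, hp, h3⟩, h4⟩ := S0703.result (MulAction.toPermHom G Ω).range (M.map e.toMonoidHom) (hmapne M hM1) (min_map e M hMm) habm
        (trans_of_map e he M (htr M hMn hM1))
      have hNM : N = M := by
        rw [hN]
        apply le_antisymm
        · refine sSup_le ?_
          rintro V ⟨hV1, hV2, hV3⟩
          have := h4 (V.map e.toMonoidHom) (hV1.map _ e.surjective) (hmapne V hV2) (min_map e V hV3)
          exact (hmapinj _ _ this).le
        · exact le_sSup ⟨hMn, hM1, hMm⟩
      subst hNM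
      refine ⟨p, hp, hab, ?_, htr _ hMn hM1, ?_⟩
      · intro x
        have := h3 (e x) ⟨_, x.2, rfl⟩
        rw [← map_pow, ← map_one e] at this
        exact Subtype.ext (e.injective this)
      · intro ω
        rw [eq_bot_iff]
        intro x hx
        have h5 : (⟨e x, ⟨_, x.2, rfl⟩⟩ : N.map e.toMonoidHom) ∈ MulAction.stabilizer (N.map e.toMonoidHom) ω := by
          rw [MulAction.mem_stabilizer_iff]
          exact hx
        rw [h2 ω, Subgroup.mem_bot] at h5
        have h6 : e x = 1 := congrArg Subtype.val h5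
        rw [← map_one e] at h6
        rw [Subgroup.mem_bot]
        exact Subtype.ext (e.injective h6)
    · right
      obtain ⟨T, hTg, m, hTs, hm, ⟨f⟩⟩ := H4.min_normal_prod M hM1 hMm
      have hTna : ¬ IsMulCommutative T := by
        intro hT
        apply hab
        refine ⟨⟨fun x y => f.injective ?_⟩⟩
        rw [map_mul, map_mul]
        funext i
        exact hT.is_comm.comm _ _
      by_cases hex : ∃ V : Subgroup G, V.Normal ∧ V ≠ ⊥ ∧ (∀ L : Subgroup G, L.Normal → L ≤ V → L = ⊥ ∨ L = V) ∧ V ≠ M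
      · obtain ⟨V, hVn, hV1, hVm, hVM⟩ := hex
        have hvn : (V.map e.toMonoidHom).Normal := hVn.map _ e.surjective
        obtain ⟨-, -, -, ⟨h4⟩, -, -, h7⟩ := S0704.result (MulAction.toPermHom G Ω).range (M.map e.toMonoidHom) (V.map e.toMonoidHom) (hmapne M hM1) (hmapne V hV1)
          (min_map e M hMm) (min_map e V hVm) (fun h => hVM (hmapinj _ _ h).symm) (trans_of_map e he M (htr M hMn hM1)) (trans_of_map e he V (htr V hVn hV1))
        have hNe : N = M ⊔ V := by
          rw [hN]
          apply le_antisymm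
          · refine sSup_le ?_
            rintro W ⟨hW1, hW2, hW3⟩
            rcases h7 (W.map e.toMonoidHom) (hW1.map _ e.surjective) (hmapne W hW2) (min_map e W hW3) with h | h
            · rw [hmapinj _ _ h]; exact le_sup_left
            · rw [hmapinj _ _ h]; exact le_sup_right
          · exact sup_le (le_sSup ⟨hMn, hM1, hMm⟩) (le_sSup ⟨hVn, hV1, hVm⟩)
        have hinf : M ⊓ V = ⊥ := by
          rcases hMm (M ⊓ V) inferInstance inf_le_left with h | h
          · exact h
          · exfalso
            have h1 : M ≤ V := by rw [← h]; exact inf_le_right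
            rcases hVm M hMn h1 with h2 | h2
            · exact hM1 h2
            · exact hVM h2.symm
        obtain ⟨φ⟩ := H2.sup_equiv_prod M V hinf
        have ψ : M ≃* V := (e.subgroupMap M).trans (h4.trans (e.subgroupMap V).symm)
        obtain ⟨χ⟩ := pow_prod T m
        refine ⟨T, hTg, m + m, by omega, hTs, hTna, ⟨?_⟩⟩
        exact (MulEquiv.subgroupCongr hNe).trans (φ.trans ((MulEquiv.prodCongr f (ψ.symm.trans f)).trans χ))
      · push Not at hex
        have hNM : N = M := by
          rw [hN]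
          apply le_antisymm
          · refine sSup_le ?_
            rintro V ⟨hV1, hV2, hV3⟩
            exact (hex V hV1 hV2 hV3).le
          · exact le_sSup ⟨hMn, hM1, hMm⟩
        subst hNM
        exact ⟨T, hTg, m, hm, hTs, hTna, ⟨f⟩⟩
  · -- trivial group
    left
    have hGt : ∀ g : G, g = 1 := by
      by_contra hcon
      push Not at hcon
      obtain ⟨g, hg⟩ := hcon
      haveI : Nontrivial G := ⟨g, 1, hg⟩
      obtain ⟨S, hS1, hS2, hS3⟩ := H2.exists_min_normal (N := G)
      exact hG ⟨S, hS1, hS2, hS3⟩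
    have hNb : ∀ x : N, x = 1 := fun x => Subtype.ext (hGt x)
    refine ⟨2, Nat.prime_two, ⟨⟨fun x y => by rw [hNb x, hNb y]⟩⟩, fun x => by rw [hNb x, one_pow], ⟨fun x y => ?_⟩, fun ω => ?_⟩
    · obtain ⟨g, hg⟩ := hprim.toIsPretransitive.exists_smul_eq x y
      rw [hGt g, one_smul] at hg
      exact ⟨1, by rw [one_smul]; exact hg⟩
    · rw [eq_bot_iff]
      intro x _
      rw [Subgroup.mem_bot]; exact hNb x

end Cfsg.Agent.S3680
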