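import Cfsg.Statements.S3683

-- import your own Cfsg.Agent.* helpers here

set_option autoImplicit false
open Cfsg

namespace Cfsg.Agent.S3683

/-- Let a finite group G act faithfully and primitively on a set Ω, and suppose the stabilizer of a point a fixes a second point b ≠ a (a suborbit of length 1 other than {a}). Then the stabilizer of a is trivial and G is cyclic of prime order. -/
theorem result {G Ω : Type*} [Group G] [Finite G] [MulAction G Ω] [FaithfulSMul G Ω] [Finite Ω]
    (hprim : MulAction.IsPreprimitive G Ω) (a b : Ω) (hab : a ≠ b) (hfix : ∀ g : G, g • a = a → g • b = b) :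
    MulAction.stabilizer G a = ⊥ ∧ IsCyclic G ∧ (Nat.card G).Prime := by
  classical
  have hst : MulAction.stabilizer G a ≤ MulAction.stabilizer G b := fun g hg => hfix g hg
  haveI := hprim
  haveI : MulAction.IsPretransitive G Ω := hprim.toIsPretransitive
  obtain ⟨g, hg⟩ := MulAction.exists_smul_eq G a b
  haveI : Nontrivial Ω := ⟨a, b, hab⟩
  have hco : IsCoatom (MulAction.stabilizer G a) := (MulAction.isCoatom_stabilizer_iff_preprimitive G a).mpr hprim
  have hcj : ∀ (k : G) (x : Ω), MulAction.stabilizer G (k • x) = (MulAction.stabilizer G x).map (MulAut.conj k).toMonoidHom := MulAction.stabilizer_smul_eq_stabilizer_map_conj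
  have hcard : Nat.card (MulAction.stabilizer G b) = Nat.card (MulAction.stabilizer G a) := by
    rw [← hg, hcj]
    exact (Nat.card_congr (Subgroup.equivMapOfInjective _ _ (MulAut.conj g).injective).toEquiv).symm
  have heq : MulAction.stabilizer G a = MulAction.stabilizer G b := Subgroup.eq_of_le_of_card_ge hst hcard.le
  have hgn : g ∈ Subgroup.normalizer (MulAction.stabilizer G a : Set G) := by
    have h1 : (MulAction.stabilizer G a).map (MulAut.conj g).toMonoidHom = MulAction.stabilizer G a := by
      rw [← hcj, hg, heq]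
    rw [Subgroup.mem_set_normalizer_iff]
    intro y
    constructor
    · intro hy
      rw [← h1]; exact ⟨y, hy, rfl⟩
    · intro hy
      rw [SetLike.mem_coe, ← h1] at hy
      obtain ⟨w, hw, hwy⟩ := hy
      have h2 : g * w * g⁻¹ = g * y * g⁻¹ := hwy
      have h3 : w = y := mul_left_cancel (mul_right_cancel h2)
      rwa [← h3]
  have hgs : g ∉ MulAction.stabilizer G a := by
    intro h
    rw [MulAction.mem_stabilizer_iff, hg] at h
    exact hab h.symm
  have htop : Subgroup.normalizer (MulAction.stabilizer G a : Set G) = ⊤ := by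
    apply hco.2
    exact lt_of_le_of_ne Subgroup.le_normalizer (fun h => hgs (by rw [h]; exact hgn))
  haveI hn : (MulAction.stabilizer G a).Normal := Subgroup.normalizer_eq_top_iff.mp htop
  have hbot : MulAction.stabilizer G a = ⊥ := by
    rw [Subgroup.eq_bot_iff_forall]
    intro h hh
    apply FaithfulSMul.eq_of_smul_eq_smul (α := Ω)
    intro x
    obtain ⟨k, rfl⟩ := MulAction.exists_smul_eq G a x
    have h1 := hn.conj_mem h hh k⁻¹
    rw [MulAction.mem_stabilizer_iff] at h1
    rw [one_smul]
    have h2 : h • k • a = k • ((k⁻¹ * h * k⁻¹⁻¹) • a) := by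
      rw [← mul_smul, ← mul_smul]; congr 1; group
    rw [h2, h1]
  refine ⟨hbot, ?_⟩
  rw [hbot] at hco
  have hall : ∀ x : G, x ≠ 1 → Subgroup.zpowers x = ⊤ := by
    intro x hx
    apply hco.2
    exact bot_lt_iff_ne_bot.mpr (fun h => hx (Subgroup.zpowers_eq_bot.mp h))
  have hg1 : g ≠ 1 := fun h => hgs (by rw [h]; exact one_mem _)
  have hnt : Nat.card G ≠ 1 := by
    intro h
    haveI := (Nat.card_eq_one_iff_unique.mp h).1
    exact hg1 (Subsingleton.elim _ _)
  obtain ⟨p, hp, hpd⟩ := Nat.exists_prime_and_dvd hnt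
  haveI := Fact.mk hp
  obtain ⟨x, hx⟩ := exists_prime_orderOf_dvd_card' p hpd
  have hx1 : x ≠ 1 := by
    rintro rfl
    rw [orderOf_one] at hx
    exact hp.one_lt.ne hx
  have hc : Nat.card G = p := by
    rw [← hx, ← Nat.card_zpowers, hall x hx1, Subgroup.card_top]
  exact ⟨isCyclic_of_prime_card hc, by rw [hc]; exact hp⟩

end Cfsg.Agent.S3683
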