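import Cfsg.Statements.S3746
import Mathlib
import Mathlib
import Cfsg.Agent.H1.Basic
import Cfsg.Agent.H2.PComp2

set_option autoImplicit false
open Cfsg

namespace Cfsg.Agent.S3746

open Subgroup
open scoped commutatorElement

/-- Let Z ≤ Z(G) be a central subgroup of a finite group G and E a subgroup of G containing Z whose image E/Z is a component of G/Z (subnormal and quasisimple). Then the derived subgroup [E, E] is a component of G. -/
theorem result {G : Type*} [Group G] [Finite G] (Z : Subgroup G) (hZ : Z ≤ Subgroup.center G) [Z.Normal] (E : Subgroup G) (hZE : Z ≤ E) (hE : Cfsg.IsComponent (E.map (QuotientGroup.mk' Z))) : Cfsg.IsComponent ⁅E, E⁆ := by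
  classical
  set L : Subgroup G := ⁅E, E⁆ with hL
  have hLE : L ≤ E := by rw [hL, commutator_le]; intro a ha b hb; exact (mul_mem (mul_mem (mul_mem ha hb) (inv_mem ha)) (inv_mem hb) : a * b * a⁻¹ * b⁻¹ ∈ E)
  have hmap : L.map (QuotientGroup.mk' Z) = E.map (QuotientGroup.mk' Z) := by
    have h1 := L0.commutator_self_of_isQuasisimple hE.2
    rw [hL, map_commutator]; exact h1
  have hEL : E ≤ L ⊔ Z := by
    intro e he
    have h1 : QuotientGroup.mk' Z e ∈ L.map (QuotientGroup.mk' Z) := by rw [hmap]; exact ⟨e, he, rfl⟩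
    obtain ⟨l, hl, hle⟩ := h1
    have h2 : l⁻¹ * e ∈ Z := QuotientGroup.eq.1 hle
    have h3 : e = l * (l⁻¹ * e) := by group
    rw [h3]; exact mul_mem (mem_sup_left hl) (mem_sup_right h2)
  have hLL : ⁅L, L⁆ = L := by
    apply le_antisymm
    · rw [commutator_le]; intro a ha b hb; exact (mul_mem (mul_mem (mul_mem ha hb) (inv_mem ha)) (inv_mem hb) : a * b * a⁻¹ * b⁻¹ ∈ L)
    · conv_lhs => rw [hL]
      rw [commutator_le]
      intro a ha b hb
      obtain ⟨l, hl, z, hz, rfl⟩ := mem_sup_of_normal_right.1 (hEL ha)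
      obtain ⟨l', hl', z', hz', rfl⟩ := mem_sup_of_normal_right.1 (hEL hb)
      have hzc := mem_center_iff.1 (hZ hz)
      have hzc' := mem_center_iff.1 (hZ hz')
      have h1 : ⁅l * z, l' * z'⁆ = ⁅l, l'⁆ := by
        have e1 : (l * z) * (l' * z') = (l * l') * (z * z') := by
          calc (l * z) * (l' * z') = l * (z * l') * z' := by group
            _ = (l * l') * (z * z') := by rw [← hzc l']; group
        have e2 : (l' * z') * (l * z) = (l' * l) * (z * z') := by
          calc (l' * z') * (l * z) = l' * (z' * l) * z := by group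
            _ = (l' * l) * (z' * z) := by rw [← hzc' l]; group
            _ = (l' * l) * (z * z') := by rw [hzc z']
        have e3 : ⁅l * z, l' * z'⁆ = ((l * z) * (l' * z')) * ((l' * z') * (l * z))⁻¹ := by rw [commutatorElement_def]; group
        rw [e3, e1, e2, commutatorElement_def]; group
      rw [h1]; exact commutator_mem_commutator hl hl'
  haveI hperf : Group.IsPerfect L := Subgroup.isPerfect_iff.2 hLL
  have hEsub : E.IsSubnormal := by
    have h1 := hE.1.comap (QuotientGroup.mk' Z)
    have h2 : (E.map (QuotientGroup.mk' Z)).comap (QuotientGroup.mk' Z) = E := by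
      rw [comap_map_eq, QuotientGroup.ker_mk']; exact sup_eq_left.2 hZE
    rwa [h2] at h1
  have hLn : (L.subgroupOf E).Normal := (normal_subgroupOf_iff_le_normalizer hLE).2 (normalizer_commutator_ge_left _ _)
  have hsub : L.IsSubnormal := IsSubnormal.step L E hLE hEsub hLn
  have hq : IsQuasisimple (L.map (QuotientGroup.mk' Z)) := by rw [hmap]; exact hE.2
  refine ⟨hsub, ?_⟩
  refine H2.perfect_cases hperf hq ((QuotientGroup.mk' Z).subgroupMap L) (MonoidHom.subgroupMap_surjective _ _) ?_
  intro x hx
  rw [MonoidHom.mem_ker] at hx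
  have h1 : QuotientGroup.mk' Z (x : G) = 1 := congrArg Subtype.val hx
  have h2 : (x : G) ∈ Z := (QuotientGroup.eq_one_iff (x : G)).1 h1
  rw [mem_center_iff]
  intro y
  exact Subtype.ext ((mem_center_iff.1 (hZ h2)) y)

end Cfsg.Agent.S3746
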