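import Cfsg.Statements.S3815
import Cfsg.Agent.L0.Core

set_option autoImplicit false
open Cfsg

namespace Cfsg.Agent.S3815

/-- Let G be a finite group, p a prime and d ∈ G an element of order prime to p. If dg has order prime to p for every element g ∈ G of order prime to p, then d ∈ O_{p'}(G). -/
theorem result {G : Type*} [Group G] [Finite G] {p : ℕ} [Fact p.Prime]
    (d : G) (hd : (orderOf d).Coprime p)
    (h : ∀ g : G, (orderOf g).Coprime p → (orderOf (d * g)).Coprime p) :
    d ∈ Cfsg.pPrimeCore p G := by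
  have hp : p.Prime := Fact.out
  set X : Set G := {g | (orderOf g).Coprime p} with hX
  have hXconj : ∀ g ∈ X, ∀ h : G, h * g * h⁻¹ ∈ X := by
    intro g hg h
    have : orderOf (h * g * h⁻¹) = orderOf g := by
      have := MulEquiv.orderOf_eq (MulAut.conj h) g
      rwa [MulAut.conj_apply] at this
    show (orderOf (h * g * h⁻¹)).Coprime p
    rw [this]; exact hg
  let N : Subgroup G :=
    { carrier := {n | ∀ g ∈ X, n * g ∈ X ∧ n⁻¹ * g ∈ X}
      mul_mem' := by
        intro a b ha hb g hg
        refine ⟨?_, ?_⟩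
        · rw [mul_assoc]; exact (ha _ (hb g hg).1).1
        · rw [mul_inv_rev, mul_assoc]; exact (hb _ (ha g hg).2).2
      one_mem' := by intro g hg; simpa using hg
      inv_mem' := by
        intro a ha g hg
        rw [inv_inv]; exact ⟨(ha g hg).2, (ha g hg).1⟩ }
  have hNn : N.Normal := by
    constructor
    intro n hn h g hg
    have hg' : h⁻¹ * g * h ∈ X := by simpa using hXconj g hg h⁻¹
    have h1 := hn _ hg'
    refine ⟨?_, ?_⟩
    · have := hXconj _ h1.1 h
      have e : h * (n * (h⁻¹ * g * h)) * h⁻¹ = h * n * h⁻¹ * g := by group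
      rwa [e] at this
    · have := hXconj _ h1.2 h
      have e : h * (n⁻¹ * (h⁻¹ * g * h)) * h⁻¹ = (h * n * h⁻¹)⁻¹ * g := by group
      rwa [e] at this
  have hpow : ∀ k : ℕ, ∀ g ∈ X, d ^ k * g ∈ X := by
    intro k
    induction k with
    | zero => intro g hg; simpa using hg
    | succ k ih =>
      intro g hg
      rw [pow_succ, mul_assoc]
      exact ih _ (h g hg)
  have hdN : d ∈ N := by
    intro g hg
    refine ⟨h g hg, ?_⟩
    have hdinv : d⁻¹ = d ^ (orderOf d - 1) := by
      have hpos : 0 < orderOf d := orderOf_pos d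
      rw [inv_eq_iff_mul_eq_one, ← pow_succ', Nat.sub_add_cancel hpos, pow_orderOf_eq_one]
    rw [hdinv]
    exact hpow _ g hg
  have hNX : ∀ n ∈ N, (orderOf n).Coprime p := by
    intro n hn
    have h1 : (1 : G) ∈ X := by show (orderOf (1 : G)).Coprime p; simp
    have := (hn 1 h1).1
    rwa [mul_one] at this
  apply L0.le_pPrimeCore (N := N) ?_ hdN
  rw [Nat.coprime_comm, Nat.Prime.coprime_iff_not_dvd hp]
  intro hdvd
  obtain ⟨x, hx⟩ := exists_prime_orderOf_dvd_card' p hdvd
  have := hNX x x.2
  rw [Subgroup.orderOf_coe, hx] at this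
  exact hp.one_lt.ne' ((Nat.coprime_self p).1 this)

end Cfsg.Agent.S3815
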