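import Cfsg.Statements.S3820


set_option autoImplicit false
open Cfsg

namespace Cfsg.Agent.S3820

/-- Call a subgroup H of G pronormal if H and gHg⁻¹ are conjugate inside ⟨H, gHg⁻¹⟩ for every g ∈ G. Let S ≤ H ≤ G be subgroups of a finite group with S pronormal in G (for instance S a Sylow subgroup). Then H is pronormal in G if and only if H and gHg⁻¹ are conjugate inside ⟨H, gHg⁻¹⟩ for every g ∈ N_G(S). In particular H is pronormal whenever N_G(S) ≤ H. -/
theorem result {G : Type*} [Group G] [Finite G] (S H : Subgroup G) (hSH : S ≤ H)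
    (hS : Cfsg.IsPronormal S) :
    Cfsg.IsPronormal H ↔
      ∀ g ∈ Subgroup.normalizer (S : Set G), ∃ w ∈ H ⊔ H.map (MulAut.conj g).toMonoidHom,
        H.map (MulAut.conj g).toMonoidHom = H.map (MulAut.conj w).toMonoidHom := by
  have cm : ∀ (K : Subgroup G) (a b : G), K.map (MulAut.conj (a * b)).toMonoidHom = (K.map (MulAut.conj b).toMonoidHom).map (MulAut.conj a).toMonoidHom := by
    intro K a b
    rw [Subgroup.map_map]
    congr 1
    ext x
    simp [mul_assoc]
  have cself : ∀ (K : Subgroup G) (w : G), w ∈ K → K.map (MulAut.conj w).toMonoidHom = K := by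
    intro K w hw
    ext x
    constructor
    · rintro ⟨y, hy, rfl⟩
      exact K.mul_mem (K.mul_mem hw hy) (K.inv_mem hw)
    · intro hx
      refine ⟨w⁻¹ * x * w, K.mul_mem (K.mul_mem (K.inv_mem hw) hx) hw, ?_⟩
      show w * (w⁻¹ * x * w) * w⁻¹ = x
      group
  have c1 : ∀ K : Subgroup G, K.map (MulAut.conj (1 : G)).toMonoidHom = K := fun K => cself K 1 K.one_mem
  constructor
  · intro h g _
    exact h g
  · intro h g
    obtain ⟨w, hw, hSw⟩ := hS g
    have hn : w⁻¹ * g ∈ Subgroup.normalizer (S : Set G) := by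
      have e : S.map (MulAut.conj (w⁻¹ * g)).toMonoidHom = S := by
        rw [cm, hSw, ← cm, inv_mul_cancel, c1]
      rw [Subgroup.mem_normalizer_iff]
      intro x
      constructor
      · intro hx
        have : (w⁻¹ * g) * x * (w⁻¹ * g)⁻¹ ∈ S.map (MulAut.conj (w⁻¹ * g)).toMonoidHom := ⟨x, hx, rfl⟩
        rw [e] at this
        exact this
      · intro hx
        have hx' : (w⁻¹ * g) * x * (w⁻¹ * g)⁻¹ ∈ S := hx
        rw [← e] at hx'
        obtain ⟨y, hy, hyx⟩ := hx'
        have : y = x := (MulAut.conj (w⁻¹ * g)).injective hyx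
        rw [← this]; exact hy
    obtain ⟨u, hu, hHu⟩ := h _ hn
    have hwJ : w ∈ H ⊔ H.map (MulAut.conj g).toMonoidHom := (sup_le_sup hSH (Subgroup.map_mono hSH)) hw
    refine ⟨w * u, Subgroup.mul_mem _ hwJ ?_, ?_⟩
    · have hle : H ⊔ H.map (MulAut.conj (w⁻¹ * g)).toMonoidHom ≤ H ⊔ H.map (MulAut.conj g).toMonoidHom := by
        refine sup_le le_sup_left ?_
        rw [cm]
        have h1 : (H.map (MulAut.conj g).toMonoidHom).map (MulAut.conj w⁻¹).toMonoidHom ≤
            (H ⊔ H.map (MulAut.conj g).toMonoidHom).map (MulAut.conj w⁻¹).toMonoidHom := Subgroup.map_mono le_sup_right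
        rwa [cself _ _ (Subgroup.inv_mem _ hwJ)] at h1
      exact hle hu
    · have e : g = w * (w⁻¹ * g) := by group
      conv_lhs => rw [e]
      rw [cm, hHu, ← cm]

end Cfsg.Agent.S3820
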