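import Cfsg.Statements.S3821


set_option autoImplicit false
open Cfsg

namespace Cfsg.Agent.S3821

/-- Let A be a normal subgroup of the finite group G and H a subgroup of A. Then H is pronormal in G (H and gHg⁻¹ conjugate inside ⟨H, gHg⁻¹⟩ for every g ∈ G) if and only if H is pronormal in A and G = A · N_G(H). -/
theorem result {G : Type*} [Group G] [Finite G] (A H : Subgroup G) [A.Normal] (hHA : H ≤ A) :
    Cfsg.IsPronormal H ↔ (Cfsg.IsPronormal (H.subgroupOf A) ∧ A ⊔ Subgroup.normalizer (H : Set G) = ⊤) := by
  have cm : ∀ (K : Subgroup G) (a b : G), K.map (MulAut.conj (a * b)).toMonoidHom = (K.map (MulAut.conj b).toMonoidHom).map (MulAut.conj a).toMonoidHom := by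
    intro K a b
    rw [Subgroup.map_map]
    congr 1
    ext x
    simp [mul_assoc]
  have ms : (H.subgroupOf A).map A.subtype = H := by
    rw [Subgroup.subgroupOf_map_subtype, inf_eq_left.2 hHA]
  have kk : ∀ a : A, ((H.subgroupOf A).map (MulAut.conj a).toMonoidHom).map A.subtype = H.map (MulAut.conj (a : G)).toMonoidHom := by
    intro a
    have : A.subtype.comp (MulAut.conj a).toMonoidHom = (MulAut.conj (a : G)).toMonoidHom.comp A.subtype := by
      ext x; rfl
    rw [Subgroup.map_map, this, ← Subgroup.map_map, ms]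
  have ks : ∀ a : A, (H.subgroupOf A ⊔ (H.subgroupOf A).map (MulAut.conj a).toMonoidHom).map A.subtype = H ⊔ H.map (MulAut.conj (a : G)).toMonoidHom := by
    intro a
    rw [Subgroup.map_sup, ms, kk]
  have hle : ∀ g : G, H ⊔ H.map (MulAut.conj g).toMonoidHom ≤ A := by
    intro g
    refine sup_le hHA ?_
    rintro _ ⟨x, hx, rfl⟩
    exact (inferInstance : A.Normal).conj_mem x (hHA hx) g
  constructor
  · intro h
    constructor
    · intro a
      obtain ⟨w, hw, hHw⟩ := h (a : G)
      rw [← ks] at hw
      obtain ⟨y, hy, rfl⟩ := hw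
      refine ⟨y, hy, ?_⟩
      apply Subgroup.map_injective A.subtype_injective
      rw [kk, kk]
      exact hHw
    · rw [Subgroup.eq_top_iff']
      intro g
      obtain ⟨w, hw, hHw⟩ := h g
      have hn : w⁻¹ * g ∈ Subgroup.normalizer (H : Set G) := by
        rw [Subgroup.mem_normalizer_iff]
        have key : ∀ y : G, g * y * g⁻¹ ∈ H.map (MulAut.conj w).toMonoidHom ↔ y ∈ H := by
          intro y
          rw [← hHw]
          constructor
          · rintro ⟨z, hz, hzy⟩
            have : z = y := (MulAut.conj g).injective hzy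
            rw [← this]; exact hz
          · intro hy; exact ⟨y, hy, rfl⟩
        intro x
        rw [← key x]
        constructor
        · rintro ⟨z, hz, hzx⟩
          have hz' : w * z * w⁻¹ = g * x * g⁻¹ := hzx
          have : w⁻¹ * g * x * (w⁻¹ * g)⁻¹ = z := by
            calc w⁻¹ * g * x * (w⁻¹ * g)⁻¹ = w⁻¹ * (g * x * g⁻¹) * w := by group
              _ = w⁻¹ * (w * z * w⁻¹) * w := by rw [hz']
              _ = z := by group
          rw [this]; exact hz
        · intro hz
          refine ⟨_, hz, ?_⟩
          show w * (w⁻¹ * g * x * (w⁻¹ * g)⁻¹) * w⁻¹ = g * x * g⁻¹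
          group
      have e : g = w * (w⁻¹ * g) := by group
      rw [e]
      exact Subgroup.mul_mem_sup (hle g hw) hn
  · rintro ⟨h1, h2⟩ g
    have hg : g ∈ ((A ⊔ Subgroup.normalizer (H : Set G) : Subgroup G) : Set G) := by rw [h2]; trivial
    rw [Subgroup.normal_mul] at hg
    obtain ⟨a, ha, n, hn, rfl⟩ := Set.mem_mul.1 hg
    have hnH : H.map (MulAut.conj n).toMonoidHom = H := by
      have hn' := Subgroup.mem_normalizer_iff.1 hn
      ext x
      constructor
      · rintro ⟨y, hy, rfl⟩
        exact (hn' y).1 hy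
      · intro hx
        refine ⟨n⁻¹ * x * n, ?_, ?_⟩
        · refine (hn' _).2 ?_
          have : n * (n⁻¹ * x * n) * n⁻¹ = x := by group
          rw [this]; exact hx
        · show n * (n⁻¹ * x * n) * n⁻¹ = x
          group
    have hag : H.map (MulAut.conj (a * n)).toMonoidHom = H.map (MulAut.conj a).toMonoidHom := by rw [cm, hnH]
    obtain ⟨w, hw, hHw⟩ := h1 ⟨a, ha⟩
    refine ⟨w, ?_, ?_⟩
    · rw [hag]
      have := Subgroup.mem_map_of_mem A.subtype hw
      rw [ks] at this
      exact this
    · rw [hag]
      have := congrArg (fun K => Subgroup.map A.subtype K) hHw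
      simp only [kk] at this
      exact this

end Cfsg.Agent.S3821
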