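import Cfsg.Statements.S3838
import Cfsg.Agent.S5222
import Cfsg.Agent.H2.QdLoc
import Mathlib

set_option autoImplicit false
open Cfsg

namespace Cfsg.Agent.S3838

open Cfsg.Agent.H2 Cfsg.Agent.L0 Cfsg.Agent.L0.Fus Cfsg.FusionSystem
open scoped commutatorElement

/-- Let G be a finite group with Sylow p-subgroup P such that N_G(P) has a normal p-complement. Then N_G(Q) has a normal p-complement for every subgroup Q with [P, P] ≤ Q ≤ Φ(P). -/
theorem result {G : Type*} [Group G] [Finite G] {p : ℕ} [Fact p.Prime] (P : Sylow p G) (hN : Cfsg.HasNormalPComplement p ↥(Subgroup.normalizer ((P : Subgroup G) : Set G))) (Q : Subgroup G) (h1 : (commutator ↥(P : Subgroup G)).map (P : Subgroup G).subtype ≤ Q) (h2 : Q ≤ (frattini ↥(P : Subgroup G)).map (P : Subgroup G).subtype) : Cfsg.HasNormalPComplement p ↥(Subgroup.normalizer (Q : Set G)) := by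
  classical
  set S : Subgroup G := (P : Subgroup G) with hS
  have hQS : Q ≤ S := h2.trans (Subgroup.map_subtype_le _)
  have hSQ : S ≤ Subgroup.normalizer (Q : Set G) := by
    intro s hs
    apply H2.mem_norm_of_conj
    intro x hx
    have h3 : s * x * s⁻¹ * x⁻¹ ∈ Q := by
      apply h1
      refine ⟨⁅(⟨s, hs⟩ : ↥S), ⟨x, hQS hx⟩⁆, Subgroup.commutator_mem_commutator (Subgroup.mem_top _) (Subgroup.mem_top _), rfl⟩
    have := Q.mul_mem h3 hx
    rwa [inv_mul_cancel_right] at this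
  have hNS : S ≤ Subgroup.normalizer (S : Set G) := Subgroup.le_normalizer
  have key : ∀ P₁ : Subgroup G, ∀ N : FusionSystem (normalizerIn S Q), (groupFusionSystem S).IsNormalizerSystem Q N →
      N.Hom P₁ = (innerFusionSystem (normalizerIn S Q)).Hom P₁ := by
    intro P₁ N hNn
    refine S5222.result p P.2 (groupFusionSystem S) (group_saturated P) ?_ Q h1 h2 N hNn P₁
    intro N' hN' R
    ext φ
    constructor
    · intro hφ
      rw [hN' R] at hφ
      obtain ⟨h3, h4, h5, ψ, ⟨hψ1, hψ2, g, hg⟩, h6, h7⟩ := hφ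
      have hgM : g ∈ Subgroup.normalizer (S : Set G) := by
        apply H2.mem_norm_of_conj
        intro x hx
        have := hg ⟨x, (le_sup_right : S ≤ R ⊔ S) hx⟩
        rw [← this]
        exact h7.le ⟨⟨x, (le_sup_right : S ≤ R ⊔ S) hx⟩, hx, rfl⟩
      have hRS : R ≤ S := h4.trans inf_le_left
      obtain ⟨s, hs, hsx⟩ := inner_of_npc (P.subtype hNS) hN
        ((R.subgroupOf (Subgroup.normalizer (S : Set G)) : Subgroup _) : Set _) ⟨g, hgM⟩
        (by
          intro x hx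
          show (x : G) ∈ S
          exact hRS hx) (by
          intro x hx
          show g * (x : G) * g⁻¹ ∈ S
          exact (Subgroup.mem_normalizer_iff.1 hgM x).1 (hRS hx))
      refine ⟨h4, (s : G), ⟨hs, s.2⟩, fun x => ?_⟩
      have h8 := congrArg Subtype.val (hsx ⟨x, hNS (hRS x.2)⟩ x.2)
      change (s : G) * x * (s : G)⁻¹ = g * x * g⁻¹ at h8
      rw [h8, ← h6 x, hg]; rfl
    · intro hφ
      obtain ⟨h3, g, hg, hgx⟩ := hφ
      have : φ = conjHom R g := by ext x; exact hgx x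
      rw [this]
      exact N'.conj_mem h3 hg
  refine npc_of_inner (P.subtype hSQ) ?_
  intro R g hR hg
  obtain ⟨N, hNn⟩ := exists_normalizerSystem (groupFusionSystem S) hQS
  set R0 : Subgroup G := R.map (Subgroup.normalizer (Q : Set G)).subtype with hR0
  have hR0S : R0 ≤ S := by
    rintro _ ⟨x, hx, rfl⟩
    exact hR hx
  have hgR : ∀ x ∈ R0, (g : G) * x * (g : G)⁻¹ ∈ S := by
    rintro _ ⟨x, hx, rfl⟩
    exact hg x hx
  have hmT : ∀ x ∈ R0 ⊔ Q, (g : G) * x * (g : G)⁻¹ ∈ S := by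
    have : R0 ⊔ Q ≤ S.comap (MulAut.conj (g : G)).toMonoidHom := by
      refine sup_le (fun x hx => hgR x hx) (fun x hx => ?_)
      exact hQS ((Subgroup.mem_normalizer_iff.1 g.2 x).1 hx)
    exact fun x hx => this hx
  have hmem : conjHom R0 (g : G) ∈ (groupFusionSystem S).normalizerHom Q R0 := by
    refine ⟨⟨hR0S, fun x => hgR x x.2, g, fun x => rfl⟩, fun x hx => ⟨hR0S hx, hSQ (hR0S hx)⟩,
      fun x => ⟨hgR x x.2, hSQ (hgR x x.2)⟩, conjHom (R0 ⊔ Q) (g : G),
      ⟨sup_le hR0S hQS, fun x => hmT x x.2, g, fun x => rfl⟩, fun x => rfl, ?_⟩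
    ext y
    constructor
    · rintro ⟨x, hx, rfl⟩
      exact (Subgroup.mem_normalizer_iff.1 g.2 x).1 hx
    · intro hy
      have h1 : (g : G)⁻¹ * y * g ∈ Q := by
        have := (Subgroup.mem_normalizer_iff.1 (Subgroup.inv_mem _ g.2) y).1 hy
        rwa [inv_inv] at this
      refine ⟨⟨(g : G)⁻¹ * y * g, (le_sup_right : Q ≤ R0 ⊔ Q) h1⟩, h1, ?_⟩
      show (g : G) * ((g : G)⁻¹ * y * g) * (g : G)⁻¹ = y
      group
  rw [← hNn R0, key R0 N hNn] at hmem
  obtain ⟨-, s, hs, hsx⟩ := hmem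
  refine ⟨⟨s, hs.2⟩, hs.1, ?_⟩
  intro x hx
  apply Subtype.ext
  exact (hsx ⟨(x : G), ⟨x, hx, rfl⟩⟩).symm

end Cfsg.Agent.S3838
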