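import Cfsg.Statements.S3839
import Cfsg.Agent.H2.QdLoc
import Cfsg.Agent.H2.SmallF
import Mathlib

set_option autoImplicit false
open Cfsg

namespace Cfsg.Agent.S3839

open Cfsg.Agent.H2 Cfsg.Agent.L0 Cfsg.Agent.L0.Fus Cfsg.FusionSystem Cfsg.Agent.H6

theorem cent_of_npc {G : Type*} [Group G] [Finite G] {p : ℕ} [Fact p.Prime] {U : Subgroup G} (hU : IsPGroup p U)
    (h : HasNormalPComplement p ↥(Subgroup.normalizer (U : Set G))) {g : G} (hg : g ∈ Subgroup.normalizer (U : Set G))
    (ho : (orderOf g).Coprime p) : ∀ u ∈ U, g * u * g⁻¹ = u := by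
  rw [npc_iff'] at h
  intro u hu
  have h1 : g ∈ opR p (Subgroup.normalizer (U : Set G)) := mem_opR hg ho
  have huN : u ∈ Subgroup.normalizer (U : Set G) := Subgroup.le_normalizer hu
  have h2 := le_norm_opR (p := p) (Subgroup.normalizer (U : Set G)) huN
  have h3 : g * (u * g⁻¹ * u⁻¹) ∈ opR p (Subgroup.normalizer (U : Set G)) :=
    Subgroup.mul_mem _ h1 ((Subgroup.mem_normalizer_iff.1 h2 _).1 (Subgroup.inv_mem _ h1))
  have h4 : g * u * g⁻¹ * u⁻¹ ∈ U := U.mul_mem ((Subgroup.mem_normalizer_iff.1 hg u).1 hu) (U.inv_mem hu)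
  have e : g * (u * g⁻¹ * u⁻¹) = g * u * g⁻¹ * u⁻¹ := by group
  rw [e] at h3
  obtain ⟨a, ha⟩ := hU ⟨_, h4⟩
  have ha' : (g * u * g⁻¹ * u⁻¹) ^ p ^ a = 1 := by simpa using congrArg Subtype.val ha
  have h5 := orderOf_eq_one_iff.1 (Nat.eq_one_of_dvd_coprimes
    (Nat.Coprime.pow_right a h) (Subgroup.orderOf_dvd_natCard _ h3) (orderOf_dvd_of_pow_eq_one ha'))
  exact mul_inv_eq_one.1 h5

theorem local_cent {G : Type*} [Group G] [Finite G] {p : ℕ} [Fact p.Prime] (S : Sylow p G) (D : Subgroup G)
    (hD : IsStronglyClosed D (S : Subgroup G))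
    (h : ∀ U : Subgroup G, U ≤ D → D ⊓ Subgroup.centralizer (U : Set G) ≤ U → HasNormalPComplement p ↥(Subgroup.normalizer (U : Set G))) :
    ∀ (n : ℕ) (U : Subgroup G), Nat.card G - Nat.card U = n → U ≤ D → ∀ g ∈ Subgroup.normalizer (U : Set G), (orderOf g).Coprime p →
      ∀ u ∈ U, g * u * g⁻¹ = u := by
  classical
  intro n
  induction n using Nat.strong_induction_on with
  | _ n ih =>
    intro U hn hUD g hg ho
    have hpp : p.Prime := Fact.out
    -- a conjugate
    obtain ⟨T, hT, hUT⟩ := exists_sylIn_ge (S.2.to_le (hUD.trans hD.1)) (Subgroup.le_normalizer (H := U))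
    obtain ⟨x, -, hx⟩ := (sylow_sylIn_top S).exists_conj_le hT.2.1 le_top
    set U' := H6.cj x U with hU'
    have hT' : SylIn p (H6.cj x T) (Subgroup.normalizer (U' : Set G)) := by
      have := hT.cj x
      rwa [cj_normalizer] at this
    have hU'S : U' ≤ (S : Subgroup G) := (cj_mono hUT).trans hx
    have hU'D : U' ≤ D := by
      rintro _ ⟨u, hu, rfl⟩
      exact hD.2 u (hUD hu) x (hU'S ⟨u, hu, rfl⟩)
    have hcardU : Nat.card U' = Nat.card U := Nat.card_congr (U.equivMapOfInjective _ (MulAut.conj x).injective).symm.toEquiv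
    set g' := x * g * x⁻¹ with hg'
    have hg'N : g' ∈ Subgroup.normalizer (U' : Set G) := by
      rw [← cj_normalizer]; exact conj_mem_cj hg
    have hg'o : (orderOf g').Coprime p := by
      have : orderOf g' = orderOf g := by
        rw [hg']
        exact orderOf_injective (MulAut.conj x).toMonoidHom (MulAut.conj x).injective g
      rw [this]; exact ho
    suffices key : ∀ u ∈ U', g' * u * g'⁻¹ = u by
      intro u hu
      have h1 := key (x * u * x⁻¹) (conj_mem_cj hu)
      have h2 : x * (g * u * g⁻¹) * x⁻¹ = x * u * x⁻¹ := by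
        rw [← h1, hg']; group
      exact mul_left_cancel (mul_right_cancel h2)
    have hU'p : IsPGroup p U' := S.2.to_le hU'S
    set C := Subgroup.centralizer (U' : Set G) with hC
    set N := Subgroup.normalizer (U' : Set G) with hN
    have hCN : C ≤ N := H6.centralizer_le_norm U'
    have hNC : N ≤ Subgroup.normalizer (C : Set G) := le_norm_centralizer le_rfl
    have hsyl : SylIn p ((S : Subgroup G) ⊓ C) C := by
      have h1 := sylIn_inf_normal hT' hCN hNC
      refine sylIn_of_le_sylow (S.2.to_le inf_le_left) h1 (inf_le_inf_right _ hx) inf_le_right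
    set W := D ⊓ C with hW
    by_cases hWU : W ≤ U'
    · exact cent_of_npc hU'p (h U' hU'D hWU) hg'N hg'o
    · -- grow
      have h1 := hsyl.cj g'
      rw [cj_of_mem_norm (hNC hg'N)] at h1
      obtain ⟨c, hc, hcS⟩ := h1.conj hsyl
      rw [← cj_mul] at hcS
      set m := c * g' with hm
      have hmN : m ∈ N := N.mul_mem (hCN hc) hg'N
      have hmW : ∀ w ∈ W, m * w * m⁻¹ ∈ W := by
        intro w hw
        have h2 : m * w * m⁻¹ ∈ (S : Subgroup G) ⊓ C := by
          rw [← hcS]
          exact conj_mem_cj ⟨hD.1 hw.1, hw.2⟩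
        exact ⟨hD.2 w hw.1 m h2.1, h2.2⟩
      have hmact : ∀ u ∈ U', m * u * m⁻¹ = g' * u * g'⁻¹ := by
        intro u hu
        have h2 : g' * u * g'⁻¹ ∈ U' := (Subgroup.mem_normalizer_iff.1 hg'N u).1 hu
        have h3 := Subgroup.mem_centralizer_iff.1 hc _ h2
        calc m * u * m⁻¹ = c * (g' * u * g'⁻¹) * c⁻¹ := by rw [hm]; group
          _ = g' * u * g'⁻¹ := by rw [← h3, mul_inv_cancel_right]
      obtain ⟨a, r, hr, har⟩ := Nat.exists_eq_pow_mul_and_not_dvd (orderOf_pos m).ne' p hpp.ne_one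
      have hcop : (p ^ a).Coprime (orderOf g') := Nat.Coprime.pow_left a hg'o.symm
      obtain ⟨k, hk1, hk2⟩ := Nat.chineseRemainder hcop 0 1
      have hmo : (orderOf (m ^ k)).Coprime p := by
        have h2 : p ^ a ∣ k := (Nat.modEq_zero_iff_dvd).1 hk1
        obtain ⟨j, hj⟩ := h2
        have h3 : (m ^ k) ^ r = 1 := by
          rw [← pow_mul, hj]
          have : p ^ a * j * r = orderOf m * j := by rw [har]; ring
          rw [this, pow_mul, pow_orderOf_eq_one, one_pow]
        exact Nat.Coprime.coprime_dvd_left (orderOf_dvd_of_pow_eq_one h3)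
          ((Nat.Prime.coprime_iff_not_dvd hpp).2 hr).symm
      have hpowact : ∀ (j : ℕ), ∀ u ∈ U', m ^ j * u * (m ^ j)⁻¹ = g' ^ j * u * (g' ^ j)⁻¹ := by
        intro j
        induction j with
        | zero => intro u _; simp
        | succ j ihj =>
          intro u hu
          have h2 : g' ^ j * u * (g' ^ j)⁻¹ ∈ U' := (Subgroup.mem_normalizer_iff.1 (Subgroup.pow_mem _ hg'N j) u).1 hu
          calc m ^ (j + 1) * u * (m ^ (j + 1))⁻¹ = m * (m ^ j * u * (m ^ j)⁻¹) * m⁻¹ := by rw [pow_succ']; group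
            _ = m * (g' ^ j * u * (g' ^ j)⁻¹) * m⁻¹ := by rw [ihj u hu]
            _ = g' * (g' ^ j * u * (g' ^ j)⁻¹) * g'⁻¹ := hmact _ h2
            _ = g' ^ (j + 1) * u * (g' ^ (j + 1))⁻¹ := by rw [pow_succ' g']; group
      have hg'k : g' ^ k = g' := by
        have := (pow_eq_pow_iff_modEq (x := g')).2 hk2
        rw [this, pow_one]
      have hVN : m ^ k ∈ Subgroup.normalizer ((U' ⊔ W : Subgroup G) : Set G) := by
        apply Subgroup.pow_mem
        apply H2.mem_norm_of_conj
        have : U' ⊔ W ≤ (U' ⊔ W).comap (MulAut.conj m).toMonoidHom := by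
          refine sup_le (fun u hu => ?_) (fun w hw => ?_)
          · show m * u * m⁻¹ ∈ U' ⊔ W
            exact Subgroup.mem_sup_left ((Subgroup.mem_normalizer_iff.1 hmN u).1 hu)
          · show m * w * m⁻¹ ∈ U' ⊔ W
            exact Subgroup.mem_sup_right (hmW w hw)
        exact fun x hx => this hx
      have hlt : Nat.card U' < Nat.card ↥(U' ⊔ W) := by
        by_contra hcon
        push Not at hcon
        have := Subgroup.eq_of_le_of_card_ge (le_sup_left : U' ≤ U' ⊔ W) hcon
        apply hWU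
        rw [this]; exact le_sup_right
      have hleG : Nat.card ↥(U' ⊔ W) ≤ Nat.card G := Subgroup.card_le_card_group _
      have h5 := ih (Nat.card G - Nat.card ↥(U' ⊔ W)) (by omega) (U' ⊔ W) rfl (sup_le hU'D inf_le_left) (m ^ k) hVN hmo
      intro u hu
      have h6 := h5 u (Subgroup.mem_sup_left hu)
      rw [hpowact k u hu, hg'k] at h6
      exact h6

/-- A Frobenius normal p-complement criterion relative to a strongly closed subgroup. Let G be a finite group, S a Sylow p-subgroup and D a subgroup of S strongly closed in S with respect to G. Then G has a normal p-complement if and only if N_G(U) has a normal p-complement for every subgroup U of D with C_D(U) ≤ U. -/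
theorem result {G : Type*} [Group G] [Finite G] {p : ℕ} [Fact p.Prime] (S : Sylow p G) (D : Subgroup G) (hD : Cfsg.IsStronglyClosed D (S : Subgroup G)) : Cfsg.HasNormalPComplement p G ↔ ∀ U : Subgroup G, U ≤ D → D ⊓ Subgroup.centralizer (U : Set G) ≤ U → Cfsg.HasNormalPComplement p ↥(Subgroup.normalizer (U : Set G)) := by
  classical
  have hpp : p.Prime := Fact.out
  constructor
  · intro h U _ _
    rw [npc_iff'] 
    rw [npc_iff] at h
    exact h.mono le_top
  · intro h
    have hloc := local_cent S D hD h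
    set F := groupFusionSystem (S : Subgroup G) with hF
    have hsat : F.IsSaturated p := group_saturated S
    have hsc : F.StronglyClosed D := by
      refine ⟨hD.1, fun R hR φ hφ x => ?_⟩
      obtain ⟨h1, h2, g, hg⟩ := hφ
      rw [hg]
      apply hD.2 _ (hR x.2)
      rw [← hg]; exact h2 x
    have hDn : F.IsNormal D := by
      rw [normal_iff_stronglyClosed S.2 hsat]
      refine ⟨hsc, fun R hRc hRr => ?_⟩
      have hRS := hRc.1
      have hRp : IsPGroup p R := S.2.to_le hRS
      have hDn := StronglyClosed.le_normalizer hsc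
      refine le_of_stab S.2 hRc hRr hD.1 hDn {((⊤ : Subgroup R), D.subgroupOf R)} ?_ ?_ ?_
      · rintro q rfl α hα
        exact ⟨fun x _ => Subgroup.mem_top _, fun x hx => Subgroup.mem_subgroupOf.mpr
          (StronglyClosed.aut_mem hsc hRS hα (Subgroup.mem_subgroupOf.mp hx))⟩
      · intro α hα ho hst
        have h2 := hst _ rfl
        obtain ⟨h3, h4, g, hg⟩ := (mem_autGroup F hRS).1 hα
        have hgD : ∀ x ∈ R ⊓ D, g * x * g⁻¹ ∈ R ⊓ D := by
          intro x hx
          have h5 := hg ⟨x, hx.1⟩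
          rw [← h5]
          exact ⟨(α ⟨x, hx.1⟩).2, StronglyClosed.aut_mem hsc hRS hα hx.2⟩
        have hgN : g ∈ Subgroup.normalizer ((R ⊓ D : Subgroup G) : Set G) := H2.mem_norm_of_conj hgD
        -- p'-part
        obtain ⟨a, r, hr, har⟩ := Nat.exists_eq_pow_mul_and_not_dvd (orderOf_pos g).ne' p hpp.ne_one
        have hcop : (p ^ a).Coprime (orderOf α) := Nat.Coprime.pow_left a ho.symm
        obtain ⟨k, hk1, hk2⟩ := Nat.chineseRemainder hcop 0 1
        have hmo : (orderOf (g ^ k)).Coprime p := by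
          have h2 : p ^ a ∣ k := (Nat.modEq_zero_iff_dvd).1 hk1
          obtain ⟨j, hj⟩ := h2
          have h3 : (g ^ k) ^ r = 1 := by
            rw [← pow_mul, hj]
            have : p ^ a * j * r = orderOf g * j := by rw [har]; ring
            rw [this, pow_mul, pow_orderOf_eq_one, one_pow]
          exact Nat.Coprime.coprime_dvd_left (orderOf_dvd_of_pow_eq_one h3)
            ((Nat.Prime.coprime_iff_not_dvd hpp).2 hr).symm
        have hαk : α ^ k = α := by
          have := (pow_eq_pow_iff_modEq (x := α)).2 hk2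
          rw [this, pow_one]
        have hpow : ∀ (j : ℕ) (x : R), (((α ^ j) x : R) : G) = g ^ j * x * (g ^ j)⁻¹ := by
          intro j
          induction j with
          | zero => intro x; simp
          | succ j ihj =>
            intro x
            rw [pow_succ', MulAut.mul_apply]
            have h5 : ((α ((α ^ j) x) : R) : G) = g * (((α ^ j) x : R) : G) * g⁻¹ := hg _
            rw [h5, ihj, pow_succ']; group
        have hfix : ∀ x : R, (x : G) ∈ D → α x = x := by
          intro x hx
          have h5 := hloc _ (R ⊓ D) rfl inf_le_right (g ^ k) (Subgroup.pow_mem _ hgN k) hmo x ⟨x.2, hx⟩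
          rw [← hpow k x, hαk] at h5
          exact Subtype.ext h5
        apply MulEquiv.ext
        intro x
        apply fix_of_pt hRp ho
        exact hfix _ (Subgroup.mem_subgroupOf.1 (h2 x (Subgroup.mem_top _)))
      · rintro α hα ⟨y, hy, hyα⟩ q rfl x hx
        apply Subgroup.mem_subgroupOf.mpr
        change (x : G)⁻¹ * ((α x : R) : G) ∈ D
        rw [hyα]
        have h1 : (x : G)⁻¹ * y * ((x : G)⁻¹)⁻¹ ∈ D :=
          (Subgroup.mem_normalizer_iff.mp (hDn ((S : Subgroup G).inv_mem (hRS x.2))) y).mp hy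
        have h2 := D.mul_mem h1 (D.inv_mem hy)
        have e : (x : G)⁻¹ * y * ((x : G)⁻¹)⁻¹ * y⁻¹ = (x : G)⁻¹ * (y * x * y⁻¹) := by group
        rwa [e] at h2
    have hSD : (S : Subgroup G) ≤ Subgroup.normalizer (D : Set G) := StronglyClosed.le_normalizer hsc
    have hnpc := h D le_rfl inf_le_left
    apply npc_of_inner S
    intro Q g hQ hg
    obtain ⟨ψ, ⟨h1, h2, y, hy⟩, h3, h4⟩ := hDn.2 Q (conjHom Q g) ⟨hQ, fun x => hg x x.2, g, fun x => rfl⟩
    have hyN : y ∈ Subgroup.normalizer (D : Set G) := by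
      apply H2.mem_norm_of_conj
      intro x hx
      have := hy ⟨x, (le_sup_right : D ≤ Q ⊔ D) hx⟩
      rw [← this]
      exact h4.le ⟨⟨x, (le_sup_right : D ≤ Q ⊔ D) hx⟩, hx, rfl⟩
    have hyQ : ∀ x ∈ Q, y * x * y⁻¹ = g * x * g⁻¹ := by
      intro x hx
      have h5 := hy ⟨x, (le_sup_left : Q ≤ Q ⊔ D) hx⟩
      have h6 := h3 ⟨x, hx⟩
      rw [← h5]; exact h6
    obtain ⟨s, hs, hsx⟩ := inner_of_npc (S.subtype hSD) hnpc
      ((Q.subgroupOf (Subgroup.normalizer (D : Set G)) : Subgroup _) : Set _) ⟨y, hyN⟩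
      (by
        intro x hx
        exact hQ hx) (by
        intro x hx
        show y * (x : G) * y⁻¹ ∈ (S : Subgroup G)
        rw [hyQ x hx]
        exact hg x hx)
    refine ⟨(s : G), hs, fun x hx => ?_⟩
    have h8 := congrArg Subtype.val (hsx ⟨x, hSD (hQ hx)⟩ hx)
    change (s : G) * x * (s : G)⁻¹ = y * x * y⁻¹ at h8
    rw [h8, hyQ x hx]

end Cfsg.Agent.S3839
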