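import Cfsg.Statements.S3858
import Cfsg.Agent.H6.SnJoin

set_option autoImplicit false
open Cfsg

namespace Cfsg.Agent.S3858

open Subgroup Agent.H6 in
theorem cjm {G : Type*} [Group G] [Finite G] {M : Subgroup G} (hM : IsCoatom M) (g : G) : IsCoatom (cj g M) := by
  have htop : ∀ x : G, cj x (⊤ : Subgroup G) = ⊤ := fun x => cj_of_mem (mem_top x)
  refine ⟨fun h => hM.1 ?_, fun X hX => ?_⟩
  · rw [← cj_inv_cj g M, h, htop]
  · have h1 : M < cj g⁻¹ X := by
      rw [lt_iff_le_and_ne]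
      refine ⟨le_cj_iff.2 (by rw [inv_inv]; exact hX.le), fun h => ?_⟩
      apply hX.ne
      rw [h, cj_cj_inv]
    have h2 := hM.2 _ h1
    rw [← cj_cj_inv g X, h2, htop]

open Subgroup Agent.H6 in
theorem contains {G : Type*} [Group G] [Finite G] {r : ℕ} [Fact r.Prime] (R : Sylow r G) {M : Subgroup G} (hM : ¬ r ∣ M.index) : ∃ g : G, (R : Subgroup G) ≤ cj g M := by
  obtain ⟨Q, hQ⟩ := exists_sylIn (p := r) M
  have hQt : SylIn r Q ⊤ := by
    refine ⟨le_top, hQ.2.1, ?_⟩
    rw [← relIndex_mul_relIndex Q M ⊤ hQ.1 le_top, relIndex_top_right]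
    exact (Fact.out : r.Prime).not_dvd_mul hQ.2.2 hM
  obtain ⟨g, -, e⟩ := hQt.conj (sylow_sylIn_top R)
  exact ⟨g, by rw [← e]; exact cj_mono hQ.1⟩

open Subgroup Agent.H6 in
open scoped commutatorElement in
theorem main {G : Type*} [Group G] [Finite G] (T : Subgroup G) [T.Normal] (hT : IsSimpleGroup T) (hna : ¬ IsMulCommutative T)
    {r : ℕ} [hr : Fact r.Prime] (R : Sylow r G) (hR0 : (R : Subgroup G) ⊓ T ≠ ⊥) :
    (∃! M : Subgroup G, IsCoatom M ∧ (R : Subgroup G) ≤ M) ↔
      ((∃ M : Subgroup G, IsCoatom M ∧ ¬ r ∣ M.index) ∧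
        ∀ M₁ M₂ : Subgroup G, IsCoatom M₁ → ¬ r ∣ M₁.index → IsCoatom M₂ → ¬ r ∣ M₂.index → ∃ g : G, M₂ = cj g M₁) := by
  have hidx : ∀ M : Subgroup G, (R : Subgroup G) ≤ M → ¬ r ∣ M.index := fun M h hd =>
    R.not_dvd_index (hd.trans (index_dvd_of_le h))
  constructor
  · rintro ⟨M, ⟨hM, hRM⟩, huniq⟩
    refine ⟨⟨M, hM, hidx M hRM⟩, ?_⟩
    intro M₁ M₂ h1 h1' h2 h2'
    obtain ⟨g₁, hg₁⟩ := contains R h1'
    obtain ⟨g₂, hg₂⟩ := contains R h2'
    have e1 := huniq _ ⟨cjm h1 g₁, hg₁⟩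
    have e2 := huniq _ ⟨cjm h2 g₂, hg₂⟩
    refine ⟨g₂⁻¹ * g₁, ?_⟩
    rw [cj_mul, e1, ← e2, cj_inv_cj]
  · rintro ⟨⟨M, hM, hMi⟩, hcl⟩
    have hN : normalizer ((R : Subgroup G) : Set G) ≠ ⊤ := by
      intro h
      have hRn : (R : Subgroup G).Normal := normalizer_eq_top_iff.1 h
      have h1 : ((R : Subgroup G).subgroupOf T).Normal := by
        haveI := hRn
        infer_instance
      have h2 : (R : Subgroup G).subgroupOf T = ⊤ := by
        refine (hT.eq_bot_or_eq_top_of_normal _ h1).resolve_left fun h3 => hR0 ?_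
        rw [subgroupOf_eq_bot, disjoint_iff] at h3
        exact h3
      have h3 : T ≤ (R : Subgroup G) := subgroupOf_eq_top.1 h2
      have h4 : IsPGroup r ↥T := R.2.to_le h3
      haveI : Group.IsNilpotent ↥T := h4.isNilpotent
      haveI := hT
      apply hna
      have h5 : commutator ↥T = ⊥ := by
        rcases hT.eq_bot_or_eq_top_of_normal (commutator ↥T) inferInstance with h | h
        · exact h
        · exfalso
          have hsol : Group.IsSolvable ↥T := inferInstance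
          have h6 := IsSolvable.commutator_lt_top_of_nontrivial ↥T
          rw [h] at h6
          exact lt_irrefl _ h6
      exact isMulComm_of fun a ha b hb => by
        have h7 : ⁅(⟨a, ha⟩ : ↥T), (⟨b, hb⟩ : ↥T)⁆ ∈ commutator ↥T := commutator_mem_commutator (mem_top _) (mem_top _)
        rw [h5, mem_bot, commutatorElement_eq_one_iff_mul_comm] at h7
        exact congrArg Subtype.val h7
    obtain ⟨M₀, hM₀, hNM₀⟩ := (eq_top_or_exists_le_coatom (normalizer ((R : Subgroup G) : Set G))).resolve_left hN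
    have hRM₀ : (R : Subgroup G) ≤ M₀ := le_normalizer.trans hNM₀
    refine ⟨M₀, ⟨hM₀, hRM₀⟩, ?_⟩
    rintro M' ⟨hM', hRM'⟩
    obtain ⟨g, hg⟩ := hcl M₀ M' hM₀ (hidx _ hRM₀) hM' (hidx _ hRM')
    -- R and g R g⁻¹ both Sylow in M'
    have h1 : SylIn r (R : Subgroup G) M' := (sylow_sylIn_top R).of_le hRM' le_top
    have h2 : IsPGroup r ↥(cj g (R : Subgroup G)) := R.2.map _
    have h3 : cj g (R : Subgroup G) ≤ M' := by rw [hg]; exact cj_mono hRM₀
    obtain ⟨m, hm, hle⟩ := h1.exists_conj_le h2 h3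
    rw [← cj_mul] at hle
    have h4 : cj (m * g) (R : Subgroup G) = (R : Subgroup G) :=
      Subgroup.eq_of_le_of_card_ge hle (by rw [show cj (m * g) (R : Subgroup G) = (R : Subgroup G).map (MulAut.conj (m * g)).toMonoidHom from rfl, Subgroup.card_map_of_injective (MulAut.conj (m * g)).injective])
    have h5 : m * g ∈ M₀ := hNM₀ (mem_norm.2 h4)
    have h6 : cj (m * g) M₀ = M₀ := cj_of_mem h5
    rw [cj_mul, ← hg, cj_of_mem hm] at h6
    exact h6

/-- Let G be a finite group with a normal non-abelian simple subgroup T whose centralizer is trivial (G almost simple with socle T), r a prime and R a Sylow r-subgroup of G meeting T nontrivially. Then R lies in exactly one maximal subgroup of G if and only if G has exactly one conjugacy class of maximal subgroups whose index is prime to r. -/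
theorem result {G : Type*} [Group G] [Finite G] (T : Subgroup G) [T.Normal] (hT : IsSimpleGroup T) (hna : ¬ IsMulCommutative T)
    (hC : Subgroup.centralizer (T : Set G) = ⊥) {r : ℕ} [Fact r.Prime] (R : Sylow r G) (hR0 : (R : Subgroup G) ⊓ T ≠ ⊥) :
    (∃! M : Subgroup G, IsCoatom M ∧ (R : Subgroup G) ≤ M) ↔
      ((∃ M : Subgroup G, IsCoatom M ∧ ¬ r ∣ M.index) ∧
        ∀ M₁ M₂ : Subgroup G, IsCoatom M₁ → ¬ r ∣ M₁.index → IsCoatom M₂ → ¬ r ∣ M₂.index → ∃ g : G, M₂ = M₁.map (MulAut.conj g).toMonoidHom) := by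
  exact main T hT hna R hR0

end Cfsg.Agent.S3858
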