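import Cfsg.Statements.S3859
import Cfsg.Agent.H2.Syl

set_option autoImplicit false
open Cfsg

namespace Cfsg.Agent.S3859

/-- Let G be a finite group with a normal non-abelian simple subgroup T whose centralizer is trivial (G almost simple with socle T), r a prime and R a Sylow r-subgroup of G meeting T nontrivially. If R lies in exactly one maximal subgroup of G, then G/T is an r-group. -/
theorem result {G : Type*} [Group G] [Finite G] (T : Subgroup G) [T.Normal] (hT : IsSimpleGroup T) (hna : ¬ IsMulCommutative T)
    (hC : Subgroup.centralizer (T : Set G) = ⊥) {r : ℕ} [Fact r.Prime] (R : Sylow r G) (hR0 : (R : Subgroup G) ⊓ T ≠ ⊥)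
    (huniq : ∃! M : Subgroup G, IsCoatom M ∧ (R : Subgroup G) ≤ M) : IsPGroup r (G ⧸ T) := by
  have hr : r.Prime := Fact.out
  obtain ⟨M, ⟨hMc, hRM⟩, hM⟩ := huniq
  have hmax : ∀ H : Subgroup G, (R : Subgroup G) ≤ H → H ≠ ⊤ → H ≤ M := by
    intro H hRH hH
    obtain ⟨L, hL, hHL⟩ := (eq_top_or_exists_le_coatom H).resolve_left hH
    have := hM L ⟨hL, hRH.trans hHL⟩
    rw [← this]; exact hHL
  have hfr := H2.normalizer_inf_sup_eq_top R T
  have htop : (R : Subgroup G) ⊔ T = ⊤ := by
    by_contra hne
    have h1 : T ≤ M := le_sup_right.trans (hmax _ le_sup_left hne)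
    have h2 : Subgroup.normalizer (((R : Subgroup G) ⊓ T : Subgroup G) : Set G) ≤ M := by
      apply hmax
      · exact H2.le_normalizer_inf _ _
      · intro htop
        have hn : ((R : Subgroup G) ⊓ T).Normal := Subgroup.normalizer_eq_top_iff.1 htop
        have hn2 : (((R : Subgroup G) ⊓ T).subgroupOf T).Normal := inferInstance
        rcases hT.eq_bot_or_eq_top_of_normal _ hn2 with h | h
        · apply hR0
          rw [Subgroup.subgroupOf_eq_bot, disjoint_iff, inf_assoc, inf_idem] at h
          exact h
        · rw [Subgroup.subgroupOf_eq_top] at h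
          have h3 : T ≤ R := h.trans inf_le_left
          have h4 : IsPGroup r T := R.2.to_le h3
          have h5 : Group.IsNilpotent T := h4.isNilpotent
          have h6 : Group.IsSolvable T := inferInstance
          apply hna
          rw [isMulCommutative_iff]
          exact (IsSimpleGroup.comm_iff_isSolvable).2 h6
    exact hMc.1 (eq_top_iff.2 (hfr ▸ sup_le h2 h1))
  exact H2.isPGroup_quotient_of_sup_eq_top R.2 htop

end Cfsg.Agent.S3859
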