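import Cfsg.Statements.S3861
import Cfsg.Agent.H2.RealOdd

set_option autoImplicit false
open Cfsg

namespace Cfsg.Agent.S3861

/-- A finite group G has no non-identity element of odd order that is conjugate to its inverse if and only if the Sylow 2-subgroups of G are normal. -/
theorem result {G : Type*} [Group G] [Finite G] (P : Sylow 2 G) : (∀ x : G, x ≠ 1 → Odd (orderOf x) → ¬ IsConj x x⁻¹) ↔ (P : Subgroup G).Normal := by
  constructor
  · intro h
    exact H2.normal_sylow_two_of_no_real_odd h P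
  · intro hP x hx1 hxo hx
    obtain ⟨c, hc⟩ := isConj_iff.1 hx
    -- powers: odd part of c
    obtain ⟨a, m, hm, ham⟩ := Nat.exists_eq_pow_mul_and_not_dvd (orderOf_pos c).ne' 2 (by norm_num)
    have hmo : Odd m := Nat.not_even_iff_odd.1 (fun h => hm h.two_dvd)
    obtain ⟨l, hl⟩ := hmo
    have hcc : c * c * x = x * (c * c) := by
      have h1 : c * x = x⁻¹ * c := by rw [← hc]; group
      have h2 : c * x⁻¹ = x * c := by
        have := congrArg (fun z => z⁻¹) hc
        simp only [mul_inv_rev, inv_inv] at this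
        rw [← mul_assoc] at this
        exact mul_inv_eq_iff_eq_mul.1 this
      calc c * c * x = c * (c * x) := by group
        _ = c * x⁻¹ * c := by rw [h1]; group
        _ = x * (c * c) := by rw [h2]; group
    have hcl : ∀ l : ℕ, (c * c) ^ l * x = x * (c * c) ^ l := by
      intro l
      exact (Commute.pow_left (show Commute (c * c) x from hcc) l)
    have hcm : c ^ m * x * (c ^ m)⁻¹ = x⁻¹ := by
      have e : c ^ m = c * (c * c) ^ l := by
        rw [hl, pow_succ', ← pow_two, ← pow_mul]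
      rw [e]
      calc c * (c * c) ^ l * x * (c * (c * c) ^ l)⁻¹ = c * ((c * c) ^ l * x) * ((c * c) ^ l)⁻¹ * c⁻¹ := by group
        _ = c * x * c⁻¹ := by rw [hcl]; group
        _ = x⁻¹ := hc
    have hcP : c ^ m ∈ (P : Subgroup G) := by
      have hp2 : IsPGroup 2 (Subgroup.zpowers (c ^ m)) := by
        intro y
        obtain ⟨j, hj⟩ := Subgroup.mem_zpowers_iff.1 y.2
        refine ⟨a, Subtype.ext ?_⟩
        show (y : G) ^ 2 ^ a = 1
        rw [← hj, ← zpow_natCast, ← zpow_mul, mul_comm, zpow_mul, zpow_natCast, ← pow_mul, mul_comm m, ← ham,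
          pow_orderOf_eq_one, one_zpow]
      obtain ⟨Q, hQ⟩ := hp2.exists_le_sylow
      obtain ⟨g, hg⟩ := MulAction.exists_smul_eq G P Q
      have : Q = P := by rw [← hg]; exact Sylow.smul_eq_of_normal
      rw [← this]
      exact hQ (Subgroup.mem_zpowers _)
    have h2 : c ^ m * (x * (c ^ m)⁻¹ * x⁻¹) ∈ (P : Subgroup G) :=
      (P : Subgroup G).mul_mem hcP (hP.conj_mem _ ((P : Subgroup G).inv_mem hcP) x)
    have h3 : c ^ m * (x * (c ^ m)⁻¹ * x⁻¹) = (x * x)⁻¹ := by
      calc c ^ m * (x * (c ^ m)⁻¹ * x⁻¹) = (c ^ m * x * (c ^ m)⁻¹) * x⁻¹ := by group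
        _ = (x * x)⁻¹ := by rw [hcm]; group
    rw [h3] at h2
    have h4 : x * x ∈ (P : Subgroup G) := by simpa using (P : Subgroup G).inv_mem h2
    obtain ⟨k, hk⟩ := P.2 ⟨_, h4⟩
    have hk' : (x * x) ^ 2 ^ k = 1 := congrArg Subtype.val hk
    apply hx1
    have h5 : x ^ 2 ^ (k + 1) = 1 := by rw [pow_succ', pow_mul, pow_two]; exact hk'
    have h6 := Nat.Coprime.eq_one_of_dvd ((Nat.coprime_two_right.2 hxo).pow_right (k + 1)) (orderOf_dvd_of_pow_eq_one h5)
    exact orderOf_eq_one_iff.1 h6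

end Cfsg.Agent.S3861
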