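import Cfsg.Statements.S3862
import Mathlib
import Cfsg.Agent.H1.FrobPC
import Cfsg.Agent.L0.Coprime
import Cfsg.Agent.H6.Critical4
import Cfsg.Agent.H3.Omega

set_option autoImplicit false
open Cfsg

namespace Cfsg.Agent.S3862

open Subgroup in
open scoped commutatorElement in
theorem core {G : Type*} [Group G] [Finite G] (h : ∀ x : G, (∃ j : ℕ, orderOf x = 2 ^ j) → IsConj x x⁻¹ → x ∈ Subgroup.center G)
    (V : Subgroup G) (hV : IsPGroup 2 ↥V) (y : G) (hy : y ∈ normalizer (V : Set G)) (hyo : (orderOf y).Coprime 2)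
    (hyV : y ∉ centralizer (V : Set G))
    (hmin : ∀ W : Subgroup G, W < V → y ∈ normalizer (W : Set G) → y ∈ centralizer (W : Set G)) : False := by
  set Y := zpowers y with hY
  have hYV : Y ≤ normalizer (V : Set G) := by rw [hY, zpowers_le]; exact hy
  have hcop : (Nat.card ↥Y).Coprime (Nat.card ↥V) := by
    rw [hY, Nat.card_zpowers]
    obtain ⟨k, hk⟩ := hV.exists_card_eq
    rw [hk]; exact hyo.pow_right k
  haveI : Group.IsNilpotent ↥V := hV.isNilpotent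
  have hVsol : Group.IsSolvable ↥V := inferInstance
  have hV0 : V ≠ ⊥ := by
    rintro rfl
    apply hyV
    rw [mem_centralizer_iff]
    intro z hz
    rw [coe_bot, Set.mem_singleton_iff] at hz
    rw [hz, one_mul, mul_one]
  have hconjV : ∀ v ∈ V, y * v * y⁻¹ ∈ V := fun v hv => (mem_normalizer_iff.1 hy v).1 hv
  have hconjV' : ∀ v ∈ V, y⁻¹ * v * y ∈ V := by
    intro v hv
    apply (mem_normalizer_iff.1 hy _).2
    have e : y * (y⁻¹ * v * y) * y⁻¹ = v := by group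
    rwa [e]
  -- (1)
  have h1 : ⁅V, Y⁆ = V := by
    by_contra hne
    have hle : ⁅V, Y⁆ ≤ V := L0.commutator_le_of_normalizes hYV
    have hlt : ⁅V, Y⁆ < V := lt_of_le_of_ne hle hne
    have hyn : y ∈ normalizer ((⁅V, Y⁆ : Subgroup G) : Set G) :=
      (Subgroup.normalizer_commutator_ge_right _ _) (mem_zpowers y)
    have h2 := hmin _ hlt hyn
    have h3 : ⁅⁅V, Y⁆, Y⁆ = ⊥ := by
      rw [commutator_eq_bot_iff_le_centralizer, le_centralizer_iff, hY, zpowers_le]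
      exact h2
    rw [L0.commutator_commutator_eq hYV hcop (Or.inr hVsol)] at h3
    apply hyV
    rw [commutator_eq_bot_iff_le_centralizer, le_centralizer_iff, hY, zpowers_le] at h3
    exact h3
  -- (2)
  have hVt : Nontrivial ↥V := (Subgroup.nontrivial_iff_ne_bot V).2 hV0
  have hD1 : ⁅V, V⁆ < V := by
    have hle : ⁅V, V⁆ ≤ V := by
      rw [Subgroup.commutator_le]
      intro a ha b hb
      rw [commutatorElement_def]
      exact V.mul_mem (V.mul_mem (V.mul_mem ha hb) (V.inv_mem ha)) (V.inv_mem hb)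
    refine lt_of_le_of_ne hle ?_
    intro he
    have h2 := Group.IsSolvable.commutator_lt_top_of_nontrivial ↥V
    apply h2.ne
    apply Subgroup.map_injective V.subtype_injective
    rw [Subgroup.map_subtype_commutator, he, ← MonoidHom.range_eq_map, Subgroup.range_subtype]
  have hyD : y ∈ normalizer ((⁅V, V⁆ : Subgroup G) : Set G) := by
    rw [Subgroup.commutator_def]
    apply Subgroup.mem_normalizer_fintype
    intro x hx
    rw [SetLike.mem_coe, ← Subgroup.commutator_def] at hx ⊢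
    have h3 : (⁅V, V⁆ : Subgroup G).map (MulAut.conj y).toMonoidHom = ⁅V, V⁆ := by
      rw [Subgroup.map_commutator]
      have h4 : V.map (MulAut.conj y).toMonoidHom = V := by
        apply Subgroup.eq_of_le_of_card_ge
        · rintro _ ⟨v, hv, rfl⟩
          exact hconjV v hv
        · rw [Subgroup.card_map_of_injective (MulAut.conj y).injective]
      rw [h4]
    rw [← h3]
    exact ⟨x, hx, rfl⟩
  have hcD := hmin _ hD1 hyD
  -- (3)
  have hcent : ⁅V, ⁅V, V⁆⁆ = ⊥ := by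
    have h4 : ⁅⁅V, Y⁆, ⁅V, V⁆⁆ = ⊥ := by
      apply Subgroup.commutator_commutator_eq_bot_of_rotate
      · have h5 : ⁅Y, ⁅V, V⁆⁆ = ⊥ := by
          rw [commutator_eq_bot_iff_le_centralizer, hY, zpowers_le]; exact hcD
        rw [h5, commutator_bot_left]
      · rw [eq_bot_iff]
        have h5 : ⁅⁅V, V⁆, Y⁆ = ⊥ := by
          rw [commutator_comm, commutator_eq_bot_iff_le_centralizer, hY, zpowers_le]; exact hcD
        rw [← h5]
        apply Subgroup.commutator_mono _ le_rfl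
        exact Subgroup.commutator_mono hD1.le le_rfl
    rwa [h1] at h4
  have hZV : ∀ v ∈ V, ∀ d ∈ ⁅V, V⁆, v * d = d * v := by
    intro v hv d hd
    rw [commutator_eq_bot_iff_le_centralizer] at hcent
    exact ((mem_centralizer_iff.1 (hcent hv)) d hd).symm
  have hyd : ∀ d ∈ ⁅V, V⁆, y * d = d * y := fun d hd => ((mem_centralizer_iff.1 hcD) d hd).symm
  -- (4) squares
  have hsq : ∀ v ∈ V, y * (v ^ 2) * y⁻¹ = v ^ 2 := by
    set W := (frattini ↥V).map V.subtype with hW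
    have hWV : W < V := by
      refine lt_of_le_of_ne (Subgroup.map_subtype_le _) ?_
      intro he
      apply H3.frattini_ne_top' (G := ↥V)
      apply Subgroup.map_injective V.subtype_injective
      rw [← hW, he, ← MonoidHom.range_eq_map, Subgroup.range_subtype]
    have hyW : y ∈ normalizer (W : Set G) := by
      haveI : (frattini ↥V).Characteristic := inferInstance
      exact H3.normalizer_le_of_char (frattini ↥V) hy
    have h6 := hmin W hWV hyW
    intro v hv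
    haveI : Fact (Nat.Prime 2) := ⟨Nat.prime_two⟩
    have h7 : v ^ 2 ∈ W := ⟨⟨v, hv⟩ ^ 2, H6.pow_mem_frattini hV _, rfl⟩
    rw [← mem_centralizer_iff.1 h6 _ h7]; group
  have hle : ⁅V, V⁆ ≤ V := hD1.le
  have hcom : ∀ v ∈ V, ∀ w ∈ V, v * w * v⁻¹ * w⁻¹ ∈ ⁅V, V⁆ := fun v hv w hw => commutator_mem_commutator hv hw
  have hydc : ∀ d ∈ ⁅V, V⁆, y * d * y⁻¹ = d := by
    intro d hd; rw [hyd d hd]; group
  have hydc' : ∀ d ∈ ⁅V, V⁆, y⁻¹ * d * y = d := by
    intro d hd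
    calc y⁻¹ * d * y = y⁻¹ * (y * d * y⁻¹) * y := by rw [hydc d hd]
      _ = d := by group
  -- T
  let T : Subgroup G :=
    { carrier := {v | v ∈ V ∧ v ^ 2 ∈ ⁅V, V⁆}
      one_mem' := ⟨V.one_mem, by rw [one_pow]; exact one_mem _⟩
      mul_mem' := by
        rintro a b ⟨ha, ha2⟩ ⟨hb, hb2⟩
        refine ⟨V.mul_mem ha hb, ?_⟩
        have e : (a * b) ^ 2 = a ^ 2 * (a⁻¹ * b * a⁻¹⁻¹ * b⁻¹) * b ^ 2 := by
          rw [sq, sq, sq]; group
        rw [e]
        exact mul_mem (mul_mem ha2 (hcom _ (V.inv_mem ha) _ hb)) hb2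
      inv_mem' := by
        rintro a ⟨ha, ha2⟩
        exact ⟨V.inv_mem ha, by rw [inv_pow]; exact inv_mem ha2⟩ }
  have hTV : T = V := by
    by_contra hne
    have hlt : T < V := lt_of_le_of_ne (fun v hv => hv.1) hne
    have hyT : y ∈ normalizer (T : Set G) := by
      apply Subgroup.mem_normalizer_fintype
      rintro v ⟨hv, hv2⟩
      refine ⟨hconjV v hv, ?_⟩
      rw [conj_pow, hydc _ hv2]; exact hv2
    have h2 := hmin T hlt hyT
    -- V = [V, Y] ≤ T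
    have hcomT : ∀ n : ℕ, ∀ v ∈ V, v * y ^ n * v⁻¹ * (y ^ n)⁻¹ ∈ T := by
      intro n
      have hyn : ∀ v ∈ V, y ^ n * v * (y ^ n)⁻¹ ∈ V ∧ y ^ n * v ^ 2 * (y ^ n)⁻¹ = v ^ 2 := by
        induction n with
        | zero => intro v hv; simp [hv]
        | succ n ih =>
          intro v hv
          have h3 := ih v hv
          have e : y ^ (n + 1) * v * (y ^ (n + 1))⁻¹ = y * (y ^ n * v * (y ^ n)⁻¹) * y⁻¹ := by
            rw [pow_succ']; group
          have e2 : y ^ (n + 1) * v ^ 2 * (y ^ (n + 1))⁻¹ = y * (y ^ n * v ^ 2 * (y ^ n)⁻¹) * y⁻¹ := by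
            rw [pow_succ']; group
          rw [e, e2, h3.2]
          exact ⟨hconjV _ h3.1, hsq v hv⟩
      intro v hv
      have h3 := hyn v⁻¹ (V.inv_mem hv)
      set w := y ^ n * v⁻¹ * (y ^ n)⁻¹ with hw
      have e : v * y ^ n * v⁻¹ * (y ^ n)⁻¹ = v * w := by rw [hw]; group
      rw [e]
      refine ⟨V.mul_mem hv h3.1, ?_⟩
      have h4 : w ^ 2 = v⁻¹ ^ 2 := by
        rw [← h3.2, hw, conj_pow]
      have e2 : (v * w) ^ 2 = v ^ 2 * (v⁻¹ * w * v⁻¹⁻¹ * w⁻¹) * w ^ 2 := by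
        rw [sq, sq, sq]; group
      rw [e2, h4]
      have hd := hcom _ (V.inv_mem hv) _ h3.1
      have e3 : v ^ 2 * (v⁻¹ * w * v⁻¹⁻¹ * w⁻¹) * v⁻¹ ^ 2 = v⁻¹ * w * v⁻¹⁻¹ * w⁻¹ := by
        rw [hZV _ (V.pow_mem hv 2) _ hd, inv_pow, mul_assoc, mul_inv_cancel, mul_one]
      rw [e3]; exact hd
    have h3 : ⁅V, Y⁆ ≤ T := by
      rw [Subgroup.commutator_le]
      intro v hv z hz
      obtain ⟨n, rfl⟩ := (mem_powers_iff_mem_zpowers).2 hz
      exact hcomT n v hv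
    rw [h1] at h3
    exact absurd (lt_of_lt_of_le hlt h3) (lt_irrefl _)
  -- x not centralized by y
  obtain ⟨x, hxV, hxy⟩ : ∃ x ∈ V, y * x ≠ x * y := by
    by_contra hcon
    push Not at hcon
    apply hyV
    rw [mem_centralizer_iff]
    intro v hv
    exact (hcon v hv).symm
  have hx2 : x ^ 2 ∈ ⁅V, V⁆ := by
    have : x ∈ T := by rw [hTV]; exact hxV
    exact this.2
  -- D = [x, V]
  let D : Subgroup G :=
    { carrier := {d | ∃ v ∈ V, x * v * x⁻¹ * v⁻¹ = d}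
      one_mem' := ⟨1, V.one_mem, by group⟩
      mul_mem' := by
        rintro _ _ ⟨v, hv, rfl⟩ ⟨w, hw, rfl⟩
        refine ⟨v * w, V.mul_mem hv hw, ?_⟩
        have h2 := hZV v hv _ (hcom x hxV w hw)
        calc x * (v * w) * x⁻¹ * (v * w)⁻¹ = (x * v * x⁻¹ * v⁻¹) * (v * (x * w * x⁻¹ * w⁻¹)) * v⁻¹ := by group
          _ = (x * v * x⁻¹ * v⁻¹) * ((x * w * x⁻¹ * w⁻¹) * v) * v⁻¹ := by rw [h2]
          _ = _ := by group
      inv_mem' := by
        rintro _ ⟨v, hv, rfl⟩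
        refine ⟨v⁻¹, V.inv_mem hv, ?_⟩
        calc x * v⁻¹ * x⁻¹ * v⁻¹⁻¹ = (v⁻¹ * (x * v * x⁻¹ * v⁻¹)⁻¹) * v := by group
          _ = (x * v * x⁻¹ * v⁻¹)⁻¹ := by
            rw [hZV v⁻¹ (V.inv_mem hv) _ (inv_mem (hcom x hxV v hv))]; group }
  have hDV : D ≤ ⁅V, V⁆ := by
    rintro _ ⟨v, hv, rfl⟩
    exact hcom x hxV v hv
  let Z : Subgroup G :=
    { carrier := {z | z ∈ V ∧ ∀ v ∈ V, z * v * z⁻¹ * v⁻¹ ∈ D}
      one_mem' := ⟨V.one_mem, fun v _ => by simp [D.one_mem]⟩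
      mul_mem' := by
        rintro a b ⟨ha, ha2⟩ ⟨hb, hb2⟩
        refine ⟨V.mul_mem ha hb, fun v hv => ?_⟩
        have h2 := hZV a ha _ (hcom b hb v hv)
        have e : (a * b) * v * (a * b)⁻¹ * v⁻¹ = (b * v * b⁻¹ * v⁻¹) * (a * v * a⁻¹ * v⁻¹) := by
          calc (a * b) * v * (a * b)⁻¹ * v⁻¹ = (a * (b * v * b⁻¹ * v⁻¹)) * v * a⁻¹ * v⁻¹ := by group
            _ = ((b * v * b⁻¹ * v⁻¹) * a) * v * a⁻¹ * v⁻¹ := by rw [h2]
            _ = _ := by group
        rw [e]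
        exact D.mul_mem (hb2 v hv) (ha2 v hv)
      inv_mem' := by
        rintro a ⟨ha, ha2⟩
        refine ⟨V.inv_mem ha, fun v hv => ?_⟩
        have h2 := hZV a⁻¹ (V.inv_mem ha) _ (inv_mem (hcom a ha v hv))
        have e : a⁻¹ * v * a⁻¹⁻¹ * v⁻¹ = (a * v * a⁻¹ * v⁻¹)⁻¹ := by
          calc a⁻¹ * v * a⁻¹⁻¹ * v⁻¹ = (a⁻¹ * (a * v * a⁻¹ * v⁻¹)⁻¹) * a := by group
            _ = ((a * v * a⁻¹ * v⁻¹)⁻¹ * a⁻¹) * a := by rw [h2]
            _ = _ := by group
        rw [e]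
        exact D.inv_mem (ha2 v hv) }
  have hZtop : Z = V := by
    by_contra hne
    have hlt : Z < V := lt_of_le_of_ne (fun v hv => hv.1) hne
    have hyZ : y ∈ normalizer (Z : Set G) := by
      apply Subgroup.mem_normalizer_fintype
      rintro z ⟨hz, hz2⟩
      refine ⟨hconjV z hz, fun v hv => ?_⟩
      have h3 := hz2 (y⁻¹ * v * y) (hconjV' v hv)
      have e : (y * z * y⁻¹) * v * (y * z * y⁻¹)⁻¹ * v⁻¹ = y * (z * (y⁻¹ * v * y) * z⁻¹ * (y⁻¹ * v * y)⁻¹) * y⁻¹ := by group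
      rw [e, hydc _ (hDV h3)]
      exact h3
    have h2 := hmin Z hlt hyZ
    apply hxy
    exact ((mem_centralizer_iff.1 h2) x ⟨hxV, fun v hv => ⟨v, hv, rfl⟩⟩).symm
  have hVD : ⁅V, V⁆ ≤ D := by
    rw [Subgroup.commutator_le]
    intro a ha b hb
    have : a ∈ Z := by rw [hZtop]; exact ha
    exact this.2 b hb
  obtain ⟨v, hv, hvx⟩ := hVD hx2
  -- v x v⁻¹ = x⁻¹
  have hreal : IsConj x x⁻¹ := by
    rw [isConj_iff]
    refine ⟨v, ?_⟩
    have h2 : (x * v * x⁻¹ * v⁻¹)⁻¹ = (x ^ 2)⁻¹ := by rw [hvx]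
    calc v * x * v⁻¹ = (x * v * x⁻¹ * v⁻¹)⁻¹ * x := by group
      _ = (x ^ 2)⁻¹ * x := by rw [h2]
      _ = x⁻¹ := by rw [sq]; group
  have hx2e : ∃ j : ℕ, orderOf x = 2 ^ j := by
    obtain ⟨k, hk⟩ := (IsPGroup.iff_orderOf.1 hV) ⟨x, hxV⟩
    rw [Subgroup.orderOf_mk] at hk
    exact ⟨k, hk⟩
  exact hxy (mem_center_iff.1 (h x hx2e hreal) y)

/-- If every 2-element of the finite group G that is conjugate to its inverse lies in the centre of G, then G has a normal 2-complement. -/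
theorem result {G : Type*} [Group G] [Finite G] (h : ∀ x : G, (∃ j : ℕ, orderOf x = 2 ^ j) → IsConj x x⁻¹ → x ∈ Subgroup.center G) : Cfsg.HasNormalPComplement 2 G := by
  haveI : Fact (Nat.Prime 2) := ⟨Nat.prime_two⟩
  apply H1.frobenius_criterion
  by_contra hcon
  push Not at hcon
  obtain ⟨Q, hQ, g, hg, hgo, hgc⟩ := hcon
  obtain ⟨V, ⟨hV1, hV2, hV3⟩, hmin⟩ := Set.exists_min_image {V : Subgroup G | IsPGroup 2 ↥V ∧ g ∈ Subgroup.normalizer (V : Set G) ∧ g ∉ Subgroup.centralizer (V : Set G)}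
    (fun V => Nat.card ↥V) (Set.toFinite _) ⟨Q, hQ, hg, hgc⟩
  apply core h V hV1 g hV2 hgo hV3
  intro W hW hgW
  by_contra hgW2
  have h1 := hmin W ⟨hV1.to_le hW.le, hgW, hgW2⟩
  exact absurd (Subgroup.eq_of_le_of_card_ge hW.le h1) hW.ne

end Cfsg.Agent.S3862
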