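import Cfsg.Statements.S3863
import Mathlib

set_option autoImplicit false
open Cfsg

namespace Cfsg.Agent.S3863

/-- Let x be an element of the finite group G that is conjugate to its inverse. Then some 2-element conjugates x to its inverse; if the conjugacy class of x has odd size then x ^ 2 = 1; and x lies in, and is conjugate to its inverse inside, every normal subgroup of odd index. -/
theorem result {G : Type*} [Group G] [Finite G] (x : G) (hx : IsConj x x⁻¹) : (∃ t : G, (∃ j : ℕ, orderOf t = 2 ^ j) ∧ t * x * t⁻¹ = x⁻¹) ∧ (Odd (Subgroup.centralizer ({x} : Set G)).index → x ^ 2 = 1) ∧ ∀ (N : Subgroup G) [N.Normal], Odd N.index → ∃ hxN : x ∈ N, IsConj (⟨x, hxN⟩ : N) (⟨x, hxN⟩ : N)⁻¹ := by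
  -- part 1
  have part1 : ∃ t : G, (∃ j : ℕ, orderOf t = 2 ^ j) ∧ t * x * t⁻¹ = x⁻¹ := by
    rw [isConj_iff] at hx
    obtain ⟨g, hg⟩ := hx
    obtain ⟨j, m, hm2, hm⟩ := Nat.exists_eq_pow_mul_and_not_dvd (n := orderOf g) (orderOf_pos g).ne' 2 (by norm_num)
    have hodd : Odd m := Nat.not_even_iff_odd.1 (fun h => hm2 h.two_dvd)
    have hinv : ∀ n : ℕ, g ^ n * x * (g ^ n)⁻¹ = if Even n then x else x⁻¹ := by
      intro n
      induction n with
      | zero => simp
      | succ n ih =>
        have e : g ^ (n + 1) * x * (g ^ (n + 1))⁻¹ = g * (g ^ n * x * (g ^ n)⁻¹) * g⁻¹ := by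
          rw [pow_succ']; group
        rw [e, ih]
        by_cases hn : Even n
        · rw [if_pos hn, if_neg (by rw [Nat.even_add_one]; exact not_not.2 hn), hg]
        · rw [if_neg hn, if_pos (by rw [Nat.even_add_one]; exact hn)]
          have : g * x⁻¹ * g⁻¹ = (g * x * g⁻¹)⁻¹ := by group
          rw [this, hg, inv_inv]
    refine ⟨g ^ m, ⟨j, ?_⟩, ?_⟩
    · rw [orderOf_pow, hm, Nat.gcd_eq_right (Dvd.intro_left _ rfl)]
      exact Nat.mul_div_cancel _ hodd.pos
    · rw [hinv, if_neg (Nat.not_even_iff_odd.2 hodd)]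
  refine ⟨part1, ?_, ?_⟩
  · intro hodd
    by_contra hx2
    obtain ⟨t, -, ht⟩ := part1
    -- t normalizes the centralizer C of x, t ∉ C, t² ∈ C
    set C := Subgroup.centralizer ({x} : Set G) with hC
    have htC : t ∉ C := by
      intro h
      rw [hC, Subgroup.mem_centralizer_singleton_iff] at h
      apply hx2
      rw [h] at ht
      have : x = x⁻¹ := by rw [← ht]; group
      rw [sq]
      nth_rewrite 2 [this]
      group
    have hinvol : ∀ g : G, g * x * g⁻¹ = x⁻¹ → g * x⁻¹ * g⁻¹ = x := by
      intro g hg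
      have : g * x⁻¹ * g⁻¹ = (g * x * g⁻¹)⁻¹ := by group
      rw [this, hg, inv_inv]
    let D : Subgroup G :=
      { carrier := {g | g * x * g⁻¹ = x ∨ g * x * g⁻¹ = x⁻¹}
        one_mem' := by left; simp
        mul_mem' := by
          intro a b ha hb
          have e : (a * b) * x * (a * b)⁻¹ = a * (b * x * b⁻¹) * a⁻¹ := by group
          rcases ha with ha | ha <;> rcases hb with hb | hb
          · left; rw [e, hb, ha]
          · right; rw [e, hb]
            have : a * x⁻¹ * a⁻¹ = (a * x * a⁻¹)⁻¹ := by group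
            rw [this, ha]
          · right; rw [e, hb, ha]
          · left; rw [e, hb]; exact hinvol a ha
        inv_mem' := by
          intro a ha
          rcases ha with ha | ha
          · left
            have : x = a⁻¹ * (a * x * a⁻¹) * a := by group
            rw [ha] at this
            rw [inv_inv]; exact this.symm
          · right
            have h1 := hinvol a ha
            have : x⁻¹ = a⁻¹ * (a * x⁻¹ * a⁻¹) * a := by group
            rw [h1] at this
            rw [inv_inv]; exact this.symm }
    have hCD : C ≤ D := by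
      intro g hg
      rw [hC, Subgroup.mem_centralizer_singleton_iff] at hg
      left
      rw [hg]; group
    have hidx : C.relIndex D = 2 := by
      have : (C.subgroupOf D).index = 2 := by
        rw [Subgroup.index_eq_two_iff]
        have htD : t ∈ D := Or.inr ht
        refine ⟨⟨t, htD⟩, ?_⟩
        rintro ⟨b, hb⟩
        have hmem : ∀ g : G, g ∈ C ↔ g * x * g⁻¹ = x := by
          intro g
          rw [hC, Subgroup.mem_centralizer_singleton_iff]
          constructor
          · intro h; rw [h]; group
          · intro h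
            calc g * x = (g * x * g⁻¹) * g := by group
              _ = x * g := by rw [h]
        have hne : x ≠ x⁻¹ := by
          intro h
          apply hx2
          rw [sq]
          nth_rewrite 2 [h]
          group
        rw [Subgroup.mem_subgroupOf, Subgroup.mem_subgroupOf]
        show Xor' (b * t ∈ C) (b ∈ C)
        rw [hmem, hmem]
        have e : (b * t) * x * (b * t)⁻¹ = b * (t * x * t⁻¹) * b⁻¹ := by group
        rw [e, ht]
        rcases hb with hb | hb
        · right
          refine ⟨hb, ?_⟩
          have : b * x⁻¹ * b⁻¹ = (b * x * b⁻¹)⁻¹ := by group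
          rw [this, hb]
          exact fun h => hne h.symm
        · left
          refine ⟨hinvol b hb, ?_⟩
          rw [hb]
          exact fun h => hne h.symm
      exact this
    have h1 : C.relIndex D * D.index = C.index := Subgroup.relIndex_mul_index hCD
    rw [hidx] at h1
    rw [← h1] at hodd
    exact (Nat.not_odd_iff_even.2 (even_two_mul _)) hodd
  · intro N hN hNodd
    obtain ⟨t, ⟨j, hj⟩, ht⟩ := part1
    have hcard : Odd (Nat.card (G ⧸ N)) := by rw [← Subgroup.index_eq_card]; exact hNodd
    have key : ∀ y : G ⧸ N, (∃ k, y ^ 2 ^ k = 1) → y = 1 := by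
      rintro y ⟨k, hk⟩
      have h1 : orderOf y ∣ 2 ^ k := orderOf_dvd_of_pow_eq_one hk
      have h2 : orderOf y ∣ Nat.card (G ⧸ N) := _root_.orderOf_dvd_natCard y
      have h3 : (2 ^ k).Coprime (Nat.card (G ⧸ N)) := (Nat.coprime_two_left.2 hcard).pow_left k
      have h4 : orderOf y ∣ 1 := by rw [← h3]; exact Nat.dvd_gcd h1 h2
      exact orderOf_eq_one_iff.1 (Nat.dvd_one.1 h4)
    have htN : t ∈ N := by
      rw [← QuotientGroup.eq_one_iff]
      apply key
      refine ⟨j, ?_⟩
      rw [← QuotientGroup.mk_pow, ← hj, pow_orderOf_eq_one]; rfl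
    have hxN : x ∈ N := by
      rw [← QuotientGroup.eq_one_iff]
      apply key
      refine ⟨1, ?_⟩
      have h1 : ((t * x * t⁻¹ : G) : G ⧸ N) = ((x⁻¹ : G) : G ⧸ N) := by rw [ht]
      simp only [QuotientGroup.mk_mul, QuotientGroup.mk_inv] at h1
      rw [(QuotientGroup.eq_one_iff t).2 htN] at h1
      rw [pow_one, sq]
      nth_rewrite 2 [show (x : G ⧸ N) = (x : G ⧸ N)⁻¹ by simpa using h1]
      exact mul_inv_cancel _
    refine ⟨hxN, ?_⟩
    rw [isConj_iff]
    exact ⟨⟨t, htN⟩, Subtype.ext ht⟩

end Cfsg.Agent.S3863
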