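import Cfsg.Statements.S3866
import Mathlib

set_option autoImplicit false
open Cfsg

namespace Cfsg.Agent.S3866

open scoped commutatorElement in

/-- Let A be a commutative normal subgroup of the finite group G with G generated by A and an element x. Then a ↦ x a x⁻¹ a⁻¹ is a surjective homomorphism from A onto the commutator subgroup of G whose kernel is the centralizer of x in A; in particular the commutator subgroup has order equal to the index in A of that centralizer. -/
theorem result {G : Type*} [Group G] [Finite G] (A : Subgroup G) [A.Normal] (hA : IsMulCommutative A) (x : G) (hgen : A ⊔ Subgroup.zpowers x = ⊤) : (∀ a ∈ A, x * a * x⁻¹ * a⁻¹ ∈ commutator G) ∧ (∀ c ∈ commutator G, ∃ a ∈ A, x * a * x⁻¹ * a⁻¹ = c) ∧ (∀ a ∈ A, ∀ b ∈ A, x * (a * b) * x⁻¹ * (a * b)⁻¹ = (x * a * x⁻¹ * a⁻¹) * (x * b * x⁻¹ * b⁻¹)) ∧ Nat.card (commutator G) * Nat.card ↥(A ⊓ Subgroup.centralizer ({x} : Set G)) = Nat.card A := by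
  have hAc : ∀ a ∈ A, ∀ b ∈ A, a * b = b * a := fun a ha b hb =>
    congrArg Subtype.val (hA.is_comm.comm (⟨a, ha⟩ : ↥A) ⟨b, hb⟩)
  have hAn : A.Normal := inferInstance
  have hmemA : ∀ a ∈ A, x * a * x⁻¹ * a⁻¹ ∈ A := fun a ha => A.mul_mem (hAn.conj_mem a ha x) (A.inv_mem ha)
  have hmul : ∀ a ∈ A, ∀ b ∈ A, x * (a * b) * x⁻¹ * (a * b)⁻¹ = (x * a * x⁻¹ * a⁻¹) * (x * b * x⁻¹ * b⁻¹) := by
    intro a ha b hb
    have h1 : (x * b * x⁻¹ * b⁻¹) * a⁻¹ = a⁻¹ * (x * b * x⁻¹ * b⁻¹) := hAc _ (hmemA b hb) _ (A.inv_mem ha)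
    calc x * (a * b) * x⁻¹ * (a * b)⁻¹ = (x * a * x⁻¹) * ((x * b * x⁻¹ * b⁻¹) * a⁻¹) := by group
      _ = (x * a * x⁻¹) * (a⁻¹ * (x * b * x⁻¹ * b⁻¹)) := by rw [h1]
      _ = _ := by group
  -- the homomorphism
  let f : ↥A →* G :=
    { toFun := fun a => x * a * x⁻¹ * (a : G)⁻¹
      map_one' := by simp
      map_mul' := fun a b => hmul a a.2 b b.2 }
  have hfA : f.range ≤ A := by rintro _ ⟨a, rfl⟩; exact hmemA a a.2
  -- the range is normal
  have hB : f.range.Normal := by
    have h1 : (⊤ : Subgroup G) ≤ Subgroup.normalizer (f.range : Set G) := by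
      rw [← hgen, sup_le_iff, Subgroup.zpowers_le]
      constructor
      · intro a ha
        apply Subgroup.centralizer_le_normalizer
        rw [Subgroup.mem_centralizer_iff]
        intro b hb
        exact hAc b (hfA hb) a ha
      · apply Subgroup.mem_normalizer_fintype
        rintro _ ⟨a, rfl⟩
        refine ⟨⟨x * a * x⁻¹, hAn.conj_mem a a.2 x⟩, ?_⟩
        show x * (x * a * x⁻¹) * x⁻¹ * (x * a * x⁻¹)⁻¹ = x * (x * a * x⁻¹ * (a : G)⁻¹) * x⁻¹
        group
    exact Subgroup.normalizer_eq_top_iff.1 (top_le_iff.1 h1)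
  have hle : commutator G ≤ f.range := by
    have hcx : ∀ a ∈ A, Commute (x : G ⧸ f.range) (a : G ⧸ f.range) := by
      intro a ha
      have h1 : ((x * a * x⁻¹ * a⁻¹ : G) : G ⧸ f.range) = 1 := (QuotientGroup.eq_one_iff _).2 ⟨⟨a, ha⟩, rfl⟩
      simp only [QuotientGroup.mk_mul, QuotientGroup.mk_inv] at h1
      show (x : G ⧸ f.range) * a = a * x
      calc (x : G ⧸ f.range) * a = (x * a * (x : G ⧸ f.range)⁻¹ * (a : G ⧸ f.range)⁻¹) * (a * x) := by group
        _ = a * x := by rw [h1, one_mul]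
    have hel : ∀ g : G, ∃ a ∈ A, ∃ k : ℤ, g = a * x ^ k := by
      intro g
      have h1 : g ∈ A ⊔ Subgroup.zpowers x := by rw [hgen]; exact Subgroup.mem_top g
      rw [← SetLike.mem_coe, Subgroup.normal_mul, Set.mem_mul] at h1
      obtain ⟨a, ha, y, ⟨k, rfl⟩, rfl⟩ := h1
      exact ⟨a, ha, k, rfl⟩
    rw [_root_.commutator_def, Subgroup.commutator_le]
    intro g _ h _
    rw [← QuotientGroup.eq_one_iff, commutatorElement_def]
    obtain ⟨a, ha, k, rfl⟩ := hel g
    obtain ⟨b, hb, l, rfl⟩ := hel h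
    simp only [QuotientGroup.mk_mul, QuotientGroup.mk_inv, QuotientGroup.mk_zpow]
    have hab : Commute (a : G ⧸ f.range) (b : G ⧸ f.range) := by
      show (a : G ⧸ f.range) * b = b * a
      rw [← QuotientGroup.mk_mul, hAc a ha b hb]; rfl
    have hcomm : Commute ((a : G ⧸ f.range) * (x : G ⧸ f.range) ^ k) ((b : G ⧸ f.range) * (x : G ⧸ f.range) ^ l) := by
      apply Commute.mul_left <;> apply Commute.mul_right
      · exact hab
      · exact (hcx a ha).symm.zpow_right l
      · exact (hcx b hb).zpow_left k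
      · exact (Commute.refl _).zpow_zpow _ _
    rw [hcomm.eq]; group
  have hge : f.range ≤ commutator G := by
    rintro _ ⟨a, rfl⟩
    exact Subgroup.commutator_mem_commutator (Subgroup.mem_top x) (Subgroup.mem_top (a : G))
  have heq : commutator G = f.range := le_antisymm hle hge
  refine ⟨fun a ha => hge ⟨⟨a, ha⟩, rfl⟩, ?_, hmul, ?_⟩
  · intro c hc
    obtain ⟨a, rfl⟩ := hle hc
    exact ⟨a, a.2, rfl⟩
  · have h1 : Nat.card ↥(commutator G) = Nat.card ↥f.range := by rw [heq]
    have h2 : Nat.card ↥f.ker = Nat.card ↥(A ⊓ Subgroup.centralizer ({x} : Set G)) := by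
      have h3 : f.ker.map A.subtype = A ⊓ Subgroup.centralizer ({x} : Set G) := by
        ext y
        rw [Subgroup.mem_inf, Subgroup.mem_centralizer_singleton_iff]
        constructor
        · rintro ⟨a, ha, rfl⟩
          refine ⟨a.2, ?_⟩
          have h4 : x * a * x⁻¹ * (a : G)⁻¹ = 1 := ha
          show (a : G) * x = x * a
          calc (a : G) * x = (x * a * x⁻¹ * (a : G)⁻¹)⁻¹ * (x * a) := by group
            _ = x * a := by rw [h4]; group
        · rintro ⟨hy, hy2⟩
          refine ⟨⟨y, hy⟩, ?_, rfl⟩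
          show x * y * x⁻¹ * y⁻¹ = 1
          rw [← hy2]; group
      rw [← h3, Subgroup.card_map_of_injective A.subtype_injective]
    rw [h1, ← h2, ← Subgroup.index_ker f, Subgroup.index_mul_card]

end Cfsg.Agent.S3866
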