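import Cfsg.Statements.S3867
import Mathlib
import Cfsg.Agent.H3.SysN
import Cfsg.Agent.L0.Coprime

set_option autoImplicit false
open Cfsg

namespace Cfsg.Agent.S3867

open Subgroup in
open scoped Pointwise in
theorem fratt {G : Type*} [Group G] [Finite G] {p : ℕ} [Fact p.Prime] (P : Sylow p G) (M : Subgroup G) [M.Normal] :
    normalizer (((P : Subgroup G) ⊔ M : Subgroup G) : Set G) = M ⊔ normalizer ((P : Subgroup G) : Set G) := by
  apply le_antisymm
  · intro g hg
    have h1 : L0.IsSylowIn p (P : Subgroup G) ((P : Subgroup G) ⊔ M) := by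
      rw [L0.isSylowIn_iff_card]
      refine ⟨le_sup_left, ?_⟩
      rw [P.card_eq_multiplicity]
      congr 1
      apply le_antisymm
      · have h2 : p ^ (Nat.card G).factorization p ∣ Nat.card ↥((P : Subgroup G) ⊔ M) := by
          rw [← P.card_eq_multiplicity]; exact Subgroup.card_dvd_of_le le_sup_left
        exact ((Fact.out : p.Prime).pow_dvd_iff_le_factorization Nat.card_pos.ne').1 h2
      · exact (Nat.factorization_le_iff_dvd Nat.card_pos.ne' Nat.card_pos.ne').2 (Subgroup.card_subgroup_dvd_card _) p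
    have h2 := h1.conj (L0.mem_normalizer_conj.1 hg)
    obtain ⟨n, hn, hn2⟩ := h2.exists_conj h1
    have h3 : n * g ∈ normalizer ((P : Subgroup G) : Set G) := by
      rw [L0.mem_normalizer_conj, map_mul, mul_smul, hn2]
    have h4 : g = n⁻¹ * (n * g) := by group
    rw [h4]
    have hle : (P : Subgroup G) ⊔ M ≤ M ⊔ normalizer ((P : Subgroup G) : Set G) :=
      sup_le (le_normalizer.trans le_sup_right) le_sup_left
    exact mul_mem (hle (inv_mem hn)) (mem_sup_right h3)
  · apply sup_le
    · exact le_sup_right.trans le_normalizer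
    · intro g hg
      rw [L0.mem_normalizer_conj] at hg ⊢
      rw [Subgroup.smul_sup, hg]
      congr 1
      exact L0.mem_normalizer_conj.1 (by rw [normalizer_eq_top]; exact mem_top g)

open Subgroup in
theorem card_quot {G : Type*} [Group G] [Finite G] {p : ℕ} [Fact p.Prime] (P : Sylow p G) (M : Subgroup G) [M.Normal] :
    Nat.card (Sylow p (G ⧸ M)) = (normalizer (((P : Subgroup G) ⊔ M : Subgroup G) : Set G)).index := by
  rw [(P.mapSurjective (QuotientGroup.mk'_surjective M)).card_eq_index_normalizer,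
    ← Subgroup.index_comap_of_surjective _ (QuotientGroup.mk'_surjective M)]
  congr 1
  have h1 : ((P.mapSurjective (QuotientGroup.mk'_surjective M) : Sylow p (G ⧸ M)) : Subgroup (G ⧸ M)) = (P : Subgroup G).map (QuotientGroup.mk' M) := rfl
  have h2 : ((P : Subgroup G).map (QuotientGroup.mk' M)).comap (QuotientGroup.mk' M) = (P : Subgroup G) ⊔ M := by
    rw [Subgroup.comap_map_eq, QuotientGroup.ker_mk']
  rw [← h2]
  have h3 := Subgroup.comap_normalizer_eq_of_surjective ((P : Subgroup G).map (QuotientGroup.mk' M)) (QuotientGroup.mk'_surjective M)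
  exact h3

open Subgroup in
theorem inf_eq {G : Type*} [Group G] [Finite G] {p : ℕ} [Fact p.Prime] (P : Sylow p G) (M N : Subgroup G) [M.Normal] [N.Normal]
    (hMN : M ⊓ N = ⊥) : normalizer ((P : Subgroup G) : Set G) ⊓ M = normalizer (((P : Subgroup G) ⊔ N : Subgroup G) : Set G) ⊓ M := by
  have hMn : M.Normal := inferInstance
  apply le_antisymm
  · apply inf_le_inf_right
    rw [fratt]; exact le_sup_right
  · -- D = PN ⊓ M ≤ P
    have hD : ((P : Subgroup G) ⊔ N) ⊓ M ≤ (P : Subgroup G) := by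
      set D := ((P : Subgroup G) ⊔ N) ⊓ M with hD
      have hDp : IsPGroup p ↥D := by
        rintro ⟨d, hd1, hd2⟩
        have hd1 : d ∈ ((P : Subgroup G) ⊔ N : Subgroup G) := hd1
        have hd2 : d ∈ M := hd2
        rw [← SetLike.mem_coe, Subgroup.mul_normal, Set.mem_mul] at hd1
        obtain ⟨x, hx, n, hn, hxn⟩ := hd1
        obtain ⟨k, hk⟩ := P.isPGroup' ⟨x, hx⟩
        have hk : x ^ p ^ k = 1 := congrArg Subtype.val hk
        refine ⟨k, Subtype.ext ?_⟩
        show d ^ p ^ k = 1
        have h1 : d ^ p ^ k ∈ N := by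
          rw [← QuotientGroup.eq_one_iff, QuotientGroup.mk_pow, ← hxn, QuotientGroup.mk_mul, (QuotientGroup.eq_one_iff n).2 hn, mul_one,
            ← QuotientGroup.mk_pow, hk]; rfl
        have h2 : d ^ p ^ k ∈ M ⊓ N := ⟨M.pow_mem hd2 _, h1⟩
        rwa [hMN, mem_bot] at h2
      have hPD : (P : Subgroup G) ≤ normalizer (D : Set G) := by
        intro x hx
        have h1 : x ∈ normalizer (((P : Subgroup G) ⊔ N : Subgroup G) : Set G) := le_normalizer (mem_sup_left hx)
        refine mem_normalizer_iff.mpr fun y => ?_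
        rw [hD, mem_inf, mem_inf]
        constructor
        · rintro ⟨h2, h3⟩
          exact ⟨(mem_normalizer_iff.1 h1 y).1 h2, hMn.conj_mem y h3 x⟩
        · rintro ⟨h2, h3⟩
          refine ⟨(mem_normalizer_iff.1 h1 y).2 h2, ?_⟩
          have := hMn.conj_mem _ h3 x⁻¹
          have e : x⁻¹ * (x * y * x⁻¹) * x⁻¹⁻¹ = y := by group
          rwa [e] at this
      have h1 : IsPGroup p ↥((P : Subgroup G) ⊔ D) := P.isPGroup'.to_sup_of_normal_right' hDp hPD
      have h2 := P.is_maximal' h1 le_sup_left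
      rw [← h2]; exact le_sup_right
    intro m hm
    obtain ⟨hm1, hm2⟩ := mem_inf.1 hm
    refine mem_inf.2 ⟨?_, hm2⟩
    apply Subgroup.mem_normalizer_fintype
    intro x hx
    have h1 : m * x * m⁻¹ * x⁻¹ ∈ ((P : Subgroup G) ⊔ N) ⊓ M := by
      refine mem_inf.2 ⟨?_, ?_⟩
      · exact mul_mem ((mem_normalizer_iff.1 hm1 x).1 (mem_sup_left hx)) (inv_mem (mem_sup_left hx))
      · have e : m * x * m⁻¹ * x⁻¹ = m * (x * m⁻¹ * x⁻¹) := by group
        rw [e]
        exact M.mul_mem hm2 (hMn.conj_mem _ (M.inv_mem hm2) x)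
    have e : m * x * m⁻¹ = (m * x * m⁻¹ * x⁻¹) * x := by group
    rw [e]
    exact (P : Subgroup G).mul_mem (hD h1) hx

/-- Let M and N be nontrivial normal subgroups of the finite group G with M ⊓ N trivial, and let p be a prime. Writing n(X) for the number of Sylow p-subgroups of a group X, one has n(G) · n(G/MN) = n(G/M) · n(G/N). -/
theorem result {G : Type*} [Group G] [Finite G] (p : ℕ) [Fact p.Prime] (M N : Subgroup G) [M.Normal] [N.Normal] (hM : M ≠ ⊥) (hN : N ≠ ⊥) (hMN : M ⊓ N = ⊥) : Nat.card (Sylow p G) * Nat.card (Sylow p (G ⧸ (M ⊔ N))) = Nat.card (Sylow p (G ⧸ M)) * Nat.card (Sylow p (G ⧸ N)) := by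
  have P : Sylow p G := default
  rw [P.card_eq_index_normalizer, card_quot P M, card_quot P N, card_quot P (M ⊔ N)]
  have e1 : (P : Subgroup G) ⊔ (M ⊔ N) = ((P : Subgroup G) ⊔ N) ⊔ M := by rw [sup_comm M N, sup_assoc]
  have h1 : Subgroup.normalizer (((P : Subgroup G) ⊔ (M ⊔ N) : Subgroup G) : Set G) =
      M ⊔ Subgroup.normalizer (((P : Subgroup G) ⊔ N : Subgroup G) : Set G) := by
    rw [fratt, fratt, sup_assoc]
  rw [h1, fratt P M]
  set A := Subgroup.normalizer ((P : Subgroup G) : Set G) with hA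
  set B := Subgroup.normalizer (((P : Subgroup G) ⊔ N : Subgroup G) : Set G) with hB
  have h2 : A.relIndex (M ⊔ A) = A.relIndex M := H3.relIndex_sup_eq A M
  have h3 : B.relIndex (M ⊔ B) = B.relIndex M := H3.relIndex_sup_eq B M
  have h4 : A.relIndex M = B.relIndex M := by
    rw [← Subgroup.inf_relIndex_right A M, ← Subgroup.inf_relIndex_right B M, inf_eq P M N hMN]
  have h5 := Subgroup.relIndex_mul_index (le_sup_right : A ≤ M ⊔ A)
  have h6 := Subgroup.relIndex_mul_index (le_sup_right : B ≤ M ⊔ B)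
  change A.index * _ = _
  rw [← h5, ← h6, h2, h3, h4]
  ring

end Cfsg.Agent.S3867
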