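import Cfsg.Statements.S3881
import Mathlib
import Cfsg.Agent.H3.Meta3

set_option autoImplicit false
open Cfsg

namespace Cfsg.Agent.S3881

/-- Let p be an odd prime and G a finite metacyclic p-group (G has a cyclic normal subgroup with cyclic quotient). Suppose G is non-abelian with |G'| = p^n. Then for 1 ≤ i ≤ n the number of elements of G whose conjugacy class has exactly p^i elements is |Z(G)| · (p^(2i) − p^(2i−2)). -/
theorem result {G : Type*} [Group G] [Finite G] {p : ℕ} [Fact p.Prime] (hp : p ≠ 2) (hG : IsPGroup p G) (hmc : Cfsg.IsMetacyclic G) (n : ℕ) (hn : n ≠ 0) (hGn : Nat.card ↥(commutator G) = p ^ n) (i : ℕ) (hi : 1 ≤ i) (hin : i ≤ n) :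
    Nat.card {g : G // (Subgroup.centralizer ({g} : Set G)).index = p ^ i} =
      Nat.card ↥(Subgroup.center G) * (p ^ (2 * i) - p ^ (2 * i - 2)) := by
  have h1 : ∀ g : G, (Subgroup.centralizer ({g} : Set G)).index = p ^ i ↔
      g ∈ ((H3.Meta.E hmc (p ^ i) : Set G) \ (H3.Meta.E hmc (p ^ (i - 1)) : Set G)) := by
    intro g
    rw [Set.mem_diff, SetLike.mem_coe, SetLike.mem_coe, ← H3.Meta.index_le_iff hp hG hmc, ← H3.Meta.index_le_iff hp hG hmc]
    obtain ⟨l, hl⟩ := hG.index (Subgroup.centralizer ({g} : Set G))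
    rw [hl]
    have h2 := (Fact.out : p.Prime).one_lt
    rw [Nat.pow_le_pow_iff_right h2, Nat.pow_le_pow_iff_right h2, Nat.pow_right_inj h2]
    omega
  have h2 : Nat.card {g : G // (Subgroup.centralizer ({g} : Set G)).index = p ^ i} =
      ((H3.Meta.E hmc (p ^ i) : Set G) \ (H3.Meta.E hmc (p ^ (i - 1)) : Set G)).ncard := by
    rw [← Nat.card_coe_set_eq]
    exact Nat.card_congr (Equiv.subtypeEquivRight h1)
  rw [h2, Set.ncard_diff (H3.Meta.E_mono hmc (pow_dvd_pow p (Nat.sub_le i 1))) (Set.toFinite _), ← Nat.card_coe_set_eq,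
    ← Nat.card_coe_set_eq]
  have h3 := H3.Meta.card_E hp hG hmc hGn hin
  have h4 := H3.Meta.card_E hp hG hmc hGn (show i - 1 ≤ n by omega)
  rw [show Nat.card ↥(↑(H3.Meta.E hmc (p ^ i)) : Set G) = Nat.card ↥(H3.Meta.E hmc (p ^ i)) from rfl, h3,
    show Nat.card ↥(↑(H3.Meta.E hmc (p ^ (i - 1))) : Set G) = Nat.card ↥(H3.Meta.E hmc (p ^ (i - 1))) from rfl, h4,
    show 2 * (i - 1) = 2 * i - 2 by omega, Nat.mul_sub]

end Cfsg.Agent.S3881
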