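import Cfsg.Statements.S3883
import Mathlib
import Cfsg.Agent.H3.Meta3

set_option autoImplicit false
open Cfsg

namespace Cfsg.Agent.S3883

/-- Let p be an odd prime and G a finite metacyclic p-group (G has a cyclic normal subgroup with cyclic quotient). Suppose G is non-abelian. Then an element g of G lies outside the Frattini subgroup if and only if its centralizer C_G(g) is abelian. -/
theorem result {G : Type*} [Group G] [Finite G] {p : ℕ} [Fact p.Prime] (hp : p ≠ 2) (hG : IsPGroup p G) (hmc : Cfsg.IsMetacyclic G) (hna : ¬ IsMulCommutative G) (g : G) :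
    g ∉ frattini G ↔ IsMulCommutative ↥(Subgroup.centralizer ({g} : Set G)) := by
  have hpp := (Fact.out : p.Prime)
  obtain ⟨n, hn0, hn⟩ := H3.Meta.card_derived_pos hG hna
  have hEfr : frattini G = H3.Meta.E hmc (p ^ (n - 1)) := by
    rw [← H3.Meta.closure_pow hp hG hmc hn (show 1 ≤ n by omega)]
    apply le_antisymm
    · apply H6.frattini_le_of_pow (p := p)
      · rw [H3.Meta.closure_pow hp hG hmc hn (show 1 ≤ n by omega)]
        obtain ⟨a, b, ha, hg, -⟩ := H3.Meta.gens hmc
        have h1 := H3.Meta.index_E hp hG hmc hn (Nat.sub_le n 1)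
        rw [show n - (n - 1) = 1 by omega, pow_one] at h1
        rw [_root_.commutator_def, Subgroup.commutator_le]
        intro x _ y _
        rw [← QuotientGroup.eq_one_iff, commutatorElement_def]
        simp only [QuotientGroup.mk_mul, QuotientGroup.mk_inv]
        rw [Subgroup.index_eq_card] at h1
        have h2 := IsPGroup.commutative_of_card_eq_prime_sq h1 (x : G ⧸ H3.Meta.E hmc (p ^ (n - 1))) y
        rw [h2]; group
      · intro x
        exact Subgroup.subset_closure ⟨x, by rw [pow_one]⟩
    · rw [Subgroup.closure_le]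
      rintro x ⟨y, rfl⟩
      rw [pow_one]
      exact H6.pow_mem_frattini hG y
  have hZle : Subgroup.center G ≤ Subgroup.centralizer ({g} : Set G) := Subgroup.center_le_centralizer _
  rw [hEfr]
  constructor
  · intro hgE
    -- index of the centralizer is p ^ n
    have h1 := (H3.Meta.index_le_iff hp hG hmc g (n - 1)).not.2 hgE
    have hE : g ∈ H3.Meta.E hmc (p ^ n) := by rw [H3.Meta.E_top hmc hn]; exact Subgroup.mem_top _
    have h2 := (H3.Meta.index_le_iff hp hG hmc g n).2 hE
    have h3 : (Subgroup.centralizer ({g} : Set G)).index = p ^ n := by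
      obtain ⟨l, hl⟩ := hG.index (Subgroup.centralizer ({g} : Set G))
      rw [hl] at h1 h2 ⊢
      rw [Nat.pow_le_pow_iff_right hpp.one_lt] at h1 h2
      congr 1; omega
    rw [H3.Meta.comm_iff hp hG hmc]
    have h4 := (Subgroup.centralizer ({g} : Set G)).index_mul_card
    have h5 := (commutator G).index_mul_card
    rw [h3] at h4
    rw [hn, mul_comm] at h5
    exact le_of_eq (Nat.eq_of_mul_eq_mul_left (pow_pos hpp.pos n) (h4.trans h5.symm))
  · intro hA hgE
    have h1 := (H3.Meta.index_le_iff hp hG hmc g (n - 1)).2 hgE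
    have h2 := H3.Meta.comm_card_le hp hG hmc hA
    have h4 := (Subgroup.centralizer ({g} : Set G)).index_mul_card
    have h5 := (commutator G).index_mul_card
    rw [hn] at h5
    have h6 : p ^ (n - 1) < p ^ n := Nat.pow_lt_pow_right hpp.one_lt (by omega)
    have h7 : 0 < (commutator G).index := Nat.pos_of_ne_zero (Subgroup.FiniteIndex.index_ne_zero)
    have h8 : (Subgroup.centralizer ({g} : Set G)).index * Nat.card ↥(Subgroup.centralizer ({g} : Set G)) < (commutator G).index * p ^ n := by
      calc _ ≤ p ^ (n - 1) * (commutator G).index := Nat.mul_le_mul h1 h2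
        _ < p ^ n * (commutator G).index := Nat.mul_lt_mul_of_pos_right h6 h7
        _ = _ := mul_comm _ _
    omega

end Cfsg.Agent.S3883
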