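import Cfsg.Statements.S3884
import Mathlib
import Cfsg.Agent.H3.MetaProd

set_option autoImplicit false
open Cfsg

namespace Cfsg.Agent.S3884

open Subgroup

theorem conj_npow {G : Type*} [Group G] {a b : G} {r : ℤ} (h : b * a * b⁻¹ = a ^ r) (j : ℕ) :
    b ^ j * a * (b ^ j)⁻¹ = a ^ (r ^ j) := by
  induction j with
  | zero => simp
  | succ j ih =>
    have e : b ^ (j + 1) * a * (b ^ (j + 1))⁻¹ = b * (b ^ j * a * (b ^ j)⁻¹) * b⁻¹ := by rw [pow_succ']; group
    rw [e, ih, ← conj_zpow, h, ← zpow_mul, pow_succ']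

/-- Let p be an odd prime and G a finite metacyclic p-group (G has a cyclic normal subgroup with cyclic quotient). Then G is the product of two cyclic subgroups with trivial intersection: there are cyclic subgroups A and B with A ∩ B = 1 and |A| · |B| = |G|. -/
theorem result {G : Type*} [Group G] [Finite G] {p : ℕ} [Fact p.Prime] (hp : p ≠ 2) (hG : IsPGroup p G) (hmc : Cfsg.IsMetacyclic G) : ∃ A B : Subgroup G, IsCyclic ↥A ∧ IsCyclic ↥B ∧ A ⊓ B = ⊥ ∧ Nat.card ↥A * Nat.card ↥B = Nat.card G := by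
  classical
  have hpp : p.Prime := Fact.out
  obtain ⟨N, hN, hNc, hQc⟩ := hmc
  obtain ⟨⟨a, haN⟩, hagen⟩ := hNc.exists_generator
  obtain ⟨bb, hbgen⟩ := hQc.exists_generator
  obtain ⟨b, rfl⟩ := QuotientGroup.mk'_surjective N bb
  have hNa : N = zpowers a := by
    apply le_antisymm
    · intro x hx
      obtain ⟨k, hk⟩ := mem_zpowers_iff.1 (hagen ⟨x, hx⟩)
      rw [mem_zpowers_iff]
      exact ⟨k, congrArg Subtype.val hk⟩
    · rw [zpowers_le]; exact haN
  obtain ⟨n, hn⟩ := IsPGroup.iff_card.mp (hG.to_subgroup N)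
  obtain ⟨t, ht⟩ := IsPGroup.iff_card.mp (hG.to_quotient N)
  have hoa : orderOf a = p ^ n := by rw [← Nat.card_zpowers, ← hNa, hn]
  have hob : orderOf (QuotientGroup.mk' N b) = p ^ t := by
    rw [← Nat.card_zpowers, ← ht]
    have : zpowers (QuotientGroup.mk' N b) = ⊤ := by
      rw [eq_top_iff]; intro x _; exact hbgen x
    rw [this, Subgroup.card_top]
  have hcG : Nat.card G = p ^ t * p ^ n := by rw [Subgroup.card_eq_card_quotient_mul_card_subgroup N, ht, hn]
  have hmkN : ∀ x ∈ N, QuotientGroup.mk' N x = 1 := fun x hx => (QuotientGroup.eq_one_iff x).2 hx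
  -- powers of elements lying in N
  have hpowN : ∀ (c : G) (m : ℕ), orderOf (QuotientGroup.mk' N c) = m → ∀ k : ℤ, c ^ k ∈ N → (m : ℤ) ∣ k := by
    intro c m hm k hk
    have h1 := hmkN _ hk
    rw [map_zpow] at h1
    rw [← hm]
    exact orderOf_dvd_iff_zpow_eq_one.2 h1
  -- final step A
  have finA : ∀ b' : G, QuotientGroup.mk' N b' = QuotientGroup.mk' N b → b' ^ p ^ t = 1 →
      ∃ A B : Subgroup G, IsCyclic ↥A ∧ IsCyclic ↥B ∧ A ⊓ B = ⊥ ∧ Nat.card ↥A * Nat.card ↥B = Nat.card G := by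
    intro b' hb' hb1
    have hob' : orderOf (QuotientGroup.mk' N b') = p ^ t := by rw [hb', hob]
    have ho : orderOf b' = p ^ t := by
      apply Nat.dvd_antisymm (orderOf_dvd_of_pow_eq_one hb1)
      rw [← hob']
      exact orderOf_map_dvd _ _
    refine ⟨N, zpowers b', hNc, inferInstance, ?_, ?_⟩
    · rw [eq_bot_iff]
      rintro x ⟨hx1, hx2⟩
      obtain ⟨k, rfl⟩ := mem_zpowers_iff.1 hx2
      have h1 := hpowN b' _ hob' k hx1
      rw [mem_bot, ← orderOf_dvd_iff_zpow_eq_one, ho]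
      exact h1
    · rw [hn, Nat.card_zpowers, ho, hcG, mul_comm]
  have hbN : b ^ p ^ t ∈ N := by
    rw [← QuotientGroup.eq_one_iff, QuotientGroup.mk_pow]
    have := pow_orderOf_eq_one (QuotientGroup.mk' N b)
    rw [hob] at this
    exact this
  by_cases hn0 : n = 0
  · apply finA b rfl
    rw [hn0, pow_zero, orderOf_eq_one_iff] at hoa
    rw [hNa, hoa, zpowers_one_eq_bot, mem_bot] at hbN
    exact hbN
  obtain ⟨μ, hμ⟩ := mem_zpowers_iff.1 (hNa ▸ hbN)
  obtain ⟨r, hr⟩ := mem_zpowers_iff.1 (hNa ▸ (hN.conj_mem a haN b))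
  have hr' : b * a * b⁻¹ = a ^ r := hr.symm
  -- r ≡ 1 mod p
  have hrp : (p : ℤ) ∣ r - 1 := by
    have h1 := conj_npow hr' (p ^ t)
    have h2 : b ^ p ^ t * a * (b ^ p ^ t)⁻¹ = a := by
      rw [← hμ]; group
    rw [h2] at h1
    have h3 : a ^ (r ^ p ^ t - 1) = 1 := by
      rw [zpow_sub, ← h1]; group
    have h4 : ((orderOf a : ℕ) : ℤ) ∣ r ^ p ^ t - 1 := orderOf_dvd_iff_zpow_eq_one.2 h3
    rw [hoa] at h4
    have h5 : (p : ℤ) ∣ r ^ p ^ t - 1 := by
      refine (Int.natCast_dvd_natCast.2 (dvd_pow_self p hn0)).trans h4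
    rw [← (ZMod.intCast_zmod_eq_zero_iff_dvd _ p)] at h5 ⊢
    push_cast at h5 ⊢
    rwa [ZMod.pow_card_pow] at h5
  by_cases hA : ∃ w : ℤ, b ^ p ^ t = a ^ ((p : ℤ) ^ t * w)
  · obtain ⟨w, hw⟩ := hA
    obtain ⟨m, hm⟩ := H3.geom_cong hpp hp (le_refl 1) (ρ := r) (by rw [pow_one]; exact hrp) t
    have hcop : IsCoprime (1 + (p : ℤ) * m) ((p : ℤ) ^ n) := by
      apply IsCoprime.pow_right
      exact ⟨1, -m, by ring⟩
    obtain ⟨x, y, hxy⟩ := hcop
    apply finA (a ^ (-w * x) * b)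
    · rw [map_mul, map_zpow, hmkN a haN, one_zpow, one_mul]
    · rw [H3.conj_pow_prod hr', hw, ← zpow_add, ← orderOf_dvd_iff_zpow_eq_one, hoa]
      refine ⟨(p : ℤ) ^ t * w * y, ?_⟩
      have e1 : ∑ k ∈ Finset.range (p ^ t), r ^ k = (p : ℤ) ^ t * (1 + p * m) := by
        have : ∑ k ∈ Finset.range (p ^ t), r ^ k = (p : ℤ) ^ t + (p : ℤ) ^ (t + 1) * m := by rw [← hm]; ring
        rw [this, pow_succ]; ring
      rw [e1]
      push_cast
      calc -w * x * ((p : ℤ) ^ t * (1 + p * m)) + (p : ℤ) ^ t * w = (p : ℤ) ^ t * w * (1 - x * (1 + p * m)) := by ring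
        _ = (p : ℤ) ^ t * w * (y * p ^ n) := by linear_combination (-(p : ℤ) ^ t * w) * hxy
        _ = (p : ℤ) ^ n * ((p : ℤ) ^ t * w * y) := by ring
  · have hμ0 : μ ≠ 0 := by
      rintro rfl
      exact hA ⟨0, by rw [← hμ, mul_zero]⟩
    obtain ⟨s, w, hw, hμw⟩ : ∃ (s : ℕ) (w : ℤ), ¬ (p : ℤ) ∣ w ∧ μ = (p : ℤ) ^ s * w := by
      obtain ⟨s, w', hw', hs⟩ := Nat.exists_eq_pow_mul_and_not_dvd (Int.natAbs_ne_zero.2 hμ0) p hpp.ne_one
      rcases Int.natAbs_eq μ with h | h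
      · refine ⟨s, w', fun hd => hw' (Int.natCast_dvd_natCast.1 hd), ?_⟩
        rw [h, hs]; push_cast; ring
      · refine ⟨s, -w', fun hd => hw' (Int.natCast_dvd_natCast.1 ((dvd_neg).1 hd)), ?_⟩
        rw [h, hs]; push_cast; ring
    have hst : s < t := by
      by_contra hcon
      push Not at hcon
      apply hA
      obtain ⟨d, rfl⟩ := Nat.exists_eq_add_of_le hcon
      exact ⟨(p : ℤ) ^ d * w, by rw [← hμ, hμw, pow_add]; ring_nf⟩
    have hsn : s < n := by
      by_contra hcon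
      push Not at hcon
      apply hA
      refine ⟨0, ?_⟩
      rw [← hμ, hμw, mul_zero, zpow_zero, ← orderOf_dvd_iff_zpow_eq_one, hoa]
      push_cast
      exact (pow_dvd_pow _ hcon).mul_right _
    obtain ⟨e, rfl⟩ := Nat.exists_eq_add_of_lt hsn
    set a1 := a ^ w with ha1
    have ha1N : a1 ∈ N := zpow_mem haN w
    have hcopw : IsCoprime w ((p : ℤ) ^ (s + e + 1)) := by
      apply IsCoprime.pow_right
      rw [isCoprime_comm]
      exact (Nat.prime_iff_prime_int.1 hpp).coprime_iff_not_dvd.2 hw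
    obtain ⟨x, y, hxy⟩ := hcopw
    have ha_a1 : a = a1 ^ x := by
      rw [ha1, ← zpow_mul]
      have h1 : a ^ (w * x - 1) = 1 := by
        rw [← orderOf_dvd_iff_zpow_eq_one, hoa]
        refine ⟨-y, ?_⟩
        push_cast
        rw [← hxy]; ring
      rw [zpow_sub, zpow_one, mul_inv_eq_one] at h1
      exact h1.symm
    have hoa1 : orderOf a1 = p ^ (s + e + 1) := by
      rw [← hoa]
      apply Nat.dvd_antisymm
      · exact orderOf_dvd_of_mem_zpowers (mem_zpowers_iff.2 ⟨w, rfl⟩)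
      · exact orderOf_dvd_of_mem_zpowers (mem_zpowers_iff.2 ⟨x, ha_a1.symm⟩)
    have hr1 : b * a1 * b⁻¹ = a1 ^ r := by
      rw [ha1, ← conj_zpow, hr', ← zpow_mul, ← zpow_mul, mul_comm]
    have hba1 : b ^ p ^ t = a1 ^ p ^ s := by
      rw [← hμ, hμw, ha1, ← zpow_natCast (a ^ w) (p ^ s), ← zpow_mul]
      push_cast
      rw [mul_comm]
    have hre : ((p : ℤ) ^ (e + 1)) ∣ r - 1 := by
      have h1 : b * a1 ^ p ^ s * b⁻¹ = a1 ^ p ^ s := by
        rw [← hba1]; group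
      rw [← conj_pow, hr1, ← zpow_natCast, ← zpow_mul, ← zpow_natCast a1] at h1
      have h2 : a1 ^ (r * ((p ^ s : ℕ) : ℤ) - ((p ^ s : ℕ) : ℤ)) = 1 := by
        rw [zpow_sub, h1, mul_inv_cancel]
      rw [← orderOf_dvd_iff_zpow_eq_one, hoa1] at h2
      push_cast at h2
      have h3 : (p : ℤ) ^ s * (p : ℤ) ^ (e + 1) ∣ (p : ℤ) ^ s * (r - 1) := by
        have e1 : (p : ℤ) ^ s * (p : ℤ) ^ (e + 1) = (p : ℤ) ^ (s + e + 1) := by rw [← pow_add]; rfl
        have e2 : (p : ℤ) ^ s * (r - 1) = r * (p : ℤ) ^ s - (p : ℤ) ^ s := by ring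
        rw [e1, e2]; exact h2
      exact (mul_dvd_mul_iff_left (pow_ne_zero _ (by exact_mod_cast hpp.ne_zero))).1 h3
    obtain ⟨d, hd⟩ := Nat.exists_eq_add_of_lt hst
    set c := b ^ p ^ (t - s) with hc
    set ρ := r ^ p ^ (t - s) with hρ
    have hca : c * a1 * c⁻¹ = a1 ^ ρ := conj_npow hr1 _
    have hρe : ((p : ℤ) ^ (e + 1)) ∣ ρ - 1 := by
      have := sub_dvd_pow_sub_pow r 1 (p ^ (t - s))
      rw [one_pow] at this
      exact hre.trans this
    have hcp : c ^ p ^ s = b ^ p ^ t := by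
      rw [hc, ← pow_mul, ← pow_add]
      congr 2
      omega
    set a' := a1 ^ (-1 : ℤ) * c with ha'
    have ha'1 : a' ^ p ^ s = 1 := by
      rw [ha', H3.conj_pow_prod hca, hcp, hba1, ← zpow_natCast a1, ← zpow_add, ← orderOf_dvd_iff_zpow_eq_one, hoa1]
      obtain ⟨m, hm⟩ := H3.geom_cong hpp hp (Nat.succ_le_succ (Nat.zero_le e)) hρe s
      refine ⟨-m, ?_⟩
      push_cast
      have e1 : ∑ k ∈ Finset.range (p ^ s), ρ ^ k = (p : ℤ) ^ s + (p : ℤ) ^ (s + (e + 1)) * m := by rw [← hm]; ring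
      rw [e1, ← add_assoc s e 1]; ring
    have hmka' : QuotientGroup.mk' N a' = (QuotientGroup.mk' N b) ^ p ^ (t - s) := by
      rw [ha', map_mul, map_zpow, hmkN a1 ha1N, one_zpow, one_mul, hc, map_pow]
    have hoa'q : orderOf (QuotientGroup.mk' N a') = p ^ s := by
      rw [hmka', orderOf_pow_of_dvd (pow_pos hpp.pos _).ne' (by rw [hob]; exact pow_dvd_pow _ (Nat.sub_le t s)), hob,
        Nat.pow_div (Nat.sub_le t s) hpp.pos]
      congr 1
      omega
    have hoa' : orderOf a' = p ^ s := by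
      apply Nat.dvd_antisymm (orderOf_dvd_of_pow_eq_one ha'1)
      rw [← hoa'q]
      exact orderOf_map_dvd _ _
    have hobp : orderOf (b ^ p ^ t) = p ^ (e + 1) := by
      rw [hba1, orderOf_pow_of_dvd (pow_pos hpp.pos _).ne' (by rw [hoa1]; exact pow_dvd_pow _ (by omega)), hoa1,
        Nat.pow_div (by omega) hpp.pos]
      congr 1
      omega
    have hptb : p ^ t ∣ orderOf b := by rw [← hob]; exact orderOf_map_dvd _ _
    have hobb : orderOf b = p ^ t * p ^ (e + 1) := by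
      rw [orderOf_pow_of_dvd (pow_pos hpp.pos _).ne' hptb] at hobp
      rw [← hobp, Nat.mul_div_cancel' hptb]
    refine ⟨zpowers a', zpowers b, inferInstance, inferInstance, ?_, ?_⟩
    · by_contra hne
      have h1 : Nat.card (zpowers a' ⊓ zpowers b : Subgroup G) ≠ 1 := fun h => hne (Subgroup.card_eq_one.1 h)
      obtain ⟨k, hk⟩ := IsPGroup.iff_card.mp (hG.to_subgroup (zpowers a' ⊓ zpowers b))
      have hk0 : k ≠ 0 := by rintro rfl; exact h1 (by rw [hk, pow_zero])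
      obtain ⟨z', hz⟩ := exists_prime_orderOf_dvd_card' (G := (zpowers a' ⊓ zpowers b : Subgroup G)) p (by rw [hk]; exact dvd_pow_self p hk0)
      rw [← Subgroup.orderOf_coe] at hz
      obtain ⟨z, hzz⟩ : ∃ z : G, z = z' := ⟨_, rfl⟩
      have hz1 : z ∈ zpowers a' := by rw [hzz]; exact (Subgroup.mem_inf.1 z'.2).1
      have hz2 : z ∈ zpowers b := by rw [hzz]; exact (Subgroup.mem_inf.1 z'.2).2
      rw [← hzz] at hz
      have hzN : z ∈ N := by
        obtain ⟨l, hl⟩ := mem_zpowers_iff.1 hz2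
        have h2 : b ^ (l * p) = 1 := by
          rw [zpow_mul, hl, zpow_natCast, ← hz, pow_orderOf_eq_one]
        rw [← orderOf_dvd_iff_zpow_eq_one, hobb] at h2
        push_cast at h2
        have h3 : (p : ℤ) * (p : ℤ) ^ t ∣ (p : ℤ) * l := by
          have e1 : (p : ℤ) * (p : ℤ) ^ t ∣ (p : ℤ) ^ t * (p : ℤ) ^ (e + 1) := by
            rw [mul_comm (p : ℤ)]
            exact mul_dvd_mul_left _ (dvd_pow_self _ (Nat.succ_ne_zero e))
          rw [mul_comm (p : ℤ) l]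
          exact e1.trans h2
        have h4 := (mul_dvd_mul_iff_left (by exact_mod_cast hpp.ne_zero : (p : ℤ) ≠ 0)).1 h3
        obtain ⟨l', hl'⟩ := h4
        rw [← hl, hl', zpow_mul]
        apply zpow_mem
        have : b ^ ((p : ℤ) ^ t) = b ^ p ^ t := by
          rw [← zpow_natCast b (p ^ t)]; push_cast; rfl
        rw [this]; exact hbN
      obtain ⟨l, hl⟩ := mem_zpowers_iff.1 hz1
      have h5 := hpowN a' _ hoa'q l (by rw [hl]; exact hzN)
      have h6 : z = 1 := by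
        rw [← hl, ← orderOf_dvd_iff_zpow_eq_one, hoa']
        exact h5
      rw [h6, orderOf_one] at hz
      exact hpp.one_lt.ne hz
    · rw [Nat.card_zpowers, Nat.card_zpowers, hoa', hobb, hcG]
      ring

end Cfsg.Agent.S3884
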