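import Cfsg.Statements.S3886
import Mathlib
import Cfsg.Agent.H3.Meta3
import Cfsg.Prelude.Def_BaumannBlocks

set_option autoImplicit false
open Cfsg

namespace Cfsg.Agent.S3886

/-- Let p be an odd prime and G a finite metacyclic p-group (G has a cyclic normal subgroup with cyclic quotient). Then the largest value of |R| · |Z(R)| over subgroups R of G is |G : G'|², and the subgroups attaining it (the centrally large subgroups) are exactly the non-abelian subgroups together with the maximal abelian subgroups of G. -/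
theorem result {G : Type*} [Group G] [Finite G] {p : ℕ} [Fact p.Prime] (hp : p ≠ 2) (hG : IsPGroup p G) (hmc : Cfsg.IsMetacyclic G) : Cfsg.maxCentralProduct G = (commutator G).index ^ 2 ∧
    ∀ R : Subgroup G, Cfsg.IsCentrallyLarge R ↔ (¬ IsMulCommutative ↥R ∨ Maximal (fun K : Subgroup G => IsMulCommutative ↥K) R) := by
  have hidx : 0 < (commutator G).index := Nat.pos_of_ne_zero (Subgroup.FiniteIndex.index_ne_zero)
  have hcard : ∀ R : Subgroup G, Nat.card ↥(Subgroup.center ↥R) * Nat.card ↥⁅R, R⁆ ^ 2 = Nat.card ↥R := by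
    intro R
    have h1 := (Subgroup.center ↥R).index_mul_card
    rw [H3.Meta.index_center hp (hG.to_subgroup R) (H3.Meta.subgroup hmc R)] at h1
    rw [← Subgroup.map_subtype_commutator, Subgroup.card_map_of_injective R.subtype_injective, mul_comm]
    exact h1
  have hle : ∀ R : Subgroup G, Nat.card ↥R ≤ (commutator G).index * Nat.card ↥⁅R, R⁆ ∧
      (Nat.card ↥R = (commutator G).index * Nat.card ↥⁅R, R⁆ ↔ (¬ IsMulCommutative ↥R ∨ Maximal (fun K : Subgroup G => IsMulCommutative ↥K) R)) := by
    intro R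
    by_cases h : IsMulCommutative ↥R
    · rw [H3.Meta.comm_bot h, Subgroup.card_bot, mul_one, H3.Meta.maxcomm_iff hp hG hmc]
      exact ⟨(H3.Meta.comm_iff hp hG hmc R).1 h, by simp [h]⟩
    · have := H3.Meta.nonab_card hp hG hmc h
      exact ⟨this.le, by simp [h, this]⟩
  have hprod : ∀ R : Subgroup G, Nat.card ↥R * Nat.card ↥(Subgroup.center ↥R) ≤ (commutator G).index ^ 2 ∧
      (Nat.card ↥R * Nat.card ↥(Subgroup.center ↥R) = (commutator G).index ^ 2 ↔ Nat.card ↥R = (commutator G).index * Nat.card ↥⁅R, R⁆) := by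
    intro R
    have h1 := hcard R
    have h2 := (hle R).1
    have h3 : 0 < Nat.card ↥⁅R, R⁆ := Nat.card_pos
    have h4 : 0 < Nat.card ↥⁅R, R⁆ ^ 2 := by positivity
    have h5 : Nat.card ↥R * Nat.card ↥(Subgroup.center ↥R) * Nat.card ↥⁅R, R⁆ ^ 2 = Nat.card ↥R ^ 2 := by
      rw [mul_assoc, h1, sq]
    constructor
    · apply Nat.le_of_mul_le_mul_right _ h4
      rw [h5, ← mul_pow]
      exact Nat.pow_le_pow_left h2 2
    · constructor
      · intro h
        rw [h, ← mul_pow] at h5
        exact (Nat.pow_left_injective two_ne_zero h5).symm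
      · intro h
        apply Nat.eq_of_mul_eq_mul_right h4
        rw [h5, ← mul_pow, ← h]
  have htop : Nat.card ↥(⊤ : Subgroup G) = (commutator G).index * Nat.card ↥⁅(⊤ : Subgroup G), (⊤ : Subgroup G)⁆ := by
    rw [Subgroup.card_top, ← _root_.commutator_def, (commutator G).index_mul_card]
  have hmax : Cfsg.maxCentralProduct G = (commutator G).index ^ 2 := by
    apply IsGreatest.csSup_eq
    constructor
    · exact ⟨⊤, (hprod ⊤).2.2 htop⟩
    · rintro k ⟨R, rfl⟩
      exact (hprod R).1
  refine ⟨hmax, fun R => ?_⟩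
  rw [Cfsg.IsCentrallyLarge, hmax, (hprod R).2, (hle R).2]

end Cfsg.Agent.S3886
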