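import Cfsg.Statements.S3887
import Mathlib
import Cfsg.Agent.H3.Meta3
import Cfsg.Prelude.Def_BaumannBlocks

set_option autoImplicit false
open Cfsg

namespace Cfsg.Agent.S3887

/-- Let p be an odd prime and G a finite metacyclic p-group (G has a cyclic normal subgroup with cyclic quotient). Then a subgroup R of G maximizes |R| · |C_G(R)| over all subgroups of G if and only if R contains the center of G. -/
theorem result {G : Type*} [Group G] [Finite G] {p : ℕ} [Fact p.Prime] (hp : p ≠ 2) (hG : IsPGroup p G) (hmc : Cfsg.IsMetacyclic G) (R : Subgroup G) : Cfsg.IsCentralizerLarge R ↔ Subgroup.center G ≤ R := by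
  have hall : ∀ R : Subgroup G, Nat.card ↥R * Nat.card ↥(Subgroup.centralizer (R : Set G)) ≤ Nat.card G * Nat.card ↥(Subgroup.center G) := by
    intro R
    have h1 := H3.Meta.cent_le hp hG hmc _ R ⊤ le_top le_rfl
    rw [Subgroup.card_top, Subgroup.coe_top, Subgroup.centralizer_univ] at h1
    rw [mul_comm]; exact h1
  have hmax : Cfsg.maxCentralizerProduct G = Nat.card G * Nat.card ↥(Subgroup.center G) := by
    apply IsGreatest.csSup_eq
    constructor
    · refine ⟨⊤, ?_⟩
      rw [Subgroup.card_top, Subgroup.coe_top, Subgroup.centralizer_univ]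
    · rintro k ⟨R, rfl⟩
      exact hall R
  rw [Cfsg.IsCentralizerLarge, hmax]
  constructor
  · intro h
    have h1 : Subgroup.centralizer ((R ⊔ Subgroup.center G : Subgroup G) : Set G) = Subgroup.centralizer (R : Set G) := by
      apply le_antisymm
      · exact Subgroup.centralizer_le (SetLike.coe_subset_coe.2 le_sup_left)
      · intro y hy
        have h1 : R ⊔ Subgroup.center G ≤ Subgroup.centralizer ({y} : Set G) := by
          rw [sup_le_iff]
          constructor
          · intro r hr
            rw [Subgroup.mem_centralizer_singleton_iff]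
            exact Subgroup.mem_centralizer_iff.1 hy r hr
          · intro z hz
            rw [Subgroup.mem_centralizer_singleton_iff]
            exact (Subgroup.mem_center_iff.1 hz y).symm
        rw [Subgroup.mem_centralizer_iff]
        intro r hr
        exact (Subgroup.mem_centralizer_singleton_iff.1 (h1 hr))
    have h2 := hall (R ⊔ Subgroup.center G)
    rw [h1, ← h] at h2
    have h3 : Nat.card ↥(R ⊔ Subgroup.center G) ≤ Nat.card ↥R := Nat.le_of_mul_le_mul_right h2 Nat.card_pos
    have h4 := Subgroup.eq_of_le_of_card_ge (le_sup_left : R ≤ R ⊔ Subgroup.center G) h3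
    rw [h4]; exact le_sup_right
  · intro h
    exact H3.Meta.duality hp hG hmc h

end Cfsg.Agent.S3887
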