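import Cfsg.Statements.S3909
import Cfsg.Agent.L0.Core

set_option autoImplicit false
open Cfsg

namespace Cfsg.Agent.S3909

/-- Let G be a finite group in which any two abelian subgroups of the same order are conjugate. Let M be a normal subgroup of G. If M contains an element of the same order as a ∈ G, then a ∈ M; and if M is elementary abelian of order p^t with p prime and t ≥ 2, then M is the unique Sylow p-subgroup of G. -/
theorem result {G : Type*} [Group G] [Finite G] (hB : ∀ A B : Subgroup G, IsMulCommutative ↥A → IsMulCommutative ↥B → Nat.card ↥A = Nat.card ↥B → ∃ g : G, B = A.map (MulAut.conj g).toMonoidHom) (M : Subgroup G) [M.Normal] :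
    (∀ a : G, (∃ m ∈ M, orderOf m = orderOf a) → a ∈ M) ∧
    ∀ (p t : ℕ) [Fact p.Prime], 2 ≤ t → Nat.card ↥M = p ^ t → Cfsg.IsElementaryAbelian p M → ∀ P : Sylow p G, (P : Subgroup G) = M := by
  have hM : M.Normal := inferInstance
  have h1 : ∀ a : G, (∃ m ∈ M, orderOf m = orderOf a) → a ∈ M := by
    rintro a ⟨m, hm, hma⟩
    obtain ⟨g, hg⟩ := hB (Subgroup.zpowers m) (Subgroup.zpowers a) inferInstance inferInstance
      (by rw [Nat.card_zpowers, Nat.card_zpowers, hma])
    have h2 : a ∈ (Subgroup.zpowers m).map (MulAut.conj g).toMonoidHom := by rw [← hg]; exact Subgroup.mem_zpowers a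
    obtain ⟨x, hx, rfl⟩ := h2
    exact hM.conj_mem x ((Subgroup.zpowers_le.2 hm) hx) g
  refine ⟨h1, ?_⟩
  intro p t _ ht hcard hel P
  have hp : p.Prime := Fact.out
  have hMp : IsPGroup p M := IsPGroup.of_card hcard
  have hMP : M ≤ P := L0.normal_le_sylow hMp P
  refine le_antisymm ?_ hMP
  -- an element of order p in M
  have hpd : p ∣ Nat.card M := by rw [hcard]; exact dvd_pow_self p (by omega)
  obtain ⟨m, hm⟩ := exists_prime_orderOf_dvd_card' p hpd
  intro x hx
  obtain ⟨k, hk⟩ := IsPGroup.iff_orderOf.1 P.2 ⟨x, hx⟩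
  rw [Subgroup.orderOf_mk] at hk
  rcases Nat.lt_or_ge 1 k with h | h
  · -- order at least p^2
    exfalso
    set y := x ^ p ^ (k - 2) with hy
    have hyo : orderOf y = p ^ 2 := by
      rw [hy, orderOf_pow_of_dvd (pow_pos hp.pos _).ne' (by rw [hk]; exact pow_dvd_pow p (by omega)), hk,
        Nat.pow_div (by omega) hp.pos]
      congr 1; omega
    obtain ⟨V, hV⟩ := Sylow.exists_subgroup_card_pow_prime (G := M) p (n := 2) (by rw [hcard]; exact pow_dvd_pow p ht)
    have hVc : Nat.card (V.map M.subtype) = p ^ 2 := by rw [L0.card_map_subtype, hV]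
    have hVab : IsMulCommutative (V.map M.subtype) := by
      rw [isMulCommutative_iff]
      rintro ⟨_, a, ha, rfl⟩ ⟨_, b, hb, rfl⟩
      apply Subtype.ext
      show (a : G) * b = b * a
      exact congrArg Subtype.val (isMulCommutative_iff.1 hel.1 a b)
    obtain ⟨g, hg⟩ := hB (V.map M.subtype) (Subgroup.zpowers y) hVab inferInstance (by rw [hVc, Nat.card_zpowers, hyo])
    have h2 : y ∈ (V.map M.subtype).map (MulAut.conj g).toMonoidHom := by rw [← hg]; exact Subgroup.mem_zpowers y
    obtain ⟨_, ⟨a, ha, rfl⟩, hay⟩ := h2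
    have h3 : (a : G) ^ p = 1 := hel.2 a a.2
    have h4 : y ^ p = 1 := by
      rw [← hay, ← map_pow]
      show (MulAut.conj g).toMonoidHom ((a : G) ^ p) = 1
      rw [h3, map_one]
    have h5 := orderOf_dvd_of_pow_eq_one h4
    rw [hyo] at h5
    have h6 := Nat.le_of_dvd hp.pos h5
    have h7 := hp.one_lt
    nlinarith
  · interval_cases k
    · rw [pow_zero, orderOf_eq_one_iff] at hk
      rw [hk]; exact M.one_mem
    · apply h1
      refine ⟨m, m.2, ?_⟩
      rw [Subgroup.orderOf_coe, hm, hk, pow_one]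

end Cfsg.Agent.S3909
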