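import Cfsg.Statements.S3910
import Mathlib
import Cfsg.Agent.H1.Rank1
import Cfsg.Agent.H1.Class2
import Cfsg.Agent.H1.FrobPC
import Cfsg.Agent.H3.NilHall
import Cfsg.Agent.S3909

set_option autoImplicit false
open Cfsg

namespace Cfsg.Agent.S3910

open Subgroup in
theorem pcase {G : Type*} [Group G] [Finite G] {p : ℕ} [hp : Fact p.Prime] (hG : IsPGroup p G)
    (hB : ∀ A B : Subgroup G, IsMulCommutative ↥A → IsMulCommutative ↥B → Nat.card ↥A = Nat.card ↥B → ∃ g : G, B = A.map (MulAut.conj g).toMonoidHom) :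
    IsCyclic G := by
  classical
  haveI : Group.IsNilpotent G := hG.isNilpotent
  by_cases hnt : Subsingleton G
  · exact isCyclic_of_subsingleton
  rw [not_subsingleton_iff_nontrivial] at hnt
  -- a central subgroup of order p
  obtain ⟨z, hz, hzp⟩ : ∃ z ∈ center G, orderOf z = p := by
    have h1 : center G ≠ ⊥ := hG.bot_lt_center.ne'
    have h2 : p ∣ Nat.card ↥(center G) := by
      obtain ⟨k, hk⟩ := (hG.to_subgroup (center G)).exists_card_eq
      rw [hk]
      refine dvd_pow_self p ?_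
      rintro rfl
      rw [pow_zero, Subgroup.card_eq_one] at hk
      exact h1 hk
    obtain ⟨⟨z, hz⟩, hzp⟩ := exists_prime_orderOf_dvd_card' p h2
    rw [Subgroup.orderOf_mk] at hzp
    exact ⟨z, hz, hzp⟩
  have huz : ∀ H : Subgroup G, Nat.card ↥H = p → H = zpowers z := by
    intro H hH
    have hHc : IsMulCommutative ↥H := (isCyclic_of_prime_card hH).isMulCommutative
    obtain ⟨g, hg⟩ := hB (zpowers z) H inferInstance hHc (by rw [hH, Nat.card_zpowers, hzp])
    rw [hg]
    rw [MonoidHom.map_zpowers]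
    congr 1
    show g * z * g⁻¹ = z
    rw [mem_center_iff.1 hz g]; group
  have hu : ∀ H K : Subgroup G, Nat.card H = p → Nat.card K = p → H = K := fun H K hH hK => (huz H hH).trans (huz K hK).symm
  obtain ⟨A, hAn, hAc, hAmax⟩ := H1.exists_maximal_normal_abelian (G := G)
  have hCA : centralizer (A : Set G) = A := H1.centralizer_eq_of_maximal_normal_abelian A hAmax
  have hAcyc : IsCyclic ↥A := H1.cyclic_of_unique hG hu hAc
  obtain ⟨f, hf⟩ := (hG.to_subgroup A).exists_card_eq
  obtain ⟨⟨a, ha⟩, hgen⟩ := hAcyc.exists_generator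
  have hao : orderOf a = p ^ f := by
    have h1 := orderOf_eq_card_of_forall_mem_zpowers hgen
    rw [Subgroup.orderOf_mk, hf] at h1
    exact h1
  have habs := (S3909.result hB A).1
  -- A = ⊤
  have htop : A = ⊤ := by
    rw [eq_top_iff]
    intro x _
    by_contra hx
    obtain ⟨m, hm⟩ := (IsPGroup.iff_orderOf.1 hG) x
    have hmf : f < m := by
      by_contra hle
      push Not at hle
      apply hx
      apply habs
      refine ⟨a ^ p ^ (f - m), A.pow_mem ha _, ?_⟩
      rw [orderOf_pow, hao, hm, Nat.gcd_eq_right (pow_dvd_pow p (Nat.sub_le f m)), Nat.pow_div (Nat.sub_le f m) hp.out.pos, Nat.sub_sub_self hle]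
    -- y = x ^ (p ^ (m - f - 1)) has order p^(f+1)
    set y := x ^ p ^ (m - f - 1) with hy
    have hyo : orderOf y = p ^ (f + 1) := by
      rw [hy, orderOf_pow, hm, Nat.gcd_eq_right (pow_dvd_pow p (by omega)), Nat.pow_div (by omega) hp.out.pos]
      congr 1; omega
    have hyp : orderOf (y ^ p) = p ^ f := by
      rw [orderOf_pow, hyo, Nat.gcd_eq_right (dvd_pow_self p (Nat.succ_ne_zero f)), pow_succ, Nat.mul_div_cancel _ hp.out.pos]
    have hypA : y ^ p ∈ A := habs _ ⟨a, ha, by rw [hao, hyp]⟩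
    have hAz : A = zpowers (y ^ p) := by
      symm
      apply Subgroup.eq_of_le_of_card_ge
      · rw [zpowers_le]; exact hypA
      · rw [Nat.card_zpowers, hyp, hf]
    have hyA : y ∈ A := by
      rw [← hCA, hAz, mem_centralizer_iff]
      rintro _ ⟨k, rfl⟩
      have h1 : Commute y (y ^ p) := Commute.pow_right (Commute.refl y) p
      exact (h1.zpow_right k).eq.symm
    have h1 : orderOf y ∣ Nat.card ↥A := by
      have := _root_.orderOf_dvd_natCard (⟨y, hyA⟩ : ↥A)
      rwa [Subgroup.orderOf_mk] at this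
    rw [hyo, hf] at h1
    have h2 := (Nat.pow_dvd_pow_iff_le_right hp.out.one_lt).1 h1
    omega
  rw [htop] at hAcyc
  exact isCyclic_of_surjective (Subgroup.topEquiv (G := G)).toMonoidHom Subgroup.topEquiv.surjective

open Subgroup in
theorem split {G : Type*} [Group G] [Finite G] (hnil : Group.IsNilpotent G) {p : ℕ} [hp : Fact p.Prime] (P : Sylow p G) :
    (P : Subgroup G) ⊔ centralizer ((P : Subgroup G) : Set G) = ⊤ := by
  haveI := hnil
  have hPn : (P : Subgroup G).Normal := inferInstance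
  -- every x is a product of a p-element and a p'-element
  rw [eq_top_iff]
  intro x _
  obtain ⟨k, m, hm, hxm⟩ := Nat.exists_eq_pow_mul_and_not_dvd (n := orderOf x) (orderOf_pos x).ne' p hp.out.one_lt.ne'
  have hcop : (p ^ k).Coprime m := ((Nat.Prime.coprime_iff_not_dvd hp.out).2 hm).pow_left k
  have h1 : ((p ^ k : ℕ) : ℤ) * (p ^ k).gcdA m + (m : ℤ) * (p ^ k).gcdB m = 1 := by
    have := Nat.gcd_eq_gcd_ab (p ^ k) m
    rw [hcop] at this
    exact_mod_cast this.symm
  have h2 : x = (x ^ m) ^ ((p ^ k).gcdB m) * (x ^ (p ^ k)) ^ ((p ^ k).gcdA m) := by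
    rw [← zpow_natCast x m, ← zpow_natCast x (p ^ k), ← zpow_mul, ← zpow_mul, ← zpow_add, add_comm, h1, zpow_one]
  rw [h2]
  apply mul_mem
  · apply mem_sup_left
    apply zpow_mem
    -- p-element in normal Sylow
    have h3 : IsPGroup p ↥(zpowers (x ^ m)) := by
      apply IsPGroup.of_card (n := k)
      rw [Nat.card_zpowers, orderOf_pow, hxm, Nat.gcd_eq_right (Dvd.intro_left _ rfl), Nat.mul_div_cancel _ (Nat.pos_of_ne_zero (by rintro rfl; exact hm (dvd_zero p)))]
    have h4 : IsPGroup p ↥((P : Subgroup G) ⊔ zpowers (x ^ m)) := P.isPGroup'.to_sup_of_normal_left h3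
    have h5 := P.is_maximal' h4 le_sup_left
    rw [← h5]
    exact mem_sup_right (mem_zpowers _)
  · apply mem_sup_right
    apply zpow_mem
    apply H1.centralizes_of_nilpotent hnil P.isPGroup'
    · rw [normalizer_eq_top]; exact mem_top _
    · rw [orderOf_pow, hxm, Nat.gcd_eq_right (Dvd.intro _ rfl), Nat.mul_div_cancel_left _ (pow_pos hp.out.pos k)]
      exact ((Nat.Prime.coprime_iff_not_dvd hp.out).2 hm).symm

/-- A finite nilpotent group in which any two abelian subgroups of the same order are conjugate is cyclic. -/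
theorem result {G : Type*} [Group G] [Finite G] (hB : ∀ A B : Subgroup G, IsMulCommutative ↥A → IsMulCommutative ↥B → Nat.card ↥A = Nat.card ↥B → ∃ g : G, B = A.map (MulAut.conj g).toMonoidHom) (hnil : Group.IsNilpotent G) : IsCyclic G := by
  haveI := hnil
  haveI : IsZGroup G := by
    refine ⟨fun p hp P => ?_⟩
    haveI : Fact p.Prime := ⟨hp⟩
    apply pcase P.isPGroup'
    intro A B hA hB' hAB
    have hinj := (P : Subgroup G).subtype_injective
    have hAm : IsMulCommutative ↥(A.map (P : Subgroup G).subtype) := inferInstance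
    have hBm : IsMulCommutative ↥(B.map (P : Subgroup G).subtype) := inferInstance
    obtain ⟨g, hg⟩ := hB _ _ hAm hBm (by rw [Subgroup.card_map_of_injective hinj, Subgroup.card_map_of_injective hinj, hAB])
    have h1 : g ∈ (P : Subgroup G) ⊔ Subgroup.centralizer ((P : Subgroup G) : Set G) := by rw [split hnil P]; exact Subgroup.mem_top g
    rw [← SetLike.mem_coe, Subgroup.normal_mul, Set.mem_mul] at h1
    obtain ⟨x, hx, c, hc, rfl⟩ := h1
    refine ⟨⟨x, hx⟩, ?_⟩
    apply Subgroup.map_injective hinj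
    rw [hg]
    ext y
    constructor
    · rintro ⟨_, ⟨a, ha, rfl⟩, rfl⟩
      refine ⟨⟨x, hx⟩ * a * ⟨x, hx⟩⁻¹, ⟨a, ha, rfl⟩, ?_⟩
      show x * (a : G) * x⁻¹ = (x * c) * (a : G) * (x * c)⁻¹
      have h2 : (a : G) * c = c * a := (Subgroup.mem_centralizer_iff.1 hc) a a.2
      calc x * (a : G) * x⁻¹ = x * ((a : G) * c) * c⁻¹ * x⁻¹ := by group
        _ = x * (c * a) * c⁻¹ * x⁻¹ := by rw [h2]
        _ = _ := by group
    · rintro ⟨_, ⟨a, ha, rfl⟩, rfl⟩
      refine ⟨(a : G), ⟨a, ha, rfl⟩, ?_⟩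
      show (x * c) * (a : G) * (x * c)⁻¹ = x * (a : G) * x⁻¹
      have h2 : (a : G) * c = c * a := (Subgroup.mem_centralizer_iff.1 hc) a a.2
      calc (x * c) * (a : G) * (x * c)⁻¹ = x * (c * a) * c⁻¹ * x⁻¹ := by group
        _ = x * ((a : G) * c) * c⁻¹ * x⁻¹ := by rw [h2]
        _ = _ := by group
  infer_instance

end Cfsg.Agent.S3910
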