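import Cfsg.Statements.S3917
import Mathlib
import Cfsg.Agent.L0.Coprime2

set_option autoImplicit false
open Cfsg

namespace Cfsg.Agent.S3917

/-- Say that a group has self-centralizing non-cyclic subgroups when every non-cyclic subgroup H satisfies C_G(H) ≤ H. A finite abelian group with self-centralizing non-cyclic subgroups is cyclic or elementary abelian of order p² for a prime p. -/
theorem result {G : Type*} [CommGroup G] [Finite G] (hX : (∀ H : Subgroup G, ¬ IsCyclic ↥H → Subgroup.centralizer (H : Set G) ≤ H)) :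
    IsCyclic G ∨ ∃ p : ℕ, p.Prime ∧ Nat.card G = p ^ 2 ∧ Monoid.exponent G = p := by
  by_cases hc : IsCyclic G
  · exact Or.inl hc
  right
  obtain ⟨q, hq, V, hV, hVq⟩ := L0.exists_rank_two_of_not_isCyclic hc
  have hVnc : ¬ IsCyclic ↥V := by
    intro h
    obtain ⟨⟨g, hg⟩, hgen⟩ := h.exists_generator
    have h1 := orderOf_eq_card_of_forall_mem_zpowers hgen
    rw [hV, Subgroup.orderOf_mk] at h1
    have h2 : orderOf g ∣ q := orderOf_dvd_of_pow_eq_one (hVq g hg)
    rw [h1] at h2
    have h3 := Nat.le_of_dvd hq.pos h2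
    have := hq.two_le
    nlinarith
  have hVtop : V = ⊤ := by
    rw [eq_top_iff]
    intro g _
    apply hX V hVnc
    rw [Subgroup.mem_centralizer_iff]
    intro h _
    exact mul_comm h g
  subst hVtop
  refine ⟨q, hq, by rw [← hV, Subgroup.card_top], ?_⟩
  have h1 : Monoid.exponent G ∣ q := Monoid.exponent_dvd_of_forall_pow_eq_one fun g => hVq g (Subgroup.mem_top g)
  rcases (Nat.dvd_prime hq).1 h1 with h2 | h2
  · exfalso
    apply hc
    rw [Monoid.exp_eq_one_iff] at h2
    exact isCyclic_of_subsingleton
  · exact h2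

end Cfsg.Agent.S3917
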