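import Cfsg.Statements.S3918
import Mathlib
import Cfsg.Agent.S0126
import Cfsg.Agent.H1.Class2
import Cfsg.Agent.H3.Meta2

set_option autoImplicit false
open Cfsg

namespace Cfsg.Agent.S3918

/-- Say that a group has self-centralizing non-cyclic subgroups when every non-cyclic subgroup H satisfies C_G(H) ≤ H. For an odd prime p, a finite non-abelian p-group has self-centralizing non-cyclic subgroups if and only if it has order p³. -/
theorem result {G : Type*} [Group G] [Finite G] {p : ℕ} [Fact p.Prime] (hp : p ≠ 2) (hG : IsPGroup p G) (hna : ¬ IsMulCommutative G) :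
    (∀ H : Subgroup G, ¬ IsCyclic ↥H → Subgroup.centralizer (H : Set G) ≤ H) ↔ Nat.card G = p ^ 3 := by
  have hpp := (Fact.out : p.Prime)
  have hncyc : ¬ IsCyclic G := fun h => hna h.isMulCommutative
  constructor
  · intro h
    obtain ⟨A, hAn, hA, hA2⟩ := S0126.result hp hG hncyc
    have hAnc : ¬ IsCyclic ↥A := by
      intro hc
      obtain ⟨⟨g, hg⟩, hgen⟩ := hc.exists_generator
      have h1 := orderOf_eq_card_of_forall_mem_zpowers hgen
      rw [hA2, Subgroup.orderOf_mk] at h1
      have h2 : orderOf g ∣ p := orderOf_dvd_of_pow_eq_one (hA.2 g hg)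
      rw [h1] at h2
      have h3 := Nat.le_of_dvd hpp.pos h2
      have := hpp.two_le
      nlinarith
    have h1 := h A hAnc
    have h2 := H1.index_centralizer_le hG 2 A hA2
    rw [show 2 * (2 - 1) / 2 = 1 by norm_num, pow_one] at h2
    have h3 := (Subgroup.centralizer (A : Set G)).index_mul_card
    have h4 : Nat.card ↥(Subgroup.centralizer (A : Set G)) ≤ p ^ 2 := by rw [← hA2]; exact Subgroup.card_le_of_le h1
    have h5 : Nat.card G ≤ p ^ 3 := by
      rw [← h3]
      calc _ ≤ p * p ^ 2 := Nat.mul_le_mul h2 h4
        _ = p ^ 3 := by ring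
    obtain ⟨n, hn⟩ := hG.exists_card_eq
    rw [hn] at h5 ⊢
    have h6 : n ≤ 3 := (Nat.pow_le_pow_iff_right hpp.one_lt).1 h5
    by_cases h7 : n = 3
    · rw [h7]
    · exfalso
      apply hna
      have h8 : n ≤ 2 := by omega
      interval_cases n
      · rw [pow_zero] at hn
        have := (Nat.card_eq_one_iff_unique.1 hn).1
        exact ⟨⟨fun a b => Subsingleton.elim _ _⟩⟩
      · rw [pow_one] at hn
        exact (isCyclic_of_prime_card hn).isMulCommutative
      · exact ⟨⟨fun a b => IsPGroup.commutative_of_card_eq_prime_sq hn a b⟩⟩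
  · intro hcard H hH x hx
    obtain ⟨k, hk⟩ := (hG.to_subgroup H).exists_card_eq
    have hk3 : k ≤ 3 := by
      have := Subgroup.card_subgroup_dvd_card H
      rw [hk, hcard] at this
      exact (Nat.pow_dvd_pow_iff_le_right hpp.one_lt).1 this
    have hk2 : 2 ≤ k := by
      by_contra hcon
      apply hH
      have : k < 2 := by omega
      interval_cases k
      · rw [pow_zero, Subgroup.card_eq_one] at hk
        subst hk
        infer_instance
      · rw [pow_one] at hk
        exact isCyclic_of_prime_card hk
    by_contra hxH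
    have hk' : k ≠ 3 := by
      rintro rfl
      apply hxH
      have : H = ⊤ := Subgroup.eq_top_of_card_eq H (by rw [hk, hcard])
      rw [this]; exact Subgroup.mem_top x
    have hk'' : k = 2 := by omega
    subst hk''
    have hHc : ∀ a ∈ H, ∀ b ∈ H, a * b = b * a := by
      intro a ha b hb
      exact congrArg Subtype.val (IsPGroup.commutative_of_card_eq_prime_sq hk (⟨a, ha⟩ : ↥H) ⟨b, hb⟩)
    have htop : H ⊔ Subgroup.zpowers x = ⊤ := by
      apply Subgroup.eq_top_of_card_eq
      have h1 := H3.Meta.relIndex_card (R := H) (S := H ⊔ Subgroup.zpowers x) le_sup_left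
      have h2 : Nat.card ↥(H ⊔ Subgroup.zpowers x) ∣ p ^ 3 := by rw [← hcard]; exact Subgroup.card_subgroup_dvd_card _
      obtain ⟨j, hj, hj2⟩ := (Nat.dvd_prime_pow hpp).1 h2
      rw [hcard, hj2]
      have h3 : 2 < j := by
        by_contra hcon
        have h4 : H = H ⊔ Subgroup.zpowers x := by
          apply Subgroup.eq_of_le_of_card_ge le_sup_left
          rw [hj2, hk]
          exact Nat.pow_le_pow_right hpp.pos (by omega)
        apply hxH
        rw [h4]; exact Subgroup.mem_sup_right (Subgroup.mem_zpowers x)
      congr 1; omega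
    apply hna
    have h2 : H ⊔ Subgroup.zpowers x ≤ Subgroup.centralizer ((H ⊔ Subgroup.zpowers x : Subgroup G) : Set G) := by
      have hxc : Subgroup.zpowers x ≤ Subgroup.centralizer (H : Set G) := by rw [Subgroup.zpowers_le]; exact hx
      have h3 : H ≤ Subgroup.centralizer ((H ⊔ Subgroup.zpowers x : Subgroup G) : Set G) := by
        rw [Subgroup.le_centralizer_iff, sup_le_iff]
        refine ⟨?_, hxc⟩
        intro a ha
        rw [Subgroup.mem_centralizer_iff]
        intro b hb
        exact hHc b hb a ha
      have h4 : Subgroup.zpowers x ≤ Subgroup.centralizer ((H ⊔ Subgroup.zpowers x : Subgroup G) : Set G) := by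
        rw [Subgroup.le_centralizer_iff, sup_le_iff]
        constructor
        · rw [Subgroup.le_centralizer_iff]; exact hxc
        · rw [Subgroup.zpowers_le, Subgroup.mem_centralizer_iff]
          rintro _ ⟨k, rfl⟩
          exact (Commute.zpow_self x k).eq
      exact sup_le h3 h4
    rw [htop] at h2
    exact ⟨⟨fun a b => Subgroup.mem_centralizer_iff.1 (h2 (Subgroup.mem_top b)) a (Subgroup.mem_top a)⟩⟩

end Cfsg.Agent.S3918
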