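import Cfsg.Statements.S3919
import Mathlib
import Cfsg.Agent.H3.MaxCl2
import Cfsg.Agent.H4.MaxCl
import Cfsg.Agent.H1.Rank1

set_option autoImplicit false
open Cfsg

namespace Cfsg.Agent.S3919

open Subgroup
open scoped commutatorElement

/-- Say that a group has self-centralizing non-cyclic subgroups when every non-cyclic subgroup H satisfies C_G(H) ≤ H. A finite non-abelian 2-group G of order 2^n has self-centralizing non-cyclic subgroups if and only if G has nilpotency class n − 1 (that is, G is dihedral, semidihedral or generalized quaternion). -/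
theorem result {G : Type*} [Group G] [Finite G] (hna : ¬ IsMulCommutative G) (n : ℕ) (hG : Nat.card G = 2 ^ n) :
    (∀ H : Subgroup G, ¬ IsCyclic ↥H → Subgroup.centralizer (H : Set G) ≤ H) ↔ (⊤ : Subgroup G).lowerCentralSeries (n - 2) ≠ ⊥ := by
  classical
  haveI hF : Fact (Nat.Prime 2) := ⟨Nat.prime_two⟩
  have hP : IsPGroup 2 G := IsPGroup.of_card hG
  haveI : Group.IsNilpotent G := hP.isNilpotent
  have hab : ¬ ∀ a b : G, a * b = b * a := fun h => hna ⟨⟨h⟩⟩
  have hn3 : 3 ≤ n := by
    by_contra hlt
    apply hab
    have h3 : n = 0 ∨ n = 1 ∨ n = 2 := by omega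
    rcases h3 with rfl | rfl | rfl
    · haveI : Subsingleton G := (Nat.card_eq_one_iff_unique.1 (by rw [hG, pow_zero])).1
      exact fun a b => Subsingleton.elim _ _
    · haveI := isCyclic_of_prime_card (p := 2) (α := G) (by rw [hG, pow_one])
      letI := IsCyclic.commGroup (α := G)
      exact fun a b => mul_comm a b
    · exact IsPGroup.commutative_of_card_eq_prime_sq hG
  rw [Ne, Subgroup.lowerCentralSeries_eq_bot_iff_nilpotencyClass_le, not_le]
  constructor
  · intro h
    suffices hcl : Group.nilpotencyClass G = n - 1 by omega
    by_cases hV : ∃ V : Subgroup G, Nat.card V = 2 ^ 2 ∧ ∀ v ∈ V, v ^ 2 = 1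
    · obtain ⟨V, hVc, hV2⟩ := hV
      have hVab : IsMulCommutative V := ⟨⟨fun a b => IsPGroup.commutative_of_card_eq_prime_sq hVc a b⟩⟩
      have hVnc : ¬ IsCyclic V := by
        intro hcyc
        obtain ⟨x, hx⟩ := hcyc.exists_generator
        have h1 := orderOf_eq_card_of_forall_mem_zpowers hx
        have h2 : x ^ 2 = 1 := Subtype.ext (hV2 x x.2)
        have h3 := Nat.le_of_dvd (by norm_num) (orderOf_dvd_of_pow_eq_one h2)
        rw [h1, hVc] at h3
        omega
      refine H4.maxcl_aux n G hG V hVc (le_antisymm (h V hVnc) ?_)
      exact Subgroup.le_centralizer_iff_isMulCommutative.2 hVab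
    · have hu : ∀ H K : Subgroup G, Nat.card H = 2 → Nat.card K = 2 → H = K := by
        haveI : Nontrivial G := by
          by_contra hcon
          rw [not_nontrivial_iff_subsingleton] at hcon
          exact hab fun a b => Subsingleton.elim _ _
        haveI := hP.center_nontrivial
        obtain ⟨j, hj⟩ := IsPGroup.iff_card.mp (hP.to_subgroup (center G))
        have hdvd : 2 ∣ Nat.card (center G) := by
          rw [hj]
          apply dvd_pow_self
          rintro rfl
          rw [pow_zero] at hj
          exact absurd hj (Finite.one_lt_card (α := center G)).ne'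
        obtain ⟨z, hz⟩ := exists_prime_orderOf_dvd_card' (G := center G) 2 hdvd
        have key : ∀ H : Subgroup G, Nat.card H = 2 → H = zpowers (z : G) := by
          intro H hH
          obtain ⟨x, hx⟩ := exists_prime_orderOf_dvd_card' (G := H) 2 (by rw [hH])
          have hxG : orderOf (x : G) = 2 := by rw [Subgroup.orderOf_coe, hx]
          have hzG : orderOf (z : G) = 2 := by rw [Subgroup.orderOf_coe, hz]
          have hxH : zpowers (x : G) = H := by
            apply Subgroup.eq_of_le_of_card_ge
            · rw [zpowers_le]; exact x.2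
            · rw [Nat.card_zpowers, hxG, hH]
          by_contra hne
          have hcomm : Commute (x : G) (z : G) := mem_center_iff.1 z.2 x
          have hxz : (x : G) ≠ z := by
            intro he; apply hne; rw [← hxH, he]
          have hE : IsMulCommutative (closure ({(x : G), (z : G)} : Set G)) := by
            apply isMulCommutative_closure
            rintro a (rfl | rfl) b (rfl | rfl)
            · rfl
            · exact hcomm.eq
            · exact hcomm.eq.symm
            · rfl
          have hnc : ¬ IsCyclic (closure ({(x : G), (z : G)} : Set G)) := by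
            intro hcyc
            have hxE : (x : G) ∈ closure ({(x : G), (z : G)} : Set G) := subset_closure (by simp)
            have hzE : (z : G) ∈ closure ({(x : G), (z : G)} : Set G) := subset_closure (by simp)
            apply hne
            rw [← hxH]
            apply le_antisymm
            · exact H1.sub_total_of_card hcyc (by rw [zpowers_le]; exact hxE) (by rw [zpowers_le]; exact hzE) (by
                rw [Nat.card_zpowers, Nat.card_zpowers, hxG, hzG])
            · exact H1.sub_total_of_card hcyc (by rw [zpowers_le]; exact hzE) (by rw [zpowers_le]; exact hxE) (by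
                rw [Nat.card_zpowers, Nat.card_zpowers, hxG, hzG])
          obtain ⟨q, hq, V, hVE, hVc, hVp⟩ := L0.exists_rank_two_le_of_not_isCyclic hE hnc
          have hqp : q = 2 := by
            obtain ⟨k, hk⟩ := IsPGroup.iff_card.mp (hP.to_subgroup V)
            have h1 : q ∣ 2 ^ k := by rw [← hk, hVc]; exact dvd_pow_self q (by norm_num)
            exact (Nat.prime_dvd_prime_iff_eq hq Nat.prime_two).mp (hq.dvd_of_dvd_pow h1)
          subst hqp
          exact hV ⟨V, hVc, hVp⟩
        intro H K hH hK
        rw [key H hH, key K hK]
      rcases H1.cyclic_or_quat hP hu with hcyc | ⟨-, m, hm, ⟨e⟩⟩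
      · exfalso
        apply hab
        letI := IsCyclic.commGroup (α := G)
        exact fun a b => mul_comm a b
      · -- quaternion
        set c : G := e.symm (QuaternionGroup.a 1) with hc
        set t : G := e.symm (QuaternionGroup.xa 0) with ht
        have hcard : Nat.card G = 2 ^ (m + 2) := by
          rw [Nat.card_congr e.toEquiv, Nat.card_eq_fintype_card, QuaternionGroup.card]
          ring
        have hnm : n = m + 2 := Nat.pow_right_injective le_rfl (hG.symm.trans hcard)
        have hco : orderOf c = 2 * 2 ^ m := by rw [hc, MulEquiv.orderOf_eq, QuaternionGroup.orderOf_a_one]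
        have hinv : t * c * t⁻¹ = c⁻¹ := by
          have h1 : c * (t * c) = t := by
            rw [hc, ht, ← map_mul, ← map_mul]
            congr 1
            rw [QuaternionGroup.xa_mul_a, QuaternionGroup.a_mul_xa]
            congr 1
            ring
          have h2 : t * c = c⁻¹ * t := by
            calc t * c = c⁻¹ * (c * (t * c)) := by group
              _ = c⁻¹ * t := by rw [h1]
          rw [h2]; group
        have hlcs : ∀ k : ℕ, c ^ 2 ^ k ∈ (⊤ : Subgroup G).lowerCentralSeries k := by
          intro k
          induction k with
          | zero => simp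
          | succ k ih =>
            rw [Subgroup.lowerCentralSeries_succ]
            have h1 : ⁅c ^ 2 ^ k, t⁆ = c ^ 2 ^ (k + 1) := by
              rw [commutatorElement_def]
              have h2 : t * (c ^ 2 ^ k)⁻¹ * t⁻¹ = c ^ 2 ^ k := by
                have h3 : t * (c ^ 2 ^ k)⁻¹ * t⁻¹ = ((t * c * t⁻¹) ^ 2 ^ k)⁻¹ := by
                  rw [conj_pow]; group
                rw [h3, hinv, inv_pow, inv_inv]
              calc c ^ 2 ^ k * t * (c ^ 2 ^ k)⁻¹ * t⁻¹ = c ^ 2 ^ k * (t * (c ^ 2 ^ k)⁻¹ * t⁻¹) := by group
                _ = c ^ 2 ^ (k + 1) := by rw [h2, ← pow_add, pow_succ]; congr 1; ring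
            rw [← h1]
            exact commutator_mem_commutator ih (mem_top _)
        have hle := H3.MaxCl2.class_le n G hG (by omega)
        have hgt : ¬ Group.nilpotencyClass G ≤ m := by
          rw [← Subgroup.lowerCentralSeries_eq_bot_iff_nilpotencyClass_le]
          intro h0
          have h1 := hlcs m
          rw [h0, mem_bot] at h1
          have h2 := Nat.le_of_dvd (by positivity) (orderOf_dvd_of_pow_eq_one h1)
          rw [hco] at h2
          have : 0 < 2 ^ m := by positivity
          omega
        omega
  · intro hcl H hH
    have hle := H3.MaxCl2.class_le n G hG (by omega)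
    have hc : Group.nilpotencyClass G = n - 1 := by omega
    obtain ⟨C, hC, hCi⟩ := H3.MaxCl2.exists_cyclic n G hn3 hG hc
    obtain ⟨hZ, hQ, hQc⟩ := H3.MaxCl2.center_card hn3 hG hc
    have hB : ∀ a ∈ C, ∀ b ∈ C, a * b = b * a := by
      letI := IsCyclic.commGroup (α := C)
      intro a ha b hb
      exact congrArg Subtype.val (mul_comm (⟨a, ha⟩ : C) ⟨b, hb⟩)
    have hZC := H3.MaxCl2.center_le hB hCi hab
    obtain ⟨y, hyH, hyC⟩ : ∃ y ∈ H, y ∉ C := by
      by_contra hcon
      push Not at hcon
      apply hH
      haveI := hC
      exact isCyclic_of_injective (Subgroup.inclusion (show H ≤ C from hcon)) (Subgroup.inclusion_injective _)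
    have hZH : center G ≤ H := by
      -- H ⊓ C nontrivial
      have h1 : H ⊓ C ≠ ⊥ := by
        intro h0
        apply hH
        have h2 : Nat.card H ∣ 2 := by
          have h3 : C.relIndex H ∣ C.index := by
            haveI : C.Normal := Subgroup.normal_of_index_eq_two hCi
            exact Subgroup.relIndex_dvd_index_of_normal _ _
          have h4 : C.relIndex H = Nat.card H := by
            have h5 : (C.subgroupOf H) = ⊥ := by
              rw [Subgroup.subgroupOf_eq_bot, disjoint_iff, inf_comm]; exact h0
            show (C.subgroupOf H).index = _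
            rw [h5, Subgroup.index_bot]
          rwa [h4, hCi] at h3
        rcases (Nat.dvd_prime Nat.prime_two).1 h2 with h3 | h3
        · haveI : Subsingleton H := (Nat.card_eq_one_iff_unique.1 h3).1
          infer_instance
        · exact isCyclic_of_prime_card h3
      have h2 : 2 ∣ Nat.card ↥(H ⊓ C) := by
        obtain ⟨k, hk⟩ := IsPGroup.iff_card.mp (hP.to_subgroup (H ⊓ C))
        rw [hk]
        apply dvd_pow_self
        rintro rfl
        rw [pow_zero] at hk
        exact h1 (Subgroup.card_eq_one.1 hk)
      have h3 := H1.sub_total_of_card hC hZC (inf_le_right : H ⊓ C ≤ C) (by rw [hZ]; exact h2)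
      exact h3.trans inf_le_left
    intro d hd
    rw [mem_centralizer_iff] at hd
    have hdy := hd y hyH
    by_cases hdC : d ∈ C
    · exact hZH (H3.MaxCl2.mem_center_of hB hCi hyC hdC hdy.symm)
    · have h1 : d * y⁻¹ ∈ C := by
        rw [Subgroup.mul_mem_iff_of_index_two hCi, inv_mem_iff]
        exact ⟨fun h => absurd h hdC, fun h => absurd h hyC⟩
      have h2 : d * y⁻¹ ∈ center G := by
        apply H3.MaxCl2.mem_center_of hB hCi hyC h1
        calc d * y⁻¹ * y = d := by group
          _ = (d * y) * y⁻¹ := by group
          _ = (y * d) * y⁻¹ := by rw [hdy]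
          _ = y * (d * y⁻¹) := by group
      have h3 := mul_mem (hZH h2) hyH
      have h4 : d * y⁻¹ * y = d := by group
      rwa [h4] at h3

end Cfsg.Agent.S3919
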