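import Cfsg.Statements.S3920
import Mathlib

set_option autoImplicit false
open Cfsg

namespace Cfsg.Agent.S3920

open Subgroup in
theorem dih (n : ℕ) (hn : 3 ≤ n) (H : Subgroup (DihedralGroup n)) (hH : ¬ IsCyclic ↥H) :
    (∃ i : ZMod n, DihedralGroup.sr i ∈ H) ∧ ∃ j : ZMod n, j ≠ 0 ∧ DihedralGroup.r j ∈ H := by
  haveI : NeZero n := ⟨by omega⟩
  constructor
  · by_contra hcon
    push Not at hcon
    apply hH
    -- H ≤ rotations
    have hle : H ≤ zpowers (DihedralGroup.r (1 : ZMod n)) := by
      intro x hx
      cases x with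
      | r i =>
        refine ⟨(i.val : ℤ), ?_⟩
        show DihedralGroup.r (1 : ZMod n) ^ (i.val : ℤ) = _
        rw [zpow_natCast, DihedralGroup.r_one_pow]
        simp
      | sr i => exact absurd hx (hcon i)
    exact Subgroup.isCyclic_of_le hle
  · by_contra hcon
    push Not at hcon
    apply hH
    -- H has at most two elements
    by_cases hs : ∃ i : ZMod n, DihedralGroup.sr i ∈ H
    · obtain ⟨i, hi⟩ := hs
      have hle : H ≤ zpowers (DihedralGroup.sr i) := by
        intro x hx
        cases x with
        | r j =>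
          by_cases hj : j = 0
          · subst hj
            rw [← DihedralGroup.one_def]; exact one_mem _
          · exact absurd hx (hcon j hj)
        | sr j =>
          have h1 : DihedralGroup.sr i * DihedralGroup.sr j ∈ H := H.mul_mem hi hx
          rw [DihedralGroup.sr_mul_sr] at h1
          have h2 : j - i = 0 := by
            by_contra hne
            exact hcon _ hne h1
          rw [sub_eq_zero.1 h2]
          exact mem_zpowers _
      exact Subgroup.isCyclic_of_le hle
    · push Not at hs
      have hle : H ≤ zpowers (1 : DihedralGroup n) := by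
        intro x hx
        cases x with
        | r j =>
          by_cases hj : j = 0
          · subst hj
            rw [← DihedralGroup.one_def]; exact one_mem _
          · exact absurd hx (hcon j hj)
        | sr j => exact absurd hx (hs j)
      exact Subgroup.isCyclic_of_le hle

open Subgroup in
theorem zmod_half {n : ℕ} (hn : n ≠ 0) (he : Even n) (j : ZMod n) (h : 2 * j = 0) : j = 0 ∨ j = ((n / 2 : ℕ) : ZMod n) := by
  haveI : NeZero n := ⟨hn⟩
  obtain ⟨m, hm⟩ := he
  have h1 : ((2 * j.val : ℕ) : ZMod n) = 0 := by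
    push_cast; simpa using h
  rw [ZMod.natCast_eq_zero_iff] at h1
  obtain ⟨k, hk⟩ := h1
  have h2 := ZMod.val_lt j
  have hk2 : k < 2 := by
    by_contra hcon
    push Not at hcon
    have : n * 2 ≤ n * k := Nat.mul_le_mul_left n hcon
    omega
  interval_cases k
  · left
    have : j.val = 0 := by omega
    exact (ZMod.val_eq_zero j).1 this
  · right
    have h3 : j.val = n / 2 := by omega
    rw [← h3]; simp

/-- Say that a group has self-centralizing non-cyclic subgroups when every non-cyclic subgroup H satisfies C_G(H) ≤ H. For n ≥ 3, the dihedral group of order 2n has self-centralizing non-cyclic subgroups if and only if n is odd or a power of 2. -/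
theorem result (n : ℕ) (hn : 3 ≤ n) : (∀ H : Subgroup (DihedralGroup n), ¬ IsCyclic ↥H → Subgroup.centralizer (H : Set (DihedralGroup n)) ≤ H) ↔ (Odd n ∨ ∃ k : ℕ, n = 2 ^ k) := by
  haveI : NeZero n := ⟨by omega⟩
  constructor
  · intro h
    rcases Nat.even_or_odd n with he | ho
    · right
      by_contra hcon
      -- n = 2^k * m, m odd > 1
      obtain ⟨k, m, hm2, hm⟩ := Nat.exists_eq_pow_mul_and_not_dvd (n := n) (by omega) 2 (by norm_num)
      have hk : k ≠ 0 := by
        rintro rfl
        rw [pow_zero, one_mul] at hm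
        rw [← hm] at hm2
        exact hm2 he.two_dvd
      have hm1 : m ≠ 1 := by
        rintro rfl
        exact hcon ⟨k, by rw [hm, mul_one]⟩
      have hm0 : m ≠ 0 := by rintro rfl; omega
      set d := 2 ^ k with hd
      have hd2 : 2 ∣ d := dvd_pow_self 2 hk
      have hd0 : 0 < d := pow_pos (by norm_num) k
      -- H = {r (d i), sr (d i)}
      let H : Subgroup (DihedralGroup n) :=
        { carrier := {x | (∃ i : ZMod n, x = DihedralGroup.r ((d : ZMod n) * i)) ∨ ∃ i : ZMod n, x = DihedralGroup.sr ((d : ZMod n) * i)}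
          one_mem' := Or.inl ⟨0, by rw [mul_zero]; rfl⟩
          mul_mem' := by
            rintro _ _ (⟨i, rfl⟩ | ⟨i, rfl⟩) (⟨j, rfl⟩ | ⟨j, rfl⟩)
            · left; exact ⟨i + j, by rw [DihedralGroup.r_mul_r]; congr 1; ring⟩
            · right; exact ⟨j - i, by rw [DihedralGroup.r_mul_sr]; congr 1; ring⟩
            · right; exact ⟨i + j, by rw [DihedralGroup.sr_mul_r]; congr 1; ring⟩
            · left; exact ⟨j - i, by rw [DihedralGroup.sr_mul_sr]; congr 1; ring⟩
          inv_mem' := by
            rintro _ (⟨i, rfl⟩ | ⟨i, rfl⟩)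
            · left; exact ⟨-i, by rw [DihedralGroup.inv_r]; congr 1; ring⟩
            · right; exact ⟨i, by rw [DihedralGroup.inv_sr]⟩ }
      have hnc : ¬ IsCyclic ↥H := by
        intro hc
        haveI : IsMulCommutative ↥H := hc.isMulCommutative
        have h1 : (⟨DihedralGroup.r ((d : ZMod n) * 1), Or.inl ⟨1, rfl⟩⟩ : ↥H) * ⟨DihedralGroup.sr ((d : ZMod n) * 0), Or.inr ⟨0, rfl⟩⟩ =
          ⟨DihedralGroup.sr ((d : ZMod n) * 0), Or.inr ⟨0, rfl⟩⟩ * ⟨DihedralGroup.r ((d : ZMod n) * 1), Or.inl ⟨1, rfl⟩⟩ := mul_comm' _ _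
        have h2 := congrArg Subtype.val h1
        simp only [Subgroup.coe_mul, DihedralGroup.r_mul_sr, DihedralGroup.sr_mul_r, mul_one, mul_zero, zero_sub, zero_add,
          DihedralGroup.sr.injEq] at h2
        have h3 : ((2 * d : ℕ) : ZMod n) = 0 := by
          push_cast
          calc (2 : ZMod n) * (d : ZMod n) = (d : ZMod n) - (-(d : ZMod n)) := by ring
            _ = 0 := by rw [h2]; ring
        rw [ZMod.natCast_eq_zero_iff, hm] at h3
        have h4 : m ∣ 2 := by
          have : d * m ∣ d * 2 := by rw [mul_comm d 2]; exact h3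
          exact (Nat.mul_dvd_mul_iff_left hd0).1 this
        have := Nat.le_of_dvd (by norm_num) h4
        have : m = 2 := by omega
        exact hm2 (this ▸ dvd_rfl)
      have h1 : DihedralGroup.r ((n / 2 : ℕ) : ZMod n) ∈ H := by
        apply h H hnc
        rw [Subgroup.mem_centralizer_iff]
        have h2n : (2 : ZMod n) * ((n / 2 : ℕ) : ZMod n) = 0 := by
          have : ((2 * (n / 2) : ℕ) : ZMod n) = 0 := by
            rw [ZMod.natCast_eq_zero_iff, Nat.mul_div_cancel' he.two_dvd]
          push_cast at this
          simpa using this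
        have hneg : (((n / 2 : ℕ) : ZMod n)) = - ((n / 2 : ℕ) : ZMod n) := by
          rw [eq_neg_iff_add_eq_zero, ← two_mul]; exact h2n
        rintro _ (⟨i, rfl⟩ | ⟨i, rfl⟩)
        · rw [DihedralGroup.r_mul_r, DihedralGroup.r_mul_r, add_comm]
        · rw [DihedralGroup.sr_mul_r, DihedralGroup.r_mul_sr]
          congr 1
          nth_rewrite 1 [hneg]; ring
      rcases h1 with ⟨i, hi⟩ | ⟨i, hi⟩
      · rw [DihedralGroup.r.injEq] at hi
        have h2 : ((n / 2 : ℕ) : ZMod n) = ((d * i.val : ℕ) : ZMod n) := by
          rw [hi]; push_cast; simp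
        rw [ZMod.natCast_eq_natCast_iff] at h2
        have h3 : n / 2 ≡ d * i.val [MOD d] := h2.of_dvd ⟨m, hm⟩
        have h4 : d ∣ n / 2 := by
          have : d * i.val ≡ 0 [MOD d] := (Nat.modEq_zero_iff_dvd).2 (dvd_mul_right _ _)
          exact (Nat.modEq_zero_iff_dvd).1 (h3.trans this)
        obtain ⟨c, hc⟩ := h4
        have h5 : n = d * (2 * c) := by
          have := Nat.mul_div_cancel' he.two_dvd
          rw [hc] at this
          rw [← this]; ring
        rw [hm] at h5
        have h6 := Nat.eq_of_mul_eq_mul_left hd0 h5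
        exact hm2 ⟨c, h6⟩
      · exact absurd hi (by simp)
    · exact Or.inl ho
  · intro hn' H hH x hx
    obtain ⟨⟨i, hi⟩, ⟨j, hj0, hj⟩⟩ := dih n hn H hH
    rw [Subgroup.mem_centralizer_iff] at hx
    have hxi := hx _ hi
    have hxj := hx _ hj
    rcases hn' with ho | ⟨k, hk⟩
    · -- n odd : centralizer trivial
      have h2 : ∀ a : ZMod n, 2 * a = 0 → a = 0 := by
        intro a ha
        have h3 : ((2 * a.val : ℕ) : ZMod n) = 0 := by push_cast; simpa using ha
        rw [ZMod.natCast_eq_zero_iff] at h3
        have h4 : n ∣ a.val := (Nat.coprime_two_right.2 ho).dvd_of_dvd_mul_left h3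
        have h5 := ZMod.val_lt a
        have h6 : a.val = 0 := Nat.eq_zero_of_dvd_of_lt h4 h5
        exact (ZMod.val_eq_zero a).1 h6
      cases x with
      | r a =>
        rw [DihedralGroup.sr_mul_r, DihedralGroup.r_mul_sr, DihedralGroup.sr.injEq] at hxi
        have : 2 * a = 0 := by linear_combination hxi
        rw [h2 a this, ← DihedralGroup.one_def]
        exact H.one_mem
      | sr a =>
        exfalso
        rw [DihedralGroup.r_mul_sr, DihedralGroup.sr_mul_r, DihedralGroup.sr.injEq] at hxj
        have : 2 * j = 0 := by linear_combination -hxj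
        exact hj0 (h2 j this)
    · -- n = 2^k : the central involution lies in H
      have hk0 : k ≠ 0 := by rintro rfl; rw [pow_zero] at hk; omega
      have he : Even n := by rw [hk]; exact (Nat.even_pow.2 ⟨even_two, hk0⟩)
      have hz : DihedralGroup.r ((n / 2 : ℕ) : ZMod n) ∈ H := by
        -- j = 2^a * u, u odd, a < k
        have hj1 : j.val ≠ 0 := fun h => hj0 ((ZMod.val_eq_zero j).1 h)
        obtain ⟨a, u, hu2, hu⟩ := Nat.exists_eq_pow_mul_and_not_dvd hj1 2 (by norm_num)
        have hak : a < k := by
          by_contra hcon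
          push Not at hcon
          have h1 : 2 ^ k ∣ j.val := by rw [hu]; exact dvd_mul_of_dvd_left (pow_dvd_pow 2 hcon) u
          rw [← hk] at h1
          have := Nat.le_of_dvd (Nat.pos_of_ne_zero hj1) h1
          have := ZMod.val_lt j
          omega
        have h1 : DihedralGroup.r j ^ (2 ^ (k - 1 - a)) ∈ H := H.pow_mem hj _
        have h2 : DihedralGroup.r j ^ (2 ^ (k - 1 - a)) = DihedralGroup.r ((n / 2 : ℕ) : ZMod n) := by
          rw [DihedralGroup.r_pow]
          congr 1
          have e1 : j = ((j.val : ℕ) : ZMod n) := by simp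
          rw [e1, ← Nat.cast_mul, ZMod.natCast_eq_natCast_iff]
          have e2 : n / 2 = 2 ^ (k - 1) := by
            rw [hk]
            obtain ⟨k', rfl⟩ : ∃ k', k = k' + 1 := ⟨k - 1, by omega⟩
            rw [pow_succ, Nat.mul_div_cancel _ (by norm_num)]; rfl
          have e3 : j.val * 2 ^ (k - 1 - a) = 2 ^ (k - 1) * u := by
            rw [hu]
            have : 2 ^ (k - 1) = 2 ^ a * 2 ^ (k - 1 - a) := by rw [← pow_add]; congr 1; omega
            rw [this]; ring
          rw [e2, e3]
          obtain ⟨w, hw⟩ : Odd u := Nat.not_even_iff_odd.1 (fun h => hu2 h.two_dvd)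
          have e4 : 2 ^ (k - 1) * u = 2 ^ (k - 1) + n * w := by
            rw [hw, hk]
            obtain ⟨k', rfl⟩ : ∃ k', k = k' + 1 := ⟨k - 1, by omega⟩
            rw [Nat.add_sub_cancel, pow_succ]; ring
          rw [e4]
          exact (Nat.modEq_iff_dvd' (Nat.le_add_right _ _)).2 (by rw [Nat.add_sub_cancel_left]; exact dvd_mul_right _ _) |>.symm
        rw [← h2]; exact h1
      cases x with
      | r a =>
        rw [DihedralGroup.sr_mul_r, DihedralGroup.r_mul_sr, DihedralGroup.sr.injEq] at hxi
        have : 2 * a = 0 := by linear_combination hxi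
        rcases zmod_half (by omega) he a this with h | h
        · rw [h, ← DihedralGroup.one_def]; exact H.one_mem
        · rw [h]; exact hz
      | sr a =>
        rw [DihedralGroup.sr_mul_sr, DihedralGroup.sr_mul_sr, DihedralGroup.r.injEq] at hxi
        have : 2 * (a - i) = 0 := by linear_combination hxi
        rcases zmod_half (by omega) he (a - i) this with h | h
        · rw [sub_eq_zero.1 h]; exact hi
        · have h3 : DihedralGroup.sr a = DihedralGroup.sr i * DihedralGroup.r ((n / 2 : ℕ) : ZMod n) := by
            rw [DihedralGroup.sr_mul_r, ← h]; congr 1; ring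
          rw [h3]; exact H.mul_mem hi hz

end Cfsg.Agent.S3920
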