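import Cfsg.Statements.S3937
import Mathlib
import Cfsg.Agent.H1.Subn
import Cfsg.Agent.L0.GenFit

set_option autoImplicit false
open Cfsg

namespace Cfsg.Agent.S3937

open scoped Pointwise in
theorem tops {G : Type*} [Group G] (a : G) : MulAut.conj a • (⊤ : Subgroup G) = ⊤ := by
  rw [eq_top_iff]
  intro z _
  rw [L0.mem_conj_smul]
  exact Subgroup.mem_top _

open Subgroup in
open scoped Pointwise in
theorem engel_subnormal (n : ℕ) : ∀ {G : Type*} [Group G] [Finite G], Nat.card G = n → ∀ g : G,
    (∀ x : G, ∃ n : ℕ, (List.replicate n g).foldl (fun a b => a * b * a⁻¹ * b⁻¹) x = 1) → (zpowers g).IsSubnormal := by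
  induction n using Nat.strong_induction_on with
  | _ n ih =>
  intro G _ _ hG g hE
  by_contra hns
  have hne : zpowers g ≠ ⊤ := by
    intro h
    apply hns
    rw [h]; exact Subgroup.IsSubnormal.top
  obtain ⟨M, hM, hAM⟩ := (eq_top_or_exists_le_coatom (zpowers g)).resolve_left hne
  have hgM : g ∈ M := hAM (mem_zpowers g)
  have hzip := H1.zipper _ (zpowers g) rfl hns (by
    intro H hH hHt
    have hgH : g ∈ H := hH (mem_zpowers g)
    have hlt : Nat.card ↥H < n := by
      rw [← hG]
      exact H1.card_lt_of_ne_top hHt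
    have h1 := ih (Nat.card ↥H) hlt (G := ↥H) rfl ⟨g, hgH⟩ (by
      intro x
      obtain ⟨m, hm⟩ := hE x
      refine ⟨m, ?_⟩
      have key : ∀ (m : ℕ) (x : ↥H), (((List.replicate m (⟨g, hgH⟩ : ↥H)).foldl (fun a b => a * b * a⁻¹ * b⁻¹) x : ↥H) : G) =
          (List.replicate m g).foldl (fun a b => a * b * a⁻¹ * b⁻¹) (x : G) := by
        intro m
        induction m with
        | zero => intro x; rfl
        | succ m ihm =>
          intro x
          rw [List.replicate_succ, List.replicate_succ, List.foldl_cons, List.foldl_cons, ihm]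
          rfl
      exact Subtype.ext ((key m x).trans hm))
    have h2 : (zpowers g).subgroupOf H = zpowers (⟨g, hgH⟩ : ↥H) := by
      apply Subgroup.map_injective H.subtype_injective
      rw [Subgroup.subgroupOf_map_subtype, inf_eq_left.2 hH, MonoidHom.map_zpowers]
      rfl
    rw [h2]; exact h1)
  -- M is not normal
  have hMn : ¬ M.Normal := by
    intro hMn
    apply hns
    have hlt : Nat.card ↥M < n := by
      rw [← hG]
      exact H1.card_lt_of_ne_top hM.1
    have h1 := ih (Nat.card ↥M) hlt (G := ↥M) rfl ⟨g, hgM⟩ (by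
      intro x
      obtain ⟨m, hm⟩ := hE x
      refine ⟨m, ?_⟩
      have key : ∀ (m : ℕ) (x : ↥M), (((List.replicate m (⟨g, hgM⟩ : ↥M)).foldl (fun a b => a * b * a⁻¹ * b⁻¹) x : ↥M) : G) =
          (List.replicate m g).foldl (fun a b => a * b * a⁻¹ * b⁻¹) (x : G) := by
        intro m
        induction m with
        | zero => intro x; rfl
        | succ m ihm =>
          intro x
          rw [List.replicate_succ, List.replicate_succ, List.foldl_cons, List.foldl_cons, ihm]
          rfl
      exact Subtype.ext ((key m x).trans hm))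
    have h2 : (zpowers g).subgroupOf M = zpowers (⟨g, hgM⟩ : ↥M) := by
      apply Subgroup.map_injective M.subtype_injective
      rw [Subgroup.subgroupOf_map_subtype, inf_eq_left.2 hAM, MonoidHom.map_zpowers]
      rfl
    rw [← h2] at h1
    exact h1.trans hAM hMn.isSubnormal
  have hNM : normalizer (M : Set G) = M := by
    by_contra h
    have h1 := hM.2 _ (lt_of_le_of_ne le_normalizer (Ne.symm h))
    exact hMn (normalizer_eq_top_iff.1 h1)
  -- choose x outside M
  obtain ⟨x, hx⟩ : ∃ x, x ∉ M := by
    by_contra hcon
    push Not at hcon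
    exact hM.1 ((Subgroup.eq_top_iff' M).2 hcon)
  -- every iterate stays outside M
  have hout : ∀ y : G, y ∉ M → y * g * y⁻¹ * g⁻¹ ∉ M := by
    intro y hy h
    have h1 : y * g * y⁻¹ ∈ M := by
      have := M.mul_mem h hgM
      have e : y * g * y⁻¹ * g⁻¹ * g = y * g * y⁻¹ := by group
      rwa [e] at this
    have h2 : zpowers g ≤ MulAut.conj y⁻¹ • M := by
      rw [zpowers_le, L0.mem_conj_smul, inv_inv]
      exact h1
    have h3 : IsCoatom (MulAut.conj y⁻¹ • M) := by
      refine ⟨?_, fun K hK => ?_⟩
      · intro h4
        apply hM.1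
        have : M = MulAut.conj y • (MulAut.conj y⁻¹ • M) := by rw [← mul_smul, ← map_mul, mul_inv_cancel, map_one, one_smul]
        rw [this, h4]
        exact tops _
      · have h4 : M < MulAut.conj y • K := by
          have e : M = MulAut.conj y • (MulAut.conj y⁻¹ • M) := by rw [← mul_smul, ← map_mul, mul_inv_cancel, map_one, one_smul]
          rw [e]
          exact (Subgroup.pointwise_smul_le_pointwise_smul_iff.2 hK.le).lt_of_ne (fun h5 => hK.ne (by
            have := congrArg (fun X => MulAut.conj y⁻¹ • X) h5
            simpa [← mul_smul, ← map_mul] using this))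
        have h5 := hM.2 _ h4
        have : K = MulAut.conj y⁻¹ • (MulAut.conj y • K) := by rw [← mul_smul, ← map_mul, inv_mul_cancel, map_one, one_smul]
        rw [this, h5]
        exact tops _
    have h4 := hzip M _ hM h3 hAM h2
    apply hy
    rw [← hNM, ← inv_mem_iff, L0.mem_normalizer_conj]
    exact h4.symm
  obtain ⟨m, hm⟩ := hE x
  have key : ∀ (m : ℕ) (x : G), x ∉ M → (List.replicate m g).foldl (fun a b => a * b * a⁻¹ * b⁻¹) x ∉ M := by
    intro m
    induction m with
    | zero => intro x hx; exact hx
    | succ m ihm =>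
      intro x hx
      rw [List.replicate_succ, List.foldl_cons]
      exact ihm _ (hout x hx)
  exact key m x hx (hm ▸ M.one_mem)

/-- Baer's characterization of the Fitting subgroup: in a finite group G, an element g lies in the Fitting subgroup if and only if g is a left Engel element, that is, for every x there is n with [x, g, g, …, g] = 1 (n entries g, [a, b] = aba⁻¹b⁻¹). -/
theorem result {G : Type*} [Group G] [Finite G] (g : G) :
    g ∈ Cfsg.fittingSubgroup G ↔ ∀ x : G, ∃ n : ℕ, (List.replicate n g).foldl (fun a b => a * b * a⁻¹ * b⁻¹) x = 1 := by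
  constructor
  · intro hg x
    have hFn : (Cfsg.fittingSubgroup G).Normal := inferInstance
    obtain ⟨n, hn⟩ := (Subgroup.isNilpotent_iff_lowerCentralSeries _).1 (L0.fittingSubgroup_isNilpotent G)
    refine ⟨n + 1, ?_⟩
    have key : ∀ (m k : ℕ) (y : G), y ∈ (Cfsg.fittingSubgroup G).lowerCentralSeries k →
        (List.replicate m g).foldl (fun a b => a * b * a⁻¹ * b⁻¹) y ∈ (Cfsg.fittingSubgroup G).lowerCentralSeries (k + m) := by
      intro m
      induction m with
      | zero => intro k y hy; exact hy
      | succ m ihm =>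
        intro k y hy
        rw [List.replicate_succ, List.foldl_cons]
        have h1 : y * g * y⁻¹ * g⁻¹ ∈ (Cfsg.fittingSubgroup G).lowerCentralSeries (k + 1) := by
          rw [Subgroup.lowerCentralSeries_succ]
          exact Subgroup.commutator_mem_commutator hy hg
        have h2 := ihm (k + 1) _ h1
        rwa [show k + 1 + m = k + (m + 1) by ring] at h2
    rw [List.replicate_succ, List.foldl_cons]
    have h1 : x * g * x⁻¹ * g⁻¹ ∈ (Cfsg.fittingSubgroup G).lowerCentralSeries 0 := by
      rw [Subgroup.lowerCentralSeries_zero]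
      exact mul_mem (hFn.conj_mem g hg x) (inv_mem hg)
    have h2 := key n 0 _ h1
    rw [zero_add, hn, Subgroup.mem_bot] at h2
    exact h2
  · intro h
    have h1 := engel_subnormal _ rfl g h
    have h2 : Group.IsNilpotent ↥(Subgroup.zpowers g) := by
      letI : CommGroup ↥(Subgroup.zpowers g) := { (inferInstance : Group ↥(Subgroup.zpowers g)) with mul_comm := fun a b => mul_comm' a b }
      exact CommGroup.isNilpotent
    exact L0.le_fittingSubgroup_of_isSubnormal h1 h2 (Subgroup.mem_zpowers g)

end Cfsg.Agent.S3937
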