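import Cfsg.Statements.S3949
import Mathlib

set_option autoImplicit false
open Cfsg

namespace Cfsg.Agent.S3949

/-- Let G be a finite group and α an automorphism of G of order 2 such that the elements g·α(g)⁻¹ generate G. Let j be a positive integer such that 2^j divides the order of no element inverted by α. Then the set of values of the j-th iterate of the map c ↦ c·α(c)⁻¹ is exactly the set of elements of odd order inverted by α. -/
theorem result {G : Type*} [Group G] [Finite G] (α : MulAut G) (hα : orderOf α = 2) (hG : Subgroup.closure (Set.range (fun c : G => c * (α c)⁻¹)) = ⊤)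
    (j : ℕ) (hj : ∀ g : G, α g = g⁻¹ → ¬ 2 ^ j ∣ orderOf g) :
    Set.range ((fun c : G => c * (α c)⁻¹)^[j]) = {g : G | Odd (orderOf g) ∧ α g = g⁻¹} := by
  have hj0 : j ≠ 0 := by
    rintro rfl
    exact hj 1 (by simp) (by simp)
  obtain ⟨i, rfl⟩ := Nat.exists_eq_succ_of_ne_zero hj0
  set F : G → G := fun c : G => c * (α c)⁻¹ with hF
  have hα2 : ∀ c, α (α c) = c := by
    intro c
    have h1 : α ^ 2 = 1 := by rw [← hα, pow_orderOf_eq_one]
    have h2 := congrArg (fun f : MulAut G => f c) h1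
    simpa [pow_two] using h2
  have hFinv : ∀ c, α (F c) = (F c)⁻¹ := by
    intro c
    simp only [hF, map_mul, map_inv, hα2, mul_inv_rev, inv_inv]
  have hFsq : ∀ g, α g = g⁻¹ → F g = g ^ 2 := by
    intro g hg
    simp only [hF, hg, inv_inv, pow_two]
  have hiter : ∀ i : ℕ, ∀ g, α g = g⁻¹ → F^[i] g = g ^ 2 ^ i := by
    intro i
    induction i with
    | zero => intro g _; simp
    | succ i ih =>
      intro g hg
      rw [Function.iterate_succ_apply, hFsq g hg, ih (g ^ 2) (by rw [map_pow, hg, inv_pow]), ← pow_mul, pow_succ']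
  ext g
  simp only [Set.mem_range]
  constructor
  · rintro ⟨c, rfl⟩
    rw [Function.iterate_succ_apply, hiter i (F c) (hFinv c)]
    refine ⟨?_, by rw [map_pow, hFinv, inv_pow]⟩
    have h1 := hj (F c) (hFinv c)
    obtain ⟨a, m, hm, ham⟩ := Nat.exists_eq_pow_mul_and_not_dvd (orderOf_pos (F c)).ne' 2 (by norm_num)
    have ha : a ≤ i := by
      by_contra hcon
      apply h1
      rw [ham]
      exact dvd_mul_of_dvd_left (pow_dvd_pow 2 (by omega)) _
    have hmo : Odd m := Nat.not_even_iff_odd.1 (fun h => hm h.two_dvd)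
    have h2 : orderOf (F c ^ 2 ^ i) ∣ m := by
      apply orderOf_dvd_of_pow_eq_one
      obtain ⟨b, rfl⟩ := Nat.exists_eq_add_of_le ha
      rw [← pow_mul, pow_add, mul_assoc, mul_comm (2 ^ b), ← mul_assoc, ← ham, pow_mul, pow_orderOf_eq_one, one_pow]
    exact Odd.of_dvd_nat hmo h2
  · rintro ⟨hodd, hinv⟩
    -- h with h ^ 2^(i+1) = g
    have hcop : (orderOf g).Coprime (2 ^ (i + 1)) := (Nat.coprime_two_right.2 hodd).pow_right _
    obtain ⟨k, hk⟩ : ∃ k : ℕ, (g ^ k) ^ 2 ^ (i + 1) = g := by
      obtain ⟨k, hk⟩ := exists_pow_eq_self_of_coprime hcop.symm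
      exact ⟨k, by rw [← pow_mul, mul_comm, pow_mul]; exact hk⟩
    refine ⟨g ^ k, ?_⟩
    rw [hiter (i + 1) (g ^ k) (by rw [map_pow, hinv, inv_pow]), hk]

end Cfsg.Agent.S3949
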