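import Cfsg.Statements.S3982
import Mathlib
import Cfsg.Agent.L0.Coprime

set_option autoImplicit false
open Cfsg

namespace Cfsg.Agent.S3982

open Subgroup in
theorem grow {G : Type*} [Group G] [Finite G] {p : ℕ} [Fact p.Prime] {Q R : Subgroup G} (hR : IsPGroup p ↥R) (h : Q < R) :
    Q < normalizer (Q : Set G) ⊓ R := by
  have hnil : Group.IsNilpotent ↥R := hR.isNilpotent
  have h1 : Q.subgroupOf R < ⊤ := by
    rw [lt_top_iff_ne_top]
    intro h'
    rw [Subgroup.subgroupOf_eq_top] at h'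
    exact absurd (lt_of_lt_of_le h h') (lt_irrefl _)
  have h2 := Group.normalizerCondition_of_isNilpotent (G := ↥R) _ h1
  obtain ⟨y, hy1, hy2⟩ := SetLike.exists_of_lt h2
  refine lt_of_le_of_ne (le_inf le_normalizer h.le) ?_
  intro he
  apply hy2
  rw [Subgroup.mem_subgroupOf, he]
  refine ⟨?_, y.2⟩
  refine mem_normalizer_iff.mpr fun z => ?_
  rw [mem_normalizer_iff] at hy1
  constructor
  · intro hz
    exact (hy1 ⟨z, h.le hz⟩).1 hz
  · intro hz
    have hzX : z ∈ R := by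
      have h3 := R.mul_mem (R.mul_mem (R.inv_mem y.2) (h.le hz)) y.2
      have e : (y : G)⁻¹ * ((y : G) * z * (y : G)⁻¹) * y = z := by group
      rwa [e] at h3
    exact (hy1 ⟨z, hzX⟩).2 hz


open Subgroup in
open scoped Pointwise in
theorem core {G : Type*} [Group G] [Finite G] (p : ℕ) [Fact p.Prime] (hp2 : p ≠ 2)
    (hC : ∀ g : G, g ≠ 1 → (∃ k : ℕ, orderOf g = p ^ k) → Odd (Nat.card ↥(Subgroup.centralizer ({g} : Set G))))
    (Q : Subgroup G) (hQ : IsPGroup p ↥Q) (hQ1 : Q ≠ ⊥) (t : G) (ht : orderOf t = 2) (htQ : t ∈ normalizer (Q : Set G))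
    (P : Subgroup G) (hP : IsPGroup p ↥P) (hQP : Q < P) :
    ∃ R : Subgroup G, IsPGroup p ↥R ∧ Nat.card ↥Q < Nat.card ↥R ∧ t ∈ normalizer (R : Set G) := by
  have hpp := (Fact.out : p.Prime)
  have ht2 : t * t = 1 := by
    have := pow_orderOf_eq_one t
    rwa [ht, sq] at this
  have hti : t⁻¹ = t := inv_eq_of_mul_eq_one_left ht2
  have ht1 : t ≠ 1 := by rintro rfl; rw [orderOf_one] at ht; omega
  -- t commutes with no nontrivial p-element
  have hno : ∀ x : G, (∃ k : ℕ, orderOf x = p ^ k) → t * x = x * t → x = 1 := by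
    intro x hx htx
    by_contra hx1
    have h1 := hC x hx1 hx
    have h2 : t ∈ centralizer ({x} : Set G) := by rw [mem_centralizer_singleton_iff]; exact htx
    have h3 : orderOf t ∣ Nat.card ↥(centralizer ({x} : Set G)) := by
      have := _root_.orderOf_dvd_natCard (⟨t, h2⟩ : ↥(centralizer ({x} : Set G)))
      rwa [Subgroup.orderOf_mk] at this
    rw [ht] at h3
    exact (Nat.not_even_iff_odd.2 h1) (even_iff_two_dvd.2 h3)
  have hQe : ∀ x ∈ Q, ∃ k : ℕ, orderOf x = p ^ k := by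
    intro x hx
    obtain ⟨k, hk⟩ := (IsPGroup.iff_orderOf.1 hQ) ⟨x, hx⟩
    rw [Subgroup.orderOf_mk] at hk
    exact ⟨k, hk⟩
  have htq : ∀ x ∈ Q, t * x * t⁻¹ ∈ Q := fun x hx => (mem_normalizer_iff.1 htQ x).1 hx
  -- t inverts Q
  have hinv : ∀ y ∈ Q, t * y * t⁻¹ = y⁻¹ := by
    let f : ↥Q → ↥Q := fun x => ⟨(x : G)⁻¹ * (t * x * t⁻¹), Q.mul_mem (Q.inv_mem x.2) (htq x x.2)⟩
    have hinj : Function.Injective f := by
      intro x y hxy
      have h1 : (x : G)⁻¹ * (t * x * t⁻¹) = (y : G)⁻¹ * (t * y * t⁻¹) := congrArg Subtype.val hxy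
      have h2 : t * ((y : G) * (x : G)⁻¹) = ((y : G) * (x : G)⁻¹) * t := by
        have h3 : (y : G) * (x : G)⁻¹ = t * ((y : G) * (x : G)⁻¹) * t⁻¹ := by
          calc (y : G) * (x : G)⁻¹ = (y : G) * ((x : G)⁻¹ * (t * x * t⁻¹)) * (t * x * t⁻¹)⁻¹ := by group
            _ = (y : G) * ((y : G)⁻¹ * (t * y * t⁻¹)) * (t * x * t⁻¹)⁻¹ := by rw [h1]
            _ = _ := by group
        nth_rewrite 2 [h3]; group
      have h4 := hno _ (hQe _ (Q.mul_mem y.2 (Q.inv_mem x.2))) h2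
      exact Subtype.ext (mul_inv_eq_one.1 h4).symm
    have hsurj := Finite.injective_iff_surjective.1 hinj
    intro y hy
    obtain ⟨x, hx⟩ := hsurj ⟨y, hy⟩
    have h1 : (x : G)⁻¹ * (t * x * t⁻¹) = y := congrArg Subtype.val hx
    rw [← h1]
    calc t * ((x : G)⁻¹ * (t * x * t⁻¹)) * t⁻¹ = t * (x : G)⁻¹ * t * x * (t⁻¹ * t⁻¹) := by group
      _ = t * (x : G)⁻¹ * t⁻¹ * x := by rw [hti, ht2, mul_one]
      _ = _ := by group
  set C := centralizer (Q : Set G) with hCdef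
  have hCn : ∀ n ∈ normalizer (Q : Set G), ∀ c ∈ C, n * c * n⁻¹ ∈ C := by
    intro n hn c hc
    rw [hCdef, mem_centralizer_iff]
    intro q hq
    have h1 : n⁻¹ * q * n ∈ Q := by
      have := (mem_normalizer_iff.1 (inv_mem hn) q).1 hq
      rwa [inv_inv] at this
    have h2 := mem_centralizer_iff.1 hc _ h1
    calc q * (n * c * n⁻¹) = n * ((n⁻¹ * q * n) * c) * n⁻¹ := by group
      _ = n * (c * (n⁻¹ * q * n)) * n⁻¹ := by rw [h2]
      _ = _ := by group
  have hCodd : Odd (Nat.card ↥C) := by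
    obtain ⟨⟨x, hx⟩, hx1⟩ := (Subgroup.ne_bot_iff_exists_ne_one).1 hQ1
    have h1 := hC x (fun h => hx1 (Subtype.ext h)) (hQe x hx)
    exact Odd.of_dvd_nat h1 (Subgroup.card_dvd_of_le (Subgroup.centralizer_le (Set.singleton_subset_iff.2 hx)))
  have htC : zpowers t ≤ normalizer (C : Set G) := by
    rw [zpowers_le]
    apply Subgroup.mem_normalizer_fintype
    intro c hc
    exact hCn t htQ c hc
  have hcop : (Nat.card ↥(zpowers t)).Coprime (Nat.card ↥C) := by
    rw [Nat.card_zpowers, ht]; exact Nat.coprime_two_left.2 hCodd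
  have hsolt : Group.IsSolvable ↥(zpowers t) := inferInstance
  -- p-elements of N lie in C
  have hpC : ∀ r ∈ normalizer (Q : Set G), (∃ k : ℕ, r ^ p ^ k = 1) → r ∈ C := by
    rintro r hr ⟨k, hk⟩
    -- [r, t] ∈ C
    have hrt : r * t * r⁻¹ * t⁻¹ ∈ C := by
      rw [hCdef, mem_centralizer_iff]
      intro q hq
      have h1 : ∀ q ∈ Q, (r * t * r⁻¹ * t⁻¹) * q * (r * t * r⁻¹ * t⁻¹)⁻¹ = q := by
        intro q hq
        have e1 : t⁻¹ * q * t = q⁻¹ := by
          have := hinv q hq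
          rw [hti] at this ⊢; exact this
        have h2 : r⁻¹ * q⁻¹ * r ∈ Q := by
          have := (mem_normalizer_iff.1 (inv_mem hr) q⁻¹).1 (Q.inv_mem hq)
          rwa [inv_inv] at this
        have e2 := hinv _ h2
        calc (r * t * r⁻¹ * t⁻¹) * q * (r * t * r⁻¹ * t⁻¹)⁻¹ = r * (t * (r⁻¹ * (t⁻¹ * q * t) * r) * t⁻¹) * r⁻¹ := by group
          _ = r * (t * (r⁻¹ * q⁻¹ * r) * t⁻¹) * r⁻¹ := by rw [e1]
          _ = r * (r⁻¹ * q⁻¹ * r)⁻¹ * r⁻¹ := by rw [e2]
          _ = q := by group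
      have h3 := h1 q hq
      calc q * (r * t * r⁻¹ * t⁻¹) = ((r * t * r⁻¹ * t⁻¹) * q * (r * t * r⁻¹ * t⁻¹)⁻¹) * (r * t * r⁻¹ * t⁻¹) := by rw [h3]
        _ = _ := by group
    -- r t r⁻¹ is conjugate to t by an element of C
    have hB : zpowers (r * t * r⁻¹) ≤ C ⊔ zpowers t := by
      rw [zpowers_le]
      have e : r * t * r⁻¹ = (r * t * r⁻¹ * t⁻¹) * t := by group
      rw [e]
      exact mul_mem (mem_sup_left hrt) (mem_sup_right (mem_zpowers t))
    have ho : orderOf (r * t * r⁻¹) = 2 := by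
      rw [← ht]; exact MulEquiv.orderOf_eq (MulAut.conj r) t
    obtain ⟨c, hc, hc2⟩ := L0.exists_conj_eq_of_le_sup htC hcop (Or.inl hsolt) hB (by rw [Nat.card_zpowers, Nat.card_zpowers, ho, ht])
    -- c t c⁻¹ = r t r⁻¹
    have h4 : c * t * c⁻¹ = r * t * r⁻¹ := by
      have h5 : c * t * c⁻¹ ∈ zpowers (r * t * r⁻¹) := by
        rw [← hc2, L0.mem_conj_smul]
        have e : c⁻¹ * (c * t * c⁻¹) * c = t := by group
        rw [e]; exact mem_zpowers t
      obtain ⟨j, hj⟩ := h5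
      have hj : (r * t * r⁻¹) ^ j = c * t * c⁻¹ := hj
      have h6 : (r * t * r⁻¹) ^ 2 = 1 := by rw [← ho]; exact pow_orderOf_eq_one _
      rcases Int.even_or_odd' j with ⟨i, hi | hi⟩
      · exfalso
        rw [hi, zpow_mul] at hj
        have e0 : (r * t * r⁻¹) ^ (2 : ℤ) = 1 := by exact_mod_cast h6
        rw [e0, one_zpow] at hj
        apply ht1
        have : t = c⁻¹ * (c * t * c⁻¹) * c := by group
        rw [this, ← hj]; group
      · rw [hi, zpow_add, zpow_mul, zpow_one] at hj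
        have e0 : (r * t * r⁻¹) ^ (2 : ℤ) = 1 := by exact_mod_cast h6
        rw [e0, one_zpow, one_mul] at hj
        exact hj.symm
    -- z = c⁻¹ r commutes with t
    set z := c⁻¹ * r with hz
    have hzt : t * z = z * t := by
      calc t * (c⁻¹ * r) = c⁻¹ * (c * t * c⁻¹) * r := by group
        _ = c⁻¹ * (r * t * r⁻¹) * r := by rw [h4]
        _ = (c⁻¹ * r) * t := by group
    have hcN : c ∈ normalizer (Q : Set G) := centralizer_le_normalizer _ hc
    -- p does not divide the order of z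
    have hzp : ¬ p ∣ orderOf z := by
      intro hd
      obtain ⟨m, hm⟩ := hd
      have hm0 : m ≠ 0 := by rintro rfl; rw [mul_zero] at hm; exact (orderOf_pos z).ne' hm
      have h5 : orderOf (z ^ m) = p := by
        rw [orderOf_pow, hm, Nat.gcd_eq_right (dvd_mul_left m p), Nat.mul_div_cancel _ (Nat.pos_of_ne_zero hm0)]
      have hc0 : Commute t z := hzt
      have h6 := hno (z ^ m) ⟨1, by rw [h5, pow_one]⟩ (hc0.pow_right m).eq
      rw [h6, orderOf_one] at h5
      exact hpp.one_lt.ne h5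
    -- r ≡ z mod C; r ^ (p^k) = 1 ⟹ z^(p^k) ∈ C ⟹ z ∈ C
    have hzN : z ∈ normalizer (Q : Set G) := mul_mem (inv_mem hcN) hr
    have h7 : ∀ n : ℕ, ∃ d ∈ C, r ^ n = d * z ^ n := by
      intro n
      induction n with
      | zero => exact ⟨1, one_mem _, by simp⟩
      | succ n ih =>
        obtain ⟨d, hd, hdn⟩ := ih
        refine ⟨c * (z * d * z⁻¹), mul_mem hc (hCn z hzN d hd), ?_⟩
        have e : r = c * z := by rw [hz]; group
        rw [pow_succ' r n, hdn]
        nth_rewrite 1 [e]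
        rw [pow_succ' z n]; group
    obtain ⟨d, hd, hdk⟩ := h7 (p ^ k)
    rw [hk] at hdk
    have h8 : z ^ p ^ k ∈ C := by
      have : z ^ p ^ k = d⁻¹ := (inv_eq_of_mul_eq_one_right hdk.symm).symm
      rw [this]; exact inv_mem hd
    have h9 : z ∈ C := by
      have hcop2 : (p ^ k).Coprime (orderOf z) := ((Nat.Prime.coprime_iff_not_dvd hpp).2 hzp).pow_left k
      obtain ⟨u, v, huv⟩ : IsCoprime ((p ^ k : ℕ) : ℤ) ((orderOf z : ℕ) : ℤ) := Nat.isCoprime_iff_coprime.2 hcop2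
      have : z = (z ^ p ^ k) ^ u := by
        rw [← zpow_natCast z (p ^ k), ← zpow_mul]
        have e1 : z ^ ((orderOf z : ℤ) * v) = 1 := by rw [zpow_mul, zpow_natCast, pow_orderOf_eq_one, one_zpow]
        calc z = z ^ (u * ((p ^ k : ℕ) : ℤ) + v * (orderOf z : ℤ)) := by rw [huv, zpow_one]
          _ = z ^ (((p ^ k : ℕ) : ℤ) * u) * z ^ ((orderOf z : ℤ) * v) := by rw [← zpow_add]; congr 1; ring
          _ = _ := by rw [e1, mul_one]
      rw [this]; exact zpow_mem h8 u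
    have h10 : r = c * z := by rw [hz]; group
    rw [h10]; exact mul_mem hc h9
  -- an invariant Sylow subgroup of C
  obtain ⟨R, hR, htR⟩ := L0.exists_invariant_sylow (p := p) htC hcop (Or.inl hsolt)
  refine ⟨R, hR.isPGroup, ?_, htR (mem_zpowers t)⟩
  have h1 := grow hP hQP
  set M := normalizer (Q : Set G) ⊓ P with hM
  have hMC : M ≤ C := by
    intro m hm
    apply hpC m hm.1
    obtain ⟨k, hk⟩ := hP ⟨m, hm.2⟩
    exact ⟨k, congrArg Subtype.val hk⟩
  have hMp : IsPGroup p ↥M := hP.to_le inf_le_right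
  obtain ⟨j, hj⟩ := hMp.exists_card_eq
  have h2 : Nat.card ↥M ∣ Nat.card ↥R := by
    rw [(L0.isSylowIn_iff_card.1 hR).2, hj]
    apply pow_dvd_pow
    rw [← hpp.pow_dvd_iff_le_factorization Nat.card_pos.ne', ← hj]
    exact Subgroup.card_dvd_of_le hMC
  refine lt_of_lt_of_le ?_ (Nat.le_of_dvd Nat.card_pos h2)
  by_contra hcon
  exact h1.ne (Subgroup.eq_of_le_of_card_ge h1.le (not_lt.1 hcon))

/-- Let p be an odd prime and G a finite group of even order divisible by p in which the centralizer of every non-identity p-element has odd order. If some nontrivial p-subgroup of G has a normalizer of even order, then the normalizer of every Sylow p-subgroup of G has even order. -/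
theorem result {G : Type*} [Group G] [Finite G] (p : ℕ) [Fact p.Prime] (hp2 : p ≠ 2) (hpG : p ∣ Nat.card G) (h2G : 2 ∣ Nat.card G) (hC : ∀ g : G, g ≠ 1 → (∃ k : ℕ, orderOf g = p ^ k) → Odd (Nat.card ↥(Subgroup.centralizer ({g} : Set G)))) (Q : Subgroup G) (hQ : IsPGroup p ↥Q) (hQ1 : Q ≠ ⊥) (hev : Even (Nat.card ↥(Subgroup.normalizer (Q : Set G)))) (P : Sylow p G) : Even (Nat.card ↥(Subgroup.normalizer ((P : Subgroup G) : Set G))) := by
  -- maximal Q
  obtain ⟨Q0, ⟨hQ0, hQ01, t, ht, htQ0⟩, hmax⟩ := Set.exists_max_image {R : Subgroup G | IsPGroup p ↥R ∧ R ≠ ⊥ ∧ ∃ t : G, orderOf t = 2 ∧ t ∈ Subgroup.normalizer (R : Set G)}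
    (fun R => Nat.card ↥R) (Set.toFinite _) (by
      haveI : Fact (Nat.Prime 2) := ⟨Nat.prime_two⟩
      obtain ⟨⟨t, ht⟩, ht2⟩ := exists_prime_orderOf_dvd_card' 2 (even_iff_two_dvd.1 hev)
      rw [Subgroup.orderOf_mk] at ht2
      exact ⟨Q, hQ, hQ1, t, ht2, ht⟩)
  obtain ⟨P1, hP1⟩ := hQ0.exists_le_sylow
  have heq : Q0 = (P1 : Subgroup G) := by
    by_contra hne
    obtain ⟨R, hR, hcard, htR⟩ := core p hp2 hC Q0 hQ0 hQ01 t ht htQ0 (P1 : Subgroup G) P1.isPGroup' (lt_of_le_of_ne hP1 hne)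
    have hR1 : R ≠ ⊥ := by
      rintro rfl
      rw [Subgroup.card_bot] at hcard
      have := Nat.card_pos (α := ↥Q0)
      omega
    have := hmax R ⟨hR, hR1, t, ht, htR⟩
    omega
  obtain ⟨g, hg⟩ := MulAction.exists_smul_eq G P1 P
  have h1 : (P : Subgroup G) = (P1 : Subgroup G).map (MulAut.conj g).toMonoidHom := by rw [← hg]; rfl
  have h2 : (MulAut.conj g) t ∈ Subgroup.normalizer ((P : Subgroup G) : Set G) := by
    rw [h1]
    apply Subgroup.mem_normalizer_fintype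
    rintro _ ⟨x, hx, rfl⟩
    rw [heq] at htQ0
    refine ⟨t * x * t⁻¹, (Subgroup.mem_normalizer_iff.1 htQ0 x).1 hx, ?_⟩
    show g * (t * x * t⁻¹) * g⁻¹ = (g * t * g⁻¹) * (g * x * g⁻¹) * (g * t * g⁻¹)⁻¹
    group
  have h3 := _root_.orderOf_dvd_natCard (⟨_, h2⟩ : ↥(Subgroup.normalizer ((P : Subgroup G) : Set G)))
  rw [Subgroup.orderOf_mk, MulEquiv.orderOf_eq, ht] at h3
  exact even_iff_two_dvd.2 h3

end Cfsg.Agent.S3982
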