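import Cfsg.Statements.S3983
import Mathlib
import Cfsg.Agent.L0.Coprime

set_option autoImplicit false
open scoped Pointwise
open Cfsg

namespace Cfsg.Agent.S3983

/-- Let P be a Sylow p-subgroup of the finite group G that meets each conjugate g P g⁻¹ with g outside N_G(P) trivially, and let U be a subgroup of G of order divisible by p. Then a Sylow p-subgroup Q of U has the same property inside U: Q meets each conjugate u Q u⁻¹ with u ∈ U outside N_U(Q) trivially. -/
theorem result {G : Type*} [Group G] [Finite G] (p : ℕ) [Fact p.Prime] (P : Sylow p G) (hTI : ∀ g : G, g ∉ Subgroup.normalizer ((P : Subgroup G) : Set G) → (P : Subgroup G) ⊓ (MulAut.conj g • (P : Subgroup G)) = ⊥) (U : Subgroup G) (hU : p ∣ Nat.card ↥U) (Q : Sylow p ↥U) : ∀ u : ↥U, u ∉ Subgroup.normalizer ((Q : Subgroup ↥U) : Set ↥U) → (Q : Subgroup ↥U) ⊓ (MulAut.conj u • (Q : Subgroup ↥U)) = ⊥ := by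
  -- Q lies in a Sylow subgroup P1 of G, a conjugate of P
  intro u hu
  by_contra hne
  apply hu
  obtain ⟨P1, hP1⟩ : ∃ P1 : Sylow p G, (Q : Subgroup ↥U).map U.subtype ≤ P1 := (Q.isPGroup'.map U.subtype).exists_le_sylow
  -- TI for P1
  have hTI1 : ∀ g : G, g ∉ Subgroup.normalizer ((P1 : Subgroup G) : Set G) → (P1 : Subgroup G) ⊓ (MulAut.conj g • (P1 : Subgroup G)) = ⊥ := by
    obtain ⟨a, ha⟩ := MulAction.exists_smul_eq G P P1
    have ha' : (P1 : Subgroup G) = MulAut.conj a • (P : Subgroup G) := by rw [← ha]; rfl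
    intro g hg
    have h1 : a⁻¹ * g * a ∉ Subgroup.normalizer ((P : Subgroup G) : Set G) := by
      intro h
      apply hg
      rw [L0.mem_normalizer_conj] at h ⊢
      rw [ha', ← mul_smul, ← map_mul]
      have e : g * a = a * (a⁻¹ * g * a) := by group
      rw [e, map_mul, mul_smul, h]
    have h2 := hTI _ h1
    have h3 : (P1 : Subgroup G) ⊓ (MulAut.conj g • (P1 : Subgroup G)) = MulAut.conj a • ((P : Subgroup G) ⊓ (MulAut.conj (a⁻¹ * g * a) • (P : Subgroup G))) := by
      rw [Subgroup.smul_inf, ← mul_smul, ← map_mul, ha', ← mul_smul, ← map_mul]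
      congr 3
      group
    rw [h3, h2, Subgroup.smul_bot]
  -- a nontrivial element in the intersection
  obtain ⟨⟨x, hx⟩, hx1⟩ := (Subgroup.ne_bot_iff_exists_ne_one).1 hne
  rw [Subgroup.mem_inf, L0.mem_conj_smul] at hx
  have hxP : (x : G) ∈ (P1 : Subgroup G) := hP1 ⟨x, hx.1, rfl⟩
  have hxP' : (x : G) ∈ MulAut.conj (u : G) • (P1 : Subgroup G) := by
    rw [L0.mem_conj_smul]
    exact hP1 ⟨_, hx.2, rfl⟩
  have huN : (u : G) ∈ Subgroup.normalizer ((P1 : Subgroup G) : Set G) := by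
    by_contra h
    have h1 := hTI1 _ h
    have h2 : (x : G) ∈ (P1 : Subgroup G) ⊓ (MulAut.conj (u : G) • (P1 : Subgroup G)) := ⟨hxP, hxP'⟩
    rw [h1, Subgroup.mem_bot] at h2
    exact hx1 (Subtype.ext (Subtype.ext h2))
  -- Q = P1 ∩ U
  have hQ : (Q : Subgroup ↥U) = (P1 : Subgroup G).subgroupOf U := by
    symm
    apply Q.is_maximal'
    · exact P1.isPGroup'.comap_of_injective U.subtype U.subtype_injective
    · intro y hy
      exact hP1 ⟨y, hy, rfl⟩
  rw [hQ]
  refine Subgroup.mem_normalizer_iff.mpr fun z => ?_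
  rw [Subgroup.mem_subgroupOf, Subgroup.mem_subgroupOf]
  exact Subgroup.mem_normalizer_iff.1 huN z

end Cfsg.Agent.S3983
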