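import Cfsg.Statements.S3984
import Mathlib
import Cfsg.Agent.L0.Coprime

set_option autoImplicit false
open scoped Pointwise
open Cfsg

namespace Cfsg.Agent.S3984

/-- Let P be a Sylow p-subgroup of the finite group G that meets each conjugate g P g⁻¹ with g outside N_G(P) trivially, and let N be a normal subgroup of G of order prime to p. Then every Sylow p-subgroup Q of G ⧸ N meets each conjugate x Q x⁻¹ with x outside its normalizer trivially. -/
theorem result {G : Type*} [Group G] [Finite G] (p : ℕ) [Fact p.Prime] (P : Sylow p G) (hTI : ∀ g : G, g ∉ Subgroup.normalizer ((P : Subgroup G) : Set G) → (P : Subgroup G) ⊓ (MulAut.conj g • (P : Subgroup G)) = ⊥) (N : Subgroup G) [N.Normal] (hN : (Nat.card ↥N).Coprime p) (Q : Sylow p (G ⧸ N)) : ∀ x : G ⧸ N, x ∉ Subgroup.normalizer ((Q : Subgroup (G ⧸ N)) : Set (G ⧸ N)) → (Q : Subgroup (G ⧸ N)) ⊓ (MulAut.conj x • (Q : Subgroup (G ⧸ N))) = ⊥ := by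
  have hpp := (Fact.out : p.Prime)
  have hpN : ¬ p ∣ Nat.card ↥N := fun h => by
    have := Nat.dvd_gcd h dvd_rfl
    rw [hN] at this
    exact hpp.one_lt.ne' (Nat.dvd_one.1 this)
  -- TI for all Sylow subgroups, in the form of pairs
  have hTI2 : ∀ P1 P2 : Sylow p G, (P1 : Subgroup G) ⊓ (P2 : Subgroup G) ≠ ⊥ → P1 = P2 := by
    intro P1 P2 hne
    obtain ⟨a, ha⟩ := MulAction.exists_smul_eq G P P1
    obtain ⟨b, hb⟩ := MulAction.exists_smul_eq G P P2
    have ha' : (P1 : Subgroup G) = MulAut.conj a • (P : Subgroup G) := by rw [← ha]; rfl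
    have hb' : (P2 : Subgroup G) = MulAut.conj b • (P : Subgroup G) := by rw [← hb]; rfl
    by_contra hPP
    have h1 : a⁻¹ * b ∉ Subgroup.normalizer ((P : Subgroup G) : Set G) := by
      intro h
      rw [L0.mem_normalizer_conj] at h
      apply hPP
      apply Sylow.ext
      rw [ha', hb']
      have e : b = a * (a⁻¹ * b) := by group
      rw [e, map_mul, mul_smul, h]
    have h2 := hTI _ h1
    apply hne
    have h3 : (P1 : Subgroup G) ⊓ (P2 : Subgroup G) = MulAut.conj a • ((P : Subgroup G) ⊓ (MulAut.conj (a⁻¹ * b) • (P : Subgroup G))) := by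
      rw [Subgroup.smul_inf, ← mul_smul, ← map_mul, ha', hb']
      congr 3
      group
    rw [h3, h2, Subgroup.smul_bot]
  intro x hx
  by_contra hne
  apply hx
  -- Q is the image of a Sylow subgroup
  have hsurj := QuotientGroup.mk'_surjective N
  obtain ⟨P0, hP0⟩ : ∃ P0 : Sylow p G, (Q : Subgroup (G ⧸ N)) = (P0 : Subgroup G).map (QuotientGroup.mk' N) := by
    obtain ⟨c, hc⟩ := MulAction.exists_smul_eq (G ⧸ N) (P.mapSurjective hsurj) Q
    obtain ⟨g, rfl⟩ := hsurj c
    refine ⟨g • P, ?_⟩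
    rw [← hc]
    show MulAut.conj (QuotientGroup.mk' N g) • (P : Subgroup G).map (QuotientGroup.mk' N) = (MulAut.conj g • (P : Subgroup G)).map (QuotientGroup.mk' N)
    ext y
    rw [L0.mem_conj_smul]
    constructor
    · rintro ⟨z, hz, hzy⟩
      refine ⟨g * z * g⁻¹, ?_, ?_⟩
      · rw [SetLike.mem_coe, L0.mem_conj_smul]
        have e : g⁻¹ * (g * z * g⁻¹) * g = z := by group
        rw [e]; exact hz
      · rw [map_mul, map_mul, hzy, map_inv]; group
    · rintro ⟨z, hz, rfl⟩
      rw [SetLike.mem_coe, L0.mem_conj_smul] at hz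
      exact ⟨_, hz, by rw [map_mul, map_mul, map_inv]⟩
  obtain ⟨g, rfl⟩ := hsurj x
  -- an element of order p in the intersection
  set D := (Q : Subgroup (G ⧸ N)) ⊓ (MulAut.conj (QuotientGroup.mk' N g) • (Q : Subgroup (G ⧸ N))) with hD
  have hDp : IsPGroup p ↥D := Q.isPGroup'.to_le inf_le_left
  -- preimage in G, take a Sylow p-subgroup D1 of the preimage
  have D1 : Sylow p ↥(D.comap (QuotientGroup.mk' N)) := default
  have hpD : p ∣ Nat.card ↥(D.comap (QuotientGroup.mk' N)) := by
    have h1 : p ∣ Nat.card ↥D := by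
      obtain ⟨k, hk⟩ := hDp.exists_card_eq
      rw [hk]
      refine dvd_pow_self p ?_
      rintro rfl
      rw [pow_zero, Subgroup.card_eq_one] at hk
      exact hne hk
    have h2 : (D.comap (QuotientGroup.mk' N)).map (QuotientGroup.mk' N) = D := Subgroup.map_comap_eq_self_of_surjective hsurj D
    have h3 := Subgroup.card_map_dvd (D.comap (QuotientGroup.mk' N)) (QuotientGroup.mk' N)
    rw [h2] at h3
    exact h1.trans h3
  obtain ⟨⟨d, hd⟩, hdp⟩ := exists_prime_orderOf_dvd_card' p hpD
  rw [Subgroup.orderOf_mk] at hdp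
  have hzp : IsPGroup p ↥(Subgroup.zpowers d) := IsPGroup.of_card (n := 1) (by rw [Nat.card_zpowers, hdp, pow_one])
  -- every Sylow subgroup R of G and p-element of R N lies in a Sylow R' with R' N = R N
  have hlift : ∀ R : Sylow p G, (QuotientGroup.mk' N d) ∈ (R : Subgroup G).map (QuotientGroup.mk' N) →
      ∃ R' : Sylow p G, d ∈ (R' : Subgroup G) ∧ (R' : Subgroup G).map (QuotientGroup.mk' N) = (R : Subgroup G).map (QuotientGroup.mk' N) := by
    intro R hR
    set W := ((R : Subgroup G).map (QuotientGroup.mk' N)).comap (QuotientGroup.mk' N) with hW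
    have hRW : (R : Subgroup G) ≤ W := Subgroup.le_comap_map _ _
    have hdW : Subgroup.zpowers d ≤ W := by rw [Subgroup.zpowers_le]; exact hR
    have h1 : L0.IsSylowIn p (R : Subgroup G) W := by
      rw [L0.isSylowIn_iff_card]
      refine ⟨hRW, ?_⟩
      rw [R.card_eq_multiplicity]
      congr 1
      apply le_antisymm
      · have h2 : p ^ (Nat.card G).factorization p ∣ Nat.card ↥W := by
          rw [← R.card_eq_multiplicity]; exact Subgroup.card_dvd_of_le hRW
        exact (hpp.pow_dvd_iff_le_factorization Nat.card_pos.ne').1 h2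
      · exact (Nat.factorization_le_iff_dvd Nat.card_pos.ne' Nat.card_pos.ne').2 (Subgroup.card_subgroup_dvd_card _) p
    have h2 : IsPGroup p ↥((Subgroup.zpowers d).subgroupOf W) := hzp.of_equiv (Subgroup.subgroupOfEquivOfLe hdW).symm
    obtain ⟨S, hS⟩ := h2.exists_le_sylow
    have h3 : L0.IsSylowIn p ((S : Subgroup ↥W).map W.subtype) W := ⟨S, rfl⟩
    obtain ⟨w, hw, hw2⟩ := h1.exists_conj h3
    refine ⟨w • R, ?_, ?_⟩
    · show d ∈ MulAut.conj w • (R : Subgroup G)
      rw [hw2]
      exact ⟨⟨d, hR⟩, hS (Subgroup.mem_subgroupOf.2 (Subgroup.mem_zpowers d)), rfl⟩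
    · show (MulAut.conj w • (R : Subgroup G)).map (QuotientGroup.mk' N) = _
      have h4 : (MulAut.conj w • (R : Subgroup G)) ≤ W := by
        rw [hw2]; exact Subgroup.map_subtype_le _
      apply Subgroup.eq_of_le_of_card_ge
      · rw [Subgroup.map_le_iff_le_comap]; exact h4
      · have hinj : ∀ R2 : Sylow p G, Nat.card ↥((R2 : Subgroup G).map (QuotientGroup.mk' N)) = Nat.card ↥(R2 : Subgroup G) := by
          intro R2
          have h5 : (((QuotientGroup.mk' N).comp (R2 : Subgroup G).subtype).ker) = ⊥ := by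
            rw [eq_bot_iff]
            rintro ⟨z, hz⟩ hz2
            rw [MonoidHom.mem_ker] at hz2
            have hzN : z ∈ N := (QuotientGroup.eq_one_iff z).1 hz2
            obtain ⟨k, hk⟩ := (IsPGroup.iff_orderOf.1 R2.isPGroup') ⟨z, hz⟩
            rw [Subgroup.orderOf_mk] at hk
            have h6 : orderOf z ∣ Nat.card ↥N := by
              have := _root_.orderOf_dvd_natCard (⟨z, hzN⟩ : ↥N)
              rwa [Subgroup.orderOf_mk] at this
            have h7 : orderOf z = 1 := by
              rw [hk] at h6 ⊢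
              rcases Nat.eq_zero_or_pos k with rfl | hk0
              · rw [pow_zero]
              · exact absurd ((dvd_pow_self p hk0.ne').trans h6) hpN
            rw [Subgroup.mem_bot]
            exact Subtype.ext (orderOf_eq_one_iff.1 h7)
          have h6 : ((QuotientGroup.mk' N).comp (R2 : Subgroup G).subtype).range = (R2 : Subgroup G).map (QuotientGroup.mk' N) := by
            rw [MonoidHom.range_comp, Subgroup.range_subtype]
          rw [← h6, ← Subgroup.index_ker, h5, Subgroup.index_bot]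
        have h7 := hinj (w • R)
        have h8 : Nat.card ↥((MulAut.conj w • (R : Subgroup G)).map (QuotientGroup.mk' N)) = Nat.card ↥(MulAut.conj w • (R : Subgroup G)) := h7
        rw [h8, hinj R, L0.card_conj_smul]
  have hd' : QuotientGroup.mk' N d ∈ D := hd
  have hdQ : QuotientGroup.mk' N d ∈ (P0 : Subgroup G).map (QuotientGroup.mk' N) := by rw [← hP0]; exact hd'.1
  have hdQ2 : QuotientGroup.mk' N d ∈ ((g • P0 : Sylow p G) : Subgroup G).map (QuotientGroup.mk' N) := by
    have h1 := hd'.2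
    rw [hP0] at h1
    have h1 : QuotientGroup.mk' N d ∈ MulAut.conj (QuotientGroup.mk' N g) • (P0 : Subgroup G).map (QuotientGroup.mk' N) := h1
    rw [L0.mem_conj_smul] at h1
    obtain ⟨z, hz, hzy⟩ := h1
    refine ⟨g * z * g⁻¹, ?_, ?_⟩
    · show g * z * g⁻¹ ∈ MulAut.conj g • (P0 : Subgroup G)
      rw [L0.mem_conj_smul]
      have e : g⁻¹ * (g * z * g⁻¹) * g = z := by group
      rw [e]; exact hz
    · rw [map_mul, map_mul, hzy, map_inv]; group
  obtain ⟨R1, hR1, hR1'⟩ := hlift P0 hdQ
  obtain ⟨R2, hR2, hR2'⟩ := hlift (g • P0) hdQ2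
  have h12 : R1 = R2 := by
    apply hTI2
    intro h
    have h1 : d ∈ (R1 : Subgroup G) ⊓ (R2 : Subgroup G) := ⟨hR1, hR2⟩
    rw [h, Subgroup.mem_bot] at h1
    rw [h1, orderOf_one] at hdp
    exact hpp.one_lt.ne hdp
  have hfin : (P0 : Subgroup G).map (QuotientGroup.mk' N) = ((g • P0 : Sylow p G) : Subgroup G).map (QuotientGroup.mk' N) := by
    rw [← hR1', ← hR2', h12]
  rw [L0.mem_normalizer_conj, hP0]
  nth_rewrite 2 [hfin]
  ext y
  rw [L0.mem_conj_smul]
  constructor
  · rintro ⟨z, hz, hzy⟩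
    refine ⟨g * z * g⁻¹, ?_, ?_⟩
    · show g * z * g⁻¹ ∈ MulAut.conj g • (P0 : Subgroup G)
      rw [L0.mem_conj_smul]
      have e : g⁻¹ * (g * z * g⁻¹) * g = z := by group
      rw [e]; exact hz
    · rw [map_mul, map_mul, hzy, map_inv]; group
  · rintro ⟨z, hz, rfl⟩
    have hz : z ∈ MulAut.conj g • (P0 : Subgroup G) := hz
    rw [L0.mem_conj_smul] at hz
    exact ⟨_, hz, by rw [map_mul, map_mul, map_inv]⟩

end Cfsg.Agent.S3984
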