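import Cfsg.Statements.S3985
import Mathlib
import Cfsg.Agent.L0.Coprime

set_option autoImplicit false
open scoped Pointwise
open Cfsg

namespace Cfsg.Agent.S3985

open Subgroup in
open scoped commutatorElement in
/-- a `p'`-element normalizing a cyclic `p`-group and fixing a nontrivial element centralizes it -/
theorem cyc_cent {G : Type*} [Group G] [Finite G] {p : ℕ} [hp : Fact p.Prime] (P : Subgroup G) (hP : IsPGroup p ↥P) (hcyc : IsCyclic ↥P)
    (c : G) (hc : c ∈ normalizer (P : Set G)) (hcp : (orderOf c).Coprime p) (x : G) (hx : x ∈ P) (hx1 : x ≠ 1) (hcx : c * x = x * c) :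
    c ∈ centralizer (P : Set G) := by
  set A := zpowers c with hA
  have hAP : A ≤ normalizer (P : Set G) := by rw [hA, zpowers_le]; exact hc
  have hcop : (Nat.card ↥A).Coprime (Nat.card ↥P) := by
    obtain ⟨k, hk⟩ := hP.exists_card_eq
    rw [hk, hA, Nat.card_zpowers]; exact hcp.pow_right k
  haveI : Group.IsNilpotent ↥P := hP.isNilpotent
  have hPs : Group.IsSolvable ↥P := inferInstance
  -- P = [P,A] × C_P(A)
  have h1 := L0.commutator_sup_centralizer hAP hcop (Or.inr hPs)
  have h2 := L0.commutator_commutator_eq hAP hcop (Or.inr hPs)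
  -- subgroups of a cyclic p-group are totally ordered
  have hle : ∀ B C : Subgroup G, B ≤ P → C ≤ P → Nat.card ↥B ∣ Nat.card ↥C → B ≤ C := by
    intro B C hB hC h
    obtain ⟨g, hg⟩ := hcyc.exists_generator
    intro b hb
    have hcycC : IsCyclic ↥C := Subgroup.isCyclic_of_le hC
    -- use the count of solutions
    have h3 : ∀ z : G, z ∈ P → orderOf z ∣ Nat.card ↥C → z ∈ C := by
      intro z hz hzo
      classical
      haveI : Fintype ↥P := Fintype.ofFinite _
      have h4 := IsCyclic.card_pow_eq_one_le (α := ↥P) (n := Nat.card ↥C) Nat.card_pos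
      by_contra hzC
      have h5 : (insert (⟨z, hz⟩ : ↥P) (Finset.univ.filter (fun a : ↥P => (a : G) ∈ C))).card ≤ Nat.card ↥C := by
        refine le_trans (Finset.card_le_card ?_) h4
        intro a ha
        rw [Finset.mem_insert] at ha
        rw [Finset.mem_filter]
        refine ⟨Finset.mem_univ _, ?_⟩
        rcases ha with rfl | ha
        · apply Subtype.ext
          show z ^ Nat.card ↥C = 1
          exact orderOf_dvd_iff_pow_eq_one.1 hzo
        · have h6 := (Finset.mem_filter.1 ha).2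
          have h7 : (⟨(a : G), h6⟩ : ↥C) ^ Nat.card ↥C = 1 := pow_card_eq_one'
          apply Subtype.ext
          exact congrArg (fun w : ↥C => (w : G)) h7
      rw [Finset.card_insert_of_notMem (by simp [hzC])] at h5
      have h6 : (Finset.univ.filter (fun a : ↥P => (a : G) ∈ C)).card = Nat.card ↥C := by
        rw [← Fintype.card_subtype, ← Nat.card_eq_fintype_card]
        apply Nat.card_congr
        exact ⟨fun a => ⟨a.1.1, a.2⟩, fun c => ⟨⟨c.1, hC c.2⟩, c.2⟩, fun _ => rfl, fun _ => rfl⟩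
      omega
    apply h3 b (hB hb)
    have h4 : orderOf b ∣ Nat.card ↥B := by
      have := _root_.orderOf_dvd_natCard (⟨b, hb⟩ : ↥B)
      rwa [Subgroup.orderOf_mk] at this
    exact h4.trans h
  have htot : ∀ B C : Subgroup G, B ≤ P → C ≤ P → B ≤ C ∨ C ≤ B := by
    intro B C hB hC
    obtain ⟨i, hi⟩ := (hP.to_le hB).exists_card_eq
    obtain ⟨j, hj⟩ := (hP.to_le hC).exists_card_eq
    rcases le_total i j with h | h
    · left; exact hle B C hB hC (by rw [hi, hj]; exact pow_dvd_pow p h)
    · right; exact hle C B hC hB (by rw [hi, hj]; exact pow_dvd_pow p h)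
  have hcomle : ⁅P, A⁆ ≤ P := L0.commutator_le_of_normalizes hAP
  rcases htot ⁅P, A⁆ (P ⊓ centralizer (A : Set G)) hcomle inf_le_left with h | h
  · -- P = C_P(A)
    rw [sup_eq_right.2 h] at h1
    have h3 : P ≤ centralizer (A : Set G) := by rw [← h1]; exact inf_le_right
    rw [le_centralizer_iff, hA, zpowers_le] at h3
    exact h3
  · -- P = [P, A], C_P(A) ≤ [P,A] ; P abelian so [P,A] ∩ C = 1
    exfalso
    rw [sup_eq_left.2 h] at h1
    haveI hPc : IsMulCommutative ↥P := hcyc.isMulCommutative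
    -- the map u ↦ c u c⁻¹ u⁻¹ is a hom P → P, surjective as [P,A] = P, so injective, but x is in the kernel
    have hPcomm : ∀ a ∈ P, ∀ b ∈ P, a * b = b * a := fun a ha b hb => congrArg Subtype.val (mul_comm' (⟨a, ha⟩ : ↥P) ⟨b, hb⟩)
    have hcP : ∀ a ∈ P, c * a * c⁻¹ ∈ P := fun a ha => (mem_normalizer_iff.1 hc a).1 ha
    let f : ↥P →* ↥P :=
      { toFun := fun a => ⟨c * a * c⁻¹ * (a : G)⁻¹, P.mul_mem (hcP a a.2) (P.inv_mem a.2)⟩
        map_one' := Subtype.ext (by simp)
        map_mul' := fun a b => Subtype.ext (by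
          show c * ((a : G) * b) * c⁻¹ * ((a : G) * b)⁻¹ = (c * a * c⁻¹ * (a : G)⁻¹) * (c * b * c⁻¹ * (b : G)⁻¹)
          have h3 := hPcomm (c * b * c⁻¹ * (b : G)⁻¹) (P.mul_mem (hcP b b.2) (P.inv_mem b.2)) (a : G)⁻¹ (P.inv_mem a.2)
          calc c * ((a : G) * b) * c⁻¹ * ((a : G) * b)⁻¹ = (c * a * c⁻¹) * ((c * b * c⁻¹ * (b : G)⁻¹) * (a : G)⁻¹) := by group
            _ = (c * a * c⁻¹) * ((a : G)⁻¹ * (c * b * c⁻¹ * (b : G)⁻¹)) := by rw [h3]
            _ = _ := by group) }
    have hrange : P ≤ f.range.map P.subtype := by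
      nth_rewrite 1 [← h1]
      rw [commutator_comm, Subgroup.commutator_le]
      intro a ha u hu
      obtain ⟨n, rfl⟩ := (mem_powers_iff_mem_zpowers).2 ha
      clear ha
      induction n with
      | zero => simp
      | succ n ih =>
        have hu' : c ^ n * u * (c ^ n)⁻¹ ∈ P := by
          have : c ^ n ∈ normalizer (P : Set G) := pow_mem hc n
          exact (mem_normalizer_iff.1 this u).1 hu
        have e : ⁅(fun x => c ^ x) (n + 1), u⁆ = (c * (c ^ n * u * (c ^ n)⁻¹) * c⁻¹ * (c ^ n * u * (c ^ n)⁻¹)⁻¹) * ⁅(fun x => c ^ x) n, u⁆ := by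
          rw [commutatorElement_def, commutatorElement_def]
          show c ^ (n + 1) * u * (c ^ (n + 1))⁻¹ * u⁻¹ = _ * (c ^ n * u * (c ^ n)⁻¹ * u⁻¹)
          rw [pow_succ']; group
        rw [e]
        exact mul_mem ⟨f ⟨_, hu'⟩, ⟨⟨_, hu'⟩, rfl⟩, rfl⟩ ih
    have hsurj : Function.Surjective f := by
      intro a
      obtain ⟨_, ⟨b, rfl⟩, hb⟩ := hrange a.2
      exact ⟨b, Subtype.ext hb⟩
    have hinj : Function.Injective f := Finite.injective_iff_surjective.2 hsurj
    apply hx1
    have h3 : f ⟨x, hx⟩ = f 1 := by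
      rw [map_one]
      apply Subtype.ext
      show c * x * c⁻¹ * x⁻¹ = 1
      rw [hcx]; group
    exact congrArg Subtype.val (hinj h3)

/-- Let P be a cyclic Sylow p-subgroup of the finite group G. Then P meets each conjugate g P g⁻¹ with g outside N_G(P) trivially if and only if P is weakly self-centralizing: C_G(x) = C_G(P) for every non-identity x ∈ P. -/
theorem result {G : Type*} [Group G] [Finite G] (p : ℕ) [Fact p.Prime] (P : Sylow p G) (hcyc : IsCyclic ↥(P : Subgroup G)) : (∀ g : G, g ∉ Subgroup.normalizer ((P : Subgroup G) : Set G) → (P : Subgroup G) ⊓ (MulAut.conj g • (P : Subgroup G)) = ⊥) ↔ ∀ x : G, x ∈ (P : Subgroup G) → x ≠ 1 → Subgroup.centralizer ({x} : Set G) = Subgroup.centralizer ((P : Subgroup G) : Set G) := by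
  have hpp := (Fact.out : p.Prime)
  have hPc : ∀ a ∈ (P : Subgroup G), ∀ b ∈ (P : Subgroup G), a * b = b * a := by
    haveI : IsMulCommutative ↥(P : Subgroup G) := hcyc.isMulCommutative
    exact fun a ha b hb => congrArg Subtype.val (mul_comm' (⟨a, ha⟩ : ↥(P : Subgroup G)) ⟨b, hb⟩)
  have hPC : (P : Subgroup G) ≤ Subgroup.centralizer ((P : Subgroup G) : Set G) := by
    intro a ha
    rw [Subgroup.mem_centralizer_iff]
    intro b hb
    exact hPc b hb a ha
  constructor
  · intro hTI x hx hx1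
    apply le_antisymm
    · intro c hc
      rw [Subgroup.mem_centralizer_singleton_iff] at hc
      have hcN : c ∈ Subgroup.normalizer ((P : Subgroup G) : Set G) := by
        by_contra h
        have h1 := hTI c h
        have h2 : x ∈ (P : Subgroup G) ⊓ (MulAut.conj c • (P : Subgroup G)) := by
          refine Subgroup.mem_inf.2 ⟨hx, ?_⟩
          rw [L0.mem_conj_smul]
          have e : c⁻¹ * x * c = x := by
            rw [mul_assoc, ← hc]; group
          rw [e]; exact hx
        rw [h1, Subgroup.mem_bot] at h2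
        exact hx1 h2
      -- decompose c = (p-part)(p'-part)
      obtain ⟨k, m, hm, hcm⟩ := Nat.exists_eq_pow_mul_and_not_dvd (n := orderOf c) (orderOf_pos c).ne' p hpp.one_lt.ne'
      have hcop : (p ^ k).Coprime m := ((Nat.Prime.coprime_iff_not_dvd hpp).2 hm).pow_left k
      have hm0 : 0 < m := Nat.pos_of_ne_zero (by rintro rfl; exact hm (dvd_zero p))
      obtain ⟨u, v, huv⟩ : IsCoprime ((p ^ k : ℕ) : ℤ) (m : ℤ) := Nat.isCoprime_iff_coprime.2 hcop
      have h2 : c = (c ^ m) ^ v * (c ^ (p ^ k)) ^ u := by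
        rw [← zpow_natCast c m, ← zpow_natCast c (p ^ k), ← zpow_mul, ← zpow_mul, ← zpow_add]
        have : (m : ℤ) * v + ((p ^ k : ℕ) : ℤ) * u = 1 := by linear_combination huv
        rw [this, zpow_one]
      rw [h2]
      apply mul_mem
      · apply zpow_mem
        apply hPC
        -- c^m is a p-element normalizing P
        have h3 : IsPGroup p ↥(Subgroup.zpowers (c ^ m)) := by
          apply IsPGroup.of_card (n := k)
          rw [Nat.card_zpowers, orderOf_pow, hcm, Nat.gcd_eq_right (Dvd.intro_left _ rfl), Nat.mul_div_cancel _ hm0]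
        have h4 : IsPGroup p ↥((P : Subgroup G) ⊔ Subgroup.zpowers (c ^ m)) :=
          P.isPGroup'.to_sup_of_normal_left' h3 (by rw [Subgroup.zpowers_le]; exact pow_mem hcN m)
        have h5 := P.is_maximal' h4 le_sup_left
        rw [← h5]
        exact Subgroup.mem_sup_right (Subgroup.mem_zpowers _)
      · apply zpow_mem
        apply cyc_cent (P : Subgroup G) P.isPGroup' hcyc (c ^ p ^ k) (pow_mem hcN _) _ x hx hx1 ((Commute.pow_left hc (p ^ k)).eq)
        rw [orderOf_pow, hcm, Nat.gcd_eq_right (Dvd.intro _ rfl), Nat.mul_div_cancel_left _ (pow_pos hpp.pos k)]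
        exact ((Nat.Prime.coprime_iff_not_dvd hpp).2 hm).symm
    · exact Subgroup.centralizer_le (Set.singleton_subset_iff.2 hx)
  · intro h g hg
    by_contra hne
    apply hg
    obtain ⟨⟨x, hx⟩, hx1⟩ := (Subgroup.ne_bot_iff_exists_ne_one).1 hne
    have hx0 : x ≠ 1 := fun h => hx1 (Subtype.ext h)
    have hxP : x ∈ (P : Subgroup G) := hx.1
    have hxg : x ∈ MulAut.conj g • (P : Subgroup G) := hx.2
    have h1 := h x hxP hx0
    -- P^g ≤ C(x) = C(P)
    have h2 : MulAut.conj g • (P : Subgroup G) ≤ Subgroup.centralizer ((P : Subgroup G) : Set G) := by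
      rw [← h1]
      intro y hy
      rw [Subgroup.mem_centralizer_singleton_iff]
      rw [L0.mem_conj_smul] at hy hxg
      have h3 := hPc _ hy _ hxg
      have e1 : g * ((g⁻¹ * y * g) * (g⁻¹ * x * g)) * g⁻¹ = y * x := by group
      have e2 : g * ((g⁻¹ * x * g) * (g⁻¹ * y * g)) * g⁻¹ = x * y := by group
      rw [← e1, h3, e2]
    have h3 : IsPGroup p ↥(MulAut.conj g • (P : Subgroup G)) := (g • P).isPGroup'
    have h4 : IsPGroup p ↥((P : Subgroup G) ⊔ (MulAut.conj g • (P : Subgroup G))) :=
      P.isPGroup'.to_sup_of_normal_left' h3 (h2.trans (Subgroup.centralizer_le_normalizer _))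
    have h5 := P.is_maximal' h4 le_sup_left
    have h6 : MulAut.conj g • (P : Subgroup G) ≤ (P : Subgroup G) := by
      nth_rewrite 2 [← h5]; exact le_sup_right
    rw [L0.mem_normalizer_conj]
    exact Subgroup.eq_of_le_of_card_ge h6 (by rw [L0.card_conj_smul])

end Cfsg.Agent.S3985
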