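import Cfsg.Statements.S3986
import Mathlib
import Cfsg.Agent.H1.FrobPC
import Cfsg.Agent.L0.Coprime

set_option autoImplicit false
open Cfsg

namespace Cfsg.Agent.S3986

open Subgroup in
/-- elements of order prime to `p` are products of elements of prime power orders: if all those lie in `H`, so does `y` -/
theorem mem_of_prime_power {G : Type*} [Group G] [Finite G] (H : Subgroup G) (p : ℕ) (hH : ∀ y : G, (∃ q b : ℕ, q.Prime ∧ q ≠ p ∧ orderOf y = q ^ b) → y ∈ H) :
    ∀ (n : ℕ) (y : G), orderOf y = n → ¬ p ∣ n → y ∈ H := by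
  intro n
  induction n using Nat.strong_induction_on with
  | _ n ih =>
    intro y hy hp
    by_cases hn : n = 1
    · rw [hn, orderOf_eq_one_iff] at hy
      rw [hy]; exact one_mem _
    · obtain ⟨q, hq, hqn⟩ := Nat.exists_prime_and_dvd hn
      have hn0 : n ≠ 0 := by rw [← hy]; exact (orderOf_pos y).ne'
      obtain ⟨k, m, hm, hnm⟩ := Nat.exists_eq_pow_mul_and_not_dvd hn0 q hq.one_lt.ne'
      have hk : k ≠ 0 := by
        rintro rfl
        rw [pow_zero, one_mul] at hnm
        exact hm (hnm ▸ hqn)
      have hqp : q ≠ p := by rintro rfl; exact hp hqn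
      have hm0 : 0 < m := Nat.pos_of_ne_zero (by rintro rfl; exact hm (dvd_zero q))
      have hcop : (q ^ k).Coprime m := ((Nat.Prime.coprime_iff_not_dvd hq).2 hm).pow_left k
      obtain ⟨u, v, huv⟩ : IsCoprime ((q ^ k : ℕ) : ℤ) (m : ℤ) := Nat.isCoprime_iff_coprime.2 hcop
      have h2 : y = (y ^ m) ^ v * (y ^ (q ^ k)) ^ u := by
        rw [← zpow_natCast y m, ← zpow_natCast y (q ^ k), ← zpow_mul, ← zpow_mul, ← zpow_add]
        have : (m : ℤ) * v + ((q ^ k : ℕ) : ℤ) * u = 1 := by linear_combination huv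
        rw [this, zpow_one]
      rw [h2]
      apply mul_mem
      · apply zpow_mem
        apply hH
        refine ⟨q, k, hq, hqp, ?_⟩
        rw [orderOf_pow, hy, hnm, Nat.gcd_eq_right (Dvd.intro_left _ rfl), Nat.mul_div_cancel _ hm0]
      · apply zpow_mem
        apply ih m _ _ _
        · exact fun h => hp (h.trans ⟨q ^ k, by rw [hnm]; ring⟩)
        · rw [hnm]
          exact lt_mul_of_one_lt_left hm0 (Nat.one_lt_pow hk hq.one_lt)
        · rw [orderOf_pow, hy, hnm, Nat.gcd_eq_right (Dvd.intro _ rfl), Nat.mul_div_cancel_left _ (pow_pos hq.pos k)]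

/-- Let p be a prime and G a finite group. Then some Sylow p-subgroup of G is a direct factor of G (it is normal and has a normal complement) if and only if every element of p-power order commutes with every element whose order is a power of a prime other than p. -/
theorem result {G : Type*} [Group G] [Finite G] (p : ℕ) [Fact p.Prime] : (∃ (P : Sylow p G) (K : Subgroup G), (P : Subgroup G).Normal ∧ K.Normal ∧ (P : Subgroup G) ⊓ K = ⊥ ∧ (P : Subgroup G) ⊔ K = ⊤) ↔ ∀ x y : G, (∃ a : ℕ, orderOf x = p ^ a) → (∃ q b : ℕ, q.Prime ∧ q ≠ p ∧ orderOf y = q ^ b) → x * y = y * x := by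
  have hpp := (Fact.out : p.Prime)
  constructor
  · rintro ⟨P, K, hPn, hKn, hPK, hPKt⟩ x y ⟨a, hx⟩ ⟨q, b, hq, hqp, hy⟩
    have hxP : x ∈ (P : Subgroup G) := by
      have h1 : IsPGroup p ↥(Subgroup.zpowers x) := IsPGroup.of_card (n := a) (by rw [Nat.card_zpowers, hx])
      have h2 : IsPGroup p ↥((P : Subgroup G) ⊔ Subgroup.zpowers x) := P.isPGroup'.to_sup_of_normal_left h1
      have h3 := P.is_maximal' h2 le_sup_left
      rw [← h3]; exact Subgroup.mem_sup_right (Subgroup.mem_zpowers x)
    have hcop : (Nat.card ↥K).Coprime p := by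
      rw [Nat.coprime_comm, Nat.Prime.coprime_iff_not_dvd hpp]
      have h1 := L0.card_sup_of_normalizes (M := (P : Subgroup G)) (A := K) (by rw [Subgroup.normalizer_eq_top]; exact le_top) hPK
      rw [hPKt, Subgroup.card_top] at h1
      have h2 := (P : Subgroup G).card_mul_index
      rw [h1] at h2
      have h3 := Nat.eq_of_mul_eq_mul_left Nat.card_pos h2
      rw [← h3]
      exact P.not_dvd_index
    -- y ∈ K
    have hyK : y ∈ K := by
      rw [← QuotientGroup.eq_one_iff]
      have h1 : orderOf ((y : G) : G ⧸ K) ∣ q ^ b := by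
        rw [← hy]
        exact orderOf_map_dvd (QuotientGroup.mk' K) y
      have h2 : orderOf ((y : G) : G ⧸ K) ∣ Nat.card (G ⧸ K) := _root_.orderOf_dvd_natCard _
      obtain ⟨k, hk⟩ := P.isPGroup'.exists_card_eq
      have h3 : Nat.card (G ⧸ K) = p ^ k := by
        have h4 := L0.card_sup_of_normalizes (M := (P : Subgroup G)) (A := K) (by rw [Subgroup.normalizer_eq_top]; exact le_top) hPK
        rw [hPKt, Subgroup.card_top, ← K.index_mul_card] at h4
        rw [← Subgroup.index_eq_card, Nat.eq_of_mul_eq_mul_right Nat.card_pos h4, hk]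
      rw [h3] at h2
      have h5 : (q ^ b).Coprime (p ^ k) := Nat.Coprime.pow _ _ ((Nat.coprime_primes hq hpp).2 hqp)
      have h6 : orderOf ((y : G) : G ⧸ K) ∣ 1 := by rw [← h5]; exact Nat.dvd_gcd h1 h2
      exact orderOf_eq_one_iff.1 (Nat.dvd_one.1 h6)
    have h7 := L0.commute_of_mem_normalizer_of_disjoint (A := (P : Subgroup G)) (N := K) (by rw [Subgroup.normalizer_eq_top]; exact le_top)
      (by rw [inf_comm]; exact hPK) hyK (by rw [Subgroup.normalizer_eq_top]; exact Subgroup.mem_top y)
    exact Subgroup.mem_centralizer_iff.1 h7 x hxP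
  · intro h
    -- p'-elements centralize p-subgroups
    have h1 : ∀ Q : Subgroup G, IsPGroup p ↥Q → ∀ y : G, (orderOf y).Coprime p → y ∈ Subgroup.centralizer (Q : Set G) := by
      intro Q hQ y hy
      apply mem_of_prime_power (Subgroup.centralizer (Q : Set G)) p _ (orderOf y) y rfl
      · intro hd
        have := Nat.dvd_gcd hd dvd_rfl
        rw [hy] at this
        exact hpp.one_lt.ne' (Nat.dvd_one.1 this)
      · intro z hz
        rw [Subgroup.mem_centralizer_iff]
        intro x hx
        obtain ⟨a, ha⟩ := (IsPGroup.iff_orderOf.1 hQ) ⟨x, hx⟩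
        rw [Subgroup.orderOf_mk] at ha
        exact h x z ⟨a, ha⟩ hz
    have hN : Cfsg.HasNormalPComplement p G := H1.frobenius_criterion fun Q hQ g _ hgo => h1 Q hQ g hgo
    obtain ⟨K, hKn, hKc, k, hk⟩ := H1.hasNormalPComplement_iff.1 hN
    have P : Sylow p G := default
    have hdis : (P : Subgroup G) ⊓ K = ⊥ := by
      apply L0.inf_eq_bot_of_coprime'
      obtain ⟨j, hj⟩ := P.isPGroup'.exists_card_eq
      rw [hj]
      exact (Nat.Coprime.pow_right j hKc).symm
    have htop : (P : Subgroup G) ⊔ K = ⊤ := by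
      apply Subgroup.eq_top_of_card_eq
      rw [sup_comm, L0.card_sup_of_normalizes (M := K) (A := (P : Subgroup G)) (by rw [Subgroup.normalizer_eq_top]; exact le_top) (by rw [inf_comm]; exact hdis)]
      have h2 := K.card_mul_index
      rw [hk] at h2
      have h3 : Nat.card ↥(P : Subgroup G) = p ^ k := by
        rw [P.card_eq_multiplicity, ← h2, Nat.factorization_mul Nat.card_pos.ne' (pow_pos hpp.pos k).ne', Finsupp.add_apply,
          hpp.factorization_pow, Finsupp.single_eq_same, Nat.factorization_eq_zero_of_not_dvd, zero_add]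
        intro hd
        have := Nat.dvd_gcd hd dvd_rfl
        rw [hKc] at this
        exact hpp.one_lt.ne' (Nat.dvd_one.1 this)
      rw [h3, h2]
    refine ⟨P, K, ?_, hKn, hdis, htop⟩
    have h3 : (⊤ : Subgroup G) ≤ Subgroup.normalizer ((P : Subgroup G) : Set G) := by
      rw [← htop]
      refine sup_le Subgroup.le_normalizer ?_
      intro y hy
      apply Subgroup.centralizer_le_normalizer
      apply h1 _ P.isPGroup'
      have h4 : orderOf y ∣ Nat.card ↥K := by
        have := _root_.orderOf_dvd_natCard (⟨y, hy⟩ : ↥K)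
        rwa [Subgroup.orderOf_mk] at this
      exact Nat.Coprime.coprime_dvd_left h4 hKc
    exact Subgroup.normalizer_eq_top_iff.1 (top_le_iff.1 h3)

end Cfsg.Agent.S3986
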