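import Cfsg.Statements.S3987
import Mathlib
import Cfsg.Agent.S3986
import Cfsg.Agent.H3.SysN

set_option autoImplicit false
open Cfsg

namespace Cfsg.Agent.S3987

open Subgroup in
theorem cent_mul {G : Type*} [Group G] [Finite G] {x y : G} (hxy : x * y = y * x) (hcop : (orderOf x).Coprime (orderOf y)) :
    centralizer ({x * y} : Set G) = centralizer ({x} : Set G) ⊓ centralizer ({y} : Set G) := by
  have hc : Commute x y := hxy
  obtain ⟨u, v, huv⟩ : IsCoprime ((orderOf x : ℕ) : ℤ) ((orderOf y : ℕ) : ℤ) := Nat.isCoprime_iff_coprime.2 hcop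
  have hx : (x * y) ^ (v * (orderOf y : ℤ)) = x := by
    rw [hc.mul_zpow]
    have h1 : y ^ (v * (orderOf y : ℤ)) = 1 := by rw [mul_comm, zpow_mul, zpow_natCast, pow_orderOf_eq_one, one_zpow]
    have h3 : x ^ (u * (orderOf x : ℤ)) = 1 := by rw [mul_comm, zpow_mul, zpow_natCast, pow_orderOf_eq_one, one_zpow]
    have h2 : x ^ (v * (orderOf y : ℤ)) = x := by
      calc x ^ (v * (orderOf y : ℤ)) = x ^ (u * (orderOf x : ℤ)) * x ^ (v * (orderOf y : ℤ)) := by rw [h3, one_mul]
        _ = x ^ (u * (orderOf x : ℤ) + v * (orderOf y : ℤ)) := (zpow_add _ _ _).symm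
        _ = x := by rw [huv, zpow_one]
    rw [h1, h2, mul_one]
  have hy : (x * y) ^ (u * (orderOf x : ℤ)) = y := by
    rw [hc.mul_zpow]
    have h1 : x ^ (u * (orderOf x : ℤ)) = 1 := by rw [mul_comm, zpow_mul, zpow_natCast, pow_orderOf_eq_one, one_zpow]
    have h3 : y ^ (v * (orderOf y : ℤ)) = 1 := by rw [mul_comm, zpow_mul, zpow_natCast, pow_orderOf_eq_one, one_zpow]
    have h2 : y ^ (u * (orderOf x : ℤ)) = y := by
      calc y ^ (u * (orderOf x : ℤ)) = y ^ (u * (orderOf x : ℤ)) * y ^ (v * (orderOf y : ℤ)) := by rw [h3, mul_one]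
        _ = y ^ (u * (orderOf x : ℤ) + v * (orderOf y : ℤ)) := (zpow_add _ _ _).symm
        _ = y := by rw [huv, zpow_one]
    rw [h1, h2, one_mul]
  apply le_antisymm
  · intro g hg
    rw [mem_centralizer_singleton_iff] at hg
    have hg : Commute g (x * y) := hg
    refine mem_inf.2 ⟨?_, ?_⟩
    · rw [mem_centralizer_singleton_iff, ← hx]; exact (hg.zpow_right _).eq
    · rw [mem_centralizer_singleton_iff, ← hy]; exact (hg.zpow_right _).eq
  · intro g hg
    obtain ⟨h1, h2⟩ := mem_inf.1 hg
    rw [mem_centralizer_singleton_iff] at h1 h2 ⊢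
    have h1 : Commute g x := h1
    have h2 : Commute g y := h2
    exact (h1.mul_right h2).eq

/-- Let p be a prime and G a finite group. Then some Sylow p-subgroup of G is a direct factor of G (normal with a normal complement) if and only if for every element x of p-power order and every element y whose order is a power of a prime other than p, the conjugacy class of x y has as many elements as the product of the sizes of the classes of x and of y. -/
theorem result {G : Type*} [Group G] [Finite G] (p : ℕ) [Fact p.Prime] : (∃ (P : Sylow p G) (K : Subgroup G), (P : Subgroup G).Normal ∧ K.Normal ∧ (P : Subgroup G) ⊓ K = ⊥ ∧ (P : Subgroup G) ⊔ K = ⊤) ↔ ∀ x y : G, (∃ a : ℕ, orderOf x = p ^ a) → (∃ q b : ℕ, q.Prime ∧ q ≠ p ∧ orderOf y = q ^ b) → (Subgroup.centralizer ({x * y} : Set G)).index = (Subgroup.centralizer ({x} : Set G)).index * (Subgroup.centralizer ({y} : Set G)).index := by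
  have hpp := (Fact.out : p.Prime)
  constructor
  · intro hPK0 x y hx hy
    have hxy := (S3986.result p).1 hPK0 x y hx hy
    obtain ⟨P, K, hPn, hKn, hPK, hPKt⟩ := hPK0
    obtain ⟨a, hx⟩ := hx
    obtain ⟨q, b, hq, hqp, hy⟩ := hy
    have hcop : (orderOf x).Coprime (orderOf y) := by
      rw [hx, hy]; exact Nat.Coprime.pow _ _ ((Nat.coprime_primes hpp hq).2 (Ne.symm hqp))
    rw [cent_mul hxy hcop]
    apply H3.index_inf_of_coprime
    have hcomm : ∀ u ∈ (P : Subgroup G), ∀ v ∈ K, u * v = v * u := by
      intro u hu v hv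
      have h7 := L0.commute_of_mem_normalizer_of_disjoint (A := (P : Subgroup G)) (N := K) (by rw [Subgroup.normalizer_eq_top]; exact le_top)
        (by rw [inf_comm]; exact hPK) hv (by rw [Subgroup.normalizer_eq_top]; exact Subgroup.mem_top v)
      exact Subgroup.mem_centralizer_iff.1 h7 u hu
    have hxP : x ∈ (P : Subgroup G) := by
      have h1 : IsPGroup p ↥(Subgroup.zpowers x) := IsPGroup.of_card (n := a) (by rw [Nat.card_zpowers, hx])
      have h2 : IsPGroup p ↥((P : Subgroup G) ⊔ Subgroup.zpowers x) := P.isPGroup'.to_sup_of_normal_left h1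
      have h3 := P.is_maximal' h2 le_sup_left
      rw [← h3]; exact Subgroup.mem_sup_right (Subgroup.mem_zpowers x)
    have h4 := L0.card_sup_of_normalizes (M := (P : Subgroup G)) (A := K) (by rw [Subgroup.normalizer_eq_top]; exact le_top) hPK
    rw [hPKt, Subgroup.card_top] at h4
    have hKi : K.index = Nat.card ↥(P : Subgroup G) := by
      rw [← K.index_mul_card] at h4
      exact Nat.eq_of_mul_eq_mul_right Nat.card_pos h4
    obtain ⟨k, hk⟩ := P.isPGroup'.exists_card_eq
    have hyK : y ∈ K := by
      rw [← QuotientGroup.eq_one_iff]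
      have h1 : orderOf ((y : G) : G ⧸ K) ∣ q ^ b := by
        rw [← hy]
        exact orderOf_map_dvd (QuotientGroup.mk' K) y
      have h2 : orderOf ((y : G) : G ⧸ K) ∣ Nat.card (G ⧸ K) := _root_.orderOf_dvd_natCard _
      rw [← Subgroup.index_eq_card, hKi, hk] at h2
      have h5 : (q ^ b).Coprime (p ^ k) := Nat.Coprime.pow _ _ ((Nat.coprime_primes hq hpp).2 hqp)
      have h6 : orderOf ((y : G) : G ⧸ K) ∣ 1 := by rw [← h5]; exact Nat.dvd_gcd h1 h2
      exact orderOf_eq_one_iff.1 (Nat.dvd_one.1 h6)
    have h5 : (Subgroup.centralizer ({x} : Set G)).index ∣ p ^ k := by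
      rw [← hk, ← hKi]
      apply Subgroup.index_dvd_of_le
      intro v hv
      rw [Subgroup.mem_centralizer_singleton_iff]
      exact (hcomm x hxP v hv).symm
    have h6 : (Subgroup.centralizer ({y} : Set G)).index ∣ (P : Subgroup G).index := by
      apply Subgroup.index_dvd_of_le
      intro v hv
      rw [Subgroup.mem_centralizer_singleton_iff]
      exact hcomm v hv y hyK
    have h7 : (p ^ k).Coprime (P : Subgroup G).index := ((Nat.Prime.coprime_iff_not_dvd hpp).2 P.not_dvd_index).pow_left k
    exact Nat.Coprime.coprime_dvd_left h5 (Nat.Coprime.coprime_dvd_right h6 h7)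
  · intro h
    rw [S3986.result p]
    intro x y hx hy
    have h1 := h x y hx hy
    -- C(x) ⊓ C(y) = C(xy)
    have hle : Subgroup.centralizer ({x} : Set G) ⊓ Subgroup.centralizer ({y} : Set G) ≤ Subgroup.centralizer ({x * y} : Set G) := by
      intro g hg
      obtain ⟨h1, h2⟩ := Subgroup.mem_inf.1 hg
      rw [Subgroup.mem_centralizer_singleton_iff] at h1 h2 ⊢
      have h1 : Commute g x := h1
      have h2 : Commute g y := h2
      exact (h1.mul_right h2).eq
    have h2 : (Subgroup.centralizer ({x} : Set G) ⊓ Subgroup.centralizer ({y} : Set G)).index ≤ (Subgroup.centralizer ({x * y} : Set G)).index := by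
      rw [h1]; exact Subgroup.index_inf_le
    have h3 : Subgroup.centralizer ({x} : Set G) ⊓ Subgroup.centralizer ({y} : Set G) = Subgroup.centralizer ({x * y} : Set G) := by
      apply Subgroup.eq_of_le_of_card_ge hle
      have h4 := (Subgroup.centralizer ({x} : Set G) ⊓ Subgroup.centralizer ({y} : Set G)).index_mul_card
      have h5 := (Subgroup.centralizer ({x * y} : Set G)).index_mul_card
      have h6 : 0 < Nat.card ↥(Subgroup.centralizer ({x} : Set G) ⊓ Subgroup.centralizer ({y} : Set G)) := Nat.card_pos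
      have h7 : 0 < (Subgroup.centralizer ({x * y} : Set G)).index := Nat.pos_of_ne_zero Subgroup.index_ne_zero_of_finite
      by_contra hcon
      push Not at hcon
      have h8 : (Subgroup.centralizer ({x} : Set G) ⊓ Subgroup.centralizer ({y} : Set G)).index * Nat.card ↥(Subgroup.centralizer ({x} : Set G) ⊓ Subgroup.centralizer ({y} : Set G)) <
          (Subgroup.centralizer ({x * y} : Set G)).index * Nat.card ↥(Subgroup.centralizer ({x * y} : Set G)) := by
        calc _ ≤ (Subgroup.centralizer ({x * y} : Set G)).index * Nat.card ↥(Subgroup.centralizer ({x} : Set G) ⊓ Subgroup.centralizer ({y} : Set G)) := Nat.mul_le_mul_right _ h2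
          _ < _ := Nat.mul_lt_mul_of_pos_left hcon h7
      omega
    have h4 : x * y ∈ Subgroup.centralizer ({x * y} : Set G) := by rw [Subgroup.mem_centralizer_singleton_iff]
    rw [← h3] at h4
    have h5 := (Subgroup.mem_inf.1 h4).1
    rw [Subgroup.mem_centralizer_singleton_iff] at h5
    -- x y x = x x y
    have h6 : x * (y * x) = x * (x * y) := by rw [← mul_assoc, h5]
    exact (mul_left_cancel h6).symm

end Cfsg.Agent.S3987
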