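import Cfsg.Statements.S4013
import Cfsg.Agent.H2.ClassSize

set_option autoImplicit false
open Cfsg

namespace Cfsg.Agent.S4013

/-- Let G be a finite p-group (p prime) and N < M normal subgroups of G such that for some g ∈ M ∖ N the conjugacy class of g is exactly M ∖ N. Then p = 2 and N has index 2 in M. -/
theorem result {G : Type*} [Group G] [Finite G] (p : ℕ) [Fact p.Prime] (hG : IsPGroup p G) (N M : Subgroup G) [N.Normal] [M.Normal] (hNM : N < M) (g : G) (hgM : g ∈ M) (hgN : g ∉ N) (hcl : {h : G | IsConj g h} = (M : Set G) \ (N : Set G)) : p = 2 ∧ N.relIndex M = 2 := by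
  have hp : p.Prime := Fact.out
  -- class size is a power of p
  have h1 : ∃ j : ℕ, ((M : Set G) \ (N : Set G)).ncard = p ^ j := by
    rw [← hcl]
    have h2 : {h : G | IsConj g h} = (ConjClasses.mk g).carrier := by
      ext h
      rw [ConjClasses.mem_carrier_iff_mk_eq, Set.mem_setOf_eq, ConjClasses.mk_eq_mk_iff_isConj]
      exact isConj_comm
    rw [h2, H2.ncard_class_eq_index]
    obtain ⟨n, hn⟩ := IsPGroup.iff_card.1 hG
    have h3 := Subgroup.index_dvd_card (Subgroup.centralizer ({g} : Set G))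
    rw [hn] at h3
    obtain ⟨l, -, hl⟩ := (Nat.dvd_prime_pow hp).1 h3
    exact ⟨l, hl⟩
  obtain ⟨j, hj⟩ := h1
  have h2 : ((M : Set G) \ (N : Set G)).ncard = Nat.card M - Nat.card N := by
    rw [Set.ncard_sdiff (fun x hx => hNM.le hx)]
    rfl
  have h3 : Nat.card N * N.relIndex M = Nat.card M := by
    rw [← Subgroup.relIndex_bot_left, ← Subgroup.relIndex_bot_left]
    exact Subgroup.relIndex_mul_relIndex _ _ _ bot_le hNM.le
  obtain ⟨a, ha⟩ := IsPGroup.iff_card.1 (hG.to_subgroup N)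
  obtain ⟨b, hb⟩ := IsPGroup.iff_card.1 (hG.to_subgroup M)
  have hrel : N.relIndex M ∣ p ^ b := hb ▸ Subgroup.relIndex_dvd_card _ _
  obtain ⟨c, -, hc⟩ := (Nat.dvd_prime_pow hp).1 hrel
  have hc0 : c ≠ 0 := by
    rintro rfl
    rw [pow_zero] at hc
    exact hNM.not_ge (Subgroup.relIndex_eq_one.1 hc)
  rw [h2, ← h3, hc, ha] at hj
  have h4 : p ^ a * (p ^ c - 1) = p ^ j := by rw [← hj, Nat.mul_sub_one]
  have h5 : (p ^ c - 1) ∣ p ^ j := Dvd.intro_left _ h4
  obtain ⟨e, -, he⟩ := (Nat.dvd_prime_pow hp).1 h5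
  have hpc : 0 < p ^ c := Nat.pow_pos hp.pos
  have he0 : e = 0 := by
    by_contra hne
    have h6 : p ∣ p ^ c - 1 := by rw [he]; exact dvd_pow_self p hne
    have h7 : p ∣ p ^ c := dvd_pow_self p hc0
    have h8 : p ∣ 1 := by
      have := (Nat.dvd_sub h7 h6)
      rwa [Nat.sub_sub_self hpc] at this
    exact hp.one_lt.ne' (Nat.dvd_one.1 h8)
  rw [he0, pow_zero] at he
  have h9 : p ^ c = 2 := by omega
  have hc1 : p ∣ 2 := by rw [← h9]; exact dvd_pow_self p hc0
  have hp2 : p = 2 := (Nat.prime_dvd_prime_iff_eq hp Nat.prime_two).1 hc1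
  exact ⟨hp2, by rw [hc, h9]⟩

end Cfsg.Agent.S4013
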