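import Cfsg.Statements.S4014
import Mathlib
import Cfsg.Agent.H3.SymSyl

set_option autoImplicit false
open Cfsg

namespace Cfsg.Agent.S4014

open Subgroup

/-- Let p be a prime, n ≥ 1, and P a Sylow p-subgroup of the symmetric group on n letters. Then the derived length of P is exactly k = ⌊log_p n⌋ (the largest k with p^k ≤ n): the k-th derived subgroup of P is trivial and, when k ≥ 1, the (k−1)-st is not. -/
theorem result (p : ℕ) [Fact p.Prime] (n : ℕ) (hn : 1 ≤ n) (P : Sylow p (Equiv.Perm (Fin n))) : derivedSeries ↥(P : Subgroup (Equiv.Perm (Fin n))) (Nat.log p n) = ⊥ ∧ (1 ≤ Nat.log p n → derivedSeries ↥(P : Subgroup (Equiv.Perm (Fin n))) (Nat.log p n - 1) ≠ ⊥) := by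
  constructor
  · apply H3.derived_upper P.2
    intro x
    rw [← MulAction.index_stabilizer]
    obtain ⟨t, ht⟩ := P.2.index (MulAction.stabilizer (P : Subgroup (Equiv.Perm (Fin n))) x)
    have h1 : (MulAction.stabilizer (P : Subgroup (Equiv.Perm (Fin n))) x).index ≤ n := by
      rw [MulAction.index_stabilizer]
      refine (Set.ncard_le_card _).trans ?_
      simp
    rw [ht] at h1 ⊢
    exact Nat.pow_le_pow_right (Fact.out : p.Prime).pos (Nat.le_log_of_pow_le (Fact.out : p.Prime).one_lt h1)
  · intro hk hb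
    obtain ⟨k, hk'⟩ : ∃ k, Nat.log p n = k + 1 := ⟨Nat.log p n - 1, by omega⟩
    obtain ⟨W, i1, i2, Λ, i3, i4, hf, hp', hc, hd⟩ := H3.exists_wreath p k
    have hpn : p ^ (k + 1) ≤ n := by
      rw [← hk']
      exact Nat.pow_log_le_self p (by omega)
    haveI : Finite Λ := Nat.finite_of_card_ne_zero (by rw [hc]; exact (pow_pos (Fact.out : p.Prime).pos _).ne')
    obtain ⟨ι⟩ : Nonempty (Λ ↪ Fin n) := by
      haveI := Fintype.ofFinite Λ
      apply Function.Embedding.nonempty_of_card_le
      rw [← Nat.card_eq_fintype_card, hc, Fintype.card_fin]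
      exact hpn
    let f : W →* Equiv.Perm (Fin n) := (Equiv.Perm.viaEmbeddingHom ι).comp (MulAction.toPermHom W Λ)
    have hfi : Function.Injective f := (Equiv.Perm.viaEmbeddingHom_injective ι).comp MulAction.toPerm_injective
    have hr : IsPGroup p f.range := by
      rw [MonoidHom.range_eq_map]
      exact (hp'.to_subgroup ⊤).map f
    obtain ⟨Q, hQ⟩ := hr.exists_le_sylow
    let g : W →* (P : Subgroup (Equiv.Perm (Fin n))) := (Q.equiv P).toMonoidHom.comp ((Subgroup.inclusion hQ).comp f.rangeRestrict)
    have hgi : Function.Injective g := by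
      refine (Q.equiv P).injective.comp ((Subgroup.inclusion_injective hQ).comp ?_)
      intro a b hab
      exact hfi (congrArg Subtype.val hab)
    apply hd
    have h1 := map_derivedSeries_le_derivedSeries g k
    rw [hk', Nat.add_sub_cancel] at hb
    rw [hb, le_bot_iff, Subgroup.map_eq_bot_iff_of_injective _ hgi] at h1
    exact h1

end Cfsg.Agent.S4014
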