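import Cfsg.Statements.S4027
import Cfsg.Agent.H2.RealOdd

set_option autoImplicit false
open Cfsg

namespace Cfsg.Agent.S4027

/-- Let G be a finite group in which every element x of odd order satisfies N_G(⟨x⟩) = C_G(x). Then the Sylow 2-subgroups of G are normal. -/
theorem result {G : Type*} [Group G] [Finite G]
    (hirr : ∀ x : G, (∀ r : ℕ, r.Prime → r ∣ orderOf x → r ≠ 2) →
      Subgroup.normalizer ((Subgroup.zpowers x : Subgroup G) : Set G) ≤ Subgroup.centralizer {x}) (P : Sylow 2 G) :
    (P : Subgroup G).Normal := by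
  apply H2.normal_sylow_two_of_no_real_odd
  intro x hx1 hxo hx
  obtain ⟨c, hc⟩ := isConj_iff.1 hx
  have h1 := hirr x (by
    intro r _ hr h2
    rw [h2] at hr
    exact (Nat.not_even_iff_odd.2 hxo) (even_iff_two_dvd.2 hr))
  have h2 : c ∈ Subgroup.normalizer ((Subgroup.zpowers x : Subgroup G) : Set G) := by
    rw [Subgroup.mem_normalizer_iff]
    intro y
    constructor
    · intro hy
      obtain ⟨j, rfl⟩ := Subgroup.mem_zpowers_iff.1 hy
      rw [← conj_zpow, hc]
      exact zpow_mem (inv_mem (Subgroup.mem_zpowers _)) j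
    · intro hy
      obtain ⟨j, hj⟩ := Subgroup.mem_zpowers_iff.1 hy
      have e : y = (c⁻¹ * x * c) ^ j := by
        have : y = c⁻¹ * (c * y * c⁻¹) * c := by group
        rw [this, ← hj]
        have := conj_zpow (a := c⁻¹) (b := x) (i := j)
        rw [inv_inv] at this
        exact this.symm
      have e2 : c⁻¹ * x * c = x⁻¹ := by
        have h3 : x = c⁻¹ * x⁻¹ * c := by rw [← hc]; group
        calc c⁻¹ * x * c = (c⁻¹ * x⁻¹ * c)⁻¹ := by group
          _ = x⁻¹ := by rw [← h3]
      rw [e, e2]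
      exact zpow_mem (inv_mem (Subgroup.mem_zpowers _)) j
  have h3 := Subgroup.mem_centralizer_singleton_iff.1 (h1 h2)
  have h4 : x = x⁻¹ := by
    rw [← hc, h3]; group
  have h5 : x ^ 2 = 1 := by
    rw [pow_two]; nth_rewrite 1 [h4]; exact inv_mul_cancel x
  have h6 := Nat.Coprime.eq_one_of_dvd (Nat.coprime_two_right.2 hxo) (orderOf_dvd_of_pow_eq_one h5)
  exact hx1 (orderOf_eq_one_iff.1 h6)

end Cfsg.Agent.S4027
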