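import Cfsg.Statements.S4028
import Cfsg.Agent.H1.FrobPC
import Mathlib

set_option autoImplicit false
open Cfsg

namespace Cfsg.Agent.S4028

open Subgroup
open scoped Pointwise

theorem norm_zp {G : Type*} [Group G] [Finite G] {x n : G} : n ∈ normalizer ((zpowers x : Subgroup G) : Set G) ↔ n * x * n⁻¹ ∈ zpowers x := by
  constructor
  · intro h; exact (Subgroup.mem_normalizer_iff.1 h x).1 (mem_zpowers x)
  · intro h
    have h1 : (zpowers x).map (MulAut.conj n).toMonoidHom ≤ zpowers x := by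
      rw [MonoidHom.map_zpowers, zpowers_le]; exact h
    have h2 : (zpowers x).map (MulAut.conj n).toMonoidHom = zpowers x := by
      refine Subgroup.eq_of_le_of_card_ge h1 ?_
      rw [Nat.card_congr ((zpowers x).equivMapOfInjective _ (MulAut.conj n).injective).symm.toEquiv]
    rw [Subgroup.mem_normalizer_iff]
    intro a
    constructor
    · intro ha; exact h1 ⟨a, ha, rfl⟩
    · intro ha
      have ha' : n * a * n⁻¹ ∈ (zpowers x).map (MulAut.conj n).toMonoidHom := by rw [h2]; exact ha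
      obtain ⟨b, hb, hba⟩ := ha'
      have : b = a := (MulAut.conj n).injective hba
      rw [← this]; exact hb

/-- Let G be a finite group with Sylow 2-subgroup P. Then N_G(⟨x⟩) = C_G(x) holds for every 2-element x of G if and only if N_P(⟨y⟩) = C_P(y) holds for every y ∈ P (computed inside P). -/
theorem result {G : Type*} [Group G] [Finite G] (P : Sylow 2 G) :
    (∀ x : G, (∀ r : ℕ, r.Prime → r ∣ orderOf x → r = 2) →
      Subgroup.normalizer ((Subgroup.zpowers x : Subgroup G) : Set G) ≤ Subgroup.centralizer {x}) ↔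
    (∀ y : ↥(P : Subgroup G), Subgroup.normalizer ((Subgroup.zpowers y : Subgroup ↥(P : Subgroup G)) : Set ↥(P : Subgroup G)) ≤
        Subgroup.centralizer {y}) := by
  constructor
  · intro h y n hn
    rw [norm_zp] at hn
    have hy2 : ∀ r : ℕ, r.Prime → r ∣ orderOf (y : G) → r = 2 := by
      intro r hr hd
      obtain ⟨k, hk⟩ := IsPGroup.iff_orderOf.1 P.2 y
      rw [Subgroup.orderOf_coe, hk] at hd
      exact (Nat.prime_dvd_prime_iff_eq hr Nat.prime_two).1 (hr.dvd_of_dvd_pow hd)
    have h1 : (n : G) ∈ normalizer ((zpowers (y : G) : Subgroup G) : Set G) := by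
      rw [norm_zp]
      obtain ⟨k, hk⟩ := hn
      exact ⟨k, congrArg Subtype.val hk⟩
    have h2 := Subgroup.mem_centralizer_singleton_iff.1 (h (y : G) hy2 h1)
    rw [Subgroup.mem_centralizer_singleton_iff]
    exact Subtype.ext h2
  · intro h x hx n hn
    have hx2 : ∃ k, orderOf x = 2 ^ k := ⟨_, Nat.eq_prime_pow_of_unique_prime_dvd (orderOf_pos x).ne' fun {d} hd hd2 => hx d hd hd2⟩
    obtain ⟨k, hk⟩ := hx2
    have hxP : IsPGroup 2 ↥(zpowers x) := IsPGroup.of_card (n := k) (by rw [Nat.card_zpowers, hk])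
    obtain ⟨a, m, hm, hnm⟩ := Nat.exists_eq_pow_mul_and_not_dvd (orderOf_pos n).ne' 2 (by norm_num)
    have hmo : Odd m := by rw [← Nat.not_even_iff_odd, even_iff_two_dvd]; exact hm
    have h1 : n ^ (2 ^ a) ∈ Subgroup.centralizer ({x} : Set G) := by
      have hodd : Odd (orderOf (n ^ (2 ^ a))) := by
        have : orderOf (n ^ (2 ^ a)) ∣ m := by
          apply orderOf_dvd_of_pow_eq_one
          rw [← pow_mul, ← hnm, pow_orderOf_eq_one]
        exact Odd.of_dvd_nat hmo this
      have := H1.centralizes_of_cyclic_two hxP inferInstance (pow_mem hn (2 ^ a)) hodd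
      rw [Subgroup.mem_centralizer_singleton_iff]
      exact (Subgroup.mem_centralizer_iff.1 this x (mem_zpowers x)).symm
    have h2 : n ^ m ∈ Subgroup.centralizer ({x} : Set G) := by
      obtain ⟨t, ht⟩ : ∃ t, t = n ^ m := ⟨_, rfl⟩
      rw [← ht]
      have htN : t ∈ normalizer ((zpowers x : Subgroup G) : Set G) := ht ▸ pow_mem hn m
      have ht2 : t ^ 2 ^ a = 1 := by rw [ht, ← pow_mul, mul_comm, ← hnm, pow_orderOf_eq_one]
      have htP : IsPGroup 2 ↥(zpowers t) := by
        obtain ⟨j, -, hj⟩ := (Nat.dvd_prime_pow Nat.prime_two).1 (orderOf_dvd_of_pow_eq_one ht2)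
        exact IsPGroup.of_card (n := j) (by rw [Nat.card_zpowers, hj])
      have hT : IsPGroup 2 ↥(zpowers x ⊔ zpowers t) := IsPGroup.to_sup_of_normal_left' hxP htP (by rw [zpowers_le]; exact htN)
      obtain ⟨Q, hQ⟩ := hT.exists_le_sylow
      obtain ⟨g, hg⟩ := MulAction.exists_smul_eq G P Q
      have hmem : ∀ z ∈ zpowers x ⊔ zpowers t, g⁻¹ * z * g ∈ (P : Subgroup G) := by
        intro z hz
        have h3 : z ∈ (Q : Subgroup G) := hQ hz
        rw [← hg, Sylow.coe_subgroup_smul, Subgroup.mem_pointwise_smul_iff_inv_smul_mem] at h3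
        convert h3 using 1
        rw [← map_inv]
        show _ = g⁻¹ * z * g⁻¹⁻¹
        rw [inv_inv]
      have hx' := hmem x (Subgroup.mem_sup_left (mem_zpowers x))
      have ht' := hmem t (Subgroup.mem_sup_right (mem_zpowers t))
      have h4 : (⟨_, ht'⟩ : ↥(P : Subgroup G)) ∈ normalizer ((zpowers (⟨_, hx'⟩ : ↥(P : Subgroup G)) : Subgroup ↥(P : Subgroup G)) : Set ↥(P : Subgroup G)) := by
        rw [norm_zp]
        obtain ⟨j, hj⟩ := norm_zp.1 htN
        have hj' : x ^ j = t * x * t⁻¹ := hj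
        refine ⟨j, Subtype.ext ?_⟩
        show (g⁻¹ * x * g) ^ j = (g⁻¹ * t * g) * (g⁻¹ * x * g) * (g⁻¹ * t * g)⁻¹
        have e : (g⁻¹ * x * g) ^ j = g⁻¹ * x ^ j * g := by
          have := conj_zpow (a := g⁻¹) (b := x) (i := j)
          rw [inv_inv] at this
          exact this
        rw [e, hj']
        group
      have h5 := congrArg Subtype.val (Subgroup.mem_centralizer_singleton_iff.1 (h _ h4))
      have h6 : (g⁻¹ * t * g) * (g⁻¹ * x * g) = (g⁻¹ * x * g) * (g⁻¹ * t * g) := h5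
      rw [Subgroup.mem_centralizer_singleton_iff]
      calc t * x = g * ((g⁻¹ * t * g) * (g⁻¹ * x * g)) * g⁻¹ := by group
        _ = g * ((g⁻¹ * x * g) * (g⁻¹ * t * g)) * g⁻¹ := by rw [h6]
        _ = x * t := by group
    have hcop : (2 ^ a).Coprime m := Nat.Coprime.pow_left a ((Nat.Prime.coprime_iff_not_dvd Nat.prime_two).2 hm)
    have hbez := Nat.gcd_eq_gcd_ab (2 ^ a) m
    rw [hcop] at hbez
    have h7 : n = (n ^ (2 ^ a)) ^ (Nat.gcdA (2 ^ a) m) * (n ^ m) ^ (Nat.gcdB (2 ^ a) m) := by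
      rw [← zpow_natCast n (2 ^ a), ← zpow_natCast n m, ← zpow_mul, ← zpow_mul, ← zpow_add, ← hbez, Nat.cast_one, zpow_one]
    rw [h7]
    exact mul_mem (zpow_mem h1 _) (zpow_mem h2 _)

end Cfsg.Agent.S4028
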