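import Cfsg.Statements.S4032
import Mathlib
import Mathlib
import Cfsg.Agent.H1.Basic
import Cfsg.Agent.L0.Coprime2

set_option autoImplicit false
open Cfsg

namespace Cfsg.Agent.S4032

open Subgroup
open scoped Pointwise

/-- Let π be a set of primes and G a finite group in which N_G(⟨x⟩) = C_G(x) for every π-element x. If N is a normal subgroup of G whose order is divisible by no prime of π, then G/N has the same property: N_{G/N}(⟨y⟩) = C_{G/N}(y) for every π-element y of G/N. -/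
theorem result {G : Type*} [Group G] [Finite G] (π : Set ℕ)
    (hirr : ∀ x : G, (∀ r : ℕ, r.Prime → r ∣ orderOf x → r ∈ π) →
      Subgroup.normalizer ((Subgroup.zpowers x : Subgroup G) : Set G) ≤ Subgroup.centralizer {x})
    (N : Subgroup G) [N.Normal] (hN : ∀ r : ℕ, r.Prime → r ∣ Nat.card N → r ∉ π) :
    ∀ y : G ⧸ N, (∀ r : ℕ, r.Prime → r ∣ orderOf y → r ∈ π) →
      Subgroup.normalizer ((Subgroup.zpowers y : Subgroup (G ⧸ N)) : Set (G ⧸ N)) ≤ Subgroup.centralizer {y} := by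
  classical
  intro y hy g' hg'
  obtain ⟨x0, rfl⟩ := QuotientGroup.mk'_surjective N y
  obtain ⟨g, rfl⟩ := QuotientGroup.mk'_surjective N g'
  set m := orderOf (QuotientGroup.mk' N x0) with hm
  have hmpos : 0 < m := orderOf_pos _
  have hcop : m.Coprime (Nat.card N) := by
    rw [Nat.coprime_iff_gcd_eq_one]
    by_contra hc
    obtain ⟨r, hr, hrd⟩ := Nat.exists_prime_and_dvd hc
    exact hN r hr (hrd.trans (Nat.gcd_dvd_right _ _)) (hy r hr (hrd.trans (Nat.gcd_dvd_left _ _)))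
  have hx0m : x0 ^ m ∈ N := by
    rw [← QuotientGroup.eq_one_iff]
    have : ((x0 ^ m : G) : G ⧸ N) = (QuotientGroup.mk' N x0) ^ m := rfl
    rw [this, hm, pow_orderOf_eq_one]
  have hx0 : (x0 ^ m) ^ Nat.card N = 1 := by
    have h1 : (⟨x0 ^ m, hx0m⟩ : N) ^ Nat.card N = 1 := pow_card_eq_one'
    exact congrArg Subtype.val h1
  obtain ⟨k, hk1, hk2⟩ := Nat.chineseRemainder hcop 1 0
  set x := x0 ^ k with hx
  have hxm : x ^ m = 1 := by
    obtain ⟨t, ht⟩ := (Nat.modEq_zero_iff_dvd).1 hk2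
    rw [hx, ht, ← pow_mul]
    have : Nat.card N * t * m = (m * Nat.card N) * t := by ring
    rw [this, pow_mul, pow_mul, hx0, one_pow]
  have hxy : QuotientGroup.mk' N x = QuotientGroup.mk' N x0 := by
    rw [hx, map_pow]
    have h1 : (QuotientGroup.mk' N x0) ^ k = (QuotientGroup.mk' N x0) ^ 1 := by
      rw [pow_eq_pow_iff_modEq]; exact hk1
    rw [h1, pow_one]
  have hox : orderOf x = m := by
    apply Nat.dvd_antisymm (orderOf_dvd_of_pow_eq_one hxm)
    have := orderOf_map_dvd (QuotientGroup.mk' N) x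
    rwa [hxy] at this
  have hirrx := hirr x (by rw [hox]; exact hy)
  have hAn : zpowers x ≤ normalizer (N : Set G) := by rw [Subgroup.normalizer_eq_top (H := N)]; exact le_top
  have hcopA : (Nat.card (zpowers x)).Coprime (Nat.card N) := by rw [Nat.card_zpowers, hox]; exact hcop
  have hsol : Group.IsSolvable (zpowers x) := inferInstance
  have hB : zpowers (g * x * g⁻¹) ≤ N ⊔ zpowers x := by
    rw [zpowers_le]
    have h1 : QuotientGroup.mk' N (g * x * g⁻¹) ∈ zpowers (QuotientGroup.mk' N x0) := by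
      rw [map_mul, map_mul, map_inv, hxy]
      exact ((mem_normalizer_iff.1 hg') _).1 (mem_zpowers _)
    obtain ⟨j, hj⟩ := mem_zpowers_iff.1 h1
    rw [← hxy, ← map_zpow] at hj
    have h2 : (x ^ j)⁻¹ * (g * x * g⁻¹) ∈ N := QuotientGroup.eq.1 hj
    have h3 : g * x * g⁻¹ = x ^ j * ((x ^ j)⁻¹ * (g * x * g⁻¹)) := by group
    rw [h3]
    exact mul_mem (mem_sup_right (zpow_mem (mem_zpowers x) j)) (mem_sup_left h2)
  have hBA : Nat.card (zpowers (g * x * g⁻¹)) = Nat.card (zpowers x) := by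
    rw [Nat.card_zpowers, Nat.card_zpowers]
    exact orderOf_injective (MulAut.conj g).toMonoidHom (MulAut.conj g).injective x
  obtain ⟨c, hc, hcA⟩ := L0.exists_conj_eq_of_le_sup hAn hcopA (Or.inl hsol) hB hBA
  have h1 : g * x * g⁻¹ ∈ MulAut.conj c • zpowers x := by rw [hcA]; exact mem_zpowers _
  rw [Subgroup.mem_pointwise_smul_iff_inv_smul_mem] at h1
  have h2 : c⁻¹ * (g * x * g⁻¹) * c ∈ zpowers x := by
    have : (MulAut.conj c)⁻¹ • (g * x * g⁻¹) = c⁻¹ * (g * x * g⁻¹) * c := by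
      rw [← map_inv, MulAut.smul_def, MulAut.conj_apply, inv_inv]
    rwa [this] at h1
  have h3 : c⁻¹ * g ∈ normalizer ((zpowers x : Subgroup G) : Set G) := by
    apply H1.mem_normalizer_of_conj_mem
    intro z hz
    obtain ⟨j, rfl⟩ := mem_zpowers_iff.1 hz
    have : (c⁻¹ * g) * x ^ j * (c⁻¹ * g)⁻¹ = (c⁻¹ * (g * x * g⁻¹) * c) ^ j := by
      have h4 : c⁻¹ * (g * x * g⁻¹) * c = (c⁻¹ * g) * x * (c⁻¹ * g)⁻¹ := by group
      rw [h4, conj_zpow]
    rw [this]; exact zpow_mem h2 j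
  have h4 := mem_centralizer_singleton_iff.1 (hirrx h3)
  rw [mem_centralizer_singleton_iff]
  have h5 : QuotientGroup.mk' N (c⁻¹ * g) = QuotientGroup.mk' N g := by
    rw [map_mul, map_inv]
    have : QuotientGroup.mk' N c = 1 := (QuotientGroup.eq_one_iff c).2 hc
    rw [this, inv_one, one_mul]
  have h6 := congrArg (QuotientGroup.mk' N) h4
  rw [map_mul (QuotientGroup.mk' N) (c⁻¹ * g) x, map_mul (QuotientGroup.mk' N) x (c⁻¹ * g), h5, hxy] at h6
  exact h6

end Cfsg.Agent.S4032
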