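import Cfsg.Statements.S4034
import Cfsg.Agent.H2.ClassSize
import Cfsg.Agent.L0.GenFit

set_option autoImplicit false
open Cfsg

namespace Cfsg.Agent.S4034

open Subgroup
open scoped Pointwise

/-- Let G be a finite group and p a prime. Every conjugacy class of p-regular elements of G (elements of order prime to p) has p-power size if and only if G has an abelian p-complement, i.e. an abelian subgroup of order prime to p and p-power index. -/
theorem result {G : Type*} [Group G] [Finite G] {p : ℕ} (hp : p.Prime) :
    (∀ x : G, (orderOf x).Coprime p → ∃ k : ℕ, (ConjClasses.mk x).carrier.ncard = p ^ k) ↔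
    (∃ H : Subgroup G, IsMulCommutative H ∧ ¬ p ∣ Nat.card H ∧ ∃ k : ℕ, H.index = p ^ k) := by
  have hfp := Fact.mk hp
  constructor
  · intro h
    have h : ∀ x : G, (orderOf x).Coprime p → ∃ k : ℕ, (centralizer ({x} : Set G)).index = p ^ k := by
      intro x hx
      rw [← H2.ncard_class_eq_index]
      exact h x hx
    have hs := H2.solvable_of_pregular_class_ppower _ G rfl hp h
    obtain ⟨a, m, hm, ham⟩ := Nat.exists_eq_pow_mul_and_not_dvd (Nat.card_pos (α := G)).ne' p hp.ne_one
    have hcop : m.Coprime (p ^ a) := ((Nat.Prime.coprime_iff_not_dvd hp).2 hm).symm.pow_right a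
    obtain ⟨H, hH⟩ := H1.hall_exists hs (a := m) (b := p ^ a) (by rw [ham, mul_comm]) hcop
    have hHp : ¬ p ∣ Nat.card H := by rw [hH]; exact hm
    refine ⟨H, ?_, hHp, a, ?_⟩
    · -- abelian
      set O := pCore p G with hO
      have hOn : O.Normal := inferInstance
      have hOp : IsPGroup p O := L0.pCore_isPGroup p G
      set Q := G ⧸ O
      have hQO : pCore p Q = ⊥ := L0.pCore_quotient_pCore p G
      have hQs : Group.IsSolvable Q := inferInstance
      have hQ : ∀ x : Q, (orderOf x).Coprime p → ∃ k : ℕ, (centralizer ({x} : Set Q)).index = p ^ k := by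
        intro y hy
        obtain ⟨x, rfl, hx⟩ := H2.exists_pprime_lift hp (QuotientGroup.mk'_surjective O) y hy
        obtain ⟨k, hk⟩ := h x hx
        have := H2.index_centralizer_map_dvd (QuotientGroup.mk'_surjective O) x
        rw [hk] at this
        obtain ⟨l, -, hl⟩ := (Nat.dvd_prime_pow hp).1 this
        exact ⟨l, hl⟩
      set F := fittingSubgroup Q with hF
      have hFn : F.Normal := inferInstance
      have hFp : ¬ p ∣ Nat.card F := H2.not_dvd_card_fitting hp hQO
      have hcent : ∀ x : Q, (orderOf x).Coprime p → ∀ f ∈ F, x * f = f * x := by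
        intro x hx f hf
        obtain ⟨k, hk⟩ := hQ x hx
        have h1 := H2.relIndex_dvd_index_of_normal_right (centralizer ({x} : Set Q)) F
        rw [hk] at h1
        have h2 : (centralizer ({x} : Set Q)).relIndex F ∣ Nat.card F := relIndex_dvd_card _ _
        have h3 : (centralizer ({x} : Set Q)).relIndex F = 1 := by
          obtain ⟨l, -, hl⟩ := (Nat.dvd_prime_pow hp).1 h1
          rcases Nat.eq_zero_or_pos l with h0 | h0
          · rw [hl, h0, pow_zero]
          · exfalso
            apply hFp
            refine dvd_trans ?_ h2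
            rw [hl]
            exact dvd_pow_self p h0.ne'
        rw [relIndex_eq_one] at h3
        exact (mem_centralizer_singleton_iff.1 (h3 hf)).symm
      have hxF : ∀ x : Q, (orderOf x).Coprime p → x ∈ F := by
        intro x hx
        apply H2.centralizer_fitting_le hQs
        rw [mem_centralizer_iff]
        intro f hf
        exact (hcent x hx f hf).symm
      rw [isMulCommutative_iff]
      have hHcop : ∀ x ∈ H, (orderOf x).Coprime p := by
        intro x hx
        have h1 : orderOf x ∣ Nat.card H := by
          rw [← Subgroup.orderOf_mk x hx]; exact orderOf_dvd_natCard _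
        exact Nat.Coprime.coprime_dvd_left h1 ((Nat.Prime.coprime_iff_not_dvd hp).2 hHp).symm
      have hmk : ∀ x ∈ H, (orderOf (QuotientGroup.mk' O x)).Coprime p := by
        intro x hx
        exact Nat.Coprime.coprime_dvd_left (orderOf_map_dvd _ x) (hHcop x hx)
      rintro ⟨x, hx⟩ ⟨y, hy⟩
      have h1 := hcent _ (hmk x hx) _ (hxF _ (hmk y hy))
      apply Subtype.ext
      show x * y = y * x
      have h2 : (y * x)⁻¹ * (x * y) ∈ O := by
        apply QuotientGroup.eq.1
        exact h1.symm
      have h3 : (y * x)⁻¹ * (x * y) ∈ H := H.mul_mem (H.inv_mem (H.mul_mem hy hx)) (H.mul_mem hx hy)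
      have h4 : (y * x)⁻¹ * (x * y) = 1 := by
        have h5 := hHcop _ h3
        obtain ⟨k, hk⟩ := hOp ⟨_, h2⟩
        have h6 : ((y * x)⁻¹ * (x * y)) ^ p ^ k = 1 := congrArg Subtype.val hk
        have h7 := orderOf_dvd_of_pow_eq_one h6
        have h8 := Nat.Coprime.eq_one_of_dvd (h5.pow_right k) h7
        exact orderOf_eq_one_iff.1 h8
      exact (inv_mul_eq_one.1 h4).symm
    · have h1 := Subgroup.card_mul_index H
      rw [hH, ham, mul_comm (p ^ a)] at h1
      exact Nat.eq_of_mul_eq_mul_left (Nat.pos_of_ne_zero (by rintro rfl; exact hm (dvd_zero p))) h1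
  · rintro ⟨H, hH, hHp, k, hk⟩ x hx
    rw [H2.ncard_class_eq_index]
    have hHc : ∀ a ∈ H, ∀ b ∈ H, a * b = b * a := by
      intro a ha b hb
      exact congrArg Subtype.val (isMulCommutative_iff.1 hH ⟨a, ha⟩ ⟨b, hb⟩)
    have hs := H2.solvable_of_abelian_ppower_index _ G rfl hp H hHc ⟨k, hk⟩
    have hcard : Nat.card G = Nat.card H * p ^ k := by rw [← hk, Subgroup.card_mul_index]
    have hcop : (Nat.card H).Coprime (p ^ k) := ((Nat.Prime.coprime_iff_not_dvd hp).2 hHp).symm.pow_right k
    obtain ⟨g, hg⟩ := H1.hall_dominate hs hcard hcop rfl (K := zpowers x) (by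
      rw [Nat.card_zpowers]; exact hx.pow_right k)
    have hxg : g⁻¹ * x * g ∈ H := by
      have := hg (mem_zpowers x)
      rw [Subgroup.mem_pointwise_smul_iff_inv_smul_mem, ← map_inv, MulAut.smul_def, MulAut.conj_apply] at this
      simpa using this
    have hle : MulAut.conj g • H ≤ centralizer ({x} : Set G) := by
      intro y hy
      rw [Subgroup.mem_pointwise_smul_iff_inv_smul_mem, ← map_inv, MulAut.smul_def, MulAut.conj_apply, inv_inv] at hy
      rw [mem_centralizer_singleton_iff]
      have h1 := hHc _ hy _ hxg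
      have h2 : g⁻¹ * (y * x) * g = g⁻¹ * (x * y) * g := by
        calc g⁻¹ * (y * x) * g = g⁻¹ * y * g * (g⁻¹ * x * g) := by group
          _ = g⁻¹ * x * g * (g⁻¹ * y * g) := h1
          _ = _ := by group
      exact mul_left_cancel (mul_right_cancel h2)
    have h1 := Subgroup.index_dvd_of_le hle
    have h2 : (MulAut.conj g • H).index = p ^ k := by
      have h3 := Subgroup.card_mul_index (MulAut.conj g • H)
      rw [L0.card_conj_smul, hcard] at h3
      exact Nat.eq_of_mul_eq_mul_left Nat.card_pos h3
    rw [h2] at h1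
    obtain ⟨l, -, hl⟩ := (Nat.dvd_prime_pow hp).1 h1
    exact ⟨l, hl⟩

end Cfsg.Agent.S4034
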