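import Cfsg.Statements.S4035
import Cfsg.Agent.H2.ClassSize
import Cfsg.Agent.H2.Basic2

set_option autoImplicit false
open Cfsg

namespace Cfsg.Agent.S4035

open Subgroup
open scoped Pointwise

/-- if the index of a centralizer is prime to `p`, the element is centralized by a Sylow `p`-subgroup -/
theorem exists_sylow {G : Type*} [Group G] [Finite G] {p : ℕ} [Fact p.Prime] (C : Subgroup G) (hC : ¬ p ∣ C.index)
    (Q : Subgroup G) (hQC : Q ≤ C) (hQ : IsPGroup p Q) : ∃ P : Sylow p G, Q ≤ P ∧ (P : Subgroup G) ≤ C := by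
  obtain ⟨R, hR⟩ := (hQ.comap_subtype (K := C)).exists_le_sylow
  have hRc : ¬ p ∣ ((R : Subgroup C).map C.subtype).index := by
    rw [Subgroup.index_map_subtype]
    intro h
    rcases (Nat.Prime.dvd_mul (Fact.out : p.Prime)).1 h with h | h
    · exact R.not_dvd_index h
    · exact hC h
  have hRp : IsPGroup p ((R : Subgroup C).map C.subtype) := R.2.map _
  refine ⟨hRp.toSylow hRc, ?_, ?_⟩
  · intro x hx
    have : (⟨x, hQC hx⟩ : C) ∈ (R : Subgroup C) := hR hx
    exact ⟨_, this, rfl⟩
  · exact (map_le_range _ _).trans (by simp)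

/-- Let G be a finite group and p a prime such that p divides the size of no conjugacy class of p-regular elements (elements of order prime to p). Then G is the internal direct product of a Sylow p-subgroup P and a normal subgroup H of order prime to p: P is normal, P ⊓ H = 1 and PH = G. -/
theorem result {G : Type*} [Group G] [Finite G] {p : ℕ} [Fact p.Prime]
    (h : ∀ x : G, (orderOf x).Coprime p → ¬ p ∣ (ConjClasses.mk x).carrier.ncard) (P : Sylow p G) :
    (P : Subgroup G).Normal ∧ ∃ H : Subgroup G, H.Normal ∧ ¬ p ∣ Nat.card H ∧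
      (P : Subgroup G) ⊓ H = ⊥ ∧ (P : Subgroup G) ⊔ H = ⊤ := by
  have hp : p.Prime := Fact.out
  -- G = P C_G(P)
  set C := centralizer ((P : Subgroup G) : Set G) with hC
  have htop : (P : Subgroup G) ⊔ C = ⊤ := by
    apply H2.eq_top_of_forall_conj
    intro g
    obtain ⟨u, v, rfl, huv, ⟨k, hk⟩, hv, -, -⟩ := H2.exists_p_decomp hp g
    have hv2 := h v hv
    rw [H2.ncard_class_eq_index] at hv2
    obtain ⟨Q, hQ1, hQ2⟩ := exists_sylow _ hv2 (zpowers u) (by
      rw [zpowers_le, mem_centralizer_singleton_iff]; exact huv) (by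
      intro y
      obtain ⟨j, hj⟩ := mem_zpowers_iff.1 y.2
      refine ⟨k, Subtype.ext ?_⟩
      show (y : G) ^ p ^ k = 1
      rw [← hj, ← zpow_natCast, ← zpow_mul, mul_comm, zpow_mul, zpow_natCast, hk, one_zpow])
    obtain ⟨x, hx⟩ := MulAction.exists_smul_eq G P Q
    refine ⟨x, ?_⟩
    have hQx : ∀ q ∈ Q, x⁻¹ * q * x ∈ P := by
      intro q hq
      rw [← hx, ← SetLike.mem_coe, Sylow.coe_smul, Set.mem_smul_set_iff_inv_smul_mem, ← map_inv, MulAut.smul_def,
        MulAut.conj_apply, inv_inv] at hq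
      exact hq
    have hPx : ∀ q ∈ P, x * q * x⁻¹ ∈ Q := by
      intro q hq
      rw [← hx, ← SetLike.mem_coe, Sylow.coe_smul, Set.mem_smul_set_iff_inv_smul_mem, ← map_inv, MulAut.smul_def,
        MulAut.conj_apply, inv_inv]
      have : x⁻¹ * (x * q * x⁻¹) * x = q := by group
      rw [this]; exact hq
    have e : x⁻¹ * (u * v) * x = (x⁻¹ * u * x) * (x⁻¹ * v * x) := by group
    rw [e]
    refine Subgroup.mul_mem _ (mem_sup_left (hQx u (hQ1 (mem_zpowers u)))) (mem_sup_right ?_)
    rw [hC, mem_centralizer_iff]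
    intro q hq
    have h1 := mem_centralizer_singleton_iff.1 (hQ2 (hPx q hq))
    -- x q x⁻¹ * v = v * x q x⁻¹
    calc q * (x⁻¹ * v * x) = x⁻¹ * (x * q * x⁻¹ * v) * x := by group
      _ = x⁻¹ * (v * (x * q * x⁻¹)) * x := by rw [h1]
      _ = x⁻¹ * v * x * q := by group
  have hPn : (P : Subgroup G).Normal := by
    rw [← normalizer_eq_top_iff, eq_top_iff, ← htop]
    exact sup_le le_normalizer (by
      intro c hc
      rw [mem_normalizer_iff]
      intro y
      have hc' := mem_centralizer_iff.1 hc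
      constructor
      · intro hy
        have := hc' y hy
        rw [← this]; simpa using hy
      · intro hy
        have := hc' _ hy
        have h2 : c * (c * y * c⁻¹) * c⁻¹ = c * y * c⁻¹ := by rw [← this]; group
        have h3 : c * y * c⁻¹ = y := by
          have h4 : c * (c * y * c⁻¹) * c⁻¹ = c * (y) * c⁻¹ := h2
          exact mul_left_cancel (mul_right_cancel h4)
        rwa [h3] at hy)
  refine ⟨hPn, ?_⟩
  obtain ⟨H, hH⟩ := Subgroup.exists_right_complement'_of_coprime (N := (P : Subgroup G)) P.card_coprime_index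
  have hHc : Nat.card H = (P : Subgroup G).index := by
    have h1 := hH.card_mul_card
    have h2 := Subgroup.card_mul_index (P : Subgroup G)
    exact Nat.eq_of_mul_eq_mul_left Nat.card_pos (h1.trans h2.symm)
  have hHp : ¬ p ∣ Nat.card H := by rw [hHc]; exact P.not_dvd_index
  have hHC : H ≤ C := by
    let φ : G →* MulAut (P : Subgroup G) := MulAut.conjNormal
    have hφC : ∀ c ∈ C, φ c = 1 := by
      intro c hc
      ext y
      have := mem_centralizer_iff.1 hc y y.2
      have e1 : ((φ c y : (P : Subgroup G)) : G) = c * y * c⁻¹ := MulAut.conjNormal_apply _ _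
      rw [e1, ← this]; simp
    intro x hx
    have hxtop : x ∈ (P : Subgroup G) ⊔ C := by rw [htop]; trivial
    obtain ⟨y, hy, c, hc, hxy⟩ := (Subgroup.mem_sup_of_normal_left).1 hxtop
    have h1 : φ x = φ y := by rw [← hxy, map_mul, hφC c hc, mul_one]
    obtain ⟨k, hk⟩ := P.2 ⟨y, hy⟩
    have hk' : y ^ p ^ k = 1 := congrArg Subtype.val hk
    have h2 : (φ x) ^ p ^ k = 1 := by rw [h1, ← map_pow, hk', map_one]
    have h3 : (φ x) ^ Nat.card H = 1 := by
      rw [← map_pow]
      have : x ^ Nat.card H = 1 := congrArg Subtype.val (pow_card_eq_one' (x := (⟨x, hx⟩ : H)))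
      rw [this, map_one]
    have h4 : φ x = 1 := by
      have h5 := Nat.dvd_gcd (orderOf_dvd_of_pow_eq_one h2) (orderOf_dvd_of_pow_eq_one h3)
      have h6 : Nat.gcd (p ^ k) (Nat.card H) = 1 := ((Nat.Prime.coprime_iff_not_dvd hp).2 hHp).pow_left k
      rw [h6] at h5
      exact orderOf_eq_one_iff.1 (Nat.dvd_one.1 h5)
    rw [hC, mem_centralizer_iff]
    intro q hq
    have h7 := congrArg (fun f : MulAut (P : Subgroup G) => ((f ⟨q, hq⟩ : (P : Subgroup G)) : G)) h4
    simp only [φ, MulAut.conjNormal_apply, MulAut.one_apply] at h7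
    rw [mul_inv_eq_iff_eq_mul] at h7
    exact h7.symm
  refine ⟨H, ⟨?_⟩, hHp, ?_, ?_⟩
  · intro x hx g
    obtain ⟨⟨a, b⟩, hab⟩ := hH.existsUnique g |>.exists
    have hab' : (a : G) * (b : G) = g := hab
    have h1 : (b : G) * x * (b : G)⁻¹ ∈ H := H.mul_mem (H.mul_mem b.2 hx) (H.inv_mem b.2)
    have h2 := mem_centralizer_iff.1 (hHC h1) a a.2
    have h3 : g * x * g⁻¹ = (b : G) * x * (b : G)⁻¹ := by
      calc g * x * g⁻¹ = (a : G) * ((b : G) * x * (b : G)⁻¹) * (a : G)⁻¹ := by rw [← hab']; group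
        _ = ((b : G) * x * (b : G)⁻¹) * a * (a : G)⁻¹ := by rw [h2]
        _ = _ := by group
    rw [h3]; exact h1
  · exact hH.disjoint.eq_bot
  · exact hH.sup_eq_top

end Cfsg.Agent.S4035
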