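import Cfsg.Statements.S4036
import Mathlib

set_option autoImplicit false
open Cfsg

namespace Cfsg.Agent.S4036

/-- Let P be a finite abelian p-group and K a group of automorphisms of P (a subgroup of Aut P) whose order is divisible by p. If all non-identity elements of K have the same fixed-point subgroup on P, then K has no non-trivial normal subgroup of order prime to p. -/
theorem result {P : Type*} [CommGroup P] [Finite P] {p : ℕ}
    [Fact p.Prime] (hP : IsPGroup p P) (K : Subgroup (MulAut P)) (hK : p ∣ Nat.card K)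
    (hfix : ∀ x y : MulAut P, x ∈ K → y ∈ K → x ≠ 1 → y ≠ 1 → ∀ v : P, x v = v ↔ y v = v) :
    ∀ N : Subgroup ↥K, N.Normal → ¬ p ∣ Nat.card N → N = ⊥ := by
  classical
  intro N hN hpN
  by_contra hne
  have hfP : Finite (MulAut P) := Finite.of_injective (fun t : MulAut P => (t : P → P)) DFunLike.coe_injective
  have hfN : Fintype N := Fintype.ofFinite _
  obtain ⟨n0, hn01⟩ := Subgroup.ne_bot_iff_exists_ne_one.1 hne
  obtain ⟨y, hy⟩ := exists_prime_orderOf_dvd_card' p hK
  have hy1 : ((y : K) : MulAut P) ≠ 1 := by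
    intro h
    have : y = 1 := Subtype.ext h
    rw [this, orderOf_one] at hy
    exact (Fact.out : p.Prime).one_lt.ne hy
  have hfixN : ∀ v : P, (y : MulAut P) v = v → ∀ n : N, ((n : K) : MulAut P) v = v := by
    intro v hv n
    by_cases hn : ((n : K) : MulAut P) = 1
    · rw [hn]; rfl
    · exact (hfix _ _ y.2 (n : K).2 hy1 hn v).1 hv
  let ν : P →* P := ∏ n : N, ((n : K) : MulAut P).toMonoidHom
  have hν : ∀ v, ν v = ∏ n : N, ((n : K) : MulAut P) v := fun v => MonoidHom.finset_prod_apply _ _ _
  have hcop : ∀ v : P, v ^ Nat.card N = 1 → v = 1 := by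
    intro v hv
    obtain ⟨k, hk⟩ := hP v
    rw [← orderOf_eq_one_iff]
    refine Nat.eq_one_of_dvd_coprimes ?_ (orderOf_dvd_of_pow_eq_one hk) (orderOf_dvd_of_pow_eq_one hv)
    exact Nat.Coprime.pow_left k (((Fact.out : p.Prime).coprime_iff_not_dvd).2 hpN)
  have ha : ∀ v ∈ ν.ker, (y : MulAut P) v = v → v = 1 := by
    intro v hv hyv
    apply hcop
    rw [MonoidHom.mem_ker, hν, Finset.prod_congr rfl (fun n _ => hfixN v hyv n), Finset.prod_const, Finset.card_univ, ← Nat.card_eq_fintype_card] at hv
    exact hv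
  have hb : ∀ v ∈ ν.ker, (y : MulAut P) v ∈ ν.ker := by
    intro v hv
    rw [MonoidHom.mem_ker] at hv ⊢
    have h1 : (y : MulAut P) (ν v) = ν ((y : MulAut P) v) := by
      rw [hν, hν, map_prod]
      apply Fintype.prod_equiv (MulAut.conjNormal y : MulAut N).toEquiv
      intro n
      have e : (((MulAut.conjNormal y n : N) : K) : MulAut P) = (y : MulAut P) * ((n : K) : MulAut P) * (y : MulAut P)⁻¹ := rfl
      show (y : MulAut P) (((n : K) : MulAut P) v) = (((MulAut.conjNormal y n : N) : K) : MulAut P) ((y : MulAut P) v)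
      rw [e]
      show _ = (y : MulAut P) (((n : K) : MulAut P) ((y : MulAut P)⁻¹ ((y : MulAut P) v)))
      rw [MulAut.inv_apply_self]
    rw [← h1, hv, map_one]
  have hW : ν.ker = ⊥ := by
    by_contra hWne
    have hWf : Fintype ν.ker := Fintype.ofFinite _
    let f : Function.End ν.ker := fun v => ⟨(y : MulAut P) v, hb v v.2⟩
    have hfp : ∀ j : ℕ, ∀ v, (((f ^ j) v : ν.ker) : P) = ((y : MulAut P) ^ j) v := by
      intro j
      induction j with
      | zero => intro v; rfl
      | succ j ih =>
        intro v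
        rw [pow_succ', pow_succ']
        show (y : MulAut P) (((f ^ j) v : ν.ker) : P) = (y : MulAut P) (((y : MulAut P) ^ j) v)
        rw [ih]
    have hf1 : f ^ p ^ 1 = 1 := by
      funext v
      apply Subtype.ext
      rw [hfp, pow_one]
      have : (y : MulAut P) ^ p = 1 := by
        have := pow_orderOf_eq_one y
        rw [hy] at this
        exact congrArg Subtype.val this
      rw [this]; rfl
    have hmod := Equiv.Perm.card_fixedPoints_modEq hf1
    have hpd : p ∣ Fintype.card ν.ker := by
      have h1 : IsPGroup p ν.ker := hP.to_subgroup _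
      have h2 : Nontrivial ν.ker := (Subgroup.nontrivial_iff_ne_bot _).2 hWne
      obtain ⟨k, hk0, hk⟩ := (IsPGroup.nontrivial_iff_card h1).1 h2
      rw [← Nat.card_eq_fintype_card, hk]
      exact dvd_pow_self p hk0.ne'
    have hpd2 : p ∣ Fintype.card f.fixedPoints := (Nat.modEq_zero_iff_dvd.1 (hmod.symm.trans (Nat.modEq_zero_iff_dvd.2 hpd)))
    have hone : (1 : ν.ker) ∈ f.fixedPoints := by
      show f 1 = 1
      apply Subtype.ext
      show (y : MulAut P) 1 = 1
      exact map_one _
    have hsub : Subsingleton f.fixedPoints := by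
      refine ⟨fun u v => ?_⟩
      have h1 : ∀ u : f.fixedPoints, ((u : ν.ker) : P) = 1 := by
        intro u
        apply ha _ (u : ν.ker).2
        have : f (u : ν.ker) = u := u.2
        exact congrArg Subtype.val this
      exact Subtype.ext (Subtype.ext ((h1 u).trans (h1 v).symm))
    have hle := Fintype.card_le_one_iff_subsingleton.2 hsub
    have hpos : 0 < Fintype.card f.fixedPoints := Fintype.card_pos_iff.2 ⟨⟨1, hone⟩⟩
    have := Nat.le_of_dvd hpos hpd2
    have := (Fact.out : p.Prime).one_lt
    omega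
  have hinj : Function.Injective ν := (MonoidHom.ker_eq_bot_iff ν).1 hW
  apply hn01
  apply Subtype.ext
  apply Subtype.ext
  ext v
  apply hinj
  show ν (((n0 : K) : MulAut P) v) = ν v
  rw [hν, hν]
  apply Fintype.prod_equiv (Equiv.mulRight n0)
  intro n
  rfl

end Cfsg.Agent.S4036
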