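import Cfsg.Statements.S4040
import Mathlib
import Cfsg.Agent.H3.MaxNil

set_option autoImplicit false
open Cfsg

namespace Cfsg.Agent.S4040

/-- A finite group possessing a maximal subgroup that is nilpotent of odd order is solvable. -/
theorem result {G : Type*} [Group G] [Finite G]
    (M : Subgroup G) (hmax : IsCoatom M) (hnil : Group.IsNilpotent M) (hodd : Odd (Nat.card M)) :
    Group.IsSolvable G := by
  classical
  refine H3.solvable_of_coatom_nilpotent M hmax hnil ?_
  intro P
  haveI : Fact (Nat.Prime 2) := ⟨Nat.prime_two⟩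
  obtain ⟨k, hk⟩ := IsPGroup.iff_card.mp P.2
  have h1 : Nat.card (P : Subgroup M) ∣ Nat.card M := Subgroup.card_subgroup_dvd_card _
  have hk0 : k = 0 := by
    by_contra h0
    rw [hk] at h1
    have h2 : 2 ∣ Nat.card M := (dvd_pow_self 2 h0).trans h1
    exact (Nat.not_even_iff_odd.2 hodd) (even_iff_two_dvd.2 h2)
  subst hk0
  rw [pow_zero] at hk
  haveI : Subsingleton (P : Subgroup M) := (Nat.card_eq_one_iff_unique.1 hk).1
  exact ⟨⟨fun a b => Subsingleton.elim _ _⟩⟩

end Cfsg.Agent.S4040
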