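import Cfsg.Statements.S4043
import Mathlib
import Cfsg.Agent.L0.Coprime
import Cfsg.Agent.H1.Transfer

set_option autoImplicit false
open Cfsg

namespace Cfsg.Agent.S4043

open Subgroup

theorem fixed_of_normalizes {G : Type*} [Group G] [Finite G] {p : ℕ} [hp : Fact p.Prime] (P C : Subgroup G) (hP : IsPGroup p P)
    (hC : IsPGroup p C) (hCne : C ≠ ⊥) (hPC : P ≤ normalizer (C : Set G)) :
    ∃ z ∈ C, z ≠ 1 ∧ ∀ x ∈ P, x * z * x⁻¹ = z := by
  let _ : MulAction P C := MulAction.compHom C ((Subgroup.normalizerMonoidHom C).comp (Subgroup.inclusion hPC))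
  have hsm : ∀ (g : P) (m : C), ((g • m : C) : G) = g * m * (g : G)⁻¹ := fun g m => rfl
  have h1 : (1 : C) ∈ MulAction.fixedPoints P C := by
    intro g
    apply Subtype.ext
    rw [hsm]; simp
  have hdvd : p ∣ Nat.card C := by
    obtain ⟨k, hk⟩ := IsPGroup.iff_card.mp hC
    rw [hk]
    apply dvd_pow_self
    rintro rfl
    rw [pow_zero] at hk
    exact hCne (Subgroup.card_eq_one.1 hk)
  obtain ⟨b, hb, hb1⟩ := hP.exists_fixed_point_of_prime_dvd_card_of_fixed_point C hdvd h1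
  refine ⟨b, b.2, fun h => hb1 (Subtype.ext h.symm), ?_⟩
  intro x hx
  have h2 := congrArg Subtype.val (hb ⟨x, hx⟩)
  rw [hsm] at h2
  exact h2

theorem step1 {G : Type*} [Group G] [Finite G] {p : ℕ} [hp : Fact p.Prime] (N A : Subgroup G) [hNn : N.Normal] (hN : IsPGroup p N)
    (R : Subgroup A) [hR : R.Normal] {k : ℕ} (hk : R.index = p ^ k)
    (hC : ∀ n : G, n ∈ N → (∀ a : G, a ∈ A → a * n * a⁻¹ = n) → n = 1) :
    N ⊓ centralizer ((R.map A.subtype : Subgroup G) : Set G) = ⊥ := by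
  by_contra hne
  set R' := R.map A.subtype with hR'
  set C := N ⊓ centralizer (R' : Set G) with hCdef
  have hRA : R' ≤ A := map_subtype_le R
  have hAR : A ≤ normalizer (R' : Set G) := by
    intro a ha
    rw [mem_normalizer_iff]
    intro x
    constructor
    · rintro ⟨y, hy, rfl⟩
      exact ⟨⟨a, ha⟩ * y * ⟨a, ha⟩⁻¹, hR.conj_mem y hy _, rfl⟩
    · rintro ⟨y, hy, hyx⟩
      refine ⟨⟨a, ha⟩⁻¹ * y * ⟨a, ha⟩, by simpa using hR.conj_mem y hy ⟨a, ha⟩⁻¹, ?_⟩
      have h1 : (y : G) = a * x * a⁻¹ := hyx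
      show a⁻¹ * (y : G) * a = x
      rw [h1]; group
  have hAC : A ≤ normalizer (C : Set G) := by
    intro a ha
    have hle : ∀ b ∈ A, ∀ x ∈ C, b * x * b⁻¹ ∈ C := by
      intro b hb x hx
      obtain ⟨hx1, hx2⟩ := Subgroup.mem_inf.1 hx
      refine Subgroup.mem_inf.2 ⟨hNn.conj_mem x hx1 b, ?_⟩
      rw [mem_centralizer_iff] at hx2 ⊢
      intro r hr
      have h1 : b⁻¹ * r * b ∈ R' := by
        have := (mem_normalizer_iff.1 (hAR (inv_mem hb)) r).1 hr
        simpa using this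
      have h2 := hx2 _ h1
      calc r * (b * x * b⁻¹) = b * ((b⁻¹ * r * b) * x) * b⁻¹ := by group
        _ = b * (x * (b⁻¹ * r * b)) * b⁻¹ := by rw [h2]
        _ = b * x * b⁻¹ * r := by group
    rw [mem_normalizer_iff]
    intro x
    refine ⟨hle a ha x, fun hx => ?_⟩
    have := hle a⁻¹ (inv_mem ha) _ hx
    have e : a⁻¹ * (a * x * a⁻¹) * a⁻¹⁻¹ = x := by group
    rwa [e] at this
  have hCp : IsPGroup p C := hN.to_le inf_le_left
  obtain ⟨P⟩ : Nonempty (Sylow p A) := inferInstance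
  have hPp : IsPGroup p ((P : Subgroup A).map A.subtype) := P.2.map _
  obtain ⟨z, hz, hz1, hzP⟩ := fixed_of_normalizes ((P : Subgroup A).map A.subtype) C hPp hCp hne
    ((map_subtype_le _).trans hAC)
  apply hz1
  obtain ⟨hzN, hzR⟩ := Subgroup.mem_inf.1 hz
  apply hC z hzN
  -- the subgroup of A centralizing z
  have key : ((centralizer ({z} : Set G)).subgroupOf A) = ⊤ := by
    have h1 : R ⊔ (P : Subgroup A) = ⊤ := by
      rw [← Subgroup.index_eq_one]
      by_contra hne1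
      obtain ⟨q, hq, hqd⟩ := Nat.exists_prime_and_dvd hne1
      have h2 : q ∣ p ^ k := hk ▸ hqd.trans (Subgroup.index_dvd_of_le le_sup_left)
      have h3 : q = p := (Nat.prime_dvd_prime_iff_eq hq hp.out).1 (hq.dvd_of_dvd_pow h2)
      subst h3
      exact P.not_dvd_index (hqd.trans (Subgroup.index_dvd_of_le le_sup_right))
    rw [eq_top_iff, ← h1, sup_le_iff]
    constructor
    · intro r hr
      rw [mem_subgroupOf, mem_centralizer_singleton_iff]
      rw [mem_centralizer_iff] at hzR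
      exact hzR (r : G) ⟨r, hr, rfl⟩
    · intro r hr
      rw [mem_subgroupOf, mem_centralizer_singleton_iff]
      have := hzP (r : G) ⟨r, hr, rfl⟩
      calc (r : G) * z = (r * z * (r : G)⁻¹) * r := by group
        _ = z * r := by rw [this]
  intro a ha
  have h1 : (⟨a, ha⟩ : A) ∈ ((centralizer ({z} : Set G)).subgroupOf A) := by rw [key]; trivial
  rw [mem_subgroupOf, mem_centralizer_singleton_iff] at h1
  have h2 : a * z = z * a := h1
  rw [h2]; group

open scoped Pointwise in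
theorem conj_norm {G : Type*} [Group G] (R' R₁' : Subgroup G) (n a : G) (hnR : MulAut.conj n • R' = R₁')
    (ha : a ∈ normalizer (R' : Set G)) : n * a * n⁻¹ ∈ normalizer (R₁' : Set G) := by
  rw [L0.mem_normalizer_conj, ← hnR, map_mul, map_mul, mul_smul, mul_smul, map_inv, inv_smul_smul,
      L0.mem_normalizer_conj.1 ha]

/-- Let G be a finite group that is the semidirect product of a normal p-subgroup N by a subgroup A, and also of N by a subgroup A₁, where p is a prime and A and A₁ both have normal p-complements. If C_N(A) = C_N(A₁) = 1, then A₁ is conjugate to A by an element of N. -/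
theorem result {G : Type*} [Group G] [Finite G] {p : ℕ}
    [Fact p.Prime] (N : Subgroup G) [N.Normal] (hN : IsPGroup p N) (A A₁ : Subgroup G)
    (hA : A.IsComplement' N) (hA₁ : A₁.IsComplement' N)
    (hAp : Cfsg.HasNormalPComplement p A) (hA₁p : Cfsg.HasNormalPComplement p A₁)
    (hC : ∀ n : G, n ∈ N → (∀ a : G, a ∈ A → a * n * a⁻¹ = n) → n = 1)
    (hC₁ : ∀ n : G, n ∈ N → (∀ a : G, a ∈ A₁ → a * n * a⁻¹ = n) → n = 1) :
    ∃ n : G, n ∈ N ∧ A₁ = A.map (MulAut.conj n).toMonoidHom := by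
  classical
  have hp : p.Prime := Fact.out
  obtain ⟨R, hR, hRc, k, hk⟩ := H1.hasNormalPComplement_iff.1 hAp
  obtain ⟨R₁, hR₁, hR₁c, k₁, hk₁⟩ := H1.hasNormalPComplement_iff.1 hA₁p
  have s1 := step1 N A hN R hk hC
  have s2 := step1 N A₁ hN R₁ hk₁ hC₁
  set R' := R.map A.subtype with hR'
  set R₁' := R₁.map A₁.subtype with hR₁'
  have hcR : Nat.card R' = Nat.card R := L0.card_map_subtype _ _
  have hcR₁ : Nat.card R₁' = Nat.card R₁ := L0.card_map_subtype _ _
  have hcA : Nat.card A = Nat.card A₁ := by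
    have h1 := hA.card_mul_card
    have h2 := hA₁.card_mul_card
    rw [← h2] at h1
    exact Nat.eq_of_mul_eq_mul_right Nat.card_pos h1
  have hcRR : Nat.card R₁ = Nat.card R := by
    have h1 := R.card_mul_index
    have h2 := R₁.card_mul_index
    rw [hk] at h1
    rw [hk₁, ← hcA, ← h1] at h2
    apply Nat.dvd_antisymm
    · exact (hR₁c.pow_right k).dvd_of_dvd_mul_right (h2 ▸ Dvd.intro _ rfl)
    · exact (hRc.pow_right k₁).dvd_of_dvd_mul_right (h2 ▸ Dvd.intro _ rfl)
  have hAR : A ≤ normalizer (R' : Set G) := by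
    intro a ha
    rw [mem_normalizer_iff]
    intro x
    constructor
    · rintro ⟨y, hy, rfl⟩
      exact ⟨⟨a, ha⟩ * y * ⟨a, ha⟩⁻¹, hR.conj_mem y hy _, rfl⟩
    · rintro ⟨y, hy, hyx⟩
      refine ⟨⟨a, ha⟩⁻¹ * y * ⟨a, ha⟩, by simpa using hR.conj_mem y hy ⟨a, ha⟩⁻¹, ?_⟩
      have h1 : (y : G) = a * x * a⁻¹ := hyx
      show a⁻¹ * (y : G) * a = x
      rw [h1]; group
  have hA₁R : A₁ ≤ normalizer (R₁' : Set G) := by
    intro a ha
    rw [mem_normalizer_iff]
    intro x
    constructor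
    · rintro ⟨y, hy, rfl⟩
      exact ⟨⟨a, ha⟩ * y * ⟨a, ha⟩⁻¹, hR₁.conj_mem y hy _, rfl⟩
    · rintro ⟨y, hy, hyx⟩
      refine ⟨⟨a, ha⟩⁻¹ * y * ⟨a, ha⟩, by simpa using hR₁.conj_mem y hy ⟨a, ha⟩⁻¹, ?_⟩
      have h1 : (y : G) = a * x * a⁻¹ := hyx
      show a⁻¹ * (y : G) * a = x
      rw [h1]; group
  have hNR : R' ≤ normalizer (N : Set G) := by rw [Subgroup.normalizer_eq_top]; exact le_top
  obtain ⟨j, hj⟩ := IsPGroup.iff_card.mp hN
  have hcop : (Nat.card R').Coprime (Nat.card N) := by rw [hcR, hj]; exact hRc.pow_right _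
  have hdis : N ⊓ R' = ⊥ := L0.inf_eq_bot_of_coprime' hcop.symm
  have hcsup := L0.card_sup_of_normalizes hNR hdis
  have hsn : (N ⊔ R').Normal := by
    rw [← Subgroup.normalizer_eq_top_iff, eq_top_iff, ← hA.sup_eq_top, sup_le_iff]
    constructor
    · intro a ha
      rw [L0.mem_normalizer_conj, Subgroup.smul_sup, L0.mem_normalizer_conj.1 (hAR ha),
        L0.mem_normalizer_conj.1 (show a ∈ normalizer (N : Set G) by rw [Subgroup.normalizer_eq_top]; trivial)]
    · exact le_sup_left.trans Subgroup.le_normalizer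
  have hsidx : (N ⊔ R').index = p ^ k := by
    have h1 := (N ⊔ R').card_mul_index
    have h2 := hA.card_mul_card
    have h3 := R.card_mul_index
    rw [hcsup, ← h2, ← h3, hk, hcR] at h1
    have h4 : Nat.card N * Nat.card R * (N ⊔ R').index = Nat.card N * Nat.card R * p ^ k := by rw [h1]; ring
    exact Nat.eq_of_mul_eq_mul_left (Nat.mul_pos Nat.card_pos Nat.card_pos) h4
  have hR₁le : R₁' ≤ N ⊔ R' := by
    intro r hr
    have h1 : IsPGroup p (G ⧸ (N ⊔ R')) := IsPGroup.of_card (n := k) hsidx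
    have h2 : (orderOf r).Coprime p := by
      have h3 : orderOf r ∣ Nat.card R₁ := by
        rw [← hcR₁]
        have := _root_.orderOf_dvd_natCard (⟨r, hr⟩ : R₁')
        rwa [Subgroup.orderOf_mk] at this
      exact Nat.Coprime.coprime_dvd_left h3 hR₁c
    have h3 := H1.map_eq_one_of_coprime h1 (QuotientGroup.mk' (N ⊔ R')) h2
    rwa [QuotientGroup.mk'_apply, QuotientGroup.eq_one_iff] at h3
  haveI : Group.IsNilpotent N := hN.isNilpotent
  obtain ⟨n, hn, hnR⟩ := L0.exists_conj_eq_of_le_sup hNR hcop (Or.inr inferInstance) hR₁le (by rw [hcR, hcR₁, hcRR])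
  refine ⟨n, hn, ?_⟩
  -- the normalizer of R₁'
  have hbot : N ⊓ normalizer (R₁' : Set G) = ⊥ := by
    rw [eq_bot_iff, ← s2]
    intro x hx
    obtain ⟨hx1, hx2⟩ := Subgroup.mem_inf.1 hx
    refine Subgroup.mem_inf.2 ⟨hx1, ?_⟩
    have hd : N ⊓ R₁' = ⊥ := L0.inf_eq_bot_of_coprime' (by rw [hcR₁, hj]; exact (hR₁c.pow_right _).symm)
    exact L0.commute_of_mem_normalizer_of_disjoint (show R₁' ≤ normalizer (N : Set G) by rw [Subgroup.normalizer_eq_top (H := N)]; exact le_top) hd hx1 hx2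
  have hcard : Nat.card (normalizer (R₁' : Set G)) ≤ Nat.card A₁ := by
    have h1 : Nat.card ↥(N ⊔ normalizer (R₁' : Set G)) = Nat.card N * Nat.card (normalizer (R₁' : Set G)) :=
      L0.card_sup_of_normalizes (by rw [Subgroup.normalizer_eq_top (H := N)]; exact le_top) hbot
    have h2 : Nat.card ↥(N ⊔ normalizer (R₁' : Set G)) ≤ Nat.card G := Subgroup.card_le_card_group _
    rw [h1, ← hA₁.card_mul_card, mul_comm] at h2
    exact Nat.le_of_mul_le_mul_right h2 Nat.card_pos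
  have e1 : A₁ = normalizer (R₁' : Set G) := Subgroup.eq_of_le_of_card_ge hA₁R hcard
  have e2 : A.map (MulAut.conj n).toMonoidHom ≤ normalizer (R₁' : Set G) := by
    rintro _ ⟨a, ha, rfl⟩
    show n * a * n⁻¹ ∈ _
    exact conj_norm R' R₁' n a hnR (hAR ha)
  have e3 : A.map (MulAut.conj n).toMonoidHom = normalizer (R₁' : Set G) := by
    apply Subgroup.eq_of_le_of_card_ge e2
    rw [L0.card_map_equiv, hcA]; exact hcard
  rw [e3, ← e1]

end Cfsg.Agent.S4043
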