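import Cfsg.Statements.S4049
import Cfsg.Agent.H2.RealOdd

set_option autoImplicit false
open Cfsg

namespace Cfsg.Agent.S4049

/-- Let G be a finite group such that N_G(H)/C_G(H) has odd order for every nontrivial subgroup H of odd order. Then the Sylow 2-subgroups of G are normal. -/
theorem result {G : Type*} [Group G] [Finite G]
    (hhom : ∀ H : Subgroup G, H ≠ ⊥ → ¬ 2 ∣ Nat.card ↥H →
        ¬ 2 ∣ (Subgroup.centralizer (H : Set G)).relIndex (Subgroup.normalizer (H : Set G))) (P : Sylow 2 G) :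
    (P : Subgroup G).Normal := by
  apply H2.normal_sylow_two_of_no_real_odd
  intro x hx1 hxo hx
  obtain ⟨c, hc⟩ := isConj_iff.1 hx
  set H := Subgroup.zpowers x with hH
  have hHne : H ≠ ⊥ := by rw [hH, Ne, Subgroup.zpowers_eq_bot]; exact hx1
  have hHo : ¬ 2 ∣ Nat.card H := by
    rw [hH, Nat.card_zpowers]
    intro h
    exact (Nat.not_even_iff_odd.2 hxo) (even_iff_two_dvd.2 h)
  apply hhom H hHne hHo
  have hconj : ∀ d : G, d * x * d⁻¹ = x⁻¹ → d ∈ Subgroup.normalizer (H : Set G) := by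
    have h1 : ∀ d : G, d * x * d⁻¹ = x⁻¹ → ∀ y ∈ H, d * y * d⁻¹ ∈ H := by
      intro d hd y hy
      obtain ⟨j, rfl⟩ := Subgroup.mem_zpowers_iff.1 hy
      rw [← conj_zpow, hd]
      exact zpow_mem (inv_mem (Subgroup.mem_zpowers _)) j
    intro d hd
    rw [Subgroup.mem_normalizer_iff]
    intro y
    refine ⟨h1 d hd y, fun hy => ?_⟩
    have hd' : d⁻¹ * x * d⁻¹⁻¹ = x⁻¹ := by
      have h3 : x = d⁻¹ * x⁻¹ * d := by rw [← hd]; group
      calc d⁻¹ * x * d⁻¹⁻¹ = (d⁻¹ * x⁻¹ * d)⁻¹ := by group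
        _ = x⁻¹ := by rw [← h3]
    have := h1 d⁻¹ hd' _ hy
    have e : d⁻¹ * (d * y * d⁻¹) * d⁻¹⁻¹ = y := by group
    rwa [e] at this
  have h2 := hconj c hc
  set C := Subgroup.centralizer (H : Set G) with hC
  set N := Subgroup.normalizer (H : Set G) with hN
  have hCn : (C.subgroupOf N).Normal := by
    rw [hC, hN]; infer_instance
  show 2 ∣ (C.subgroupOf N).index
  have hnot : (QuotientGroup.mk (⟨c, h2⟩ : N) : N ⧸ C.subgroupOf N) ≠ 1 := by
    intro h
    rw [QuotientGroup.eq_one_iff] at h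
    have h3 : c ∈ C := h
    have h4 := Subgroup.mem_centralizer_iff.1 h3 x (Subgroup.mem_zpowers x)
    have h5 : x = x⁻¹ := by
      rw [← hc, ← h4]; group
    have h6 : x ^ 2 = 1 := by
      rw [pow_two]; nth_rewrite 1 [h5]; exact inv_mul_cancel x
    have h7 := Nat.Coprime.eq_one_of_dvd (Nat.coprime_two_right.2 hxo) (orderOf_dvd_of_pow_eq_one h6)
    exact hx1 (orderOf_eq_one_iff.1 h7)
  have hsq : (QuotientGroup.mk (⟨c, h2⟩ : N) : N ⧸ C.subgroupOf N) ^ 2 = 1 := by
    rw [← QuotientGroup.mk_pow, QuotientGroup.eq_one_iff]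
    show c ^ 2 ∈ C
    have hcc : c * x = x⁻¹ * c := by rw [← hc]; group
    have hcc' : c * x⁻¹ = x * c := by
      have := congrArg (fun z => z⁻¹) hc
      simp only [mul_inv_rev, inv_inv] at this
      rw [← mul_assoc] at this
      exact mul_inv_eq_iff_eq_mul.1 this
    have h8 : c ^ 2 * x = x * c ^ 2 := by
      rw [pow_two]
      calc c * c * x = c * (c * x) := by group
        _ = c * x⁻¹ * c := by rw [hcc]; group
        _ = x * (c * c) := by rw [hcc']; group
    rw [hC, Subgroup.mem_centralizer_iff]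
    intro y hy
    obtain ⟨j, rfl⟩ := Subgroup.mem_zpowers_iff.1 hy
    exact (Commute.zpow_right (show Commute (c ^ 2) x from h8) j).symm.eq
  have h9 : orderOf (QuotientGroup.mk (⟨c, h2⟩ : N) : N ⧸ C.subgroupOf N) = 2 := orderOf_eq_prime hsq hnot
  rw [← h9]
  exact orderOf_dvd_natCard _

end Cfsg.Agent.S4049
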