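import Cfsg.Statements.S4050
import Mathlib
import Cfsg.Agent.H3.PiClosed

set_option autoImplicit false
open Cfsg

namespace Cfsg.Agent.S4050

/-- Let π be a set of primes and G a finite group. The π-elements of G (elements whose order is divisible only by primes of π) form a subgroup if and only if G is π-separable (it has a chain of normal subgroups from 1 to G with each successive index divisible only by primes in π or only by primes outside π) and N_G(H)/C_G(H) is a π'-group for every nontrivial π'-subgroup H of G. -/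
theorem result {G : Type*} [Group G] [Finite G] (π : Set ℕ)
    (hπ : ∀ p ∈ π, p.Prime) :
    (∃ K : Subgroup G, ∀ x : G, x ∈ K ↔ ∀ p : ℕ, p.Prime → p ∣ orderOf x → p ∈ π) ↔
    ((∃ (n : ℕ) (H : Fin (n + 1) → Subgroup G), H 0 = ⊥ ∧ H (Fin.last n) = ⊤ ∧ Monotone H ∧ (∀ i, (H i).Normal) ∧
      ∀ i : Fin n, (∀ q : ℕ, q.Prime → q ∣ (H i.castSucc).relIndex (H i.succ) → q ∈ π) ∨
        (∀ q : ℕ, q.Prime → q ∣ (H i.castSucc).relIndex (H i.succ) → q ∉ π)) ∧
     (∀ H : Subgroup G, H ≠ ⊥ → (∀ p : ℕ, p.Prime → p ∣ Nat.card ↥H → p ∉ π) →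
        ∀ p : ℕ, p.Prime → p ∣ (Subgroup.centralizer (H : Set G)).relIndex (Subgroup.normalizer (H : Set G)) → p ∉ π)) := by
  classical
  constructor
  · rintro ⟨K, hK⟩
    obtain ⟨hKn, hK1, hK2⟩ := H3.pi_sub_props π K hK
    refine ⟨⟨2, ![⊥, K, ⊤], rfl, rfl, ?_, ?_, ?_⟩, ?_⟩
    · rw [Fin.monotone_iff_le_succ]
      intro i
      fin_cases i
      · exact bot_le
      · exact le_top
    · intro i
      fin_cases i
      · exact (inferInstance : (⊥ : Subgroup G).Normal)
      · exact hKn
      · exact (inferInstance : (⊤ : Subgroup G).Normal)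
    · intro i
      fin_cases i
      · left
        intro q hq hqd
        have h1 : q ∣ (⊥ : Subgroup G).relIndex K := hqd
        rw [Subgroup.relIndex_bot_left] at h1
        exact hK1 q hq h1
      · right
        intro q hq hqd
        have h1 : q ∣ K.relIndex (⊤ : Subgroup G) := hqd
        rw [Subgroup.relIndex_top_right] at h1
        exact hK2 q hq h1
    · intro H hHb hH p hp hpd hpπ
      haveI : Fact p.Prime := ⟨hp⟩
      obtain ⟨P⟩ : Nonempty (Sylow p (Subgroup.normalizer (H : Set G))) := inferInstance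
      have hPC : (P : Subgroup (Subgroup.normalizer (H : Set G))) ≤ (Subgroup.centralizer (H : Set G)).subgroupOf (Subgroup.normalizer (H : Set G)) := by
        intro x hx
        rw [Subgroup.mem_subgroupOf, Subgroup.mem_centralizer_iff]
        intro h hh
        have hxK : (x : G) ∈ K := by
          rw [hK]
          intro r hr hrd
          obtain ⟨j, hj⟩ := (IsPGroup.iff_orderOf.mp P.2) ⟨x, hx⟩
          rw [Subgroup.orderOf_mk] at hj
          rw [Subgroup.orderOf_coe, hj] at hrd
          rw [(Nat.prime_dvd_prime_iff_eq hr hp).1 (hr.dvd_of_dvd_pow hrd)]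
          exact hpπ
        have h1 : h * x * h⁻¹ * (x : G)⁻¹ ∈ K := mul_mem (hKn.conj_mem _ hxK h) (inv_mem hxK)
        have h2 : h * x * h⁻¹ * (x : G)⁻¹ ∈ H := by
          have h3 : (x : G) * h⁻¹ * (x : G)⁻¹ ∈ H := (Subgroup.mem_normalizer_iff.1 x.2 h⁻¹).1 (inv_mem hh)
          have e : h * x * h⁻¹ * (x : G)⁻¹ = h * (x * h⁻¹ * (x : G)⁻¹) := by group
          rw [e]
          exact mul_mem hh h3
        have h3 : h * x * h⁻¹ * (x : G)⁻¹ = 1 := by
          rw [← orderOf_eq_one_iff]
          by_contra hne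
          obtain ⟨q, hq, hqd⟩ := Nat.exists_prime_and_dvd hne
          have h4 : q ∈ π := (hK _).1 h1 q hq hqd
          apply hH q hq _ h4
          have h5 : orderOf (h * x * h⁻¹ * (x : G)⁻¹) = orderOf (⟨_, h2⟩ : H) := by rw [Subgroup.orderOf_mk]
          rw [h5] at hqd
          exact hqd.trans (_root_.orderOf_dvd_natCard _)
        have h4 : h * x = (h * x * h⁻¹ * (x : G)⁻¹) * (x * h) := by group
        rw [h4, h3, one_mul]
      exact P.not_dvd_index (hpd.trans (Subgroup.index_dvd_of_le hPC))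
  · rintro ⟨⟨n, H, h0, hl, hmono, hnorm, hstep⟩, hhom⟩
    have hsep : ∀ N : Subgroup G, N.Normal → N ≠ ⊤ → ∃ M : Subgroup G, M.Normal ∧ N < M ∧
        ((∀ q : ℕ, q.Prime → q ∣ N.relIndex M → q ∈ π) ∨ (∀ q : ℕ, q.Prime → q ∣ N.relIndex M → q ∉ π)) := by
      intro N hN hNt
      have hex : ∃ i : Fin n, H i.castSucc ≤ N ∧ ¬ H i.succ ≤ N := by
        by_contra hcon
        push Not at hcon
        apply hNt
        have h1 : ∀ j : Fin (n + 1), H j ≤ N := by
          intro j
          induction j using Fin.induction with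
          | zero => rw [h0]; exact bot_le
          | succ i ih => exact hcon i ih
        have h2 := h1 (Fin.last n)
        rw [hl] at h2
        exact top_le_iff.1 h2
      obtain ⟨i, hi1, hi2⟩ := hex
      rcases hstep i with h | h
      · obtain ⟨M, hM, hM1, hM2⟩ := H3.sep_step π N (H i.succ) (H i.castSucc) hN (hnorm _) hi1 (hmono (Fin.castSucc_lt_succ).le) hi2 h
        exact ⟨M, hM, hM1, Or.inl hM2⟩
      · obtain ⟨M, hM, hM1, hM2⟩ := H3.sep_step {q : ℕ | q ∉ π} N (H i.succ) (H i.castSucc) hN (hnorm _) hi1 (hmono (Fin.castSucc_lt_succ).le) hi2 h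
        exact ⟨M, hM, hM1, Or.inr hM2⟩
    exact H3.pi_closed_core π _ G rfl hsep (H3.hom_elt π hhom)

end Cfsg.Agent.S4050
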