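import Cfsg.Statements.S4051
import Mathlib
import Cfsg.Agent.H3.PiClosed

set_option autoImplicit false
open Cfsg

namespace Cfsg.Agent.S4051

/-- Let π be a set of primes and G a finite group such that N_G(H)/C_G(H) is a π'-group for every nontrivial π'-subgroup H of G. If K is a normal subgroup of G such that the π-elements of K form a subgroup and the π-elements of G/K form a subgroup, then the π-elements of G form a subgroup. -/
theorem result {G : Type*} [Group G] [Finite G] (π : Set ℕ)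
    (hπ : ∀ p ∈ π, p.Prime) (hhom : (∀ H : Subgroup G, H ≠ ⊥ → (∀ p : ℕ, p.Prime → p ∣ Nat.card ↥H → p ∉ π) →
        ∀ p : ℕ, p.Prime → p ∣ (Subgroup.centralizer (H : Set G)).relIndex (Subgroup.normalizer (H : Set G)) → p ∉ π))
    (K : Subgroup G) [K.Normal]
    (hK : ∃ L : Subgroup ↥K, ∀ x : ↥K, x ∈ L ↔ ∀ p : ℕ, p.Prime → p ∣ orderOf x → p ∈ π)
    (hQ : ∃ L : Subgroup (G ⧸ K), ∀ x : G ⧸ K, x ∈ L ↔ ∀ p : ℕ, p.Prime → p ∣ orderOf x → p ∈ π) :
    (∃ K : Subgroup G, ∀ x : G, x ∈ K ↔ ∀ p : ℕ, p.Prime → p ∣ orderOf x → p ∈ π) := by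
  classical
  obtain ⟨L, hL⟩ := hK
  obtain ⟨LQ, hLQ⟩ := hQ
  obtain ⟨hLn, hL1, hL2⟩ := H3.pi_sub_props π L hL
  obtain ⟨hLQn, hLQ1, hLQ2⟩ := H3.pi_sub_props π LQ hLQ
  have hL'mem : ∀ x : G, x ∈ L.map K.subtype ↔ x ∈ K ∧ ∀ p : ℕ, p.Prime → p ∣ orderOf x → p ∈ π := by
    intro x
    constructor
    · rintro ⟨y, hy, rfl⟩
      refine ⟨y.2, ?_⟩
      have h1 := (hL y).1 hy
      intro p hp hd
      apply h1 p hp
      have h2 : orderOf (K.subtype y) = orderOf y := Subgroup.orderOf_coe y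
      rwa [h2] at hd
    · rintro ⟨h1, h2⟩
      refine ⟨⟨x, h1⟩, ?_, rfl⟩
      refine (hL ⟨x, h1⟩).2 ?_
      rw [Subgroup.orderOf_mk]; exact h2
  have hL'n : (L.map K.subtype).Normal := by
    constructor
    intro x hx g
    rw [hL'mem] at hx ⊢
    refine ⟨‹K.Normal›.conj_mem x hx.1 g, ?_⟩
    intro q hq hd
    apply hx.2 q hq
    have : orderOf (g * x * g⁻¹) = orderOf x := by
      have := orderOf_injective (MulAut.conj g).toMonoidHom (MulAut.conj g).injective x
      simpa using this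
    rwa [this] at hd
  have hsep : ∀ N : Subgroup G, N.Normal → N ≠ ⊤ → ∃ M : Subgroup G, M.Normal ∧ N < M ∧
      ((∀ q : ℕ, q.Prime → q ∣ N.relIndex M → q ∈ π) ∨ (∀ q : ℕ, q.Prime → q ∣ N.relIndex M → q ∉ π)) := by
    intro N hN hNt
    have hKK2 : K ≤ LQ.comap (QuotientGroup.mk' K) := by
      intro y hy
      rw [Subgroup.mem_comap, (QuotientGroup.mk'_apply K y), (QuotientGroup.eq_one_iff y).2 hy]; exact one_mem _
    by_cases h1 : L.map K.subtype ≤ N
    · by_cases h2 : K ≤ N
      · by_cases h3 : LQ.comap (QuotientGroup.mk' K) ≤ N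
        · have h4 : ¬ (⊤ : Subgroup G) ≤ N := fun h => hNt (top_le_iff.1 h)
          obtain ⟨M, hM, hM1, hM2⟩ := H3.sep_step {q : ℕ | q ∉ π} N ⊤ (LQ.comap (QuotientGroup.mk' K)) hN inferInstance h3 le_top h4 (by
            intro q hq hqd
            rw [Subgroup.relIndex_top_right, Subgroup.index_comap_of_surjective _ (QuotientGroup.mk'_surjective K)] at hqd
            exact hLQ2 q hq hqd)
          exact ⟨M, hM, hM1, Or.inr hM2⟩
        · obtain ⟨M, hM, hM1, hM2⟩ := H3.sep_step π N (LQ.comap (QuotientGroup.mk' K)) K hN (hLQn.comap _) h2 hKK2 h3 (by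
            intro q hq hqd
            rw [L0.relIndex_eq_card_map, Subgroup.map_comap_eq_self_of_surjective (QuotientGroup.mk'_surjective K)] at hqd
            exact hLQ1 q hq hqd)
          exact ⟨M, hM, hM1, Or.inl hM2⟩
      · obtain ⟨M, hM, hM1, hM2⟩ := H3.sep_step {q : ℕ | q ∉ π} N K (L.map K.subtype) hN ‹K.Normal› h1 (Subgroup.map_subtype_le _) h2 (by
            intro q hq hqd
            have h5 : (L.map K.subtype).relIndex K = L.index := by
              rw [Subgroup.relIndex]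
              congr 1
              exact Subgroup.comap_map_eq_self_of_injective (Subgroup.subtype_injective K) L
            rw [h5] at hqd
            exact hL2 q hq hqd)
        exact ⟨M, hM, hM1, Or.inr hM2⟩
    · obtain ⟨M, hM, hM1, hM2⟩ := H3.sep_step π N (L.map K.subtype) ⊥ hN hL'n bot_le bot_le h1 (by
            intro q hq hqd
            rw [Subgroup.relIndex_bot_left, Nat.card_congr (L.equivMapOfInjective K.subtype (Subgroup.subtype_injective K)).symm.toEquiv] at hqd
            exact hL1 q hq hqd)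
      exact ⟨M, hM, hM1, Or.inl hM2⟩
  exact H3.pi_closed_core π _ G rfl hsep (H3.hom_elt π hhom)

end Cfsg.Agent.S4051
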