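import Cfsg.Statements.S4056
import Mathlib
import Cfsg.Agent.H1.Class2
import Cfsg.Agent.H6.CopFrat

set_option autoImplicit false
open Cfsg

namespace Cfsg.Agent.S4056

open Subgroup
open scoped commutatorElement

/-- In a finite 2-group of nilpotency class at most 2 and exponent dividing 4, the Frattini subgroup lies in the centre and is elementary abelian. -/
theorem result {P : Type*} [Group P] [Finite P] (hP : IsPGroup 2 P)
    (hcl : Group.nilpotencyClass P ≤ 2) (hexp : Monoid.exponent P ∣ 4) :
    frattini P ≤ Subgroup.center P ∧ Cfsg.IsElementaryAbelian 2 (frattini P) := by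
  haveI := hP.isNilpotent
  have hcen : ∀ a b : P, ⁅a, b⁆ ∈ center P := by
    intro a b
    have h3 := (Subgroup.upperCentralSeries_eq_top_iff_nilpotencyClass_le (G := P) (n := 2)).2 hcl
    have h4 : a ∈ Subgroup.upperCentralSeries P 2 := by rw [h3]; trivial
    have h5 := (Subgroup.mem_upperCentralSeries_succ_iff (n := 1)).1 h4 b
    rw [Subgroup.upperCentralSeries_one] at h5
    have e : ⁅a, b⁆ = a * b * a⁻¹ * b⁻¹ := commutatorElement_def a b
    rw [e]; exact h5
  have h4 : ∀ a : P, a ^ 4 = 1 := fun a => orderOf_dvd_iff_pow_eq_one.1 ((Monoid.order_dvd_exponent a).trans hexp)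
  have hsq : ∀ a b : P, ⁅a, b⁆ ^ 2 = 1 := by
    intro a b
    have h1 := H1.mul_pow_class_two (x := b) (y := a) (H1.commute_of_mem_center (hcen a b)) (H1.commute_of_mem_center (hcen a b)) 4
    rw [h4, h4, h4, show Nat.choose 4 2 = 4 + 2 from rfl, pow_add, h4] at h1
    simpa using h1.symm
  let K : Subgroup P :=
    { carrier := {z | z ∈ center P ∧ z ^ 2 = 1}
      one_mem' := ⟨one_mem _, one_pow _⟩
      mul_mem' := by
        rintro a b ⟨ha, ha2⟩ ⟨hb, hb2⟩
        refine ⟨mul_mem ha hb, ?_⟩
        have : Commute a b := H1.commute_of_mem_center ha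
        rw [this.mul_pow, ha2, hb2, one_mul]
      inv_mem' := by
        rintro a ⟨ha, ha2⟩
        exact ⟨inv_mem ha, by rw [inv_pow, ha2, inv_one]⟩ }
  have hK : frattini P ≤ K := by
    apply H6.frattini_le_of_pow (p := 2) K
    · rw [_root_.commutator_def, Subgroup.commutator_le]
      intro a _ b _
      exact ⟨hcen a b, hsq a b⟩
    · intro x
      refine ⟨?_, ?_⟩
      · rw [mem_center_iff]
        intro g
        have h1 := H1.comm_pow_left (H1.commute_of_mem_center (g := x) (hcen x g)) 2
        rw [hsq, commutatorElement_eq_one_iff_mul_comm] at h1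
        exact h1.symm
      · rw [← pow_mul]; exact h4 x
  refine ⟨fun x hx => (hK hx).1, ?_, fun x hx => (hK hx).2⟩
  refine ⟨⟨?_⟩⟩
  rintro ⟨a, ha⟩ ⟨b, hb⟩
  apply Subtype.ext
  exact (H1.commute_of_mem_center (hK ha).1).eq

end Cfsg.Agent.S4056
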