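import Cfsg.Statements.S4058
import Cfsg.Agent.H4.FrobSchur
import Cfsg.Agent.H4.LinChar
import Cfsg.Agent.S0012
import Mathlib

set_option autoImplicit false
open Cfsg

namespace Cfsg.Agent.S4058

open scoped ComplexConjugate
open Cfsg.Agent.H5
open Cfsg.Agent.H4 (fsInd fsInd_irr card_sqrt)
open scoped commutatorElement

theorem dvd_sum_of_orbits {Λ X : Type*} [Group Λ] [Finite Λ] [Fintype X] [MulAction Λ X]
    (f : X → ℤ) (hf : ∀ (l : Λ) x, f (l • x) = f x) (N : ℤ)
    (h : ∀ x, N ∣ (Nat.card (MulAction.orbit Λ x) : ℤ) * f x) : N ∣ ∑ x, f x := by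
  classical
  rw [← Finset.sum_fiberwise (Finset.univ : Finset X)
    (fun x => (Quotient.mk (MulAction.orbitRel Λ X) x : MulAction.orbitRel.Quotient Λ X)) f]
  apply Finset.dvd_sum
  intro ω _
  obtain ⟨x0, rfl⟩ := Quotient.exists_rep ω
  have h1 : ∀ x ∈ Finset.filter (fun x => (Quotient.mk (MulAction.orbitRel Λ X) x : MulAction.orbitRel.Quotient Λ X) = Quotient.mk _ x0) Finset.univ,
      f x = f x0 := by
    intro x hx
    have hx' := (Finset.mem_filter.1 hx).2
    have hx2 : x ∈ MulAction.orbit Λ x0 := Quotient.exact hx'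
    obtain ⟨l, rfl⟩ := hx2
    exact hf l x0
  rw [Finset.sum_congr rfl h1, Finset.sum_const, nsmul_eq_mul]
  have h2 : (Finset.filter (fun x => (Quotient.mk (MulAction.orbitRel Λ X) x : MulAction.orbitRel.Quotient Λ X) = Quotient.mk _ x0) Finset.univ).card
      = Nat.card (MulAction.orbit Λ x0) := by
    rw [Nat.card_eq_fintype_card, ← Set.toFinset_card]
    congr 1
    ext x
    simp only [Finset.mem_filter, Finset.mem_univ, true_and, Set.mem_toFinset]
    constructor
    · intro h; exact Quotient.exact h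
    · intro h; exact Quotient.sound h
  rw [h2]
  exact h x0

theorem irr_mul_lin {G : Type*} [Group G] [Finite G] (lam : G →* ℂˣ) {χ : G → ℂ} (h : IsIrrCharacter G χ) :
    IsIrrCharacter G (fun g => (lam g : ℂ) * χ g) := by
  classical
  have := Fintype.ofFinite G
  rw [isIrrCharacter_iff_inner]
  refine ⟨isCharacter_mul (IsIrr.isCharacter (isIrrCharacter_hom lam)) (IsIrr.isCharacter h), ?_⟩
  have h1 := (isIrrCharacter_iff_inner.1 h).2
  have h2 := (isIrrCharacter_iff_inner.1 (isIrrCharacter_hom lam)).1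
  have hn : ∀ g, (lam g : ℂ) * conj (lam g : ℂ) = 1 := by
    intro g
    have := IsCharacter.inv_eq_conj h2 g
    rw [← this, map_inv]
    simp
  rw [classInner_def] at h1 ⊢
  rw [← h1]
  congr 1
  apply Finset.sum_congr rfl
  intro g _
  rw [map_mul]
  linear_combination (χ g * conj (χ g)) * hn g

/-- action of linear characters of a quotient -/
@[reducible] noncomputable def linAct {G Q : Type*} [Group G] [Finite G] [Group Q] (π : G →* Q) : MulAction (Q →* ℂˣ) (IrrCharacter G) where
  smul l χ := ⟨fun g => ((l.comp π) g : ℂ) * (χ : G → ℂ) g, irr_mul_lin _ χ.2⟩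
  one_smul χ := by
    apply Subtype.ext; funext g
    show (((1 : Q →* ℂˣ).comp π) g : ℂ) * (χ : G → ℂ) g = _
    simp
  mul_smul l m χ := by
    apply Subtype.ext; funext g
    show (((l * m).comp π) g : ℂ) * (χ : G → ℂ) g = ((l.comp π) g : ℂ) * (((m.comp π) g : ℂ) * (χ : G → ℂ) g)
    simp [mul_assoc]

theorem stab_le {G Q : Type*} [Group G] [Finite G] [Group Q] [Finite Q] (π : G →* Q) (hπ : Function.Surjective π) (χ : IrrCharacter G) :
    Nat.card {l : Q →* ℂˣ // ∀ g, ((l.comp π) g : ℂ) * (χ : G → ℂ) g = (χ : G → ℂ) g} ≤ charDegree (χ : G → ℂ) ^ 2 := by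
  classical
  have := Fintype.ofFinite G
  have hc := IsIrr.isCharacter χ.2
  let θ : G → ℂ := fun g => (χ : G → ℂ) g * conj ((χ : G → ℂ) g)
  have hθ : IsCharacter G θ := isCharacter_mul hc (isCharacter_conj hc)
  have hnat := IsCharacter.inner_nat hθ
  choose n hn using hnat
  have hexp : θ 1 = ∑ ψ : IrrCharacter G, (n ψ : ℂ) * (ψ : G → ℂ) 1 := by
    rw [classFun_expansion_apply (IsCharacter.classFun hθ) 1]
    apply Finset.sum_congr rfl; intro ψ _; rw [hn]
  have hexp2 : charDegree (χ : G → ℂ) ^ 2 = ∑ ψ : IrrCharacter G, n ψ * charDegree (ψ : G → ℂ) := by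
    have h1 : θ 1 = ((charDegree (χ : G → ℂ) ^ 2 : ℕ) : ℂ) := by
      simp only [θ]
      rw [IsCharacter.one_eq_charDegree hc, Complex.conj_natCast]; push_cast; ring
    rw [h1] at hexp
    have h2 : ∀ ψ : IrrCharacter G, (n ψ : ℂ) * (ψ : G → ℂ) 1 = ((n ψ * charDegree (ψ : G → ℂ) : ℕ) : ℂ) := by
      intro ψ
      rw [IsCharacter.one_eq_charDegree (IsIrr.isCharacter ψ.2)]; push_cast; ring
    rw [Finset.sum_congr rfl (fun ψ _ => h2 ψ)] at hexp
    exact_mod_cast hexp
  let S := {l : Q →* ℂˣ // ∀ g, ((l.comp π) g : ℂ) * (χ : G → ℂ) g = (χ : G → ℂ) g}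
  let F : S → IrrCharacter G := fun l => ⟨fun g => ((l.1.comp π) g : ℂ), isIrrCharacter_hom _⟩
  have hF : Function.Injective F := by
    intro a b hab
    apply Subtype.ext
    apply MonoidHom.ext
    intro q
    obtain ⟨g, rfl⟩ := hπ q
    have h1 := congrArg (fun χ : IrrCharacter G => (χ : G → ℂ) g) hab
    simp only [F] at h1
    exact Units.ext h1
  have hone : ∀ l : S, 1 ≤ n (F l) * charDegree (F l : G → ℂ) := by
    intro l
    have h1 : n (F l) = 1 := by
      have h2 : classInner θ (F l : G → ℂ) = 1 := by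
        rw [← (isIrrCharacter_iff_inner.1 χ.2).2, classInner_def, classInner_def]
        congr 1
        apply Finset.sum_congr rfl; intro g _
        have h3 := l.2 g
        have h4 : conj ((l.1.comp π) g : ℂ) * conj ((χ : G → ℂ) g) = conj ((χ : G → ℂ) g) := by
          rw [← map_mul, h3]
        simp only [θ, F]
        linear_combination ((χ : G → ℂ) g) * h4
      rw [hn] at h2
      exact_mod_cast h2
    rw [h1, one_mul]
    exact charDegree_pos (F l).2
  have : Finite S := Finite.of_injective F hF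
  have := Fintype.ofFinite S
  rw [hexp2, Nat.card_eq_fintype_card, ← Finset.card_univ, Finset.card_eq_sum_ones]
  calc ∑ l : S, 1 ≤ ∑ l : S, n (F l) * charDegree (F l : G → ℂ) := Finset.sum_le_sum (fun l _ => hone l)
    _ = ∑ ψ ∈ Finset.univ.image F, n ψ * charDegree (ψ : G → ℂ) := by
        rw [Finset.sum_image (fun a _ b _ h => hF h)]
    _ ≤ _ := Finset.sum_le_sum_of_subset (Finset.subset_univ _)

theorem comm_of_frattini {G : Type*} [Group G] [Finite G] (hG : IsPGroup 2 G) :
    (∀ a b : G ⧸ frattini G, a * b = b * a) ∧ ∀ a : G ⧸ frattini G, a ^ 2 = 1 := by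
  have : Fact (Nat.Prime 2) := ⟨Nat.prime_two⟩
  obtain ⟨h1, h2⟩ := Cfsg.Agent.S0012.result 2 hG
  constructor
  · intro a b
    induction a using QuotientGroup.induction_on with | H a => ?_
    induction b using QuotientGroup.induction_on with | H b => ?_
    rw [← QuotientGroup.mk_mul, ← QuotientGroup.mk_mul, QuotientGroup.eq]
    have h3 : ⁅b⁻¹, a⁻¹⁆ ∈ frattini G := h1 (Subgroup.commutator_mem_commutator (Subgroup.mem_top _) (Subgroup.mem_top _))
    have h4 : (a * b)⁻¹ * (b * a) = ⁅b⁻¹, a⁻¹⁆ := by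
      rw [commutatorElement_def]; group
    rw [h4]; exact h3
  · intro a
    induction a using QuotientGroup.induction_on with | H a => ?_
    rw [← QuotientGroup.mk_pow, QuotientGroup.eq_one_iff]
    exact h2 a

/-- Let G be a finite 2-group with #(G/Φ(G)) ≥ 2^(2k+1). Then the number of elements x of G with x² = 1 is divisible by 2^(k+1). -/
theorem result {G : Type*} [Group G] [Finite G] (hG : IsPGroup 2 G) (k : ℕ)
    (hgen : 2 ^ (2 * k + 1) ≤ Nat.card (G ⧸ frattini G)) :
    2 ^ (k + 1) ∣ Nat.card {x : G // x ^ 2 = 1} := by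
  classical
  have hp2 : Fact (Nat.Prime 2) := ⟨Nat.prime_two⟩
  have := Fintype.ofFinite G
  obtain ⟨hcomm, hsq⟩ := comm_of_frattini hG
  let π : G →* G ⧸ frattini G := QuotientGroup.mk' (frattini G)
  have hπ : Function.Surjective π := QuotientGroup.mk'_surjective _
  let act : MulAction ((G ⧸ frattini G) →* ℂˣ) (IrrCharacter G) := linAct π
  have hsmul : ∀ (l : (G ⧸ frattini G) →* ℂˣ) (χ : IrrCharacter G) (g : G),
      ((l • χ : IrrCharacter G) : G → ℂ) g = ((l (π g) : ℂˣ) : ℂ) * (χ : G → ℂ) g := fun _ _ _ => rfl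
  have hcardΛ : Nat.card ((G ⧸ frattini G) →* ℂˣ) = Nat.card (G ⧸ frattini G) := by
    rw [Cfsg.Agent.H4.card_hom_units]
    have : commutator (G ⧸ frattini G) = ⊥ := by
      rw [_root_.commutator_def, eq_bot_iff, Subgroup.commutator_le]
      intro a _ b _
      rw [Subgroup.mem_bot, commutatorElement_eq_one_iff_mul_comm]
      exact hcomm a b
    rw [this, Subgroup.index_bot]
  have : Finite ((G ⧸ frattini G) →* ℂˣ) := Nat.finite_of_card_ne_zero (by rw [hcardΛ]; exact Nat.card_pos.ne')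
  have hnu : ∀ χ : IrrCharacter G, ∃ ν : ℤ, fsInd (χ : G → ℂ) = ν := by
    intro χ
    rcases fsInd_irr χ with h | h | h
    · exact ⟨0, by rw [h]; simp⟩
    · exact ⟨1, by rw [h]; simp⟩
    · exact ⟨-1, by rw [h]; simp⟩
  choose ν hν using hnu
  have := Fintype.ofFinite ((G ⧸ frattini G) →* ℂˣ)
  have hcount : ((Nat.card {x : G // x ^ 2 = 1} : ℕ) : ℤ) = ∑ χ : IrrCharacter G, ν χ * (charDegree (χ : G → ℂ) : ℤ) := by
    have h1 := card_sqrt (G := G) 1
    have h2 : Nat.card {s : G // s * s = 1} = Nat.card {x : G // x ^ 2 = 1} := by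
      apply Nat.card_congr
      exact Equiv.subtypeEquivRight (fun x => by rw [pow_two])
    rw [h2] at h1
    have h3 : ∀ χ : IrrCharacter G, fsInd (χ : G → ℂ) * (χ : G → ℂ) 1 = ((ν χ * (charDegree (χ : G → ℂ) : ℤ) : ℤ) : ℂ) := by
      intro χ
      rw [hν, IsCharacter.one_eq_charDegree (IsIrr.isCharacter χ.2)]; push_cast; ring
    rw [Finset.sum_congr rfl (fun χ _ => h3 χ)] at h1
    exact_mod_cast h1
  have hdeg : ∀ (l : (G ⧸ frattini G) →* ℂˣ) (χ : IrrCharacter G), charDegree ((l • χ : IrrCharacter G) : G → ℂ) = charDegree (χ : G → ℂ) := by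
    intro l χ
    have h1 := hsmul l χ 1
    rw [map_one, map_one, Units.val_one, one_mul, IsCharacter.one_eq_charDegree (IsIrr.isCharacter χ.2),
      IsCharacter.one_eq_charDegree (IsIrr.isCharacter (l • χ).2)] at h1
    exact_mod_cast h1
  have hnuinv : ∀ (l : (G ⧸ frattini G) →* ℂˣ) (χ : IrrCharacter G), ν (l • χ) = ν χ := by
    intro l χ
    have h1 : fsInd ((l • χ : IrrCharacter G) : G → ℂ) = fsInd (χ : G → ℂ) := by
      unfold fsInd
      congr 1
      apply Finset.sum_congr rfl; intro s _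
      rw [hsmul, map_mul, ← pow_two, hsq, map_one, Units.val_one, one_mul]
    rw [hν, hν] at h1
    exact_mod_cast h1
  have hmain : ((2 ^ (k + 1) : ℕ) : ℤ) ∣ ∑ χ : IrrCharacter G, ν χ * (charDegree (χ : G → ℂ) : ℤ) := by
    apply dvd_sum_of_orbits (Λ := (G ⧸ frattini G) →* ℂˣ)
    · intro l χ
      rw [hdeg, hnuinv]
    · intro χ
      have h1 : 2 ^ (k + 1) ∣ Nat.card (MulAction.orbit ((G ⧸ frattini G) →* ℂˣ) χ) * charDegree (χ : G → ℂ) := by
        have h2 := MulAction.card_orbit_mul_card_stabilizer_eq_card_group ((G ⧸ frattini G) →* ℂˣ) χ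
        simp only [← Nat.card_eq_fintype_card] at h2
        obtain ⟨d, hd⟩ := IsPGroup.iff_card.1 (hG.to_quotient (frattini G))
        obtain ⟨a, ha, ha'⟩ : ∃ a, a ≤ a ∧ charDegree (χ : G → ℂ) = 2 ^ a := by
          obtain ⟨n, hn⟩ := IsPGroup.iff_card.1 hG
          have h3 := charDegree_dvd_card χ.2
          rw [hn] at h3
          obtain ⟨a, _, ha⟩ := (Nat.dvd_prime_pow Nat.prime_two).1 h3
          exact ⟨a, le_rfl, ha⟩
        rw [hcardΛ, hd] at h2
        have h4 : Nat.card (MulAction.stabilizer ((G ⧸ frattini G) →* ℂˣ) χ) ≤ charDegree (χ : G → ℂ) ^ 2 := by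
          refine le_trans (le_of_eq ?_) (stab_le π hπ χ)
          apply Nat.card_congr
          apply Equiv.subtypeEquivRight
          intro l
          rw [MulAction.mem_stabilizer_iff]
          constructor
          · intro h g
            have := congrArg (fun χ : IrrCharacter G => (χ : G → ℂ) g) h
            simp only [hsmul] at this
            exact this
          · intro h
            apply Subtype.ext; funext g
            rw [hsmul]; exact h g
        obtain ⟨s, _, hs⟩ := (Nat.dvd_prime_pow Nat.prime_two).1 (Dvd.intro_left _ h2)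
        obtain ⟨b, _, hb⟩ := (Nat.dvd_prime_pow Nat.prime_two).1 (Dvd.intro _ h2)
        rw [hs, hb, ← pow_add] at h2
        have h5 : b + s = d := Nat.pow_right_injective (le_refl 2) h2
        rw [hs, ha', ← pow_mul] at h4
        have h6 : s ≤ a * 2 := (Nat.pow_le_pow_iff_right (by norm_num)).1 h4
        have h7 : 2 * k + 1 ≤ d := by
          rw [hd] at hgen
          exact (Nat.pow_le_pow_iff_right (by norm_num)).1 hgen
        rw [hb, ha', ← pow_add]
        apply pow_dvd_pow
        omega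
      have h2 : ((2 ^ (k + 1) : ℕ) : ℤ) ∣ ((Nat.card (MulAction.orbit ((G ⧸ frattini G) →* ℂˣ) χ) * charDegree (χ : G → ℂ) : ℕ) : ℤ) :=
        Int.natCast_dvd_natCast.2 h1
      have h3 : (Nat.card (MulAction.orbit ((G ⧸ frattini G) →* ℂˣ) χ) : ℤ) * (ν χ * (charDegree (χ : G → ℂ) : ℤ))
          = ((Nat.card (MulAction.orbit ((G ⧸ frattini G) →* ℂˣ) χ) * charDegree (χ : G → ℂ) : ℕ) : ℤ) * ν χ := by
        push_cast; ring
      rw [h3]
      exact Dvd.dvd.mul_right h2 _
  rw [← hcount] at hmain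
  exact Int.natCast_dvd_natCast.1 hmain

end Cfsg.Agent.S4058
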