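import Cfsg.Statements.S4066
import Mathlib
import Cfsg.Agent.H3.FH
import Cfsg.Agent.H1.Basic
import Cfsg.Agent.L0.Core
import Cfsg.Agent.H3.Basic

set_option autoImplicit false
open Cfsg

namespace Cfsg.Agent.S4066

open Subgroup

/-- Let G be a finite group in which the centralizer of every element meets each of its conjugates by elements outside its normalizer trivially. Then any two distinct Sylow p-subgroups of G, for any prime p, intersect trivially. -/
theorem result {G : Type*} [Group G] [Finite G] (hTI : ∀ x : G, Cfsg.IsTISubset (Subgroup.centralizer ({x} : Set G) : Set G))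
    {p : ℕ} [Fact p.Prime] (P Q : Sylow p G) (hPQ : P ≠ Q) : (P : Subgroup G) ⊓ (Q : Subgroup G) = ⊥ := by
  by_contra hne
  obtain ⟨⟨x, hx⟩, hx1'⟩ := Subgroup.ne_bot_iff_exists_ne_one.1 hne
  have hx1 : x ≠ 1 := fun h => hx1' (Subtype.ext h)
  obtain ⟨hxP, hxQ⟩ := hx
  -- z in the centre of P
  obtain ⟨g, hg⟩ := MulAction.exists_smul_eq G P Q
  haveI hPn : Nontrivial P := ⟨⟨⟨x, hxP⟩, 1, fun h => hx1 (congrArg Subtype.val h)⟩⟩
  haveI hcb : Nontrivial (center P) := P.2.center_nontrivial
  obtain ⟨z, hz⟩ := exists_ne (1 : center P)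
  have hz1 : ((z : P) : G) ≠ 1 := fun h => hz (Subtype.ext (Subtype.ext h))
  have hPz : (P : Subgroup G) ≤ centralizer ({((z : P) : G)} : Set G) := by
    intro y hy
    rw [mem_centralizer_singleton_iff]
    exact congrArg Subtype.val (mem_center_iff.1 z.2 ⟨y, hy⟩)
  set C := centralizer ({((z : P) : G)} : Set G) with hC
  have hgC : g ∈ normalizer (C : Set G) := by
    by_contra hgn
    have h1 : g⁻¹ ∉ normalizer (C : Set G) := fun h => hgn (by simpa using inv_mem h)
    have hxQ' : g⁻¹ * x * g ∈ (P : Subgroup G) := by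
      have : x ∈ ((g • P : Sylow p G) : Subgroup G) := by rw [hg]; exact hxQ
      rw [H3.mem_smul_sylow_iff] at this
      exact this
    have h2 := hTI _ g⁻¹ h1 x (hPz hxP) (by
      rw [inv_inv]; exact hPz hxQ')
    exact hx1 h2
  have hQC : (Q : Subgroup G) ≤ C := by
    intro y hy
    have : y ∈ ((g • P : Sylow p G) : Subgroup G) := by rw [hg]; exact hy
    rw [H3.mem_smul_sylow_iff] at this
    have h3 := (mem_normalizer_iff.1 hgC _).1 (hPz this)
    have e : g * (g⁻¹ * y * g) * g⁻¹ = y := by group
    rwa [e] at h3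
  have hzC : ((z : P) : G) ∈ C := by rw [hC, mem_centralizer_singleton_iff]
  -- centralizers of elements of C are normalized by C
  have hnorm : ∀ y ∈ C, ∀ c ∈ C, c ∈ normalizer (centralizer ({y} : Set G) : Set G) := by
    intro y hy c hc
    by_contra hcn
    refine hz1 (hTI y c hcn (z : P) ?_ ?_)
    · rw [SetLike.mem_coe, mem_centralizer_singleton_iff]
      rw [hC, mem_centralizer_singleton_iff] at hy
      exact hy.symm
    · rw [SetLike.mem_coe, mem_centralizer_singleton_iff]
      rw [hC, mem_centralizer_singleton_iff] at hy hc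
      have e : c * ((z : P) : G) * c⁻¹ = (z : P) := by rw [hc]; group
      rw [e]; exact hy.symm
  have hcomm : ∀ y ∈ C, ∀ c ∈ C, Commute (c * y * c⁻¹) y := by
    intro y hy c hc
    have h1 := (mem_normalizer_iff.1 (hnorm y hy c hc) y).1 (by rw [mem_centralizer_singleton_iff])
    rw [mem_centralizer_singleton_iff] at h1
    exact h1
  have hnil : Group.IsNilpotent C := by
    have htop : fittingSubgroup C = ⊤ := by
      rw [eq_top_iff]
      intro y _
      have hcl : ∀ a ∈ Group.conjugatesOfSet ({y} : Set C), ∀ b ∈ Group.conjugatesOfSet ({y} : Set C), a * b = b * a := by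
          intro a ha b hb
          rw [Group.mem_conjugatesOfSet_iff] at ha hb
          obtain ⟨y1, hy1, ha⟩ := ha
          obtain ⟨y2, hy2, hb⟩ := hb
          rw [Set.mem_singleton_iff] at hy1 hy2
          rw [hy1] at ha
          rw [hy2] at hb
          obtain ⟨c, rfl⟩ := isConj_iff.1 ha
          obtain ⟨d, rfl⟩ := isConj_iff.1 hb
          have h1 := hcomm (d * y * d⁻¹ : C) (d * y * d⁻¹ : C).2 (c * d⁻¹ : C) (c * d⁻¹ : C).2
          apply Subtype.ext
          have h2 := h1.eq
          push_cast at h2 ⊢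
          have e : (c : G) * (d : G)⁻¹ * ((d : G) * y * (d : G)⁻¹) * ((c : G) * (d : G)⁻¹)⁻¹ = c * y * (c : G)⁻¹ := by group
          rw [e] at h2
          exact h2
      have h1 : Subgroup.normalClosure ({y} : Set C) ≤ fittingSubgroup C := by
        apply L0.le_fittingSubgroup
        letI : CommGroup (Subgroup.normalClosure ({y} : Set C)) := Subgroup.closureCommGroupOfComm hcl
        exact CommGroup.isNilpotent
      exact h1 (Subgroup.subset_normalClosure rfl)
    have h2 := L0.fittingSubgroup_isNilpotent C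
    rw [htop] at h2
    exact (Group.isNilpotent_congr (Subgroup.topEquiv (G := C))).1 h2
  apply hPQ
  have h1 := ((Group.isNilpotent_of_finite_tfae (G := C)).out 0 3).mp hnil
  have h3 : ((P.subtype hPz : Sylow p C) : Subgroup C).Normal := h1 p inferInstance _
  have h2 : (P.subtype hPz : Sylow p C) = Q.subtype hQC := by
    haveI := h3
    haveI := Sylow.unique_of_normal _ h3
    exact Subsingleton.elim _ _
  have h4 : ((P.subtype hPz : Sylow p C) : Subgroup C) = ((Q.subtype hQC : Sylow p C) : Subgroup C) := congrArg _ h2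
  rw [Sylow.coe_subtype, Sylow.coe_subtype, Subgroup.subgroupOf_inj, inf_eq_left.2 hPz, inf_eq_left.2 hQC] at h4
  exact Sylow.ext h4

end Cfsg.Agent.S4066
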