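import Cfsg.Statements.S4071
import Mathlib
import Cfsg.Agent.L0.Coprime2
import Cfsg.Agent.H1.Basic
import Cfsg.Agent.H3.PiClosed
import Cfsg.Agent.H3.Basic

set_option autoImplicit false
open Cfsg

namespace Cfsg.Agent.S4071

open Subgroup Cfsg.Agent.L0
open scoped commutatorElement Pointwise

theorem exists_prime_index {G : Type*} [Group G] [Finite G] [Nontrivial G] [hs : Group.IsSolvable G] :
    ∃ M : Subgroup G, M.Normal ∧ M.index.Prime := by
  have h1 : commutator G ≠ ⊤ := (Group.IsSolvable.commutator_lt_top_of_nontrivial G).ne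
  obtain ⟨M, hM, hcM⟩ := (eq_top_or_exists_le_coatom (commutator G)).resolve_left h1
  have hMn : M.Normal := by
    constructor
    intro m hm g
    have e : g * m * g⁻¹ = ⁅g, m⁆ * m := by rw [commutatorElement_def]; group
    rw [e]
    exact mul_mem (hcM (by rw [_root_.commutator_def]; exact commutator_mem_commutator (mem_top _) (mem_top _))) hm
  refine ⟨M, hMn, ?_⟩
  have h2 : M.index ≠ 1 := fun h => hM.1 (Subgroup.index_eq_one.1 h)
  obtain ⟨q, hq, hqd⟩ := Nat.exists_prime_and_dvd h2
  haveI : Fact q.Prime := ⟨hq⟩
  obtain ⟨zb, hzb⟩ := exists_prime_orderOf_dvd_card' (G := G ⧸ M) q hqd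
  obtain ⟨z, rfl⟩ := QuotientGroup.mk'_surjective M zb
  have hzM : z ∉ M := by
    intro h
    have : QuotientGroup.mk' M z = 1 := (QuotientGroup.eq_one_iff z).2 h
    rw [this, orderOf_one] at hzb
    exact hq.one_lt.ne hzb
  have h3 : M ⊔ zpowers z = ⊤ := by
    apply hM.2
    refine lt_of_le_of_ne le_sup_left ?_
    intro h
    exact hzM (h ▸ mem_sup_right (mem_zpowers z))
  have h4 : zpowers (QuotientGroup.mk' M z) = ⊤ := by
    have h5 := congrArg (Subgroup.map (QuotientGroup.mk' M)) h3
    rw [Subgroup.map_sup, Subgroup.map_top_of_surjective _ (QuotientGroup.mk'_surjective M), MonoidHom.map_zpowers,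
      (Subgroup.map_eq_bot_iff _).2 (by rw [QuotientGroup.ker_mk']), bot_sup_eq] at h5
    exact h5
  have h5 : M.index = q := by
    have : Nat.card (G ⧸ M) = q := by
      rw [← hzb, ← Nat.card_zpowers, h4, Subgroup.card_top]
    exact this
  rw [h5]; exact hq

/-- Let G be a finite solvable non-nilpotent group. Every non-abelian subgroup of G is self-normalizing if and only if G is a semidirect product ⟨x⟩ ⋉ A in which ⟨x⟩ is a p-group for some prime p, A is a normal abelian subgroup of order prime to p, x^p is central in G, and x acts fixed-point-freely on A (no non-identity element of A commutes with x). -/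
theorem result {G : Type*} [Group G] [Finite G]
    [Group.IsSolvable G] (hnn : ¬ Group.IsNilpotent G) :
    (∀ H : Subgroup G, ¬ IsMulCommutative H → Subgroup.normalizer (H : Set G) = H) ↔
    ∃ (x : G) (A : Subgroup G) (p : ℕ), p.Prime ∧ A.Normal ∧ IsMulCommutative A ∧ (∃ k : ℕ, orderOf x = p ^ k) ∧
      ¬ p ∣ Nat.card A ∧ (Subgroup.zpowers x).IsComplement' A ∧ x ^ p ∈ Subgroup.center G ∧
      ∀ a : G, a ∈ A → a ≠ 1 → x * a * x⁻¹ ≠ a := by
  classical
  constructor
  · intro hself
    haveI hnt : Nontrivial G := by
      by_contra h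
      rw [not_nontrivial_iff_subsingleton] at h
      exact hnn Group.isNilpotent_of_subsingleton
    obtain ⟨M, hMn, hMp⟩ := exists_prime_index (G := G)
    have hab : ∀ N : Subgroup G, N.Normal → N ≠ ⊤ → ∀ a ∈ N, ∀ b ∈ N, a * b = b * a := by
      intro N hN hNt a ha b hb
      have h1 : IsMulCommutative N := by
        by_contra hc
        have := hself N hc
        rw [Subgroup.normalizer_eq_top (H := N)] at this
        exact hNt this.symm
      exact congrArg Subtype.val (h1.1.1 ⟨a, ha⟩ ⟨b, hb⟩)
    have hMt : M ≠ ⊤ := by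
      rintro rfl
      rw [Subgroup.index_top] at hMp
      exact Nat.not_prime_one hMp
    have hMc := hab M hMn hMt
    obtain ⟨p, hp⟩ : ∃ p, p = M.index := ⟨_, rfl⟩
    have hpp : p.Prime := hp ▸ hMp
    haveI : Fact p.Prime := ⟨hpp⟩
    -- x
    obtain ⟨y, hy⟩ : ∃ y, y ∉ M := by
      by_contra h
      push Not at h
      exact hMt (eq_top_iff.2 fun z _ => h z)
    have hcq : Nat.card (G ⧸ M) = p := hp.symm
    have hord : orderOf (QuotientGroup.mk' M y) = p := by
      have h1 : orderOf (QuotientGroup.mk' M y) ∣ p := hcq ▸ _root_.orderOf_dvd_natCard _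
      rcases (Nat.dvd_prime hpp).1 h1 with h | h
      · rw [orderOf_eq_one_iff] at h
        exact absurd ((QuotientGroup.eq_one_iff y).1 h) hy
      · exact h
    obtain ⟨k, hk1, hk2⟩ := H3.exists_pi_pow {p} y
    have hk3 := hk2 (QuotientGroup.mk' M) (by
      intro q hq hqd
      rw [hord] at hqd
      exact (Nat.prime_dvd_prime_iff_eq hq hpp).1 hqd)
    set x := y ^ k with hx
    have hxM : x ∉ M := by
      intro h
      have : QuotientGroup.mk' M x = 1 := (QuotientGroup.eq_one_iff x).2 h
      rw [hk3] at this
      rw [this, orderOf_one] at hord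
      exact hpp.one_lt.ne hord
    obtain ⟨j, hxj⟩ : ∃ j : ℕ, orderOf x = p ^ j :=
      ⟨_, Nat.eq_prime_pow_of_unique_prime_dvd (orderOf_pos x).ne' (fun {d} hd hdd => hk1 d hd hdd)⟩
    have hxp : x ^ p ∈ M := by
      rw [← QuotientGroup.eq_one_iff, QuotientGroup.mk_pow]
      have : ((x : G) : G ⧸ M) ^ Nat.card (G ⧸ M) = 1 := pow_card_eq_one'
      rwa [hcq] at this
    -- A
    let A : Subgroup G :=
      { carrier := {m | m ∈ M ∧ (orderOf m).Coprime p}
        one_mem' := ⟨one_mem _, by rw [orderOf_one]; exact Nat.coprime_one_left p⟩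
        mul_mem' := by
          rintro a b ⟨ha, ha2⟩ ⟨hb, hb2⟩
          refine ⟨mul_mem ha hb, ?_⟩
          have h1 : Commute a b := hMc a ha b hb
          exact Nat.Coprime.coprime_dvd_left h1.orderOf_mul_dvd_mul_orderOf (Nat.Coprime.mul_left ha2 hb2)
        inv_mem' := by
          rintro a ⟨ha, ha2⟩
          exact ⟨inv_mem ha, by rw [orderOf_inv]; exact ha2⟩ }
    have hAM : A ≤ M := fun a ha => ha.1
    have hAc : ∀ a ∈ A, ∀ b ∈ A, a * b = b * a := fun a ha b hb => hMc a ha.1 b hb.1
    have hAn : A.Normal := by
      constructor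
      intro a ha g
      refine ⟨hMn.conj_mem a ha.1 g, ?_⟩
      have : orderOf (g * a * g⁻¹) = orderOf a := by
        have := orderOf_injective (MulAut.conj g).toMonoidHom (MulAut.conj g).injective a
        simpa using this
      rw [this]; exact ha.2
    have hpA : ¬ p ∣ Nat.card A := by
      intro hd
      obtain ⟨z, hz⟩ := exists_prime_orderOf_dvd_card' (G := A) p hd
      have h1 := z.2.2
      rw [Subgroup.orderOf_coe, hz, Nat.coprime_self] at h1
      exact hpp.one_lt.ne' h1
    -- G/A is a p-group
    have hGA : IsPGroup p (G ⧸ A) := by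
      have h1 : ∀ q : ℕ, q.Prime → q ∣ A.index → q = p := by
        intro q hq hqd
        by_contra hqp
        haveI : Fact q.Prime := ⟨hq⟩
        obtain ⟨Q⟩ : Nonempty (Sylow q G) := inferInstance
        have hQA : (Q : Subgroup G) ≤ A := by
          intro z hz
          obtain ⟨i, hi⟩ := (IsPGroup.iff_orderOf.mp Q.2) ⟨z, hz⟩
          rw [Subgroup.orderOf_mk] at hi
          have hcz : (orderOf z).Coprime p := by
            rw [hi]; exact Nat.Coprime.pow_left _ ((Nat.coprime_primes hq hpp).2 hqp)
          refine ⟨?_, hcz⟩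
          rw [← QuotientGroup.eq_one_iff, ← orderOf_eq_one_iff]
          have h2 : orderOf ((z : G) : G ⧸ M) ∣ orderOf z := orderOf_map_dvd (QuotientGroup.mk' M) z
          have h3 : orderOf ((z : G) : G ⧸ M) ∣ p := hcq ▸ _root_.orderOf_dvd_natCard _
          exact Nat.eq_one_of_dvd_coprimes hcz h2 h3
        exact Q.not_dvd_index (hqd.trans (Subgroup.index_dvd_of_le hQA))
      exact IsPGroup.of_card (n := _) (Nat.eq_prime_pow_of_unique_prime_dvd (p := p) (Nat.card_pos (α := G ⧸ A)).ne' (fun {d} hd hdd => h1 d hd hdd))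
    have hxMt : M ⊔ zpowers x = ⊤ := by
      have h1 : M < M ⊔ zpowers x := lt_of_le_of_ne le_sup_left (fun h => hxM (h ▸ mem_sup_right (mem_zpowers x)))
      have h2 := Subgroup.relIndex_mul_index (H := M) (K := M ⊔ zpowers x) h1.le
      rw [← hp] at h2
      rcases (Nat.dvd_prime hpp).1 (Dvd.intro_left _ h2) with h3 | h3
      · exact Subgroup.index_eq_one.1 h3
      · rw [h3] at h2
        have h4 : M.relIndex (M ⊔ zpowers x) = 1 := Nat.eq_of_mul_eq_mul_right hpp.pos (by rw [h2, one_mul])
        exact absurd (Subgroup.relIndex_eq_one.1 h4) (not_le_of_gt h1)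
    have hnotcent : ¬ ∀ a ∈ A, x * a = a * x := by
      intro hc
      apply hnn
      haveI := hGA.isNilpotent
      apply Subgroup.isNilpotent_of_ker_le_center (QuotientGroup.mk' A)
      · rw [QuotientGroup.ker_mk']
        intro a ha
        rw [mem_center_iff]
        have h1 : centralizer ({a} : Set G) = ⊤ := by
          rw [eq_top_iff, ← hxMt]
          apply sup_le
          · intro m hm
            rw [mem_centralizer_singleton_iff]
            exact hMc m hm a ha.1
          · rw [zpowers_le, mem_centralizer_singleton_iff]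
            exact hc a ha
        intro g
        have h2 : g ∈ centralizer ({a} : Set G) := by rw [h1]; trivial
        exact mem_centralizer_singleton_iff.1 h2
    set H := zpowers x ⊔ A with hH
    have hHt : H = ⊤ := by
      have hHc : ¬ IsMulCommutative H := by
        intro hc
        apply hnotcent
        intro a ha
        exact congrArg Subtype.val (hc.1.1 ⟨x, (le_sup_left : zpowers x ≤ H) (mem_zpowers x)⟩ ⟨a, (le_sup_right : A ≤ H) ha⟩)
      have hN := hself H hHc
      by_contra hne
      haveI := hGA.isNilpotent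
      have hcm : (H.map (QuotientGroup.mk' A)).comap (QuotientGroup.mk' A) = H :=
        Subgroup.comap_map_eq_self (by rw [QuotientGroup.ker_mk']; exact le_sup_right)
      have h1 : H.map (QuotientGroup.mk' A) < ⊤ := by
        rw [lt_top_iff_ne_top]
        intro h
        rw [h, Subgroup.comap_top] at hcm
        exact hne hcm.symm
      have h2 := Group.normalizerCondition_of_isNilpotent (G := G ⧸ A) _ h1
      obtain ⟨yb, hyb1, hyb2⟩ := SetLike.exists_of_lt h2
      obtain ⟨y', rfl⟩ := QuotientGroup.mk'_surjective A yb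
      have h3 : y' ∈ normalizer (H : Set G) := by
        apply H1.mem_normalizer_of_conj_mem
        intro z hz
        rw [← hcm, mem_comap, map_mul, map_mul, map_inv]
        exact (mem_normalizer_iff.1 hyb1 _).1 (mem_map_of_mem _ hz)
      rw [hN] at h3
      exact hyb2 (mem_map_of_mem _ h3)
    have hcop : (Nat.card (zpowers x)).Coprime (Nat.card A) := by
      rw [Nat.card_zpowers, hxj]
      exact Nat.Coprime.pow_left _ ((hpp.coprime_iff_not_dvd).2 hpA)
    have hdisj : zpowers x ⊓ A = ⊥ := Subgroup.inf_eq_bot_of_coprime hcop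
    refine ⟨x, A, p, hpp, hAn, ⟨⟨fun a b => Subtype.ext (hAc a a.2 b b.2)⟩⟩, ⟨j, hxj⟩, hpA, ?_, ?_, ?_⟩
    · apply Subgroup.isComplement'_of_disjoint_and_mul_eq_univ (disjoint_iff.2 hdisj)
      rw [← Subgroup.coe_mul_of_left_le_normalizer_right (zpowers x) A (by rw [Subgroup.normalizer_eq_top (H := A)]; exact le_top), ← hH, hHt]
      rfl
    · have h1 : centralizer ({x ^ p} : Set G) = ⊤ := by
        rw [eq_top_iff, ← hHt, hH]
        apply sup_le
        · rw [zpowers_le, mem_centralizer_singleton_iff]
          exact ((Commute.refl x).pow_right p).eq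
        · intro a ha
          rw [mem_centralizer_singleton_iff]
          exact hMc a (hAM ha) _ hxp
      rw [mem_center_iff]
      intro g
      have h2 : g ∈ centralizer ({x ^ p} : Set G) := by rw [h1]; trivial
      exact mem_centralizer_singleton_iff.1 h2
    · intro a ha ha1 hfix
      have hAX : zpowers x ≤ normalizer (A : Set G) := by rw [Subgroup.normalizer_eq_top (H := A)]; exact le_top
      have hac : a * x = x * a := by
        calc a * x = (x * a * x⁻¹) * x := by rw [hfix]
          _ = x * a := by group
      set B := ⁅A, zpowers x⁆ with hB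
      have hBA : B ≤ A := commutator_le_of_normalizes hAX
      have hBB : ⁅B, zpowers x⁆ = B := commutator_commutator_eq hAX hcop (Or.inl inferInstance)
      have hBne : B ≠ ⊥ := by
        intro h
        apply hnotcent
        intro b hb
        have h1 : ⁅b, x⁆ ∈ B := commutator_mem_commutator hb (mem_zpowers x)
        rw [h, mem_bot, commutatorElement_eq_one_iff_mul_comm] at h1
        exact h1.symm
      set H1' := zpowers x ⊔ B with hH1'
      have hH1c : ¬ IsMulCommutative H1' := by
        intro hc
        apply hBne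
        rw [← hBB, eq_bot_iff, Subgroup.commutator_le]
        intro b hb c hc'
        rw [mem_bot, commutatorElement_eq_one_iff_mul_comm]
        exact congrArg Subtype.val (hc.1.1 ⟨b, (le_sup_right : B ≤ H1') hb⟩ ⟨c, (le_sup_left : zpowers x ≤ H1') hc'⟩)
      have hN := hself H1' hH1c
      have haN : a ∈ normalizer (H1' : Set G) := by
        have h1 : H1' ≤ centralizer ({a} : Set G) := by
          apply sup_le
          · rw [zpowers_le, mem_centralizer_singleton_iff]; exact hac.symm
          · intro b hb
            rw [mem_centralizer_singleton_iff]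
            exact hAc b (hBA hb) a ha
        apply Subgroup.centralizer_le_normalizer
        rw [mem_centralizer_iff]
        intro h hh
        exact mem_centralizer_singleton_iff.1 (h1 hh)
      rw [hN, hH1'] at haN
      have hBX : zpowers x ≤ normalizer (B : Set G) := Subgroup.normalizer_commutator_ge_right _ _
      rw [sup_comm, mem_sup_of_normalizes' hBX] at haN
      obtain ⟨c, hc, b, hb, hcb⟩ := haN
      have hc1 : c ∈ zpowers x ⊓ A := by
        have h6 : c ∈ A := by
          have : c = a * b⁻¹ := by rw [← hcb]; group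
          rw [this]; exact mul_mem ha (inv_mem (hBA hb))
        exact ⟨hc, h6⟩
      rw [hdisj, mem_bot] at hc1
      rw [hc1, one_mul] at hcb
      have h5 := centralizer_inf_commutator_of_abelian hAX hcop hAc
      apply ha1
      rw [← mem_bot, ← h5]
      refine ⟨⟨ha, ?_⟩, ?_⟩
      · show a ∈ centralizer (zpowers x : Set G)
        rw [mem_centralizer_iff]
        rintro _ ⟨i, rfl⟩
        have : Commute x a := hac.symm
        exact (this.zpow_left i).eq
      · show a ∈ B
        rw [← hcb]; exact hb
  · rintro ⟨x, A, p, hpp, hAn, hAab, ⟨k, hxk⟩, hpA, hcompl, hxp, hfpf⟩ H hHc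
    haveI : Fact p.Prime := ⟨hpp⟩
    have hAc : ∀ a ∈ A, ∀ b ∈ A, a * b = b * a := fun a ha b hb => congrArg Subtype.val (hAab.1.1 ⟨a, ha⟩ ⟨b, hb⟩)
    have hsup : zpowers x ⊔ A = ⊤ := hcompl.sup_eq_top
    have hxi : (zpowers x).index = Nat.card A := hcompl.symm.index_eq_card
    have hAi : A.index = p ^ k := by rw [hcompl.index_eq_card, Nat.card_zpowers, hxk]
    have hxP : IsPGroup p (zpowers x) := IsPGroup.of_card (n := k) (by rw [Nat.card_zpowers, hxk])
    let Y : Sylow p G := hxP.toSylow (by rw [hxi]; exact hpA)
    have hY : (Y : Subgroup G) = zpowers x := rfl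
    obtain ⟨S⟩ : Nonempty (Sylow p H) := inferInstance
    have hSp : IsPGroup p ((S : Subgroup H).map H.subtype) := S.2.map _
    obtain ⟨T, hST⟩ := hSp.exists_le_sylow
    obtain ⟨g, hg⟩ := MulAction.exists_smul_eq G Y T
    have hTmem : ∀ z : G, z ∈ T ↔ g⁻¹ * z * g ∈ zpowers x := by
      intro z
      rw [← hg]
      exact H3.mem_smul_sylow_iff Y g z
    by_cases hTH : (T : Subgroup G) ≤ H
    · -- normalizer
      apply le_antisymm _ le_normalizer
      intro n hn
      have hnT : ((n • T : Sylow p G) : Subgroup G) ≤ H := by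
        intro z hz
        rw [H3.mem_smul_sylow_iff] at hz
        have h1 := (mem_normalizer_iff.1 hn _).1 (hTH hz)
        have e : n * (n⁻¹ * z * n) * n⁻¹ = z := by group
        rwa [e] at h1
      obtain ⟨h, hh⟩ := MulAction.exists_smul_eq H ((n • T).subtype hnT) (T.subtype hTH)
      rw [Sylow.smul_subtype] at hh
      have h1 := Sylow.subtype_injective hh
      have h2 : ((h : G) * n) • T = T := by
        rw [mul_smul]; exact h1
      have h3 : (h : G) * n ∈ normalizer ((T : Subgroup G) : Set G) := Sylow.smul_eq_iff_mem_normalizer.1 h2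
      -- hn = t a
      have h4 : g⁻¹ * ((h : G) * n) * g ∈ zpowers x ⊔ A := by rw [hsup]; trivial
      rw [mem_sup_of_normal_right] at h4
      obtain ⟨c, hc, a, ha, hca⟩ := h4
      set t := g * c * g⁻¹ with ht
      set b := g * a * g⁻¹ with hb
      have htT : t ∈ T := by
        rw [hTmem, ht]
        have e : g⁻¹ * (g * c * g⁻¹) * g = c := by group
        rw [e]; exact hc
      have hbA : b ∈ A := hAn.conj_mem a ha g
      have htb : t * b = (h : G) * n := by
        have e : t * b = g * (c * a) * g⁻¹ := by rw [ht, hb]; group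
        rw [e, hca]; group
      have hbN : b ∈ normalizer ((T : Subgroup G) : Set G) := by
        have e : b = t⁻¹ * (h * n) := by rw [← htb]; group
        rw [e]; exact mul_mem (inv_mem (le_normalizer htT)) h3
      set y := g * x * g⁻¹ with hy
      have hyT : y ∈ T := by
        rw [hTmem, hy]
        have e : g⁻¹ * (g * x * g⁻¹) * g = x := by group
        rw [e]; exact mem_zpowers x
      have hTA : (T : Subgroup G) ⊓ A = ⊥ := by
        apply Subgroup.inf_eq_bot_of_coprime
        obtain ⟨m, hm⟩ := IsPGroup.iff_card.mp T.2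
        have : Nat.card (T : Subgroup G) = p ^ m := hm
        rw [this]
        exact Nat.Coprime.pow_left _ ((hpp.coprime_iff_not_dvd).2 hpA)
      have h5 : b * y * b⁻¹ * y⁻¹ = 1 := by
        rw [← mem_bot, ← hTA]
        have h51 : b * y * b⁻¹ * y⁻¹ ∈ (T : Subgroup G) := mul_mem ((mem_normalizer_iff.1 hbN y).1 hyT) (inv_mem hyT)
        refine ⟨h51, ?_⟩
        · have e : b * y * b⁻¹ * y⁻¹ = b * (y * b⁻¹ * y⁻¹) := by group
          show b * y * b⁻¹ * y⁻¹ ∈ A
          rw [e]
          exact mul_mem hbA (hAn.conj_mem _ (inv_mem hbA) y)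
      have h6 : a = 1 := by
        by_contra hne
        apply hfpf a ha hne
        have e1 : b * y * b⁻¹ * y⁻¹ = g * (a * x * a⁻¹ * x⁻¹) * g⁻¹ := by rw [hb, hy]; group
        rw [e1] at h5
        have h7 : a * x * a⁻¹ * x⁻¹ = 1 := by
          have := congrArg (fun z => g⁻¹ * z * g) h5
          simpa [mul_assoc] using this
        have h8 : a * x = x * a := by
          calc a * x = (a * x * a⁻¹ * x⁻¹) * (x * a) := by group
            _ = x * a := by rw [h7, one_mul]
        rw [← h8]; group
      have h7 : b = 1 := by rw [hb, h6]; group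
      rw [h7, mul_one] at htb
      have h8 : n = (h : G)⁻¹ * t := by rw [htb]; group
      rw [h8]
      exact mul_mem (inv_mem h.2) (hTH htT)
    · exfalso
      apply hHc
      have hTc : ∀ z ∈ T, z ∈ H → z ∈ center G := by
        intro z hz hzH
        have h1 := (hTmem z).1 hz
        rw [← mem_powers_iff_mem_zpowers] at h1
        obtain ⟨i, hi⟩ := h1
        have hi' : x ^ i = g⁻¹ * z * g := hi
        by_cases hpi : p ∣ i
        · obtain ⟨m, rfl⟩ := hpi
          have h2 : x ^ (p * m) ∈ center G := by rw [pow_mul]; exact pow_mem hxp m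
          have h3 : z = g * x ^ (p * m) * g⁻¹ := by rw [hi']; group
          rw [h3]
          exact (inferInstance : (center G).Normal).conj_mem _ h2 g
        · exfalso
          apply hTH
          have hcop : i.Coprime (orderOf x) := by
            rw [hxk]; exact Nat.Coprime.pow_right _ ((hpp.coprime_iff_not_dvd).2 hpi).symm
          obtain ⟨m, hm⟩ := exists_pow_eq_self_of_coprime hcop
          intro w hw
          have h2 := (hTmem w).1 hw
          have hgx : g * x * g⁻¹ ∈ H := by
            rw [← hm, hi']
            have e : g * (g⁻¹ * z * g) ^ m * g⁻¹ = z ^ m := by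
              have := conj_pow (i := m) (a := g⁻¹) (b := z)
              rw [inv_inv] at this
              rw [this]; group
            rw [e]; exact pow_mem hzH m
          obtain ⟨n, hn⟩ := mem_zpowers_iff.1 h2
          have h3 : w = (g * x * g⁻¹) ^ n := by
            rw [conj_zpow, hn]; group
          rw [h3]; exact zpow_mem hgx n
      have hHB : (center G ⊔ A).subgroupOf H = ⊤ := by
        apply H1.eq_top_of_forall_sylow_le
        intro q hq
        by_cases hqp : q = p
        · subst hqp
          refine ⟨S, ?_⟩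
          intro z hz
          rw [mem_subgroupOf]
          exact mem_sup_left (hTc z (hST (mem_map_of_mem _ hz)) z.2)
        · obtain ⟨Q⟩ : Nonempty (Sylow q H) := inferInstance
          refine ⟨Q, ?_⟩
          intro z hz
          rw [mem_subgroupOf]
          apply mem_sup_right
          obtain ⟨i, hi⟩ := (IsPGroup.iff_orderOf.mp Q.2) ⟨z, hz⟩
          rw [Subgroup.orderOf_mk, ← Subgroup.orderOf_coe] at hi
          rw [← QuotientGroup.eq_one_iff, ← orderOf_eq_one_iff]
          have h2 : orderOf (((z : H) : G) : G ⧸ A) ∣ orderOf ((z : H) : G) := orderOf_map_dvd (QuotientGroup.mk' A) (z : G)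
          have h3 : orderOf (((z : H) : G) : G ⧸ A) ∣ p ^ k := by
            rw [← hAi]; exact _root_.orderOf_dvd_natCard _
          refine Nat.eq_one_of_dvd_coprimes ?_ h2 h3
          rw [hi]
          exact Nat.Coprime.pow _ _ ((Nat.coprime_primes hq.out hpp).2 hqp)
      refine ⟨⟨?_⟩⟩
      rintro ⟨a, ha⟩ ⟨b, hb⟩
      apply Subtype.ext
      show a * b = b * a
      have h1 : a ∈ center G ⊔ A := by
        have : (⟨a, ha⟩ : H) ∈ (center G ⊔ A).subgroupOf H := by rw [hHB]; trivial
        exact this
      have h2 : b ∈ center G ⊔ A := by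
        have : (⟨b, hb⟩ : H) ∈ (center G ⊔ A).subgroupOf H := by rw [hHB]; trivial
        exact this
      rw [mem_sup_of_normal_right] at h1 h2
      obtain ⟨c, hc, a', ha', rfl⟩ := h1
      obtain ⟨d, hd, b', hb', rfl⟩ := h2
      rw [mem_center_iff] at hc hd
      calc c * a' * (d * b') = c * (a' * d) * b' := by group
        _ = c * (d * a') * b' := by rw [hd a']
        _ = (c * d) * (a' * b') := by group
        _ = (d * c) * (b' * a') := by rw [hd c, hAc a' ha' b' hb']
        _ = d * (c * b') * a' := by group
        _ = d * (b' * c) * a' := by rw [hc b']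
        _ = d * b' * (c * a') := by group

end Cfsg.Agent.S4071
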