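import Cfsg.Statements.S4074
import Mathlib

set_option autoImplicit false
open Cfsg

namespace Cfsg.Agent.S4074

theorem odd_case (n : ℕ) (ho : Odd n) (H : Subgroup (DihedralGroup n)) (hH : ¬ IsMulCommutative H) :
    Subgroup.normalizer (H : Set (DihedralGroup n)) = H := by
  have hs : ∃ i, DihedralGroup.sr i ∈ H := by
    by_contra hcon
    push Not at hcon
    apply hH
    refine ⟨⟨?_⟩⟩
    rintro ⟨a, ha⟩ ⟨b, hb⟩
    apply Subtype.ext
    show a * b = b * a
    cases a with
    | sr i => exact absurd ha (hcon i)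
    | r i =>
      cases b with
      | sr i => exact absurd hb (hcon i)
      | r j => rw [DihedralGroup.r_mul_r, DihedralGroup.r_mul_r, add_comm]
  obtain ⟨i, hi⟩ := hs
  have hr : ∀ j, DihedralGroup.r j ∈ Subgroup.normalizer (H : Set (DihedralGroup n)) → DihedralGroup.r j ∈ H := by
    intro j hj
    have h1 := (Subgroup.mem_normalizer_iff.mp hj (DihedralGroup.sr i)).mp hi
    have h2 := H.mul_mem h1 hi
    have h3 : DihedralGroup.r j * DihedralGroup.sr i * (DihedralGroup.r j)⁻¹ * DihedralGroup.sr i = DihedralGroup.r (2 * j) := by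
      simp
      ring
    rw [h3] at h2
    obtain ⟨m, hm⟩ := ho
    have h4 := H.pow_mem h2 (m + 1)
    have h5 : (DihedralGroup.r (2 * j) : DihedralGroup n) ^ (m + 1) = DihedralGroup.r j := by
      rw [DihedralGroup.r_pow]
      congr 1
      have h6 : ((2 * m + 1 : ℕ) : ZMod n) = 0 := by rw [← hm]; exact ZMod.natCast_self n
      push_cast at h6 ⊢
      linear_combination j * h6
    rwa [h5] at h4
  apply le_antisymm _ Subgroup.le_normalizer
  intro g hg
  cases g with
  | r j => exact hr j hg
  | sr j =>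
    have h1 := Subgroup.mul_mem _ hg (Subgroup.le_normalizer hi)
    rw [DihedralGroup.sr_mul_sr] at h1
    have h2 := H.mul_mem (hr _ h1) (H.inv_mem hi)
    have h3 : DihedralGroup.r (i - j) * (DihedralGroup.sr i : DihedralGroup n)⁻¹ = DihedralGroup.sr j := by
      simp
    rwa [h3] at h2

theorem four_case (H : Subgroup (DihedralGroup 4)) (hH : ¬ IsMulCommutative H) :
    Subgroup.normalizer (H : Set (DihedralGroup 4)) = H := by
  have hcard : Nat.card (DihedralGroup 4) = 2 ^ 3 := by rw [DihedralGroup.nat_card]; norm_num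
  have hd : Nat.card H ∣ 2 ^ 3 := hcard ▸ Subgroup.card_subgroup_dvd_card H
  obtain ⟨k, hk, hk2⟩ := (Nat.dvd_prime_pow Nat.prime_two).mp hd
  haveI : Fact (Nat.Prime 2) := ⟨Nat.prime_two⟩
  have h3 : k = 3 := by
    by_contra hne
    have hk3 : k = 0 ∨ k = 1 ∨ k = 2 := by omega
    apply hH
    rcases hk3 with rfl | rfl | rfl
    · have : Subsingleton H := (Nat.card_eq_one_iff_unique.mp (by simpa using hk2)).1
      exact ⟨⟨fun a b => Subsingleton.elim _ _⟩⟩
    · haveI : IsCyclic H := isCyclic_of_prime_card (p := 2) (by simpa using hk2)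
      exact ⟨⟨fun a b => (IsCyclic.commGroup (α := H)).mul_comm a b⟩⟩
    · exact ⟨⟨fun a b => (IsPGroup.commGroupOfCardEqPrimeSq (p := 2) hk2).mul_comm a b⟩⟩
  have hT : H = ⊤ := by
    apply Subgroup.eq_top_of_card_eq
    rw [hk2, hcard, h3]
  rw [hT]
  apply le_antisymm le_top Subgroup.le_normalizer

def par (n : ℕ) (h2 : 2 ∣ n) : DihedralGroup n → Multiplicative (ZMod 2)
  | DihedralGroup.r i => Multiplicative.ofAdd (ZMod.castHom h2 (ZMod 2) i)
  | DihedralGroup.sr i => Multiplicative.ofAdd (ZMod.castHom h2 (ZMod 2) i)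

theorem par_mul (n : ℕ) (h2 : 2 ∣ n) (a b : DihedralGroup n) : par n h2 (a * b) = par n h2 a * par n h2 b := by
  have hsub : ∀ x y : ZMod 2, x - y = y + x := by decide
  cases a <;> cases b
  · rw [DihedralGroup.r_mul_r]; simp only [par, map_add, ofAdd_add]
  · rw [DihedralGroup.r_mul_sr]; simp only [par, map_sub, hsub, ofAdd_add]
  · rw [DihedralGroup.sr_mul_r]; simp only [par, map_add, ofAdd_add]
  · rw [DihedralGroup.sr_mul_sr]; simp only [par, map_sub, hsub, ofAdd_add]


/-- For n > 2, every non-abelian subgroup of the dihedral group of order 2n is self-normalizing if and only if n = 4 or n is odd. -/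
theorem result (n : ℕ) (hn : 2 < n) :
    (∀ H : Subgroup (DihedralGroup n), ¬ IsMulCommutative H → Subgroup.normalizer (H : Set (DihedralGroup n)) = H) ↔
    (n = 4 ∨ Odd n) := by
  constructor
  · intro h
    by_contra hcon
    push Not at hcon
    obtain ⟨h4, ho⟩ := hcon
    have h2 : 2 ∣ n := by
      rcases Nat.even_or_odd n with he | ho'
      · exact he.two_dvd
      · exact absurd ho' ho
    let f : DihedralGroup n →* Multiplicative (ZMod 2) := MonoidHom.mk' (par n h2) (par_mul n h2)
    have hf : ∀ i, f (DihedralGroup.r i) = Multiplicative.ofAdd (ZMod.castHom h2 (ZMod 2) i) := fun i => rfl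
    have hf2 : ∀ i, f (DihedralGroup.sr i) = Multiplicative.ofAdd (ZMod.castHom h2 (ZMod 2) i) := fun i => rfl
    have hr2 : DihedralGroup.r (2 : ZMod n) ∈ f.ker := by
      rw [MonoidHom.mem_ker, hf]
      have : (ZMod.castHom h2 (ZMod 2)) (2 : ZMod n) = 0 := by
        rw [map_ofNat]; decide
      rw [this]; rfl
    have hs0 : DihedralGroup.sr (0 : ZMod n) ∈ f.ker := by
      rw [MonoidHom.mem_ker, hf2, map_zero]; rfl
    have hna : ¬ IsMulCommutative f.ker := by
      intro hc
      have := congrArg Subtype.val (hc.is_comm.comm ⟨_, hr2⟩ ⟨_, hs0⟩)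
      simp only [Subgroup.coe_mul, DihedralGroup.r_mul_sr, DihedralGroup.sr_mul_r] at this
      have h5 : (0 : ZMod n) - 2 = 0 + 2 := by injection this
      have h6 : ((4 : ℕ) : ZMod n) = 0 := by
        push_cast
        linear_combination -h5
      rw [ZMod.natCast_eq_zero_iff] at h6
      have h7 := Nat.le_of_dvd (by norm_num) h6
      have h8 : n = 3 := by omega
      omega
    have hN := h f.ker hna
    rw [Subgroup.normalizer_eq_top f.ker] at hN
    have h1 : DihedralGroup.r (1 : ZMod n) ∈ f.ker := hN ▸ Subgroup.mem_top _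
    rw [MonoidHom.mem_ker, hf, map_one] at h1
    exact absurd h1 (by decide)
  · rintro (rfl | ho) H hH
    · exact four_case H hH
    · exact odd_case n ho H hH

end Cfsg.Agent.S4074
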