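import Cfsg.Statements.S4075
import Mathlib
import Cfsg.Agent.H3.FH
import Cfsg.Agent.H1.Basic

set_option autoImplicit false
open Cfsg

namespace Cfsg.Agent.S4075

open Subgroup

/-- Let G be a finite nilpotent group. Every non-abelian subgroup of G is self-normalizing if and only if G is abelian or G is a minimal non-abelian p-group for some prime p (non-abelian of prime-power order with every proper subgroup abelian). -/
theorem result {G : Type*} [Group G] [Finite G]
    [Group.IsNilpotent G] :
    (∀ H : Subgroup G, ¬ IsMulCommutative H → Subgroup.normalizer (H : Set G) = H) ↔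
    (IsMulCommutative G ∨ (IsPrimePow (Nat.card G) ∧ ¬ IsMulCommutative G ∧ ∀ H : Subgroup G, H ≠ ⊤ → IsMulCommutative H)) := by
  constructor
  · intro h
    by_cases hab : IsMulCommutative G
    · exact Or.inl hab
    right
    have hprop : ∀ H : Subgroup G, H ≠ ⊤ → IsMulCommutative H := by
      intro H hH
      by_contra hn
      have h1 := h H hn
      have h2 : H < Subgroup.normalizer (H : Set G) := by
        have := Group.normalizerCondition_of_isNilpotent (G := G)
        exact this H (lt_top_iff_ne_top.2 hH)
      exact h2.ne h1.symm
    refine ⟨?_, hab, hprop⟩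
    by_contra hnp
    apply hab
    have hcen : center G = ⊤ := by
      apply H1.eq_top_of_forall_sylow_le
      intro p hp
      obtain ⟨P⟩ : Nonempty (Sylow p G) := inferInstance
      refine ⟨P, ?_⟩
      have hPt : (P : Subgroup G) ≠ ⊤ := by
        intro ht
        apply hnp
        obtain ⟨n, hn⟩ := IsPGroup.iff_card.mp P.2
        have h1 : Nat.card G = p ^ n := by
          rw [← hn, ht, Subgroup.card_top]
        rw [h1]
        have hn0 : n ≠ 0 := by
          rintro rfl
          apply hab
          rw [pow_zero] at h1
          haveI : Subsingleton G := (Nat.card_eq_one_iff_unique.1 h1).1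
          exact ⟨⟨fun a b => Subsingleton.elim _ _⟩⟩
        exact (hp.out.isPrimePow).pow hn0
      have hPc := hprop _ hPt
      intro x hx
      have h1 : centralizer ({x} : Set G) = ⊤ := by
        apply H1.eq_top_of_forall_sylow_le
        intro q hq
        by_cases hpq : q = p
        · subst hpq
          refine ⟨P, ?_⟩
          intro y hy
          rw [mem_centralizer_singleton_iff]
          have := hPc.1.1 ⟨y, hy⟩ ⟨x, hx⟩
          exact congrArg Subtype.val this
        · obtain ⟨Q⟩ : Nonempty (Sylow q G) := inferInstance
          refine ⟨Q, ?_⟩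
          intro y hy
          rw [mem_centralizer_singleton_iff]
          have hcop : (orderOf y).Coprime (orderOf x) := by
            obtain ⟨j, hj⟩ := (IsPGroup.iff_orderOf.mp Q.2) ⟨y, hy⟩
            obtain ⟨k, hk⟩ := (IsPGroup.iff_orderOf.mp P.2) ⟨x, hx⟩
            rw [Subgroup.orderOf_mk] at hj hk
            rw [hj, hk]
            exact Nat.Coprime.pow _ _ ((Nat.coprime_primes hq.out hp.out).2 hpq)
          exact (H3.commute_of_coprime_of_nilpotent ‹Group.IsNilpotent G› y x hcop).eq
      rw [mem_center_iff]
      intro g
      have h2 : g ∈ centralizer ({x} : Set G) := by rw [h1]; trivial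
      exact mem_centralizer_singleton_iff.1 h2
    refine ⟨⟨fun a b => ?_⟩⟩
    have h1 : b ∈ center G := by rw [hcen]; trivial
    exact mem_center_iff.1 h1 a
  · rintro (h | ⟨-, hab, hprop⟩) H hH
    · exact absurd ⟨⟨fun a b => Subtype.ext (h.1.1 a b)⟩⟩ hH
    · by_cases ht : H = ⊤
      · subst ht
        rw [Subgroup.normalizer_eq_top]
      · exact absurd (hprop H ht) hH

end Cfsg.Agent.S4075
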