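import Cfsg.Statements.S4080
import Mathlib

set_option autoImplicit false
open Cfsg

namespace Cfsg.Agent.S4080

open Matrix in
/-- the matrix computation -/
theorem mat_aux (p : ℕ) [Fact p.Prime] (hp : 3 < p) {R : Type} [CommRing R] (φ : R →+* ZMod p)
    (hker : ∀ r : R, φ r = 0 → ∃ s : R, r = p * s) (hp2 : (p : R) * p = 0) (F : Matrix (Fin 2) (Fin 2) R)
    (hF : F ^ p = 1) : (p : R) • (F - 1) = 0 := by
  have hpp : p.Prime := Fact.out
  set M := F - 1 with hM
  -- Cayley-Hamilton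
  have hCH : ∀ {S : Type} [CommRing S] (X : Matrix (Fin 2) (Fin 2) S), X * X = (X 0 0 + X 1 1) • X - (X 0 0 * X 1 1 - X 0 1 * X 1 0) • (1 : Matrix (Fin 2) (Fin 2) S) := by
    intro S _ X
    ext i j
    fin_cases i <;> fin_cases j <;> simp [Matrix.mul_apply, Fin.sum_univ_two] <;> ring
  set Mb : Matrix (Fin 2) (Fin 2) (ZMod p) := φ.mapMatrix M with hMb
  have hMbp : Mb ^ p = 0 := by
    have h1 : Mb = φ.mapMatrix F - 1 := by rw [hMb, hM, map_sub, map_one]
    have : CharP (Matrix (Fin 2) (Fin 2) (ZMod p)) p := inferInstance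
    rw [h1, sub_pow_char_of_commute (p := p) (Commute.one_right _), ← map_pow, hF, map_one, one_pow, sub_self]
  have hdet : Mb 0 0 * Mb 1 1 - Mb 0 1 * Mb 1 0 = 0 := by
    have h1 : (Mb ^ p).det = 0 := by rw [hMbp]; simp
    rw [Matrix.det_pow, Matrix.det_fin_two] at h1
    exact pow_eq_zero_iff hpp.ne_zero |>.mp h1
  have hsq : Mb * Mb = (Mb 0 0 + Mb 1 1) • Mb := by
    rw [hCH Mb, hdet, zero_smul, sub_zero]
  have hpow : ∀ k : ℕ, Mb ^ (k + 1) = (Mb 0 0 + Mb 1 1) ^ k • Mb := by
    intro k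
    induction k with
    | zero => simp
    | succ k ih => rw [pow_succ, ih, smul_mul_assoc, hsq, smul_smul, pow_succ]
  have htr : Mb 0 0 + Mb 1 1 = 0 := by
    have h1 := hpow (p - 1)
    rw [Nat.sub_add_cancel hpp.one_le, hMbp] at h1
    by_cases hc : Mb 0 0 + Mb 1 1 = 0
    · exact hc
    · have h2 : Mb = 0 := by
        rcases smul_eq_zero.mp h1.symm with h | h
        · exact absurd (pow_eq_zero_iff (by have := hpp.two_le; omega) |>.mp h) hc
        · exact h
      rw [h2]; simp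
  obtain ⟨t, ht⟩ := hker (M 0 0 + M 1 1) (by rw [map_add]; exact htr)
  obtain ⟨d, hd⟩ := hker (M 0 0 * M 1 1 - M 0 1 * M 1 0) (by rw [map_sub, map_mul, map_mul]; exact hdet)
  have hM2 : M ^ 2 = (p : R) • (t • M - d • (1 : Matrix (Fin 2) (Fin 2) R)) := by
    rw [sq, hCH M, ht, hd, smul_sub (p : R), smul_smul, smul_smul]
  set K := t • M - d • (1 : Matrix (Fin 2) (Fin 2) R)
  have hM4 : M ^ 4 = 0 := by
    have : M ^ 4 = M ^ 2 * M ^ 2 := by rw [← pow_add]
    rw [this, hM2, smul_mul_smul_comm, hp2, zero_smul]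
  have hexp : F ^ p = 1 + (p : R) • M := by
    have h1 : F = M + 1 := by rw [hM]; abel
    rw [h1, (Commute.one_right M).add_pow]
    have h2 : ∀ k ∈ Finset.range (p + 1), k ∉ Finset.range 2 → M ^ k * 1 ^ (p - k) * ((p.choose k : ℕ) : Matrix (Fin 2) (Fin 2) R) = 0 := by
      intro k hk hk2
      rw [Finset.mem_range] at hk hk2
      by_cases h4 : 4 ≤ k
      · have : M ^ k = 0 := by
          obtain ⟨j, rfl⟩ := Nat.exists_eq_add_of_le h4
          rw [pow_add, hM4, zero_mul]
        rw [this]; simp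
      · have hkp : k < p := by omega
        obtain ⟨c, hc⟩ := hpp.dvd_choose_self (by omega : k ≠ 0) hkp
        have h3 : ∃ L, M ^ k = (p : R) • L := by
          obtain ⟨j, rfl⟩ := Nat.exists_eq_add_of_le (by omega : 2 ≤ k)
          exact ⟨K * M ^ j, by rw [pow_add, hM2, smul_mul_assoc]⟩
        obtain ⟨L, hL⟩ := h3
        rw [hL, hc, one_pow, mul_one, Nat.cast_mul, smul_mul_assoc, ← mul_assoc]
        have h5 : L * (p : Matrix (Fin 2) (Fin 2) R) = (p : R) • L := by
          rw [← Nat.cast_comm, ← nsmul_eq_mul, Nat.cast_smul_eq_nsmul]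
        rw [h5, smul_mul_assoc, smul_smul, hp2, zero_smul]
    rw [← Finset.sum_subset (s₁ := Finset.range 2) (by intro x hx; rw [Finset.mem_range] at *; omega) h2]
    rw [Finset.sum_range_succ, Finset.sum_range_one]
    simp only [pow_zero, one_pow, mul_one, Nat.choose_zero_right, Nat.cast_one, pow_one, Nat.choose_one_right]
    rw [Nat.cast_smul_eq_nsmul R p M, nsmul_eq_mul, Nat.cast_comm]
  rw [hF] at hexp
  exact (left_eq_add.mp hexp)

/-- Let p > 3 be a prime and L the direct product of two cyclic groups of order p². Every automorphism of L of order p fixes every element of order p of L. -/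
theorem result {p : ℕ} [Fact p.Prime] (hp : 3 < p)
    (a : MulAut (Multiplicative (ZMod (p ^ 2) × ZMod (p ^ 2)))) (ha : orderOf a = p)
    (x : Multiplicative (ZMod (p ^ 2) × ZMod (p ^ 2))) (hx : orderOf x = p) : a x = x := by
  have hpp : p.Prime := Fact.out
  let g : (ZMod (p ^ 2) × ZMod (p ^ 2)) →+ (ZMod (p ^ 2) × ZMod (p ^ 2)) := AddMonoidHom.mk' (fun v => Multiplicative.toAdd (a (Multiplicative.ofAdd v))) (by
    intro v w
    rw [ofAdd_add, map_mul, toAdd_mul])
  let f : (ZMod (p ^ 2) × ZMod (p ^ 2)) →ₗ[ZMod (p ^ 2)] (ZMod (p ^ 2) × ZMod (p ^ 2)) := g.toZModLinearMap (p ^ 2)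
  have hfa : ∀ v, f v = Multiplicative.toAdd (a (Multiplicative.ofAdd v)) := fun v => rfl
  let F : Matrix (Fin 2) (Fin 2) (ZMod (p ^ 2)) := !![(f (1, 0)).1, (f (0, 1)).1; (f (1, 0)).2, (f (0, 1)).2]
  have hfv : ∀ v : ZMod (p ^ 2) × ZMod (p ^ 2), f v = (F 0 0 * v.1 + F 0 1 * v.2, F 1 0 * v.1 + F 1 1 * v.2) := by
    intro v
    have h1 : v = v.1 • ((1, 0) : ZMod (p ^ 2) × ZMod (p ^ 2)) + v.2 • ((0, 1) : ZMod (p ^ 2) × ZMod (p ^ 2)) := by
      ext <;> simp
    conv_lhs => rw [h1]
    rw [map_add, map_smul, map_smul]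
    ext
    · simp [F, mul_comm]
    · simp [F, mul_comm]
  have hpowk : ∀ (k : ℕ) (v : ZMod (p ^ 2) × ZMod (p ^ 2)), Multiplicative.toAdd ((a ^ k) (Multiplicative.ofAdd v)) =
      ((F ^ k) 0 0 * v.1 + (F ^ k) 0 1 * v.2, (F ^ k) 1 0 * v.1 + (F ^ k) 1 1 * v.2) := by
    intro k
    induction k with
    | zero => intro v; simp
    | succ k ih =>
      intro v
      have h0 : (a ^ (k + 1)) (Multiplicative.ofAdd v) = (a ^ k) (a (Multiplicative.ofAdd v)) := by
        have := congrArg (fun e : MulAut (Multiplicative (ZMod (p ^ 2) × ZMod (p ^ 2))) => e (Multiplicative.ofAdd v)) (pow_succ a k)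
        exact this
      rw [h0]
      have h2 : a (Multiplicative.ofAdd v) = Multiplicative.ofAdd (f v) := rfl
      rw [h2, ih, hfv v, pow_succ F]
      simp only [Matrix.mul_apply, Fin.sum_univ_two]
      ext
      · simp only; ring
      · simp only; ring
  have hap : a ^ p = 1 := orderOf_dvd_iff_pow_eq_one.mp (by rw [ha])
  have hFp : F ^ p = 1 := by
    have h1 := hpowk p (1, 0)
    have h2 := hpowk p (0, 1)
    rw [hap] at h1 h2
    simp only [MulAut.one_apply, toAdd_ofAdd, mul_one, mul_zero, add_zero, zero_add] at h1 h2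
    have e1 := congrArg Prod.fst h1
    have e2 := congrArg Prod.snd h1
    have e3 := congrArg Prod.fst h2
    have e4 := congrArg Prod.snd h2
    simp only at e1 e2 e3 e4
    ext i j
    fin_cases i <;> fin_cases j
    · simpa using e1.symm
    · simpa using e3.symm
    · simpa using e2.symm
    · simpa using e4.symm
  have hm := mat_aux p hp (ZMod.castHom (dvd_pow_self p two_ne_zero) (ZMod p)) (by
    intro r hr
    obtain ⟨n, rfl⟩ := ZMod.natCast_zmod_surjective r
    have : ((n : ℕ) : ZMod p) = 0 := by rw [← hr]; exact (map_natCast _ n).symm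
    rw [ZMod.natCast_eq_zero_iff] at this
    obtain ⟨m, rfl⟩ := this
    exact ⟨m, by push_cast; rfl⟩) (by
    have : ((p * p : ℕ) : ZMod (p ^ 2)) = 0 := by rw [ZMod.natCast_eq_zero_iff, sq]
    push_cast at this; exact this) F hFp
  have hm' : ∀ i j, (p : ZMod (p ^ 2)) * (F i j - (1 : Matrix (Fin 2) (Fin 2) (ZMod (p ^ 2))) i j) = 0 := by
    intro i j
    have := congrFun (congrFun hm i) j
    simpa using this
  -- x is p times something
  have hxp : x ^ p = 1 := orderOf_dvd_iff_pow_eq_one.mp (by rw [hx])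
  have hxp' : (p : ZMod (p ^ 2)) * (Multiplicative.toAdd x).1 = 0 ∧ (p : ZMod (p ^ 2)) * (Multiplicative.toAdd x).2 = 0 := by
    have h1 := congrArg Multiplicative.toAdd hxp
    rw [toAdd_pow, toAdd_one] at h1
    constructor
    · have := congrArg Prod.fst h1
      simpa using this
    · have := congrArg Prod.snd h1
      simpa using this
  have hdiv : ∀ r : ZMod (p ^ 2), (p : ZMod (p ^ 2)) * r = 0 → ∃ s : ZMod (p ^ 2), r = (p : ZMod (p ^ 2)) * s := by
    intro r hr
    obtain ⟨n, rfl⟩ := ZMod.natCast_zmod_surjective r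
    have h1 : ((p * n : ℕ) : ZMod (p ^ 2)) = 0 := by push_cast; exact hr
    rw [ZMod.natCast_eq_zero_iff, sq] at h1
    obtain ⟨m, rfl⟩ := Nat.dvd_of_mul_dvd_mul_left hpp.pos h1
    exact ⟨m, by push_cast; rfl⟩
  obtain ⟨s1, hs1⟩ := hdiv _ hxp'.1
  obtain ⟨s2, hs2⟩ := hdiv _ hxp'.2
  have hfin := hfv (Multiplicative.toAdd x)
  have h00 := hm' 0 0
  have h01 := hm' 0 1
  have h10 := hm' 1 0
  have h11 := hm' 1 1
  simp only [Matrix.one_apply_eq, Matrix.one_apply_ne (show (0 : Fin 2) ≠ 1 by decide),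
    Matrix.one_apply_ne (show (1 : Fin 2) ≠ 0 by decide), sub_zero] at h00 h01 h10 h11
  have hres : f (Multiplicative.toAdd x) = Multiplicative.toAdd x := by
    rw [hfin]
    ext
    · simp only
      rw [hs1, hs2]
      linear_combination s1 * h00 + s2 * h01
    · simp only
      rw [hs1, hs2]
      linear_combination s1 * h10 + s2 * h11
  have h7 : a x = Multiplicative.ofAdd (f (Multiplicative.toAdd x)) := rfl
  rw [h7, hres]; rfl

end Cfsg.Agent.S4080
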