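import Cfsg.Statements.S4084
import Mathlib


set_option autoImplicit false
open Cfsg

namespace Cfsg.Agent.S4084

/-- existence of a maximal clique containing a given element, equal to its own centralizer -/
theorem exists_clique {G : Type*} [Group G] [Finite G] (g : G) :
    ∃ A : Subgroup G, g ∈ A ∧ Subgroup.centralizer (A : Set G) = A := by
  classical
  let S : Set (Subgroup G) := {B | g ∈ B ∧ B ≤ Subgroup.centralizer (B : Set G)}
  have hS : S.Nonempty := by
    refine ⟨Subgroup.zpowers g, Subgroup.mem_zpowers g, ?_⟩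
    rintro x ⟨i, rfl⟩ y ⟨j, rfl⟩
    simp only
    rw [← zpow_add, ← zpow_add, add_comm]
  obtain ⟨A, hA⟩ := (Set.toFinite S).exists_maximal hS
  refine ⟨A, hA.prop.1, le_antisymm ?_ hA.prop.2⟩
  intro c hc
  have hB : A ⊔ Subgroup.zpowers c ∈ S := by
    refine ⟨Subgroup.mem_sup_left hA.prop.1, ?_⟩
    rw [sup_le_iff]
    constructor
    · rw [Subgroup.le_centralizer_iff, sup_le_iff]
      refine ⟨hA.prop.2, ?_⟩
      rw [Subgroup.zpowers_le]; exact hc
    · rw [Subgroup.le_centralizer_iff, sup_le_iff]
      refine ⟨?_, ?_⟩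
      · rw [Subgroup.le_centralizer_iff, Subgroup.zpowers_le]; exact hc
      · rintro x ⟨i, rfl⟩ y ⟨j, rfl⟩
        simp only
        rw [← zpow_add, ← zpow_add, add_comm]
  exact hA.le_of_ge hB le_sup_left (Subgroup.mem_sup_right (Subgroup.mem_zpowers c))

theorem one_dir {G H : Type*} [Group G] [Finite G] [Group H] [Finite H] (e : G ≃ H)
    (he : ∀ x y : G, Commute x y ↔ Commute (e x) (e y)) {p q : ℕ} (hp : p.Prime) (hq : q.Prime) (hpq : p ≠ q)
    (h : ∃ g : G, orderOf g = p * q) : ∃ h : H, orderOf h = p * q := by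
  obtain ⟨g, hg⟩ := h
  obtain ⟨A, hgA, hA⟩ := exists_clique g
  let B := Subgroup.centralizer (e '' (A : Set G))
  have hB : ∀ y, y ∈ B ↔ e.symm y ∈ A := by
    intro y
    have hA' : e.symm y ∈ A ↔ e.symm y ∈ Subgroup.centralizer (A : Set G) := by rw [hA]
    rw [Subgroup.mem_centralizer_iff, hA', Subgroup.mem_centralizer_iff]
    constructor
    · intro h x hx
      have := h (e x) ⟨x, hx, rfl⟩
      have h2 : Commute (e x) (e (e.symm y)) := by rw [e.apply_symm_apply]; exact this
      exact ((he _ _).mpr h2)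
    · rintro h _ ⟨x, hx, rfl⟩
      have := h x hx
      have h2 := (he _ _).mp this
      rw [e.apply_symm_apply] at h2
      exact h2
  have hcard : Nat.card B = Nat.card A := by
    apply Nat.card_congr
    exact (e.symm.subtypeEquiv (fun y => hB y))
  have hcomm : ∀ x ∈ B, ∀ y ∈ B, x * y = y * x := by
    intro x hx y hy
    have h1 := (hB x).mp hx
    have h2 := (hB y).mp hy
    have h3 : Commute (e.symm x) (e.symm y) := by
      rw [← hA] at h1
      exact (Subgroup.mem_centralizer_iff.mp h1 _ h2).symm
    have h4 := (he _ _).mp h3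
    rw [e.apply_symm_apply, e.apply_symm_apply] at h4
    exact h4
  have hd : p * q ∣ Nat.card A := by
    rw [← hg]
    have := orderOf_dvd_natCard (⟨g, hgA⟩ : A)
    simpa using this
  have := Fact.mk hp
  have := Fact.mk hq
  obtain ⟨x, hx⟩ := exists_prime_orderOf_dvd_card' (G := B) p (hcard ▸ (dvd_of_mul_right_dvd hd))
  obtain ⟨y, hy⟩ := exists_prime_orderOf_dvd_card' (G := B) q (hcard ▸ (dvd_of_mul_left_dvd hd))
  refine ⟨(x : H) * y, ?_⟩
  have hc : Commute (x : H) y := hcomm _ x.2 _ y.2
  rw [hc.orderOf_mul_eq_mul_orderOf_of_coprime, Subgroup.orderOf_coe, Subgroup.orderOf_coe, hx, hy]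
  rw [Subgroup.orderOf_coe, Subgroup.orderOf_coe, hx, hy]
  exact (Nat.coprime_primes hp hq).mpr hpq

/-- Let G and H be finite groups whose commuting graphs are isomorphic: there is a bijection e : G → H with x, y commuting exactly when e(x), e(y) commute. Then G and H have the same prime graph: for distinct primes p, q, G has an element of order pq if and only if H does (and #G = #H, so the prime divisors agree). -/
theorem result {G H : Type*} [Group G] [Finite G] [Group H] [Finite H] (e : G ≃ H)
    (he : ∀ x y : G, Commute x y ↔ Commute (e x) (e y))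
    {p q : ℕ} (hp : p.Prime) (hq : q.Prime) (hpq : p ≠ q) :
    (∃ g : G, orderOf g = p * q) ↔ (∃ h : H, orderOf h = p * q) := by
  constructor
  · exact one_dir e he hp hq hpq
  · apply one_dir e.symm _ hp hq hpq
    intro x y
    have := he (e.symm x) (e.symm y)
    simpa using this.symm

end Cfsg.Agent.S4084
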