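import Cfsg.Statements.S4086


set_option autoImplicit false
open Cfsg

namespace Cfsg.Agent.S4086

theorem zp {G : Type*} [Group G] [Finite G] (p k : ℕ) (hp : p.Prime) (c : G) (hc : orderOf c = p ^ k)
    (x : G) (hx : x ∈ Subgroup.zpowers c) : ∃ a, Subgroup.zpowers x = Subgroup.zpowers (c ^ (p ^ a)) := by
  rw [← mem_powers_iff_mem_zpowers] at hx
  obtain ⟨i, rfl⟩ := hx
  simp only
  by_cases hi : i = 0
  · subst hi
    refine ⟨k, ?_⟩
    rw [← hc, pow_orderOf_eq_one, pow_zero]
  · obtain ⟨a, u, hu, rfl⟩ := Nat.exists_eq_pow_mul_and_not_dvd hi p hp.ne_one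
    refine ⟨a, le_antisymm ?_ ?_⟩
    · rw [Subgroup.zpowers_le, pow_mul]
      exact Subgroup.pow_mem _ (Subgroup.mem_zpowers _) _
    · rw [Subgroup.zpowers_le, pow_mul, mem_zpowers_pow_iff]
      have : orderOf (c ^ p ^ a) ∣ p ^ k := hc ▸ orderOf_pow_dvd _
      apply Nat.Coprime.coprime_dvd_right this
      exact Nat.Coprime.pow_right _ ((Nat.Prime.coprime_iff_not_dvd hp).mpr hu).symm

/-- For a finite group G the following are equivalent: every non-identity element has prime-power order; whenever two elements generate a cyclic subgroup, one of them is a power of the other (the enhanced power graph of G coincides with its power graph). -/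
theorem result {G : Type*} [Group G] [Finite G] :
    (∀ g : G, g ≠ 1 → IsPrimePow (orderOf g)) ↔
    (∀ x y : G, IsCyclic ↥(Subgroup.closure ({x, y} : Set G)) → (x ∈ Subgroup.zpowers y ∨ y ∈ Subgroup.zpowers x)) := by
  constructor
  · intro h x y hc
    obtain ⟨⟨c, hcm⟩, hgen⟩ := hc.exists_generator
    have hx : x ∈ Subgroup.zpowers c := by
      obtain ⟨k, hk⟩ := hgen ⟨x, Subgroup.subset_closure (by simp)⟩
      exact ⟨k, by simpa using congrArg Subtype.val hk⟩
    have hy : y ∈ Subgroup.zpowers c := by
      obtain ⟨k, hk⟩ := hgen ⟨y, Subgroup.subset_closure (by simp)⟩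
      exact ⟨k, by simpa using congrArg Subtype.val hk⟩
    by_cases hc1 : c = 1
    · subst hc1
      rw [Subgroup.zpowers_one_eq_bot, Subgroup.mem_bot] at hx
      left; rw [hx]; exact Subgroup.one_mem _
    obtain ⟨p, k, hp, hk0, hk⟩ := h c hc1
    rw [← Nat.prime_iff] at hp
    obtain ⟨a, ha⟩ := zp p k hp c hk.symm x hx
    obtain ⟨b, hb⟩ := zp p k hp c hk.symm y hy
    rcases le_total a b with hab | hab
    · right
      have : Subgroup.zpowers y ≤ Subgroup.zpowers x := by
        rw [ha, hb, Subgroup.zpowers_le]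
        obtain ⟨d, rfl⟩ := Nat.exists_eq_add_of_le hab
        rw [pow_add, pow_mul]
        exact Subgroup.pow_mem _ (Subgroup.mem_zpowers _) _
      exact this (Subgroup.mem_zpowers y)
    · left
      have : Subgroup.zpowers x ≤ Subgroup.zpowers y := by
        rw [ha, hb, Subgroup.zpowers_le]
        obtain ⟨d, rfl⟩ := Nat.exists_eq_add_of_le hab
        rw [pow_add, pow_mul]
        exact Subgroup.pow_mem _ (Subgroup.mem_zpowers _) _
      exact this (Subgroup.mem_zpowers x)
  · intro h g hg
    have h1 : orderOf g ≠ 1 := by rwa [Ne, orderOf_eq_one_iff]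
    obtain ⟨p, hp, hpd⟩ := Nat.exists_prime_and_dvd h1
    obtain ⟨a, u, hu, hau⟩ := Nat.exists_eq_pow_mul_and_not_dvd (orderOf_pos g).ne' p hp.ne_one
    by_cases hu1 : u = 1
    · refine ⟨p, a, Nat.prime_iff.mp hp, ?_, by rw [hau, hu1, mul_one]⟩
      rcases Nat.eq_zero_or_pos a with ha | ha
      · subst ha; rw [hau, hu1] at h1; simp at h1
      · exact ha
    · exfalso
      have ha : a ≠ 0 := by
        rintro rfl
        rw [pow_zero, one_mul] at hau
        exact hu (hau ▸ hpd)
      have hcop : Nat.Coprime (p ^ a) u := Nat.Coprime.pow_left _ ((Nat.Prime.coprime_iff_not_dvd hp).mpr hu)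
      have hu0 : u ≠ 0 := by rintro rfl; simp at hu
      have hpa : p ^ a ≠ 0 := pow_ne_zero _ hp.ne_zero
      have ox : orderOf (g ^ (p ^ a)) = u := by
        rw [orderOf_pow_of_dvd hpa (hau ▸ dvd_mul_right _ _), hau]
        exact Nat.mul_div_cancel_left _ (Nat.pos_of_ne_zero hpa)
      have oy : orderOf (g ^ u) = p ^ a := by
        rw [orderOf_pow_of_dvd hu0 (hau ▸ dvd_mul_left _ _), hau]
        exact Nat.mul_div_cancel _ (Nat.pos_of_ne_zero hu0)
      have hcyc : IsCyclic (Subgroup.closure ({g ^ (p ^ a), g ^ u} : Set G)) := by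
        have hle : Subgroup.closure ({g ^ (p ^ a), g ^ u} : Set G) ≤ Subgroup.zpowers g := by
          rw [Subgroup.closure_le]
          rintro z (rfl | rfl)
          · exact Subgroup.pow_mem _ (Subgroup.mem_zpowers _) _
          · exact Subgroup.pow_mem _ (Subgroup.mem_zpowers _) _
        exact isCyclic_of_injective (Subgroup.inclusion hle) (Subgroup.inclusion_injective hle)
      rcases h _ _ hcyc with h2 | h2
      · have h3 := orderOf_dvd_of_mem_zpowers h2
        rw [ox, oy] at h3
        exact hu1 (Nat.Coprime.eq_one_of_dvd hcop.symm h3)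
      · have h3 := orderOf_dvd_of_mem_zpowers h2
        rw [ox, oy] at h3
        have := Nat.Coprime.eq_one_of_dvd hcop h3
        rw [Nat.pow_eq_one] at this
        rcases this with h4 | h4
        · exact hp.one_lt.ne' h4
        · exact ha h4

end Cfsg.Agent.S4086
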