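import Cfsg.Statements.S4089
import Cfsg.Agent.L0.Core
import Cfsg.Agent.H1.Subn
import Cfsg.Agent.H3.SubnJ

set_option autoImplicit false
open Cfsg

namespace Cfsg.Agent.S4089

/-- Let G be a finite group, p a prime and H a p-subgroup of G. Then the set of elements g of G such that H is subnormal in the subgroup generated by H and g is the union of the normalizers N_G(R) over the subgroups R of G containing H with R = O_p(N_G(R)); and this set does not change when H is replaced by the intersection of all Sylow p-subgroups of G containing H. -/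
theorem result {G : Type*} [Group G] [Finite G] (p : ℕ) [Fact p.Prime]
    (H : Subgroup G) (hH : IsPGroup p H) :
    {g : G | ((H).subgroupOf (H ⊔ Subgroup.zpowers g)).IsSubnormal} =
      {g : G | ∃ R : Subgroup G, H ≤ R ∧ (Cfsg.pCore p (Subgroup.normalizer (R : Set G))).map (Subgroup.normalizer (R : Set G)).subtype = R ∧ g ∈ Subgroup.normalizer (R : Set G)} ∧
    ∀ g : G, (((H).subgroupOf (H ⊔ Subgroup.zpowers g)).IsSubnormal ↔
      (((sInf {K : Subgroup G | ∃ Q : Sylow p G, H ≤ (Q : Subgroup G) ∧ K = (Q : Subgroup G)})).subgroupOf ((sInf {K : Subgroup G | ∃ Q : Sylow p G, H ≤ (Q : Subgroup G) ∧ K = (Q : Subgroup G)}) ⊔ Subgroup.zpowers g)).IsSubnormal) := by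
    classical
    -- key lemma
    have key : ∀ (H : Subgroup G), IsPGroup p H → ∀ g : G, ((H).subgroupOf (H ⊔ Subgroup.zpowers g)).IsSubnormal ↔
        ∃ R : Subgroup G, IsPGroup p R ∧ H ≤ R ∧ g ∈ Subgroup.normalizer (R : Set G) := by
      intro H hH g
      have hHX : H ≤ H ⊔ Subgroup.zpowers g := le_sup_left
      have hgX : g ∈ H ⊔ Subgroup.zpowers g := (le_sup_right : Subgroup.zpowers g ≤ _) (Subgroup.mem_zpowers g)
      constructor
      · intro hsn
        have h1 := H1.le_pCore_of_isSubnormal (p := p) hsn (hH.comap_subtype)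
        refine ⟨(pCore p ↥(H ⊔ Subgroup.zpowers g)).map (H ⊔ Subgroup.zpowers g).subtype, IsPGroup.map (L0.pCore_isPGroup p _) _, ?_, ?_⟩
        · intro x hx
          exact ⟨⟨x, hHX hx⟩, h1 (by rw [Subgroup.mem_subgroupOf]; exact hx), rfl⟩
        · rw [Subgroup.mem_normalizer_iff]
          have h2 : ∀ y ∈ H ⊔ Subgroup.zpowers g, ∀ x, x ∈ (pCore p ↥(H ⊔ Subgroup.zpowers g)).map (H ⊔ Subgroup.zpowers g).subtype →
              y * x * y⁻¹ ∈ (pCore p ↥(H ⊔ Subgroup.zpowers g)).map (H ⊔ Subgroup.zpowers g).subtype := by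
            rintro y hy x ⟨z, hz, rfl⟩
            exact ⟨⟨y, hy⟩ * z * ⟨y, hy⟩⁻¹, (inferInstance : (pCore p ↥(H ⊔ Subgroup.zpowers g)).Normal).conj_mem z hz _, rfl⟩
          intro x
          refine ⟨h2 g hgX x, fun hx => ?_⟩
          have h3 := h2 g⁻¹ (inv_mem hgX) _ hx
          rw [inv_inv] at h3
          rwa [show g⁻¹ * (g * x * g⁻¹) * g = x by group] at h3
      · rintro ⟨R, hR, hHR, hg⟩
        have hXN : H ⊔ Subgroup.zpowers g ≤ Subgroup.normalizer (R : Set G) := by
          refine sup_le (hHR.trans Subgroup.le_normalizer) ?_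
          rw [Subgroup.zpowers_le]; exact hg
        haveI hn : (R.subgroupOf (H ⊔ Subgroup.zpowers g)).Normal := Subgroup.normal_subgroupOf_of_le_normalizer hXN
        have h1 : R.subgroupOf (H ⊔ Subgroup.zpowers g) ≤ pCore p _ := L0.le_pCore hR.comap_subtype
        apply H3.subnormal_of_le_fitting
        refine le_trans ?_ (h1.trans (L0.pCore_le_fittingSubgroup p _))
        intro x hx
        rw [Subgroup.mem_subgroupOf] at hx ⊢
        exact hHR hx
    have hnormmap : ∀ R : Subgroup G, ∀ g ∈ Subgroup.normalizer (R : Set G),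
        g ∈ Subgroup.normalizer (((pCore p (Subgroup.normalizer (R : Set G))).map (Subgroup.normalizer (R : Set G)).subtype : Subgroup G) : Set G) := by
      intro R g hg
      rw [Subgroup.mem_normalizer_iff]
      have h2 : ∀ y ∈ Subgroup.normalizer (R : Set G), ∀ x, x ∈ (pCore p (Subgroup.normalizer (R : Set G))).map (Subgroup.normalizer (R : Set G)).subtype →
          y * x * y⁻¹ ∈ (pCore p (Subgroup.normalizer (R : Set G))).map (Subgroup.normalizer (R : Set G)).subtype := by
        rintro y hy x ⟨z, hz, rfl⟩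
        exact ⟨⟨y, hy⟩ * z * ⟨y, hy⟩⁻¹, (inferInstance : (pCore p (Subgroup.normalizer (R : Set G))).Normal).conj_mem z hz _, rfl⟩
      intro x
      refine ⟨h2 g hg x, fun hx => ?_⟩
      have h3 := h2 g⁻¹ (inv_mem hg) _ hx
      rw [inv_inv] at h3
      rwa [show g⁻¹ * (g * x * g⁻¹) * g = x by group] at h3
    -- the intersection of Sylow subgroups
    have hbarN : ∀ R : Subgroup G, ∀ g ∈ Subgroup.normalizer (R : Set G),
        g ∈ Subgroup.normalizer ((sInf {K : Subgroup G | ∃ Q : Sylow p G, R ≤ (Q : Subgroup G) ∧ K = (Q : Subgroup G)} : Subgroup G) : Set G) := by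
      intro R g hg
      have h2 : ∀ y ∈ Subgroup.normalizer (R : Set G), ∀ x, x ∈ sInf {K : Subgroup G | ∃ Q : Sylow p G, R ≤ (Q : Subgroup G) ∧ K = (Q : Subgroup G)} →
          y * x * y⁻¹ ∈ sInf {K : Subgroup G | ∃ Q : Sylow p G, R ≤ (Q : Subgroup G) ∧ K = (Q : Subgroup G)} := by
        intro y hy x hx
        rw [Subgroup.mem_sInf] at hx ⊢
        rintro K ⟨Q, hRQ, rfl⟩
        have h3 := hx ((y⁻¹ • Q : Sylow p G) : Subgroup G) ⟨y⁻¹ • Q, by
          intro r hr
          rw [Sylow.coe_subgroup_smul, Subgroup.mem_pointwise_smul_iff_inv_smul_mem, ← map_inv, inv_inv, MulAut.smul_def, MulAut.conj_apply]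
          exact hRQ ((Subgroup.mem_normalizer_iff.mp hy r).mp hr), rfl⟩
        rw [Sylow.coe_subgroup_smul, Subgroup.mem_pointwise_smul_iff_inv_smul_mem, ← map_inv, inv_inv, MulAut.smul_def, MulAut.conj_apply] at h3
        exact h3
      rw [Subgroup.mem_normalizer_iff]
      intro x
      refine ⟨h2 g hg x, fun hx => ?_⟩
      have h3 := h2 g⁻¹ (inv_mem hg) _ hx
      rw [inv_inv] at h3
      rwa [show g⁻¹ * (g * x * g⁻¹) * g = x by group] at h3
    have hbarP : ∀ R : Subgroup G, IsPGroup p R → IsPGroup p (sInf {K : Subgroup G | ∃ Q : Sylow p G, R ≤ (Q : Subgroup G) ∧ K = (Q : Subgroup G)} : Subgroup G) := by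
      intro R hR
      obtain ⟨Q, hQ⟩ := hR.exists_le_sylow
      exact Q.isPGroup'.to_le (sInf_le ⟨Q, hQ, rfl⟩)
    have hbarle : ∀ R : Subgroup G, R ≤ sInf {K : Subgroup G | ∃ Q : Sylow p G, R ≤ (Q : Subgroup G) ∧ K = (Q : Subgroup G)} := by
      intro R
      apply le_sInf
      rintro K ⟨Q, hRQ, rfl⟩
      exact hRQ
    refine ⟨?_, ?_⟩
    · ext g
      rw [Set.mem_setOf_eq, Set.mem_setOf_eq, key H hH g]
      constructor
      · intro hex
        obtain ⟨R, hR⟩ := (Set.toFinite {R : Subgroup G | IsPGroup p R ∧ H ≤ R ∧ g ∈ Subgroup.normalizer (R : Set G)}).exists_maximal hex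
        obtain ⟨⟨hRp, hHR, hgR⟩, hmax⟩ := hR
        have hle : R ≤ (pCore p (Subgroup.normalizer (R : Set G))).map (Subgroup.normalizer (R : Set G)).subtype := by
          haveI : (R.subgroupOf (Subgroup.normalizer (R : Set G))).Normal := Subgroup.normal_in_normalizer
          have h1 : R.subgroupOf (Subgroup.normalizer (R : Set G)) ≤ pCore p _ := L0.le_pCore hRp.comap_subtype
          intro r hr
          exact ⟨⟨r, Subgroup.le_normalizer hr⟩, h1 (by rw [Subgroup.mem_subgroupOf]; exact hr), rfl⟩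
        refine ⟨R, hHR, ?_, hgR⟩
        apply le_antisymm _ hle
        apply hmax _ hle
        exact ⟨IsPGroup.map (L0.pCore_isPGroup p _) _, hHR.trans hle, hnormmap R g hgR⟩
      · rintro ⟨R, hHR, hR, hg⟩
        refine ⟨R, ?_, hHR, hg⟩
        rw [← hR]
        exact IsPGroup.map (L0.pCore_isPGroup p _) _
    · intro g
      rw [key H hH g, key _ (hbarP H hH) g]
      constructor
      · rintro ⟨R, hRp, hHR, hgR⟩
        refine ⟨_, hbarP R hRp, ?_, hbarN R g hgR⟩
        apply sInf_le_sInf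
        rintro K ⟨Q, hRQ, rfl⟩
        exact ⟨Q, hHR.trans hRQ, rfl⟩
      · rintro ⟨R, hRp, hHR, hgR⟩
        exact ⟨R, hRp, (hbarle H).trans hHR, hgR⟩

end Cfsg.Agent.S4089
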