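import Cfsg.Statements.S4092
import Mathlib
import Cfsg.Agent.H3.Basic

set_option autoImplicit false
open Cfsg

namespace Cfsg.Agent.S4092

/-- Let G be a finite group, p a prime and P a Sylow p-subgroup of G that is not normal in G. Then G has at least p·#P elements of p-power order (the identity included). -/
theorem result {G : Type*} [Group G] [Finite G] (p : ℕ) [Fact p.Prime]
    (P : Sylow p G) (hP : ¬ (P : Subgroup G).Normal) :
    p * Nat.card (P : Subgroup G) ≤ Nat.card {g : G // ∃ k : ℕ, orderOf g = p ^ k} := by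
  classical
  -- two distinct Sylow subgroups with maximal intersection
  have hns : ∃ T : Sylow p G, T ≠ P := by
    by_contra h
    push Not at h
    have : Subsingleton (Sylow p G) := ⟨fun a b => (h a).trans (h b).symm⟩
    exact hP (Sylow.normal_of_subsingleton P)
  obtain ⟨T0, hT0⟩ := hns
  let I := {q : Sylow p G × Sylow p G // q.1 ≠ q.2}
  have : Nonempty I := ⟨⟨(T0, P), hT0⟩⟩
  obtain ⟨⟨⟨S, T⟩, hST⟩, hmax⟩ := Finite.exists_max (fun q : I => Nat.card ((q.1.1 : Subgroup G) ⊓ (q.1.2 : Subgroup G) : Subgroup G))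
  simp only at hmax
  replace hmax : ∀ A B : Sylow p G, A ≠ B → Nat.card ((A : Subgroup G) ⊓ B : Subgroup G) ≤ Nat.card ((S : Subgroup G) ⊓ T : Subgroup G) :=
    fun A B h => hmax ⟨(A, B), h⟩
  replace hST : S ≠ T := hST
  set D : Subgroup G := (S : Subgroup G) ⊓ T with hD
  have hDmax : ∀ A B : Sylow p G, A ≠ B → D ≤ A → D ≤ B → (A : Subgroup G) ⊓ B = D := by
    intro A B h hA hB
    exact (Subgroup.eq_of_le_of_card_ge (le_inf hA hB) (hmax A B h)).symm
  have hDS : D ≤ S := inf_le_left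
  have hDT : D ≤ T := inf_le_right
  have cardS : ∀ A : Sylow p G, Nat.card (A : Subgroup G) = Nat.card (P : Subgroup G) := fun A => by
    rw [Sylow.card_eq_multiplicity, Sylow.card_eq_multiplicity]
  have hDS' : D < S := by
    refine lt_of_le_of_ne hDS ?_
    intro h
    apply hST
    have h1 : (S : Subgroup G) ≤ T := h ▸ hDT
    have h2 : (S : Subgroup G) = T := Subgroup.eq_of_le_of_card_ge h1 (by rw [cardS T, cardS S])
    exact Sylow.ext h2
  -- an element normalizing D
  have hnil : Group.IsNilpotent (S : Subgroup G) := S.2.isNilpotent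
  have hlt := Group.normalizerCondition_of_isNilpotent (h := hnil) (D.subgroupOf S) (by
    rw [lt_top_iff_ne_top, Ne, Subgroup.subgroupOf_eq_top]
    exact not_le_of_gt hDS')
  obtain ⟨y0, hy0, hy0D⟩ := Set.exists_of_ssubset hlt
  have hy0n : ∀ h ∈ D, (y0 : G) * h * (y0 : G)⁻¹ ∈ D := by
    intro h hh
    have := (Subgroup.mem_normalizer_iff.mp hy0 ⟨h, hDS hh⟩).mp hh
    exact this
  have hpow : ∀ k : ℕ, ∀ y : G, y ∈ (S : Subgroup G) → y ∉ D → (∀ h ∈ D, y * h * y⁻¹ ∈ D) → y ^ (p ^ k) = 1 →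
      ∃ z : G, z ∈ (S : Subgroup G) ∧ z ∉ D ∧ (∀ h ∈ D, z * h * z⁻¹ ∈ D) ∧ z ^ p ∈ D := by
    intro k
    induction k with
    | zero =>
      intro y hy hyD _ h1
      rw [pow_zero, pow_one] at h1
      exact absurd (h1 ▸ D.one_mem) hyD
    | succ k ih =>
      intro y hy hyD hn h1
      by_cases h2 : y ^ p ∈ D
      · exact ⟨y, hy, hyD, hn, h2⟩
      · refine ih (y ^ p) (Subgroup.pow_mem _ hy p) h2 ?_ ?_
        · have hn' : ∀ j : ℕ, ∀ h ∈ D, y ^ j * h * (y ^ j)⁻¹ ∈ D := by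
            intro j
            induction j with
            | zero => intro h hh; simpa using hh
            | succ j ihj =>
              intro h hh
              have := hn _ (ihj h hh)
              have e : y ^ (j + 1) * h * (y ^ (j + 1))⁻¹ = y * (y ^ j * h * (y ^ j)⁻¹) * y⁻¹ := by
                rw [pow_succ']; group
              rw [e]; exact this
          exact hn' p
        · rw [← pow_mul, ← pow_succ']; exact h1
  obtain ⟨k, hk⟩ := S.2 y0
  have hk' : (y0 : G) ^ p ^ k = 1 := congrArg Subtype.val hk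
  obtain ⟨z, hzS, hzD, hzn, hzp⟩ := hpow k y0 y0.2 hy0D hy0n hk'
  have hznj : ∀ j : ℕ, ∀ h ∈ D, z ^ j * h * (z ^ j)⁻¹ ∈ D := by
    intro j
    induction j with
    | zero => intro h hh; simpa using hh
    | succ j ihj =>
      intro h hh
      have := hzn _ (ihj h hh)
      have e : z ^ (j + 1) * h * (z ^ (j + 1))⁻¹ = z * (z ^ j * h * (z ^ j)⁻¹) * z⁻¹ := by
        rw [pow_succ']; group
      rw [e]; exact this
  have hznj' : ∀ j : ℕ, ∀ h : G, z ^ j * h * (z ^ j)⁻¹ ∈ D → h ∈ D := by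
    intro j h hh
    -- conjugation by z^j is a bijection of D
    let f : D → D := fun d => ⟨z ^ j * d * (z ^ j)⁻¹, hznj j d d.2⟩
    have hf : Function.Injective f := by
      intro a b hab
      have : z ^ j * a * (z ^ j)⁻¹ = z ^ j * b * (z ^ j)⁻¹ := congrArg Subtype.val hab
      apply Subtype.ext
      exact mul_left_cancel (mul_right_cancel this)
    obtain ⟨d, hd⟩ := (Finite.injective_iff_surjective.mp hf) ⟨_, hh⟩
    have : z ^ j * d * (z ^ j)⁻¹ = z ^ j * h * (z ^ j)⁻¹ := congrArg Subtype.val hd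
    have h2 : (d : G) = h := mul_left_cancel (mul_right_cancel this)
    rw [← h2]; exact d.2
  have hzpow : ∀ j : ℕ, 0 < j → j < p → z ^ j ∉ D := by
    intro j hj0 hjp hj
    apply hzD
    have hc : Nat.Coprime j p := (Nat.coprime_of_lt_prime (by omega) hjp (Fact.out : p.Prime)).symm
    have hb := Nat.gcd_eq_gcd_ab j p
    rw [hc] at hb
    have : z = (z ^ j) ^ (Nat.gcdA j p) * (z ^ p) ^ (Nat.gcdB j p) := by
      rw [← zpow_natCast, ← zpow_natCast, ← zpow_mul, ← zpow_mul, ← zpow_add, ← hb]; simp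
    rw [this]
    exact D.mul_mem (D.zpow_mem hj _) (D.zpow_mem hzp _)
  have hconj : ∀ j : ℕ, ∀ t : G, t ∈ (T : Subgroup G) → z ^ j * t * (z ^ j)⁻¹ ∈ ((z ^ j • T : Sylow p G) : Subgroup G) := by
    intro j t ht
    exact Cfsg.Agent.H3.conj_mem_smul_sylow T _ t ht
  have hDj : ∀ j : ℕ, D ≤ ((z ^ j • T : Sylow p G) : Subgroup G) := by
    intro j d hd
    let f : D → D := fun d => ⟨z ^ j * d * (z ^ j)⁻¹, hznj j d d.2⟩
    have hf : Function.Injective f := by
      intro a b hab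
      have : z ^ j * a * (z ^ j)⁻¹ = z ^ j * b * (z ^ j)⁻¹ := congrArg Subtype.val hab
      apply Subtype.ext
      exact mul_left_cancel (mul_right_cancel this)
    obtain ⟨e, he⟩ := (Finite.injective_iff_surjective.mp hf) ⟨d, hd⟩
    have h1 : z ^ j * e * (z ^ j)⁻¹ = d := congrArg Subtype.val he
    rw [← h1]
    exact hconj j e (hDT e.2)
  -- distinctness
  have hdist : ∀ g : G, g ∈ (S : Subgroup G) → g • T = T → g ∈ D := by
    intro g hg h
    have h1 : g ∈ Subgroup.normalizer ((T : Subgroup G) : Set G) := Sylow.smul_eq_iff_mem_normalizer.mp h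
    have h2 := S.2.inf_normalizer_sylow T
    have h3 : g ∈ (S : Subgroup G) ⊓ Subgroup.normalizer (T : Set G) := ⟨hg, h1⟩
    rw [h2] at h3
    exact h3
  have hdist2 : ∀ i j : ℕ, i < j → j < p → (z ^ i • T : Sylow p G) ≠ z ^ j • T := by
    intro i j hij hjp h
    have h1 : (z ^ (j - i)) • T = T := by
      have : z ^ j = z ^ i * z ^ (j - i) := by rw [← pow_add]; congr 1; omega
      rw [this, mul_smul] at h
      exact (smul_left_cancel _ h).symm
    exact hzpow (j - i) (by omega) (by omega) (hdist _ (Subgroup.pow_mem _ hzS _) h1)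
  have hdist3 : ∀ j : ℕ, S ≠ z ^ j • T := by
    intro j h
    apply hST
    have h1 : z ^ j • S = S := Sylow.smul_eq_iff_mem_normalizer.mpr
      (Subgroup.le_normalizer (Subgroup.pow_mem _ hzS j))
    rw [← h1] at h
    exact smul_left_cancel _ h
  -- injection
  let E := {g : G // ∃ k : ℕ, orderOf g = p ^ k}
  have mem_pel : ∀ (A : Sylow p G) (g : G), g ∈ (A : Subgroup G) → ∃ k : ℕ, orderOf g = p ^ k := by
    intro A g hg
    obtain ⟨k, hk⟩ := (IsPGroup.iff_orderOf.mp A.2) ⟨g, hg⟩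
    exact ⟨k, by rw [Subgroup.orderOf_mk] at hk; exact hk⟩
  let ι : (S : Subgroup G) ⊕ (Fin p × {t : G // t ∈ (T : Subgroup G) ∧ t ∉ D}) → E := fun s =>
    match s with
    | Sum.inl s => ⟨s, mem_pel S s s.2⟩
    | Sum.inr (j, t) => ⟨z ^ (j : ℕ) * t * (z ^ (j : ℕ))⁻¹, mem_pel _ _ (hconj j t t.2.1)⟩
  have hι : Function.Injective ι := by
    rintro (s | ⟨j, t⟩) (s' | ⟨j', t'⟩) h
    · have : (s : G) = s' := congrArg (fun e : E => (e : G)) h
      rw [Subtype.ext this]
    · exfalso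
      have h1 : (s : G) = z ^ (j' : ℕ) * t' * (z ^ (j' : ℕ))⁻¹ := congrArg (fun e : E => (e : G)) h
      have h2 : (s : G) ∈ (S : Subgroup G) ⊓ ((z ^ (j' : ℕ) • T : Sylow p G) : Subgroup G) :=
        ⟨s.2, by rw [h1]; exact hconj _ _ t'.2.1⟩
      rw [hDmax _ _ (hdist3 _) hDS (hDj _), h1] at h2
      exact t'.2.2 (hznj' _ _ h2)
    · exfalso
      have h1 : z ^ (j : ℕ) * t * (z ^ (j : ℕ))⁻¹ = s' := congrArg (fun e : E => (e : G)) h
      have h2 : (s' : G) ∈ (S : Subgroup G) ⊓ ((z ^ (j : ℕ) • T : Sylow p G) : Subgroup G) :=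
        ⟨s'.2, by rw [← h1]; exact hconj _ _ t.2.1⟩
      rw [hDmax _ _ (hdist3 _) hDS (hDj _), ← h1] at h2
      exact t.2.2 (hznj' _ _ h2)
    · have h1 : z ^ (j : ℕ) * t * (z ^ (j : ℕ))⁻¹ = z ^ (j' : ℕ) * t' * (z ^ (j' : ℕ))⁻¹ :=
        congrArg (fun e : E => (e : G)) h
      rcases lt_trichotomy (j : ℕ) (j' : ℕ) with hlt | heq | hgt
      · exfalso
        have h2 : z ^ (j : ℕ) * t * (z ^ (j : ℕ))⁻¹ ∈
          ((z ^ (j : ℕ) • T : Sylow p G) : Subgroup G) ⊓ ((z ^ (j' : ℕ) • T : Sylow p G) : Subgroup G) :=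
          ⟨hconj _ _ t.2.1, by rw [h1]; exact hconj _ _ t'.2.1⟩
        rw [hDmax _ _ (hdist2 _ _ hlt j'.2) (hDj _) (hDj _)] at h2
        exact t.2.2 (hznj' _ _ h2)
      · have hj : j = j' := Fin.ext heq
        subst hj
        have : (t : G) = t' := mul_left_cancel (mul_right_cancel h1)
        rw [Subtype.ext this]
      · exfalso
        have h2 : z ^ (j : ℕ) * t * (z ^ (j : ℕ))⁻¹ ∈
          ((z ^ (j' : ℕ) • T : Sylow p G) : Subgroup G) ⊓ ((z ^ (j : ℕ) • T : Sylow p G) : Subgroup G) :=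
          ⟨by rw [h1]; exact hconj _ _ t'.2.1, hconj _ _ t.2.1⟩
        rw [hDmax _ _ (hdist2 _ _ hgt j.2) (hDj _) (hDj _)] at h2
        exact t.2.2 (hznj' _ _ h2)
  have hle := Nat.card_le_card_of_injective ι hι
  rw [Nat.card_sum, Nat.card_prod, Nat.card_fin] at hle
  have hTD : Nat.card {t : G // t ∈ (T : Subgroup G) ∧ t ∉ D} + Nat.card D = Nat.card (T : Subgroup G) := by
    have e1 : Nat.card (T : Subgroup G) = Nat.card ((T : Subgroup G) : Set G) := rfl
    have := Set.ncard_sdiff_add_ncard_of_subset (s := (D : Set G)) (t := ((T : Subgroup G) : Set G)) hDT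
    exact this
  -- p * |D| ≤ |S|
  have hpD : p * Nat.card D ≤ Nat.card (S : Subgroup G) := by
    have h1 := Cfsg.Agent.H3.relIndex_mul_card hDS
    have h2 : p ∣ D.relIndex S := by
      have h3 : D.relIndex S ∣ Nat.card (S : Subgroup G) := ⟨_, h1.symm⟩
      obtain ⟨m, hm⟩ := S.2.exists_card_eq
      rw [hm] at h3
      obtain ⟨i, _, hi⟩ := (Nat.dvd_prime_pow (Fact.out : p.Prime)).mp h3
      rw [hi]
      apply dvd_pow_self
      rintro rfl
      rw [pow_zero, Subgroup.relIndex_eq_one] at hi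
      exact not_le_of_gt hDS' hi
    have h4 : 0 < D.relIndex S := Nat.pos_of_ne_zero Subgroup.index_ne_zero_of_finite
    rw [← h1]
    exact Nat.mul_le_mul_right _ (Nat.le_of_dvd h4 h2)
  rw [cardS] at hpD hTD hle
  have h5 : p * Nat.card {t : G // t ∈ (T : Subgroup G) ∧ t ∉ D} + p * Nat.card D = p * Nat.card (P : Subgroup G) := by
    rw [← mul_add, hTD]
  change Nat.card (P : Subgroup G) + _ ≤ Nat.card E at hle
  change _ ≤ Nat.card E
  omega

end Cfsg.Agent.S4092
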