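import Cfsg.Statements.S4093
import Mathlib
import Cfsg.Agent.H3.Basic

set_option autoImplicit false
open scoped BigOperators
open Cfsg

namespace Cfsg.Agent.S4093

theorem card_conjN {G : Type*} [Group G] [Finite G] (N : Subgroup G) (x : G) :
    Nat.card {w : G // ∃ n ∈ N, w = n * x * n⁻¹} = Nat.card N / Nat.card ↥(N ⊓ Subgroup.centralizer ({x} : Set G)) := by
  classical
  choose! s hs hs' using (fun w : G => fun (h : ∃ n ∈ N, w = n * x * n⁻¹) => h)
  have : Nat.card {w : G // ∃ n ∈ N, w = n * x * n⁻¹} * Nat.card ↥(N ⊓ Subgroup.centralizer ({x} : Set G)) = Nat.card N := by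
    rw [← Nat.card_prod]
    apply Nat.card_congr
    refine ⟨fun p => ⟨s p.1 * p.2, N.mul_mem (hs _ p.1.2) p.2.2.1⟩,
      fun n => (⟨n * x * (n : G)⁻¹, n, n.2, rfl⟩, ⟨(s (n * x * (n : G)⁻¹))⁻¹ * n, ?_, ?_⟩), ?_, ?_⟩
    · exact N.mul_mem (N.inv_mem (hs _ ⟨n, n.2, rfl⟩)) n.2
    · have h1 := hs' (n * x * (n : G)⁻¹) ⟨n, n.2, rfl⟩
      refine Subgroup.mem_centralizer_singleton_iff.mpr ?_
      generalize s (n * x * (n : G)⁻¹) = t at h1 ⊢
      calc t⁻¹ * n * x = t⁻¹ * (n * x * (n : G)⁻¹) * n := by group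
        _ = t⁻¹ * (t * x * t⁻¹) * n := by rw [h1]
        _ = x * (t⁻¹ * n) := by group
    · rintro ⟨⟨w, hw⟩, ⟨c, hc, hc'⟩⟩
      have h1 := hs' w hw
      replace hc' := Subgroup.mem_centralizer_singleton_iff.mp hc'
      have h2 : s w * c * x * (s w * c)⁻¹ = w := by
        calc s w * c * x * (s w * c)⁻¹ = s w * (c * x) * c⁻¹ * (s w)⁻¹ := by group
          _ = s w * (x * c) * c⁻¹ * (s w)⁻¹ := by rw [hc']
          _ = s w * x * (s w)⁻¹ := by group
          _ = w := h1.symm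
      simp only [h2]
      simp
    · rintro ⟨n, hn⟩
      simp
  have hpos : 0 < Nat.card ↥(N ⊓ Subgroup.centralizer ({x} : Set G)) := Nat.card_pos
  exact Nat.eq_div_of_mul_eq_left hpos.ne' this

/-- Let G be a finite group with a normal subgroup N complementing a Sylow p-subgroup P (a normal p-complement). Then the number of elements of G of p-power order equals the sum over x ∈ P of the index of C_N(x) in N. -/
theorem result {G : Type*} [Group G] [Finite G] (p : ℕ) [Fact p.Prime]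
    (P : Sylow p G) (N : Subgroup G) [N.Normal] (hNP : N.IsComplement' (P : Subgroup G)) :
    Nat.card {g : G // ∃ k : ℕ, orderOf g = p ^ k} =
      ∑ᶠ x : (P : Subgroup G), Nat.card N / Nat.card ↥(N ⊓ Subgroup.centralizer ({(x : G)} : Set G)) := by
  classical
  have := Fintype.ofFinite (P : Subgroup G)
  rw [finsum_eq_sum_of_fintype]
  simp_rw [← card_conjN]
  rw [← Nat.card_sigma]
  have mem_pel : ∀ (A : Sylow p G) (g : G), g ∈ (A : Subgroup G) → ∃ k : ℕ, orderOf g = p ^ k := by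
    intro A g hg
    obtain ⟨k, hk⟩ := (IsPGroup.iff_orderOf.mp A.2) ⟨g, hg⟩
    exact ⟨k, by rw [Subgroup.orderOf_mk] at hk; exact hk⟩
  symm
  let φ : (Σ x : (P : Subgroup G), {w : G // ∃ n ∈ N, w = n * (x : G) * n⁻¹}) → {g : G // ∃ k : ℕ, orderOf g = p ^ k} :=
    fun s => ⟨s.2.1, by
      obtain ⟨⟨x, hx⟩, ⟨w, n, hn, rfl⟩⟩ := s
      exact mem_pel _ _ (Cfsg.Agent.H3.conj_mem_smul_sylow P n x hx)⟩
  have hdisj : ∀ a ∈ (P : Subgroup G), ∀ b ∈ (P : Subgroup G), a⁻¹ * b ∈ N → a = b := by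
    intro a ha b hb hab
    have h1 : a⁻¹ * b ∈ N ⊓ (P : Subgroup G) := ⟨hab, Subgroup.mul_mem _ (Subgroup.inv_mem _ ha) hb⟩
    rw [hNP.disjoint.eq_bot, Subgroup.mem_bot] at h1
    exact inv_mul_eq_one.mp h1
  apply Nat.card_congr
  refine Equiv.ofBijective φ ⟨?_, ?_⟩
  · rintro ⟨⟨x, hx⟩, ⟨w, hw⟩⟩ ⟨⟨x', hx'⟩, ⟨w', hw'⟩⟩ h
    have h1 : w = w' := congrArg Subtype.val h
    subst h1
    obtain ⟨n, hn, hw⟩ := hw
    obtain ⟨n', hn', hw'⟩ := hw'
    have hxx : x = x' := by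
      apply hdisj x hx x' hx'
      have e : ((n * x * n⁻¹ : G) : G ⧸ N) = ((n' * x' * n'⁻¹ : G) : G ⧸ N) := by
        rw [← hw', ← hw]
      have en : (n : G ⧸ N) = 1 := (QuotientGroup.eq_one_iff n).mpr hn
      have en' : (n' : G ⧸ N) = 1 := (QuotientGroup.eq_one_iff n').mpr hn'
      simp only [QuotientGroup.mk_mul, QuotientGroup.mk_inv, en, en', one_mul, inv_one, mul_one] at e
      exact QuotientGroup.eq.mp e
    subst hxx
    rfl
  · rintro ⟨w, k, hk⟩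
    have hx : IsPGroup p (Subgroup.zpowers w) := IsPGroup.of_card (n := k) (by rw [Nat.card_zpowers, hk])
    obtain ⟨Q, hQ⟩ := hx.exists_le_sylow
    obtain ⟨c, hc⟩ := MulAction.exists_smul_eq G P Q
    have hw : w ∈ (Q : Subgroup G) := hQ (Subgroup.mem_zpowers w)
    rw [← hc, Cfsg.Agent.H3.mem_smul_sylow_iff] at hw
    obtain ⟨⟨n, z⟩, hnz⟩ := hNP.2 c
    have hnz' : (n : G) * z = c := hnz
    refine ⟨⟨⟨z * (c⁻¹ * w * c) * (z : G)⁻¹, Subgroup.mul_mem _ (Subgroup.mul_mem _ z.2 hw) (Subgroup.inv_mem _ z.2)⟩,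
      ⟨w, n, n.2, ?_⟩⟩, rfl⟩
    show w = n * (z * (c⁻¹ * w * c) * (z : G)⁻¹) * (n : G)⁻¹
    rw [← hnz']; group

end Cfsg.Agent.S4093
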