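import Cfsg.Statements.S4106
import Mathlib
import Cfsg.Agent.H3.Basic

set_option autoImplicit false
open Cfsg

namespace Cfsg.Agent.S4106

open Subgroup
universe u

/-- decomposition of an element in its `p`-part and `p'`-part -/
theorem exists_parts {G : Type*} [Group G] [Finite G] {p : ℕ} (hp : p.Prime) (g : G) :
    ∃ x y : G, g = x * y ∧ Commute x y ∧ (∃ k, orderOf x = p ^ k) ∧ ¬ p ∣ orderOf y ∧ orderOf y ∣ orderOf g := by
  obtain ⟨a, b, hb, hab⟩ := Nat.exists_eq_pow_mul_and_not_dvd (orderOf_pos g).ne' p hp.one_lt.ne'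
  have hcop : (p ^ a).Coprime b := ((Nat.Prime.coprime_iff_not_dvd hp).2 hb).pow_left a
  obtain ⟨u, v, huv⟩ : IsCoprime ((p ^ a : ℕ) : ℤ) (b : ℤ) := Nat.isCoprime_iff_coprime.2 hcop
  have hg : g ^ orderOf g = 1 := pow_orderOf_eq_one g
  refine ⟨g ^ (v * (b : ℤ)), g ^ (u * ((p ^ a : ℕ) : ℤ)), ?_, ?_, ?_, ?_, ?_⟩
  · rw [← zpow_add, add_comm, huv, zpow_one]
  · exact (Commute.refl g).zpow_zpow _ _
  · have h1 : (g ^ (v * (b : ℤ))) ^ (p ^ a) = 1 := by
      rw [← zpow_natCast, ← zpow_mul]
      have : v * (b : ℤ) * ((p ^ a : ℕ) : ℤ) = ((orderOf g : ℕ) : ℤ) * v := by rw [hab]; push_cast; ring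
      rw [this, zpow_mul, zpow_natCast, hg, one_zpow]
    obtain ⟨k, -, hk⟩ := (Nat.dvd_prime_pow hp).1 (orderOf_dvd_of_pow_eq_one h1)
    exact ⟨k, hk⟩
  · intro hd
    have h1 : (g ^ (u * ((p ^ a : ℕ) : ℤ))) ^ b = 1 := by
      rw [← zpow_natCast, ← zpow_mul]
      have : u * ((p ^ a : ℕ) : ℤ) * (b : ℤ) = ((orderOf g : ℕ) : ℤ) * u := by rw [hab]; push_cast; ring
      rw [this, zpow_mul, zpow_natCast, hg, one_zpow]
    exact hb (hd.trans (orderOf_dvd_of_pow_eq_one h1))
  · apply orderOf_dvd_of_pow_eq_one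
    rw [← zpow_natCast, ← zpow_mul, mul_comm, zpow_mul, zpow_natCast, hg, one_zpow]

abbrev TC (G : Type u) [Group G] (T : Finset ℕ) : Type u :=
  {C : ConjClasses G // ∃ g : G, ConjClasses.mk g = C ∧ ∀ q : ℕ, q.Prime → q ∣ orderOf g → q ∈ T}

theorem orderOf_conj_eq {G : Type*} [Group G] {a b : G} (h : IsConj a b) : orderOf a = orderOf b := by
  rw [isConj_iff] at h
  obtain ⟨c, rfl⟩ := h
  have : c * a * c⁻¹ = MulAut.conj c a := rfl
  rw [this, MulEquiv.orderOf_eq]

theorem main (T : Finset ℕ) : (∀ q ∈ T, q.Prime) → ∀ (G : Type u) [Group G] [Finite G],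
    Nat.card (TC G T) ≤ ∏ q ∈ T, q ^ (Nat.card G).factorization q := by
  classical
  induction T using Finset.induction_on with
  | empty =>
    intro _ G _ _
    rw [Finset.prod_empty]
    have : Subsingleton (TC G ∅) := by
      have key : ∀ C : TC G ∅, C.1 = ConjClasses.mk 1 := by
        rintro ⟨C, g, rfl, hg⟩
        have h1 : orderOf g = 1 := by
          by_contra hne
          obtain ⟨q, hq, hqd⟩ := Nat.exists_prime_and_dvd hne
          exact absurd (hg q hq hqd) (Finset.notMem_empty q)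
        rw [orderOf_eq_one_iff] at h1
        show ConjClasses.mk g = ConjClasses.mk 1
        rw [h1]
      exact ⟨fun a b => Subtype.ext ((key a).trans (key b).symm)⟩
    exact Finite.card_le_one_iff_subsingleton.2 this
  | insert p T hpT ih =>
    intro hT G _ _
    have hp : p.Prime := hT p (Finset.mem_insert_self _ _)
    have hT' : ∀ q ∈ T, q.Prime := fun q hq => hT q (Finset.mem_insert_of_mem hq)
    haveI : Fact p.Prime := ⟨hp⟩
    obtain ⟨P⟩ : Nonempty (Sylow p G) := inferInstance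
    rw [Finset.prod_insert hpT]
    -- the surjection
    have hwd : ∀ x : (P : Subgroup G), ∀ a b : (centralizer ({(x : G)} : Set G)), IsConj a b →
        IsConj ((x : G) * (a : G)) ((x : G) * (b : G)) := by
      intro x a b h
      rw [isConj_iff] at h ⊢
      obtain ⟨c, rfl⟩ := h
      refine ⟨c, ?_⟩
      have h1 := mem_centralizer_singleton_iff.1 c.2
      calc (c : G) * ((x : G) * (a : G)) * (c : G)⁻¹ = ((c : G) * x) * (a : G) * (c : G)⁻¹ := by group
        _ = ((x : G) * c) * (a : G) * (c : G)⁻¹ := by rw [h1]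
        _ = (x : G) * ((c * a * c⁻¹ : centralizer ({(x : G)} : Set G)) : G) := by
          simp only [Subgroup.coe_mul, InvMemClass.coe_inv]; group
    let f0 : ∀ x : (P : Subgroup G), ConjClasses (centralizer ({(x : G)} : Set G)) → ConjClasses G := fun x =>
      Quotient.lift (fun a => ConjClasses.mk ((x : G) * (a : G))) (fun a b h => by
        exact ConjClasses.mk_eq_mk_iff_isConj.2 (hwd x a b h))
    have hf0 : ∀ x a, f0 x (ConjClasses.mk a) = ConjClasses.mk ((x : G) * (a : G)) := fun x a => rfl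
    have hmem : ∀ x : (P : Subgroup G), ∀ C : TC (centralizer ({(x : G)} : Set G)) T,
        ∃ g : G, ConjClasses.mk g = f0 x C.1 ∧ ∀ q : ℕ, q.Prime → q ∣ orderOf g → q ∈ insert p T := by
      rintro x ⟨C, a, rfl, ha⟩
      refine ⟨(x : G) * (a : G), rfl, ?_⟩
      intro q hq hqd
      have hcomm : Commute (x : G) (a : G) := (mem_centralizer_singleton_iff.1 a.2).symm
      have h1 : orderOf ((x : G) * (a : G)) ∣ orderOf (x : G) * orderOf (a : G) := hcomm.orderOf_mul_dvd_mul_orderOf
      rcases (hq.dvd_mul).1 (hqd.trans h1) with h2 | h2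
      · obtain ⟨k, hk⟩ := (IsPGroup.iff_orderOf.mp P.2) x
        rw [Subgroup.orderOf_coe, hk] at h2
        rw [(Nat.prime_dvd_prime_iff_eq hq hp).1 (hq.dvd_of_dvd_pow h2)]
        exact Finset.mem_insert_self _ _
      · rw [Subgroup.orderOf_coe] at h2
        exact Finset.mem_insert_of_mem (ha q hq h2)
    let F : (Σ x : (P : Subgroup G), TC (centralizer ({(x : G)} : Set G)) T) → TC G (insert p T) :=
      fun t => ⟨f0 t.1 t.2.1, hmem t.1 t.2⟩
    have hF : Function.Surjective F := by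
      rintro ⟨C, g, rfl, hg⟩
      obtain ⟨x, y, hxy, hcomm, hx, hy, hyd⟩ := exists_parts hp g
      obtain ⟨c, hc⟩ := H3.exists_conj_mem_sylow P hx
      have hcen : c⁻¹ * y * c ∈ centralizer ({(c⁻¹ * x * c)} : Set G) := by
        rw [mem_centralizer_singleton_iff]
        calc c⁻¹ * y * c * (c⁻¹ * x * c) = c⁻¹ * (y * x) * c := by group
          _ = c⁻¹ * (x * y) * c := by rw [hcomm.eq]
          _ = c⁻¹ * x * c * (c⁻¹ * y * c) := by group
      have hord : orderOf (c⁻¹ * y * c) = orderOf y := by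
        have : c⁻¹ * y * c = MulAut.conj c⁻¹ y := by simp
        rw [this, MulEquiv.orderOf_eq]
      refine ⟨⟨⟨c⁻¹ * x * c, hc⟩, ⟨ConjClasses.mk ⟨c⁻¹ * y * c, hcen⟩, ⟨c⁻¹ * y * c, hcen⟩, rfl, ?_⟩⟩, ?_⟩
      · intro q hq hqd
        rw [Subgroup.orderOf_mk, hord] at hqd
        rcases Finset.mem_insert.1 (hg q hq (hqd.trans hyd)) with h1 | h1
        · subst h1; exact absurd hqd hy
        · exact h1
      · apply Subtype.ext
        show ConjClasses.mk ((c⁻¹ * x * c) * (c⁻¹ * y * c)) = ConjClasses.mk g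
        rw [ConjClasses.mk_eq_mk_iff_isConj, isConj_iff]
        refine ⟨c, ?_⟩
        rw [hxy]; group
    have h1 := Nat.card_le_card_of_surjective F hF
    refine h1.trans ?_
    haveI : Fintype (P : Subgroup G) := Fintype.ofFinite _
    rw [Nat.card_sigma]
    have h2 : ∀ x : (P : Subgroup G), Nat.card (TC (centralizer ({(x : G)} : Set G)) T) ≤ ∏ q ∈ T, q ^ (Nat.card G).factorization q := by
      intro x
      refine (ih hT' (centralizer ({(x : G)} : Set G))).trans ?_
      apply Finset.prod_le_prod'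
      intro q hq
      apply Nat.pow_le_pow_right (hT' q hq).pos
      exact ((Nat.factorization_le_iff_dvd Nat.card_pos.ne' Nat.card_pos.ne').2 (Subgroup.card_subgroup_dvd_card _)) q
    refine (Finset.sum_le_sum fun x _ => h2 x).trans ?_
    rw [Finset.sum_const, smul_eq_mul, Finset.card_univ, ← Nat.card_eq_fintype_card, P.card_eq_multiplicity]

/-- Let G be a finite group, π a set of primes and m the π-part of the order of G. Then the number of conjugacy classes of G consisting of π-elements (elements whose order is divisible only by primes in π) is at most m. -/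
theorem result {G : Type*} [Group G] [Finite G]
    (π : Set ℕ) (hπ : ∀ q ∈ π, q.Prime)
    (m : ℕ) (hm : m ∣ Nat.card G) (hmπ : ∀ q : ℕ, q.Prime → q ∣ m → q ∈ π)
    (hm' : ∀ q ∈ π, ¬ q ∣ Nat.card G / m) :
    Nat.card {C : ConjClasses G // ∀ q : ℕ, q.Prime → (∃ g : G, ConjClasses.mk g = C ∧ q ∣ orderOf g) → q ∈ π} ≤ m := by
  classical
  have hm0 : m ≠ 0 := by rintro rfl; exact Nat.card_pos.ne' (Nat.eq_zero_of_zero_dvd hm)
  have h1 := main m.primeFactors (fun q hq => Nat.prime_of_mem_primeFactors hq) G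
  have h2 : ∏ q ∈ m.primeFactors, q ^ (Nat.card G).factorization q = m := by
    conv_rhs => rw [← Nat.factorization_prod_pow_eq_self hm0]
    rw [Finsupp.prod, Nat.support_factorization]
    apply Finset.prod_congr rfl
    intro q hq
    congr 1
    obtain ⟨k, hk⟩ := hm
    have hk0 : k ≠ 0 := by rintro rfl; rw [mul_zero] at hk; exact Nat.card_pos.ne' hk
    rw [hk, Nat.factorization_mul hm0 hk0]
    have h3 : ¬ q ∣ k := by
      have h4 := hm' q (hmπ q (Nat.prime_of_mem_primeFactors hq) (Nat.dvd_of_mem_primeFactors hq))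
      rw [hk, Nat.mul_div_cancel_left _ (Nat.pos_of_ne_zero hm0)] at h4
      exact h4
    simp only [Finsupp.coe_add, Pi.add_apply]
    rw [Nat.factorization_eq_zero_of_not_dvd h3, add_zero]
  rw [h2] at h1
  refine le_trans ?_ h1
  haveI : Finite (TC G m.primeFactors) := inferInstance
  apply Nat.card_le_card_of_injective (fun C => (⟨C.1, ?_⟩ : TC G m.primeFactors))
  · intro C D h
    exact Subtype.ext (show C.1 = D.1 from congrArg (fun z : TC G m.primeFactors => z.1) h)
  · obtain ⟨C, hC⟩ := C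
    obtain ⟨g, rfl⟩ := ConjClasses.exists_rep C
    refine ⟨g, rfl, fun q hq hqd => ?_⟩
    have hqπ := hC q hq ⟨g, rfl, hqd⟩
    rw [Nat.mem_primeFactors]
    refine ⟨hq, ?_, hm0⟩
    have h3 : q ∣ Nat.card G := hqd.trans (_root_.orderOf_dvd_natCard g)
    obtain ⟨k, hk⟩ := hm
    rw [hk] at h3
    rcases (hq.dvd_mul).1 h3 with h4 | h4
    · exact h4
    · exfalso
      apply hm' q hqπ
      rw [hk, Nat.mul_div_cancel_left _ (Nat.pos_of_ne_zero hm0)]
      exact h4

end Cfsg.Agent.S4106
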