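import Cfsg.Statements.S4107
import Mathlib
import Cfsg.Agent.L0.Coprime
import Cfsg.Agent.L0.Core
import Cfsg.Agent.H1.Basic

set_option autoImplicit false
open Cfsg

namespace Cfsg.Agent.S4107

open Subgroup
open scoped commutatorElement

theorem lemA {G : Type*} [Group G] [Finite G] (N : Subgroup G) [hNn : N.Normal]
    (heq : ∀ x : G, x ∉ N → ∀ n ∈ N, orderOf (x * n) = orderOf x) (q : ℕ) [hq : Fact q.Prime] (h : ¬ pCore q G ≤ N) :
    IsPGroup q N := by
  classical
  obtain ⟨x, hx, hxN⟩ := SetLike.not_le_iff_exists.1 h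
  by_contra hnp
  obtain ⟨r, hr, hrN, hrq⟩ : ∃ r : ℕ, r.Prime ∧ r ∣ Nat.card N ∧ r ≠ q := by
    by_contra hcon
    push Not at hcon
    apply hnp
    rw [IsPGroup.iff_card]
    exact ⟨_, Nat.eq_prime_pow_of_unique_prime_dvd Nat.card_pos.ne' (fun {r} h1 h2 => hcon r h1 h2)⟩
  haveI : Fact r.Prime := ⟨hr⟩
  obtain ⟨y, hy⟩ := exists_prime_orderOf_dvd_card' (G := N) r hrN
  have hyG : orderOf (y : G) = r := by rw [Subgroup.orderOf_coe, hy]
  have hAn : zpowers (y : G) ≤ normalizer ((pCore q G : Subgroup G) : Set G) := by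
    rw [Subgroup.normalizer_eq_top]; exact le_top
  obtain ⟨j, hj⟩ := IsPGroup.iff_card.mp (L0.pCore_isPGroup q G)
  have hcop : (Nat.card (zpowers (y : G))).Coprime (Nat.card (pCore q G)) := by
    rw [Nat.card_zpowers, hyG, hj]
    exact Nat.Coprime.pow_right _ ((Nat.coprime_primes hr hq.out).2 hrq)
  obtain ⟨m, hm, c, hc, rfl⟩ := L0.exists_comm_mul_centralizer hAn hcop (Or.inl inferInstance) hx
  obtain ⟨hc1, hc2⟩ := Subgroup.mem_inf.1 hc
  have hmN : m ∈ N := by
    have h1 : ⁅(pCore q G : Subgroup G), zpowers (y : G)⁆ ≤ N := by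
      rw [commutator_le]
      intro a _ b hb
      have hbN : b ∈ N := by
        have : zpowers (y : G) ≤ N := by rw [zpowers_le]; exact y.2
        exact this hb
      have : ⁅a, b⁆ = (a * b * a⁻¹) * b⁻¹ := by rw [commutatorElement_def]
      rw [this]
      exact mul_mem (hNn.conj_mem b hbN a) (inv_mem hbN)
    exact h1 hm
  have hcN : c ∉ N := fun hcN => hxN (mul_mem hmN hcN)
  have h1 := heq c hcN y y.2
  have hcomm : Commute c (y : G) := by
    rw [mem_centralizer_iff] at hc2
    exact (hc2 _ (mem_zpowers _)).symm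
  have hco : (orderOf c).Coprime (orderOf (y : G)) := by
    obtain ⟨i, hi⟩ := (IsPGroup.iff_orderOf.mp (L0.pCore_isPGroup q G)) ⟨c, hc1⟩
    rw [Subgroup.orderOf_mk] at hi
    rw [hi, hyG]
    exact Nat.Coprime.pow_left _ ((Nat.coprime_primes hq.out hr).2 (Ne.symm hrq))
  rw [hcomm.orderOf_mul_eq_mul_orderOf_of_coprime hco, hyG] at h1
  have h2 := orderOf_pos c
  have h3 := hr.two_le
  nlinarith

theorem lemB {G : Type*} [Group G] [Finite G] (N : Subgroup G) [hNn : N.Normal] (h : ¬ fittingSubgroup G ≤ N) :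
    ∃ (q : ℕ) (_ : Fact q.Prime), ¬ pCore q G ≤ N := by
  by_contra hcon
  push Not at hcon
  apply h
  have hF := L0.fittingSubgroup_isNilpotent G
  haveI : (fittingSubgroup G).Normal := inferInstance
  have key : N.subgroupOf (fittingSubgroup G) = ⊤ := by
    apply H1.eq_top_of_forall_sylow_le
    intro q hq
    obtain ⟨Q⟩ : Nonempty (Sylow q (fittingSubgroup G)) := inferInstance
    refine ⟨Q, ?_⟩
    rw [← L0.pCore_eq_sylow_of_nilpotent hF Q]
    intro x hx
    rw [mem_subgroupOf]
    exact hcon q hq (L0.pCore_subgroup_le q (fittingSubgroup G) ⟨x, hx, rfl⟩)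
  exact Subgroup.subgroupOf_eq_top.1 key

/-- Let G be a finite group and N a proper non-trivial normal subgroup such that for every x outside N all elements of the coset xN have the same order as x. Then N ≤ F(G) or F(G) ≤ N, where F(G) is the Fitting subgroup; and if N is properly contained in F(G) then F(G) has prime-power order. -/
theorem result {G : Type*} [Group G] [Finite G] (N : Subgroup G) [N.Normal] (hN1 : N ≠ ⊥) (hN2 : N ≠ ⊤)
    (heq : ∀ x : G, x ∉ N → ∀ n ∈ N, orderOf (x * n) = orderOf x) :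
    (N ≤ Cfsg.fittingSubgroup G ∨ Cfsg.fittingSubgroup G ≤ N) ∧
    (N < Cfsg.fittingSubgroup G → IsPrimePow (Nat.card (Cfsg.fittingSubgroup G))) := by
  classical
  have h1 : ¬ fittingSubgroup G ≤ N → N ≤ fittingSubgroup G := by
    intro h
    obtain ⟨q, hq, hqN⟩ := lemB N h
    have hNp := lemA N heq q hqN
    exact (L0.le_pCore hNp).trans (L0.pCore_le_fittingSubgroup q G)
  refine ⟨?_, ?_⟩
  · by_cases h : fittingSubgroup G ≤ N
    · exact Or.inr h
    · exact Or.inl (h1 h)
  · intro hlt
    obtain ⟨q, hq, hqN⟩ := lemB N hlt.not_ge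
    have hNp := lemA N heq q hqN
    have hother : ∀ (r : ℕ) (_ : Fact r.Prime), r ≠ q → pCore r G = ⊥ := by
      intro r hr hrq
      by_contra hne
      by_cases hle : pCore r G ≤ N
      · apply hne
        have e1 : IsPGroup q (pCore r G) := hNp.to_le hle
        have e2 := L0.pCore_isPGroup r G
        have := IsPGroup.disjoint_of_ne q r (Ne.symm hrq) (pCore r G) (pCore r G) e1 e2
        rwa [disjoint_self] at this
      · have e1 := lemA N heq r hle
        apply hN1
        have := IsPGroup.disjoint_of_ne q r (Ne.symm hrq) N N hNp e1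
        rwa [disjoint_self] at this
    have hFq : fittingSubgroup G ≤ pCore q G := by
      by_contra h
      haveI : (pCore q G).Normal := inferInstance
      obtain ⟨r, hr, hrN⟩ := lemB (pCore q G) h
      by_cases hrq : r = q
      · subst hrq; exact hrN le_rfl
      · rw [hother r hr hrq] at hrN
        exact hrN bot_le
    have hFp : IsPGroup q (fittingSubgroup G) := (L0.pCore_isPGroup q G).to_le hFq
    obtain ⟨k, hk⟩ := IsPGroup.iff_card.mp hFp
    rw [hk, isPrimePow_nat_iff]
    refine ⟨q, k, hq.out, ?_, rfl⟩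
    by_contra hk0
    have : k = 0 := by omega
    subst this
    rw [pow_zero, Subgroup.card_eq_one] at hk
    rw [hk] at hlt
    exact not_lt_bot hlt

end Cfsg.Agent.S4107
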