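import Cfsg.Statements.S4108
import Mathlib
import Cfsg.Agent.H3.Frob

set_option autoImplicit false
open Cfsg

namespace Cfsg.Agent.S4108

/-- Let G be a finite group, p a prime and N a proper non-trivial normal p-subgroup such that for every x outside N all elements of the coset xN have the same order as x. Then every non-trivial subgroup H of G of order prime to p acts fixed-point-freely on N: NH is a Frobenius group with complement H and kernel N. -/
theorem result {G : Type*} [Group G] [Finite G] (N : Subgroup G) [N.Normal] (hN1 : N ≠ ⊥) (hN2 : N ≠ ⊤)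
    (heq : ∀ x : G, x ∉ N → ∀ n ∈ N, orderOf (x * n) = orderOf x)
    (p : ℕ) [Fact p.Prime] (hNp : IsPGroup p N) :
    ∀ H : Subgroup G, H ≠ ⊥ → (Nat.card H).Coprime p →
      Cfsg.IsFrobeniusComplement (H.subgroupOf (N ⊔ H)) ∧ Cfsg.frobeniusKernel (H.subgroupOf (N ⊔ H)) = (N.subgroupOf (N ⊔ H) : Set ↥(N ⊔ H)) := by
  intro H hH hcop
  have hinf : N ⊓ H = ⊥ := by
    obtain ⟨k, hk⟩ := hNp.exists_card_eq
    apply Subgroup.inf_eq_bot_of_coprime
    rw [hk]
    exact (Nat.Coprime.pow_right k hcop).symm
  apply Cfsg.Agent.H3.frobenius_of_fpf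
  · rw [← Subgroup.subgroupOf_sup le_sup_left le_sup_right, Subgroup.subgroupOf_self]
  · intro h
    rw [Subgroup.subgroupOf_eq_bot, disjoint_iff, inf_of_le_left le_sup_left] at h
    exact hN1 h
  · intro h
    rw [Subgroup.subgroupOf_eq_bot, disjoint_iff, inf_of_le_left le_sup_right] at h
    exact hH h
  · rintro ⟨h, hh⟩ hhH h1 ⟨n, hn⟩ hnN hcomm
    rw [Subgroup.mem_subgroupOf] at hhH hnN
    simp only at hhH hnN
    have hc : Commute h n := congrArg Subtype.val hcomm
    have hhN : h ∉ N := by
      intro h2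
      have : h ∈ N ⊓ H := ⟨h2, hhH⟩
      rw [hinf, Subgroup.mem_bot] at this
      exact h1 (Subtype.ext this)
    have h3 := heq h hhN n hnN
    have hcop2 : Nat.Coprime (orderOf h) (orderOf n) := by
      have a1 : orderOf h ∣ Nat.card H := by
        have := orderOf_dvd_natCard (⟨h, hhH⟩ : H)
        simpa using this
      have a2 : orderOf n ∣ Nat.card N := by
        have := orderOf_dvd_natCard (⟨n, hnN⟩ : N)
        simpa using this
      obtain ⟨k, hk⟩ := hNp.exists_card_eq
      rw [hk] at a2
      exact Nat.Coprime.coprime_dvd_left a1 (Nat.Coprime.coprime_dvd_right a2 (Nat.Coprime.pow_right k hcop))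
    rw [hc.orderOf_mul_eq_mul_orderOf_of_coprime hcop2] at h3
    have h4 : 0 < orderOf h := orderOf_pos h
    have h5 : orderOf n = 1 := by
      apply Nat.eq_of_mul_eq_mul_left h4
      rw [h3, mul_one]
    exact Subtype.ext (orderOf_eq_one_iff.mp h5)
  · ext ⟨x, hx⟩
    rw [Subgroup.mem_inf, Subgroup.mem_subgroupOf, Subgroup.mem_subgroupOf, Subgroup.mem_bot]
    constructor
    · rintro ⟨h1, h2⟩
      have : x ∈ N ⊓ H := ⟨h1, h2⟩
      rw [hinf, Subgroup.mem_bot] at this
      exact Subtype.ext this
    · intro h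
      have h1 : x = 1 := congrArg Subtype.val h
      subst h1
      exact ⟨N.one_mem, H.one_mem⟩

end Cfsg.Agent.S4108
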