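import Cfsg.Statements.S4112
import Mathlib
import Cfsg.Agent.H3.Suppl

set_option autoImplicit false
open Cfsg

namespace Cfsg.Agent.S4112

theorem exists_central {G : Type*} [Group G] [Finite G] (M : Subgroup G) [M.Normal] (p : ℕ) [Fact p.Prime]
    (P : Sylow p G) (hp : p ∣ Nat.card M) : ∃ x ∈ M, x ≠ 1 ∧ (P : Subgroup G) ≤ Subgroup.centralizer ({x} : Set G) := by
  let _ : MulAction (P : Subgroup G) M := MulAction.compHom M ((MulAut.conjNormal (H := M)).comp (P : Subgroup G).subtype)
  have hsm : ∀ (g : (P : Subgroup G)) (m : M), ((g • m : M) : G) = g * m * (g : G)⁻¹ := fun g m => rfl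
  have h1 : (1 : M) ∈ MulAction.fixedPoints (P : Subgroup G) M := by
    intro g
    apply Subtype.ext
    rw [hsm]; simp
  obtain ⟨b, hb, hb1⟩ := P.2.exists_fixed_point_of_prime_dvd_card_of_fixed_point M hp h1
  refine ⟨b, b.2, fun h => hb1 (Subtype.ext h.symm), ?_⟩
  intro g hg
  rw [Subgroup.mem_centralizer_singleton_iff]
  have h2 := congrArg Subtype.val (hb ⟨g, hg⟩)
  rw [hsm] at h2
  have h3 : g * (b : G) * g⁻¹ = b := h2
  calc g * (b : G) = g * b * g⁻¹ * g := by group
    _ = b * g := by rw [h3]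

/-- Let G be a finite group and M ≤ N non-trivial proper normal subgroups such that for every g outside N the conjugacy class of g is a union of cosets of M (equivalently gm is conjugate to g for every m ∈ M). Then (1) and (2) below are equivalent, and they imply (3): (1) every g outside N acts fixed-point-freely on M, that is C_G(x) ≤ N for every x ∈ M, x ≠ 1; (2) the index of N in G is coprime to the order of M; (3) there is a subgroup H of G with HN = G and H ∩ M = 1. -/
theorem result {G : Type*} [Group G] [Finite G] (N M : Subgroup G) [N.Normal] [M.Normal] (hMN : M ≤ N) (hM1 : M ≠ ⊥) (hN2 : N ≠ ⊤)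
    (hcam : ∀ g : G, g ∉ N → ∀ m ∈ M, ∃ x : G, x * g * x⁻¹ = g * m) :
    ((∀ x ∈ M, x ≠ 1 → Subgroup.centralizer ({x} : Set G) ≤ N) ↔ N.index.Coprime (Nat.card M)) ∧
    ((∀ x ∈ M, x ≠ 1 → Subgroup.centralizer ({x} : Set G) ≤ N) → ∃ H : Subgroup G, H ⊔ N = ⊤ ∧ H ⊓ M = ⊥) := by
  classical
  have part1 : (∀ x ∈ M, x ≠ 1 → Subgroup.centralizer ({x} : Set G) ≤ N) → N.index.Coprime (Nat.card M) := by
    intro h
    rw [Nat.coprime_iff_gcd_eq_one]
    by_contra hne
    obtain ⟨p, hp, hpd⟩ := Nat.exists_prime_and_dvd hne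
    have := Fact.mk hp
    obtain ⟨P⟩ : Nonempty (Sylow p G) := inferInstance
    obtain ⟨x, hx, hx1, hPx⟩ := exists_central M p P (hpd.trans (Nat.gcd_dvd_right _ _))
    exact P.not_dvd_index ((hpd.trans (Nat.gcd_dvd_left _ _)).trans (Subgroup.index_dvd_of_le (hPx.trans (h x hx hx1))))
  refine ⟨⟨part1, ?_⟩, ?_⟩
  · intro hcop x hx hx1 g hg
    by_contra hgN
    have h1 : orderOf x ≠ 1 := by rwa [Ne, orderOf_eq_one_iff]
    obtain ⟨p, hp, hpd⟩ := Nat.exists_prime_and_dvd h1
    have := Fact.mk hp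
    have hx0 : 0 < orderOf x := orderOf_pos x
    set y := x ^ (orderOf x / p) with hy
    have hyo : orderOf y = p := by
      rw [hy]
      exact orderOf_pow_orderOf_div hx0.ne' hpd
    have hyM : y ∈ M := M.pow_mem hx _
    rw [Subgroup.mem_centralizer_singleton_iff] at hg
    have hgy : Commute g y := (show Commute g x from hg).pow_right _
    have hpM : p ∣ Nat.card M := by
      rw [← hyo]
      have := orderOf_dvd_natCard (⟨y, hyM⟩ : M)
      simpa using this
    have hpN : ¬ p ∣ N.index := fun h => by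
      have := Nat.dvd_gcd h hpM
      rw [hcop] at this
      exact hp.one_lt.ne' (Nat.dvd_one.mp this)
    have hg0 : orderOf g ≠ 0 := (orderOf_pos g).ne'
    obtain ⟨e, u, hu, heu⟩ := Nat.exists_eq_pow_mul_and_not_dvd hg0 p hp.ne_one
    set g' := g ^ (p ^ e) with hg'
    have hg'o : orderOf g' = u := by
      rw [hg', orderOf_pow_of_dvd (pow_ne_zero _ hp.ne_zero) (heu ▸ dvd_mul_right _ _), heu]
      exact Nat.mul_div_cancel_left _ (pow_pos hp.pos _)
    have hg'N : g' ∉ N := by
      intro h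
      apply hgN
      rw [← QuotientGroup.eq_one_iff, ← orderOf_eq_one_iff]
      have h2 : orderOf (g : G ⧸ N) ∣ p ^ e := by
        apply orderOf_dvd_of_pow_eq_one
        rw [← QuotientGroup.mk_pow]
        exact (QuotientGroup.eq_one_iff _).mpr h
      have h3 : orderOf (g : G ⧸ N) ∣ N.index := orderOf_dvd_natCard _
      exact Nat.eq_one_of_dvd_coprimes (Nat.Coprime.pow_left _ ((Nat.Prime.coprime_iff_not_dvd hp).mpr hpN)) h2 h3
    obtain ⟨z, hz⟩ := hcam g' hg'N y hyM
    have h4 : orderOf (g' * y) = orderOf g' := by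
      rw [← hz]
      have := MulEquiv.orderOf_eq (MulAut.conj z) g'
      simpa using this
    have hc : Commute g' y := hgy.pow_left _
    rw [hc.orderOf_mul_eq_mul_orderOf_of_coprime (by
      rw [hg'o, hyo]; exact ((Nat.Prime.coprime_iff_not_dvd hp).mpr hu).symm), hyo] at h4
    have h5 : 0 < orderOf g' := orderOf_pos g'
    have h6 : p = 1 := by
      apply Nat.eq_of_mul_eq_mul_left h5
      rw [h4, mul_one]
    exact hp.one_lt.ne' h6
  · intro h
    have hcop := part1 h
    obtain ⟨H, hH, hHp⟩ := Cfsg.Agent.H3.exists_supplement N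
    refine ⟨H, hH, ?_⟩
    apply Subgroup.inf_eq_bot_of_coprime
    rw [Nat.coprime_iff_gcd_eq_one]
    by_contra hne
    obtain ⟨p, hp, hpd⟩ := Nat.exists_prime_and_dvd hne
    have h1 := hHp p hp (hpd.trans (Nat.gcd_dvd_left _ _))
    have h2 := hpd.trans (Nat.gcd_dvd_right _ _)
    have := Nat.dvd_gcd h1 h2
    rw [hcop] at this
    exact hp.one_lt.ne' (Nat.dvd_one.mp this)

end Cfsg.Agent.S4112
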