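import Cfsg.Statements.S4116
import Mathlib
import Cfsg.Agent.H3.Basic

set_option autoImplicit false
open Cfsg

namespace Cfsg.Agent.S4116

open Subgroup Cfsg.Agent.H3

theorem two_conj {K : Type*} [Group K] [Finite K] (A B : Subgroup K) (hA : A ≠ ⊥) (hB : B ≠ ⊥)
    (hAA : ∀ g : K, g ∉ A → ∀ x ∈ A, g * x * g⁻¹ ∈ A → x = 1)
    (hBB : ∀ g : K, g ∉ B → ∀ x ∈ B, g * x * g⁻¹ ∈ B → x = 1)
    (hAB : ∀ g : K, ∀ x ∈ A, g * x * g⁻¹ ∈ B → x = 1) : False := by
  classical
  let Φ : Option (((K ⧸ A) × {x : A // x ≠ 1}) ⊕ ((K ⧸ B) × {x : B // x ≠ 1})) → K := fun x =>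
    match x with
    | none => 1
    | some (Sum.inl x) => x.1.out * (x.2 : A) * x.1.out⁻¹
    | some (Sum.inr x) => x.1.out * (x.2 : B) * x.1.out⁻¹
  have hne : ∀ (g : K) (x : K), x ≠ 1 → g * x * g⁻¹ ≠ 1 := by
    intro g x hx h
    apply hx
    have : x = g⁻¹ * (g * x * g⁻¹) * g := by group
    rw [this, h]; group
  have hinj : Function.Injective Φ := by
    have hcross : ∀ (g g' : K) (a b : K), a ∈ A → b ∈ B → a ≠ 1 → g * a * g⁻¹ ≠ g' * b * g'⁻¹ := by
      intro g g' a b ha hb ha1 h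
      apply ha1
      apply hAB (g'⁻¹ * g) a ha
      have : g'⁻¹ * g * a * (g'⁻¹ * g)⁻¹ = g'⁻¹ * (g * a * g⁻¹) * g' := by group
      rw [this, h]
      have : g'⁻¹ * (g' * b * g'⁻¹) * g' = b := by group
      rw [this]; exact hb
    have hsame : ∀ (C : Subgroup K), (∀ g : K, g ∉ C → ∀ x ∈ C, g * x * g⁻¹ ∈ C → x = 1) →
        ∀ (q q' : K ⧸ C) (a b : {x : C // x ≠ 1}), q.out * (a : C) * q.out⁻¹ = q'.out * (b : C) * q'.out⁻¹ → q = q' ∧ a = b := by
      intro C hC q q' a b h
      have h1 : q'.out⁻¹ * q.out ∈ C := by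
        by_contra hcon
        apply a.2
        apply Subtype.ext
        apply hC _ hcon _ (a : C).2
        have : q'.out⁻¹ * q.out * ((a : C) : K) * (q'.out⁻¹ * q.out)⁻¹ = q'.out⁻¹ * (q.out * (a : C) * q.out⁻¹) * q'.out := by group
        rw [this, h]
        have : q'.out⁻¹ * (q'.out * ((b : C) : K) * q'.out⁻¹) * q'.out = (b : C) := by group
        rw [this]; exact (b : C).2
      have h2 : q' = q := by
        rw [← QuotientGroup.eq, QuotientGroup.out_eq', QuotientGroup.out_eq'] at h1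
        exact h1
      subst h2
      refine ⟨rfl, ?_⟩
      have h5 : ((a : C) : K) = (b : C) := by simpa using h
      exact Subtype.ext (Subtype.ext h5)
    have hnz : ∀ (C : Subgroup K) (a : {x : C // x ≠ 1}), ((a : C) : K) ≠ 1 := by
      intro C a h
      exact a.2 (Subtype.ext h)
    rintro (_ | (⟨q, a⟩ | ⟨q, a⟩)) (_ | (⟨q', a'⟩ | ⟨q', a'⟩)) h
    · rfl
    · exact absurd h.symm (hne _ _ (hnz _ a'))
    · exact absurd h.symm (hne _ _ (hnz _ a'))
    · exact absurd h (hne _ _ (hnz _ a))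
    · obtain ⟨h1, h2⟩ := hsame A hAA _ _ _ _ h
      exact congrArg (fun z => some (Sum.inl z)) (Prod.ext h1 h2)
    · exact absurd h (hcross _ _ _ _ (a : A).2 (a' : B).2 (hnz _ a))
    · exact absurd h (hne _ _ (hnz _ a))
    · exact absurd h.symm (hcross _ _ _ _ (a' : A).2 (a : B).2 (hnz _ a'))
    · obtain ⟨h1, h2⟩ := hsame B hBB _ _ _ _ h
      exact congrArg (fun z => some (Sum.inr z)) (Prod.ext h1 h2)
  have hc := Nat.card_le_card_of_injective Φ hinj
  rw [Finite.card_option, Nat.card_sum, Nat.card_prod, Nat.card_prod] at hc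
  have h1 : ∀ C : Subgroup K, Nat.card {x : C // x ≠ 1} + 1 = Nat.card C := by
    intro C
    rw [← Finite.card_option]
    exact Nat.card_congr (Equiv.optionSubtypeNe (1 : C))
  have h2 : ∀ C : Subgroup K, C ≠ ⊥ → Nat.card K ≤ 2 * (Nat.card (K ⧸ C) * Nat.card {x : C // x ≠ 1}) := by
    intro C hC
    have h3 : Nat.card (K ⧸ C) * Nat.card C = Nat.card K := by
      rw [mul_comm]; exact C.card_mul_index
    have h4 : 2 ≤ Nat.card C := by
      have := (Subgroup.one_lt_card_iff_ne_bot C).mpr hC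
      omega
    have h5 := h1 C
    rw [← h3, ← h5, mul_add, mul_one]
    have h6 : Nat.card (K ⧸ C) ≤ Nat.card (K ⧸ C) * Nat.card {x : C // x ≠ 1} := by
      apply Nat.le_mul_of_pos_right
      omega
    omega
  have h3 := h2 A hA
  have h4 := h2 B hB
  omega

/-- Let G be a finite group with a subgroup H whose order is coprime to its index (a Hall subgroup) and which meets each of its conjugates by elements outside N_G(H) trivially. Then every subgroup of G whose order is divisible only by primes dividing the order of H lies in a conjugate of H. -/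
theorem result {G : Type*} [Group G] [Finite G] (H : Subgroup G)
    (hHall : (Nat.card H).Coprime H.index) (hTI : Cfsg.IsTISubset (H : Set G))
    (K : Subgroup G) (hK : ∀ q : ℕ, q.Prime → q ∣ Nat.card K → q ∣ Nat.card H) :
    ∃ g : G, K ≤ H.map (MulAut.conj g).toMonoidHom := by
  classical
  set N := normalizer (H : Set G) with hN
  have hHN : H ≤ N := le_normalizer
  -- K-elements in conjugates of the normalizer lie in conjugates of H
  have hmem : ∀ k ∈ K, ∀ g : G, g⁻¹ * k * g ∈ N → g⁻¹ * k * g ∈ H := by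
    intro k hk g hg
    set x := g⁻¹ * k * g with hx
    have hox : orderOf x ∣ Nat.card K := by
      have h1 : orderOf x = orderOf k := by
        have := MulEquiv.orderOf_eq (MulAut.conj g⁻¹) k
        rw [MulAut.conj_apply, inv_inv] at this
        exact this
      rw [h1, ← Subgroup.orderOf_mk k hk]
      exact orderOf_dvd_natCard _
    have hco : (orderOf x).Coprime (H.relIndex N) := by
      rw [Nat.coprime_iff_gcd_eq_one, Nat.eq_one_iff_not_exists_prime_dvd]
      intro q hq hqd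
      have h1 : q ∣ Nat.card H := hK q hq ((hqd.trans (Nat.gcd_dvd_left _ _)).trans hox)
      have h2 : q ∣ H.index := (hqd.trans (Nat.gcd_dvd_right _ _)).trans (relIndex_dvd_index_of_le hHN)
      exact Nat.not_coprime_of_dvd_of_dvd hq.one_lt h1 h2 hHall
    have hpow : x ^ (H.relIndex N) ∈ H := by
      have := Subgroup.pow_index_mem (H := H.subgroupOf N) (⟨x, hg⟩ : N)
      exact this
    obtain ⟨t, ht⟩ := exists_pow_eq_self_of_coprime hco.symm
    rw [← ht]
    exact H.pow_mem hpow t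
  have hfix : ∀ (k : K) (g : G), k • (g : G ⧸ N) = (g : G ⧸ N) → g⁻¹ * k * g ∈ H := by
    intro k g hk
    apply hmem k k.2
    have h1 : (((k : G) * g : G) : G ⧸ N) = (g : G ⧸ N) := hk
    have h2 := N.inv_mem (QuotientGroup.eq.mp h1)
    have h3 : (((k : G) * g)⁻¹ * g)⁻¹ = g⁻¹ * k * g := by group
    rwa [h3] at h2
  have huniq : ∀ k : K, k ≠ 1 → ∀ x y : G ⧸ N, k • x = x → k • y = y → x = y := by
    intro k hk x y hx hy
    induction x using QuotientGroup.induction_on with | _ g =>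
    induction y using QuotientGroup.induction_on with | _ g' =>
    have h1 := hfix k g hx
    have h2 := hfix k g' hy
    by_contra hne
    have h3 : g'⁻¹ * g ∉ N := fun h => hne (QuotientGroup.eq.mpr h).symm
    have h4 := hTI (g'⁻¹ * g) h3 _ h1 (by
      have : g'⁻¹ * g * (g⁻¹ * k * g) * (g'⁻¹ * g)⁻¹ = g'⁻¹ * k * g' := by group
      rw [this]; exact h2)
    apply hk
    apply Subtype.ext
    have h5 : (k : G) = g * (g⁻¹ * k * g) * g⁻¹ := by group
    rw [h5, h4]
    simp
  have hq : ∀ q : ℕ, q.Prime → q ∣ Nat.card K → ∃ ω : G ⧸ N, ¬ q ∣ (MulAction.stabilizer K ω).index := by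
    intro q hq hqK
    have := Fact.mk hq
    obtain ⟨Q⟩ := (inferInstance : Nonempty (Sylow q K))
    have hnd : ¬ q ∣ Nat.card (G ⧸ N) := by
      intro h
      have h1 : q ∣ H.index := h.trans (index_dvd_of_le hHN)
      exact Nat.not_coprime_of_dvd_of_dvd hq.one_lt (hK q hq hqK) h1 hHall
    obtain ⟨ω, hω⟩ := Q.isPGroup'.nonempty_fixed_point_of_prime_not_dvd_card (G ⧸ N) hnd
    refine ⟨ω, fun h => ?_⟩
    have hle : (Q : Subgroup K) ≤ MulAction.stabilizer K ω := fun x hx => hω ⟨x, hx⟩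
    exact Q.not_dvd_index (h.trans (index_dvd_of_le hle))
  -- a fixed point
  suffices hfp : ∃ ω : G ⧸ N, ∀ k : K, k • ω = ω by
    obtain ⟨ω, hω⟩ := hfp
    induction ω using QuotientGroup.induction_on with | _ g =>
    refine ⟨g, fun k hk => ⟨g⁻¹ * k * g, hfix ⟨k, hk⟩ g (hω ⟨k, hk⟩), ?_⟩⟩
    show g * (g⁻¹ * k * g) * g⁻¹ = k
    group
  by_contra hcon
  push Not at hcon
  have hne1 : ∀ ω : G ⧸ N, (MulAction.stabilizer K ω).index ≠ 1 := by
    intro ω h
    rw [Subgroup.index_eq_one] at h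
    obtain ⟨k, hk⟩ := hcon ω
    apply hk
    have : k ∈ MulAction.stabilizer K ω := by rw [h]; trivial
    exact this
  obtain ⟨q1, hq1, hq1d⟩ := Nat.exists_prime_and_dvd (hne1 ((1 : G) : G ⧸ N))
  obtain ⟨ω1, hω1⟩ := hq q1 hq1 (hq1d.trans (Subgroup.index_dvd_card _))
  obtain ⟨q2, hq2, hq2d⟩ := Nat.exists_prime_and_dvd (hne1 ω1)
  obtain ⟨ω2, hω2⟩ := hq q2 hq2 (hq2d.trans (Subgroup.index_dvd_card _))
  have hst : ∀ (g x : K) (a b : G ⧸ N), x • a = a → (g * x * g⁻¹) • b = b → x ≠ 1 → b = g • a := by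
    intro g x a b hxa hb hx1
    apply huniq (g * x * g⁻¹)
    · intro h
      apply hx1
      have : x = g⁻¹ * (g * x * g⁻¹) * g := by group
      rw [this, h]; group
    · exact hb
    · rw [smul_smul, inv_mul_cancel_right, ← smul_smul, hxa]
  refine two_conj (MulAction.stabilizer K ω1) (MulAction.stabilizer K ω2) ?_ ?_ ?_ ?_ ?_
  · intro h
    rw [h, Subgroup.index_bot] at hω1
    exact hω1 (hq1d.trans (Subgroup.index_dvd_card _))
  · intro h
    rw [h, Subgroup.index_bot] at hω2
    exact hω2 (hq2d.trans (Subgroup.index_dvd_card _))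
  · intro g hg x hx hgx
    by_contra hx1
    exact hg (hst g x ω1 ω1 hx hgx hx1).symm
  · intro g hg x hx hgx
    by_contra hx1
    exact hg (hst g x ω2 ω2 hx hgx hx1).symm
  · intro g x hx hgx
    by_contra hx1
    have h1 := hst g x ω1 ω2 hx hgx hx1
    apply hω2
    rw [MulAction.index_stabilizer] at hq2d ⊢
    have h2 : MulAction.orbit K ω2 = MulAction.orbit K ω1 := by
      rw [h1]; exact MulAction.orbit_smul g ω1
    rw [h2]
    exact hq2d

end Cfsg.Agent.S4116
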