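import Cfsg.Statements.S4117
import Mathlib
import Mathlib
import Cfsg.Agent.H3.ZCop

set_option autoImplicit false
open Cfsg

namespace Cfsg.Agent.S4117

open Subgroup Cfsg.Agent.L0
open scoped commutatorElement

/-- Let A be a finite group acting on the finite group G by automorphisms with the orders of A and G coprime, and suppose every Sylow subgroup of G is cyclic. Then the fixed-point subgroup C_G(A) is a Hall subgroup of G (its order is coprime to its index), the subgroup [G, A] generated by the elements g⁻¹·a(g) is cyclic and normal with [G, A] ∩ C_G(A) = 1 and [G, A]·C_G(A) = G. -/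
theorem result {G A : Type*} [Group G] [Finite G] [Group A] [Finite A]
    [MulDistribMulAction A G] (hcop : (Nat.card A).Coprime (Nat.card G))
    (hcyc : ∀ (p : ℕ) [Fact p.Prime] (P : Sylow p G), IsCyclic (P : Subgroup G)) :
    (Nat.card (MulAction.fixedPoints A G : Set G)).Coprime (Nat.card G / Nat.card (MulAction.fixedPoints A G : Set G)) ∧
    IsCyclic (Subgroup.closure {y : G | ∃ (a : A) (g : G), y = g⁻¹ * a • g}) ∧
    (Subgroup.closure {y : G | ∃ (a : A) (g : G), y = g⁻¹ * a • g}).Normal ∧
    (Subgroup.closure {y : G | ∃ (a : A) (g : G), y = g⁻¹ * a • g} : Set G) ∩ MulAction.fixedPoints A G = {1} ∧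
    Subgroup.closure {y : G | ∃ (a : A) (g : G), y = g⁻¹ * a • g} ⊔ Subgroup.closure (MulAction.fixedPoints A G) = ⊤ := by
  classical
  haveI hZG : IsZGroup G := ⟨fun p hp P => by haveI : Fact p.Prime := ⟨hp⟩; exact hcyc p P⟩
  let φ : A →* MulAut G := MulDistribMulAction.toMulAut A G
  have hφ : ∀ (a : A) (g : G), φ a g = a • g := fun a g => rfl
  let Y := G ⋊[φ] A
  haveI : Finite Y := Finite.of_equiv _ (SemidirectProduct.equivProd (φ := φ)).symm
  let N : Subgroup Y := (SemidirectProduct.inl : G →* Y).range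
  let E : Subgroup Y := (SemidirectProduct.inr : A →* Y).range
  have hinl : Function.Injective (SemidirectProduct.inl : G →* Y) := SemidirectProduct.inl_injective
  have hinr : Function.Injective (SemidirectProduct.inr : A →* Y) := SemidirectProduct.inr_injective
  have eE : A ≃* E := MonoidHom.ofInjective hinr
  have eN : G ≃* N := MonoidHom.ofInjective hinl
  have hNn : N.Normal := by
    have : N = (SemidirectProduct.rightHom : Y →* A).ker := SemidirectProduct.range_inl_eq_ker_rightHom
    rw [this]; infer_instance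
  have hc : (Nat.card E).Coprime (Nat.card N) := by
    rw [← Nat.card_congr eE.toEquiv, ← Nat.card_congr eN.toEquiv]; exact hcop
  have hZN : IsZGroup N := IsZGroup.of_injective (f := eN.symm.toMonoidHom) eN.symm.injective
  have hact : ∀ (a : A) (g : G), (SemidirectProduct.inr a : Y) * SemidirectProduct.inl g * (SemidirectProduct.inr a)⁻¹ = SemidirectProduct.inl (a • g) := by
    intro a g
    have h3 := SemidirectProduct.inl_aut (φ := φ) a g
    rw [← hφ a g, ← map_inv]
    exact h3.symm
  have hcomm : ∀ (a : A) (g : G), ⁅(SemidirectProduct.inl g : Y), (SemidirectProduct.inr a : Y)⁆ = SemidirectProduct.inl (g * a • g⁻¹) := by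
    intro a g
    rw [map_mul, ← hact a g⁻¹, commutatorElement_def, map_inv (SemidirectProduct.inl : G →* Y)]
    group
  set D0 : Subgroup G := Subgroup.closure {y : G | ∃ (a : A) (g : G), y = g⁻¹ * a • g} with hD0
  have hD0map : D0.map (SemidirectProduct.inl : G →* Y) = ⁅N, E⁆ := by
    apply le_antisymm
    · rw [map_le_iff_le_comap, hD0, closure_le]
      rintro _ ⟨a, g, rfl⟩
      show (SemidirectProduct.inl (g⁻¹ * a • g) : Y) ∈ (⁅N, E⁆ : Subgroup Y)
      have h1 := hcomm a g⁻¹
      rw [inv_inv] at h1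
      rw [← h1]
      exact commutator_mem_commutator ⟨g⁻¹, rfl⟩ ⟨a, rfl⟩
    · rw [commutator_le]
      rintro _ ⟨g, rfl⟩ _ ⟨a, rfl⟩
      rw [hcomm a g]
      exact ⟨g * a • g⁻¹, subset_closure ⟨a, g⁻¹, by rw [inv_inv]⟩, rfl⟩
  set C0 : Subgroup G := (N ⊓ centralizer (E : Set Y)).comap (SemidirectProduct.inl : G →* Y) with hC0
  have hC0mem : ∀ g : G, g ∈ C0 ↔ g ∈ MulAction.fixedPoints A G := by
    intro g
    constructor
    · intro hg a
      have h1 : (SemidirectProduct.inl g : Y) ∈ centralizer (E : Set Y) := hg.2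
      have h2 := mem_centralizer_iff.1 h1 (SemidirectProduct.inr a) ⟨a, rfl⟩
      apply hinl
      rw [← hact a g, h2]; group
    · intro hg
      have h1 : (SemidirectProduct.inl g : Y) ∈ centralizer (E : Set Y) := by
        rw [mem_centralizer_iff]
        rintro _ ⟨a, rfl⟩
        have h2 := hact a g
        rw [hg a] at h2
        calc (SemidirectProduct.inr a : Y) * SemidirectProduct.inl g = ((SemidirectProduct.inr a : Y) * SemidirectProduct.inl g * (SemidirectProduct.inr a)⁻¹) * SemidirectProduct.inr a := by group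
          _ = SemidirectProduct.inl g * SemidirectProduct.inr a := by rw [h2]
      exact ⟨⟨g, rfl⟩, h1⟩
  have hC0set : (MulAction.fixedPoints A G : Set G) = (C0 : Set G) := by
    ext g; exact (hC0mem g).symm
  have hC0map : C0.map (SemidirectProduct.inl : G →* Y) = N ⊓ centralizer (E : Set Y) := by
    rw [hC0, map_comap_eq]
    exact inf_eq_right.2 inf_le_left
  obtain ⟨hDc, hbot⟩ := H3.zcop_cyclic hNn hc hZN
  have hco := H3.zcop_coprime hNn hc hZN
  have hsup := commutator_sup_centralizer (A := E) (N := N) (by rw [Subgroup.normalizer_eq_top (H := N)]; exact le_top) hc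
    (Or.inr (by haveI := hZN; infer_instance))
  have eD : D0 ≃* (⁅N, E⁆ : Subgroup Y) := (D0.equivMapOfInjective _ hinl).trans (MulEquiv.subgroupCongr hD0map)
  have eC : C0 ≃* (N ⊓ centralizer (E : Set Y) : Subgroup Y) := (C0.equivMapOfInjective _ hinl).trans (MulEquiv.subgroupCongr hC0map)
  have hco0 : (Nat.card D0).Coprime (Nat.card C0) := by
    rw [Nat.card_congr eD.toEquiv, Nat.card_congr eC.toEquiv]; exact hco
  have hinf0 : D0 ⊓ C0 = ⊥ := Subgroup.inf_eq_bot_of_coprime hco0
  have hsup0 : D0 ⊔ C0 = ⊤ := by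
    apply Subgroup.map_injective hinl
    rw [Subgroup.map_sup, hD0map, hC0map, hsup, ← MonoidHom.range_eq_map]
  have hnorm : D0.Normal := by
    refine ⟨fun x hx g => ?_⟩
    have h1 : (SemidirectProduct.inl x : Y) ∈ (⁅N, E⁆ : Subgroup Y) := by rw [← hD0map]; exact ⟨x, hx, rfl⟩
    have h2 : (SemidirectProduct.inl g : Y) ∈ normalizer ((⁅N, E⁆ : Subgroup Y) : Set Y) := normalizer_commutator_ge_left _ _ ⟨g, rfl⟩
    have h3 := ((mem_normalizer_iff.1 h2) _).1 h1
    rw [← hD0map] at h3
    obtain ⟨z, hz, hzx⟩ := h3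
    have h4 : z = g * x * g⁻¹ := by
      apply hinl
      rw [map_mul, map_mul, map_inv]; exact hzx
    rw [← h4]; exact hz
  have hcompl : IsComplement' D0 C0 := by
    apply isComplement'_of_disjoint_and_mul_eq_univ (disjoint_iff.2 hinf0)
    haveI := hnorm
    rw [← Subgroup.normal_mul, hsup0]; rfl
  have hcard := hcompl.card_mul_card
  refine ⟨?_, ?_, hnorm, ?_, ?_⟩
  · rw [hC0set]
    show (Nat.card C0).Coprime (Nat.card G / Nat.card C0)
    rw [← hcard, Nat.mul_div_cancel _ Nat.card_pos]
    exact hco0.symm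
  · haveI := hDc
    exact isCyclic_of_surjective eD.symm.toMonoidHom eD.symm.surjective
  · rw [hC0set]
    have : ((D0 ⊓ C0 : Subgroup G) : Set G) = {1} := by rw [hinf0]; rfl
    exact this
  · rw [hC0set, Subgroup.closure_eq]; exact hsup0

end Cfsg.Agent.S4117
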