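import Cfsg.Statements.S4126
import Mathlib
import Cfsg.Agent.H3.Omega
import Cfsg.Agent.H1.Prod

set_option autoImplicit false
open Cfsg

namespace Cfsg.Agent.S4126

/-- Let G be a finite group and p a prime. Suppose every element of order p, and when p = 2 also every element of order 4, has a conjugacy class of p-power size. Then G has a normal p-complement. -/
theorem result {G : Type*} [Group G] [Finite G] (p : ℕ) [Fact p.Prime]
    (h : ∀ x : G, (orderOf x = p ∨ (p = 2 ∧ orderOf x = 4)) → ∃ a : ℕ, (Subgroup.centralizer ({x} : Set G)).index = p ^ a) :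
    Cfsg.HasNormalPComplement p G := by
  refine H3.npc_of_fusion (default : Sylow p G) ?_
  intro a ha hcond g hga
  by_cases h1 : orderOf a = 1
  · refine ⟨1, Subgroup.one_mem _, ?_⟩
    rw [orderOf_eq_one_iff] at h1
    rw [h1]; group
  set P : Sylow p G := default with hP
  have hpp : p.Prime := Fact.out
  have hd : orderOf a = p ∨ (p = 2 ∧ orderOf a = 4) := by
    rcases hcond with h2 | ⟨h2, h3⟩
    · left
      exact orderOf_eq_prime h2 (fun h => h1 (by rw [h, orderOf_one]))
    · have h4 : orderOf a ∣ 2 ^ 2 := orderOf_dvd_of_pow_eq_one h3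
      obtain ⟨i, hi, he⟩ := (Nat.dvd_prime_pow Nat.prime_two).mp h4
      interval_cases i
      · exact absurd he h1
      · left; rw [h2]; exact he
      · right; exact ⟨h2, he⟩
  obtain ⟨k, hk⟩ := h a hd
  have h2 : (P : Subgroup G).index.Coprime (Subgroup.centralizer ({a} : Set G)).index := by
    rw [hk]
    apply Nat.Coprime.pow_right
    rw [Nat.coprime_comm, Nat.Prime.coprime_iff_not_dvd hpp]
    exact P.not_dvd_index
  obtain ⟨x, hx, c, hc, he⟩ := H1.factor_of_coprime h2 g
  refine ⟨x, hx, ?_⟩
  have h3 : c * a = a * c := by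
    have := Subgroup.mem_centralizer_iff.mp hc a rfl
    exact this.symm
  rw [he]
  calc x * c * a * (x * c)⁻¹ = x * (c * a) * c⁻¹ * x⁻¹ := by group
    _ = x * (a * c) * c⁻¹ * x⁻¹ := by rw [h3]
    _ = _ := by group

end Cfsg.Agent.S4126
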