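import Cfsg.Statements.S4127
import Cfsg.Agent.H4.Cover
import Cfsg.Agent.H1.Prod
import Cfsg.Agent.H1.FrobPC
import Cfsg.Agent.H1.Transfer
import Cfsg.Agent.L0.Coprime2
import Cfsg.Agent.L0.Core

set_option autoImplicit false
open Cfsg

namespace Cfsg.Agent.S4127

/-- Let G be a finite group, p a prime and p^a the largest power of p dividing the size of any conjugacy class of G. If some element of p-power order has a conjugacy class of size exactly p^a, then G has a normal p-complement. -/
theorem result {G : Type*} [Group G] [Finite G] (p : ℕ) [Fact p.Prime]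
    (a : ℕ) (hmax : ∀ y : G, ¬ p ^ (a + 1) ∣ (Subgroup.centralizer ({y} : Set G)).index)
    (hx : ∃ x : G, (∃ k : ℕ, orderOf x = p ^ k) ∧ (Subgroup.centralizer ({x} : Set G)).index = p ^ a) :
    Cfsg.HasNormalPComplement p G := by
    classical
    obtain ⟨x, ⟨k, hxk⟩, hxa⟩ := hx
    have hpp := (Fact.out : p.Prime)
    -- x in O_p(G)
    have hxQ : x ∈ pCore p G := by
      have hzp : IsPGroup p (Subgroup.zpowers x) := IsPGroup.of_card (n := k) (by rw [Nat.card_zpowers, hxk])
      obtain ⟨T, hT⟩ := hzp.exists_le_sylow
      have hcop : (Subgroup.centralizer ({x} : Set G)).index.Coprime (T : Subgroup G).index := by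
        rw [hxa]
        exact Nat.Coprime.pow_left _ (hpp.coprime_iff_not_dvd.mpr T.not_dvd_index)
      have hle : Subgroup.normalClosure {x} ≤ (T : Subgroup G) := by
        rw [Subgroup.normalClosure, Subgroup.closure_le]
        intro y hy
        rw [Group.mem_conjugatesOfSet_iff] at hy
        obtain ⟨a', ha', hc⟩ := hy
        rw [Set.mem_singleton_iff] at ha'
        subst ha'
        obtain ⟨g, hg⟩ := isConj_iff.mp hc
        obtain ⟨c, hc, t, ht, hct⟩ := H1.factor_of_coprime hcop g⁻¹
        have hg2 : g = t⁻¹ * c⁻¹ := by rw [← mul_inv_rev, ← hct, inv_inv]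
        rw [Subgroup.mem_centralizer_singleton_iff] at hc
        have e : y = t⁻¹ * a' * t := by
          rw [← hg, hg2]
          have : c⁻¹ * a' * c = a' := by rw [mul_assoc, ← hc]; group
          calc t⁻¹ * c⁻¹ * a' * (t⁻¹ * c⁻¹)⁻¹ = t⁻¹ * (c⁻¹ * a' * c) * t := by group
            _ = t⁻¹ * a' * t := by rw [this]
        rw [e]
        exact mul_mem (mul_mem (inv_mem ht) (hT (Subgroup.mem_zpowers a'))) ht
      have hpg : IsPGroup p (Subgroup.normalClosure ({x} : Set G)) := T.2.to_le hle
      exact L0.le_pCore hpg (Subgroup.subset_normalClosure (Set.mem_singleton x))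
    have hQp : IsPGroup p (pCore p G) := L0.pCore_isPGroup p G
    -- relative class sizes
    have hA : ∀ y ∈ Subgroup.centralizer ({x} : Set G), (orderOf y).Coprime p →
        ¬ p ∣ (Subgroup.centralizer ({y} : Set G)).relIndex (Subgroup.centralizer ({x} : Set G)) := by
      intro y hy hyp hd
      rw [Subgroup.mem_centralizer_singleton_iff] at hy
      have hxy : Commute x y := hy.symm
      have hco : (orderOf x).Coprime (orderOf y) := by
        rw [hxk]; exact Nat.Coprime.pow_left _ hyp.symm
      apply hmax (x * y)
      have hle : Subgroup.centralizer ({x * y} : Set G) ≤ Subgroup.centralizer ({y} : Set G) ⊓ Subgroup.centralizer ({x} : Set G) := by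
        intro g hg
        rw [Subgroup.mem_centralizer_singleton_iff] at hg
        have hg' : Commute g (x * y) := hg
        have h1 : Commute g (x ^ orderOf y) := by
          have := hg'.pow_right (orderOf y)
          rwa [hxy.mul_pow, pow_orderOf_eq_one, mul_one] at this
        have h2 : Commute g (y ^ orderOf x) := by
          have := hg'.pow_right (orderOf x)
          rwa [hxy.mul_pow, pow_orderOf_eq_one, one_mul] at this
        obtain ⟨m, hm⟩ := exists_pow_eq_self_of_coprime hco.symm
        obtain ⟨m', hm'⟩ := exists_pow_eq_self_of_coprime hco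
        refine Subgroup.mem_inf.mpr ⟨?_, ?_⟩
        · rw [Subgroup.mem_centralizer_singleton_iff, ← hm']
          exact (h2.pow_right m').eq
        · rw [Subgroup.mem_centralizer_singleton_iff, ← hm]
          exact (h1.pow_right m).eq
      have h3 : (Subgroup.centralizer ({y} : Set G) ⊓ Subgroup.centralizer ({x} : Set G)).index ∣ (Subgroup.centralizer ({x * y} : Set G)).index :=
        Subgroup.index_dvd_of_le hle
      refine dvd_trans ?_ h3
      rw [← Subgroup.relIndex_mul_index (inf_le_right : Subgroup.centralizer ({y} : Set G) ⊓ Subgroup.centralizer ({x} : Set G) ≤ Subgroup.centralizer ({x} : Set G)),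
        Subgroup.inf_relIndex_right, hxa, pow_succ, mul_comm]
      exact mul_dvd_mul_right hd _
    -- p'-elements of C(x) centralize Q
    have hB : ∀ y ∈ Subgroup.centralizer ({x} : Set G), (orderOf y).Coprime p → y ∈ Subgroup.centralizer ((pCore p G : Subgroup G) : Set G) := by
      intro y hy hyp
      have hC : pCore p G ⊓ Subgroup.centralizer (Subgroup.zpowers x : Set G) ≤ Subgroup.centralizer (Subgroup.zpowers y : Set G) := by
        have h1 : (pCore p G).subgroupOf (Subgroup.centralizer ({x} : Set G)) ≤ (Subgroup.centralizer ({y} : Set G)).subgroupOf (Subgroup.centralizer ({x} : Set G)) :=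
          H4.sylow_le_of_class hQp.comap_subtype (hA y hy hyp)
        intro z hz
        obtain ⟨hz1, hz2⟩ := Subgroup.mem_inf.mp hz
        have hz3 : z ∈ Subgroup.centralizer ({x} : Set G) := by
          rw [Subgroup.mem_centralizer_singleton_iff]
          exact (Subgroup.mem_centralizer_iff.mp hz2 x (Subgroup.mem_zpowers x)).symm
        have h2 := h1 (show (⟨z, hz3⟩ : Subgroup.centralizer ({x} : Set G)) ∈ _ from hz1)
        rw [Subgroup.mem_subgroupOf, Subgroup.mem_centralizer_singleton_iff] at h2
        rw [Subgroup.mem_centralizer_iff]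
        rintro _ ⟨j, rfl⟩
        have h4 : Commute y z := (h2 : z * y = y * z).symm
        exact (h4.zpow_left j).eq
      have h5 := L0.axb_lemma (p := p) (A := Subgroup.zpowers y) (B := Subgroup.zpowers x) (P := pCore p G)
        (by rw [Subgroup.normalizer_eq_top]; exact le_top) (by rw [Subgroup.normalizer_eq_top]; exact le_top) hQp
        (IsPGroup.of_card (n := k) (by rw [Nat.card_zpowers, hxk])) (by rw [Nat.card_zpowers]; exact hyp) (by
          rintro _ ⟨i, rfl⟩ _ ⟨j, rfl⟩
          rw [Subgroup.mem_centralizer_singleton_iff] at hy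
          have h6 : Commute y x := hy
          exact (h6.zpow_zpow i j).eq) hC
      rw [Subgroup.commutator_eq_bot_iff_le_centralizer] at h5
      rw [Subgroup.mem_centralizer_iff]
      intro q hq
      exact (Subgroup.mem_centralizer_iff.mp (h5 hq) y (Subgroup.mem_zpowers y)).symm
    -- M
    obtain ⟨M, hM⟩ : ∃ M : Subgroup G, M = Subgroup.centralizer ((pCore p G : Subgroup G) : Set G) := ⟨_, rfl⟩
    haveI hMn : M.Normal := by rw [hM]; infer_instance
    have hMx : M ≤ Subgroup.centralizer ({x} : Set G) := by
      rw [hM]
      intro m hm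
      rw [Subgroup.mem_centralizer_singleton_iff]
      exact (Subgroup.mem_centralizer_iff.mp hm x hxQ).symm
    have hMidx : ∃ j, M.index = p ^ j := by
      refine ⟨_, Nat.eq_prime_pow_of_unique_prime_dvd M.index_ne_zero_of_finite ?_⟩
      intro q hq hqd
      by_contra hqp
      haveI : Fact q.Prime := ⟨hq⟩
      obtain ⟨S⟩ : Nonempty (Sylow q (Subgroup.centralizer ({x} : Set G))) := inferInstance
      have hSM : (S : Subgroup (Subgroup.centralizer ({x} : Set G))).map (Subgroup.centralizer ({x} : Set G)).subtype ≤ M := by
        rintro _ ⟨y, hy, rfl⟩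
        rw [hM]
        apply hB y y.2
        obtain ⟨i, hi⟩ := (IsPGroup.iff_orderOf.mp S.2) ⟨y, hy⟩
        rw [Subgroup.orderOf_mk] at hi
        have hi2 : orderOf (y : G) = q ^ i := by rw [Subgroup.orderOf_coe]; exact hi
        show (orderOf (y : G)).Coprime p
        rw [hi2]
        exact Nat.Coprime.pow_left _ ((Nat.coprime_primes hq hpp).mpr hqp)
      have h1 := dvd_trans hqd (Subgroup.index_dvd_of_le hSM)
      rw [Subgroup.index_map_subtype] at h1
      rcases hq.dvd_mul.mp h1 with h2 | h2
      · exact S.not_dvd_index h2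
      · rw [hxa] at h2
        exact hqp ((Nat.prime_dvd_prime_iff_eq hq hpp).mp (hq.dvd_of_dvd_pow h2))
    have hMel : ∀ y : G, (orderOf y).Coprime p → y ∈ M := by
      intro y hy
      obtain ⟨j, hj⟩ := hMidx
      have h1 : IsPGroup p (G ⧸ M) := IsPGroup.of_card (n := j) (by rw [← Subgroup.index_eq_card, hj])
      have h2 := H1.map_eq_one_of_coprime h1 (QuotientGroup.mk' M) hy
      rwa [← MonoidHom.mem_ker, QuotientGroup.ker_mk'] at h2
    have hMcl : ∀ y : M, (orderOf y).Coprime p → ¬ p ∣ (Subgroup.centralizer ({y} : Set M)).index := by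
      intro y hy hd
      have h1 : (Subgroup.centralizer ({y} : Set M)) = (Subgroup.centralizer ({(y : G)} : Set G)).subgroupOf M := by
        ext z
        rw [Subgroup.mem_subgroupOf, Subgroup.mem_centralizer_singleton_iff, Subgroup.mem_centralizer_singleton_iff]
        constructor
        · intro h; exact congrArg (fun t : M => (t : G)) h
        · intro h; exact Subtype.ext h
      rw [h1] at hd
      apply hA y (hMx y.2) (by rwa [Subgroup.orderOf_coe])
      refine dvd_trans hd ?_
      have h2 := H3.relIndex_dvd_index_of_normal_right ((Subgroup.centralizer ({(y : G)} : Set G)).subgroupOf (Subgroup.centralizer ({x} : Set G))) (M.subgroupOf (Subgroup.centralizer ({x} : Set G)))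
      rw [Subgroup.relIndex_subgroupOf hMx] at h2
      exact h2
    obtain ⟨T⟩ : Nonempty (Sylow p M) := inferInstance
    have hTn := H4.sylow_normal_of_class hMcl T
    apply H1.frobenius_criterion
    intro D hD g hg hgo
    have hgM := hMel g hgo
    have hgD : Subgroup.zpowers g ≤ Subgroup.normalizer (D : Set G) := by rw [Subgroup.zpowers_le]; exact hg
    have hcop : (Nat.card (Subgroup.zpowers g)).Coprime (Nat.card D) := by
      obtain ⟨i, hi⟩ := hD.exists_card_eq
      rw [Nat.card_zpowers, hi]
      exact Nat.Coprime.pow_right _ hgo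
    have h7 := L0.commutator_eq_bot_of_series (A := Subgroup.zpowers g) (N := D) (M := D ⊓ M) hgD hcop
      (Or.inl (Group.isSolvable_of_comm (fun a b => Subtype.ext (by
      obtain ⟨i, hi⟩ := a.2
      obtain ⟨j, hj⟩ := b.2
      show (a : G) * (b : G) = (b : G) * (a : G)
      rw [← hi, ← hj]
      exact (zpow_mul_comm g i j))))) (by
        apply le_inf (L0.commutator_le_of_normalizes hgD)
        exact (Subgroup.commutator_mono le_top (by rw [Subgroup.zpowers_le]; exact hgM)).trans (Subgroup.commutator_le_right _ _)) (by
        rw [Subgroup.commutator_eq_bot_iff_le_centralizer]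
        intro d hd
        obtain ⟨hd1, hd2⟩ := Subgroup.mem_inf.mp hd
        rw [Subgroup.mem_centralizer_iff]
        rintro _ ⟨j, rfl⟩
        have h8 : (D.subgroupOf M) ≤ (T : Subgroup M) := by
          haveI := hTn
          obtain ⟨S, hS⟩ := (hD.comap_subtype (K := M)).exists_le_sylow
          have : S = T := by
            obtain ⟨m, hm⟩ := MulAction.exists_smul_eq M T S
            rw [← hm]
            exact Sylow.smul_eq_of_normal
          rw [← this]; exact hS
        have h9 : (T : Subgroup M) ≤ Subgroup.centralizer ({(⟨g, hgM⟩ : M)} : Set M) := by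
          haveI := hTn
          exact H4.sylow_le_of_class T.2 (hMcl ⟨g, hgM⟩ (by rwa [Subgroup.orderOf_mk]))
        have h10 := h9 (h8 (show (⟨d, hd2⟩ : M) ∈ D.subgroupOf M from hd1))
        rw [Subgroup.mem_centralizer_singleton_iff] at h10
        have h11 : Commute g d := (congrArg (fun t : M => (t : G)) h10).symm
        exact (h11.zpow_left j).eq)
    rw [Subgroup.commutator_eq_bot_iff_le_centralizer] at h7
    rw [Subgroup.mem_centralizer_iff]
    intro q hq
    exact (Subgroup.mem_centralizer_iff.mp (h7 hq) g (Subgroup.mem_zpowers g)).symm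

end Cfsg.Agent.S4127
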