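import Cfsg.Statements.S4142
import Mathlib
import Cfsg.Agent.H3.Basic

set_option autoImplicit false
open Cfsg

namespace Cfsg.Agent.S4142

theorem aux {G : Type*} [Group G] [Finite G] (N : Subgroup G) [N.Normal] (g : G) :
    (∀ n ∈ N, ∃ x : G, x * g * x⁻¹ = g * n) ↔
      Nat.card (Subgroup.centralizer ({g} : Set G)) = Nat.card (Subgroup.centralizer ({(QuotientGroup.mk g : G ⧸ N)} : Set (G ⧸ N))) := by
  have e1 := Cfsg.Agent.H3.card_isConj g
  have e2 := Cfsg.Agent.H3.card_isConj (QuotientGroup.mk g : G ⧸ N)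
  have e3 := Subgroup.index_mul_card (Subgroup.centralizer ({g} : Set G))
  have e4 := Subgroup.index_mul_card (Subgroup.centralizer ({(QuotientGroup.mk g : G ⧸ N)} : Set (G ⧸ N)))
  have e5 : Nat.card G = Nat.card (G ⧸ N) * Nat.card N := Subgroup.card_eq_card_quotient_mul_card_subgroup N
  have e6 : Nat.card {z : G // IsConj (QuotientGroup.mk g : G ⧸ N) (z : G ⧸ N)} =
      Nat.card N * Nat.card {y : G ⧸ N // IsConj (QuotientGroup.mk g : G ⧸ N) y} := by
    rw [← Nat.card_prod]
    exact Nat.card_congr (QuotientGroup.preimageMkEquivSubgroupProdSet N {y | IsConj (QuotientGroup.mk g : G ⧸ N) y})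
  have hsub : ∀ z : G, IsConj g z → IsConj (QuotientGroup.mk g : G ⧸ N) (z : G ⧸ N) := by
    intro z hz
    obtain ⟨c, hc⟩ := isConj_iff.mp hz
    exact isConj_iff.mpr ⟨(c : G ⧸ N), by rw [← hc]; rfl⟩
  have h1 : (∀ n ∈ N, ∃ x : G, x * g * x⁻¹ = g * n) ↔
      ∀ z : G, IsConj (QuotientGroup.mk g : G ⧸ N) (z : G ⧸ N) → IsConj g z := by
    constructor
    · intro h z hz
      obtain ⟨c, hc⟩ := isConj_iff.mp hz
      induction c using QuotientGroup.induction_on with
      | H c =>
        have h2 : ((c * g * c⁻¹ : G) : G ⧸ N) = z := hc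
        rw [QuotientGroup.eq] at h2
        have h3 : c⁻¹ * ((c * g * c⁻¹)⁻¹ * z) * c ∈ N := by
          have := Subgroup.Normal.conj_mem (inferInstance : N.Normal) _ h2 c⁻¹
          simpa using this
        obtain ⟨x, hx⟩ := h _ h3
        refine isConj_iff.mpr ⟨c * x, ?_⟩
        calc c * x * g * (c * x)⁻¹ = c * (x * g * x⁻¹) * c⁻¹ := by group
          _ = z := by rw [hx]; group
    · intro h n hn
      have : IsConj g (g * n) := h (g * n) (by
        have : ((g * n : G) : G ⧸ N) = (g : G ⧸ N) := by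
          rw [QuotientGroup.eq]
          simpa using N.inv_mem hn
        rw [this])
      exact isConj_iff.mp this
  rw [h1]
  let ι : {y : G // IsConj g y} → {z : G // IsConj (QuotientGroup.mk g : G ⧸ N) (z : G ⧸ N)} :=
    fun y => ⟨y, hsub y y.2⟩
  have hι : Function.Injective ι := fun a b h => Subtype.ext (by have := congrArg Subtype.val h; exact this)
  have pos1 : 0 < Nat.card (Subgroup.centralizer ({g} : Set G)) := Nat.card_pos
  have pos2 : 0 < Nat.card (Subgroup.centralizer ({(QuotientGroup.mk g : G ⧸ N)} : Set (G ⧸ N))) := Nat.card_pos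
  have pos3 : 0 < Nat.card N := Nat.card_pos
  constructor
  · intro h
    have h2 : Nat.card {y : G // IsConj g y} = Nat.card {z : G // IsConj (QuotientGroup.mk g : G ⧸ N) (z : G ⧸ N)} :=
      Nat.card_congr (Equiv.ofBijective ι ⟨hι, fun z => ⟨⟨z, h z z.2⟩, rfl⟩⟩)
    rw [e6, e1, e2] at h2
    rw [h2] at e3
    have hpos : 0 < (Subgroup.centralizer ({(QuotientGroup.mk g : G ⧸ N)} : Set (G ⧸ N))).index :=
      Nat.pos_of_ne_zero Subgroup.index_ne_zero_of_finite
    apply Nat.eq_of_mul_eq_mul_left (Nat.mul_pos pos3 hpos)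
    rw [e3, e5, ← e4]; ring
  · intro h z hz
    have h2 : Nat.card {y : G // IsConj g y} = Nat.card {z : G // IsConj (QuotientGroup.mk g : G ⧸ N) (z : G ⧸ N)} := by
      rw [e6, e1, e2]
      apply Nat.eq_of_mul_eq_mul_right pos1
      rw [e3, e5, ← e4, h]; ring
    have hb := (Nat.bijective_iff_injective_and_card ι).mpr ⟨hι, h2⟩
    obtain ⟨y, hy⟩ := hb.2 ⟨z, hz⟩
    have : (y : G) = z := by have := congrArg Subtype.val hy; exact this
    rw [← this]; exact y.2

/-- Let G be a finite group and N a normal subgroup. Then the conjugacy class of every element g outside N is a union of cosets of N (gn is conjugate to g for all n ∈ N) if and only if for every g outside N the centralizer of g in G has the same order as the centralizer of gN in G/N. -/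
theorem result {G : Type*} [Group G] [Finite G] (N : Subgroup G) [N.Normal] :
    (∀ g : G, g ∉ N → ∀ n ∈ N, ∃ x : G, x * g * x⁻¹ = g * n) ↔
      ∀ g : G, g ∉ N → Nat.card (Subgroup.centralizer ({g} : Set G)) =
        Nat.card (Subgroup.centralizer ({(QuotientGroup.mk g : G ⧸ N)} : Set (G ⧸ N))) := by
  constructor
  · intro h g hg
    exact (aux N g).mp (h g hg)
  · intro h g hg
    exact (aux N g).mpr (h g hg)

end Cfsg.Agent.S4142
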