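import Cfsg.Statements.S4153
import Mathlib
import Cfsg.Agent.H3.Basic

set_option autoImplicit false
open Cfsg

namespace Cfsg.Agent.S4153

/-- Let G be a finite group, p a prime, N a normal subgroup, P a Sylow p-subgroup of G and P̄ a Sylow p-subgroup of G/N. Count the elements of p-power order, the identity included. Then (number of such elements of G/N)/#P̄ ≤ (number of such elements of G)/#P, stated as a cross-multiplied inequality, with equality when N is central. -/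
theorem result {G : Type*} [Group G] [Finite G] (p : ℕ) [Fact p.Prime] (N : Subgroup G) [N.Normal]
    (P : Sylow p G) (Pbar : Sylow p (G ⧸ N)) :
    Nat.card {g : (G ⧸ N) // ∃ k : ℕ, orderOf g = p ^ k} * Nat.card (P : Subgroup G) ≤ Nat.card {g : G // ∃ k : ℕ, orderOf g = p ^ k} * Nat.card (Pbar : Subgroup (G ⧸ N)) ∧
    (N ≤ Subgroup.center G → Nat.card {g : (G ⧸ N) // ∃ k : ℕ, orderOf g = p ^ k} * Nat.card (P : Subgroup G) = Nat.card {g : G // ∃ k : ℕ, orderOf g = p ^ k} * Nat.card (Pbar : Subgroup (G ⧸ N))) := by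
  classical
  have mem_pel : ∀ (A : Sylow p G) (g : G), g ∈ (A : Subgroup G) → ∃ k : ℕ, orderOf g = p ^ k := by
    intro A g hg
    obtain ⟨k, hk⟩ := (IsPGroup.iff_orderOf.mp A.2) ⟨g, hg⟩
    exact ⟨k, by rw [Subgroup.orderOf_mk] at hk; exact hk⟩
  -- every p-element of the quotient lifts to a conjugate of P
  have hlift : ∀ q : G ⧸ N, ∃ g y : G, (∃ k : ℕ, orderOf q = p ^ k) → (y ∈ (P : Subgroup G) ∧ ((g * y * g⁻¹ : G) : G ⧸ N) = q) := by
    intro q
    by_cases h : ∃ k : ℕ, orderOf q = p ^ k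
    · obtain ⟨k, hk⟩ := h
      have hx : IsPGroup p (Subgroup.zpowers q) := IsPGroup.of_card (n := k) (by rw [Nat.card_zpowers, hk])
      obtain ⟨Q, hQ⟩ := hx.exists_le_sylow
      obtain ⟨c, hc⟩ := MulAction.exists_smul_eq (G ⧸ N) (P.mapSurjective (QuotientGroup.mk'_surjective N)) Q
      have hq : q ∈ (Q : Subgroup (G ⧸ N)) := hQ (Subgroup.mem_zpowers q)
      rw [← hc, Cfsg.Agent.H3.mem_smul_sylow_iff, Sylow.coe_mapSurjective] at hq
      obtain ⟨y, hy, hyq⟩ := hq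
      obtain ⟨g, rfl⟩ := QuotientGroup.mk_surjective c
      refine ⟨g, y, fun _ => ⟨hy, ?_⟩⟩
      have hyq' : (y : G ⧸ N) = (g : G ⧸ N)⁻¹ * q * (g : G ⧸ N) := hyq
      rw [QuotientGroup.mk_mul, QuotientGroup.mk_mul, QuotientGroup.mk_inv, hyq']
      group
    · exact ⟨1, 1, fun h' => absurd h' h⟩
  choose g y hgy using hlift
  -- |P| = |Pbar| * |P ∩ N|
  have hPc : Nat.card (Pbar : Subgroup (G ⧸ N)) * Nat.card (N ⊓ (P : Subgroup G) : Subgroup G) = Nat.card (P : Subgroup G) := by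
    have e1 : Nat.card (Pbar : Subgroup (G ⧸ N)) = Nat.card ((P.mapSurjective (QuotientGroup.mk'_surjective N) : Sylow p (G ⧸ N)) : Subgroup (G ⧸ N)) := by
      rw [Sylow.card_eq_multiplicity, Sylow.card_eq_multiplicity]
    rw [e1, Sylow.coe_mapSurjective]
    have e2 := Subgroup.relIndex_ker (P : Subgroup G) (QuotientGroup.mk' N)
    rw [QuotientGroup.ker_mk'] at e2
    rw [← e2]
    exact Cfsg.Agent.H3.relIndex_mul_card_inf N (P : Subgroup G)
  have hpos : 0 < Nat.card (Pbar : Subgroup (G ⧸ N)) := Nat.card_pos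
  have hmem2 : ∀ (q : G ⧸ N) (hq : ∃ k : ℕ, orderOf q = p ^ k) (z : G), z ∈ N ⊓ (P : Subgroup G) →
      g q * y q * z * (g q)⁻¹ ∈ ((g q • P : Sylow p G) : Subgroup G) := by
    intro q hq z hz
    have : g q * y q * z * (g q)⁻¹ = g q * (y q * z) * (g q)⁻¹ := by group
    rw [this]
    exact Cfsg.Agent.H3.conj_mem_smul_sylow P _ _ (Subgroup.mul_mem _ (hgy q hq).1 hz.2)
  let ι : {q : (G ⧸ N) // ∃ k : ℕ, orderOf q = p ^ k} × (N ⊓ (P : Subgroup G) : Subgroup G) →
      {g : G // ∃ k : ℕ, orderOf g = p ^ k} :=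
    fun s => ⟨g s.1 * y s.1 * s.2 * (g s.1)⁻¹, mem_pel _ _ (hmem2 s.1 s.1.2 s.2 s.2.2)⟩
  have himg : ∀ (q : G ⧸ N) (hq : ∃ k : ℕ, orderOf q = p ^ k) (z : G), z ∈ N ⊓ (P : Subgroup G) →
      ((g q * y q * z * (g q)⁻¹ : G) : G ⧸ N) = q := by
    intro q hq z hz
    have hz1 : (z : G ⧸ N) = 1 := (QuotientGroup.eq_one_iff z).mpr hz.1
    have := (hgy q hq).2
    rw [QuotientGroup.mk_mul, QuotientGroup.mk_mul, hz1, mul_one, ← QuotientGroup.mk_mul]
    exact this
  have hι : Function.Injective ι := by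
    rintro ⟨⟨q, hq⟩, ⟨z, hz⟩⟩ ⟨⟨q', hq'⟩, ⟨z', hz'⟩⟩ h
    have h1 : g q * y q * z * (g q)⁻¹ = g q' * y q' * z' * (g q')⁻¹ := congrArg Subtype.val h
    have h2 : q = q' := by rw [← himg q hq z hz, h1, himg q' hq' z' hz']
    subst h2
    have h3 : z = z' := mul_left_cancel (mul_right_cancel h1)
    subst h3
    rfl
  have hle := Nat.card_le_card_of_injective ι hι
  rw [Nat.card_prod] at hle
  refine ⟨?_, ?_⟩
  · rw [← hPc]
    calc _ = (Nat.card {q : (G ⧸ N) // ∃ k : ℕ, orderOf q = p ^ k} * Nat.card (N ⊓ (P : Subgroup G) : Subgroup G)) *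
          Nat.card (Pbar : Subgroup (G ⧸ N)) := by ring
      _ ≤ _ := Nat.mul_le_mul_right _ hle
  · intro hN
    have hsurj : Function.Surjective ι := by
      rintro ⟨w, k, hk⟩
      have hq : ∃ j : ℕ, orderOf (w : G ⧸ N) = p ^ j := by
        have : orderOf (w : G ⧸ N) ∣ p ^ k := hk ▸ orderOf_map_dvd (QuotientGroup.mk' N) w
        obtain ⟨j, _, hj⟩ := (Nat.dvd_prime_pow (Fact.out : p.Prime)).mp this
        exact ⟨j, hj⟩
      set q : G ⧸ N := (w : G ⧸ N) with hqdef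
      have h1 := (hgy q hq).2
      have hn : (g q * y q * (g q)⁻¹)⁻¹ * w ∈ N := by
        rw [← QuotientGroup.eq, h1]
      set u := g q * y q * (g q)⁻¹ with hu
      have hnc := hN hn
      -- n = u⁻¹ w is a central p-element
      obtain ⟨j, hj⟩ := mem_pel (g q • P) u (Cfsg.Agent.H3.conj_mem_smul_sylow P _ _ (hgy q hq).1)
      have hcomm : Commute u⁻¹ w := by
        have h2 : Commute (u⁻¹ * w) u⁻¹ := (Subgroup.mem_center_iff.mp hnc u⁻¹).symm
        have h3 : w = u * (u⁻¹ * w) := by group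
        rw [h3]
        exact (Commute.inv_left (Commute.refl u)).mul_right h2.symm
      have hnp : (u⁻¹ * w) ^ p ^ (j + k) = 1 := by
        rw [hcomm.mul_pow, inv_pow]
        have e1 : u ^ p ^ (j + k) = 1 := by
          rw [← orderOf_dvd_iff_pow_eq_one, hj]; exact pow_dvd_pow p (by omega)
        have e2 : w ^ p ^ (j + k) = 1 := by
          rw [← orderOf_dvd_iff_pow_eq_one, hk]; exact pow_dvd_pow p (by omega)
        rw [e1, e2]; simp
      have hnP : u⁻¹ * w ∈ (P : Subgroup G) := by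
        have hz : IsPGroup p (Subgroup.zpowers (u⁻¹ * w)) := by
          have : orderOf (u⁻¹ * w) ∣ p ^ (j + k) := orderOf_dvd_iff_pow_eq_one.mpr hnp
          obtain ⟨i, _, hi⟩ := (Nat.dvd_prime_pow (Fact.out : p.Prime)).mp this
          exact IsPGroup.of_card (n := i) (by rw [Nat.card_zpowers, hi])
        obtain ⟨Q, hQ⟩ := hz.exists_le_sylow
        obtain ⟨c, hc⟩ := MulAction.exists_smul_eq G P Q
        have h4 : u⁻¹ * w ∈ (Q : Subgroup G) := hQ (Subgroup.mem_zpowers _)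
        rw [← hc, Cfsg.Agent.H3.mem_smul_sylow_iff] at h4
        have h5 : c⁻¹ * (u⁻¹ * w) * c = u⁻¹ * w := by
          have := Subgroup.mem_center_iff.mp hnc c⁻¹
          rw [this]; group
        rw [h5] at h4
        exact h4
      refine ⟨(⟨q, hq⟩, ⟨u⁻¹ * w, hn, hnP⟩), ?_⟩
      apply Subtype.ext
      show g q * y q * (u⁻¹ * w) * (g q)⁻¹ = w
      have h6 : (u⁻¹ * w) * (g q)⁻¹ = (g q)⁻¹ * (u⁻¹ * w) := (Subgroup.mem_center_iff.mp hnc _).symm
      calc g q * y q * (u⁻¹ * w) * (g q)⁻¹ = g q * y q * ((u⁻¹ * w) * (g q)⁻¹) := by group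
        _ = g q * y q * ((g q)⁻¹ * (u⁻¹ * w)) := by rw [h6]
        _ = u * (u⁻¹ * w) := by rw [hu]; group
        _ = w := by group
    have heq := Nat.card_congr (Equiv.ofBijective ι ⟨hι, hsurj⟩)
    rw [Nat.card_prod] at heq
    rw [← hPc, ← heq]; ring

end Cfsg.Agent.S4153
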