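import Cfsg.Statements.S4154
import Mathlib

set_option autoImplicit false
open Cfsg

namespace Cfsg.Agent.S4154

/-- the set `{g⁻¹ α g}` inside an invariant subgroup has `|N : C_N(α)|` elements -/
theorem card_aux {G : Type*} [Group G] [Finite G] (α : MulAut G) (N : Subgroup G) :
    Nat.card {k : G // ∃ n ∈ N, k = n⁻¹ * α n} * Nat.card {c : G // c ∈ N ∧ α c = c} = Nat.card N := by
  classical
  choose! s hs hs' using (fun k : G => fun (h : ∃ n ∈ N, k = n⁻¹ * α n) => h)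
  rw [← Nat.card_prod]
  apply Nat.card_congr
  refine ⟨fun p => ⟨p.2.1 * s p.1.1, N.mul_mem p.2.2.1 (hs _ p.1.2)⟩,
    fun n => (⟨(n : G)⁻¹ * α n, n, n.2, rfl⟩, ⟨n * (s ((n : G)⁻¹ * α n))⁻¹, N.mul_mem n.2 (N.inv_mem (hs _ ⟨n, n.2, rfl⟩)), ?_⟩), ?_, ?_⟩
  · have h1 := hs' ((n : G)⁻¹ * α n) ⟨n, n.2, rfl⟩
    rw [map_mul, map_inv]
    generalize s ((n : G)⁻¹ * α n) = t at h1 ⊢
    have h2 : α n = n * t⁻¹ * α t := by
      calc α n = n * ((n : G)⁻¹ * α n) := by group
        _ = n * t⁻¹ * α t := by rw [h1]; group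
    rw [h2]; group
  · rintro ⟨⟨k, hk⟩, ⟨c, hc, hc'⟩⟩
    have h1 := hs' k hk
    have h2 : (c * s k)⁻¹ * α (c * s k) = k := by
      rw [map_mul, hc', h1]
      rw [← h1]
      rw [mul_inv_rev]
      calc (s k)⁻¹ * c⁻¹ * (c * α (s k)) = (s k)⁻¹ * α (s k) := by group
        _ = k := h1.symm
    simp only [h2]
    simp
  · rintro ⟨n, hn⟩
    simp

/-- Let G be a finite group and α an automorphism of G such that every element of G is the product of an element fixed by α and an element of the form g⁻¹α(g). If N is a normal α-invariant subgroup, then the automorphism ᾱ induced on G/N has the same property, and every coset fixed by ᾱ contains an element fixed by α (so the fixed points of ᾱ are the images of the fixed points of α). -/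
theorem result {G : Type*} [Group G] [Finite G] (α : MulAut G)
    (hccp : ∀ x : G, ∃ c g : G, α c = c ∧ x = c * (g⁻¹ * α g))
    (N : Subgroup G) [N.Normal] (hN : ∀ n ∈ N, α n ∈ N) :
    (∀ x : G, ∃ c g : G, c⁻¹ * α c ∈ N ∧ x⁻¹ * (c * (g⁻¹ * α g)) ∈ N) ∧
    (∀ x : G, x⁻¹ * α x ∈ N → ∃ c : G, α c = c ∧ c⁻¹ * x ∈ N) := by
  classical
  refine ⟨fun x => ?_, fun x hx => ?_⟩
  · obtain ⟨c, g, hc, hx⟩ := hccp x
    refine ⟨c, g, ?_, ?_⟩
    · rw [hc]; simpa using N.one_mem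
    · rw [← hx]; simpa using N.one_mem
  · -- uniqueness of the decomposition
    have c1 := card_aux α (⊤ : Subgroup G)
    let ψ : {k : G // ∃ n ∈ (⊤ : Subgroup G), k = n⁻¹ * α n} × {c : G // c ∈ (⊤ : Subgroup G) ∧ α c = c} → G :=
      fun p => p.2.1 * p.1.1
    have hψs : Function.Surjective ψ := by
      intro x
      obtain ⟨c, g, hc, hx⟩ := hccp x
      exact ⟨(⟨g⁻¹ * α g, g, Subgroup.mem_top _, rfl⟩, ⟨c, Subgroup.mem_top _, hc⟩), hx.symm⟩
    have hψ : Function.Bijective ψ := by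
      rw [Nat.bijective_iff_surjective_and_card]
      refine ⟨hψs, ?_⟩
      rw [Nat.card_prod, c1]
      exact Nat.card_congr Subgroup.topEquiv.toEquiv
    have c2 := card_aux α N
    let χ : {k : G // ∃ n ∈ N, k = n⁻¹ * α n} × {c : G // c ∈ N ∧ α c = c} → N :=
      fun p => ⟨p.2.1 * p.1.1, N.mul_mem p.2.2.1 (by
        obtain ⟨k, n, hn, rfl⟩ := p.1
        exact N.mul_mem (N.inv_mem hn) (hN n hn))⟩
    have hχi : Function.Injective χ := by
      rintro ⟨⟨k, n, hn, hk⟩, ⟨c, hc, hc'⟩⟩ ⟨⟨k', n', hn', hk'⟩, ⟨d, hd, hd'⟩⟩ h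
      have h1 : c * k = d * k' := congrArg Subtype.val h
      have h2 := @hψ.1 (⟨k, n, Subgroup.mem_top _, hk⟩, ⟨c, Subgroup.mem_top _, hc'⟩)
        (⟨k', n', Subgroup.mem_top _, hk'⟩, ⟨d, Subgroup.mem_top _, hd'⟩) h1
      have h3 : k = k' := congrArg (fun t => t.1.1) h2
      have h4 : c = d := congrArg (fun t => t.2.1) h2
      subst h3; subst h4; rfl
    have hχ : Function.Bijective χ := by
      rw [Nat.bijective_iff_injective_and_card]
      exact ⟨hχi, by rw [Nat.card_prod, c2]⟩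
    obtain ⟨⟨⟨k, n, hn, hk⟩, ⟨c, hc, hc'⟩⟩, hp⟩ := hχ.2 ⟨x⁻¹ * α x, hx⟩
    have h1 : c * k = x⁻¹ * α x := congrArg Subtype.val hp
    have h2 := @hψ.1 (⟨k, n, Subgroup.mem_top _, hk⟩, ⟨c, Subgroup.mem_top _, hc'⟩)
        (⟨x⁻¹ * α x, x, Subgroup.mem_top _, rfl⟩, ⟨1, Subgroup.mem_top _, map_one α⟩) (by
          show c * k = 1 * (x⁻¹ * α x)
          rw [h1, one_mul])
    have h3 : k = x⁻¹ * α x := congrArg (fun t => t.1.1) h2
    refine ⟨x * n⁻¹, ?_, ?_⟩
    · rw [map_mul, map_inv]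
      have : α x = x * n⁻¹ * α n := by
        calc α x = x * (x⁻¹ * α x) := by group
          _ = _ := by rw [← h3, hk]; group
      rw [this]; group
    · simpa using hn

end Cfsg.Agent.S4154
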