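import Cfsg.Statements.S4156
import Mathlib

set_option autoImplicit false
open Cfsg

namespace Cfsg.Agent.S4156

open Matrix in
/-- reduced permutation matrices -/
def M (n : ℕ) (F : Type*) [Field F] (σ : Equiv.Perm (Fin (n + 1))) : Matrix (Fin n) (Fin n) F :=
  Matrix.of fun i j => (if σ j.castSucc = i.castSucc then 1 else 0) - (if σ (Fin.last n) = i.castSucc then 1 else 0)

theorem M_one (n : ℕ) (F : Type*) [Field F] : M n F 1 = 1 := by
  ext i j
  have h : Fin.last n ≠ i.castSucc := (Fin.castSucc_lt_last i).ne'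
  have h' : ¬ ((1 : Equiv.Perm (Fin (n + 1))) (Fin.last n) = i.castSucc) := h
  show (if (1 : Equiv.Perm (Fin (n + 1))) j.castSucc = i.castSucc then (1 : F) else 0) -
    (if (1 : Equiv.Perm (Fin (n + 1))) (Fin.last n) = i.castSucc then 1 else 0) = (1 : Matrix (Fin n) (Fin n) F) i j
  rw [if_neg h', sub_zero, Matrix.one_apply]
  by_cases hij : i = j
  · rw [if_pos hij]; exact if_pos (by rw [hij]; rfl)
  · rw [if_neg hij]; exact if_neg (fun e => hij (Fin.castSucc_injective _ e).symm)

theorem M_mul (n : ℕ) (F : Type*) [Field F] (σ τ : Equiv.Perm (Fin (n + 1))) :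
    M n F (σ * τ) = M n F σ * M n F τ := by
  ext i k
  rw [Matrix.mul_apply]
  have h1 : ∑ j : Fin n, M n F σ i j * M n F τ j k =
      ∑ j : Fin (n + 1), ((if σ j = i.castSucc then (1 : F) else 0) - (if σ (Fin.last n) = i.castSucc then 1 else 0)) *
        ((if τ k.castSucc = j then 1 else 0) - (if τ (Fin.last n) = j then 1 else 0)) := by
    rw [Fin.sum_univ_castSucc]
    simp [M]
  rw [h1]
  simp only [sub_mul, mul_sub, Finset.sum_sub_distrib, mul_ite, mul_one, mul_zero, Finset.sum_ite_eq,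
    Finset.mem_univ, if_true, M, Matrix.of_apply, Equiv.Perm.mul_apply]
  ring_nf
  rfl

/-- Let n ≥ 5 and F a finite field. Then the projective special linear group PSL_n(F) contains a subgroup isomorphic to the alternating group of degree n + 1. -/
theorem result (n : ℕ) (hn : 5 ≤ n) (F : Type*) [Field F] [Finite F] :
    ∃ f : alternatingGroup (Fin (n + 1)) →* Matrix.ProjectiveSpecialLinearGroup (Fin n) F, Function.Injective f := by
  classical
  have hsimple : IsSimpleGroup (alternatingGroup (Fin (n + 1))) :=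
    alternatingGroup.isSimpleGroup (by rw [Nat.card_fin]; omega)
  let Mh : Equiv.Perm (Fin (n + 1)) →* Matrix (Fin n) (Fin n) F :=
    { toFun := M n F, map_one' := M_one n F, map_mul' := M_mul n F }
  let d : alternatingGroup (Fin (n + 1)) →* Fˣ :=
    (MonoidHom.toHomUnits (Matrix.detMonoidHom.comp Mh)).comp (alternatingGroup (Fin (n + 1))).subtype
  -- a three cycle
  let a0 : Fin (n + 1) := ⟨0, by omega⟩
  let a1 : Fin (n + 1) := ⟨1, by omega⟩
  let a2 : Fin (n + 1) := ⟨2, by omega⟩
  let a3 : Fin (n + 1) := ⟨3, by omega⟩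
  have h01 : a0 ≠ a1 := by simp [a0, a1, Fin.ext_iff]
  have h12 : a1 ≠ a2 := by simp [a1, a2, Fin.ext_iff]
  have h02 : a0 ≠ a2 := by simp [a0, a2, Fin.ext_iff]
  have hl : ∀ σ : Equiv.Perm (Fin (n + 1)), True := fun _ => trivial
  let c : Equiv.Perm (Fin (n + 1)) := Equiv.swap a0 a1 * Equiv.swap a1 a2
  have hc3 : c ∈ alternatingGroup (Fin (n + 1)) := by
    rw [Equiv.Perm.mem_alternatingGroup, Equiv.Perm.sign_mul, Equiv.Perm.sign_swap h01, Equiv.Perm.sign_swap h12]
    rfl
  have hdtriv : ∀ σ : alternatingGroup (Fin (n + 1)), d σ = 1 := by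
    rcases (hsimple.eq_bot_or_eq_top_of_normal d.ker inferInstance) with h | h
    · exfalso
      have hinj : Function.Injective d := (MonoidHom.ker_eq_bot_iff d).mp h
      have hcomm : ∀ x y : alternatingGroup (Fin (n + 1)), x * y = y * x := by
        intro x y
        apply hinj
        rw [map_mul, map_mul, mul_comm]
      let c' : Equiv.Perm (Fin (n + 1)) := Equiv.swap a0 a1 * Equiv.swap a1 a3
      have h13 : a1 ≠ a3 := by simp [a1, a3, Fin.ext_iff]
      have hc' : c' ∈ alternatingGroup (Fin (n + 1)) := by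
        rw [Equiv.Perm.mem_alternatingGroup, Equiv.Perm.sign_mul, Equiv.Perm.sign_swap h01, Equiv.Perm.sign_swap h13]
        rfl
      have h1 := congrArg (fun x : alternatingGroup (Fin (n + 1)) => (x : Equiv.Perm (Fin (n + 1))) a0) (hcomm ⟨c, hc3⟩ ⟨c', hc'⟩)
      have h2 : c (c' a0) = c' (c a0) := h1
      revert h2
      simp [c, c', Equiv.swap_apply_def, a0, a1, a2, a3, Fin.ext_iff]
    · intro σ
      have : σ ∈ d.ker := by rw [h]; trivial
      exact this
  have hdet : ∀ σ : alternatingGroup (Fin (n + 1)), (M n F σ).det = 1 := by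
    intro σ
    have := congrArg (fun u : Fˣ => (u : F)) (hdtriv σ)
    exact this
  let S : alternatingGroup (Fin (n + 1)) →* Matrix.SpecialLinearGroup (Fin n) F :=
    { toFun := fun σ => ⟨M n F σ, hdet σ⟩
      map_one' := Subtype.ext (M_one n F)
      map_mul' := fun σ τ => Subtype.ext (M_mul n F σ τ) }
  let f : alternatingGroup (Fin (n + 1)) →* Matrix.ProjectiveSpecialLinearGroup (Fin n) F :=
    (QuotientGroup.mk' _).comp S
  refine ⟨f, ?_⟩
  rcases (hsimple.eq_bot_or_eq_top_of_normal f.ker inferInstance) with h | h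
  · exact (MonoidHom.ker_eq_bot_iff f).mp h
  · exfalso
    have h1 : (⟨c, hc3⟩ : alternatingGroup (Fin (n + 1))) ∈ f.ker := by rw [h]; trivial
    have h2 : S ⟨c, hc3⟩ ∈ Subgroup.center (Matrix.SpecialLinearGroup (Fin n) F) := by
      rw [MonoidHom.mem_ker] at h1
      exact (QuotientGroup.eq_one_iff _).mp h1
    obtain ⟨r, _, hr⟩ := Matrix.SpecialLinearGroup.mem_center_iff.mp h2
    have h3 := congrFun (congrFun hr (⟨1, by omega⟩ : Fin n)) (⟨0, by omega⟩ : Fin n)
    have h4 : (Matrix.scalar (Fin n) r) (⟨1, by omega⟩ : Fin n) (⟨0, by omega⟩ : Fin n) = 0 := by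
      simp [Matrix.scalar_apply]
    rw [h4] at h3
    have h5 : M n F c (⟨1, by omega⟩ : Fin n) (⟨0, by omega⟩ : Fin n) = 1 := by
      have hl0 : Fin.last n ≠ a0 := by simp only [a0, Ne, Fin.ext_iff, Fin.val_last]; omega
      have hl1 : Fin.last n ≠ a1 := by simp only [a1, Ne, Fin.ext_iff, Fin.val_last]; omega
      have hl2 : Fin.last n ≠ a2 := by simp only [a2, Ne, Fin.ext_iff, Fin.val_last]; omega
      have e1 : c (Fin.last n) = Fin.last n := by
        simp only [c, Equiv.Perm.mul_apply]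
        rw [Equiv.swap_apply_of_ne_of_ne hl1 hl2, Equiv.swap_apply_of_ne_of_ne hl0 hl1]
      have e2 : c a0 = a1 := by
        simp only [c, Equiv.Perm.mul_apply]
        rw [Equiv.swap_apply_of_ne_of_ne h01 h02, Equiv.swap_apply_left]
      have e3 : (⟨0, by omega⟩ : Fin n).castSucc = a0 := rfl
      have e4 : (⟨1, by omega⟩ : Fin n).castSucc = a1 := rfl
      simp only [M, Matrix.of_apply, e3, e4, e1, e2, if_true, if_neg hl1, sub_zero]
    have h6 : (0 : F) = 1 := h3.trans h5
    exact zero_ne_one h6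

end Cfsg.Agent.S4156
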