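import Cfsg.Statements.S4168
import Mathlib

set_option autoImplicit false
open Cfsg

namespace Cfsg.Agent.S4168

/-- Let L be a finite quasisimple group (perfect with L/Z(L) simple). Then every prime dividing the order of the centre Z(L) also divides the order of L/Z(L). -/
theorem result {L : Type*} [Group L] [Finite L] (hL : Cfsg.IsQuasisimple L)
    (p : ℕ) (hp : p.Prime) (hdiv : p ∣ Nat.card (Subgroup.center L)) : p ∣ (Subgroup.center L).index := by
  obtain ⟨hperf, hsimple⟩ := hL
  have := Fact.mk hp
  obtain ⟨z, hz⟩ := exists_prime_orderOf_dvd_card' (G := Subgroup.center L) p hdiv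
  have h1 : (z : L) ∈ (MonoidHom.transferCenterPow L).ker := by
    have h2 : commutator L ≤ (MonoidHom.transferCenterPow L).ker := by
      rw [commutator_def, Subgroup.commutator_le]
      intro a _ b _
      rw [MonoidHom.mem_ker, map_commutatorElement]
      ext
      rw [commutatorElement_def]
      have := (MonoidHom.transferCenterPow L a).2.comm (MonoidHom.transferCenterPow L b : L)
      simp only [Subgroup.coe_mul, Subgroup.coe_inv, Subgroup.coe_one]
      rw [this.eq]; group
    have h3 : commutator L = ⊤ := hperf.1
    rw [h3] at h2
    exact h2 (Subgroup.mem_top _)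
  have h4 : (z : L) ^ (Subgroup.center L).index = 1 := by
    rw [← MonoidHom.transferCenterPow_apply, (MonoidHom.mem_ker).mp h1]; rfl
  rw [← hz, ← Subgroup.orderOf_coe]
  exact orderOf_dvd_of_pow_eq_one h4

end Cfsg.Agent.S4168
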