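import Cfsg.Statements.S4169
import Cfsg.Agent.H4.SmallCl
import Cfsg.Agent.H1.Class2

set_option autoImplicit false
open Cfsg

namespace Cfsg.Agent.S4169

/-- Let P be a finite p-group whose conjugacy classes have exactly two sizes (1 and one other value). Then P has nilpotency class at most 3. -/
theorem result {P : Type*} [Group P] [Finite P] {p : ℕ} [Fact p.Prime] (hP : IsPGroup p P)
    (m : ℕ) (hm : 1 < m) (h : ∀ x : P, (Subgroup.centralizer ({x} : Set P)).index = 1 ∨ (Subgroup.centralizer ({x} : Set P)).index = m) :
    upperCentralSeries P 3 = ⊤ := by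
    classical
    haveI := hP.isNilpotent
    obtain ⟨A, hAn, hAc, hAmax⟩ := H1.exists_maximal_normal_abelian (G := P)
    haveI := hAn
    haveI := hAc
    have hCA : Subgroup.centralizer (A : Set P) = A := H1.centralizer_eq_of_maximal_normal_abelian A hAmax
    have h1 := H4.small_class A hAc hCA m (fun x hx => by
      rcases h x with h2 | h2
      · omega
      · exact h2.ge)
    have h2 : Subgroup.closure {x : P | (Subgroup.centralizer ({x} : Set P)).index = 1 ∨ (Subgroup.centralizer ({x} : Set P)).index = m} = ⊤ := by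
      rw [eq_top_iff]
      intro x _
      exact Subgroup.subset_closure (h x)
    rw [h2] at h1
    rw [eq_top_iff]
    intro x _
    have h3 : (⟨x, trivial⟩ : (⊤ : Subgroup P)) ∈ Subgroup.upperCentralSeries (⊤ : Subgroup P) 3 := by rw [h1]; trivial
    have h4 := fun y : P => (mem_upperCentralSeries_succ_iff (G := (⊤ : Subgroup P)) (n := 2)).mp h3 ⟨y, trivial⟩
    show x ∈ Subgroup.upperCentralSeries P 3
    rw [mem_upperCentralSeries_succ_iff]
    intro y
    have h5 := fun z : P => (mem_upperCentralSeries_succ_iff (G := (⊤ : Subgroup P)) (n := 1)).mp (h4 y) ⟨z, trivial⟩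
    rw [mem_upperCentralSeries_succ_iff]
    intro z
    have h6 := fun w : P => (mem_upperCentralSeries_succ_iff (G := (⊤ : Subgroup P)) (n := 0)).mp (h5 z) ⟨w, trivial⟩
    rw [mem_upperCentralSeries_succ_iff]
    intro w
    have h7 := h6 w
    rw [Subgroup.upperCentralSeries_zero, Subgroup.mem_bot] at h7 ⊢
    exact congrArg (fun t : (⊤ : Subgroup P) => (t : P)) h7

end Cfsg.Agent.S4169
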