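import Cfsg.Statements.S4177
import Mathlib

set_option autoImplicit false
open Cfsg

namespace Cfsg.Agent.S4177

theorem avg_eq {k V H : Type*} [Field k] [AddCommGroup V] [Module k V] [Group H] [Fintype H]
    [Invertible (Fintype.card H : k)] (ρ : Representation k H V) (v : V) :
    ρ.averageMap v = ⅟(Fintype.card H : k) • ∑ g : H, ρ g v := by
  simp [Representation.averageMap, GroupAlgebra.average, map_sum, LinearMap.sum_apply]

theorem avg_smul {k V H : Type*} [Field k] [AddCommGroup V] [Module k V] [Group H] [Fintype H]
    [Invertible (Fintype.card H : k)] (ρ : Representation k H V) (h : H) (a : V) :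
    ρ.averageMap (ρ h a) = ρ.averageMap a := by
  rw [avg_eq, avg_eq]
  congr 1
  rw [← Equiv.sum_comp (Equiv.mulRight h) (fun g => ρ g a)]
  apply Finset.sum_congr rfl
  intro g _
  simp [map_mul]

theorem first {k V H : Type*} [Field k] [AddCommGroup V] [Module k V] [Group H] [Fintype H]
    [Invertible (Fintype.card H : k)] (ρ : Representation k H V) (a : V)
    (hspan : Submodule.span k {u : V | ∃ h : H, ρ h a = u} = ⊤) (b : V) (hb : ∀ h : H, ρ h b = b) :
    ∃ c : k, c • ρ.averageMap a = b := by
  have h1 : ρ.averageMap b = b := ρ.averageMap_id b hb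
  have h2 : ∀ v : V, ρ.averageMap v ∈ Submodule.span k {ρ.averageMap a} := by
    intro v
    have hv : v ∈ Submodule.span k {u : V | ∃ h : H, ρ h a = u} := by rw [hspan]; trivial
    induction hv using Submodule.span_induction with
    | mem x hx =>
      obtain ⟨h, rfl⟩ := hx
      have h3 : ρ.averageMap (ρ h a) = ρ.averageMap a := by
        have h4 : ∀ v, ρ.averageMap v = ⅟(Fintype.card H : k) • ∑ g : H, ρ g v := by
          intro v
          simp [Representation.averageMap, GroupAlgebra.average, map_sum, LinearMap.sum_apply]
        rw [h4, h4]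
        congr 1
        rw [← Equiv.sum_comp (Equiv.mulRight h) (fun g => ρ g a)]
        apply Finset.sum_congr rfl
        intro g _
        simp [map_mul]
      rw [h3]
      exact Submodule.mem_span_singleton_self _
    | zero => rw [map_zero]; exact Submodule.zero_mem _
    | add x y _ _ hx hy => rw [map_add]; exact Submodule.add_mem _ hx hy
    | smul c x _ hx => rw [map_smul]; exact Submodule.smul_mem _ _ hx
  have h3 := h2 b
  rw [h1] at h3
  exact Submodule.mem_span_singleton.mp h3

/-- Let k be a field whose characteristic does not divide the order of the finite group H (for instance a field of characteristic zero), and ρ a k-linear representation of H on V. Let a be a vector whose H-orbit spans V. Then the space of H-fixed vectors has dimension at most 1, and every vector b whose H-orbit has size coprime to the size of the orbit of a is fixed by H. -/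
theorem result {k V H : Type*} [Field k] [AddCommGroup V] [Module k V] [Group H] [Finite H]
    (hchar : ¬ ringChar k ∣ Nat.card H) (ρ : Representation k H V) (a : V)
    (hspan : Submodule.span k {u : V | ∃ h : H, ρ h a = u} = ⊤) :
    Module.finrank k ρ.invariants ≤ 1 ∧
    ∀ b : V, (Nat.card {u : V | ∃ h : H, ρ h a = u}).Coprime (Nat.card {u : V | ∃ h : H, ρ h b = u}) → ∀ h : H, ρ h b = b := by
  classical
  have := Fintype.ofFinite H
  have hne : (Fintype.card H : k) ≠ 0 := by
    intro h
    apply hchar
    rw [Nat.card_eq_fintype_card]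
    exact (ringChar.spec k _).mp h
  have hinv : Invertible (Fintype.card H : k) := invertibleOfNonzero hne
  constructor
  · apply finrank_le_one (⟨ρ.averageMap a, ρ.averageMap_invariant a⟩ : ρ.invariants)
    rintro ⟨b, hb⟩
    obtain ⟨c, hc⟩ := first ρ a hspan b hb
    exact ⟨c, Subtype.ext hc⟩
  · intro b hco h
    let inst : MulAction H V :=
      { smul := fun h v => ρ h v
        one_smul := fun v => by show ρ 1 v = v; simp
        mul_smul := fun g h v => by show ρ (g * h) v = ρ g (ρ h v); simp [map_mul] }
    set B := MulAction.stabilizer H b with hB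
    set A := MulAction.stabilizer H a with hA
    have ha1 : Nat.card {u : V | ∃ h : H, ρ h a = u} = A.index := by
      rw [hA, MulAction.index_stabilizer, ← Nat.card_coe_set_eq]; rfl
    have hb1 : Nat.card {u : V | ∃ h : H, ρ h b = u} = B.index := by
      rw [hB, MulAction.index_stabilizer, ← Nat.card_coe_set_eq]; rfl
    rw [ha1, hb1] at hco
    -- B acts transitively on the orbit of a
    have htr : ∀ g : H, ∃ β ∈ B, ρ β a = ρ g a := by
      have h1 : A.index ≤ A.relIndex B := by
        have e1 : (A ⊓ B).relIndex B * B.index = (A ⊓ B).index := Subgroup.relIndex_mul_index inf_le_right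
        have e2 : (A ⊓ B).relIndex A * A.index = (A ⊓ B).index := Subgroup.relIndex_mul_index inf_le_left
        rw [Subgroup.inf_relIndex_right] at e1
        have e3 : A.index ∣ A.relIndex B * B.index := ⟨(A ⊓ B).relIndex A, by rw [e1, ← e2, mul_comm]⟩
        have e4 : A.index ∣ A.relIndex B := hco.dvd_of_dvd_mul_right e3
        exact Nat.le_of_dvd (Nat.pos_of_ne_zero (Subgroup.index_ne_zero_of_finite (H := A.subgroupOf B))) e4
      have h2 : (MulAction.orbit B a).ncard = A.relIndex B := by
        rw [← MulAction.index_stabilizer]
        rfl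
      have h3 : (MulAction.orbit H a).ncard = A.index := by
        rw [← MulAction.index_stabilizer]
      have hfin : (MulAction.orbit H a).Finite := Set.finite_range _
      have hsub : MulAction.orbit B a ⊆ MulAction.orbit H a := by
        rintro _ ⟨β, rfl⟩
        exact ⟨(β : H), rfl⟩
      have heq : MulAction.orbit B a = MulAction.orbit H a :=
        Set.eq_of_subset_of_ncard_le hsub (by rw [h2, h3]; exact h1) hfin
      intro g
      have h4 : g • a ∈ MulAction.orbit B a := by rw [heq]; exact ⟨g, rfl⟩
      obtain ⟨β, hβ⟩ := h4
      exact ⟨β, β.2, hβ⟩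
    have : Fintype B := Fintype.ofFinite _
    have hneB : (Fintype.card B : k) ≠ 0 := by
      intro h0
      apply hne
      obtain ⟨c, hc⟩ := Subgroup.card_subgroup_dvd_card B
      rw [Nat.card_eq_fintype_card, Nat.card_eq_fintype_card] at hc
      rw [hc, Nat.cast_mul, h0, zero_mul]
    have hinvB : Invertible (Fintype.card B : k) := invertibleOfNonzero hneB
    let σ : Representation k B V := ρ.comp B.subtype
    have hspanB : Submodule.span k {u : V | ∃ β : B, σ β a = u} = ⊤ := by
      rw [← hspan]
      congr 1
      ext u
      constructor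
      · rintro ⟨β, rfl⟩; exact ⟨(β : H), rfl⟩
      · rintro ⟨g, rfl⟩
        obtain ⟨β, hβ, h5⟩ := htr g
        exact ⟨⟨β, hβ⟩, h5⟩
    have hfixb : ∀ β : B, σ β b = b := fun β => β.2
    have hfixavg : ∀ β : B, σ β (ρ.averageMap a) = ρ.averageMap a := fun β => ρ.averageMap_invariant a β
    obtain ⟨c, hc⟩ := first σ a hspanB b hfixb
    have h6 : σ.averageMap a = ρ.averageMap a := by
      have e1 := σ.averageMap_id (ρ.averageMap a) hfixavg
      rw [avg_eq ρ a, map_smul, map_sum] at e1
      have e2 : ∀ g : H, σ.averageMap (ρ g a) = σ.averageMap a := by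
        intro g
        obtain ⟨β, hβ, h5⟩ := htr g
        rw [← h5]
        exact avg_smul σ ⟨β, hβ⟩ a
      rw [Finset.sum_congr rfl (fun g _ => e2 g), Finset.sum_const, Finset.card_univ, ← Nat.cast_smul_eq_nsmul k,
        smul_smul, invOf_mul_self, one_smul] at e1
      rw [e1, avg_eq ρ a]
    rw [← hc, h6, map_smul, ρ.averageMap_invariant a h]

end Cfsg.Agent.S4177
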