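import Cfsg.Statements.S4178
import Mathlib

set_option autoImplicit false
open Cfsg

namespace Cfsg.Agent.S4178

theorem key {H : Type*} [Group H] (R : Subgroup H) {X : Type*} [Finite X] (f : H → X) (x0 : X)
    (hf : ∀ h, f h ≠ x0) (hR : ∀ h h', f h = f h' → h⁻¹ * h' ∈ R) : R.index + 1 ≤ Nat.card X := by
  classical
  have hfin : Finite (H ⧸ R) := by
    apply Finite.of_injective (fun q : H ⧸ R => f q.out)
    intro a b hab
    have h1 := hR _ _ hab
    rw [← QuotientGroup.eq, QuotientGroup.out_eq', QuotientGroup.out_eq'] at h1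
    exact h1
  have h1 : Nat.card (Option (H ⧸ R)) ≤ Nat.card X := by
    apply Nat.card_le_card_of_injective (fun o : Option (H ⧸ R) => match o with | none => x0 | some q => f q.out)
    intro a b hab
    cases a with
    | none =>
      cases b with
      | none => rfl
      | some b => exact absurd hab.symm (hf _)
    | some a =>
      cases b with
      | none => exact absurd hab (hf _)
      | some b =>
        have h1 := hR _ _ hab
        rw [← QuotientGroup.eq, QuotientGroup.out_eq', QuotientGroup.out_eq'] at h1
        rw [h1]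
  rw [Finite.card_option] at h1
  exact h1

/-- Let F be a finite field with q elements, V a non-zero finite-dimensional F-space of dimension d, H a group of invertible linear maps of V, and R the subgroup of H generated by the elements of H that fix some non-zero vector (have eigenvalue 1). Then the index of R in H is at most q^d − 1; and if H leaves invariant some proper non-zero subspace, the index is at most q^(d/2) − 1. -/
theorem result {F V : Type*} [Field F] [Fintype F] [AddCommGroup V] [Module F V] [FiniteDimensional F V] [Nontrivial V]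
    (H : Subgroup (V ≃ₗ[F] V)) :
    (Subgroup.closure {h : ↥H | ∃ v : V, v ≠ 0 ∧ (h : V ≃ₗ[F] V) v = v}).index ≤ Fintype.card F ^ Module.finrank F V - 1 ∧
    ((∃ W : Submodule F V, W ≠ ⊥ ∧ W ≠ ⊤ ∧ ∀ h ∈ H, ∀ w ∈ W, h w ∈ W) →
      ((Subgroup.closure {h : ↥H | ∃ v : V, v ≠ 0 ∧ (h : V ≃ₗ[F] V) v = v}).index : ℝ) ≤ Real.sqrt ((Fintype.card F : ℝ) ^ Module.finrank F V) - 1) := by
  classical
  have hVfin : Finite V := Module.finite_of_finite F
  have hcardV : Nat.card V = Fintype.card F ^ Module.finrank F V := by
    have := Fintype.ofFinite V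
    rw [Nat.card_eq_fintype_card]
    exact Module.card_eq_pow_finrank
  set R := Subgroup.closure {h : ↥H | ∃ v : V, v ≠ 0 ∧ (h : V ≃ₗ[F] V) v = v} with hR
  constructor
  · obtain ⟨v, hv⟩ := exists_ne (0 : V)
    have h1 := key R (fun h : H => (h : V ≃ₗ[F] V) v) 0 (fun h => by simpa using hv) (by
      intro h h' hh
      apply Subgroup.subset_closure
      refine ⟨v, hv, ?_⟩
      have h2 : (h : V ≃ₗ[F] V) v = (h' : V ≃ₗ[F] V) v := hh
      show ((h : V ≃ₗ[F] V)⁻¹ * (h' : V ≃ₗ[F] V)) v = v
      rw [LinearEquiv.mul_apply, ← h2]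
      exact LinearEquiv.symm_apply_apply _ _)
    rw [hcardV] at h1
    omega
  · rintro ⟨W, hW0, hW1, hWH⟩
    have hprod := Submodule.card_eq_card_quotient_mul_card W
    -- bound by W
    have hA : R.index + 1 ≤ Nat.card W := by
      obtain ⟨w, hw, hw0⟩ := (Submodule.ne_bot_iff W).mp hW0
      refine key R (fun h : H => (⟨(h : V ≃ₗ[F] V) w, hWH h h.2 w hw⟩ : W)) 0 (fun h hh => ?_) ?_
      · have := congrArg Subtype.val hh
        simp only [ZeroMemClass.coe_zero, EmbeddingLike.map_eq_zero_iff] at this
        exact hw0 this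
      · intro h h' hh
        apply Subgroup.subset_closure
        refine ⟨w, hw0, ?_⟩
        have h2 : (h : V ≃ₗ[F] V) w = (h' : V ≃ₗ[F] V) w := congrArg Subtype.val hh
        show ((h : V ≃ₗ[F] V)⁻¹ * (h' : V ≃ₗ[F] V)) w = w
        rw [LinearEquiv.mul_apply, ← h2]
        exact LinearEquiv.symm_apply_apply _ _
    have hfq : Finite (V ⧸ W) := Finite.of_surjective _ (Submodule.Quotient.mk_surjective W)
    have hB : R.index + 1 ≤ Nat.card (V ⧸ W) := by
      obtain ⟨v, hv⟩ : ∃ v, v ∉ W := by
        by_contra hcon
        push Not at hcon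
        exact hW1 (Submodule.eq_top_iff'.mpr hcon)
      refine key R (fun h : H => (Submodule.Quotient.mk ((h : V ≃ₗ[F] V) v) : V ⧸ W)) 0 (fun h hh => ?_) ?_
      · rw [Submodule.Quotient.mk_eq_zero] at hh
        apply hv
        have := hWH _ (H.inv_mem h.2) _ hh
        have h3 : ((h : V ≃ₗ[F] V)⁻¹) ((h : V ≃ₗ[F] V) v) = v := LinearEquiv.symm_apply_apply _ _
        rwa [h3] at this
      · intro h h' hh
        apply Subgroup.subset_closure
        -- g = h⁻¹ h' satisfies g v - v ∈ W
        set g : V ≃ₗ[F] V := (h : V ≃ₗ[F] V)⁻¹ * (h' : V ≃ₗ[F] V) with hg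
        have hgH : g ∈ H := H.mul_mem (H.inv_mem h.2) h'.2
        have h4 : g v - v ∈ W := by
          have h5 : (h : V ≃ₗ[F] V) v - (h' : V ≃ₗ[F] V) v ∈ W := (Submodule.Quotient.eq W).mp hh
          have h6 := hWH _ (H.inv_mem h.2) _ h5
          rw [map_sub] at h6
          have h3 : ((h : V ≃ₗ[F] V)⁻¹) ((h : V ≃ₗ[F] V) v) = v := LinearEquiv.symm_apply_apply _ _
          rw [h3] at h6
          have h7 := W.neg_mem h6
          rw [neg_sub] at h7
          exact h7
        by_contra hcon
        replace hcon : ∀ u : V, u ≠ 0 → ¬ g u = u := fun u hu h => hcon ⟨u, hu, h⟩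
        have hinj : Function.Injective (g.toLinearMap - LinearMap.id : V →ₗ[F] V) := by
          rw [← LinearMap.ker_eq_bot, LinearMap.ker_eq_bot']
          intro u hu
          by_contra hu0
          apply hcon u hu0
          show g u = u
          rw [LinearMap.sub_apply, sub_eq_zero] at hu
          exact hu
        -- restricted to W it is injective, hence surjective onto W
        have hmaps : ∀ w ∈ W, (g.toLinearMap - LinearMap.id : V →ₗ[F] V) w ∈ W := by
          intro w hw
          exact W.sub_mem (hWH g hgH w hw) hw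
        have hsurj : Function.Surjective ((g.toLinearMap - LinearMap.id : V →ₗ[F] V).restrict hmaps) := by
          apply LinearMap.surjective_of_injective
          intro a b hab
          apply Subtype.ext
          apply hinj
          exact congrArg Subtype.val hab
        obtain ⟨w, hw⟩ := hsurj ⟨g v - v, h4⟩
        have h8 : (g.toLinearMap - LinearMap.id : V →ₗ[F] V) (w : V) = (g.toLinearMap - LinearMap.id : V →ₗ[F] V) v :=
          congrArg Subtype.val hw
        exact hv ((hinj h8) ▸ w.2)
    have h9 : (R.index + 1) ^ 2 ≤ Nat.card V := by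
      rw [hprod, sq]
      exact Nat.mul_le_mul hB hA |>.trans (le_of_eq (by ring))
    rw [le_sub_iff_add_le]
    apply Real.le_sqrt_of_sq_le
    rw [hcardV] at h9
    exact_mod_cast h9

end Cfsg.Agent.S4178
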