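import Cfsg.Statements.S4186


set_option autoImplicit false
open Cfsg

namespace Cfsg.Agent.S4186

/-- Let T and X be subgroups of a group with T a finite 2-group normalizing X but not centralizing it. Then some element of T inverts some non-identity element of X under conjugation. -/
theorem result {G : Type*} [Group G] (T X : Subgroup G) [Finite ↥T] (hT : IsPGroup 2 ↥T) (hTN : T ≤ Subgroup.normalizer (X : Set G)) (hTC : ¬ T ≤ Subgroup.centralizer (X : Set G)) : ∃ t ∈ T, ∃ x ∈ X, x ≠ 1 ∧ t * x * t⁻¹ = x⁻¹ := by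
  classical
  -- choose t in T outside the centralizer, of minimal order
  obtain ⟨t0, ht0, ht0C⟩ := Set.not_subset.mp hTC
  have key : ∀ n : ℕ, ∀ t : G, t ∈ T → t ∉ Subgroup.centralizer (X : Set G) → t ^ (2 ^ n) = 1 →
      ∃ s ∈ T, s ∉ Subgroup.centralizer (X : Set G) ∧ s ^ 2 ∈ Subgroup.centralizer (X : Set G) := by
    intro n
    induction n with
    | zero =>
      intro t ht htC h1
      exfalso; apply htC
      rw [pow_zero, pow_one] at h1
      rw [h1]; exact Subgroup.one_mem _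
    | succ n ih =>
      intro t ht htC h1
      by_cases h2 : t ^ 2 ∈ Subgroup.centralizer (X : Set G)
      · exact ⟨t, ht, htC, h2⟩
      · apply ih (t ^ 2) (T.pow_mem ht 2) h2
        rw [← pow_mul, ← pow_succ']; exact h1
  obtain ⟨n, hn⟩ := hT ⟨t0, ht0⟩
  have hn' : t0 ^ 2 ^ n = 1 := congrArg Subtype.val hn
  obtain ⟨t, ht, htC, ht2⟩ := key n t0 ht0 ht0C hn'
  rw [Subgroup.mem_centralizer_iff] at htC
  push Not at htC
  obtain ⟨y, hy, hyt⟩ := htC
  have hy' : t * y * t⁻¹ ∈ X := (Subgroup.mem_normalizer_iff.mp (hTN ht) y).mp hy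
  refine ⟨t, ht, y⁻¹ * (t * y * t⁻¹), X.mul_mem (X.inv_mem hy) hy', ?_, ?_⟩
  · intro h
    apply hyt
    rw [inv_mul_eq_one] at h
    calc y * t = (t * y * t⁻¹) * t := by rw [← h]
      _ = t * y := by group
  · have h3 : y * t ^ 2 = t ^ 2 * y := Subgroup.mem_centralizer_iff.mp ht2 y hy
    calc t * (y⁻¹ * (t * y * t⁻¹)) * t⁻¹ = (t * y * t⁻¹)⁻¹ * (t ^ 2 * y) * (t ^ 2)⁻¹ := by group
      _ = (t * y * t⁻¹)⁻¹ * (y * t ^ 2) * (t ^ 2)⁻¹ := by rw [h3]
      _ = (y⁻¹ * (t * y * t⁻¹))⁻¹ := by group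

end Cfsg.Agent.S4186
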