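import Cfsg.Statements.S4189
import Mathlib
import Cfsg.Agent.H3.Basic
import Cfsg.Agent.L0.Coprime2
import Cfsg.Agent.H7.Quat

set_option autoImplicit false
open Cfsg

namespace Cfsg.Agent.S4189

open Subgroup
open scoped commutatorElement

/-- class two case -/
theorem class_two {Q : Type*} [Group Q] [Finite Q] (hcen : commutator Q ≤ center Q) (hna : commutator Q ≠ ⊥)
    (a : MulAut Q) (x y : Q) (hy : a x = y) (hcov : ∀ g : Q, g ∈ commutator Q ∨ x⁻¹ * g ∈ commutator Q ∨
      y⁻¹ * g ∈ commutator Q ∨ (x * y)⁻¹ * g ∈ commutator Q) (hsq : ∀ g : Q, g * g ∈ commutator Q)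
    (hay : (x * y)⁻¹ * a y ∈ commutator Q) :
    ∃ c : Q, c ≠ 1 ∧ c * c = 1 ∧ c = x * y * x⁻¹ * y⁻¹ ∧ (∀ g ∈ commutator Q, g = 1 ∨ g = c) ∧ ∀ g : Q, g ∉ commutator Q → g * g = c := by
  have hc : ∀ z ∈ commutator Q, ∀ g : Q, g * z = z * g := fun z hz g => Subgroup.mem_center_iff.mp (hcen hz) g
  set c := x * y * x⁻¹ * y⁻¹ with hcdef
  have hcm : c ∈ commutator Q := by
    rw [commutator_def]
    have : c = ⁅x, y⁆ := by rw [commutatorElement_def]
    rw [this]
    exact Subgroup.commutator_mem_commutator trivial trivial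
  have hxy : x * y = c * (y * x) := by rw [hcdef]; group
  -- squares are central
  have hxx := hsq x
  have hcc : c * c = 1 := by
    -- x x y = y x x ; x x y = x (c y x) = c (x y) x = c c y x x
    have h1 : (x * x) * y = y * (x * x) := (hc _ hxx y).symm
    have h2 : (x * x) * y = c * c * (y * (x * x)) := by
      calc (x * x) * y = x * (x * y) := by group
        _ = x * (c * (y * x)) := by rw [hxy]
        _ = (x * c) * (y * x) := by group
        _ = (c * x) * (y * x) := by rw [hc c hcm x]
        _ = c * (x * y) * x := by group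
        _ = c * (c * (y * x)) * x := by rw [hxy]
        _ = c * c * (y * (x * x)) := by group
    rw [h1] at h2
    exact (mul_eq_right.mp h2.symm)
  -- all commutators in {1, c}
  have hcomm : ∀ g ∈ commutator Q, g = 1 ∨ g = c := by
    have hle : commutator Q ≤ Subgroup.zpowers c := by
      rw [commutator_def, Subgroup.commutator_le]
      have hzx : ∀ (z g h : Q), z ∈ commutator Q → ⁅g * z, h⁆ = ⁅g, h⁆ := by
        intro z g h hz
        rw [commutatorElement_def, commutatorElement_def]
        have h1 := hc z hz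
        calc g * z * h * (g * z)⁻¹ * h⁻¹ = g * (z * h) * z⁻¹ * g⁻¹ * h⁻¹ := by group
          _ = g * (h * z) * z⁻¹ * g⁻¹ * h⁻¹ := by rw [h1 h]
          _ = g * h * g⁻¹ * h⁻¹ := by group
      have hzy : ∀ (z g h : Q), z ∈ commutator Q → ⁅g, h * z⁆ = ⁅g, h⁆ := by
        intro z g h hz
        rw [← commutatorElement_inv, hzx z h g hz, commutatorElement_inv]
      have hcz : c ∈ Subgroup.zpowers c := Subgroup.mem_zpowers c
      have hxy' : ⁅x, y⁆ = c := by rw [commutatorElement_def]
      have hyx' : ⁅y, x⁆ = c⁻¹ := by rw [← commutatorElement_inv, hxy']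
      have hrep : ∀ g : Q, ∃ r ∈ ({1, x, y, x * y} : Set Q), ∃ z ∈ commutator Q, g = r * z := by
        intro g
        rcases hcov g with h | h | h | h
        · exact ⟨1, by simp, g, h, by simp⟩
        · exact ⟨x, by simp, _, h, by group⟩
        · exact ⟨y, by simp, _, h, by group⟩
        · exact ⟨x * y, by simp, _, h, by group⟩
      intro g _ h _
      obtain ⟨r, hr, z, hz, rfl⟩ := hrep g
      obtain ⟨s, hs, w, hw, rfl⟩ := hrep h
      rw [hzx _ _ _ hz, hzy _ _ _ hw]
      have e1 : ⁅x, x * y⁆ = c := by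
        have h1 := hc c hcm x
        rw [commutatorElement_def]
        calc x * (x * y) * x⁻¹ * (x * y)⁻¹ = x * (x * y * x⁻¹ * y⁻¹) * x⁻¹ := by group
          _ = (x * c) * x⁻¹ := by rw [← hcdef]
          _ = c := by rw [h1]; group
      have e2 : ⁅y, x * y⁆ = c⁻¹ := by
        rw [commutatorElement_def]
        calc y * (x * y) * y⁻¹ * (x * y)⁻¹ = (x * y * x⁻¹ * y⁻¹)⁻¹ := by group
          _ = c⁻¹ := by rw [← hcdef]
      have e3 : ⁅x * y, x⁆ = c⁻¹ := by rw [← commutatorElement_inv, e1]
      have e4 : ⁅x * y, y⁆ = c := by rw [← commutatorElement_inv, e2, inv_inv]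
      simp only [Set.mem_insert_iff, Set.mem_singleton_iff] at hr hs
      rcases hr with rfl | rfl | rfl | rfl <;> rcases hs with rfl | rfl | rfl | rfl <;>
        simp only [commutatorElement_one_left, commutatorElement_one_right, commutatorElement_self, hxy', hyx', e1, e2, e3, e4,
          one_mem, hcz, inv_mem hcz]
    intro g hg
    obtain ⟨k, hk⟩ := Subgroup.mem_zpowers_iff.mp (hle hg)
    rcases Int.even_or_odd' k with ⟨j, hj | hj⟩
    · left
      rw [← hk, hj, zpow_mul]
      have : c ^ (2 : ℤ) = 1 := by rw [zpow_two, hcc]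
      rw [this, one_zpow]
    · right
      rw [← hk, hj, zpow_add, zpow_mul]
      have : c ^ (2 : ℤ) = 1 := by rw [zpow_two, hcc]
      rw [this, one_zpow, one_mul, zpow_one]
  have hc1 : c ≠ 1 := by
    intro h
    apply hna
    rw [eq_bot_iff]
    intro g hg
    rcases hcomm g hg with h1 | h1
    · exact h1
    · rw [Subgroup.mem_bot, h1, h]
  refine ⟨c, hc1, hcc, rfl, hcomm, ?_⟩
  have hac : a c = c := by
    have h1 : a c ∈ commutator Q := by
      exact (Subgroup.characteristic_iff_le_comap.mp (inferInstance : (commutator Q).Characteristic)) a hcm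
    rcases hcomm _ h1 with h | h
    · exfalso; apply hc1; exact (map_eq_one_iff a a.injective).mp h
    · exact h
  -- squares are a-invariant
  have hsqa : ∀ g : Q, a (g * g) = g * g := by
    intro g
    rcases hcomm _ (hsq g) with h | h
    · rw [h, map_one]
    · rw [h, hac]
  have hzz : ∀ z ∈ commutator Q, z * z = 1 := by
    intro z hz
    rcases hcomm z hz with h | h
    · rw [h, one_mul]
    · rw [h, hcc]
  have hmulz : ∀ g z : Q, z ∈ commutator Q → (g * z) * (g * z) = g * g := by
    intro g z hz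
    calc g * z * (g * z) = g * (z * g) * z := by group
      _ = g * (g * z) * z := by rw [hc z hz g]
      _ = g * g * (z * z) := by group
      _ = g * g := by rw [hzz z hz, mul_one]
  have h1 : x * x = y * y := by
    rw [← hy, ← map_mul, hsqa]
  have h2 : y * y = (x * y) * (x * y) := by
    have h3 : y * y = a y * a y := by rw [← map_mul, hsqa]
    have h4 : a y = x * y * ((x * y)⁻¹ * a y) := by group
    rw [h3, h4, hmulz _ _ hay]
  have h3 : (x * y) * (x * y) = x * x * (y * y) * c := by
    have h5 : y * x = c⁻¹ * (x * y) := by rw [hxy]; group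
    have h6 : c⁻¹ = c := inv_eq_of_mul_eq_one_left hcc
    calc (x * y) * (x * y) = x * (y * x) * y := by group
      _ = x * (c * (x * y)) * y := by rw [h5, h6]
      _ = (x * c) * (x * y * y) := by group
      _ = c * (x * (x * y * y)) := by rw [hc c hcm x]; group
      _ = (x * (x * y * y)) * c := by rw [hc c hcm]
      _ = x * x * (y * y) * c := by group
  have h4 : y * y = c := by
    have h5 : y * y = y * y * (y * y) * c := by
      rw [h1] at h3; exact h2.trans h3
    have h6 : (y * y) * (y * y) = 1 := hzz _ (hsq y)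
    rw [h6, one_mul] at h5
    exact h5
  intro g hg
  rcases hcov g with h | h | h | h
  · exact absurd h hg
  · have : g = x * (x⁻¹ * g) := by group
    rw [this, hmulz _ _ h, h1, h4]
  · have : g = y * (y⁻¹ * g) := by group
    rw [this, hmulz _ _ h, h4]
  · have : g = (x * y) * ((x * y)⁻¹ * g) := by group
    rw [this, hmulz _ _ h, ← h2, h4]

/-- an automorphism of odd prime order acts as a 3-cycle on the abelianization of order 4 -/
theorem step_one {P : Type*} [Group P] [Finite P] (hP : IsPGroup 2 P) (h4 : (commutator P).index = 4)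
    (haut : ¬ IsPGroup 2 (MulAut P)) : ∃ (a : MulAut P) (x : P), x ∉ commutator P ∧ x⁻¹ * a x ∉ commutator P ∧
      (∀ g : P, g ∈ commutator P ∨ x⁻¹ * g ∈ commutator P ∨
      (a x)⁻¹ * g ∈ commutator P ∨ (x * a x)⁻¹ * g ∈ commutator P) ∧ (∀ g : P, g * g ∈ commutator P) ∧
      (x * a x)⁻¹ * a (a x) ∈ commutator P := by
  classical
  have hnil : Group.IsNilpotent P := hP.isNilpotent
  set D := commutator P with hD
  obtain ⟨r, hr, hr2, hrd⟩ : ∃ r, r.Prime ∧ r ≠ 2 ∧ r ∣ Nat.card (MulAut P) := by
    by_contra hcon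
    push Not at hcon
    apply haut
    have := Nat.eq_prime_pow_of_unique_prime_dvd (p := 2) (Nat.card_pos (α := MulAut P)).ne' (by
      intro d hd hdd
      by_contra h
      exact hcon d hd h hdd)
    exact IsPGroup.of_card this
  have := Fact.mk hr
  obtain ⟨a, ha⟩ := exists_prime_orderOf_dvd_card' r hrd
  have hchar : ∀ (b : MulAut P) (z : P), z ∈ D → b z ∈ D := fun b z hz =>
    (Subgroup.characteristic_iff_le_comap.mp (inferInstance : (commutator P).Characteristic)) b hz
  obtain ⟨x, hx⟩ : ∃ x, x⁻¹ * a x ∉ D := by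
    by_contra hcon
    push Not at hcon
    let K : Subgroup (MulAut P) :=
      { carrier := {b | ∀ w, w⁻¹ * b w ∈ D}
        one_mem' := by intro w; simp [D.one_mem]
        mul_mem' := by
          intro b c hb hc w
          have h1 := D.mul_mem (hc w) (hb (c w))
          have h2 : w⁻¹ * c w * ((c w)⁻¹ * b (c w)) = w⁻¹ * (b * c) w := by
            rw [MulAut.mul_apply]; group
          rwa [h2] at h1
        inv_mem' := by
          intro b hb w
          have h1 := D.inv_mem (hb (b⁻¹ w))
          have h2 : ((b⁻¹ w)⁻¹ * b (b⁻¹ w))⁻¹ = w⁻¹ * b⁻¹ w := by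
            rw [MulAut.apply_inv_self]; group
          rwa [h2] at h1 }
    have hK : Subgroup.zpowers a ≤ K := by
      rw [Subgroup.zpowers_le]; exact hcon
    let C : Subgroup P :=
      { carrier := {w | a w = w}
        one_mem' := map_one a
        mul_mem' := by intro v w hv hw; show a (v * w) = v * w; rw [map_mul, hv, hw]
        inv_mem' := by intro v hv; show a v⁻¹ = v⁻¹; rw [map_inv, hv] }
    have hCD : C ⊔ commutator P = ⊤ := by
      rw [eq_top_iff]
      intro x _
      let T : SubMulAction (Subgroup.zpowers a) P :=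
        { carrier := {w | x⁻¹ * w ∈ D}
          smul_mem' := by
            rintro ⟨b, hb⟩ w hw
            have h1 := D.mul_mem hw (hK hb w)
            have h2 : x⁻¹ * w * (w⁻¹ * b w) = x⁻¹ * b w := by group
            rw [h2] at h1
            exact h1 }
      have hTc : Nat.card T = Nat.card D := by
        refine Nat.card_congr
          { toFun := fun w => ⟨x⁻¹ * w, w.2⟩
            invFun := fun d => ⟨x * d, by show x⁻¹ * (x * d) ∈ D; rw [inv_mul_cancel_left]; exact d.2⟩
            left_inv := fun w => Subtype.ext (by simp)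
            right_inv := fun d => Subtype.ext (by simp) }
      have hpg : IsPGroup r (Subgroup.zpowers a) := by
        apply IsPGroup.of_card (n := 1)
        rw [Nat.card_zpowers, ha, pow_one]
      have hnd : ¬ r ∣ Nat.card T := by
        rw [hTc]
        obtain ⟨k, hk⟩ := (hP.to_subgroup D).exists_card_eq
        rw [hk]
        intro h
        exact hr2 ((Nat.prime_dvd_prime_iff_eq hr Nat.prime_two).mp (hr.dvd_of_dvd_pow h))
      obtain ⟨⟨w, hw⟩, hw2⟩ := hpg.nonempty_fixed_point_of_prime_not_dvd_card T hnd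
      have hwC : w ∈ C := by
        have := hw2 ⟨a, Subgroup.mem_zpowers a⟩
        exact congrArg Subtype.val this
      have h1 : x = w * (x⁻¹ * w)⁻¹ := by group
      rw [h1]
      exact Subgroup.mul_mem_sup hwC (D.inv_mem hw)
    have hCtop := Cfsg.Agent.L0.eq_top_of_sup_commutator_eq_top hnil C hCD
    have ha1 : a = 1 := by
      apply MulEquiv.ext
      intro w
      have : w ∈ C := by rw [hCtop]; trivial
      exact this
    rw [ha1, orderOf_one] at ha
    exact hr.one_lt.ne ha
  -- the induced automorphism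
  have hDn : D.Normal := inferInstance
  have hmap : D.map (a : P →* P) = D := Subgroup.characteristic_iff_map_eq.mp (inferInstance : (commutator P).Characteristic) a
  set b : MulAut (P ⧸ D) := QuotientGroup.congr D D a hmap with hb
  have hbmk : ∀ g : P, b (g : P ⧸ D) = ((a g : P) : P ⧸ D) := fun g => rfl
  have hbn : ∀ (n : ℕ) (g : P), (b ^ n) (g : P ⧸ D) = (((a ^ n) g : P) : P ⧸ D) := by
    intro n
    induction n with
    | zero => intro g; rfl
    | succ n ih => intro g; rw [pow_succ, MulAut.mul_apply, hbmk, ih, pow_succ, MulAut.mul_apply]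
  have hbr : b ^ r = 1 := by
    apply MulEquiv.ext
    intro v
    induction v using QuotientGroup.induction_on with | _ g =>
    rw [hbn, ← ha, pow_orderOf_eq_one]; rfl
  set X : P ⧸ D := (x : P ⧸ D) with hX
  have hbX : b X ≠ X := by
    intro h
    apply hx
    rw [hX, hbmk, eq_comm, QuotientGroup.eq] at h
    exact h
  have hb1 : b ≠ 1 := fun h => hbX (by rw [h]; rfl)
  have hob : orderOf b = r := orderOf_eq_prime hbr hb1
  have hX1 : X ≠ 1 := fun h => hbX (by rw [h, map_one])
  have hcardV : Nat.card (P ⧸ D) = 4 := h4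
  -- r = 3
  have hr3 : r = 3 := by
    have h1 : (MulAction.orbit (Subgroup.zpowers b) X).ncard ∣ r := by
      rw [← MulAction.index_stabilizer, ← hob, ← Nat.card_zpowers]
      exact Subgroup.index_dvd_card _
    have h2 : (MulAction.orbit (Subgroup.zpowers b) X).ncard ≠ 1 := by
      intro h
      rw [Set.ncard_eq_one] at h
      obtain ⟨w, hw⟩ := h
      have h3 : X ∈ MulAction.orbit (Subgroup.zpowers b) X := MulAction.mem_orbit_self X
      have h4 : b X ∈ MulAction.orbit (Subgroup.zpowers b) X := ⟨⟨b, Subgroup.mem_zpowers b⟩, rfl⟩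
      rw [hw] at h3 h4
      rw [Set.mem_singleton_iff] at h3 h4
      exact hbX (h4.trans h3.symm)
    have h3 := (Nat.dvd_prime hr).mp h1
    have h4 : (MulAction.orbit (Subgroup.zpowers b) X).ncard = r := h3.resolve_left h2
    have h5 : MulAction.orbit (Subgroup.zpowers b) X ⊆ {1}ᶜ := by
      rintro _ ⟨⟨c, hc⟩, rfl⟩
      intro h
      apply hX1
      have h6 : c X = 1 := h
      exact (map_eq_one_iff c c.injective).mp h6
    have h6 := Set.ncard_le_ncard h5 (Set.toFinite _)
    have h7 := Set.ncard_add_ncard_compl ({1} : Set (P ⧸ D)) (Set.toFinite _) (Set.toFinite _)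
    rw [Set.ncard_singleton, hcardV] at h7
    have h8 := hr.two_le
    omega
  have hb3 : b (b (b X)) = X := by
    have := congrArg (fun f : MulAut (P ⧸ D) => f X) hbr
    rw [hr3] at this
    exact this
  set Y := b X with hY
  have hY1 : Y ≠ 1 := fun h => hX1 ((map_eq_one_iff b b.injective).mp h)
  have hZ1 : b Y ≠ 1 := fun h => hY1 ((map_eq_one_iff b b.injective).mp h)
  have hZY : b Y ≠ Y := fun h => hbX (b.injective h)
  have hZX : b Y ≠ X := fun h => hbX (by rw [h] at hb3; exact hb3)
  have : Fintype (P ⧸ D) := Fintype.ofFinite _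
  have huniv : (Finset.univ : Finset (P ⧸ D)) = {1, X, Y, b Y} := by
    symm
    apply Finset.eq_univ_of_card
    rw [← Nat.card_eq_fintype_card, hcardV]
    rw [Finset.card_insert_of_notMem, Finset.card_insert_of_notMem, Finset.card_insert_of_notMem,
      Finset.card_singleton]
    · simp only [Finset.mem_singleton]; exact hZY.symm
    · simp only [Finset.mem_insert, Finset.mem_singleton, not_or]; exact ⟨hbX.symm, hZX.symm⟩
    · simp only [Finset.mem_insert, Finset.mem_singleton, not_or]; exact ⟨hX1.symm, hY1.symm, hZ1.symm⟩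
  have hall : ∀ v : P ⧸ D, v = 1 ∨ v = X ∨ v = Y ∨ v = b Y := by
    intro v
    have := Finset.mem_univ v
    rw [huniv] at this
    simpa using this
  obtain ⟨t, ht⟩ := exists_prime_orderOf_dvd_card' (G := P ⧸ D) 2 (by rw [hcardV]; norm_num)
  have ht2 : t * t = 1 := by rw [← pow_two, ← ht, pow_orderOf_eq_one]
  have ht1 : t ≠ 1 := fun h => by rw [h, orderOf_one] at ht; omega
  have hbsq : ∀ v : P ⧸ D, b v * b v = 1 → v * v = 1 := by
    intro v hv
    rw [← map_mul] at hv
    exact (map_eq_one_iff b b.injective).mp hv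
  have hXX : X * X = 1 := by
    rcases hall t with h | h | h | h
    · exact absurd h ht1
    · rw [← h]; exact ht2
    · apply hbsq; rw [← hY, ← h]; exact ht2
    · apply hbsq; apply hbsq; rw [← hY, ← h]; exact ht2
  have hYY : Y * Y = 1 := by rw [hY, ← map_mul, hXX, map_one]
  have hZZ : b Y * b Y = 1 := by rw [← map_mul, hYY, map_one]
  have hXY : X * Y = b Y := by
    rcases hall (X * Y) with h | h | h | h
    · exfalso
      apply hbX
      have : X⁻¹ = X := inv_eq_of_mul_eq_one_left hXX
      rw [← this]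
      exact (eq_inv_of_mul_eq_one_right h)
    · exact absurd (mul_eq_left.mp h) hY1
    · exact absurd (mul_eq_right.mp h) hX1
    · exact h
  have hq : ∀ g h : P, (g : P ⧸ D) = (h : P ⧸ D) ↔ h⁻¹ * g ∈ D := by
    intro g h
    rw [eq_comm, QuotientGroup.eq]
  refine ⟨a, x, ?_, hx, ?_, ?_, ?_⟩
  · intro h
    apply hX1
    exact (QuotientGroup.eq_one_iff x).mpr h
  · intro g
    rcases hall (g : P ⧸ D) with h | h | h | h
    · left; exact (QuotientGroup.eq_one_iff g).mp h
    · right; left; exact (hq g x).mp h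
    · right; right; left; exact (hq g (a x)).mp h
    · right; right; right
      rw [← hXY] at h
      exact (hq g (x * a x)).mp h
  · intro g
    have h1 : (g : P ⧸ D) * (g : P ⧸ D) = 1 := by
      rcases hall (g : P ⧸ D) with h | h | h | h
      · rw [h, one_mul]
      · rw [h]; exact hXX
      · rw [h]; exact hYY
      · rw [h]; exact hZZ
    exact (QuotientGroup.eq_one_iff (g * g)).mp h1
  · exact (hq (a (a x)) (x * a x)).mp hXY.symm

/-- Let P be a finite non-abelian 2-group whose commutator subgroup has index 4 and whose automorphism group is not a 2-group (some automorphism has order that is not a power of 2). Then P is isomorphic to the quaternion group of order 8. -/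
theorem result {P : Type*} [Group P] [Finite P] (hP : IsPGroup 2 P) (hna : ¬ IsMulCommutative P) (h4 : (commutator P).index = 4) (haut : ¬ IsPGroup 2 (MulAut P)) : Nonempty (P ≃* QuaternionGroup 2) := by
  classical
  obtain ⟨a, x, hxD, hx, hcov, hsq, hay⟩ := step_one hP h4 haut
  have hnil : Group.IsNilpotent P := hP.isNilpotent
  have hnilT : Group.IsNilpotent (⊤ : Subgroup P) := by
    have := (hP.to_subgroup ⊤).isNilpotent; exact this
  set D := commutator P with hD
  have hDbot : D ≠ ⊥ := by
    intro h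
    apply hna
    refine ⟨⟨fun g h' => ?_⟩⟩
    have h1 : ⁅g, h'⁆ ∈ D := by
      rw [hD, commutator_def]; exact Subgroup.commutator_mem_commutator trivial trivial
    rw [h, Subgroup.mem_bot, commutatorElement_eq_one_iff_mul_comm] at h1
    exact h1
  set E : Subgroup P := ⁅D, (⊤ : Subgroup P)⁆ with hE
  have hED : E ≤ D := Subgroup.commutator_le_left _ _
  have hEchar : E.Characteristic := inferInstance
  have hEn : E.Normal := inferInstance
  have hDE : ¬ D ≤ E := fun h => hDbot (Cfsg.Agent.L0.eq_bot_of_commutator_eq_of_isNilpotent hnilT le_top le_top h)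
  have hcomm : commutator (P ⧸ E) = D.map (QuotientGroup.mk' E) := by
    rw [hD, commutator_def, commutator_def, Subgroup.map_commutator,
      Subgroup.map_top_of_surjective _ (QuotientGroup.mk'_surjective E)]
  have hmemE : ∀ g : P, ((g : P ⧸ E) ∈ commutator (P ⧸ E)) ↔ g ∈ D := by
    intro g
    rw [hcomm]
    constructor
    · rintro ⟨d, hd, hdg⟩
      have h1 : d⁻¹ * g ∈ E := QuotientGroup.eq.mp hdg
      have := D.mul_mem hd (hED h1)
      rwa [mul_inv_cancel_left] at this
    · intro h; exact ⟨g, h, rfl⟩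
  have hmapE : E.map (a : P →* P) = E := Subgroup.characteristic_iff_map_eq.mp hEchar a
  have hcenE : commutator (P ⧸ E) ≤ center (P ⧸ E) := by
    rw [hcomm]
    rintro _ ⟨d, hd, rfl⟩
    rw [Subgroup.mem_center_iff]
    intro v
    induction v using QuotientGroup.induction_on with | _ g =>
    show ((g * d : P) : P ⧸ E) = ((d * g : P) : P ⧸ E)
    rw [QuotientGroup.eq]
    have h1 : ⁅d⁻¹, g⁻¹⁆ ∈ E := Subgroup.commutator_mem_commutator (D.inv_mem hd) trivial
    rw [commutatorElement_def] at h1
    have h2 : (g * d)⁻¹ * (d * g) = d⁻¹ * g⁻¹ * d⁻¹⁻¹ * g⁻¹⁻¹ := by group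
    rw [h2]; exact h1
  have hnaE : commutator (P ⧸ E) ≠ ⊥ := by
    intro h
    apply hDE
    intro d hd
    have h1 := (hmemE d).mpr hd
    rw [h, Subgroup.mem_bot] at h1
    exact (QuotientGroup.eq_one_iff d).mp h1
  obtain ⟨c, hc1, hcc, hcdef, hcD, hcs⟩ := class_two hcenE hnaE (QuotientGroup.congr E E a hmapE) (x : P ⧸ E) ((a x : P) : P ⧸ E) rfl
    (by
      intro v
      induction v using QuotientGroup.induction_on with | _ g =>
      rcases hcov g with h | h | h | h
      · left; exact (hmemE _).mpr h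
      · right; left; exact (hmemE _).mpr h
      · right; right; left; exact (hmemE _).mpr h
      · right; right; right; exact (hmemE _).mpr h)
    (by
      intro v
      induction v using QuotientGroup.induction_on with | _ g =>
      exact (hmemE _).mpr (hsq g))
    ((hmemE _).mpr hay)
  set c0 : P := x * a x * x⁻¹ * (a x)⁻¹ with hc0
  have hcc0 : c = (c0 : P ⧸ E) := hcdef
  -- E = ⊥
  have hEbot : E = ⊥ := by
    apply Cfsg.Agent.L0.eq_bot_of_commutator_eq_of_isNilpotent hnilT le_top (le_refl ⊤)
    set F : Subgroup P := ⁅E, (⊤ : Subgroup P)⁆ with hF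
    have hFn : F.Normal := inferInstance
    -- E central mod F
    have hEc : ∀ e ∈ E, ∀ g : P, (g : P ⧸ F) * (e : P ⧸ F) = (e : P ⧸ F) * (g : P ⧸ F) := by
      intro d hd g
      show ((g * d : P) : P ⧸ F) = ((d * g : P) : P ⧸ F)
      rw [QuotientGroup.eq]
      have h1 : ⁅d⁻¹, g⁻¹⁆ ∈ F := Subgroup.commutator_mem_commutator (E.inv_mem hd) trivial
      rw [commutatorElement_def] at h1
      have h2 : (g * d)⁻¹ * (d * g) = d⁻¹ * g⁻¹ * d⁻¹⁻¹ * g⁻¹⁻¹ := by group
      rw [h2]; exact h1
    have hc0out : ∀ g : P, g ∉ D → (g : P ⧸ F) * (c0 : P ⧸ F) = (c0 : P ⧸ F) * (g : P ⧸ F) := by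
      intro g hg
      have h1 := hcs (g : P ⧸ E) (fun h => hg ((hmemE g).mp h))
      rw [hcc0] at h1
      have h2 : (g * g)⁻¹ * c0 ∈ E := QuotientGroup.eq.mp h1
      have h3 : (c0 : P ⧸ F) = (g : P ⧸ F) * (g : P ⧸ F) * (((g * g)⁻¹ * c0 : P) : P ⧸ F) := by
        show (c0 : P ⧸ F) = ((g * g * ((g * g)⁻¹ * c0) : P) : P ⧸ F)
        rw [mul_inv_cancel_left]
      have h4 := hEc _ h2 g
      rw [h3]
      generalize (((g * g)⁻¹ * c0 : P) : P ⧸ F) = z at h4
      calc (g : P ⧸ F) * (g * g * z) = g * g * (g * z) := by group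
        _ = g * g * (z * g) := by rw [h4]
        _ = g * g * z * g := by group
    have hc0all : ∀ g : P, (g : P ⧸ F) * (c0 : P ⧸ F) = (c0 : P ⧸ F) * (g : P ⧸ F) := by
      intro g
      by_cases hg : g ∈ D
      · have h1 : x * g ∉ D := fun h => hxD (by
          have := D.mul_mem h (D.inv_mem hg)
          rwa [mul_inv_cancel_right] at this)
        have h2 := hc0out _ h1
        have h3 := hc0out _ hxD
        have h4 : ((x * g : P) : P ⧸ F) = (x : P ⧸ F) * (g : P ⧸ F) := rfl
        rw [h4] at h2
        have h5 : (x : P ⧸ F) * ((g : P ⧸ F) * (c0 : P ⧸ F)) = (x : P ⧸ F) * ((c0 : P ⧸ F) * (g : P ⧸ F)) := by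
          calc (x : P ⧸ F) * ((g : P ⧸ F) * (c0 : P ⧸ F)) = (x : P ⧸ F) * (g : P ⧸ F) * (c0 : P ⧸ F) := by group
            _ = (c0 : P ⧸ F) * ((x : P ⧸ F) * (g : P ⧸ F)) := h2
            _ = ((c0 : P ⧸ F) * (x : P ⧸ F)) * (g : P ⧸ F) := by group
            _ = ((x : P ⧸ F) * (c0 : P ⧸ F)) * (g : P ⧸ F) := by rw [h3]
            _ = _ := by group
        exact mul_left_cancel h5
      · exact hc0out g hg
    -- ⁅D, ⊤⁆ ≤ F
    rw [hE, Subgroup.commutator_le]
    intro d hd g _
    have hdc : (g : P ⧸ F) * (d : P ⧸ F) = (d : P ⧸ F) * (g : P ⧸ F) := by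
      rcases hcD (d : P ⧸ E) ((hmemE d).mpr hd) with h | h
      · exact hEc d ((QuotientGroup.eq_one_iff d).mp h) g
      · rw [hcc0, eq_comm] at h
        have h1 : c0⁻¹ * d ∈ E := QuotientGroup.eq.mp h
        have h2 : (d : P ⧸ F) = (c0 : P ⧸ F) * ((c0⁻¹ * d : P) : P ⧸ F) := by
          show (d : P ⧸ F) = ((c0 * (c0⁻¹ * d) : P) : P ⧸ F)
          rw [mul_inv_cancel_left]
        have h3 := hEc _ h1 g
        rw [h2]
        generalize ((c0⁻¹ * d : P) : P ⧸ F) = z at h3
        calc (g : P ⧸ F) * (c0 * z) = (g * c0) * z := by group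
          _ = c0 * g * z := by rw [hc0all g]
          _ = c0 * (g * z) := by group
          _ = c0 * (z * g) := by rw [h3]
          _ = c0 * z * g := by group
    rw [← QuotientGroup.eq_one_iff (N := F)]
    show (d : P ⧸ F) * (g : P ⧸ F) * (d : P ⧸ F)⁻¹ * (g : P ⧸ F)⁻¹ = 1
    rw [← hdc]; group
  have hcen : D ≤ center P := by
    rw [hE, Subgroup.commutator_eq_bot_iff_le_centralizer, Subgroup.coe_top, Subgroup.centralizer_univ] at hEbot
    exact hEbot
  obtain ⟨c, hc1, hcc, hcdef, hcD, hcs⟩ := class_two hcen hDbot a x (a x) rfl hcov hsq hay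
  -- order
  have hcardD : Nat.card D = 2 := by
    rw [Nat.card_eq_two_iff]
    have hcm : c ∈ D := by
      rw [hcdef]
      have : x * a x * x⁻¹ * (a x)⁻¹ = ⁅x, a x⁆ := by rw [commutatorElement_def]
      rw [this, hD, commutator_def]
      exact Subgroup.commutator_mem_commutator trivial trivial
    refine ⟨1, ⟨c, hcm⟩, fun h => hc1 (congrArg Subtype.val h).symm, ?_⟩
    ext ⟨z, hz⟩
    simp only [Set.mem_insert_iff, Set.mem_singleton_iff, Set.mem_univ, iff_true]
    rcases hcD z hz with h | h
    · left; exact Subtype.ext h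
    · right; exact Subtype.ext h
  have hcardP : Nat.card P = 8 := by
    rw [← D.card_mul_index, hcardD, h4]
  have hyD : a x ∉ D := fun h => hxD (by
    have := (Subgroup.characteristic_iff_le_comap.mp (inferInstance : (commutator P).Characteristic)) a.symm h
    have h2 : a.symm (a x) ∈ D := this
    rwa [MulEquiv.symm_apply_apply] at h2)
  have hxx := hcs x hxD
  have hyy := hcs (a x) hyD
  have hx4 : orderOf x = 2 * 2 := by
    apply orderOf_eq_of_pow_and_pow_div_prime (by norm_num)
    · rw [pow_mul, pow_two, pow_two, hxx, hcc]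
    · intro p hp hpd
      have : p = 2 := by
        have h1 := (Nat.Prime.dvd_mul hp).mp hpd
        have h2 : p ∣ 2 := by rcases h1 with h | h <;> exact h
        exact (Nat.prime_dvd_prime_iff_eq hp Nat.prime_two).mp h2
      rw [this]
      show x ^ (2 * 2 / 2) ≠ 1
      rw [show 2 * 2 / 2 = 2 by norm_num, pow_two, hxx]
      exact hc1
  have hxinv : x⁻¹ = c * x := by
    rw [inv_eq_iff_mul_eq_one, ← hxx]
    rw [show x * (x * x * x) = (x * x) * (x * x) by group, hxx, hcc]
  have hccen : ∀ g : P, g * c = c * g := by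
    intro g
    have hcm : c ∈ center P := by
      have h1 := hsq x
      rw [hxx] at h1
      exact hcen h1
    exact Subgroup.mem_center_iff.mp hcm g
  obtain ⟨Φ, hΦ, -, -⟩ := Cfsg.Agent.H7.quaternion_hom (n := 2) x (a x)
    (by rw [hyy, pow_two, hxx])
    (by
      have h1 : x * a x = c * (a x * x) := by rw [hcdef]; group
      rw [h1, hxinv, ← mul_assoc, ← mul_assoc, hccen])
    hx4
    (by
      intro h
      obtain ⟨k, hk⟩ := Subgroup.mem_zpowers_iff.mp h
      rcases Int.even_or_odd' k with ⟨j, hj | hj⟩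
      · apply hyD
        rw [← hk, hj, zpow_mul, zpow_two]
        exact D.zpow_mem (hsq x) j
      · apply hx
        rw [← hk, hj, zpow_add, zpow_mul, zpow_two, zpow_one]
        have h1 : x⁻¹ * ((x * x) ^ j * x) = x⁻¹ * (x * x) ^ j * x⁻¹⁻¹ := by group
        rw [h1]
        exact (inferInstance : D.Normal).conj_mem _ (D.zpow_mem (hsq x) j) _)
  have hQ : Nat.card (QuaternionGroup 2) = 8 := by
    rw [Nat.card_eq_fintype_card, QuaternionGroup.card]
  have hbij := hΦ.bijective_of_nat_card_le (by rw [hQ, hcardP])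
  exact ⟨(MulEquiv.ofBijective Φ hbij).symm⟩

end Cfsg.Agent.S4189
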