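import Cfsg.Statements.S4196
import Cfsg.Agent.H3.Basic

set_option autoImplicit false
open Cfsg

namespace Cfsg.Agent.S4196

/-- A finite group G has elementary abelian Sylow 2-subgroups (commutative with every element squaring to the identity) if and only if every 2-element of G has a Sylow 2-subgroup in its centralizer and is conjugate to its inverse. -/
theorem result {G : Type*} [Group G] [Finite G] (P : Sylow 2 G) :
    (IsMulCommutative (P : Subgroup G) ∧ ∀ x ∈ (P : Subgroup G), x ^ 2 = 1) ↔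
      ∀ x : G, (∃ k : ℕ, orderOf x = 2 ^ k) → (∃ Q : Sylow 2 G, (Q : Subgroup G) ≤ Subgroup.centralizer ({x} : Set G)) ∧ IsConj x x⁻¹ := by
  constructor
  · rintro ⟨hc, h2⟩ x ⟨k, hk⟩
    have hx : IsPGroup 2 (Subgroup.zpowers x) := IsPGroup.of_card (n := k) (by rw [Nat.card_zpowers, hk])
    obtain ⟨Q, hQ⟩ := hx.exists_le_sylow
    obtain ⟨g, hg⟩ := MulAction.exists_smul_eq G P Q
    have hmem : ∀ y ∈ (Q : Subgroup G), g⁻¹ * y * g ∈ (P : Subgroup G) := by
      intro y hy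
      rw [← hg] at hy
      rw [Sylow.coe_subgroup_smul, Subgroup.mem_pointwise_smul_iff_inv_smul_mem] at hy
      simpa using hy
    have hxQ : x ∈ (Q : Subgroup G) := hQ (Subgroup.mem_zpowers x)
    refine ⟨⟨Q, ?_⟩, ?_⟩
    · intro y hy
      rw [Subgroup.mem_centralizer_singleton_iff]
      have h3 := hmem x hxQ
      have h4 := hmem y hy
      have h5 : (g⁻¹ * y * g) * (g⁻¹ * x * g) = (g⁻¹ * x * g) * (g⁻¹ * y * g) :=
        congrArg Subtype.val (hc.is_comm.comm (⟨_, h4⟩ : (P : Subgroup G)) ⟨_, h3⟩)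
      calc y * x = g * ((g⁻¹ * y * g) * (g⁻¹ * x * g)) * g⁻¹ := by group
        _ = g * ((g⁻¹ * x * g) * (g⁻¹ * y * g)) * g⁻¹ := by rw [h5]
        _ = x * y := by group
    · have h3 := h2 _ (hmem x hxQ)
      have h4 : x ^ 2 = 1 := by
        calc x ^ 2 = g * (g⁻¹ * x * g) ^ 2 * g⁻¹ := by simp [sq, mul_assoc]
          _ = 1 := by rw [h3]; group
      have h5 : x⁻¹ = x := by
        rw [inv_eq_iff_mul_eq_one, ← sq, h4]
      rw [h5]
  · intro h
    have h2 : ∀ x ∈ (P : Subgroup G), x ^ 2 = 1 := by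
      intro x hx
      obtain ⟨k, hk⟩ := (IsPGroup.iff_orderOf.mp P.2) ⟨x, hx⟩
      rw [Subgroup.orderOf_mk] at hk
      obtain ⟨⟨Q, hQ⟩, hr⟩ := h x ⟨k, hk⟩
      exact Cfsg.Agent.H3.sq_eq_one_of_real x Q hQ hr
    refine ⟨⟨⟨?_⟩⟩, h2⟩
    intro a b
    have ha := h2 a a.2
    have hb := h2 b b.2
    have hab := h2 (a * b) ((P : Subgroup G).mul_mem a.2 b.2)
    ext
    simp only [Subgroup.coe_mul]
    have e1 : (a : G)⁻¹ = a := by rw [inv_eq_iff_mul_eq_one, ← sq, ha]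
    have e2 : (b : G)⁻¹ = b := by rw [inv_eq_iff_mul_eq_one, ← sq, hb]
    have e3 : ((a : G) * b)⁻¹ = a * b := by rw [inv_eq_iff_mul_eq_one, ← sq, hab]
    rw [← e3, mul_inv_rev, e1, e2]

end Cfsg.Agent.S4196
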