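import Cfsg.Statements.S4230
import Mathlib

set_option autoImplicit false
open Cfsg

namespace Cfsg.Agent.S4230

/-- Let p be an odd prime, q a natural number not divisible by p, and e the multiplicative order of q modulo p. For a natural number f, p divides the value at q of the f-th cyclotomic polynomial if and only if f = e·p^j for some j ≥ 0. -/
theorem result (p q f : ℕ) (hp : p.Prime) (hp2 : p ≠ 2) (hpq : ¬ p ∣ q) :
    ((p : ℤ) ∣ (Polynomial.cyclotomic f ℤ).eval (q : ℤ)) ↔ ∃ j : ℕ, f = orderOf (q : ZMod p) * p ^ j := by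
  have := Fact.mk hp
  have hq0 : (q : ZMod p) ≠ 0 := by
    intro h; exact hpq ((ZMod.natCast_eq_zero_iff _ _).mp h)
  have hord : 0 < orderOf (q : ZMod p) := by
    rw [orderOf_pos_iff]
    exact isOfFinOrder_iff_pow_eq_one.mpr ⟨p - 1, by have := hp.two_le; omega, ZMod.pow_card_sub_one_eq_one hq0⟩
  have h1 : ((p : ℤ) ∣ (Polynomial.cyclotomic f ℤ).eval (q : ℤ)) ↔
      (Polynomial.cyclotomic f (ZMod p)).IsRoot (q : ZMod p) := by
    rw [← ZMod.intCast_zmod_eq_zero_iff_dvd, Polynomial.IsRoot.def, ← Polynomial.map_cyclotomic f (Int.castRingHom (ZMod p))]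
    have := Polynomial.eval_intCast_map (Int.castRingHom (ZMod p)) (Polynomial.cyclotomic f ℤ) (q : ℤ)
    rw [Int.cast_natCast] at this
    rw [this]
    simp
  rw [h1]
  by_cases hf : f = 0
  · subst hf
    simp only [Polynomial.cyclotomic_zero, Polynomial.IsRoot.def, Polynomial.eval_one, one_ne_zero, false_iff]
    rintro ⟨j, hj⟩
    have := Nat.mul_pos hord (pow_pos hp.pos j)
    omega
  · obtain ⟨a, u, hu, rfl⟩ := Nat.exists_eq_pow_mul_and_not_dvd hf p hp.ne_one
    have : NeZero (u : ZMod p) := ⟨fun h => hu ((ZMod.natCast_eq_zero_iff _ _).mp h)⟩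
    rw [Polynomial.isRoot_cyclotomic_prime_pow_mul_iff_of_charP]
    constructor
    · intro h
      exact ⟨a, by rw [← h.eq_orderOf, mul_comm]⟩
    · rintro ⟨j, hj⟩
      have hou : ¬ p ∣ orderOf (q : ZMod p) := by
        intro h
        have h2 := ZMod.orderOf_dvd_card_sub_one hq0
        have h3 := Nat.le_of_dvd (by have := hp.two_le; omega) (h.trans h2)
        have := hp.two_le; omega
      have h4 : u = orderOf (q : ZMod p) := by
        have e1 : (p ^ a * u).factorization p = a := by
          rw [Nat.factorization_mul (pow_ne_zero _ hp.ne_zero) (by rintro rfl; simp at hu)]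
          simp [Nat.factorization_eq_zero_of_not_dvd hu, hp.factorization_self]
        have e2 : (orderOf (q : ZMod p) * p ^ j).factorization p = j := by
          rw [Nat.factorization_mul hord.ne' (pow_ne_zero _ hp.ne_zero)]
          simp [Nat.factorization_eq_zero_of_not_dvd hou, hp.factorization_self]
        have e3 : a = j := by rw [← e1, ← e2, hj]
        subst e3
        rw [mul_comm] at hj
        exact Nat.eq_of_mul_eq_mul_right (pow_pos hp.pos a) hj
      rw [h4]
      exact IsPrimitiveRoot.orderOf _

end Cfsg.Agent.S4230
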