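import Cfsg.Statements.S4252
import Mathlib
import Cfsg.Agent.H3.Frob

set_option autoImplicit false
open Cfsg

namespace Cfsg.Agent.S4252

/-- Let a finite group G act on a finite set Ω with more than one point, transitively but not regularly, so that no non-identity element of G fixes two distinct points. Then the stabilizer H of any point is a Frobenius complement in G (nontrivial, proper, meeting its other conjugates trivially), and the Frobenius kernel of G with respect to H (the identity together with the elements lying in no conjugate of H) is exactly the set consisting of the identity and the elements fixing no point. -/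
theorem result {G Ω : Type*} [Group G] [Finite G] [Fintype Ω] [MulAction G Ω] (hΩ : 1 < Fintype.card Ω)
    (htrans : ∀ α β : Ω, ∃ g : G, g • α = β) (hnreg : ∃ g : G, g ≠ 1 ∧ ∃ α : Ω, g • α = α)
    (hfix : ∀ g : G, g ≠ 1 → ∀ α β : Ω, g • α = α → g • β = β → α = β) (α : Ω) :
    Cfsg.IsFrobeniusComplement (MulAction.stabilizer G α) ∧
      Cfsg.frobeniusKernel (MulAction.stabilizer G α) = {g : G | g = 1 ∨ ∀ ω : Ω, g • ω ≠ ω} := by
  have hother : ∃ β : Ω, β ≠ α := by
    by_contra h
    push Not at h
    have : Fintype.card Ω ≤ 1 := Fintype.card_le_one_iff.mpr (fun a b => (h a).trans (h b).symm)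
    omega
  obtain ⟨β, hβ⟩ := hother
  constructor
  · rw [Cfsg.Agent.H3.isFrobeniusComplement_iff]
    refine ⟨?_, ?_, ?_⟩
    · intro h
      obtain ⟨g, hg, ω, hω⟩ := hnreg
      obtain ⟨c, hc⟩ := htrans ω α
      have h1 : c * g * c⁻¹ ∈ MulAction.stabilizer G α := by
        rw [MulAction.mem_stabilizer_iff, ← hc, smul_smul, inv_mul_cancel_right, mul_smul, hω]
      rw [h, Subgroup.mem_bot] at h1
      apply hg
      have : g = c⁻¹ * (c * g * c⁻¹) * c := by group
      rw [this, h1]; simp
    · intro h
      obtain ⟨c, hc⟩ := htrans α β
      have : c ∈ MulAction.stabilizer G α := by rw [h]; trivial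
      rw [MulAction.mem_stabilizer_iff] at this
      exact hβ (hc ▸ this)
    · intro g hg x hx hxg
      by_contra hx1
      apply hg
      rw [MulAction.mem_stabilizer_iff] at *
      have h2 : x • (g • α) = g • α := by
        have := congrArg (fun y => g • y) hxg
        simp only [smul_smul] at this
        rw [smul_smul]
        simpa [mul_assoc] using this
      exact (hfix x hx1 α (g • α) hx h2).symm
  · ext x
    rw [Cfsg.Agent.H3.mem_frobeniusKernel_iff]
    simp only [Set.mem_ofPred_eq]
    refine or_congr_right ?_
    constructor
    · intro h ω hω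
      obtain ⟨c, hc⟩ := htrans α ω
      apply h c
      rw [MulAction.mem_stabilizer_iff, mul_assoc, mul_smul, mul_smul, hc, hω, ← hc, inv_smul_smul]
    · intro h g hg
      rw [MulAction.mem_stabilizer_iff, mul_assoc, mul_smul, inv_smul_eq_iff, mul_smul] at hg
      exact h _ hg

end Cfsg.Agent.S4252
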