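import Cfsg.Statements.S4253


set_option autoImplicit false
open Cfsg

namespace Cfsg.Agent.S4253

open scoped Pointwise in
theorem aux {G : Type*} [Group G] (H : Subgroup G) (g x y : G) (h3 : H ⊓ (MulAut.conj (x⁻¹ * y) • H) = ⊥)
    (hx : x⁻¹ * g * x ∈ H) (hy : y⁻¹ * g * y ∈ H) : g = 1 := by
  have h6 : x⁻¹ * g * x ∈ H ⊓ (MulAut.conj (x⁻¹ * y) • H) := by
    refine Subgroup.mem_inf.mpr ⟨hx, ?_⟩
    rw [Subgroup.mem_pointwise_smul_iff_inv_smul_mem]
    simpa [MulAut.smul_def, mul_assoc] using hy
  rw [h3, Subgroup.mem_bot] at h6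
  have : g = x * (x⁻¹ * g * x) * x⁻¹ := by group
  rw [this, h6]; simp

/-- Let H be a Frobenius complement in a finite group G (a nontrivial proper subgroup meeting each conjugate gHg⁻¹ with g outside H trivially). Then in the action of G on the left cosets of H by left multiplication, no non-identity element of G fixes two distinct cosets. -/
theorem result {G : Type*} [Group G] [Finite G] (H : Subgroup G) (hH : Cfsg.IsFrobeniusComplement H)
    (g : G) (hg : g ≠ 1) (a b : G ⧸ H) (ha : g • a = a) (hb : g • b = b) : a = b := by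
  obtain ⟨h1, h2, h3⟩ := hH
  induction a using QuotientGroup.induction_on with
  | H x =>
  induction b using QuotientGroup.induction_on with
  | H y =>
    have hx : x⁻¹ * g * x ∈ H := by
      have : ((g * x : G) : G ⧸ H) = (x : G ⧸ H) := ha
      rw [QuotientGroup.eq] at this
      have h4 := H.inv_mem this
      simpa [mul_assoc] using h4
    have hy : y⁻¹ * g * y ∈ H := by
      have : ((g * y : G) : G ⧸ H) = (y : G ⧸ H) := hb
      rw [QuotientGroup.eq] at this
      have h4 := H.inv_mem this
      simpa [mul_assoc] using h4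
    rw [QuotientGroup.eq]
    by_contra hne
    exact hg (aux H g x y (h3 _ hne) hx hy)

end Cfsg.Agent.S4253
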