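import Cfsg.Statements.S4261
import Mathlib
import Cfsg.Agent.H3.Solv

set_option autoImplicit false
open Cfsg

namespace Cfsg.Agent.S4261

/-- Let M be a maximal subgroup of a finite solvable group G such that x^[G : M] lies in M for every x in G. Then M is normal in G. -/
theorem result {G : Type*} [Group G] [Finite G] (hG : Group.IsSolvable G) (M : Subgroup G) (hM : IsCoatom M)
    (hexp : ∀ x : G, x ^ M.index ∈ M) : M.Normal := by
  classical
  obtain ⟨p, k, hp, hk, hidx⟩ := Cfsg.Agent.H3.exists_index_eq_prime_pow hG M hM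
  have := Fact.mk hp
  let K := Subgroup.closure {x : G | ¬ p ∣ orderOf x}
  have hKM : K ≤ M := by
    rw [Subgroup.closure_le]
    intro x hx
    have h1 := hexp x
    have hc : Nat.Coprime M.index (orderOf x) := by
      rw [hidx]
      exact Nat.Coprime.pow_left _ ((Nat.Prime.coprime_iff_not_dvd hp).mpr hx)
    obtain ⟨m, hm⟩ := exists_pow_eq_self_of_coprime hc
    rw [← hm]
    exact M.pow_mem h1 m
  have hKn : K.Normal := by
    have hcl : ∀ g : G, ∀ x ∈ {x : G | ¬ p ∣ orderOf x}, g * x * g⁻¹ ∈ {x : G | ¬ p ∣ orderOf x} := by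
      intro g x hx
      show ¬ p ∣ orderOf (g * x * g⁻¹)
      have : orderOf (g * x * g⁻¹) = orderOf x := by
        have := MulEquiv.orderOf_eq (MulAut.conj g) x
        simpa using this
      rw [this]; exact hx
    constructor
    intro n hn g
    have h1 : K ≤ K.comap (MulAut.conj g).toMonoidHom := by
      rw [Subgroup.closure_le]
      intro x hx
      exact Subgroup.subset_closure (hcl g x hx)
    exact h1 hn
  have hPG : IsPGroup p (G ⧸ K) := by
    intro q
    obtain ⟨x, rfl⟩ := QuotientGroup.mk_surjective q
    obtain ⟨a, u, hu, hau⟩ := Nat.exists_eq_pow_mul_and_not_dvd (orderOf_pos x).ne' p hp.ne_one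
    refine ⟨a, ?_⟩
    rw [← QuotientGroup.mk_pow, QuotientGroup.eq_one_iff]
    apply Subgroup.subset_closure
    show ¬ p ∣ orderOf (x ^ p ^ a)
    rw [orderOf_pow_of_dvd (pow_ne_zero _ hp.ne_zero) (hau ▸ dvd_mul_right _ _), hau,
      Nat.mul_div_cancel_left _ (pow_pos hp.pos _)]
    exact hu
  have hnil : Group.IsNilpotent (G ⧸ K) := hPG.isNilpotent
  have hcomap : (M.map (QuotientGroup.mk' K)).comap (QuotientGroup.mk' K) = M := by
    rw [Subgroup.comap_map_eq, QuotientGroup.ker_mk', sup_of_le_left hKM]
  have hco : IsCoatom (M.map (QuotientGroup.mk' K)) := by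
    constructor
    · intro h
      apply hM.1
      rw [← hcomap, h, Subgroup.comap_top]
    · intro L hL
      have h1 : M < L.comap (QuotientGroup.mk' K) := by
        rw [← hcomap]
        exact (Subgroup.comap_lt_comap_of_surjective (QuotientGroup.mk'_surjective K)).mpr hL
      have h2 := hM.2 _ h1
      rw [← Subgroup.map_comap_eq_self_of_surjective (QuotientGroup.mk'_surjective K) L, h2]
      exact Subgroup.map_top_of_surjective _ (QuotientGroup.mk'_surjective K)
  have hn := Subgroup.NormalizerCondition.normal_of_coatom (M.map (QuotientGroup.mk' K))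
    (Group.normalizerCondition_of_isNilpotent (h := hnil)) hco
  rw [← hcomap]
  exact hn.comap _

end Cfsg.Agent.S4261
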