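import Cfsg.Statements.S4263
import Cfsg.Agent.L0.Core
import Cfsg.Agent.H3.Basic

set_option autoImplicit false
open Cfsg

namespace Cfsg.Agent.S4263

/-- in a finite nilpotent group, `x ^ |N : K| ∈ K`. -/
theorem pow_index_mem_of_nilpotent {N : Type*} [Group N] [Finite N] (hN : Group.IsNilpotent N) (x : N) :
    ∀ n : ℕ, ∀ K : Subgroup N, K.index = n → x ^ n ∈ K := by
  intro n
  induction n using Nat.strong_induction_on with
  | _ n ih =>
    intro K hK
    by_cases htop : K = ⊤
    · subst htop; trivial
    · have hlt : K < (Subgroup.normalizer (K : Set N)) :=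
        (Group.normalizerCondition_of_isNilpotent (h := hN)) K (lt_top_iff_ne_top.mpr htop)
      have hmul := Subgroup.relIndex_mul_index hlt.le
      have hne : K.relIndex (Subgroup.normalizer (K : Set N)) ≠ 1 := by
        rw [Ne, Subgroup.relIndex_eq_one]
        exact not_le_of_gt hlt
      have h0 : K.relIndex (Subgroup.normalizer (K : Set N)) ≠ 0 := by
        exact Subgroup.index_ne_zero_of_finite
      have h1 : (Subgroup.normalizer (K : Set N)).index ≠ 0 := Subgroup.index_ne_zero_of_finite
      have hlt' : (Subgroup.normalizer (K : Set N)).index < n := by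
        rw [← hK, ← hmul]
        have : 1 < K.relIndex (Subgroup.normalizer (K : Set N)) := by omega
        nlinarith [Nat.pos_of_ne_zero h1]
      have hx := ih _ hlt' (Subgroup.normalizer (K : Set N)) rfl
      have : ((⟨x ^ (Subgroup.normalizer (K : Set N)).index, hx⟩ : (Subgroup.normalizer (K : Set N))) ^ (K.subgroupOf (Subgroup.normalizer (K : Set N))).index)
          ∈ K.subgroupOf (Subgroup.normalizer (K : Set N)) := Subgroup.pow_index_mem _ _
      rw [Subgroup.mem_subgroupOf] at this
      simp only [SubmonoidClass.coe_pow] at this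
      rw [← pow_mul] at this
      rw [← hK, ← hmul, mul_comm]
      exact this

theorem mem_of_forall_pow {G : Type*} [Group G] [Finite G] {p : ℕ} [Fact p.Prime] (y : G) (k : ℕ)
    (hy : orderOf y = p ^ k) (h : ∀ H : Subgroup G, y ^ H.index ∈ H) : y ∈ pCore p G := by
  have hP : ∀ P : Sylow p G, y ∈ (P : Subgroup G) := by
    intro P
    have h1 := h P
    have hc : Nat.Coprime (orderOf y) (P : Subgroup G).index := by
      rw [hy]
      exact Nat.Coprime.pow_left _ ((Nat.Prime.coprime_iff_not_dvd Fact.out).mpr P.not_dvd_index)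
    obtain ⟨m, hm⟩ := exists_pow_eq_self_of_coprime hc.symm
    rw [← hm]
    exact Subgroup.pow_mem _ h1 m
  obtain ⟨P⟩ : Nonempty (Sylow p G) := inferInstance
  have hle : (P : Subgroup G).normalCore ≤ pCore p G :=
    Cfsg.Agent.L0.le_pCore (P.2.to_le (Subgroup.normalCore_le _))
  apply hle
  intro g
  have := hP (g⁻¹ • P)
  rw [Sylow.coe_subgroup_smul, Subgroup.mem_pointwise_smul_iff_inv_smul_mem] at this
  simpa using this

/-- Let G be a finite group. An element x lies in the Fitting subgroup F(G) if and only if, for every subgroup H of G, the power x^[G : H] lies in H. -/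
theorem result {G : Type*} [Group G] [Finite G] (x : G) :
    x ∈ Cfsg.fittingSubgroup G ↔ ∀ H : Subgroup G, x ^ H.index ∈ H := by
  constructor
  · intro hx H
    have hn := Cfsg.Agent.L0.fittingSubgroup_isNilpotent G
    have h1 := pow_index_mem_of_nilpotent hn ⟨x, hx⟩ _ (H.subgroupOf (fittingSubgroup G)) rfl
    rw [Subgroup.mem_subgroupOf] at h1
    simp only [SubmonoidClass.coe_pow] at h1
    obtain ⟨c, hc⟩ : (H.subgroupOf (fittingSubgroup G)).index ∣ H.index := by
      exact Cfsg.Agent.H3.relIndex_dvd_index_of_normal_right H (fittingSubgroup G)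
    rw [hc, pow_mul]
    exact H.pow_mem h1 c
  · intro h
    have hN : (fittingSubgroup G).Normal := inferInstance
    rw [← QuotientGroup.eq_one_iff, ← orderOf_eq_one_iff]
    by_contra hne
    obtain ⟨q, hq, hqd⟩ := Nat.exists_prime_and_dvd hne
    have := Fact.mk hq
    have hx0 : orderOf x ≠ 0 := (orderOf_pos x).ne'
    have hy : x ^ (orderOf x / q ^ (orderOf x).factorization q) ∈ pCore q G := by
      apply mem_of_forall_pow (p := q) _ ((orderOf x).factorization q)
      · rw [orderOf_pow_of_dvd (Nat.pos_iff_ne_zero.mp (Nat.ordCompl_pos q hx0)) (Nat.ordCompl_dvd _ _)]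
        rw [Nat.div_div_self (Nat.ordProj_dvd _ _) hx0]
      · intro H
        rw [← pow_mul, mul_comm, pow_mul]
        exact H.pow_mem (h H) _
    have hy2 := Cfsg.Agent.L0.pCore_le_fittingSubgroup q G hy
    rw [← QuotientGroup.eq_one_iff, QuotientGroup.mk_pow, ← orderOf_dvd_iff_pow_eq_one] at hy2
    exact Nat.not_dvd_ordCompl hq hx0 (hqd.trans hy2)

end Cfsg.Agent.S4263
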