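import Cfsg.Statements.S4269
import Cfsg.Agent.L0.Coprime
import Mathlib

set_option autoImplicit false
open Cfsg

namespace Cfsg.Agent.S4269

open Pointwise Subgroup
open scoped commutatorElement

variable {G : Type*} [Group G]

theorem conj_eq_of (H : Subgroup G) {x y : G} (h : x⁻¹ * y ∈ Subgroup.normalizer (H : Set G)) :
    H.map (MulAut.conj y).toMonoidHom = H.map (MulAut.conj x).toMonoidHom := by
  have h1 : ∀ a ∈ H, (x⁻¹ * y) * a * (x⁻¹ * y)⁻¹ ∈ H := fun a ha => (Subgroup.mem_normalizer_iff.1 h a).1 ha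
  have h2 : ∀ a ∈ H, (x⁻¹ * y)⁻¹ * a * (x⁻¹ * y) ∈ H := fun a ha => by
    have := (Subgroup.mem_normalizer_iff.1 (inv_mem h) a).1 ha
    simpa using this
  ext z
  constructor
  · rintro ⟨a, ha, rfl⟩
    exact ⟨_, h1 a ha, by show x * ((x⁻¹ * y) * a * (x⁻¹ * y)⁻¹) * x⁻¹ = y * a * y⁻¹; group⟩
  · rintro ⟨a, ha, rfl⟩
    exact ⟨_, h2 a ha, by show y * ((x⁻¹ * y)⁻¹ * a * (x⁻¹ * y)) * y⁻¹ = x * a * x⁻¹; group⟩

theorem norm_of_conj_eq (H : Subgroup G) {x y : G} (h : H.map (MulAut.conj y).toMonoidHom = H.map (MulAut.conj x).toMonoidHom) :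
    x⁻¹ * y ∈ Subgroup.normalizer (H : Set G) := by
  rw [Subgroup.mem_normalizer_iff]
  intro a
  have h1 : a ∈ H ↔ y * a * y⁻¹ ∈ H.map (MulAut.conj y).toMonoidHom := by
    constructor
    · intro ha; exact ⟨a, ha, rfl⟩
    · rintro ⟨b, hb, hba⟩
      have : b = a := (MulAut.conj y).injective hba
      rw [← this]; exact hb
  rw [h1, h]
  constructor
  · rintro ⟨b, hb, hba⟩
    have h2 : x * b * x⁻¹ = y * a * y⁻¹ := hba
    have : x⁻¹ * y * a * (x⁻¹ * y)⁻¹ = b := by
      have : b = x⁻¹ * (x * b * x⁻¹) * x := by group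
      rw [this, h2]; group
    rw [this]; exact hb
  · intro ha
    exact ⟨_, ha, by show x * (x⁻¹ * y * a * (x⁻¹ * y)⁻¹) * x⁻¹ = _; group⟩

/-- Let G be a finite group, V an abelian normal subgroup and H a subgroup with HV = G. Then H is pronormal in G (H and gHg⁻¹ are conjugate inside the subgroup they generate, for every g) if and only if every H-invariant subgroup U of V satisfies U = N_U(H)·[H, U], that is, U is the join of U ∩ N_G(H) and the commutator subgroup [H, U]. -/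
theorem result {G : Type*} [Group G] [Finite G]
    (V : Subgroup G) [V.Normal] (hV : IsMulCommutative ↥V) (H : Subgroup G) (hHV : H ⊔ V = ⊤) :
    Cfsg.IsPronormal H ↔
      ∀ U : Subgroup G, U ≤ V → (∀ h ∈ H, U.map (MulAut.conj h).toMonoidHom = U) →
        U = (U ⊓ Subgroup.normalizer (H : Set G)) ⊔ ⁅H, U⁆ := by
  have hVn : V.Normal := inferInstance
  have hVc : ∀ a ∈ V, ∀ b ∈ V, a * b = b * a := fun a ha b hb => congrArg Subtype.val (hV.is_comm.comm ⟨a, ha⟩ ⟨b, hb⟩)
  constructor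
  · intro hpro U hUV hUH
    have hUn : H ≤ normalizer (U : Set G) := by
      intro h hh
      rw [Subgroup.mem_normalizer_iff]
      intro a
      have h1 := hUH h hh
      constructor
      · intro ha; rw [← h1]; exact ⟨a, ha, rfl⟩
      · intro ha
        rw [← h1] at ha
        obtain ⟨b, hb, hba⟩ := ha
        have : b = a := (MulAut.conj h).injective hba
        rw [← this]; exact hb
    have hHU : ⁅H, U⁆ ≤ U := Subgroup.le_normalizer_iff_commutator_le_right.1 hUn
    have hHn : H ≤ normalizer ((⁅H, U⁆ : Subgroup G) : Set G) := Subgroup.normalizer_commutator_ge_left H U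
    apply le_antisymm _ (sup_le inf_le_left hHU)
    intro u hu
    obtain ⟨x, hx, hux⟩ := hpro u
    have hle : H ⊔ H.map (MulAut.conj u).toMonoidHom ≤ ⁅H, U⁆ ⊔ H := by
      refine sup_le le_sup_right ?_
      rintro _ ⟨h, hh, rfl⟩
      have h1 : (MulAut.conj u).toMonoidHom h = h * ⁅h⁻¹, u⁆ := by
        show u * h * u⁻¹ = h * (h⁻¹ * u * h⁻¹⁻¹ * u⁻¹); group
      rw [h1]
      exact mul_mem (Subgroup.mem_sup_right hh) (Subgroup.mem_sup_left (Subgroup.commutator_mem_commutator (inv_mem hh) hu))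
    obtain ⟨w, hw, h, hh, rfl⟩ := (L0.mem_sup_of_normalizes hHn).1 (hle hx)
    have h2 : w⁻¹ * u ∈ normalizer (H : Set G) := by
      apply norm_of_conj_eq
      rw [hux]
      apply conj_eq_of
      rw [inv_mul_cancel_left]
      exact Subgroup.le_normalizer hh
    have h3 : u = w * (w⁻¹ * u) := by group
    rw [h3]
    exact mul_mem (Subgroup.mem_sup_right hw) (Subgroup.mem_sup_left (Subgroup.mem_inf.2 ⟨U.mul_mem (U.inv_mem (hHU hw)) hu, h2⟩))
  · intro hU g
    obtain ⟨v, hv, h, hh, rfl⟩ : ∃ v ∈ V, ∃ h ∈ H, g = v * h := by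
      have : g ∈ V ⊔ H := by rw [sup_comm, hHV]; exact mem_top g
      obtain ⟨v, hv, h, hh, hg⟩ := Subgroup.mem_sup_of_normal_left.1 this
      exact ⟨v, hv, h, hh, hg.symm⟩
    have hgv : H.map (MulAut.conj (v * h)).toMonoidHom = H.map (MulAut.conj v).toMonoidHom := by
      apply conj_eq_of
      rw [inv_mul_cancel_left]
      exact Subgroup.le_normalizer hh
    rw [hgv]
    let U : Subgroup G := Subgroup.closure {x | ∃ k ∈ H, k * v * k⁻¹ = x}
    have hUV : U ≤ V := by
      refine (Subgroup.closure_le _).2 ?_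
      rintro _ ⟨k, hk, rfl⟩
      exact hVn.conj_mem v hv k
    have hUle : ∀ k ∈ H, U.map (MulAut.conj k).toMonoidHom ≤ U := by
      intro k hk
      rw [MonoidHom.map_closure, Subgroup.closure_le]
      rintro _ ⟨_, ⟨l, hl, rfl⟩, rfl⟩
      exact Subgroup.subset_closure ⟨k * l, mul_mem hk hl, by show _ = k * (l * v * l⁻¹) * k⁻¹; group⟩
    have hUeq : ∀ k ∈ H, U.map (MulAut.conj k).toMonoidHom = U := by
      intro k hk
      apply le_antisymm (hUle k hk)
      intro u hu
      have := hUle k⁻¹ (inv_mem hk) ⟨u, hu, rfl⟩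
      exact ⟨_, this, by show k * (k⁻¹ * u * k⁻¹⁻¹) * k⁻¹ = u; group⟩
    have hvU : v ∈ U := Subgroup.subset_closure ⟨1, one_mem _, by group⟩
    have hkey : ∀ u ∈ U, u ∈ V ∧ ∀ k ∈ H, ⁅k, u⁆ ∈ H ⊔ H.map (MulAut.conj v).toMonoidHom := by
      intro u hu
      induction hu using Subgroup.closure_induction with
      | mem x hx =>
        obtain ⟨l, hl, rfl⟩ := hx
        refine ⟨hVn.conj_mem v hv l, fun k hk => ?_⟩
        have h1 : ⁅k, l * v * l⁻¹⁆ = (k * l) * (v * (l⁻¹ * k⁻¹ * l) * v⁻¹) * l⁻¹ := by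
          rw [commutatorElement_def]; group
        rw [h1]
        refine mul_mem (mul_mem (Subgroup.mem_sup_left (mul_mem hk hl)) (Subgroup.mem_sup_right ?_)) (Subgroup.mem_sup_left (inv_mem hl))
        exact ⟨l⁻¹ * k⁻¹ * l, mul_mem (mul_mem (inv_mem hl) (inv_mem hk)) hl, rfl⟩
      | one =>
        refine ⟨one_mem _, fun k hk => ?_⟩
        rw [commutatorElement_one_right]; exact one_mem _
      | mul x y _ _ ihx ihy =>
        refine ⟨mul_mem ihx.1 ihy.1, fun k hk => ?_⟩
        have h1 : ⁅k, x * y⁆ = ⁅k, x⁆ * (x * ⁅k, y⁆ * x⁻¹) := by simp only [commutatorElement_def]; group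
        have h2 : ⁅k, y⁆ ∈ V := by
          rw [commutatorElement_def]; exact mul_mem (hVn.conj_mem y ihy.1 k) (inv_mem ihy.1)
        have h3 : x * ⁅k, y⁆ * x⁻¹ = ⁅k, y⁆ := by rw [hVc x ihx.1 _ h2, mul_inv_cancel_right]
        rw [h1, h3]
        exact mul_mem (ihx.2 k hk) (ihy.2 k hk)
      | inv x _ ih =>
        refine ⟨inv_mem ih.1, fun k hk => ?_⟩
        have h1 : ⁅k, x⁻¹⁆ = x⁻¹ * ⁅k, x⁆⁻¹ * x := by simp only [commutatorElement_def]; group
        have h2 : ⁅k, x⁆ ∈ V := by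
          rw [commutatorElement_def]; exact mul_mem (hVn.conj_mem x ih.1 k) (inv_mem ih.1)
        have h3 : x⁻¹ * ⁅k, x⁆⁻¹ * x = ⁅k, x⁆⁻¹ := by
          rw [hVc _ (inv_mem ih.1) _ (inv_mem h2), inv_mul_cancel_right]
        rw [h1, h3]
        exact inv_mem (ih.2 k hk)
    have hHU : ⁅H, U⁆ ≤ H ⊔ H.map (MulAut.conj v).toMonoidHom := by
      rw [Subgroup.commutator_le]
      intro k hk u hu
      exact (hkey u hu).2 k hk
    have hHUV : ⁅H, U⁆ ≤ V := by
      rw [Subgroup.commutator_le]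
      intro k hk u hu
      rw [commutatorElement_def]; exact mul_mem (hVn.conj_mem u (hUV hu) k) (inv_mem (hUV hu))
    have h4 := hU U hUV hUeq
    have h5 : v ∈ ⁅H, U⁆ ⊔ (U ⊓ normalizer (H : Set G)) := by rw [sup_comm, ← h4]; exact hvU
    have h6 : U ⊓ normalizer (H : Set G) ≤ normalizer ((⁅H, U⁆ : Subgroup G) : Set G) := by
      intro a ha
      rw [Subgroup.mem_normalizer_iff]
      have haV := hUV ha.1
      intro b
      constructor
      · intro hb
        rw [hVc a haV b (hHUV hb), mul_inv_cancel_right]; exact hb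
      · intro hb
        have h7 : b = a⁻¹ * (a * b * a⁻¹) * a := by group
        rw [h7, hVc a⁻¹ (inv_mem haV) _ (hHUV hb), inv_mul_cancel_right]; exact hb
    obtain ⟨w, hw, n, hn, hwn⟩ := (L0.mem_sup_of_normalizes h6).1 h5
    refine ⟨w, hHU hw, ?_⟩
    apply conj_eq_of
    have : w⁻¹ * v = n := by rw [← hwn]; group
    rw [this]; exact hn.2

end Cfsg.Agent.S4269
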