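import Cfsg.Statements.S4331
import Mathlib
import Cfsg.Agent.S0144
import Cfsg.Agent.S0064

set_option autoImplicit false
open Cfsg

namespace Cfsg.Agent.S4331

@[ext] structure AG where
  x : ZMod 3
  y : ZMod 3
  a : ZMod 3
  b : ZMod 3
  c : ZMod 3
  d : ZMod 3
  h1 : a * a + b * b = c * c + d * d
  h2 : a * c + b * d = 0
  h3 : a * a + b * b ≠ 0

theorem tr_facts : ∀ a b c d : ZMod 3, (a * a + b * b = c * c + d * d ∧ a * c + b * d = 0 ∧ a * a + b * b ≠ 0) →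
    (a * a + c * c = b * b + d * d ∧ a * b + c * d = 0 ∧ a * a + c * c = a * a + b * b ∧ (a * a + b * b) * (a * a + b * b) = 1) := by
  decide +kernel

def AG.mul (g h : AG) : AG where
  x := g.x + g.a * h.x + g.b * h.y
  y := g.y + g.c * h.x + g.d * h.y
  a := g.a * h.a + g.b * h.c
  b := g.a * h.b + g.b * h.d
  c := g.c * h.a + g.d * h.c
  d := g.c * h.b + g.d * h.d
  h1 := by
    linear_combination (h.a * h.a + h.b * h.b) * g.h1 - (g.b * g.b - g.d * g.d) * h.h1 + 2 * (g.a * g.b - g.c * g.d) * h.h2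
  h2 := by
    linear_combination (h.a * h.a + h.b * h.b) * g.h2 - g.b * g.d * h.h1 + (g.a * g.d + g.b * g.c) * h.h2
  h3 := by
    have : (g.a * h.a + g.b * h.c) * (g.a * h.a + g.b * h.c) + (g.a * h.b + g.b * h.d) * (g.a * h.b + g.b * h.d) = (g.a * g.a + g.b * g.b) * (h.a * h.a + h.b * h.b) := by
      linear_combination - g.b * g.b * h.h1 + 2 * g.a * g.b * h.h2
    rw [this]
    haveI : Fact (Nat.Prime 3) := ⟨Nat.prime_three⟩
    exact mul_ne_zero g.h3 h.h3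

def AG.iv (g : AG) : AG where
  x := -((g.a * g.a + g.b * g.b) * (g.a * g.x + g.c * g.y))
  y := -((g.a * g.a + g.b * g.b) * (g.b * g.x + g.d * g.y))
  a := (g.a * g.a + g.b * g.b) * g.a
  b := (g.a * g.a + g.b * g.b) * g.c
  c := (g.a * g.a + g.b * g.b) * g.b
  d := (g.a * g.a + g.b * g.b) * g.d
  h1 := by
    obtain ⟨e1, e2, e3, e4⟩ := tr_facts g.a g.b g.c g.d ⟨g.h1, g.h2, g.h3⟩
    linear_combination (g.a * g.a + g.b * g.b) * (g.a * g.a + g.b * g.b) * e1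
  h2 := by
    obtain ⟨e1, e2, e3, e4⟩ := tr_facts g.a g.b g.c g.d ⟨g.h1, g.h2, g.h3⟩
    linear_combination (g.a * g.a + g.b * g.b) * (g.a * g.a + g.b * g.b) * e2
  h3 := by
    obtain ⟨e1, e2, e3, e4⟩ := tr_facts g.a g.b g.c g.d ⟨g.h1, g.h2, g.h3⟩
    have : (g.a * g.a + g.b * g.b) * g.a * ((g.a * g.a + g.b * g.b) * g.a) + (g.a * g.a + g.b * g.b) * g.c * ((g.a * g.a + g.b * g.b) * g.c) = g.a * g.a + g.b * g.b := by
      linear_combination (g.a * g.a + g.c * g.c) * e4 + e3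
    rw [this]
    exact g.h3

instance : Mul AG := ⟨AG.mul⟩
instance : Inv AG := ⟨AG.iv⟩
instance : One AG := ⟨⟨0, 0, 1, 0, 0, 1, by decide, by decide, by decide⟩⟩

theorem AG.mul_def (g h : AG) : g * h = AG.mul g h := rfl

instance : Group AG := Group.ofLeftAxioms
  (fun g h k => by
    refine AG.ext ?_ ?_ ?_ ?_ ?_ ?_ <;> simp only [AG.mul_def, AG.mul] <;> ring)
  (fun g => by
    have e1 : (1 : AG).x = 0 := rfl
    have e2 : (1 : AG).y = 0 := rfl
    have e3 : (1 : AG).a = 1 := rfl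
    have e4 : (1 : AG).b = 0 := rfl
    have e5 : (1 : AG).c = 0 := rfl
    have e6 : (1 : AG).d = 1 := rfl
    refine AG.ext ?_ ?_ ?_ ?_ ?_ ?_ <;> simp only [AG.mul_def, AG.mul, e1, e2, e3, e4, e5, e6] <;> ring)
  (fun g => by
    obtain ⟨f1, f2, f3, f4⟩ := tr_facts g.a g.b g.c g.d ⟨g.h1, g.h2, g.h3⟩
    have e1 : (1 : AG).x = 0 := rfl
    have e2 : (1 : AG).y = 0 := rfl
    have e3 : (1 : AG).a = 1 := rfl
    have e4 : (1 : AG).b = 0 := rfl
    have e5 : (1 : AG).c = 0 := rfl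
    have e6 : (1 : AG).d = 1 := rfl
    have i1 : ∀ g : AG, g⁻¹ = AG.iv g := fun _ => rfl
    refine AG.ext ?_ ?_ ?_ ?_ ?_ ?_ <;> simp only [AG.mul_def, i1, AG.mul, AG.iv, e1, e2, e3, e4, e5, e6]
    · ring
    · ring
    · linear_combination (g.a * g.a + g.b * g.b) * f3 + f4
    · linear_combination (g.a * g.a + g.b * g.b) * f2
    · linear_combination (g.a * g.a + g.b * g.b) * f2
    · linear_combination (g.a * g.a + g.b * g.b) * (f3 - f1) + f4)

def AG.eqv : AG ≃ {t : ZMod 3 × ZMod 3 × ZMod 3 × ZMod 3 × ZMod 3 × ZMod 3 //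
    t.2.2.1 * t.2.2.1 + t.2.2.2.1 * t.2.2.2.1 = t.2.2.2.2.1 * t.2.2.2.2.1 + t.2.2.2.2.2 * t.2.2.2.2.2 ∧
    t.2.2.1 * t.2.2.2.2.1 + t.2.2.2.1 * t.2.2.2.2.2 = 0 ∧ t.2.2.1 * t.2.2.1 + t.2.2.2.1 * t.2.2.2.1 ≠ 0} where
  toFun g := ⟨(g.x, g.y, g.a, g.b, g.c, g.d), g.h1, g.h2, g.h3⟩
  invFun t := ⟨t.1.1, t.1.2.1, t.1.2.2.1, t.1.2.2.2.1, t.1.2.2.2.2.1, t.1.2.2.2.2.2, t.2.1, t.2.2.1, t.2.2.2⟩
  left_inv g := rfl
  right_inv t := rfl

instance : Finite AG := Finite.of_equiv _ AG.eqv.symm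

theorem card_AG : Nat.card AG = 2 ^ 4 * 3 ^ 2 := by
  rw [Nat.card_congr AG.eqv, Nat.card_eq_fintype_card, Fintype.card_subtype]
  decide +kernel

def tt : AG := ⟨0, 0, 1, 0, 0, -1, by decide, by decide, by decide⟩

theorem key1 : ∀ a b c d : ZMod 3, (a * a + b * b = c * c + d * d ∧ a * c + b * d = 0 ∧ a * a + b * b ≠ 0) → ∀ x y : ZMod 3,
    (∃ p q, p = x + a * p + b * q ∧ q = y + c * p + d * q) ∨
    (∃ a' b' c' : ZMod 3, (a' * a' + b' * c' = 1 ∧ a' * a' + b' * b' = c' * c' + a' * a' ∧ a' * c' = b' * a' ∧ a' * a' + b' * b' ≠ 0) ∧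
      (a * a' + b * c' = a' * a + b' * c ∧ a * b' + b * (-a') = a' * b + b' * d ∧ c * a' + d * c' = c' * a + -a' * c ∧ c * b' + d * (-a') = c' * b + -a' * d) ∧
      ∃ x' y' : ZMod 3, (x' + a' * x' + b' * y' = 0 ∧ y' + c' * x' + -a' * y' = 0) ∧
        x + a * x' + b * y' = x' + a' * x + b' * y ∧ y + c * x' + d * y' = y' + c' * x + -a' * y) := by
  decide +kernel

theorem key2 : ∀ a' b' c' : ZMod 3, (a' * a' + b' * c' = 1 ∧ a' * a' + b' * b' = c' * c' + a' * a' ∧ a' * c' = b' * a' ∧ a' * a' + b' * b' ≠ 0) →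
    ∀ x' y' : ZMod 3, (x' + a' * x' + b' * y' = 0 ∧ y' + c' * x' + -a' * y' = 0) →
    ∃ p q r s : ZMod 3, (p * p + q * q = r * r + s * s ∧ p * r + q * s = 0 ∧ p * p + q * q ≠ 0) ∧
      (p * a' + q * c' = p ∧ p * b' + q * (-a') = q ∧ r * a' + s * c' = -r ∧ r * b' + s * (-a') = -s) ∧
      ∃ u v : ZMod 3, u + p * x' + q * y' = u ∧ v + r * x' + s * y' = -v := by
  decide +kernel

theorem AG.inv_def (g : AG) : g⁻¹ = AG.iv g := rfl

theorem conj_key (c : AG) : ∃ h : AG, (h * c * h⁻¹ * tt = tt * (h * c * h⁻¹)) ∨ ((h * c * h⁻¹).x = 0 ∧ (h * c * h⁻¹).y = 0) := by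
  rcases key1 c.a c.b c.c c.d ⟨c.h1, c.h2, c.h3⟩ c.x c.y with ⟨p, q, hp, hq⟩ | ⟨a', b', c', ⟨k1, k2, k3, k4⟩, ⟨m1, m2, m3, m4⟩, x', y', ⟨s1, s2⟩, w1, w2⟩
  · refine ⟨⟨-p, -q, 1, 0, 0, 1, by decide, by decide, by decide⟩, Or.inr ⟨?_, ?_⟩⟩
    · simp only [AG.mul_def, AG.inv_def, AG.mul, AG.iv]
      linear_combination -hp
    · simp only [AG.mul_def, AG.inv_def, AG.mul, AG.iv]
      linear_combination -hq
  · obtain ⟨t', ht'⟩ : ∃ t' : AG, t' = ⟨x', y', a', b', c', -a', by linear_combination k2, by linear_combination k3, k4⟩ := ⟨_, rfl⟩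
    have hct : c * t' = t' * c := by
      rw [ht']
      refine AG.ext ?_ ?_ ?_ ?_ ?_ ?_ <;> simp only [AG.mul_def, AG.mul]
      · exact w1
      · exact w2
      · exact m1
      · exact m2
      · exact m3
      · exact m4
    obtain ⟨p, q, r, s, ⟨c1, c2, c3⟩, ⟨n1, n2, n3, n4⟩, u, v, z1, z2⟩ := key2 a' b' c' ⟨k1, k2, k3, k4⟩ x' y' ⟨s1, s2⟩
    obtain ⟨h, hh⟩ : ∃ h : AG, h = ⟨u, v, p, q, r, s, c1, c2, c3⟩ := ⟨_, rfl⟩
    have hht : h * t' = tt * h := by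
      rw [ht', hh]
      refine AG.ext ?_ ?_ ?_ ?_ ?_ ?_ <;> simp only [AG.mul_def, AG.mul, tt]
      · linear_combination z1
      · linear_combination z2
      · linear_combination n1
      · linear_combination n2
      · linear_combination n3
      · linear_combination n4
    refine ⟨h, Or.inl ?_⟩
    have h1 : tt = h * t' * h⁻¹ := by rw [hht]; group
    rw [h1]
    calc h * c * h⁻¹ * (h * t' * h⁻¹) = h * (c * t') * h⁻¹ := by group
      _ = h * (t' * c) * h⁻¹ := by rw [hct]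
      _ = h * t' * h⁻¹ * (h * c * h⁻¹) := by group

def KK : Subgroup AG where
  carrier := {g | g.x = 0 ∧ g.y = 0}
  one_mem' := ⟨rfl, rfl⟩
  mul_mem' := fun {g h} hg hh => by
    constructor
    · show g.x + g.a * h.x + g.b * h.y = 0
      rw [hg.1, hh.1, hh.2]; ring
    · show g.y + g.c * h.x + g.d * h.y = 0
      rw [hg.2, hh.1, hh.2]; ring
  inv_mem' := fun {g} hg => by
    constructor
    · show -((g.a * g.a + g.b * g.b) * (g.a * g.x + g.c * g.y)) = 0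
      rw [hg.1, hg.2]; ring
    · show -((g.a * g.a + g.b * g.b) * (g.b * g.x + g.d * g.y)) = 0
      rw [hg.1, hg.2]; ring

def sqv (t : ZMod 3 × ZMod 3 × ZMod 3 × ZMod 3) : ZMod 3 × ZMod 3 × ZMod 3 × ZMod 3 :=
  (t.1 * t.1 + t.2.1 * t.2.2.1, t.1 * t.2.1 + t.2.1 * t.2.2.2, t.2.2.1 * t.1 + t.2.2.2 * t.2.2.1, t.2.2.1 * t.2.1 + t.2.2.2 * t.2.2.2)

theorem sqfacts : ∀ a b c d : ZMod 3, (a * a + b * b = c * c + d * d ∧ a * c + b * d = 0 ∧ a * a + b * b ≠ 0) →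
    sqv (sqv (sqv (a, b, c, d))) = (1, 0, 0, 1) := by
  decide +kernel

theorem KK_p : IsPGroup 2 KK := by
  rintro ⟨g, hg⟩
  refine ⟨3, ?_⟩
  apply Subtype.ext
  show g ^ 8 = 1
  have f := sqfacts g.a g.b g.c g.d ⟨g.h1, g.h2, g.h3⟩
  have f1 := congrArg (fun t => t.1) f
  have f2 := congrArg (fun t => t.2.1) f
  have f3 := congrArg (fun t => t.2.2.1) f
  have f4 := congrArg (fun t => t.2.2.2) f
  have e : g ^ 8 = (g * g) * (g * g) * ((g * g) * (g * g)) := by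
    simp only [pow_succ, pow_zero, one_mul, mul_assoc]
  rw [e]
  have h8 : (g * g) * (g * g) * ((g * g) * (g * g)) ∈ KK := KK.mul_mem (KK.mul_mem (KK.mul_mem hg hg) (KK.mul_mem hg hg)) (KK.mul_mem (KK.mul_mem hg hg) (KK.mul_mem hg hg))
  refine AG.ext h8.1 h8.2 ?_ ?_ ?_ ?_
  · exact f1
  · exact f2
  · exact f3
  · exact f4

/-- There is a finite solvable group G with a subgroup A of order 2 such that every conjugacy class of G contains an element g for which A is subnormal in the subgroup generated by A and g, and yet A is not contained in O_2(G). (So the corresponding criteria for odd primes fail at the prime 2, even for solvable groups.) -/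
theorem result :
    ∃ (G : Type) (_ : Group G) (_ : Finite G) (A : Subgroup G), Group.IsSolvable G ∧ Nat.card A = 2 ∧
      (∀ c : G, ∃ g : G, IsConj c g ∧ (A.subgroupOf (A ⊔ Subgroup.zpowers g)).IsSubnormal) ∧
      ¬ A ≤ Cfsg.pCore 2 G := by
  refine ⟨AG, inferInstance, inferInstance, Subgroup.zpowers tt, ?_, ?_, ?_, ?_⟩
  · exact Cfsg.Agent.S0144.result 2 3 4 2 Nat.prime_two Nat.prime_three card_AG
  · rw [Nat.card_zpowers]
    refine orderOf_eq_prime ?_ ?_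
    · rw [pow_two]
      refine AG.ext ?_ ?_ ?_ ?_ ?_ ?_ <;> decide
    · intro h
      have := congrArg AG.d h
      exact absurd this (by decide)
  · intro c
    obtain ⟨h, hh⟩ := conj_key c
    refine ⟨h * c * h⁻¹, isConj_iff.2 ⟨h, rfl⟩, ?_⟩
    obtain ⟨g, hg⟩ : ∃ g, g = h * c * h⁻¹ := ⟨_, rfl⟩
    rw [← hg] at hh ⊢
    rcases hh with hh | hh
    · apply Subgroup.Normal.isSubnormal
      rw [Subgroup.normal_subgroupOf_iff_le_normalizer le_sup_left]
      refine sup_le Subgroup.le_normalizer ?_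
      rw [Subgroup.zpowers_le]
      have h1 : g ∈ Subgroup.centralizer (Subgroup.zpowers tt : Set AG) := by
        rw [Subgroup.mem_centralizer_iff]
        rintro _ ⟨k, rfl⟩
        exact (Commute.zpow_right (show Commute g tt from hh) k).symm
      exact Subgroup.centralizer_le_normalizer _ h1
    · have h1 : Subgroup.zpowers tt ⊔ Subgroup.zpowers g ≤ KK := by
        refine sup_le ?_ ?_
        · rw [Subgroup.zpowers_le]; exact ⟨rfl, rfl⟩
        · rw [Subgroup.zpowers_le]; exact hh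
      haveI : Fact (Nat.Prime 2) := ⟨Nat.prime_two⟩
      have h2 : IsPGroup 2 (Subgroup.zpowers tt ⊔ Subgroup.zpowers g : Subgroup AG) := KK_p.to_le h1
      exact Cfsg.Agent.S0064.result.1 h2.isNilpotent _
  · intro hle
    haveI : Fact (Nat.Prime 2) := ⟨Nat.prime_two⟩
    have h1 : tt ∈ Cfsg.pCore 2 AG := hle (Subgroup.mem_zpowers tt)
    obtain ⟨u, hu⟩ : ∃ u : AG, u = ⟨0, 1, 1, 0, 0, 1, by decide, by decide, by decide⟩ := ⟨_, rfl⟩
    have hn : (Cfsg.pCore 2 AG).Normal := inferInstance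
    have h2 : tt * (u * tt⁻¹ * u⁻¹) ∈ Cfsg.pCore 2 AG := (Cfsg.pCore 2 AG).mul_mem h1 (hn.conj_mem _ ((Cfsg.pCore 2 AG).inv_mem h1) u)
    obtain ⟨k, hk⟩ := Cfsg.Agent.L0.pCore_isPGroup 2 AG ⟨_, h2⟩
    have hk' : (tt * (u * tt⁻¹ * u⁻¹)) ^ (2 ^ k) = 1 := congrArg Subtype.val hk
    have h3 : orderOf (tt * (u * tt⁻¹ * u⁻¹)) = 3 := by
      haveI : Fact (Nat.Prime 3) := ⟨Nat.prime_three⟩
      refine orderOf_eq_prime ?_ ?_
      · rw [pow_three, hu]
        refine AG.ext ?_ ?_ ?_ ?_ ?_ ?_ <;> decide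
      · rw [hu]
        intro h
        have := congrArg AG.y h
        exact absurd this (by decide)
    have h4 := orderOf_dvd_of_pow_eq_one hk'
    rw [h3] at h4
    have h5 := Nat.prime_three.dvd_of_dvd_pow h4
    norm_num at h5

end Cfsg.Agent.S4331
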