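import Cfsg.Statements.S4337
import Mathlib
import Cfsg.Agent.H3.SwapOrb
import Cfsg.Agent.H4.Burnside

set_option autoImplicit false
open Cfsg

namespace Cfsg.Agent.S4337

/-- In a finite symmetric group, any three transpositions generate a solvable subgroup. -/
theorem result (n : ℕ) (a b c : Equiv.Perm (Fin n))
    (ha : a.IsSwap) (hb : b.IsSwap) (hc : c.IsSwap) :
    Group.IsSolvable (Subgroup.closure ({a, b, c} : Set (Equiv.Perm (Fin n)))) := by
  have hrange : ({a, b, c} : Set (Equiv.Perm (Fin n))) = Set.range ![a, b, c] := by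
    ext x
    simp only [Set.mem_insert_iff, Set.mem_singleton_iff, Set.mem_range]
    constructor
    · rintro (rfl | rfl | rfl)
      · exact ⟨0, rfl⟩
      · exact ⟨1, rfl⟩
      · exact ⟨2, rfl⟩
    · rintro ⟨i, rfl⟩
      fin_cases i <;> simp
  rw [hrange]
  have ht : ∀ i, (![a, b, c] i).IsSwap := by
    intro i
    fin_cases i
    · exact ha
    · exact hb
    · exact hc
  obtain ⟨i, j, hij⟩ := Cfsg.Agent.H3.eq_two_pow_mul_three_pow
    (Nat.card (Subgroup.closure (Set.range ![a, b, c]))) Nat.card_pos.ne' (by
      intro q hq hqd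
      have h1 := Cfsg.Agent.H3.prime_le_of_swaps 3 ![a, b, c] ht hq hqd
      interval_cases q
      · exact absurd hq (by norm_num)
      · exact absurd hq (by norm_num)
      · left; rfl
      · right; rfl
      · exact absurd hq (by norm_num))
  exact Cfsg.Agent.H4.burnside_paqb_aux _ _ 2 3 i j (by norm_num) (by norm_num) hij rfl

end Cfsg.Agent.S4337
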