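import Cfsg.Statements.S4344
import Mathlib
import Cfsg.Agent.H3.Basic

set_option autoImplicit false
open Cfsg

namespace Cfsg.Agent.S4344

/-- Let S be a finite non-abelian simple group, M a maximal subgroup of S and C a cyclic normal subgroup of M. If a Sylow p-subgroup P of S (for a prime p dividing the order of S) is contained in C, then the number of Sylow p-subgroups of S equals the index of M. -/
theorem result {S : Type*} [Group S] [Finite S]
    [IsSimpleGroup S] (hS : ¬ IsMulCommutative S) (p : ℕ) [Fact p.Prime] (hp : p ∣ Nat.card S)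
    (M : Subgroup S) (hM : IsCoatom M) (C : Subgroup S) (hCM : C ≤ M) (hCn : (C.subgroupOf M).Normal)
    (hC : IsCyclic C) (P : Sylow p S) (hP : (P : Subgroup S) ≤ C) :
    Nat.card (Sylow p S) = M.index := by
  classical
  rw [Sylow.card_eq_index_normalizer P]
  congr 1
  have hPne : (P : Subgroup S) ≠ ⊥ := by
    intro h
    have := P.dvd_card_of_dvd_card hp
    rw [h, Subgroup.card_bot] at this
    exact (Fact.out : p.Prime).one_lt.ne' (Nat.dvd_one.mp this)
  have hle : M ≤ Subgroup.normalizer (P : Set S) := by
    -- conjugation by m ∈ M preserves C, hence P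
    intro m hm
    show m ∈ Subgroup.normalizer ((P : Subgroup S) : Set S)
    rw [Subgroup.mem_normalizer_iff]
    have key : ∀ m ∈ M, ∀ h ∈ (P : Subgroup S), m * h * m⁻¹ ∈ (P : Subgroup S) := by
      intro m hm h hh
      have hCc : m * h * m⁻¹ ∈ C := by
        have := hCn.conj_mem ⟨h, hCM (hP hh)⟩ (hP hh) ⟨m, hm⟩
        exact this
      -- an element of C of p-power order is in P
      have hc : ∀ c : C, (∃ k : ℕ, orderOf c = p ^ k) → (c : S) ∈ (P : Subgroup S) := by
        intro c hc
        have : c ∈ ((P.subtype hP : Sylow p C) : Subgroup C) := by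
          apply Cfsg.Agent.H3.mem_sylow_of_central _ hc
          have : IsMulCommutative C := hC.isMulCommutative
          rw [Subgroup.mem_center_iff]
          intro g
          exact mul_comm' g c
        exact this
      obtain ⟨k, hk⟩ := Cfsg.Agent.H3.orderOf_pow_of_mem_sylow P hh
      apply hc ⟨_, hCc⟩
      refine ⟨k, ?_⟩
      rw [Subgroup.orderOf_mk, ← hk]
      have := MulEquiv.orderOf_eq (MulAut.conj m) h
      simpa using this
    intro h
    refine ⟨fun hh => key m hm h hh, fun hh => ?_⟩
    have := key m⁻¹ (M.inv_mem hm) _ hh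
    have e : m⁻¹ * (m * h * m⁻¹) * m⁻¹⁻¹ = h := by group
    rw [e] at this
    exact this
  rcases hM.le_iff.mp hle with h | h
  · exfalso
    have hn : (P : Subgroup S).Normal := Subgroup.normalizer_eq_top_iff.mp h
    rcases hn.eq_bot_or_eq_top with h1 | h1
    · exact hPne h1
    · have hCtop : C = ⊤ := by rw [← top_le_iff, ← h1]; exact hP
      exact hM.1 (by rw [← top_le_iff, ← hCtop]; exact hCM)
  · exact h

end Cfsg.Agent.S4344
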