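import Cfsg.Statements.S4354
import Mathlib
import Cfsg.Agent.H3.Basic

set_option autoImplicit false
open Cfsg

namespace Cfsg.Agent.S4354

open scoped Pointwise

theorem exists_sylow_le_of_index {G : Type*} [Group G] [Finite G] {p : ℕ} [Fact p.Prime] (H : Subgroup G)
    (hp : ¬ p ∣ H.index) : ∃ Q : Sylow p G, (Q : Subgroup G) ≤ H := by
  obtain ⟨Q0⟩ : Nonempty (Sylow p H) := inferInstance
  have hpg : IsPGroup p ((Q0 : Subgroup H).map H.subtype) := Q0.isPGroup'.map _
  obtain ⟨Q, hQ⟩ := hpg.exists_le_sylow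
  refine ⟨Q, ?_⟩
  have hc : Nat.card (Q : Subgroup G) = Nat.card ((Q0 : Subgroup H).map H.subtype) := by
    rw [Subgroup.card_map_of_injective H.subtype_injective, Sylow.card_eq_multiplicity, Sylow.card_eq_multiplicity,
      ← Subgroup.card_mul_index H, Nat.factorization_mul Nat.card_pos.ne' H.index_ne_zero_of_finite]
    simp [Nat.factorization_eq_zero_of_not_dvd hp]
  have : (Q : Subgroup G) = (Q0 : Subgroup H).map H.subtype :=
    (Subgroup.eq_of_le_of_card_ge hQ hc.le).symm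
  rw [this]
  exact Subgroup.map_subtype_le _

theorem mem_of_centralizes {G : Type*} [Group G] [Finite G] {p : ℕ} [Fact p.Prime] (P : Sylow p G) {y : G}
    (ho : ∃ k : ℕ, orderOf y = p ^ k) (hy : ∀ u ∈ (P : Subgroup G), y * u = u * y) : y ∈ (P : Subgroup G) := by
  obtain ⟨kx, ho⟩ := ho
  have hpg : IsPGroup p (Subgroup.zpowers y) := IsPGroup.of_card (n := kx) (by rw [Nat.card_zpowers, ho])
  have h3 : Subgroup.zpowers y ⊓ Subgroup.normalizer ((P : Subgroup G) : Set G) =
    Subgroup.zpowers y ⊓ (P : Subgroup G) := hpg.inf_normalizer_sylow P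
  have h4 : y ∈ Subgroup.zpowers y ⊓ Subgroup.normalizer ((P : Subgroup G) : Set G) := by
    refine ⟨Subgroup.mem_zpowers _, Subgroup.mem_normalizer_iff.mpr ?_⟩
    intro u
    constructor
    · intro hu
      rw [hy u hu]; simpa using hu
    · intro hu
      have h5 := hy _ hu
      have h6 : u = y⁻¹ * ((y * u * y⁻¹) * y) := by group
      rw [h6, ← h5]
      simpa using hu
  rw [h3] at h4
  exact h4.2

/-- the normalizer of the image of a Sylow subgroup is the image of the normalizer -/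
theorem lift_normalizer {G : Type*} [Group G] [Finite G] {p : ℕ} [Fact p.Prime] (P : Sylow p G)
    (N : Subgroup G) [N.Normal] (n : G)
    (hn : (n : G ⧸ N) ∈ Subgroup.normalizer (((P : Subgroup G).map (QuotientGroup.mk' N) : Subgroup (G ⧸ N)) : Set (G ⧸ N))) :
    ∃ s ∈ Subgroup.normalizer ((P : Subgroup G) : Set G), (s : G ⧸ N) = n := by
  set K : Subgroup G := (P : Subgroup G) ⊔ N with hK
  have hKc : K = ((P : Subgroup G).map (QuotientGroup.mk' N)).comap (QuotientGroup.mk' N) := by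
    rw [Subgroup.comap_map_eq, QuotientGroup.ker_mk']
  have h1 : (P : Subgroup G) ≤ K := le_sup_left
  have h2 : ((n • P : Sylow p G) : Subgroup G) ≤ K := by
    intro y hy
    rw [H3.mem_smul_sylow_iff] at hy
    rw [hKc, Subgroup.mem_comap]
    have h3 : (QuotientGroup.mk' N) (n⁻¹ * y * n) ∈ (P : Subgroup G).map (QuotientGroup.mk' N) :=
      Subgroup.mem_map_of_mem _ hy
    rw [Subgroup.mem_normalizer_iff] at hn
    have h4 := (hn ((QuotientGroup.mk' N) (n⁻¹ * y * n))).mp h3
    have h5 : (n : G ⧸ N) * (QuotientGroup.mk' N) (n⁻¹ * y * n) * (n : G ⧸ N)⁻¹ = (QuotientGroup.mk' N) y := by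
      simp only [QuotientGroup.mk'_apply, QuotientGroup.mk_mul, QuotientGroup.mk_inv]; group
    rwa [h5] at h4
  obtain ⟨k, hk⟩ := MulAction.exists_smul_eq K ((n • P).subtype h2) (P.subtype h1)
  have hk2 : ((k : G) * n) • P = P := by
    apply H3.sylow_eq_of_le
    intro y hy
    rw [mul_smul, H3.mem_smul_sylow_iff] at hy
    have hyK : y ∈ K := by
      have : (k : G)⁻¹ * y * k ∈ K := h2 hy
      have h6 : y = (k : G) * ((k : G)⁻¹ * y * k) * (k : G)⁻¹ := by group
      rw [h6]; exact mul_mem (mul_mem k.2 this) (inv_mem k.2)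
    have h7 : (⟨y, hyK⟩ : K) ∈ ((k • ((n • P).subtype h2) : Sylow p K) : Subgroup K) := by
      rw [H3.mem_smul_sylow_iff]
      exact hy
    rw [hk] at h7
    exact h7
  have hkK : (k : G) ∈ (P : Subgroup G) ⊔ N := k.2
  obtain ⟨u, hu, m, hm, hum⟩ := Subgroup.mem_sup_of_normal_right.mp hkK
  refine ⟨m * n, ?_, ?_⟩
  · have h8 : ((k : G) * n) ∈ Subgroup.normalizer ((P : Subgroup G) : Set G) := by
      exact Sylow.smul_eq_iff_mem_normalizer.mp hk2
    have h9 : m * n = u⁻¹ * ((k : G) * n) := by rw [← hum]; group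
    rw [h9]
    exact mul_mem (inv_mem (Subgroup.le_normalizer hu)) h8
  · rw [QuotientGroup.mk_mul, (QuotientGroup.eq_one_iff m).mpr hm, one_mul]

/-- If `N` is normal, `P ∩ N` and `PN/N` are abelian and every `p`-element has `p'`-index, `P` is abelian. -/
theorem comm_of_quotient {G : Type*} [Group G] [Finite G] {p : ℕ} [Fact p.Prime] (P : Sylow p G)
    (h : ∀ x ∈ (P : Subgroup G), ¬ p ∣ (Subgroup.centralizer ({x} : Set G)).index)
    (N : Subgroup G) [N.Normal]
    (hN : ∀ x ∈ (P : Subgroup G) ⊓ N, ∀ y ∈ (P : Subgroup G) ⊓ N, x * y = y * x)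
    (hQ : ∀ P' : Sylow p (G ⧸ N), IsMulCommutative P') : ∀ x ∈ (P : Subgroup G), ∀ y ∈ (P : Subgroup G), x * y = y * x := by
  -- every x in P is z * n with z central in P, n in P ∩ N
  have key : ∀ x ∈ (P : Subgroup G), ∃ z ∈ (P : Subgroup G), (∀ y ∈ (P : Subgroup G), z * y = y * z) ∧ z⁻¹ * x ∈ N := by
    intro x hx
    obtain ⟨Q, hQx⟩ := exists_sylow_le_of_index _ (h x hx)
    obtain ⟨g, hg⟩ := MulAction.exists_smul_eq G P Q
    -- y = g⁻¹ x g centralizes P
    have hy : ∀ u ∈ (P : Subgroup G), (g⁻¹ * x * g) * u = u * (g⁻¹ * x * g) := by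
      intro u hu
      have h1 : g * u * g⁻¹ ∈ (Q : Subgroup G) := by
        rw [← hg]
        exact H3.conj_mem_smul_sylow P g u hu
      have h2 := Subgroup.mem_centralizer_singleton_iff.mp (hQx h1)
      have : g * u * g⁻¹ * x = x * (g * u * g⁻¹) := by
        first | exact h2 | exact h2.symm
      calc g⁻¹ * x * g * u = g⁻¹ * (x * (g * u * g⁻¹)) * g := by group
        _ = g⁻¹ * (g * u * g⁻¹ * x) * g := by rw [this]
        _ = u * (g⁻¹ * x * g) := by group
    obtain ⟨kx, hkx⟩ := H3.orderOf_pow_of_mem_sylow P hx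
    have hyP : g⁻¹ * x * g ∈ (P : Subgroup G) := by
      -- y centralizes P, p-element
      have ho : orderOf (g⁻¹ * x * g) = p ^ kx := by
        rw [← hkx]
        have := MulEquiv.orderOf_eq (MulAut.conj g⁻¹) x
        simpa using this
      exact mem_of_centralizes P ⟨kx, ho⟩ hy
    set π := QuotientGroup.mk' N with hπ
    let Pb : Sylow p (G ⧸ N) := P.mapSurjective (QuotientGroup.mk'_surjective N)
    have hPb : (Pb : Subgroup (G ⧸ N)) = (P : Subgroup G).map π := rfl
    haveI := hQ Pb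
    have hxb : π x ∈ (Pb : Subgroup (G ⧸ N)) := by rw [hPb]; exact Subgroup.mem_map_of_mem _ hx
    have hyb : (π g)⁻¹ * π x * π g ∈ (Pb : Subgroup (G ⧸ N)) := by
      rw [hPb]
      have : (π g)⁻¹ * π x * π g = π (g⁻¹ * x * g) := by simp
      rw [this]; exact Subgroup.mem_map_of_mem _ hyP
    obtain ⟨nb, hnb, hnb2⟩ := Pb.conj_eq_normalizer_conj_of_mem (π x) (π g) hxb hyb
    obtain ⟨n, rfl⟩ := QuotientGroup.mk_surjective nb
    obtain ⟨s, hs, hsn⟩ := lift_normalizer P N n hnb
    refine ⟨s * (g⁻¹ * x * g) * s⁻¹, ?_, ?_, ?_⟩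
    · exact (Subgroup.mem_normalizer_iff.mp hs _).mp hyP
    · intro u hu
      have h7 : s⁻¹ * u * s ∈ (P : Subgroup G) := by
        have := (Subgroup.mem_normalizer_iff.mp (inv_mem hs) u).mp hu
        simpa using this
      have h8 := hy _ h7
      calc s * (g⁻¹ * x * g) * s⁻¹ * u = s * ((g⁻¹ * x * g) * (s⁻¹ * u * s)) * s⁻¹ := by group
        _ = s * ((s⁻¹ * u * s) * (g⁻¹ * x * g)) * s⁻¹ := by rw [h8]
        _ = _ := by group
    · rw [← QuotientGroup.eq_one_iff]
      have h9 : (π g)⁻¹ * π x * π g = (π s)⁻¹ * π x * π s := by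
        have : π s = (n : G ⧸ N) := hsn
        rw [this]; exact hnb2
      have h10 : ((((s * (g⁻¹ * x * g) * s⁻¹)⁻¹ * x : G)) : G ⧸ N) = (π s * ((π g)⁻¹ * π x * π g) * (π s)⁻¹)⁻¹ * π x := by
        simp [hπ]
      rw [h10, h9]; group
  intro x hx y hy
  obtain ⟨z, hz, hzc, hzx⟩ := key x hx
  obtain ⟨w, hw, hwc, hwy⟩ := key y hy
  have h1 : z⁻¹ * x ∈ (P : Subgroup G) ⊓ N := ⟨(P : Subgroup G).mul_mem ((P : Subgroup G).inv_mem hz) hx, hzx⟩
  have h2 : w⁻¹ * y ∈ (P : Subgroup G) ⊓ N := ⟨(P : Subgroup G).mul_mem ((P : Subgroup G).inv_mem hw) hy, hwy⟩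
  have h3 := hN _ h1 _ h2
  have ex : x = z * (z⁻¹ * x) := by group
  have ey : y = w * (w⁻¹ * y) := by group
  generalize z⁻¹ * x = n1 at *
  generalize w⁻¹ * y = n2 at *
  subst ex ey
  calc z * n1 * (w * n2) = z * (n1 * w) * n2 := by group
    _ = z * (w * n1) * n2 := by rw [hwc n1 h1.1]
    _ = (z * w) * (n1 * n2) := by group
    _ = (w * z) * (n2 * n1) := by rw [hzc w hw, h3]
    _ = w * (z * n2) * n1 := by group
    _ = w * (n2 * z) * n1 := by rw [hzc n2 h2.1]
    _ = w * n2 * (z * n1) := by group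

/-- the condition passes to normal subgroups -/
theorem index_normal {G : Type*} [Group G] [Finite G] {p : ℕ} (N : Subgroup G) [N.Normal] (x : N)
    (h : ¬ p ∣ (Subgroup.centralizer ({(x : G)} : Set G)).index) :
    ¬ p ∣ (Subgroup.centralizer ({x} : Set N)).index := by
  intro hp
  apply h
  have e : Subgroup.centralizer ({x} : Set N) = (Subgroup.centralizer ({(x : G)} : Set G)).subgroupOf N := by
    ext y
    rw [Subgroup.mem_subgroupOf, Subgroup.mem_centralizer_singleton_iff, Subgroup.mem_centralizer_singleton_iff,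
      Subtype.ext_iff]
    rfl
  rw [e] at hp
  exact hp.trans (H3.relIndex_dvd_index_of_normal_right _ N)

/-- the condition passes to quotients -/
theorem index_quotient {G : Type*} [Group G] [Finite G] {p : ℕ} (N : Subgroup G) [N.Normal] (x : G)
    (h : ¬ p ∣ (Subgroup.centralizer ({x} : Set G)).index) :
    ¬ p ∣ (Subgroup.centralizer ({(x : G ⧸ N)} : Set (G ⧸ N))).index := by
  intro hp
  apply h
  have h1 : (Subgroup.centralizer ({x} : Set G)) ≤
      (Subgroup.centralizer ({(x : G ⧸ N)} : Set (G ⧸ N))).comap (QuotientGroup.mk' N) := by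
    intro y hy
    rw [Subgroup.mem_comap, Subgroup.mem_centralizer_singleton_iff]
    rw [Subgroup.mem_centralizer_singleton_iff] at hy
    have := congrArg (QuotientGroup.mk' N) hy
    simpa using this
  have h2 := Subgroup.index_dvd_of_le h1
  rw [Subgroup.index_comap_of_surjective _ (QuotientGroup.mk'_surjective N)] at h2
  exact hp.trans h2

/-- Let G be a finite group and p a prime such that the Sylow p-subgroups of G are non-abelian while every element of p-power order has conjugacy class size prime to p, and suppose no nontrivial proper normal subgroup N of G has this property and no quotient G/N by such an N has it. Then G is simple. -/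
theorem result {G : Type*} [Group G] [Finite G]
    (p : ℕ) [Fact p.Prime] (h : ((∃ P : Sylow p G, ¬ IsMulCommutative P) ∧ ∀ x : G, (∃ k : ℕ, orderOf x = p ^ k) → ¬ p ∣ (Subgroup.centralizer ({x} : Set G)).index))
    (hmin : ∀ (N : Subgroup G) [N.Normal], N ≠ ⊥ → N ≠ ⊤ →
      ¬ ((∃ P : Sylow p N, ¬ IsMulCommutative P) ∧ ∀ x : N, (∃ k : ℕ, orderOf x = p ^ k) → ¬ p ∣ (Subgroup.centralizer ({x} : Set N)).index) ∧
      ¬ ((∃ P : Sylow p (G ⧸ N), ¬ IsMulCommutative P) ∧ ∀ x : (G ⧸ N), (∃ k : ℕ, orderOf x = p ^ k) → ¬ p ∣ (Subgroup.centralizer ({x} : Set (G ⧸ N))).index)) :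
    IsSimpleGroup G := by
  obtain ⟨⟨P, hP⟩, h2⟩ := h
  have hPp : ∀ x ∈ (P : Subgroup G), ¬ p ∣ (Subgroup.centralizer ({x} : Set G)).index :=
    fun x hx => h2 x (H3.orderOf_pow_of_mem_sylow P hx)
  haveI : Nontrivial G := by
    by_contra hn
    rw [not_nontrivial_iff_subsingleton] at hn
    exact hP ⟨⟨fun a b => Subsingleton.elim _ _⟩⟩
  refine ⟨fun N hNn => ?_⟩
  by_contra hcon
  rw [not_or] at hcon
  obtain ⟨hN1, hN2⟩ := hmin N hcon.1 hcon.2
  apply hP
  have hQ : ∀ P' : Sylow p (G ⧸ N), IsMulCommutative P' := by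
    by_contra hh
    push Not at hh
    apply hN2
    refine ⟨hh, ?_⟩
    intro x hx
    -- lift a p-element
    obtain ⟨P', hxP'⟩ := H3.exists_sylow_mem hx
    obtain ⟨c, hc⟩ := MulAction.exists_smul_eq (G ⧸ N) (P.mapSurjective (QuotientGroup.mk'_surjective N)) P'
    rw [← hc, H3.mem_smul_sylow_iff] at hxP'
    obtain ⟨y, hy, hyx⟩ := hxP'
    obtain ⟨c, rfl⟩ := QuotientGroup.mk_surjective c
    have h5 : x = ((c * y * c⁻¹ : G) : G ⧸ N) := by
      have : (QuotientGroup.mk' N) y = (c : G ⧸ N)⁻¹ * x * c := hyx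
      simp only [QuotientGroup.mk_mul, QuotientGroup.mk_inv]
      rw [show ((y : G) : G ⧸ N) = (c : G ⧸ N)⁻¹ * x * c from this]; group
    rw [h5]
    apply index_quotient
    apply h2
    obtain ⟨k, hk⟩ := H3.orderOf_pow_of_mem_sylow P hy
    refine ⟨k, ?_⟩
    rw [← hk]
    have := MulEquiv.orderOf_eq (MulAut.conj c) y
    simpa using this
  have hNc : ∀ P' : Sylow p N, IsMulCommutative P' := by
    by_contra hh
    push Not at hh
    apply hN1
    refine ⟨hh, ?_⟩
    intro x hx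
    apply index_normal
    apply h2
    obtain ⟨k, hk⟩ := hx
    exact ⟨k, by rw [← hk, Subgroup.orderOf_coe]⟩
  have hN3 : ∀ x ∈ (P : Subgroup G) ⊓ N, ∀ y ∈ (P : Subgroup G) ⊓ N, x * y = y * x := by
    have hpg : IsPGroup p ((P : Subgroup G).subgroupOf N) := by
      have := P.isPGroup'.comap_of_injective N.subtype N.subtype_injective
      exact this
    obtain ⟨P', hP'⟩ := hpg.exists_le_sylow
    haveI := hNc P'
    intro x hx y hy
    have h1 : (⟨x, hx.2⟩ : N) ∈ (P' : Subgroup N) := hP' (Subgroup.mem_subgroupOf.mpr hx.1)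
    have h2 : (⟨y, hy.2⟩ : N) ∈ (P' : Subgroup N) := hP' (Subgroup.mem_subgroupOf.mpr hy.1)
    have h3 := mul_comm' (⟨_, h1⟩ : (P' : Subgroup N)) ⟨_, h2⟩
    have h4 := congrArg Subtype.val (congrArg Subtype.val h3)
    exact h4
  have := comm_of_quotient P hPp N hN3 hQ
  exact ⟨⟨fun a b => Subtype.ext (this a a.2 b b.2)⟩⟩

end Cfsg.Agent.S4354
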