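import Cfsg.Statements.S4376
import Cfsg.Agent.H9.Ot.Groups
import Cfsg.Agent.H9.Ot.Gl3

set_option autoImplicit false
open Cfsg

namespace Cfsg.Agent.S4376

open Cfsg.Agent.H9.Ot

set_option synthInstance.maxHeartbeats 0
set_option synthInstance.maxSize 1000
set_option maxRecDepth 100000

abbrev GG : Type := (Fin 1 → A3) × (Fin 6 → A4) × (Fin 3 → A8) × (Fin 3 → A9) × (Fin 6 → A10) × (Fin 3 → A11) × (Fin 3 → A12) × (Fin 3 → A15) × (Fin 2 → A16) × (Fin 3 → A17) × (Fin 3 → A18) × (Fin 3 → A23) × (Fin 3 → A24)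

abbrev HH : Type := (Fin 3 → GL3) × (Fin 12 → A1) × (Fin 9 → A2) × (Fin 3 → A5) × (Fin 3 → A6) × (Fin 4 → A7) × (Fin 6 → A13) × (Fin 3 → A14) × (Fin 2 → A19) × (Fin 3 → A20) × (Fin 3 → A21) × (Fin 3 → A22)

theorem solvGG : Group.IsSolvable GG := inferInstance

theorem nsolvHH : ¬ Group.IsSolvable HH := by
  intro h
  apply not_solv
  let f : HH →* GL3 := (Pi.evalMonoidHom (fun _ : Fin 3 => GL3) 0).comp (MonoidHom.fst _ _)
  refine Group.isSolvable_of_surjective (f := f) ?_
  intro g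
  exact ⟨(fun _ => g, 1), rfl⟩

/-- There are finite groups G and H having the same number of elements of each order (the same order type) with G solvable and H not solvable. -/
theorem result :
    ∃ (G : Type) (_ : Group G) (_ : Finite G) (H : Type) (_ : Group H) (_ : Finite H),
      Group.IsSolvable G ∧ ¬ Group.IsSolvable H ∧ ∀ n : ℕ, Nat.card {g : G // orderOf g = n} = Nat.card {h : H // orderOf h = n} := by
  have hG := ((p3.pow 1).prod ((p4.pow 6).prod ((p8.pow 3).prod ((p9.pow 3).prod ((p10.pow 6).prod ((p11.pow 3).prod ((p12.pow 3).prod ((p15.pow 3).prod ((p16.pow 2).prod ((p17.pow 3).prod ((p18.pow 3).prod ((p23.pow 3).prod (p24.pow 3)))))))))))))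
  have hH := ((pGL.pow 3).prod ((p1.pow 12).prod ((p2.pow 9).prod ((p5.pow 3).prod ((p6.pow 3).prod ((p7.pow 4).prod ((p13.pow 6).prod ((p14.pow 3).prod ((p19.pow 2).prod ((p20.pow 3).prod ((p21.pow 3).prod (p22.pow 3))))))))))))
  exact ⟨GG, inferInstance, hG.fin, HH, inferInstance, hH.fin, solvGG, nsolvHH,
    same_type hG hH (by decide +kernel)⟩

end Cfsg.Agent.S4376
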