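import Cfsg.Statements.S4377
import Mathlib

set_option autoImplicit false
open Cfsg

namespace Cfsg.Agent.S4377

theorem count {G : Type*} [Group G] [Finite G] (n : ℕ) (hn : n ≠ 0) :
    Nat.card {g : G // g ^ n = 1} = ∑ d ∈ n.divisors, Nat.card {g : G // orderOf g = d} := by
  classical
  have := Fintype.ofFinite G
  have h : {g : G // g ^ n = 1} ≃ Σ d : n.divisors, {g : G // orderOf g = d} :=
    { toFun := fun g => ⟨⟨orderOf (g : G), Nat.mem_divisors.mpr ⟨orderOf_dvd_of_pow_eq_one g.2, hn⟩⟩, ⟨g, rfl⟩⟩
      invFun := fun s => ⟨s.2.1, by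
        have h1 := s.2.2
        have h2 := (Nat.mem_divisors.mp s.1.2).1
        rw [← h1] at h2
        exact orderOf_dvd_iff_pow_eq_one.mp h2⟩
      left_inv := fun g => rfl
      right_inv := by
        rintro ⟨⟨d, hd⟩, ⟨g, hg⟩⟩
        simp only at hg
        subst hg
        rfl }
  rw [Nat.card_congr h, Nat.card_sigma, Finset.sum_coe_sort n.divisors (fun d => Nat.card {g : G // orderOf g = d})]

/-- Two finite groups have the same number of elements of each order if and only if, for every n, they have the same number of elements g with gⁿ = 1. -/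
theorem result {G H : Type*} [Group G] [Finite G] [Group H] [Finite H] :
    (∀ n : ℕ, Nat.card {g : G // orderOf g = n} = Nat.card {h : H // orderOf h = n}) ↔
      ∀ n : ℕ, Nat.card {g : G // g ^ n = 1} = Nat.card {h : H // h ^ n = 1} := by
  constructor
  · intro h n
    by_cases hn : n = 0
    · subst hn
      have hG1 : Nat.card {g : G // g ^ 0 = 1} = Nat.card {g : G // g ^ (Nat.card G * Nat.card H) = 1} := by
        apply Nat.card_congr
        refine Equiv.subtypeEquivRight (fun g => ?_)
        rw [pow_zero, pow_mul, pow_card_eq_one', one_pow]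
      have hH1 : Nat.card {g : H // g ^ 0 = 1} = Nat.card {g : H // g ^ (Nat.card G * Nat.card H) = 1} := by
        apply Nat.card_congr
        refine Equiv.subtypeEquivRight (fun g => ?_)
        rw [pow_zero, mul_comm, pow_mul, pow_card_eq_one', one_pow]
      rw [hG1, hH1]
      have hne : Nat.card G * Nat.card H ≠ 0 := (Nat.mul_pos Nat.card_pos Nat.card_pos).ne'
      rw [count _ hne, count _ hne]
      exact Finset.sum_congr rfl (fun d _ => h d)
    · rw [count _ hn, count _ hn]
      exact Finset.sum_congr rfl (fun d _ => h d)
  · intro h n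
    induction n using Nat.strong_induction_on with
    | _ n ih =>
      by_cases hn : n = 0
      · subst hn
        have e1 : IsEmpty {g : G // orderOf g = 0} := ⟨fun g => (orderOf_pos (g : G)).ne' g.2⟩
        have e2 : IsEmpty {g : H // orderOf g = 0} := ⟨fun g => (orderOf_pos (g : H)).ne' g.2⟩
        rw [Nat.card_of_isEmpty, Nat.card_of_isEmpty]
      · have h1 := h n
        rw [count _ hn, count _ hn, ← Nat.cons_self_properDivisors hn, Finset.sum_cons, Finset.sum_cons] at h1
        have h2 : ∑ d ∈ n.properDivisors, Nat.card {g : G // orderOf g = d} =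
            ∑ d ∈ n.properDivisors, Nat.card {g : H // orderOf g = d} :=
          Finset.sum_congr rfl (fun d hd => ih d (Nat.mem_properDivisors.mp hd).2)
        omega

end Cfsg.Agent.S4377
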