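import Cfsg.Statements.S4387
import Mathlib
import Cfsg.Agent.H3.Frob

set_option autoImplicit false
open Pointwise
open Cfsg

namespace Cfsg.Agent.S4387

open scoped Pointwise in
/-- a proper subgroup of a finite group has conjugates missing some element -/
theorem exists_not_mem_conj {G : Type*} [Group G] [Finite G] (H : Subgroup G) (hH : H ≠ ⊤) :
    ∃ x : G, ∀ g : G, g⁻¹ * x * g ∉ H := by
  classical
  have := Fintype.ofFinite G
  by_contra hcon
  push Not at hcon
  have := Fintype.ofFinite (G ⧸ H)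
  have : Fintype (Quotient (MulAction.orbitRel G (G ⧸ H))) := Fintype.ofFinite _
  have h1 := MulAction.sum_card_fixedBy_eq_card_orbits_mul_card_group G (G ⧸ H)
  have h2 : Fintype.card (Quotient (MulAction.orbitRel G (G ⧸ H))) = 1 := by
    rw [← Nat.card_eq_fintype_card]
    have : Subsingleton (Quotient (MulAction.orbitRel G (G ⧸ H))) := by
      have := MulAction.pretransitive_iff_subsingleton_quotient G (G ⧸ H)
      exact this.mp inferInstance
    have hne : Nonempty (Quotient (MulAction.orbitRel G (G ⧸ H))) := ⟨Quotient.mk _ ((1 : G) : G ⧸ H)⟩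
    exact Nat.card_eq_one_iff_unique.mpr ⟨this, hne⟩
  rw [h2, one_mul] at h1
  have h3 : ∀ g : G, 1 ≤ Fintype.card (MulAction.fixedBy (G ⧸ H) g) := by
    intro g
    obtain ⟨c, hc⟩ := hcon g
    have : Nonempty (MulAction.fixedBy (G ⧸ H) g) := by
      refine ⟨⟨(c : G ⧸ H), ?_⟩⟩
      show ((g * c : G) : G ⧸ H) = c
      rw [QuotientGroup.eq]
      have := H.inv_mem hc
      simpa [mul_assoc] using this
    exact Fintype.card_pos
  have h4 : 1 < Fintype.card (MulAction.fixedBy (G ⧸ H) (1 : G)) := by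
    have e : Fintype.card (MulAction.fixedBy (G ⧸ H) (1 : G)) = Fintype.card (G ⧸ H) := by
      apply Fintype.card_congr
      exact Equiv.subtypeUnivEquiv (fun a => one_smul G a)
    rw [e, ← Nat.card_eq_fintype_card]
    have h5 : Nat.card (G ⧸ H) ≠ 1 := fun h => hH (Subgroup.index_eq_one.mp h)
    have h6 : 0 < Nat.card (G ⧸ H) := Nat.card_pos
    omega
  have h5 : Fintype.card G < ∑ g : G, Fintype.card (MulAction.fixedBy (G ⧸ H) g) := by
    calc Fintype.card G = ∑ _g : G, 1 := by simp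
      _ < _ := Finset.sum_lt_sum (fun g _ => h3 g) ⟨1, Finset.mem_univ _, h4⟩
  omega

/-- Let G be a non-trivial finite group in which any two maximal subgroups are conjugate. Then G is cyclic of prime-power order. -/
theorem result {G : Type*} [Group G] [Finite G] [Nontrivial G]
    (h : ∀ M N : Subgroup G, IsCoatom M → IsCoatom N → ∃ g : G, N = MulAut.conj g • M) :
    IsCyclic G ∧ IsPrimePow (Nat.card G) := by
  classical
  obtain ⟨M, hM⟩ : ∃ M : Subgroup G, IsCoatom M := by
    rcases eq_top_or_exists_le_coatom (⊥ : Subgroup G) with h0 | ⟨M, hM, _⟩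
    · exact absurd h0 bot_ne_top
    · exact ⟨M, hM⟩
  obtain ⟨x, hx⟩ := exists_not_mem_conj M hM.1
  have hxtop : Subgroup.zpowers x = ⊤ := by
    rcases eq_top_or_exists_le_coatom (Subgroup.zpowers x) with h0 | ⟨N, hN, hxN⟩
    · exact h0
    · exfalso
      obtain ⟨g, rfl⟩ := h M N hM hN
      apply hx g
      exact (Cfsg.Agent.H3.mem_conj_smul_iff M g x).mp (hxN (Subgroup.mem_zpowers x))
  have hcyc : IsCyclic G := isCyclic_iff_exists_zpowers_eq_top.mpr ⟨x, hxtop⟩
  refine ⟨hcyc, ?_⟩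
  have hcomm : ∀ a b : G, a * b = b * a := by
    have := hcyc.isMulCommutative
    exact fun a b => mul_comm' a b
  have hord : orderOf x = Nat.card G := by
    rw [← Nat.card_zpowers, hxtop]
    exact Nat.card_congr Subgroup.topEquiv.toEquiv
  have hall : ∀ K : Subgroup G, K ≠ ⊤ → K ≤ M := by
    intro K hK
    rcases eq_top_or_exists_le_coatom K with h0 | ⟨N, hN, hKN⟩
    · exact absurd h0 hK
    · obtain ⟨g, rfl⟩ := h M N hM hN
      intro k hk
      have h1 := (Cfsg.Agent.H3.mem_conj_smul_iff M g k).mp (hKN hk)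
      rw [hcomm g⁻¹ k] at h1
      simpa using h1
  have hG1 : Nat.card G ≠ 1 := by
    have := Finite.one_lt_card (α := G)
    omega
  obtain ⟨p, hp, hpd⟩ := Nat.exists_prime_and_dvd hG1
  obtain ⟨a, u, hu, hau⟩ := Nat.exists_eq_pow_mul_and_not_dvd (Nat.card_pos (α := G)).ne' p hp.ne_one
  have ha : a ≠ 0 := by
    rintro rfl
    rw [pow_zero, one_mul] at hau
    exact hu (hau ▸ hpd)
  by_cases hu1 : u = 1
  · exact ⟨p, a, Nat.prime_iff.mp hp, Nat.pos_of_ne_zero ha, by rw [hau, hu1, mul_one]⟩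
  exfalso
  have hu0 : u ≠ 0 := by rintro rfl; simp at hu
  have hpa : p ^ a ≠ 0 := pow_ne_zero _ hp.ne_zero
  have hpa1 : p ^ a ≠ 1 := by
    intro h1
    rcases (Nat.pow_eq_one).mp h1 with h2 | h2
    · exact hp.one_lt.ne' h2
    · exact ha h2
  have h1 : x ^ (p ^ a) ∈ M := by
    apply hall (Subgroup.zpowers (x ^ (p ^ a))) _ (Subgroup.mem_zpowers _)
    intro htop
    have h2 : Nat.card (Subgroup.zpowers (x ^ (p ^ a))) = Nat.card G := by
      rw [htop]; exact Nat.card_congr Subgroup.topEquiv.toEquiv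
    rw [Nat.card_zpowers, orderOf_pow_of_dvd hpa (by rw [hord, hau]; exact dvd_mul_right _ _), hord, hau,
      Nat.mul_div_cancel_left _ (Nat.pos_of_ne_zero hpa)] at h2
    apply hpa1
    apply Nat.eq_of_mul_eq_mul_right (Nat.pos_of_ne_zero hu0)
    rw [one_mul]; exact h2.symm
  have h2 : x ^ u ∈ M := by
    apply hall (Subgroup.zpowers (x ^ u)) _ (Subgroup.mem_zpowers _)
    intro htop
    have h2 : Nat.card (Subgroup.zpowers (x ^ u)) = Nat.card G := by
      rw [htop]; exact Nat.card_congr Subgroup.topEquiv.toEquiv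
    rw [Nat.card_zpowers, orderOf_pow_of_dvd hu0 (by rw [hord, hau]; exact dvd_mul_left _ _), hord, hau,
      Nat.mul_div_cancel _ (Nat.pos_of_ne_zero hu0)] at h2
    apply hu1
    apply Nat.eq_of_mul_eq_mul_left (Nat.pos_of_ne_zero hpa)
    rw [mul_one]; exact h2.symm
  have hcop : Nat.Coprime (p ^ a) u := Nat.Coprime.pow_left _ ((Nat.Prime.coprime_iff_not_dvd hp).mpr hu)
  have hxM : x ∈ M := by
    have hb := Nat.gcd_eq_gcd_ab (p ^ a) u
    rw [hcop] at hb
    have : x = (x ^ (p ^ a)) ^ (Nat.gcdA (p ^ a) u) * (x ^ u) ^ (Nat.gcdB (p ^ a) u) := by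
      rw [← zpow_natCast x (p ^ a), ← zpow_natCast x u, ← zpow_mul, ← zpow_mul, ← zpow_add, ← hb]; simp
    rw [this]
    exact M.mul_mem (M.zpow_mem h1 _) (M.zpow_mem h2 _)
  apply hx 1
  simpa using hxM

end Cfsg.Agent.S4387
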