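import Cfsg.Statements.S4406
import Mathlib
import Cfsg.Agent.H3.Basic

set_option autoImplicit false
open Cfsg

namespace Cfsg.Agent.S4406

abbrev A4 := ↥(alternatingGroup (Fin 4))

theorem d1 : ∀ x : A4, x ^ 4 = 1 → x * x = 1 := by decide +kernel

set_option synthInstance.maxHeartbeats 2000000 in
set_option synthInstance.maxSize 100000 in
theorem d2 : ∀ a : A4, a ≠ 1 → a ^ 3 = 1 → ∀ v : A4, v ≠ 1 → v * v = 1 → ∀ w : A4, w ≠ 1 → w * w = 1 → v ≠ w →
    ((a * v * a⁻¹ = w ∧ a * w * a⁻¹ = v * w) ∨ (a * v * a⁻¹ = v * w ∧ a * w * a⁻¹ = v)) := by decide +kernel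

set_option synthInstance.maxHeartbeats 2000000 in
set_option synthInstance.maxSize 100000 in
theorem d3 : ∀ a : A4, a ≠ 1 → a ^ 3 = 1 → ∀ v : A4, v ≠ 1 → v * v = 1 → ∀ w : A4, w ≠ 1 → w * w = 1 → v ≠ w →
    ((a * v * a⁻¹ = w → a⁻¹ * v * a = v * w ∧ a⁻¹ * w * a = v) ∧
     (a * v * a⁻¹ = v * w → a⁻¹ * v * a = w ∧ a⁻¹ * w * a = v * w)) := by decide +kernel

theorem d4 : ∃ a : A4, a ≠ 1 ∧ a ^ 3 = 1 := by decide +kernel

/-- In the direct product P = A₄ × A₄, let X be the Sylow 2-subgroup, X₁ and X₂ its intersections with the two direct factors, Q a Sylow 3-subgroup and Q₁, Q₂ its intersections with the two factors. Then every subgroup B of X of order 4 either meets X₁ or X₂ nontrivially, or is normalized by one of the two subgroups of Q of order 3 other than Q₁ and Q₂. -/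
theorem result
    (X : Sylow 2 (↥(alternatingGroup (Fin 4)) × ↥(alternatingGroup (Fin 4))))
    (Q : Sylow 3 (↥(alternatingGroup (Fin 4)) × ↥(alternatingGroup (Fin 4))))
    (B : Subgroup (↥(alternatingGroup (Fin 4)) × ↥(alternatingGroup (Fin 4)))) (hBX : B ≤ (X : Subgroup _)) (hB4 : Nat.card ↥B = 4) :
    B ⊓ ((X : Subgroup _) ⊓ Subgroup.prod ⊤ ⊥) ≠ ⊥ ∨ B ⊓ ((X : Subgroup _) ⊓ Subgroup.prod ⊥ ⊤) ≠ ⊥ ∨
      ∃ R : Subgroup (↥(alternatingGroup (Fin 4)) × ↥(alternatingGroup (Fin 4))), R ≤ (Q : Subgroup _) ∧ Nat.card ↥R = 3 ∧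
        R ≠ (Q : Subgroup _) ⊓ Subgroup.prod ⊤ ⊥ ∧ R ≠ (Q : Subgroup _) ⊓ Subgroup.prod ⊥ ⊤ ∧ R ≤ Subgroup.normalizer (B : Set _) := by
  classical
  by_cases hA : B ⊓ ((X : Subgroup _) ⊓ Subgroup.prod ⊤ ⊥) ≠ ⊥
  · exact Or.inl hA
  by_cases hB : B ⊓ ((X : Subgroup _) ⊓ Subgroup.prod ⊥ ⊤) ≠ ⊥
  · exact Or.inr (Or.inl hB)
  right; right
  push Not at hA hB
  have hA' : ∀ z ∈ B, z.2 = 1 → z = 1 := by
    intro z hz h
    have : z ∈ B ⊓ ((X : Subgroup _) ⊓ Subgroup.prod ⊤ ⊥) :=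
      Subgroup.mem_inf.mpr ⟨hz, Subgroup.mem_inf.mpr ⟨hBX hz, Subgroup.mem_prod.mpr ⟨trivial, h⟩⟩⟩
    rw [hA] at this
    exact this
  have hB' : ∀ z ∈ B, z.1 = 1 → z = 1 := by
    intro z hz h
    have : z ∈ B ⊓ ((X : Subgroup _) ⊓ Subgroup.prod ⊥ ⊤) :=
      Subgroup.mem_inf.mpr ⟨hz, Subgroup.mem_inf.mpr ⟨hBX hz, Subgroup.mem_prod.mpr ⟨h, trivial⟩⟩⟩
    rw [hB] at this
    exact this
  have hsq : ∀ z ∈ B, z.1 * z.1 = 1 ∧ z.2 * z.2 = 1 := by
    intro z hz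
    have h1 : z ^ 4 = 1 := by
      have h2 : (⟨z, hz⟩ : B) ^ Nat.card B = 1 := pow_card_eq_one'
      rw [hB4] at h2
      exact congrArg Subtype.val h2
    exact ⟨d1 _ (congrArg Prod.fst h1), d1 _ (congrArg Prod.snd h1)⟩
  have hfin : Finite B := inferInstance
  -- two elements
  obtain ⟨p, hp, hp1⟩ : ∃ p ∈ B, p ≠ 1 := by
    by_contra hcon
    push Not at hcon
    have : B = ⊥ := by rw [eq_bot_iff]; exact fun x hx => hcon x hx
    rw [this, Subgroup.card_bot] at hB4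
    omega
  obtain ⟨r, hr, hr1, hrp⟩ : ∃ r ∈ B, r ≠ 1 ∧ r ≠ p := by
    by_contra hcon
    push Not at hcon
    have h1 : (B : Set (A4 × A4)) ⊆ {1, p} := by
      intro x hx
      by_cases h : x = 1
      · left; exact h
      · right; exact hcon x hx h
    have h2 := Set.ncard_le_ncard h1 (Set.toFinite _)
    have h3 : (B : Set (A4 × A4)).ncard = 4 := by rw [← Nat.card_coe_set_eq]; exact hB4
    have h4 := Set.ncard_pair (Ne.symm hp1)
    omega
  have hclos : B ≤ Subgroup.closure {p, r} := by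
    have h1 : Subgroup.closure {p, r} ≤ B := by
      rw [Subgroup.closure_le]
      rintro x (rfl | rfl)
      · exact hp
      · exact hr
    have h2 : ({1, p, r} : Set _) ⊆ (Subgroup.closure {p, r} : Set _) := by
      rintro x (rfl | rfl | rfl)
      · exact Subgroup.one_mem _
      · exact Subgroup.subset_closure (Or.inl rfl)
      · exact Subgroup.subset_closure (Or.inr rfl)
    have h3 := Set.ncard_le_ncard h2 (Set.toFinite _)
    have h4 : ({1, p, r} : Set (A4 × A4)).ncard = 3 := by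
      rw [Set.ncard_eq_three]
      exact ⟨1, p, r, Ne.symm hp1, Ne.symm hr1, Ne.symm hrp, rfl⟩
    have h5 : (Subgroup.closure {p, r} : Set (A4 × A4)).ncard = Nat.card (Subgroup.closure {p, r}) := by
      rw [← Nat.card_coe_set_eq]; rfl
    have h6 := Subgroup.card_dvd_of_le h1
    rw [hB4] at h6
    have h7 : Nat.card (Subgroup.closure {p, r}) = 4 := by
      have h8 := Nat.le_of_dvd (by norm_num) h6
      have h9 : Nat.card (Subgroup.closure {p, r}) = 3 ∨ Nat.card (Subgroup.closure {p, r}) = 4 := by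
        rw [h4, h5] at h3
        omega
      rcases h9 with h | h
      · rw [h] at h6; omega
      · exact h
    have h8 : Subgroup.closure {p, r} = B := Subgroup.eq_of_le_of_card_ge h1 (by rw [h7, hB4])
    rw [h8]
  -- components
  obtain ⟨hp11, hp22⟩ := hsq p hp
  obtain ⟨hr11, hr22⟩ := hsq r hr
  have hpv : p.1 ≠ 1 := fun h => hp1 (hB' p hp h)
  have hpw : p.2 ≠ 1 := fun h => hp1 (hA' p hp h)
  have hrv : r.1 ≠ 1 := fun h => hr1 (hB' r hr h)
  have hrw : r.2 ≠ 1 := fun h => hr1 (hA' r hr h)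
  have hv : p.1 ≠ r.1 := by
    intro h
    apply hrp
    have h1 := hB' (r * p⁻¹) (B.mul_mem hr (B.inv_mem hp)) (by
      show r.1 * p.1⁻¹ = 1
      rw [h, mul_inv_cancel])
    exact mul_inv_eq_one.mp h1
  have hw : p.2 ≠ r.2 := by
    intro h
    apply hrp
    have h1 := hA' (r * p⁻¹) (B.mul_mem hr (B.inv_mem hp)) (by
      show r.2 * p.2⁻¹ = 1
      rw [h, mul_inv_cancel])
    exact mul_inv_eq_one.mp h1
  -- elements of Q
  obtain ⟨s, hs1, hs3⟩ := d4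
  have h3f : Fact (Nat.Prime 3) := ⟨by norm_num⟩
  obtain ⟨g, hg⟩ := Cfsg.Agent.H3.exists_conj_mem_sylow Q (x := ((s, 1) : A4 × A4)) ⟨1, by
    rw [pow_one]
    exact orderOf_eq_prime (Prod.ext hs3 (one_pow 3)) (fun h => hs1 (congrArg Prod.fst h))⟩
  obtain ⟨g', hg'⟩ := Cfsg.Agent.H3.exists_conj_mem_sylow Q (x := ((1, s) : A4 × A4)) ⟨1, by
    rw [pow_one]
    exact orderOf_eq_prime (Prod.ext (one_pow 3) hs3) (fun h => hs1 (congrArg Prod.snd h))⟩
  obtain ⟨a, ha1, ha3, haQ⟩ : ∃ a : A4, a ≠ 1 ∧ a ^ 3 = 1 ∧ ((a, 1) : A4 × A4) ∈ (Q : Subgroup (A4 × A4)) := by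
    refine ⟨g.1⁻¹ * s * g.1, ?_, ?_, ?_⟩
    · intro h
      apply hs1
      have : s = g.1 * (g.1⁻¹ * s * g.1) * g.1⁻¹ := by group
      rw [this, h]; group
    · have : (g.1⁻¹ * s * g.1) ^ 3 = g.1⁻¹ * s ^ 3 * g.1 := by
        simp only [pow_succ, pow_zero, one_mul]; group
      rw [this, hs3]; group
    · have h1 : ((g.1⁻¹ * s * g.1, 1) : A4 × A4) = g⁻¹ * (s, 1) * g := by
        apply Prod.ext
        · rfl
        · show (1 : A4) = g.2⁻¹ * 1 * g.2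
          group
      rw [h1]; exact hg
  obtain ⟨b, hb1, hb3, hbQ⟩ : ∃ a : A4, a ≠ 1 ∧ a ^ 3 = 1 ∧ ((1, a) : A4 × A4) ∈ (Q : Subgroup (A4 × A4)) := by
    refine ⟨g'.2⁻¹ * s * g'.2, ?_, ?_, ?_⟩
    · intro h
      apply hs1
      have : s = g'.2 * (g'.2⁻¹ * s * g'.2) * g'.2⁻¹ := by group
      rw [this, h]; group
    · have : (g'.2⁻¹ * s * g'.2) ^ 3 = g'.2⁻¹ * s ^ 3 * g'.2 := by
        simp only [pow_succ, pow_zero, one_mul]; group
      rw [this, hs3]; group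
    · have h1 : ((1, g'.2⁻¹ * s * g'.2) : A4 × A4) = g'⁻¹ * (1, s) * g' := by
        apply Prod.ext
        · show (1 : A4) = g'.1⁻¹ * 1 * g'.1
          group
        · rfl
      rw [h1]; exact hg'
  -- the final step
  have hfinal : ∀ c : A4, c ≠ 1 → c ^ 3 = 1 → ((1, c) : A4 × A4) ∈ (Q : Subgroup (A4 × A4)) →
      ((a * p.1 * a⁻¹, c * p.2 * c⁻¹) : A4 × A4) ∈ B → ((a * r.1 * a⁻¹, c * r.2 * c⁻¹) : A4 × A4) ∈ B →
      ∃ R : Subgroup (A4 × A4), R ≤ (Q : Subgroup _) ∧ Nat.card ↥R = 3 ∧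
        R ≠ (Q : Subgroup _) ⊓ Subgroup.prod ⊤ ⊥ ∧ R ≠ (Q : Subgroup _) ⊓ Subgroup.prod ⊥ ⊤ ∧
        R ≤ Subgroup.normalizer (B : Set _) := by
    intro c hc1 hc3 hcQ h1 h2
    set t : A4 × A4 := (a, c) with ht
    have htQ : t ∈ (Q : Subgroup (A4 × A4)) := by
      have h3 : t = (a, 1) * (1, c) := by
        apply Prod.ext
        · show a = a * 1; rw [mul_one]
        · show c = 1 * c; rw [one_mul]
      rw [h3]; exact Subgroup.mul_mem _ haQ hcQ
    have hto : orderOf t = 3 := orderOf_eq_prime (Prod.ext ha3 hc3) (fun h => ha1 (congrArg Prod.fst h))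
    refine ⟨Subgroup.zpowers t, ?_, ?_, ?_, ?_, ?_⟩
    · rw [Subgroup.zpowers_le]; exact htQ
    · rw [Nat.card_zpowers, hto]
    · intro h
      have h3 : t ∈ (Q : Subgroup (A4 × A4)) ⊓ Subgroup.prod ⊤ ⊥ := by rw [← h]; exact Subgroup.mem_zpowers t
      exact hc1 (Subgroup.mem_prod.mp h3.2).2
    · intro h
      have h3 : t ∈ (Q : Subgroup (A4 × A4)) ⊓ Subgroup.prod ⊥ ⊤ := by rw [← h]; exact Subgroup.mem_zpowers t
      exact ha1 (Subgroup.mem_prod.mp h3.2).1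
    · rw [Subgroup.zpowers_le]
      apply Subgroup.mem_normalizer_fintype
      intro n hn
      have h3 : Subgroup.closure {p, r} ≤ B.comap (MulAut.conj t).toMonoidHom := by
        rw [Subgroup.closure_le]
        rintro x (rfl | rfl)
        · exact h1
        · exact h2
      exact h3 (hclos hn)
  have hpr : ((p.1 * r.1, p.2 * r.2) : A4 × A4) ∈ B := B.mul_mem hp hr
  rcases d2 a ha1 ha3 p.1 hpv hp11 r.1 hrv hr11 hv with ⟨e1, e2⟩ | ⟨e1, e2⟩ <;>
    rcases d2 b hb1 hb3 p.2 hpw hp22 r.2 hrw hr22 hw with ⟨f1, f2⟩ | ⟨f1, f2⟩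
  · exact hfinal b hb1 hb3 hbQ (by rw [e1, f1]; exact hr) (by rw [e2, f2]; exact hpr)
  · obtain ⟨k1, k2⟩ := (d3 b hb1 hb3 p.2 hpw hp22 r.2 hrw hr22 hw).2 f1
    refine hfinal b⁻¹ (inv_ne_one.mpr hb1) (by rw [inv_pow, hb3, inv_one]) ?_ ?_ ?_
    · have := (Q : Subgroup (A4 × A4)).inv_mem hbQ
      rw [Prod.inv_mk, inv_one] at this; exact this
    · rw [inv_inv, e1, k1]; exact hr
    · rw [inv_inv, e2, k2]; exact hpr
  · obtain ⟨k1, k2⟩ := (d3 b hb1 hb3 p.2 hpw hp22 r.2 hrw hr22 hw).1 f1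
    refine hfinal b⁻¹ (inv_ne_one.mpr hb1) (by rw [inv_pow, hb3, inv_one]) ?_ ?_ ?_
    · have := (Q : Subgroup (A4 × A4)).inv_mem hbQ
      rw [Prod.inv_mk, inv_one] at this; exact this
    · rw [inv_inv, e1, k1]; exact hpr
    · rw [inv_inv, e2, k2]; exact hp
  · exact hfinal b hb1 hb3 hbQ (by rw [e1, f1]; exact hpr) (by rw [e2, f2]; exact hp)

end Cfsg.Agent.S4406
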