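import Cfsg.Statements.S4420
import Mathlib

set_option autoImplicit false
open Cfsg

namespace Cfsg.Agent.S4420

/-- a nontrivial elementary abelian 2-group has a subgroup of index 2 -/
theorem exists_index_two {H : Type*} [Group H] [Finite H] [Nontrivial H] (h : ∀ x : H, x ^ 2 = 1) :
    ∃ B : Subgroup H, B.index = 2 := by
  obtain ⟨M, hM⟩ : ∃ M : Subgroup H, IsCoatom M := by
    rcases eq_top_or_exists_le_coatom (⊥ : Subgroup H) with h0 | ⟨M, hM, _⟩
    · exact absurd h0 bot_ne_top
    · exact ⟨M, hM⟩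
  refine ⟨M, ?_⟩
  have hcomm : ∀ a b : H, a * b = b * a := by
    intro a b
    have ha := h a
    have hb := h b
    have hab := h (a * b)
    have e1 : a⁻¹ = a := by rw [inv_eq_iff_mul_eq_one, ← sq, ha]
    have e2 : b⁻¹ = b := by rw [inv_eq_iff_mul_eq_one, ← sq, hb]
    have e3 : (a * b)⁻¹ = a * b := by rw [inv_eq_iff_mul_eq_one, ← sq, hab]
    rw [← e3, mul_inv_rev, e1, e2]
  obtain ⟨x, hx⟩ : ∃ x : H, x ∉ M := by
    by_contra hcon
    push Not at hcon
    exact hM.1 (by rw [← top_le_iff]; intro y _; exact hcon y)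
  rw [Subgroup.index_eq_two_iff]
  refine ⟨x, fun b => ?_⟩
  have htop : ∀ y : H, y ∈ M ∨ y * x ∈ M := by
    intro y
    have hK : M ⊔ Subgroup.zpowers x = ⊤ := by
      apply hM.2
      refine lt_of_le_of_ne le_sup_left ?_
      intro heq
      apply hx
      rw [heq]
      exact Subgroup.mem_sup_right (Subgroup.mem_zpowers x)
    have hy : y ∈ M ⊔ Subgroup.zpowers x := by rw [hK]; trivial
    have hn : M.Normal := ⟨fun n hn g => by rw [hcomm g n]; simpa using hn⟩
    rw [Subgroup.mem_sup_of_normal_left] at hy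
    obtain ⟨m, hm, z, ⟨k, rfl⟩, rfl⟩ := hy
    rcases Int.even_or_odd' k with ⟨j, hj | hj⟩
    · left
      simp only
      rw [hj, zpow_mul]
      have : x ^ (2 : ℤ) = 1 := by exact_mod_cast h x
      rw [this, one_zpow, mul_one]; exact hm
    · right
      simp only
      have h2 : x ^ (2 : ℤ) = 1 := by exact_mod_cast h x
      rw [hj, zpow_add, zpow_mul, h2, one_zpow, one_mul, zpow_one, mul_assoc, ← sq, h x, mul_one]; exact hm
  rcases htop b with hb | hb
  · refine Or.inr ⟨hb, ?_⟩
    intro hbx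
    apply hx
    have := M.mul_mem (M.inv_mem hb) hbx
    simpa using this
  · refine Or.inl ⟨hb, ?_⟩
    intro hb'
    apply hx
    have := M.mul_mem (M.inv_mem hb') hb
    simpa using this

/-- Structure of groups in which every element outside some proper subgroup has square 1. Let H be a finite group with a proper subgroup A such that every element outside A has square 1. Then H has an abelian normal subgroup B of index 2 such that every element outside B is an involution inverting every element of B; and if H is not an elementary abelian 2-group, B is the only abelian normal subgroup of index 2 with this property. -/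
theorem result {H : Type*} [Group H] [Finite H] (A : Subgroup H) (hA : A ≠ ⊤) (hD : ∀ x : H, x ∉ A → x ^ 2 = 1) :
    ∃ B : Subgroup H, B.Normal ∧ IsMulCommutative ↥B ∧ B.index = 2 ∧
      (∀ x : H, x ∉ B → x ^ 2 = 1 ∧ ∀ b ∈ B, x * b * x⁻¹ = b⁻¹) ∧
      (¬ (IsMulCommutative H ∧ ∀ x : H, x ^ 2 = 1) →
        ∀ B' : Subgroup H, B'.Normal → IsMulCommutative ↥B' → B'.index = 2 →
          (∀ x : H, x ∉ B' → x ^ 2 = 1 ∧ ∀ b ∈ B', x * b * x⁻¹ = b⁻¹) → B' = B) := by
  classical
  have hinv : ∀ x : H, x ∉ A → ∀ a ∈ A, x * a * x⁻¹ = a⁻¹ := by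
    intro x hx a ha
    have hxa : x * a ∉ A := fun h => hx (by simpa using A.mul_mem h (A.inv_mem ha))
    have h1 := hD x hx
    have h2 := hD _ hxa
    have h3 : x⁻¹ = x := by rw [inv_eq_iff_mul_eq_one, ← sq, h1]
    rw [h3, eq_inv_iff_mul_eq_one]
    rw [sq] at h2
    calc x * a * x * a = x * a * (x * a) := by group
      _ = 1 := h2
  obtain ⟨x0, hx0⟩ : ∃ x : H, x ∉ A := by
    by_contra hcon
    push Not at hcon
    exact hA (by rw [← top_le_iff]; intro y _; exact hcon y)
  have hAcomm : ∀ a ∈ A, ∀ b ∈ A, a * b = b * a := by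
    intro a ha b hb
    have h1 := hinv x0 hx0 (a * b) (A.mul_mem ha hb)
    have h2 : x0 * (a * b) * x0⁻¹ = (x0 * a * x0⁻¹) * (x0 * b * x0⁻¹) := by group
    rw [h2, hinv x0 hx0 a ha, hinv x0 hx0 b hb, ← mul_inv_rev] at h1
    exact (inv_injective h1).symm
  have hAn : A.Normal := by
    constructor
    intro a ha g
    by_cases hg : g ∈ A
    · exact A.mul_mem (A.mul_mem hg ha) (A.inv_mem hg)
    · rw [hinv g hg a ha]; exact A.inv_mem ha
  by_cases hel : ∀ x : H, x ^ 2 = 1
  · have hnt : Nontrivial H := ⟨x0, 1, fun h => hx0 (h ▸ A.one_mem)⟩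
    obtain ⟨B, hB⟩ := exists_index_two hel
    have hcomm : ∀ a b : H, a * b = b * a := by
      intro a b
      have ha := hel a
      have hb := hel b
      have hab := hel (a * b)
      have e1 : a⁻¹ = a := by rw [inv_eq_iff_mul_eq_one, ← sq, ha]
      have e2 : b⁻¹ = b := by rw [inv_eq_iff_mul_eq_one, ← sq, hb]
      have e3 : (a * b)⁻¹ = a * b := by rw [inv_eq_iff_mul_eq_one, ← sq, hab]
      rw [← e3, mul_inv_rev, e1, e2]
    refine ⟨B, Subgroup.normal_of_index_eq_two hB, ⟨⟨fun a b => Subtype.ext (hcomm a b)⟩⟩, hB, ?_, ?_⟩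
    · intro x _
      refine ⟨hel x, fun b _ => ?_⟩
      rw [hcomm x b, mul_inv_cancel_right]
      exact (inv_eq_iff_mul_eq_one.mpr (by rw [← sq, hel b])).symm
    · intro hne
      exact absurd ⟨⟨⟨hcomm⟩⟩, hel⟩ hne
  · push Not at hel
    obtain ⟨w, hw⟩ := hel
    have hwA : w ∈ A := by
      by_contra h
      exact hw (hD w h)
    have hA2 : ∀ x y : H, x ∉ A → y ∉ A → x * y ∈ A := by
      intro x y hx hy
      by_contra hxy
      have h1 := hinv _ hxy w hwA
      have h2 : x * y * w * (x * y)⁻¹ = x * (y * w * y⁻¹) * x⁻¹ := by group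
      rw [h2, hinv y hy w hwA, hinv x hx _ (A.inv_mem hwA), inv_inv] at h1
      apply hw
      rw [sq]
      nth_rewrite 1 [h1]
      simp
    have hAi : A.index = 2 := by
      rw [Subgroup.index_eq_two_iff]
      refine ⟨x0, fun b => ?_⟩
      by_cases hb : b ∈ A
      · exact Or.inr ⟨hb, fun h => hx0 (by simpa using A.mul_mem (A.inv_mem hb) h)⟩
      · exact Or.inl ⟨hA2 b x0 hb hx0, hb⟩
    refine ⟨A, hAn, ⟨⟨fun a b => Subtype.ext (hAcomm a a.2 b b.2)⟩⟩, hAi, fun x hx => ⟨hD x hx, hinv x hx⟩, ?_⟩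
    intro _ B' hB'n hB'c hB'i hB'
    by_contra hne
    have hcard : Nat.card A = Nat.card B' := by
      have h1 := Subgroup.index_mul_card A
      have h2 := Subgroup.index_mul_card B'
      rw [hAi] at h1; rw [hB'i] at h2
      omega
    have hex : ∃ x ∈ B', x ∉ A := by
      by_contra hcon
      push Not at hcon
      exact hne (Subgroup.eq_of_le_of_card_ge hcon hcard.le)
    obtain ⟨x, hxB, hxA⟩ := hex
    have hwB : w ∈ B' := by
      by_contra h
      exact hw (hB' w h).1
    have h1 := hinv x hxA w hwA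
    have h2 : x * w = w * x := congrArg Subtype.val (hB'c.is_comm.comm (⟨x, hxB⟩ : B') ⟨w, hwB⟩)
    rw [h2, mul_inv_cancel_right] at h1
    apply hw
    rw [sq]
    nth_rewrite 1 [h1]
    simp

end Cfsg.Agent.S4420
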