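import Cfsg.Statements.S4517
import Cfsg.Agent.H5.Block17

set_option autoImplicit false
open Cfsg

namespace Cfsg.Agent.S4517

/-- Let G be a finite group, M a maximal ideal of the algebraic integers containing 2, and k a natural number coprime to the order of G with g ^ k = g⁻¹ for every element g of odd order (so that g ↦ g ^ k induces a field automorphism of the character values inverting the roots of unity of odd order). If B is a 2-block of full defect (its defect equals the exponent of 2 in the order of G) that is stable under χ ↦ χ ∘ (· ^ k), then B is the principal 2-block. -/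
theorem result {G : Type*} [Group G] [Finite G] (M : Ideal Cfsg.AlgInt) (hM : Cfsg.IsPModular 2 M) (k : ℕ) (hk : Nat.Coprime k (Nat.card G)) (hk₂ : ∀ g : G, Odd (orderOf g) → g ^ k = g⁻¹) (B : Set (Cfsg.IrrCharacter G)) (hB : Cfsg.IsPBlock M B) (hdef : Cfsg.blockDefect 2 B = (Nat.card G).factorization 2) (hstab : ∀ χ ∈ B, ∃ ψ ∈ B, ∀ g : G, (ψ : G → ℂ) g = (χ : G → ℂ) (g ^ k)) : B = Cfsg.principalBlock M G := by
  have := Fintype.ofFinite G
  have hprime := Cfsg.Agent.H5.isPrime_of_isPModular hM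
  classical
  obtain ⟨χ, hχ, h0⟩ := Cfsg.Agent.H5.exists_height_zero hM hB
  have hodd : ¬ 2 ∣ Cfsg.charDegree (χ : G → ℂ) := by
    have h1 := Cfsg.Agent.H5.blockHeight_add (p := 2) hχ
    have h2 := Cfsg.Agent.H5.blockDefect_add (p := 2) B ⟨χ, hχ⟩
    intro hdv
    have h3 := (Nat.prime_two.dvd_iff_one_le_factorization (Cfsg.Agent.H5.charDegree_pos χ.2).ne').mp hdv
    omega
  have hpow : ∀ x : G, ¬ 2 ∣ orderOf x → x ^ k = x⁻¹ := fun x hx => hk₂ x (Nat.odd_iff.mpr (by omega))
  have hψ : ∀ χ : Cfsg.IrrCharacter G, ∃ ψ : Cfsg.IrrCharacter G, (ψ : G → ℂ) = fun g => (χ : G → ℂ) (g ^ k) :=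
    fun χ => ⟨⟨_, Cfsg.Agent.H5.isIrr_pow hk χ.2⟩, rfl⟩
  choose c hc using hψ
  have hcB : ∀ χ ∈ B, c χ ∈ B := by
    intro χ hχ
    obtain ⟨ψ, hψ, hψ'⟩ := hstab χ hχ
    have : c χ = ψ := Subtype.ext ((hc χ).trans (funext fun g => (hψ' g).symm))
    rwa [this]
  have hbij := Cfsg.Agent.H5.powCoprime_bijective' (G := G) hk
  have hcinj : Function.Injective c := by
    intro a b hab
    apply Subtype.ext
    funext g
    obtain ⟨h, rfl⟩ := hbij.2 g
    have h1 := congrFun (hc a) h
    have h2 := congrFun (hc b) h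
    rw [hab] at h1
    exact (h1.symm.trans h2)
  have himg : (Cfsg.Agent.H5.bF B).image c = Cfsg.Agent.H5.bF B := by
    apply Finset.eq_of_subset_of_card_le
    · intro ψ hψ
      obtain ⟨χ, hχ, rfl⟩ := Finset.mem_image.mp hψ
      exact Cfsg.Agent.H5.mem_bF.mpr (hcB χ (Cfsg.Agent.H5.mem_bF.mp hχ))
    · rw [Finset.card_image_of_injective _ hcinj]
  refine Cfsg.Agent.H5.eq_principal_of_sym hM hB (fun x hx => ?_) hχ hodd (fun x hx => ?_)
  · unfold Cfsg.blockCoeff
    rw [Cfsg.Agent.H5.finsum_mem_bF, Cfsg.Agent.H5.finsum_mem_bF]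
    congr 1
    nth_rewrite 2 [← himg]
    rw [Finset.sum_image (fun a _ b _ h => hcinj h)]
    refine Finset.sum_congr rfl fun ψ _ => ?_
    have e1 := congrFun (hc ψ) 1
    have e2 := congrFun (hc ψ) x
    rw [e1, e2, one_pow, hpow x hx]
  · have h1 : Cfsg.centralChar (χ : G → ℂ) x⁻¹ = Cfsg.centralChar (c χ : G → ℂ) x := by
      unfold Cfsg.centralChar
      have e1 := congrFun (hc χ) 1
      have e2 := congrFun (hc χ) x
      rw [e1, e2, one_pow, hpow x hx, Cfsg.Agent.H5.centralizer_inv_singleton]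
    rw [h1]
    exact Cfsg.Agent.H5.sameBlock_symm (Cfsg.Agent.H5.IsPBlock.sameBlock hB hχ (hcB χ hχ)) x

end Cfsg.Agent.S4517
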