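import Cfsg.Statements.S4540
import Cfsg.Agent.H5.W56

set_option autoImplicit false
open Cfsg

namespace Cfsg.Agent.S4540

/-- Let B be a 2-block of the finite group G (relative to a maximal ideal M of the algebraic integers containing 2) of defect d with defect group D. Let z be an element of D commuting with every element of D, and let b be a block of the centralizer C of z with defect group D that induces B (a major subsection (z, b)). If b has 2-regular rank at most three, then 3·k(B) ≤ 3·k₀(B) + 2·Σ 2 ^ h(χ), where k(B) is the number of members of B, k₀(B) the number of members of height zero, and the sum runs over the members χ of B of positive height h(χ); this bound is at most 3·2 ^ d, so in particular B contains at most 2 ^ d irreducible characters. -/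
theorem result {G : Type*} [Group G] [Finite G] (M : Ideal Cfsg.AlgInt) (hM : Cfsg.IsPModular 2 M) (B : Set (Cfsg.IrrCharacter G)) (hB : Cfsg.IsPBlock M B) (D : Subgroup G) (hD : Cfsg.IsDefectGroup 2 M B D) (z : G) (hzD : z ∈ D) (hzc : ∀ d ∈ D, d * z = z * d) (b : Set (Cfsg.IrrCharacter ↥(Subgroup.centralizer ({z} : Set G)))) (hb : Cfsg.IsInducedBlock M (Subgroup.centralizer ({z} : Set G)) b B) (hbD : Cfsg.IsDefectGroup 2 M b (D.subgroupOf (Subgroup.centralizer ({z} : Set G)))) (hl : Cfsg.blockRank 2 b ≤ 3) : 3 * Nat.card B ≤ 3 * Nat.card {χ : Cfsg.IrrCharacter G // χ ∈ B ∧ Cfsg.blockHeight 2 B (χ : G → ℂ) = 0} + 2 * (∑ᶠ χ ∈ {χ : Cfsg.IrrCharacter G | χ ∈ B ∧ 1 ≤ Cfsg.blockHeight 2 B (χ : G → ℂ)}, 2 ^ Cfsg.blockHeight 2 B (χ : G → ℂ)) ∧ 3 * Nat.card {χ : Cfsg.IrrCharacter G // χ ∈ B ∧ Cfsg.blockHeight 2 B (χ : G → ℂ) = 0} + 2 * (∑ᶠ χ ∈ {χ : Cfsg.IrrCharacter G | χ ∈ B ∧ 1 ≤ Cfsg.blockHeight 2 B (χ : G → ℂ)}, 2 ^ Cfsg.blockHeight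 2 B (χ : G → ℂ)) ≤ 3 * 2 ^ Cfsg.blockDefect 2 B := by
  open Cfsg.Agent.H5 ComplexConjugate in
  classical
  have hprime := isPrime_of_isPModular hM
  have hfG : Fintype G := Fintype.ofFinite G
  have hfC : Fintype (Subgroup.centralizer ({z} : Set G)) := Fintype.ofFinite _
  obtain ⟨hbd, j, hj⟩ := defect_center hM hB hD hzD hzc hb.1 hbD
  have hcard : (bF B).card = Nat.card B := card_bF B
  have hfs : (∑ᶠ χ ∈ {χ : Cfsg.IrrCharacter G | χ ∈ B ∧ 1 ≤ Cfsg.blockHeight 2 B (χ : G → ℂ)}, 2 ^ Cfsg.blockHeight 2 B (χ : G → ℂ)) =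
      ∑ χ ∈ (bF B).filter (fun χ : Cfsg.IrrCharacter G => 1 ≤ Cfsg.blockHeight 2 B (χ : G → ℂ)), 2 ^ Cfsg.blockHeight 2 B (χ : G → ℂ) := by
    have hset : {χ : Cfsg.IrrCharacter G | χ ∈ B ∧ 1 ≤ Cfsg.blockHeight 2 B (χ : G → ℂ)} =
        (((bF B).filter (fun χ : Cfsg.IrrCharacter G => 1 ≤ Cfsg.blockHeight 2 B (χ : G → ℂ)) : Finset (Cfsg.IrrCharacter G)) : Set (Cfsg.IrrCharacter G)) := by
      ext χ
      simp [mem_bF]
    rw [hset, finsum_mem_coe_finset]
  rw [hfs, ← card_bZ, ← hcard]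
  refine ⟨?_, hk_bound hM hj rfl hB hb hbd hl⟩
  have hsplit : (bF B).card = (bZ 2 B).card + ((bF B).filter (fun χ : Cfsg.IrrCharacter G => 1 ≤ Cfsg.blockHeight 2 B (χ : G → ℂ))).card := by
    rw [← Finset.card_filter_add_card_filter_not (s := bF B) (fun χ : Cfsg.IrrCharacter G => Cfsg.blockHeight 2 B (χ : G → ℂ) = 0)]
    have e1 : (bF B).filter (fun χ : Cfsg.IrrCharacter G => Cfsg.blockHeight 2 B (χ : G → ℂ) = 0) = bZ 2 B := by
      ext χ
      rw [Finset.mem_filter, mem_bF, mem_bZ]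
    have e2 : (bF B).filter (fun χ : Cfsg.IrrCharacter G => ¬ Cfsg.blockHeight 2 B (χ : G → ℂ) = 0) =
        (bF B).filter (fun χ : Cfsg.IrrCharacter G => 1 ≤ Cfsg.blockHeight 2 B (χ : G → ℂ)) := by
      ext χ
      rw [Finset.mem_filter, Finset.mem_filter]
      constructor
      · rintro ⟨h1, h2⟩; exact ⟨h1, by omega⟩
      · rintro ⟨h1, h2⟩; exact ⟨h1, by omega⟩
    rw [e1, e2]
  have h1 : ((bF B).filter (fun χ : Cfsg.IrrCharacter G => 1 ≤ Cfsg.blockHeight 2 B (χ : G → ℂ))).card * 2 ≤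
      ∑ χ ∈ (bF B).filter (fun χ : Cfsg.IrrCharacter G => 1 ≤ Cfsg.blockHeight 2 B (χ : G → ℂ)), 2 ^ Cfsg.blockHeight 2 B (χ : G → ℂ) := by
    rw [← smul_eq_mul]
    apply Finset.card_nsmul_le_sum
    intro χ hχ
    rw [Finset.mem_filter] at hχ
    calc 2 = 2 ^ 1 := by norm_num
      _ ≤ 2 ^ Cfsg.blockHeight 2 B (χ : G → ℂ) := Nat.pow_le_pow_right (by norm_num) hχ.2
  rw [hsplit]
  omega

end Cfsg.Agent.S4540
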