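import Cfsg.Statements.S4541
import Cfsg.Agent.H5.W52

set_option autoImplicit false
open Cfsg

namespace Cfsg.Agent.S4541

/-- Let B be a 2-block of the finite group G (relative to a maximal ideal M of the algebraic integers containing 2), u a 2-element, and b a block of the centralizer of u inducing B (a subsection (u, b)), of defect q and 2-regular rank l; write s for the integer square root of l and k₀(B) for the number of members of B of height zero. If s is odd then k₀(B) ≤ s·2 ^ q, and otherwise (s + 1)·k₀(B) ≤ l·2 ^ q; in particular k₀(B) ≤ 2 ^ q when l ≤ 3. -/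
theorem result {G : Type*} [Group G] [Finite G] (M : Ideal Cfsg.AlgInt) (hM : Cfsg.IsPModular 2 M) (B : Set (Cfsg.IrrCharacter G)) (hB : Cfsg.IsPBlock M B) (u : G) (hu : ∃ j : ℕ, orderOf u = 2 ^ j) (b : Set (Cfsg.IrrCharacter ↥(Subgroup.centralizer ({u} : Set G)))) (hb : Cfsg.IsInducedBlock M (Subgroup.centralizer ({u} : Set G)) b B) : (Odd (Nat.sqrt (Cfsg.blockRank 2 b)) → Nat.card {χ : Cfsg.IrrCharacter G // χ ∈ B ∧ Cfsg.blockHeight 2 B (χ : G → ℂ) = 0} ≤ Nat.sqrt (Cfsg.blockRank 2 b) * 2 ^ Cfsg.blockDefect 2 b) ∧ (¬ Odd (Nat.sqrt (Cfsg.blockRank 2 b)) → (Nat.sqrt (Cfsg.blockRank 2 b) + 1) * Nat.card {χ : Cfsg.IrrCharacter G // χ ∈ B ∧ Cfsg.blockHeight 2 B (χ : G → ℂ) = 0} ≤ Cfsg.blockRank 2 b * 2 ^ Cfsg.blockDefect 2 b) ∧ (Cfsg.blockRank 2 b ≤ 3 → Nat.card {χ : Cfsg.IrrCharacter G // χ ∈ B ∧ Cfsg.blockHeight 2 B (χ : G → ℂ) = 0} ≤ 2 ^ Cfsg.blockDefect 2 b) := by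
  open Cfsg.Agent.H5 ComplexConjugate in
  classical
  have hprime := isPrime_of_isPModular hM
  have hfG : Fintype G := Fintype.ofFinite G
  have hfC : Fintype (Subgroup.centralizer ({u} : Set G)) := Fintype.ofFinite _
  obtain ⟨j, hj⟩ := hu
  obtain ⟨a, ha, h1, h2⟩ := k0_odd hM hj rfl hB hb
  rw [card_bZ] at h1 h2
  obtain ⟨k, hk⟩ : ∃ k, k = Nat.card {χ : Cfsg.IrrCharacter G // χ ∈ B ∧ Cfsg.blockHeight 2 B (χ : G → ℂ) = 0} := ⟨_, rfl⟩
  obtain ⟨l, hl⟩ : ∃ l, l = Cfsg.blockRank 2 b := ⟨_, rfl⟩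
  obtain ⟨q, hq⟩ : ∃ q, q = 2 ^ Cfsg.blockDefect 2 b := ⟨_, rfl⟩
  rw [← hk, ← hq] at h1
  rw [← hk, ← hq, ← hl] at h2
  rw [← hk, ← hq, ← hl]
  have hqpos : 0 < q := by rw [hq]; positivity
  obtain ⟨n, hn⟩ : ∃ n, n = Nat.sqrt l := ⟨_, rfl⟩
  have hn1 : n * n ≤ l := by rw [hn]; exact Nat.sqrt_le l
  have hn2 : l < (n + 1) * (n + 1) := by rw [hn]; exact Nat.sqrt_lt.mp (Nat.lt_succ_self _)
  rw [← hn]
  have hA : Odd n → k ≤ n * q := by
    intro hodd
    obtain ⟨t, ht⟩ := hodd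
    obtain ⟨s, hs⟩ := ha
    rcases Nat.lt_or_ge a (n + 1) with h3 | h3
    · calc k ≤ q * a := h1
        _ ≤ q * n := Nat.mul_le_mul_left _ (by omega)
        _ = n * q := mul_comm _ _
    · have h4 : n + 2 ≤ a := by omega
      have h5 : k * (n + 2) ≤ q * l := (Nat.mul_le_mul_left _ h4).trans h2
      have h6 : l ≤ n * (n + 2) := by nlinarith
      have h7 : k * (n + 2) ≤ (n * q) * (n + 2) := by
        calc k * (n + 2) ≤ q * l := h5
          _ ≤ q * (n * (n + 2)) := Nat.mul_le_mul_left _ h6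
          _ = (n * q) * (n + 2) := by ring
      exact Nat.le_of_mul_le_mul_right h7 (by omega)
  have hB' : ¬ Odd n → (n + 1) * k ≤ l * q := by
    intro hodd
    rw [Nat.not_odd_iff_even] at hodd
    obtain ⟨t, ht⟩ := hodd
    obtain ⟨s, hs⟩ := ha
    rcases Nat.lt_or_ge a (n + 1) with h3 | h3
    · have h4 : a + 1 ≤ n := by omega
      obtain ⟨m, hm⟩ : ∃ m, n = m + 1 := ⟨n - 1, by omega⟩
      have h5 : k ≤ q * m := h1.trans (Nat.mul_le_mul_left _ (by omega))
      calc (n + 1) * k ≤ (n + 1) * (q * m) := Nat.mul_le_mul_left _ h5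
        _ ≤ l * q := by
          have h6 : (n + 1) * m ≤ l := by rw [hm] at hn1 ⊢; nlinarith
          calc (n + 1) * (q * m) = ((n + 1) * m) * q := by ring
            _ ≤ l * q := Nat.mul_le_mul_right _ h6
    · calc (n + 1) * k ≤ a * k := Nat.mul_le_mul_right _ h3
        _ = k * a := mul_comm _ _
        _ ≤ q * l := h2
        _ = l * q := mul_comm _ _
  refine ⟨hA, hB', ?_⟩
  intro hl3
  have hn3 : n = 0 ∨ n = 1 := by
    have : n < 2 := by
      by_contra h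
      push Not at h
      nlinarith
    omega
  rcases hn3 with h | h
  · have h3 := hB' (by rw [h]; decide)
    rw [h] at h3 hn2
    have h4 : l = 0 := by omega
    rw [h4] at h3
    omega
  · have h3 := hA (by rw [h]; decide)
    rw [h, one_mul] at h3
    exact h3

end Cfsg.Agent.S4541
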