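import Cfsg.Statements.S4551
import Cfsg.Agent.H5.W51

set_option autoImplicit false
open Cfsg

namespace Cfsg.Agent.S4551

/-- Let N be a normal subgroup of the finite group G of index prime to p, P a Sylow p-subgroup of G with G = N·C_G(P), and M a maximal ideal of the algebraic integers containing p. Then restriction to N is a bijection from the principal p-block of G onto the principal p-block of N: every member of the principal block of G restricts to a member of the principal block of N, and every member of the principal block of N is the restriction of exactly one member of the principal block of G. -/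
theorem result {G : Type*} [Group G] [Finite G] (p : ℕ) [Fact p.Prime] (M : Ideal Cfsg.AlgInt) (hM : Cfsg.IsPModular p M) (N : Subgroup G) [N.Normal] (hidx : ¬ p ∣ N.index) (P : Sylow p G) (hsup : N ⊔ Subgroup.centralizer ((P : Subgroup G) : Set G) = ⊤) : (∀ χ ∈ Cfsg.principalBlock M G, ∃ θ ∈ Cfsg.principalBlock M ↥N, ∀ n : N, (χ : G → ℂ) n = (θ : N → ℂ) n) ∧ ∀ θ ∈ Cfsg.principalBlock M ↥N, ∃! χ : Cfsg.IrrCharacter G, χ ∈ Cfsg.principalBlock M G ∧ ∀ n : N, (χ : G → ℂ) n = (θ : N → ℂ) n := by
  open Cfsg.Agent.H5 ComplexConjugate in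
  classical
  have hprime := isPrime_of_isPModular hM
  have hfG : Fintype G := Fintype.ofFinite G
  have hfN : Fintype N := Fintype.ofFinite N
  have hfact : Fact p.Prime := ⟨hM.1⟩
  have hPN : (P : Subgroup G) ≤ N := by
    intro x hx
    obtain ⟨k, hk⟩ := P.2 ⟨x, hx⟩
    have h1 : x ^ p ^ k = 1 := congrArg Subtype.val hk
    have h4 : ((QuotientGroup.mk' N) x) ^ (p ^ k) = 1 := by rw [← map_pow, h1, map_one]
    have h5 : orderOf ((QuotientGroup.mk' N) x) ∣ p ^ k := orderOf_dvd_of_pow_eq_one h4
    have h6 : orderOf ((QuotientGroup.mk' N) x) ∣ N.index := orderOf_dvd_natCard _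
    have h7 : Nat.Coprime (p ^ k) N.index := Nat.Coprime.pow_left _ ((hM.1.coprime_iff_not_dvd).mpr hidx)
    have h8 := Nat.eq_one_of_dvd_coprimes h7 h5 h6
    exact (QuotientGroup.eq_one_iff _).mp (orderOf_eq_one_iff.mp h8)
  refine ⟨?_, ?_⟩
  · intro χ hχ
    obtain ⟨θ, hθ⟩ := exists_under (N := N) χ
    have hθB := under_principal hM hθ hχ
    exact ⟨θ, hθB, fun n => iso_main hM hidx P hPN hsup hθB hχ hθ n⟩
  · intro θ hθ
    obtain ⟨χ, hχ, hover⟩ := principal_exists_over (G := G) hM hθ
    refine ⟨χ, ⟨hχ, fun n => iso_main hM hidx P hPN hsup hθ hχ hover n⟩, ?_⟩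
    rintro ψ ⟨hψ, hψ2⟩
    have hover' : classInner (fun n : N => (ψ : G → ℂ) n) (θ : N → ℂ) ≠ 0 := by
      have e : (fun n : N => (ψ : G → ℂ) n) = (θ : N → ℂ) := funext hψ2
      rw [e, classInner_irr_self]
      exact one_ne_zero
    exact (iso_unique hM hidx P hPN hsup hθ hχ hover hψ hover').symm

end Cfsg.Agent.S4551
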