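import Cfsg.Statements.S4566
import Cfsg.Agent.H4.Glau15
-- import your own Cfsg.Agent.* helpers here

set_option autoImplicit false
open Cfsg

namespace Cfsg.Agent.S4566

/-- Let N be a central subgroup of the finite group G, ψ a faithful irreducible (hence degree-one) character of N, and χ an irreducible character of G whose restriction to N contains ψ. If g ∈ G and some x ∈ G has commutator x⁻¹ g⁻¹ x g in N but different from 1, then χ g = 0. -/
theorem result {G : Type*} [Group G] [Fintype G] (N : Subgroup G) [Fintype N] (hN : N ≤ Subgroup.center G) (ψ : Cfsg.IrrCharacter ↥N) (hfaith : ∀ n : ↥N, (ψ : ↥N → ℂ) n = (ψ : ↥N → ℂ) 1 → n = 1) (χ : Cfsg.IrrCharacter G) (hover : Cfsg.classInner (fun n : ↥N => (χ : G → ℂ) n) (ψ : ↥N → ℂ) ≠ 0) (g x : G) (hcomm : x⁻¹ * g⁻¹ * x * g ∈ N) (hne : x⁻¹ * g⁻¹ * x * g ≠ 1) : (χ : G → ℂ) g = 0 := by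
  classical
  obtain ⟨lam, hlam⟩ := Cfsg.Agent.H4.central_lin hN χ.2
  have hNab : (⊤ : Subgroup N) ≤ Subgroup.center N := by
    intro z _
    rw [Subgroup.mem_center_iff]
    intro y
    apply Subtype.ext
    exact Subgroup.mem_center_iff.mp (hN z.2) (y : G)
  obtain ⟨mu, hmu⟩ := Cfsg.Agent.H4.central_lin hNab ψ.2
  obtain ⟨n0, hn0⟩ : ∃ n0 : N, (n0 : G) = x⁻¹ * g⁻¹ * x * g := ⟨⟨_, hcomm⟩, rfl⟩
  have hn01 : n0 ≠ 1 := by
    intro h
    rw [h] at hn0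
    exact hne hn0.symm
  have hlam1 : (lam n0 : ℂ) ≠ 1 := by
    intro h1
    have hS : (∑ n : N, (χ : G → ℂ) n * (starRingEnd ℂ) ((ψ : N → ℂ) n)) ≠ 0 := by
      intro h
      apply hover
      unfold Cfsg.classInner
      rw [h, mul_zero]
    have h2 : (∑ n : N, (χ : G → ℂ) n * (starRingEnd ℂ) ((ψ : N → ℂ) n)) =
        (starRingEnd ℂ) (mu ⟨n0, Subgroup.mem_top _⟩ : ℂ) * ∑ n : N, (χ : G → ℂ) n * (starRingEnd ℂ) ((ψ : N → ℂ) n) := by
      refine (Equiv.sum_comp (Equiv.mulLeft n0) (fun n : N => (χ : G → ℂ) n * (starRingEnd ℂ) ((ψ : N → ℂ) n))).symm.trans ?_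
      rw [Finset.mul_sum]
      refine Finset.sum_congr rfl ?_
      intro n _
      have e1 : (χ : G → ℂ) ((Equiv.mulLeft n0 n : N) : G) = (χ : G → ℂ) n := by
        have := hlam n0 (n : G)
        rw [h1, one_mul] at this
        exact this
      have e2 : (ψ : N → ℂ) (Equiv.mulLeft n0 n) = (mu ⟨n0, Subgroup.mem_top _⟩ : ℂ) * (ψ : N → ℂ) n := hmu ⟨n0, Subgroup.mem_top _⟩ n
      rw [e1, e2, map_mul]; ring
    have h3 : (starRingEnd ℂ) (mu ⟨n0, Subgroup.mem_top _⟩ : ℂ) = 1 := by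
      have h4 : ((starRingEnd ℂ) (mu ⟨n0, Subgroup.mem_top _⟩ : ℂ) - 1) * (∑ n : N, (χ : G → ℂ) n * (starRingEnd ℂ) ((ψ : N → ℂ) n)) = 0 := by
        rw [sub_mul, one_mul, ← h2, sub_self]
      rcases mul_eq_zero.mp h4 with h5 | h5
      · exact sub_eq_zero.mp h5
      · exact absurd h5 hS
    have h4 : (mu ⟨n0, Subgroup.mem_top _⟩ : ℂ) = 1 := by
      have := congrArg (starRingEnd ℂ) h3
      rwa [Complex.conj_conj, map_one] at this
    apply hn01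
    apply hfaith
    have := hmu ⟨n0, Subgroup.mem_top _⟩ 1
    rw [h4, one_mul] at this
    simpa using this
  have hclass : ∀ a b : G, (χ : G → ℂ) (a * b * a⁻¹) = (χ : G → ℂ) b := by
    obtain ⟨χ, n, ρ, hρ, rfl⟩ := χ
    intro a b
    exact ρ.char_conj b a
  have h5 : (χ : G → ℂ) g = ((lam n0⁻¹ : ℂˣ) : ℂ) * (χ : G → ℂ) g := by
    rw [← hlam]
    have h6 : ((n0⁻¹ : N) : G) * g = x⁻¹ * g * x⁻¹⁻¹ := by
      have hz : ((n0⁻¹ : N) : G) * g = g * ((n0⁻¹ : N) : G) := (Subgroup.mem_center_iff.mp (hN (n0⁻¹ : N).2) g).symm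
      rw [hz, Subgroup.coe_inv, hn0]; group
    rw [h6, hclass]
  have h7 : ((lam n0⁻¹ : ℂˣ) : ℂ) ≠ 1 := by
    intro h
    apply hlam1
    rw [map_inv] at h
    have h8 : (lam n0)⁻¹ = 1 := Units.ext h
    rw [inv_eq_one.mp h8]; rfl
  have h9 : (((lam n0⁻¹ : ℂˣ) : ℂ) - 1) * (χ : G → ℂ) g = 0 := by
    rw [sub_mul, one_mul, ← h5, sub_self]
  exact (mul_eq_zero.mp h9).resolve_left (sub_ne_zero.mpr h7)

end Cfsg.Agent.S4566
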