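import Cfsg.Statements.S4582
import Mathlib

set_option autoImplicit false
open Cfsg

namespace Cfsg.Agent.S4582

open Subgroup MulAction

theorem eq_one_of_odd_pow {A : Type*} [Group A] (hA : IsPGroup 2 A) {a : A} {k : ℕ} (hk : Odd k) (h : a ^ k = 1) : a = 1 := by
  obtain ⟨n, hn⟩ := hA a
  have h1 : orderOf a ∣ k := orderOf_dvd_of_pow_eq_one h
  have h2 : orderOf a ∣ 2 ^ n := orderOf_dvd_of_pow_eq_one hn
  have h3 : Nat.Coprime k (2 ^ n) := Nat.Coprime.pow_right n (Nat.Coprime.symm (Nat.coprime_two_left.2 hk))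
  exact orderOf_eq_one_iff.1 (Nat.eq_one_of_dvd_coprimes h3 h1 h2)

theorem core {G : Type*} [Group G] [Finite G] (N : Subgroup G) [hNn : N.Normal] (P : Subgroup G) (hPN : P ⊔ N = ⊤)
    (h2 : IsPGroup 2 P) (hidx : Odd P.index)
    (hP : ∀ x ∈ P, x ^ 2 ∈ (P ⊓ N) ⊔ ⁅P, P⁆)
    (hQ : ∀ x ∈ P ⊓ N, x ^ 2 ∈ ⁅P ⊓ N, P ⊓ N⁆)
    (hodd : Odd (Nat.card (Abelianization N))) :
    ∀ x ∈ P, x ^ 2 ∈ ⁅P, P⁆ := by
  classical
  intro g hg
  have hA2 : IsPGroup 2 (Abelianization P) := h2.of_surjective (Abelianization.of) (QuotientGroup.mk'_surjective _)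
  have hof : ∀ (x : G) (hx : x ∈ P), x ∈ ⁅P, P⁆ ↔ Abelianization.of (⟨x, hx⟩ : P) = 1 := by
    intro x hx
    rw [show ⁅P, P⁆ = (commutator P).map P.subtype by
      rw [commutator_def, Subgroup.map_commutator, ← MonoidHom.range_eq_map, Subgroup.range_subtype]]
    rw [← MonoidHom.mem_ker, Abelianization.ker_of]
    constructor
    · rintro ⟨y, hy, hyx⟩
      have : y = ⟨x, hx⟩ := Subtype.ext hyx
      rw [← this]; exact hy
    · intro h
      exact ⟨_, h, rfl⟩
  have hkey : ∀ (n : ℕ) (t : G) (hc : t⁻¹ * g ^ n * t ∈ P), (Abelianization.of (⟨_, hc⟩ : P)) ^ 2 = (Abelianization.of (⟨g, hg⟩ : P)) ^ (2 * n) := by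
    intro n t hc
    obtain ⟨a, ha, ν, hν, rfl⟩ := Subgroup.mem_sup_of_normal_right.1 (show t ∈ P ⊔ N by rw [hPN]; exact mem_top t)
    have hd : a⁻¹ * g ^ n * a ∈ P := mul_mem (mul_mem (inv_mem ha) (pow_mem hg n)) ha
    have he : (a⁻¹ * g ^ n * a)⁻¹ * ((a * ν)⁻¹ * g ^ n * (a * ν)) ∈ P ⊓ N := by
      refine Subgroup.mem_inf.2 ⟨P.mul_mem (P.inv_mem hd) hc, ?_⟩
      have : (a⁻¹ * g ^ n * a)⁻¹ * ((a * ν)⁻¹ * g ^ n * (a * ν)) = ((a⁻¹ * g ^ n * a)⁻¹ * ν⁻¹ * (a⁻¹ * g ^ n * a)⁻¹⁻¹) * ν := by group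
      rw [this]
      exact mul_mem (hNn.conj_mem _ (inv_mem hν) _) hν
    have h3 : (⟨_, hc⟩ : P) = (⟨a, ha⟩ : P)⁻¹ * (⟨g, hg⟩ : P) ^ n * ⟨a, ha⟩ * ⟨_, he.1⟩ := by
      apply Subtype.ext
      show (a * ν)⁻¹ * g ^ n * (a * ν) = a⁻¹ * g ^ n * a * ((a⁻¹ * g ^ n * a)⁻¹ * ((a * ν)⁻¹ * g ^ n * (a * ν)))
      group
    have h4 : (Abelianization.of (⟨_, he.1⟩ : P)) ^ 2 = 1 := by
      rw [← map_pow]
      exact (hof _ _).1 (Subgroup.commutator_mono inf_le_left inf_le_left (hQ _ he))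
    rw [h3, map_mul, map_mul, map_mul, map_pow, map_inv, mul_pow, h4, mul_one]
    rw [mul_comm (Abelianization.of (⟨a, ha⟩ : P))⁻¹, inv_mul_cancel_right, ← pow_mul, mul_comm n 2]
  have hV : ∀ V : G →* Abelianization P, (∀ x ∈ ⁅P, P⁆, V x = 1) ∧ ∀ x ∈ N, V x = 1 := by
    intro V
    constructor
    · intro x hx
      have h3 : x ∈ commutator G := Subgroup.commutator_mono le_top le_top hx
      exact (Abelianization.commutator_subset_ker V) h3
    · intro x hx
      apply eq_one_of_odd_pow hA2 hodd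
      have h3 : Abelianization.lift (V.comp N.subtype) (Abelianization.of (⟨x, hx⟩ : N)) = V x := by
        rw [Abelianization.lift_apply_of]; rfl
      rw [← h3, ← map_pow, pow_card_eq_one', map_one]
  obtain ⟨hV1, hV2⟩ := hV (MonoidHom.transfer (Abelianization.of (G := P)))
  have h5 : (MonoidHom.transfer (Abelianization.of (G := P))) g ^ 2 = 1 := by
    rw [← map_pow]
    have h6 := hP g hg
    rw [← MonoidHom.mem_ker]
    refine (sup_le ?_ ?_ : (P ⊓ N) ⊔ ⁅P, P⁆ ≤ _) h6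
    · intro x hx; exact hV2 x hx.2
    · intro x hx; exact hV1 x hx
  have h7 : (Abelianization.of (⟨g, hg⟩ : P)) ^ (2 * P.index) = 1 := by
    rw [← h5]
    letI := P.fintypeQuotientOfFiniteIndex
    rw [MonoidHom.transfer_eq_prod_quotient_orbitRel_zpowers_quot, ← Finset.prod_pow]
    rw [Finset.prod_congr rfl (fun q _ => hkey _ _ _), Finset.prod_pow_eq_pow_sum, ← Finset.mul_sum]
    congr 2
    rw [index_eq_sum_minimalPeriod P g]
  rw [pow_mul] at h7
  have h8 := eq_one_of_odd_pow hA2 hidx h7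
  rw [← map_pow] at h8
  exact (hof _ (pow_mem hg 2)).2 h8

/-- Let N be a normal subgroup of the finite group G, P a Sylow 2-subgroup of G and Q = P ∩ N. Suppose that P/QP' and Q/Q' are elementary abelian (every square of an element of P lies in the subgroup generated by Q and the derived subgroup of P, and every square of an element of Q lies in the derived subgroup of Q), and that the commutator factor group N/N' has odd order. Then P/P' is elementary abelian. -/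
theorem result {G : Type*} [Group G] [Finite G] (N : Subgroup G) [N.Normal] (P : Sylow 2 G)
    (hP : ∀ x ∈ (P : Subgroup G), x ^ 2 ∈ ((P : Subgroup G) ⊓ N) ⊔ ⁅(P : Subgroup G), (P : Subgroup G)⁆)
    (hQ : ∀ x ∈ (P : Subgroup G) ⊓ N, x ^ 2 ∈ ⁅(P : Subgroup G) ⊓ N, (P : Subgroup G) ⊓ N⁆)
    (hodd : Odd (Nat.card (Abelianization N))) :
    ∀ x ∈ (P : Subgroup G), x ^ 2 ∈ ⁅(P : Subgroup G), (P : Subgroup G)⁆ := by
  obtain ⟨M, hM⟩ : ∃ M, M = (P : Subgroup G) ⊔ N := ⟨_, rfl⟩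
  have hPM : (P : Subgroup G) ≤ M := hM ▸ le_sup_left
  have hNM : N ≤ M := hM ▸ le_sup_right
  have hmapP : ((P : Subgroup G).subgroupOf M).map M.subtype = P := by rw [Subgroup.subgroupOf_map_subtype, inf_eq_left.2 hPM]
  have hmapN : (N.subgroupOf M).map M.subtype = N := by rw [Subgroup.subgroupOf_map_subtype, inf_eq_left.2 hNM]
  have hmapi : ((P : Subgroup G).subgroupOf M ⊓ N.subgroupOf M).map M.subtype = (P : Subgroup G) ⊓ N := by
    rw [Subgroup.map_inf _ _ _ M.subtype_injective, hmapP, hmapN]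
  have hc1 : ∀ A B : Subgroup ↥M, (⁅A, B⁆ : Subgroup ↥M).map M.subtype = ⁅A.map M.subtype, B.map M.subtype⁆ := fun A B => Subgroup.map_commutator _ _ _
  have hmem : ∀ (A : Subgroup ↥M) (x : ↥M), x ∈ A ↔ (x : G) ∈ A.map M.subtype := by
    intro A x
    constructor
    · intro h; exact ⟨x, h, rfl⟩
    · rintro ⟨y, hy, hyx⟩
      have : y = x := Subtype.ext hyx
      rw [← this]; exact hy
  haveI : (N.subgroupOf M).Normal := inferInstance
  intro x hx
  have h1 := core (N.subgroupOf M) ((P : Subgroup G).subgroupOf M) ?_ ?_ ?_ ?_ ?_ ?_ ⟨x, hPM hx⟩ (Subgroup.mem_subgroupOf.2 hx)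
  · rw [hmem, hc1, hmapP] at h1
    exact h1
  · apply Subgroup.map_injective M.subtype_injective
    rw [Subgroup.map_sup, hmapP, hmapN, ← MonoidHom.range_eq_map, Subgroup.range_subtype, hM]
  · exact P.2.comap_of_injective M.subtype M.subtype_injective
  · have h3 : ((P : Subgroup G).subgroupOf M).index ∣ (P : Subgroup G).index := Subgroup.relIndex_dvd_index_of_le hPM
    have h4 : ¬ 2 ∣ (P : Subgroup G).index := P.not_dvd_index
    rw [← Nat.not_even_iff_odd, even_iff_two_dvd]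
    exact fun h => h4 (h.trans h3)
  · intro y hy
    rw [hmem, Subgroup.map_sup, hmapi, hc1, hmapP]
    exact hP y (Subgroup.mem_subgroupOf.1 hy)
  · intro y hy
    rw [hmem, hc1, hmapi]
    exact hQ y ⟨Subgroup.mem_subgroupOf.1 hy.1, Subgroup.mem_subgroupOf.1 hy.2⟩
  · have e : (N.subgroupOf M) ≃* N := Subgroup.subgroupOfEquivOfLe hNM
    rw [Nat.card_congr (MulEquiv.abelianizationCongr e).toEquiv]
    exact hodd

end Cfsg.Agent.S4582
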