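import Cfsg.Statements.S4591
import Cfsg.Agent.H5.W44

set_option autoImplicit false
open Cfsg

namespace Cfsg.Agent.S4591

/-- Let G be a finite group, p a prime and P a Sylow p-subgroup, and let N be the largest normal subgroup of G in which P has trivial centralizer (N is normal with C_N(P) = 1 and contains every normal subgroup with that property). Then the intersection of the kernels of the irreducible characters of G of degree prime to p is the normal core in G of the subgroup N·P' (P' the derived subgroup of P). In particular, when G has no nontrivial normal subgroup of order prime to p, that intersection is the normal core of P'. -/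
theorem result {G : Type*} [Group G] [Finite G] (p : ℕ) [Fact p.Prime] (P : Sylow p G) (N : Subgroup G) [N.Normal]
    (hN : N ⊓ Subgroup.centralizer ((P : Subgroup G) : Set G) = ⊥)
    (hmax : ∀ L : Subgroup G, L.Normal → L ⊓ Subgroup.centralizer ((P : Subgroup G) : Set G) = ⊥ → L ≤ N) :
    {g : G | ∀ χ : Cfsg.IrrCharacter G, ¬ p ∣ Cfsg.charDegree (χ : G → ℂ) → (χ : G → ℂ) g = (χ : G → ℂ) 1} =
      ((N ⊔ ⁅(P : Subgroup G), (P : Subgroup G)⁆).normalCore : Set G) := by
  open Cfsg.Agent.H5 ComplexConjugate in
  classical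
  have hfG : Fintype G := Fintype.ofFinite G
  have hp : p.Prime := Fact.out
  obtain ⟨M, hM⟩ := exists_isPModular hp
  have hNN : N.Normal := inferInstance
  obtain ⟨C, hC⟩ : ∃ C : Subgroup G, C = N ⊔ ⁅(P : Subgroup G), (P : Subgroup G)⁆ := ⟨_, rfl⟩
  ext g
  constructor
  · intro hg
    have hg' : g ∈ bKer {χ : IrrCharacter G | ¬ p ∣ charDegree (χ : G → ℂ)} := by
      rw [mem_bKer]
      intro χ hχ
      exact hg χ hχ
    obtain ⟨X, hXn, hXC, hKX⟩ := pdeg_struct hM P (K := bKer {χ : IrrCharacter G | ¬ p ∣ charDegree (χ : G → ℂ)})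
      (fun x hx χ hχ => (mem_bKer.mp hx) χ hχ)
    have hXN := hmax X hXn hXC
    have hle : bKer {χ : IrrCharacter G | ¬ p ∣ charDegree (χ : G → ℂ)} ≤ (N ⊔ ⁅(P : Subgroup G), (P : Subgroup G)⁆).normalCore := by
      rw [Subgroup.normal_le_normalCore]
      exact hKX.trans (sup_le_sup_right hXN _)
    exact hle hg'
  · intro hg χ hχ
    have hY : (N ⊔ ⁅(P : Subgroup G), (P : Subgroup G)⁆).normalCore.Normal := Subgroup.normalCore_normal _
    have hNY : N ≤ (N ⊔ ⁅(P : Subgroup G), (P : Subgroup G)⁆).normalCore := by
      rw [Subgroup.normal_le_normalCore]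
      exact le_sup_left
    exact pdeg_core hM P (N := N) hN hNY (Subgroup.normalCore_le _) hχ hg

end Cfsg.Agent.S4591
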