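import Cfsg.Statements.S4602
import Cfsg.Agent.H2.ActStab
import Cfsg.Agent.H5.V5
import Cfsg.Agent.L0.Coprime
import Cfsg.Agent.L0.Coprime2

set_option autoImplicit false
open Cfsg

namespace Cfsg.Agent.S4602

/-- Let G be a finite p-solvable group and q a prime different from p. Some Sylow p-subgroup of G normalizes some Sylow q-subgroup of G if and only if q does not divide the order of G/O_{p'}(G), the quotient by the largest normal subgroup of order prime to p. -/
theorem result {G : Type*} [Group G] [Finite G] (p q : ℕ) [Fact p.Prime] [Fact q.Prime] (hpq : p ≠ q) (hsolv : Cfsg.IsPSolvable p G) :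
    (∃ (P : Sylow p G) (Q : Sylow q G), (P : Subgroup G) ≤ Subgroup.normalizer ((Q : Subgroup G) : Set G)) ↔ ¬ q ∣ (Cfsg.pPrimeCore p G).index := by
    have hp := (Fact.out : p.Prime)
    have hq := (Fact.out : q.Prime)
    constructor
    · rintro ⟨P, Q, hPQ⟩
      set K := pPrimeCore p G with hK
      have hQK : (Q : Subgroup G) ≤ K := by
        set π := QuotientGroup.mk' K with hπ
        have hs : IsPSolvable p (G ⧸ K) := H2.psolvable_surj hsolv π (QuotientGroup.mk'_surjective K)
        haveI := Fintype.ofFinite (G ⧸ K)
        have hc := H5.psolv_centralizer_le hp hs (L0.pPrimeCore_quotient_pPrimeCore p G)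
        let P' : Sylow p (G ⧸ K) := P.mapSurjective (QuotientGroup.mk'_surjective K)
        have hP' : (P' : Subgroup (G ⧸ K)) = (P : Subgroup G).map π := rfl
        have hD : pCore p (G ⧸ K) ≤ (P : Subgroup G).map π := by rw [← hP']; exact L0.pCore_le_sylow P'
        have hcop : (pCore p (G ⧸ K)) ⊓ (Q : Subgroup G).map π = ⊥ := by
          apply L0.inf_eq_bot_of_coprime'
          exact IsPGroup.coprime_card_of_ne p q hpq _ _ (L0.pCore_isPGroup p _) (Q.isPGroup'.map π)
        have hle : (Q : Subgroup G).map π ≤ Subgroup.centralizer (pCore p (G ⧸ K) : Set (G ⧸ K)) := by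
          intro a ha
          rw [Subgroup.mem_centralizer_iff]
          intro d hd
          have h1 : d * a * d⁻¹ * a⁻¹ ∈ (pCore p (G ⧸ K)) ⊓ (Q : Subgroup G).map π := by
            constructor
            · have h2 : a * d⁻¹ * a⁻¹ ∈ pCore p (G ⧸ K) := Subgroup.Normal.conj_mem inferInstance _ (inv_mem hd) a
              have : d * a * d⁻¹ * a⁻¹ = d * (a * d⁻¹ * a⁻¹) := by group
              rw [this]; exact mul_mem hd h2
            · obtain ⟨x, hx, rfl⟩ := hD hd
              obtain ⟨y, hy, rfl⟩ := ha
              have h2 : x * y * x⁻¹ ∈ (Q : Subgroup G) := ((Subgroup.mem_normalizer_iff).1 (hPQ hx) y).1 hy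
              refine ⟨x * y * x⁻¹ * y⁻¹, mul_mem h2 (inv_mem hy), ?_⟩
              simp only [map_mul, map_inv]
          rw [hcop, Subgroup.mem_bot] at h1
          have h3 : d * a * d⁻¹ = a := mul_inv_eq_one.1 h1
          exact mul_inv_eq_iff_eq_mul.1 h3
        have hbot : (Q : Subgroup G).map π = ⊥ := by
          rw [eq_bot_iff, ← hcop]
          exact le_inf (hle.trans hc) le_rfl
        rw [Subgroup.map_eq_bot_iff, hπ, QuotientGroup.ker_mk'] at hbot
        exact hbot
      intro hdvd
      exact Q.not_dvd_index (hdvd.trans (Subgroup.index_dvd_of_le hQK))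
    · intro hnd
      set K := pPrimeCore p G with hK
      obtain ⟨P⟩ : Nonempty (Sylow p G) := inferInstance
      have hcop : (Nat.card (P : Subgroup G)).Coprime (Nat.card K) := by
        obtain ⟨n, hn⟩ := P.isPGroup'.exists_card_eq
        rw [hn]
        exact Nat.Coprime.pow_left _ (L0.pPrimeCore_coprime p G).symm
      have hnorm : (P : Subgroup G) ≤ Subgroup.normalizer (K : Set G) := by
        rw [Subgroup.normalizer_eq_top]; exact le_top
      obtain ⟨R, hR, hRn⟩ := L0.exists_invariant_sylow (p := q) hnorm hcop (Or.inl (by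
        haveI := P.isPGroup'.isNilpotent
        infer_instance))
      obtain ⟨S, hS⟩ := hR
      have hcard : Nat.card R = q ^ (Nat.card G).factorization q := by
        rw [← hS, Subgroup.card_map_of_injective K.subtype_injective, S.card_eq_multiplicity]
        congr 1
        rw [← Subgroup.card_mul_index K, Nat.factorization_mul Nat.card_pos.ne' Subgroup.index_ne_zero_of_finite,
          Finsupp.add_apply, Nat.factorization_eq_zero_of_not_dvd hnd, add_zero]
      exact ⟨P, Sylow.ofCard R hcard, hRn⟩

end Cfsg.Agent.S4602
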