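import Cfsg.Statements.S4611
import Cfsg.Agent.H4.PrinInter
import Cfsg.Agent.H4.Cliff3
import Cfsg.Agent.H4.Misc1

set_option autoImplicit false
open Cfsg

namespace Cfsg.Agent.S4611

/-- Let G be a finite solvable group and π a nonempty set of primes, each dividing the order of G; fix for each p in π a maximal ideal M p of the algebraic integers containing p. Then the only irreducible character lying in the principal p-block for every p in π is the principal character if and only if G is generated by the subgroups O_{p'}(G), p in π (the largest normal subgroups of order prime to p). -/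
theorem result {G : Type*} [Group G] [Finite G] [Group.IsSolvable G] (π : Set ℕ) (hπ : ∀ p ∈ π, p.Prime ∧ p ∣ Nat.card G) (hne : π.Nonempty) (M : ℕ → Ideal Cfsg.AlgInt) (hM : ∀ p ∈ π, Cfsg.IsPModular p (M p)) :
    (∀ χ : Cfsg.IrrCharacter G, (∀ p ∈ π, χ ∈ Cfsg.principalBlock (M p) G) → (χ : G → ℂ) = fun _ => 1) ↔
      ⨆ p ∈ π, Cfsg.pPrimeCore p G = ⊤ := by
    classical
    constructor
    · intro h
      by_contra hne
      set K : Subgroup G := ⨆ p ∈ π, pPrimeCore p G with hK
      haveI hKn : K.Normal := by
        rw [hK]
        exact Subgroup.biSup_normal π _ (fun p _ => inferInstance)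
      haveI : Nontrivial (G ⧸ K) := by
        rw [← not_subsingleton_iff_nontrivial]
        intro hs
        exact hne (QuotientGroup.subsingleton_iff.1 hs)
      obtain ⟨θ, hθ⟩ := H4.exists_irr_ne_triv (G ⧸ K)
      have h1 := H5.irr_inflate (N := K) θ
      have h2 := h ⟨_, h1⟩ (fun p hp => by
        rw [H4.principal_iff_ker (hπ p hp).1 (hM p hp)]
        intro g hg
        have hgK : g ∈ K := (le_iSup₂_of_le p hp le_rfl : pPrimeCore p G ≤ K) hg
        show (θ : G ⧸ K → ℂ) (QuotientGroup.mk g) = (θ : G ⧸ K → ℂ) (QuotientGroup.mk 1)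
        rw [(QuotientGroup.eq_one_iff g).2 hgK]; rfl)
      apply hθ
      apply Subtype.ext
      funext q
      obtain ⟨g, rfl⟩ := QuotientGroup.mk_surjective q
      exact congrFun h2 g
    · intro h χ hχ
      have hker : ∀ g : G, (χ : G → ℂ) g = (χ : G → ℂ) 1 := by
        have : (⨆ p ∈ π, pPrimeCore p G) ≤ H4.charKer (H5.IsIrr.isCharacter χ.2) := by
          apply iSup₂_le
          intro p hp g hg
          rw [H4.mem_charKer]
          exact (H4.principal_iff_ker (hπ p hp).1 (hM p hp) χ).1 (hχ p hp) g hg
        intro g
        rw [← H4.mem_charKer (H5.IsIrr.isCharacter χ.2)]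
        exact this (by rw [h]; exact Subgroup.mem_top g)
      obtain ⟨lam, hlam⟩ := H4.linear_of_comm_ker χ.2 (fun x y => hker _)
      funext g
      rw [hker g, hlam]
      simp

end Cfsg.Agent.S4611
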