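import Cfsg.Statements.S4619

-- import your own Cfsg.Agent.* helpers here

set_option autoImplicit false
open scoped Pointwise
open Cfsg Pointwise

namespace Cfsg.Agent.S4619

/-- Let P be a Sylow p-subgroup of the finite group G that is a trivial-intersection set: P meets each conjugate g P g⁻¹ with g outside N_G(P) trivially. Then for every nontrivial subgroup Q of P the normalizer of Q lies in the normalizer of P, and any g ∈ G conjugating Q into P lies in N_G(P). -/
theorem result {G : Type*} [Group G] [Finite G] (p : ℕ) [Fact p.Prime] (P : Sylow p G) (hTI : (∀ g : G, g ∉ Subgroup.normalizer ((P : Subgroup G) : Set G) → (P : Subgroup G) ⊓ (MulAut.conj g • (P : Subgroup G)) = ⊥)) (Q : Subgroup G) (hQ : Q ≤ (P : Subgroup G)) (hQ1 : Q ≠ ⊥) :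
    Subgroup.normalizer (Q : Set G) ≤ Subgroup.normalizer ((P : Subgroup G) : Set G) ∧
      ∀ g : G, MulAut.conj g • Q ≤ (P : Subgroup G) → g ∈ Subgroup.normalizer ((P : Subgroup G) : Set G) := by
  have key : ∀ g : G, MulAut.conj g • Q ≤ (P : Subgroup G) → g ∈ Subgroup.normalizer ((P : Subgroup G) : Set G) := by
    intro g hg
    by_contra hn
    have h1 := hTI g hn
    have h2 : MulAut.conj g • Q ≤ MulAut.conj g • (P : Subgroup G) := by
      rw [Subgroup.pointwise_smul_le_pointwise_smul_iff]; exact hQ
    have h3 : MulAut.conj g • Q = ⊥ := by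
      rw [eq_bot_iff, ← h1]; exact le_inf hg h2
    apply hQ1
    rw [Subgroup.eq_bot_iff_forall]
    intro q hq
    have h4 : MulAut.conj g • q ∈ MulAut.conj g • Q := Subgroup.smul_mem_pointwise_smul _ _ _ hq
    rw [h3, Subgroup.mem_bot] at h4
    exact (MulAut.conj g).injective (by rw [map_one]; exact h4)
  refine ⟨?_, key⟩
  intro g hg
  apply key
  intro y hy
  obtain ⟨q, hq, rfl⟩ := hy
  exact hQ ((Subgroup.mem_set_normalizer_iff.mp hg q).mp hq)

end Cfsg.Agent.S4619
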