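import Cfsg.Statements.S4620
import Cfsg.Agent.H4.TISimple

set_option autoImplicit false
open scoped Pointwise
open Cfsg

namespace Cfsg.Agent.S4620

/-- Let H be a finite group with no nontrivial normal p-subgroup and no nontrivial normal subgroup of order prime to p, whose Sylow p-subgroup P is nontrivial and a trivial-intersection set (P meets its conjugates by elements outside N_H(P) trivially). Then H has a unique minimal normal subgroup N; N is non-abelian simple with trivial centralizer in H (so H embeds in Aut(N)), and a Sylow p-subgroup of N is again a nontrivial trivial-intersection set in N. -/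
theorem result {H : Type*} [Group H] [Finite H] (p : ℕ) [Fact p.Prime] (hOp : Cfsg.pCore p H = ⊥) (hOp' : Cfsg.pPrimeCore p H = ⊥) (P : Sylow p H) (hP1 : (P : Subgroup H) ≠ ⊥)
    (hTI : ∀ g : H, g ∉ Subgroup.normalizer ((P : Subgroup H) : Set H) → (P : Subgroup H) ⊓ (MulAut.conj g • (P : Subgroup H)) = ⊥) :
    ∃ N : Subgroup H, N.Normal ∧ N ≠ ⊥ ∧ (∀ K : Subgroup H, K.Normal → K ≠ ⊥ → N ≤ K) ∧
      IsSimpleGroup N ∧ ¬ IsMulCommutative N ∧ Subgroup.centralizer (N : Set H) = ⊥ ∧
      ∀ Q : Sylow p N, (Q : Subgroup N) ≠ ⊥ ∧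
        ∀ n : N, n ∉ Subgroup.normalizer ((Q : Subgroup N) : Set N) → (Q : Subgroup N) ⊓ (MulAut.conj n • (Q : Subgroup N)) = ⊥ := by
    have hT : H4.TIS P := hTI
    haveI : Nontrivial H := by
      rw [← not_subsingleton_iff_nontrivial]
      intro hs
      exact hP1 (Subsingleton.elim _ _)
    obtain ⟨N, hNn, hN1, hNmin⟩ := H1.exists_minimal_normal (G := H)
    have hC := hT.cent hOp hOp' N hN1
    have hsimp := H4.ti_simple hOp hOp' P hT N hN1 hNmin
    have hNt : (⊤ : Subgroup N) ≠ ⊥ := by
      haveI : Nontrivial N := (Subgroup.nontrivial_iff_ne_bot N).2 hN1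
      exact top_ne_bot
    refine ⟨N, hNn, hN1, ?_, hsimp, ?_, hC, ?_⟩
    · intro K hK hK1
      rcases hNmin (N ⊓ K) inferInstance inf_le_left with h | h
      · exfalso
        apply hK1
        rw [eq_bot_iff, ← hC]
        intro k hk
        rw [Subgroup.mem_centralizer_iff]
        intro n hn
        exact (Subgroup.commute_of_normal_of_disjoint N K hNn hK (disjoint_iff.2 h) n k hn hk).eq
      · exact inf_eq_left.1 h
    · intro hcomm
      apply hN1
      rw [eq_bot_iff, ← hC]
      intro k hk
      rw [Subgroup.mem_centralizer_iff]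
      intro n hn
      have := hcomm.is_comm.comm (⟨n, hn⟩ : N) ⟨k, hk⟩
      exact congrArg Subtype.val this
    · intro Q
      refine ⟨?_, ?_⟩
      · have h1 := H4.dvd_card_of hOp' N ⊤ hNt
        rw [Subgroup.card_top] at h1
        exact Q.ne_bot_of_dvd_card h1
      · intro n hn
        exact hT.sub N Q n hn

end Cfsg.Agent.S4620
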