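import Cfsg.Statements.S4754
import Cfsg.Agent.H4.PowMap

set_option autoImplicit false
open Cfsg

namespace Cfsg.Agent.S4754

/-- For elements x, y of a finite group G, the conjugacy class of x y equals the set of all products of a conjugate of x with a conjugate of y if and only if χ(1) χ(a x a⁻¹ b y b⁻¹) = χ(x) χ(y) for all a, b ∈ G and every irreducible character χ. -/
theorem result {G : Type*} [Group G] [Finite G] (x y : G) : (∀ z : G, IsConj (x * y) z ↔ ∃ a b : G, z = a * x * a⁻¹ * (b * y * b⁻¹)) ↔ ∀ (a b : G) (χ : Cfsg.IrrCharacter G), (χ : G → ℂ) 1 * (χ : G → ℂ) (a * x * a⁻¹ * (b * y * b⁻¹)) = (χ : G → ℂ) x * (χ : G → ℂ) y := by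
    classical
    haveI := Fintype.ofFinite G
    constructor
    · intro h a b χ
      have h1 : ∀ a b : G, (χ : G → ℂ) (a * x * a⁻¹ * (b * y * b⁻¹)) = (χ : G → ℂ) (x * y) := by
        intro a b
        exact (H5.IsClassFunction.eq_of_isConj (H5.irr_classFun χ) ((h _).2 ⟨a, b, rfl⟩)).symm
      have h2 := H5.irr_sum_conj_mul χ.2 x y
      have h3 : ∑ t : G, (χ : G → ℂ) (t * x * t⁻¹ * y) = Nat.card G * (χ : G → ℂ) (x * y) := by
        rw [Finset.sum_congr rfl (g := fun _ => (χ : G → ℂ) (x * y)), Finset.sum_const, Finset.card_univ, nsmul_eq_mul,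
          Nat.card_eq_fintype_card]
        intro t _
        have := h1 t 1
        simpa using this
      rw [h3] at h2
      have hG : (Nat.card G : ℂ) ≠ 0 := by exact_mod_cast Nat.card_pos.ne'
      have h4 := H5.IsIrr.one_ne_zero χ.2
      rw [h1]
      field_simp at h2
      linear_combination h2
    · intro h z
      constructor
      · intro hz
        obtain ⟨c, hc⟩ := isConj_iff.1 hz
        refine ⟨c, c, ?_⟩
        rw [← hc]; group
      · rintro ⟨a, b, rfl⟩
        apply H4.isConj_of_irr_eq
        intro χ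
        have h1 := h a b χ
        have h2 := h 1 1 χ
        have h4 := H5.IsIrr.one_ne_zero χ.2
        apply mul_left_cancel₀ h4
        rw [h1, ← h2]; simp

end Cfsg.Agent.S4754
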