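import Cfsg.Statements.S4755
import Cfsg.Agent.H4.OrthConj

set_option autoImplicit false
open Cfsg

namespace Cfsg.Agent.S4755

/-- Let x, y be non-identity elements of the finite group G such that χ(x' y') = χ(x') χ(y') for all conjugates x' of x, y' of y and every irreducible character χ. Then the conjugacy class of x y is the set of all products of a conjugate of x with a conjugate of y; every irreducible character of degree greater than 1 vanishes at x y; and the conjugacy class of x y is the coset of the commutator subgroup containing x y. -/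
theorem result {G : Type*} [Group G] [Finite G] (x y : G) (hx : x ≠ 1) (hy : y ≠ 1) (h : ∀ (a b : G) (χ : Cfsg.IrrCharacter G), (χ : G → ℂ) (a * x * a⁻¹ * (b * y * b⁻¹)) = (χ : G → ℂ) (a * x * a⁻¹) * (χ : G → ℂ) (b * y * b⁻¹)) : (∀ z : G, IsConj (x * y) z ↔ ∃ a b : G, z = a * x * a⁻¹ * (b * y * b⁻¹)) ∧ (∀ χ : Cfsg.IrrCharacter G, (χ : G → ℂ) 1 ≠ 1 → (χ : G → ℂ) (x * y) = 0) ∧ (∀ z : G, IsConj (x * y) z ↔ (x * y)⁻¹ * z ∈ commutator G) := by
    classical
    haveI := Fintype.ofFinite G
    have hG : (Nat.card G : ℂ) ≠ 0 := by exact_mod_cast Nat.card_pos.ne'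
    have hval : ∀ (χ : IrrCharacter G) (a b : G), (χ : G → ℂ) (a * x * a⁻¹ * (b * y * b⁻¹)) = (χ : G → ℂ) x * (χ : G → ℂ) y := by
      intro χ a b
      rw [h a b χ, H5.irr_classFun χ x a, H5.irr_classFun χ y b]
    have h1 : ∀ z : G, IsConj (x * y) z ↔ ∃ a b : G, z = a * x * a⁻¹ * (b * y * b⁻¹) := by
      intro z
      constructor
      · intro hz
        obtain ⟨c, hc⟩ := isConj_iff.1 hz
        refine ⟨c, c, ?_⟩
        rw [← hc]; group
      · rintro ⟨a, b, rfl⟩
        apply H4.isConj_of_irr_eq
        intro χ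
        have h1 := hval χ a b
        have h2 := hval χ 1 1
        rw [h1, ← h2]; simp
    have h2 : ∀ χ : IrrCharacter G, (χ : G → ℂ) 1 ≠ 1 → (χ : G → ℂ) (x * y) = 0 := by
      intro χ hχ
      have h2 := H5.irr_sum_conj_mul χ.2 x y
      have h3 : ∑ t : G, (χ : G → ℂ) (t * x * t⁻¹ * y) = Nat.card G * ((χ : G → ℂ) x * (χ : G → ℂ) y) := by
        rw [Finset.sum_congr rfl (g := fun _ => (χ : G → ℂ) x * (χ : G → ℂ) y), Finset.sum_const, Finset.card_univ, nsmul_eq_mul,
          Nat.card_eq_fintype_card]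
        intro t _
        have := hval χ t 1
        simpa using this
      rw [h3] at h2
      have h4 := H5.IsIrr.one_ne_zero χ.2
      have h5 : (χ : G → ℂ) (x * y) = (χ : G → ℂ) x * (χ : G → ℂ) y := by
        have := hval χ 1 1
        simpa using this
      rw [h5]
      field_simp at h2
      have h6 : ((χ : G → ℂ) x * (χ : G → ℂ) y) * ((χ : G → ℂ) 1 - 1) = 0 := by linear_combination h2
      exact (mul_eq_zero.1 h6).resolve_right (sub_ne_zero.2 hχ)
    refine ⟨h1, h2, ?_⟩
    intro z
    constructor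
    · intro hz
      obtain ⟨c, hc⟩ := isConj_iff.1 hz
      rw [← hc]
      exact H4.conj_comm_mem _ _
    · intro hz
      apply H4.isConj_of_vanish
      intro χ
      by_cases hχ : (χ : G → ℂ) 1 = 1
      · right
        exact H4.linear_of_comm_mem χ.2 hχ hz
      · left
        exact h2 χ hχ

end Cfsg.Agent.S4755
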