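import Cfsg.Statements.S4802
import Cfsg.Agent.H4.NzCount
import Cfsg.Agent.H4.Misc1

set_option autoImplicit false
open Cfsg

namespace Cfsg.Agent.S4802

/-- Let N < M be normal subgroups of the finite group G and g ∈ M ∖ N. Then the conjugacy class of g is exactly M ∖ N if and only if every irreducible complex character of G whose kernel contains N takes the same value at all elements of M ∖ N, and every irreducible complex character of G whose kernel does not contain N vanishes at g. -/
theorem result {G : Type*} [Group G] [Finite G] (N M : Subgroup G) [N.Normal] [M.Normal] (hNM : N < M) (g : G) (hgM : g ∈ M) (hgN : g ∉ N) : {h : G | IsConj g h} = (M : Set G) \ (N : Set G) ↔ ((∀ χ : Cfsg.IrrCharacter G, (∀ x ∈ N, (χ : G → ℂ) x = (χ : G → ℂ) 1) → ∀ x ∈ M, x ∉ N → ∀ y ∈ M, y ∉ N → (χ : G → ℂ) x = (χ : G → ℂ) y) ∧ (∀ χ : Cfsg.IrrCharacter G, (∃ x ∈ N, (χ : G → ℂ) x ≠ (χ : G → ℂ) 1) → (χ : G → ℂ) g = 0)) := by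
    classical
    haveI := Fintype.ofFinite G
    constructor
    · intro h
      have hconj : ∀ x ∈ M, x ∉ N → IsConj g x := by
        intro x hx hx'
        have : x ∈ {h : G | IsConj g h} := by rw [h]; exact ⟨hx, hx'⟩
        exact this
      have hval : ∀ χ : IrrCharacter G, ∀ x ∈ M, x ∉ N → (χ : G → ℂ) x = (χ : G → ℂ) g := fun χ x hx hx' =>
        (H5.IsClassFunction.eq_of_isConj (H5.irr_classFun χ) (hconj x hx hx')).symm
      refine ⟨fun χ _ x hx hx' y hy hy' => by rw [hval χ x hx hx', hval χ y hy hy'], ?_⟩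
      rintro χ ⟨x, hxN, hx1⟩
      have key : ∀ K : Subgroup G, K.Normal → x ∈ K → ∑ k : K, (χ : G → ℂ) k = 0 := by
        intro K hK hxK
        have h1 := (H4.avg_irr hK (χ : G → ℂ) χ.2 1).2 (fun hc => hx1 (hc ⟨x, hxK⟩))
        have hK0 : (Nat.card K : ℂ) ≠ 0 := by exact_mod_cast Nat.card_pos.ne'
        simp only [mul_one] at h1
        exact (mul_eq_zero.1 h1).resolve_left (inv_ne_zero hK0)
      have h1 := key N inferInstance hxN
      have h2 := key M inferInstance (hNM.le hxN)
      have e1 : ∑ k : N, (χ : G → ℂ) k = ∑ x ∈ Finset.univ.filter (fun x => x ∈ N), (χ : G → ℂ) x :=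
        (Finset.sum_subtype _ (fun x => by simp) (fun g => (χ : G → ℂ) g)).symm
      have e2 : ∑ k : M, (χ : G → ℂ) k = ∑ x ∈ Finset.univ.filter (fun x => x ∈ M), (χ : G → ℂ) x :=
        (Finset.sum_subtype _ (fun x => by simp) (fun g => (χ : G → ℂ) g)).symm
      rw [e1] at h1
      rw [e2, ← Finset.sum_filter_add_sum_filter_not _ (fun x => x ∈ N)] at h2
      have e3 : (Finset.univ.filter (fun x => x ∈ M)).filter (fun x => x ∈ N) = Finset.univ.filter (fun x => x ∈ N) := by
        ext x; simp only [Finset.mem_filter, Finset.mem_univ, true_and]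
        exact ⟨fun h => h.2, fun h => ⟨hNM.le h, h⟩⟩
      rw [e3, h1, zero_add, Finset.sum_congr rfl (g := fun _ => (χ : G → ℂ) g)] at h2
      · rw [Finset.sum_const, nsmul_eq_mul, mul_eq_zero] at h2
        refine h2.resolve_left ?_
        have : 0 < ((Finset.univ.filter (fun x => x ∈ M)).filter (fun x => ¬ x ∈ N)).card :=
          Finset.card_pos.2 ⟨g, by simp [hgM, hgN]⟩
        exact_mod_cast this.ne'
      · intro x hx
        simp only [Finset.mem_filter, Finset.mem_univ, true_and] at hx
        exact hval χ x hx.1 hx.2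
    · rintro ⟨h1, h2⟩
      ext y
      constructor
      · intro hy
        have hy' : IsConj g y := hy
        obtain ⟨c, hc⟩ := isConj_iff.1 hy'
        refine ⟨?_, fun hyN => hgN ?_⟩
        · rw [← hc]; exact Subgroup.Normal.conj_mem inferInstance g hgM c
        · have : g = c⁻¹ * y * c⁻¹⁻¹ := by rw [← hc]; group
          rw [this]; exact Subgroup.Normal.conj_mem inferInstance y hyN c⁻¹
      · rintro ⟨hyM, hyN⟩
        by_contra hcon
        have hcon' : ¬ IsConj g y := hcon
        have e1 := H5.second_orthogonality g y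
        have e2 := H5.second_orthogonality g g
        rw [if_neg hcon'] at e1
        rw [if_pos (IsConj.refl _)] at e2
        have e3 : ∑ χ : IrrCharacter G, (χ : G → ℂ) g * (starRingEnd ℂ) ((χ : G → ℂ) y) =
            ∑ χ : IrrCharacter G, (χ : G → ℂ) g * (starRingEnd ℂ) ((χ : G → ℂ) g) := by
          refine Finset.sum_congr rfl fun χ _ => ?_
          by_cases hk : ∀ x ∈ N, (χ : G → ℂ) x = (χ : G → ℂ) 1
          · rw [h1 χ hk y hyM hyN g hgM hgN]
          · push Not at hk
            rw [h2 χ hk]; simp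
        rw [e1, e2] at e3
        exact absurd e3.symm (by exact_mod_cast Nat.card_pos.ne')

end Cfsg.Agent.S4802
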