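import Cfsg.Statements.S4828
import Cfsg.Agent.H5.W16

set_option autoImplicit false
open Cfsg

namespace Cfsg.Agent.S4828

/-- Let p be a prime, M a maximal ideal of the algebraic integers containing p, and (Q, e) a Brauer pair of the finite group G (Q a p-subgroup, e a block of C_G(Q)). Then (Q, e) is a maximal Brauer pair of some block of G if and only if e contains an irreducible character θ such that θ takes the value θ(1) at every element of Z(Q) = Q ∩ C_G(Q), the p-part of θ(1) times the p-part of the order of Z(Q) equals the p-part of the order of C_G(Q) (θ has defect zero as a character of C_G(Q)/Z(Q)), and every element of N_G(Q) of p-power order that stabilizes e lies in Q·C_G(Q) (the stabilizer of e in N_G(Q) has index prime to p over Q·C_G(Q)). -/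
theorem result {G : Type*} [Group G] [Finite G] (p : ℕ) [Fact p.Prime] (M : Ideal Cfsg.AlgInt) (hM : Cfsg.IsPModular p M) (Q : Subgroup G) (e : Set (Cfsg.IrrCharacter (Subgroup.centralizer (Q : Set G)))) (he : Cfsg.IsBrauerPair p M Q e) :
    (∃ B : Set (Cfsg.IrrCharacter G), Cfsg.IsMaximalBrauerPair p M B Q e) ↔
      ∃ θ ∈ e, (∀ z : Subgroup.centralizer (Q : Set G), (z : G) ∈ Q → (θ : Subgroup.centralizer (Q : Set G) → ℂ) z = (θ : Subgroup.centralizer (Q : Set G) → ℂ) 1) ∧
        (Cfsg.charDegree (θ : Subgroup.centralizer (Q : Set G) → ℂ)).factorization p + (Nat.card ↥(Q ⊓ Subgroup.centralizer (Q : Set G))).factorization p = (Nat.card (Subgroup.centralizer (Q : Set G))).factorization p ∧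
        (∀ g : G, g ∈ Subgroup.normalizer (Q : Set G) → Cfsg.StabilizesBlock (Subgroup.centralizer (Q : Set G)) e g → (∃ k : ℕ, orderOf g = p ^ k) → g ∈ Q ⊔ Subgroup.centralizer (Q : Set G)) := by
  have hprime := Cfsg.Agent.H5.isPrime_of_isPModular hM
  have hfG : Fintype G := Fintype.ofFinite G
  have hfC : Fintype (Subgroup.centralizer (Q : Set G)) := Fintype.ofFinite _
  have hbl := Cfsg.Agent.H5.isBl_be (M := M) he.2
  have hmax : (∃ B : Set (Cfsg.IrrCharacter G), Cfsg.IsMaximalBrauerPair p M B Q e) ↔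
      ∃ b, Cfsg.Agent.H5.IsBl M (⊤ : Subgroup G) b ∧ Cfsg.Agent.H5.MaxP p M b (Q, Cfsg.Agent.H5.be M (Subgroup.centralizer (Q : Set G)) e) := by
    constructor
    · rintro ⟨B, hB⟩
      have hB' := ((Cfsg.Agent.H5.isBrauerPairOf_iff hM).mp hB.1).2.2.1
      exact ⟨_, Cfsg.Agent.H5.isBl_top hB', (Cfsg.Agent.H5.isMaximal_iff hM hB' he.2).mp hB⟩
    · rintro ⟨b, hb, h⟩
      obtain ⟨B, hB, rfl⟩ := Cfsg.Agent.H5.exists_top hb
      exact ⟨B, (Cfsg.Agent.H5.isMaximal_iff hM hB he.2).mpr h⟩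
  rw [hmax, Cfsg.Agent.H5.maxP_iff hM he.1 hbl]
  rw [← Cfsg.Agent.H5.isDefectGroup_subgroupOf_iff hM he.2 (inf_le_right : Q ⊓ Subgroup.centralizer (Q : Set G) ≤ Subgroup.centralizer (Q : Set G)),
    Cfsg.Agent.H5.central_block_char hM (Cfsg.Agent.H5.isPGroup_inf_sub he.1) (Cfsg.Agent.H5.inf_centralizer_center Q) he.2]
  have hZ : Nat.card ((Q ⊓ Subgroup.centralizer (Q : Set G)).subgroupOf (Subgroup.centralizer (Q : Set G))) =
      Nat.card ↥(Q ⊓ Subgroup.centralizer (Q : Set G)) :=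
    Nat.card_congr (Subgroup.subgroupOfEquivOfLe inf_le_right).toEquiv
  have hfac : (Nat.card (Subgroup.centralizer (Q : Set G))).factorization p =
      (Nat.card ↥(Q ⊓ Subgroup.centralizer (Q : Set G))).factorization p +
      ((Q ⊓ Subgroup.centralizer (Q : Set G)).subgroupOf (Subgroup.centralizer (Q : Set G))).index.factorization p := by
    rw [← Subgroup.card_mul_index ((Q ⊓ Subgroup.centralizer (Q : Set G)).subgroupOf (Subgroup.centralizer (Q : Set G))), hZ,
      Nat.factorization_mul Nat.card_pos.ne' Subgroup.index_ne_zero_of_finite]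
    rfl
  have hst : ∀ g : G, g ∈ Cfsg.Agent.H5.stb Q (Cfsg.Agent.H5.be M (Subgroup.centralizer (Q : Set G)) e) ↔
      g ∈ Subgroup.normalizer (Q : Set G) ∧ Cfsg.StabilizesBlock (Subgroup.centralizer (Q : Set G)) e g := by
    intro g
    rw [Cfsg.Agent.H5.mem_stb]
    constructor
    · rintro ⟨h1, h2⟩
      exact ⟨h1, (Cfsg.Agent.H5.stabilizes_iff (Cfsg.Agent.H5.normalizer_le_normalizer_centralizer Q h1) he.2).mpr h2⟩
    · rintro ⟨h1, h2⟩
      exact ⟨h1, (Cfsg.Agent.H5.stabilizes_iff (Cfsg.Agent.H5.normalizer_le_normalizer_centralizer Q h1) he.2).mp h2⟩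
  constructor
  · rintro ⟨⟨θ, hθ, h1, h2⟩, h3⟩
    refine ⟨θ, hθ, fun z hz => h1 z (Subgroup.mem_subgroupOf.mpr ⟨hz, z.2⟩), ?_, ?_⟩
    · rw [hfac, h2]; ring
    · intro g hg1 hg2 hg3
      exact h3 g ((hst g).mpr ⟨hg1, hg2⟩) hg3
  · rintro ⟨θ, hθ, h1, h2, h3⟩
    refine ⟨⟨θ, hθ, ?_, ?_⟩, ?_⟩
    · intro z hz
      exact h1 z (Subgroup.mem_subgroupOf.mp hz).1
    · rw [hfac] at h2; omega
    · intro g hg hg3
      obtain ⟨a, b⟩ := (hst g).mp hg
      exact h3 g a b hg3

end Cfsg.Agent.S4828
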