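import Cfsg.Statements.S4835
import Cfsg.Agent.H4.Gagola1

set_option autoImplicit false
open Cfsg

namespace Cfsg.Agent.S4835

/-- Let G be a finite group of order greater than 2 with an irreducible character χ that is nonzero on exactly two conjugacy classes. Then G has a unique minimal normal subgroup N; N is an elementary abelian p-group for some prime p; χ is nonzero exactly at the elements of N; and any two nonidentity elements of N are conjugate in G. -/
theorem result {G : Type*} [Group G] [Finite G] (hG : 2 < Nat.card G) (χ : Cfsg.IrrCharacter G) (hχ : Nat.card {C : ConjClasses G // ∃ g ∈ C.carrier, (χ : G → ℂ) g ≠ 0} = 2) :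
    ∃ N : Subgroup G, N.Normal ∧ N ≠ ⊥ ∧ (∀ K : Subgroup G, K.Normal → K ≠ ⊥ → N ≤ K) ∧
      (∃ p : ℕ, p.Prime ∧ Cfsg.IsElementaryAbelian p N) ∧
      (∀ g : G, (χ : G → ℂ) g ≠ 0 ↔ g ∈ N) ∧
      (∀ x ∈ N, ∀ y ∈ N, x ≠ 1 → y ≠ 1 → ∃ g : G, g * x * g⁻¹ = y) := by
    classical
    haveI := Fintype.ofFinite G
    obtain ⟨g₀, h⟩ := H4.exists_gagC χ hχ
    haveI hNn := h.N_normal hG
    have hmem := h.mem_N hG
    have hg₀ : g₀ ∈ h.N hG := by rw [hmem, h.2]; exact Or.inr (IsConj.refl _)
    have hN1 : h.N hG ≠ ⊥ := by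
      intro h0
      rw [h0, Subgroup.mem_bot] at hg₀
      exact h.1 hg₀
    have hle : ∀ K : Subgroup G, K.Normal → K ≠ ⊥ → h.N hG ≤ K := by
      intro K hK hK1 g hg
      exact h.N_le hG K hK1 ((hmem g).1 hg)
    have hconj : ∀ x ∈ h.N hG, ∀ y ∈ h.N hG, x ≠ 1 → y ≠ 1 → ∃ g : G, g * x * g⁻¹ = y := by
      intro x hx y hy hx1 hy1
      have h1 := ((h.2 x).1 ((hmem x).1 hx)).resolve_left hx1
      have h2 := ((h.2 y).1 ((hmem y).1 hy)).resolve_left hy1
      exact isConj_iff.1 (h1.symm.trans h2)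
    refine ⟨h.N hG, hNn, hN1, hle, ?_, fun g => (hmem g).symm, hconj⟩
    -- elementary abelian
    haveI : Nontrivial (h.N hG) := (Subgroup.nontrivial_iff_ne_bot _).2 hN1
    obtain ⟨p, hp, hpd⟩ := Nat.exists_prime_and_dvd (n := Nat.card (h.N hG)) (Finite.one_lt_card).ne'
    haveI : Fact p.Prime := ⟨hp⟩
    obtain ⟨z, hz⟩ := exists_prime_orderOf_dvd_card' p hpd
    have hexp : ∀ a ∈ h.N hG, a ^ p = 1 := by
      intro a ha
      by_cases ha1 : a = 1
      · rw [ha1, one_pow]
      · have hz1 : (z : G) ≠ 1 := by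
          intro h0
          have : z = 1 := Subtype.ext h0
          rw [this, orderOf_one] at hz
          exact hp.one_lt.ne hz
        obtain ⟨g, hg⟩ := hconj z z.2 a ha hz1 ha1
        rw [← hg, conj_pow]
        have : (z : G) ^ p = 1 := by
          have := pow_orderOf_eq_one z
          rw [hz] at this
          exact congrArg Subtype.val this
        rw [this]; simp
    have hNp : IsPGroup p (h.N hG) := by
      intro a
      exact ⟨1, by rw [pow_one]; exact Subtype.ext (hexp a a.2)⟩
    refine ⟨p, hp, ?_, hexp⟩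
    have hc := hNp.center_nontrivial
    have hK1 : (Subgroup.center (h.N hG)).map (h.N hG).subtype ≠ ⊥ := by
      intro h0
      rw [Subgroup.map_eq_bot_iff_of_injective _ (h.N hG).subtype_injective] at h0
      exact (Subgroup.nontrivial_iff_ne_bot _).1 hc h0
    have hle' := hle ((Subgroup.center (h.N hG)).map (h.N hG).subtype) inferInstance hK1
    refine ⟨⟨fun a b => ?_⟩⟩
    obtain ⟨c, hc, hca⟩ := hle' a.2
    have : c = a := Subtype.ext hca
    rw [this] at hc
    exact ((Subgroup.mem_center_iff.1 hc) b).symm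

end Cfsg.Agent.S4835
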