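import Cfsg.Statements.S4836
import Cfsg.Agent.H4.Gagola1

set_option autoImplicit false
open Cfsg

namespace Cfsg.Agent.S4836

/-- Let G be a finite group of order greater than 2 with an irreducible character χ that is nonzero on exactly two conjugacy classes. Then χ is faithful (it takes the value χ(1) only at the identity), it is the only faithful irreducible character of G, and it is the only irreducible character of G that is nonzero on exactly two conjugacy classes. -/
theorem result {G : Type*} [Group G] [Finite G] (hG : 2 < Nat.card G) (χ : Cfsg.IrrCharacter G) (hχ : Nat.card {C : ConjClasses G // ∃ g ∈ C.carrier, (χ : G → ℂ) g ≠ 0} = 2) :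
    (∀ g : G, (χ : G → ℂ) g = (χ : G → ℂ) 1 → g = 1) ∧
      (∀ ψ : Cfsg.IrrCharacter G, (∀ g : G, (ψ : G → ℂ) g = (ψ : G → ℂ) 1 → g = 1) → ψ = χ) ∧
      (∀ ψ : Cfsg.IrrCharacter G, Nat.card {C : ConjClasses G // ∃ g ∈ C.carrier, (ψ : G → ℂ) g ≠ 0} = 2 → ψ = χ) := by
    classical
    haveI := Fintype.ofFinite G
    obtain ⟨g₀, h⟩ := H4.exists_gagC χ hχ
    have huniq : ∀ ψ : IrrCharacter G, (∀ g : G, (ψ : G → ℂ) g = (ψ : G → ℂ) 1 → g = 1) → ψ = χ := by
      intro ψ hψ
      by_contra hne
      exact h.1 (hψ _ (h.other hG ψ hne))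
    refine ⟨fun g hg => h.faithful hG g hg, huniq, ?_⟩
    intro ψ hψ
    obtain ⟨g₁, h1⟩ := H4.exists_gagC ψ hψ
    exact huniq ψ (fun g hg => h1.faithful hG g hg)

end Cfsg.Agent.S4836
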