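import Cfsg.Statements.S4837
import Cfsg.Agent.H4.Gagola3

set_option autoImplicit false
open Cfsg

namespace Cfsg.Agent.S4837

/-- Let G be a finite group of order greater than 2 with an irreducible character χ nonzero on exactly two conjugacy classes, and let N be the set of elements where χ is nonzero, given as a nontrivial normal p-subgroup of G for the prime p. Then for every nonidentity x in N the centralizer C_G(x) is a Sylow p-subgroup of G, and for every irreducible character λ ≠ 1 of N the stabilizer of λ in G (its inertia group) is a Sylow p-subgroup of G. -/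
theorem result {G : Type*} [Group G] [Finite G] (hG : 2 < Nat.card G) (χ : Cfsg.IrrCharacter G) (hχ : Nat.card {C : ConjClasses G // ∃ g ∈ C.carrier, (χ : G → ℂ) g ≠ 0} = 2) (p : ℕ) [Fact p.Prime] (N : Subgroup G) [N.Normal] (hN : ∀ g : G, g ∈ N ↔ (χ : G → ℂ) g ≠ 0) (hNp : IsPGroup p N) (hN1 : N ≠ ⊥) :
    (∀ x ∈ N, x ≠ 1 → ∃ P : Sylow p G, Subgroup.centralizer ({x} : Set G) = P) ∧
      (∀ μ : Cfsg.IrrCharacter N, (μ : N → ℂ) ≠ (fun _ => (1 : ℂ)) → ∃ P : Sylow p G, ∀ g : G, g ∈ (P : Subgroup G) ↔ ∀ n n' : N, (n' : G) = g * n * g⁻¹ → (μ : N → ℂ) n' = (μ : N → ℂ) n) := by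
    classical
    haveI := Fintype.ofFinite G
    obtain ⟨g₀, h⟩ := H4.exists_gagC χ hχ
    have hNeq : N = h.N hG := by
      ext g; rw [h.mem_N hG, hN]
    subst hNeq
    constructor
    · intro x hx hx1
      exact ⟨Sylow.ofCard _ (h.cent_sylow hG hNp ((h.mem_N hG x).1 hx) hx1), rfl⟩
    · intro μ hμ
      refine ⟨Sylow.ofCard _ (h.inertia_card hG hNp μ hμ), ?_⟩
      intro g
      show g ∈ H4.inertia (h.N_normal hG) (μ : ↥(h.N hG) → ℂ) ↔ _
      rw [H4.mem_inertia]
      constructor
      · intro hg n n' hn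
        have h1 := congrFun hg n
        rw [H4.conjBy_apply] at h1
        have : n' = H4.conjAut (h.N_normal hG) g n := by
          apply Subtype.ext
          rw [H4.conjAut_coe, hn]
        rw [this]; exact h1
      · intro hg
        funext n
        rw [H4.conjBy_apply]
        exact hg n _ (H4.conjAut_coe (h.N_normal hG) g n)

end Cfsg.Agent.S4837
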