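import Cfsg.Statements.S4888
import Cfsg.Agent.H5.W21
import Cfsg.Agent.H5.Infl

set_option autoImplicit false
open Cfsg

namespace Cfsg.Agent.S4888

/-- Let G be a finite group, p a prime and M a maximal ideal of the algebraic integers containing p. Then all height-zero irreducible characters of the principal p-block of G (equivalently, all its characters of degree prime to p) have the same degree if and only if G has a normal p-complement. -/
theorem result {G : Type*} [Group G] [Finite G] (p : ℕ) [Fact p.Prime] (M : Ideal Cfsg.AlgInt) (hM : Cfsg.IsPModular p M) : (∃ d : ℕ, ∀ χ : Cfsg.IrrCharacter G, χ ∈ (Cfsg.principalBlock M G) → Cfsg.blockHeight p (Cfsg.principalBlock M G) (χ : G → ℂ) = 0 → Cfsg.charDegree (χ : G → ℂ) = d) ↔ Cfsg.HasNormalPComplement p G := by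
  have hprime := Cfsg.Agent.H5.isPrime_of_isPModular hM
  have hfG : Fintype G := Fintype.ofFinite G
  have hone : Cfsg.charDegree ((Cfsg.Agent.H5.oneC G : Cfsg.IrrCharacter G) : G → ℂ) = 1 := by
    have h7 := Cfsg.Agent.H5.IsCharacter.one_eq_charDegree (Cfsg.Agent.H5.irr_isCharacter (Cfsg.Agent.H5.oneC G))
    rw [Cfsg.Agent.H5.oneC_apply] at h7
    exact_mod_cast h7.symm
  have hmin : Cfsg.Agent.H5.minExp p (Cfsg.principalBlock M G) = 0 := by
    have h5 := Cfsg.Agent.H5.minExp_le (p := p) (Cfsg.Agent.H5.oneC_mem (G := G) hM)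
    rw [hone] at h5
    simpa using h5
  have hht : ∀ χ ∈ Cfsg.principalBlock M G, (Cfsg.blockHeight p (Cfsg.principalBlock M G) (χ : G → ℂ) = 0 ↔
      ¬ p ∣ Cfsg.charDegree (χ : G → ℂ)) := by
    intro χ hχ
    rw [Cfsg.Agent.H5.height_zero_iff hχ, hmin]
    constructor
    · intro h hd
      have := hM.1.factorization_pos_of_dvd (Cfsg.Agent.H5.charDegree_pos χ.2).ne' hd
      omega
    · intro h
      exact Nat.factorization_eq_zero_of_not_dvd h
  constructor
  · rintro ⟨d, hd⟩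
    have hd1 : d = 1 := by
      rw [← hd _ (Cfsg.Agent.H5.oneC_mem hM) ((hht _ (Cfsg.Agent.H5.oneC_mem hM)).mpr (by
        rw [hone]; exact fun h => hM.1.one_lt.ne' (Nat.dvd_one.mp h))), hone]
    obtain ⟨P⟩ : Nonempty (Sylow p G) := inferInstance
    have hfP : Fintype (P : Subgroup G) := Fintype.ofFinite _
    apply Cfsg.Agent.H5.npc_of_linear P
    intro μ
    obtain ⟨χ, hχ, hdeg, hin⟩ := Cfsg.Agent.H5.exists_principal_over hM P μ
    have h1 := hd χ hχ ((hht χ hχ).mpr hdeg)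
    rw [hd1] at h1
    exact Cfsg.Agent.H5.linear_ext_of μ h1 hin
  · intro h
    obtain ⟨N, hN, hcop, k, hk⟩ := Cfsg.Agent.H1.hasNormalPComplement_iff.mp h
    have hNp : ¬ p ∣ Nat.card N := (Nat.Prime.coprime_iff_not_dvd hM.1).mp hcop.symm
    refine ⟨1, fun χ hχ h0 => ?_⟩
    have h1 := (hht χ hχ).mp h0
    have h2 := (Cfsg.Agent.H5.principal_eq_ker hM hNp ⟨k, hk⟩ χ).mp hχ
    obtain ⟨θ, hθ⟩ := Cfsg.Agent.H5.irr_deflate χ.2 h2
    have h3 : Cfsg.charDegree (χ : G → ℂ) = Cfsg.charDegree (θ : G ⧸ N → ℂ) := by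
      unfold Cfsg.charDegree; rw [hθ]; rfl
    have h4 : Cfsg.charDegree (θ : G ⧸ N → ℂ) ∣ p ^ k := by
      rw [← hk]; exact Cfsg.Agent.H5.charDegree_dvd_card θ.2
    rw [← h3] at h4
    obtain ⟨j, -, hj⟩ := (Nat.dvd_prime_pow hM.1).mp h4
    rcases Nat.eq_zero_or_pos j with rfl | hj0
    · rw [hj, pow_zero]
    · exact absurd (hj ▸ dvd_pow_self p hj0.ne') h1

end Cfsg.Agent.S4888
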