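import Cfsg.Statements.S4916
import Cfsg.Agent.H5.W20
import Cfsg.Agent.H5.V3

set_option autoImplicit false
open Cfsg

namespace Cfsg.Agent.S4916

/-- Let G be a finite group, p a prime and M a maximal ideal of the algebraic integers containing p. Then the principal character is the only irreducible character of degree prime to p in the principal p-block of G if and only if p does not divide the order of G. -/
theorem result {G : Type*} [Group G] [Finite G] (p : ℕ) [Fact p.Prime] (M : Ideal Cfsg.AlgInt) (hM : Cfsg.IsPModular p M) : (∀ χ : Cfsg.IrrCharacter G, χ ∈ Cfsg.principalBlock M G → ¬ p ∣ Cfsg.charDegree (χ : G → ℂ) → (χ : G → ℂ) = fun _ => (1 : ℂ)) ↔ ¬ p ∣ Nat.card G := by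
  have hprime := Cfsg.Agent.H5.isPrime_of_isPModular hM
  have hfG : Fintype G := Fintype.ofFinite G
  constructor
  · intro h hdvd
    obtain ⟨x, hx⟩ := exists_prime_orderOf_dvd_card' p hdvd
    have hord : p ∣ orderOf x := by rw [hx]
    have hB := Cfsg.Agent.H5.principal_isPBlock (M := M) (G := G)
    have h1 : Cfsg.blockCoeff (Cfsg.principalBlock M G) x = 0 := by
      by_contra h2
      exact Cfsg.Agent.H5.regular_of_blockCoeff hM (Cfsg.Agent.H5.blockCoeff_memLocR hB) h2 hord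
    have hG0 : (Nat.card G : ℂ) ≠ 0 := Nat.cast_ne_zero.mpr Nat.card_pos.ne'
    unfold Cfsg.blockCoeff at h1
    rw [Cfsg.Agent.H5.finsum_mem_bF] at h1
    have h2 := (mul_eq_zero.mp h1).resolve_left (inv_ne_zero hG0)
    classical
    have hxinv : ∀ χ : Cfsg.IrrCharacter G, (starRingEnd ℂ) ((χ : G → ℂ) x) = (χ : G → ℂ) x⁻¹ :=
      fun χ => (Cfsg.Agent.H5.IsCharacter.inv_eq_conj (Cfsg.Agent.H5.irr_isCharacter χ) x).symm
    have hcong : ∀ χ : Cfsg.IrrCharacter G, Cfsg.MemLocalIdeal M ((χ : G → ℂ) x⁻¹ - (χ : G → ℂ) 1) := by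
      intro χ
      exact Cfsg.Agent.H5.char_congr hM (Cfsg.Agent.H5.irr_isCharacter χ) (mul_one x⁻¹) (Commute.one_right _)
        ⟨1, by rw [orderOf_inv, hx, pow_one]⟩ (Cfsg.Agent.H5.reg_one hM.1)
    have h3 : Cfsg.MemLocalIdeal M (∑ χ ∈ Cfsg.Agent.H5.bF (Cfsg.principalBlock M G), (χ : G → ℂ) 1 * (χ : G → ℂ) x⁻¹ - 1) := by
      rw [← Finset.add_sum_erase _ _ (Cfsg.Agent.H5.mem_bF.mpr (Cfsg.Agent.H5.oneC_mem (G := G) hM)), Cfsg.Agent.H5.oneC_apply,
        Cfsg.Agent.H5.oneC_apply, mul_one, add_sub_cancel_left]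
      apply Cfsg.Agent.H5.memLocI_sum
      intro χ hχ
      rw [Finset.mem_erase, Cfsg.Agent.H5.mem_bF] at hχ
      have hpd : p ∣ Cfsg.charDegree (χ : G → ℂ) := by
        by_contra hnd
        exact hχ.1 (Subtype.ext (h χ hχ.2 hnd))
      obtain ⟨k, hk⟩ := hpd
      rw [Cfsg.Agent.H5.IsCharacter.one_eq_charDegree (Cfsg.Agent.H5.irr_isCharacter χ), hk]
      apply Cfsg.Agent.H5.memLocI_mul_right _ (Cfsg.Agent.H5.memLocR_char (Cfsg.Agent.H5.irr_isCharacter χ) _)
      have := Cfsg.Agent.H5.natdiv_memLocI hM (a := p) (b := 1) hM.1.ne_zero one_ne_zero (by simp [hM.1.factorization_self])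
      push_cast
      apply Cfsg.Agent.H5.memLocI_mul_right _ (Cfsg.Agent.H5.memLocR_natCast k)
      simpa using this
    have h4 : ∑ χ ∈ Cfsg.Agent.H5.bF (Cfsg.principalBlock M G), (χ : G → ℂ) 1 * (χ : G → ℂ) x⁻¹ = 0 := by
      rw [← h2]
      exact Finset.sum_congr rfl fun χ _ => by rw [hxinv]
    rw [h4, zero_sub] at h3
    apply Cfsg.Agent.H5.memLocI_one (M := M)
    have := Cfsg.Agent.H5.memLocI_mul_right h3 (Cfsg.Agent.H5.memLocR_intCast (-1))
    simpa using this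
  · intro h χ hχ _
    have h1 := Cfsg.Agent.H5.blockOf_eq_singleton hM h (Cfsg.Agent.H5.oneC G)
    have h2 : χ ∈ Cfsg.blockOf M ((Cfsg.Agent.H5.oneC G : Cfsg.IrrCharacter G) : G → ℂ) := hχ
    rw [h1] at h2
    rw [Set.mem_singleton_iff.mp h2]
    rfl

end Cfsg.Agent.S4916
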