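import Cfsg.Statements.S4989
import Cfsg.Agent.H4.NzCount

set_option autoImplicit false
open Cfsg

namespace Cfsg.Agent.S4989

/-- Let H be a subgroup of the finite group G and χ an irreducible complex character of G. Then the inner product of the restriction of χ to H with itself, (1/#H)·Σ_{h ∈ H} |χ(h)|², is at most 1 + #(Z ∖ H)/#H, where Z is the set of zeros of χ in G. -/
theorem result {G : Type*} [Group G] [Finite G] (H : Subgroup G) (χ : Cfsg.IrrCharacter G) : (Nat.card ↥H : ℝ)⁻¹ * ∑ᶠ h : ↥H, ‖(χ : G → ℂ) h‖ ^ 2 ≤ 1 + (Set.ncard ({x : G | (χ : G → ℂ) x = 0} \ (H : Set G)) : ℝ) / (Nat.card ↥H : ℝ) := by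
    classical
    haveI := Fintype.ofFinite G
    rw [finsum_eq_sum_of_fintype]
    have h1 := H4.sub_bound χ.2 H
    have hpos : (0 : ℝ) < Nat.card H := by exact_mod_cast Nat.card_pos
    rw [inv_mul_le_iff₀ hpos, mul_add, mul_one, mul_div_cancel₀ _ hpos.ne']
    exact h1

end Cfsg.Agent.S4989
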