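import Cfsg.Statements.S5001
import Cfsg.Agent.H5.Sect3
import Cfsg.Agent.H5.Block11
import Cfsg.Agent.H4.LinChar

set_option autoImplicit false
open Cfsg

namespace Cfsg.Agent.S5001

open Cfsg.Agent.H5 ComplexConjugate in
theorem centinner {C : Type*} [Group C] [Fintype C] {z : C} (hz : ∀ h : C, Commute z h) {F : C → ℂ} {a : ℂ}
    (hF : ∀ h, F (z * h) = a * F h) (η : Cfsg.IrrCharacter C) (hne : classInner F (η : C → ℂ) ≠ 0) :
    cv z (η : C → ℂ) = a := by
  have h1 : cv z⁻¹ (η : C → ℂ) * cv z (η : C → ℂ) = 1 := by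
    have h2 := central_mul hz η z⁻¹
    rw [mul_inv_cancel] at h2
    have h3 := IsIrr.one_ne_zero η.2
    unfold cv
    field_simp at h2 ⊢
    linear_combination -h2
  have hzi : ∀ h : C, Commute z⁻¹ h := fun h => (hz h).inv_left
  have h2 : classInner F (η : C → ℂ) = a * conj (cv z (η : C → ℂ)) * classInner F (η : C → ℂ) := by
    conv_lhs => rw [classInner]
    rw [← Equiv.sum_comp (Equiv.mulLeft z) (fun g => F g * conj ((η : C → ℂ) g))]
    simp only [Equiv.coe_mulLeft]
    rw [classInner, mul_left_comm (a * _)]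
    congr 1
    rw [Finset.mul_sum]
    refine Finset.sum_congr rfl fun h _ => ?_
    rw [hF, central_mul hz η h, map_mul]
    unfold cv
    ring
  have h3 : a * conj (cv z (η : C → ℂ)) = 1 := by
    have := mul_right_cancel₀ hne (show (1 : ℂ) * classInner F (η : C → ℂ) = a * conj (cv z (η : C → ℂ)) * classInner F (η : C → ℂ) by rw [one_mul]; exact h2)
    exact this.symm
  have h4 : conj (cv z (η : C → ℂ)) = cv z⁻¹ (η : C → ℂ) := by
    have := cv_inv hzi η
    rw [inv_inv] at this
    exact this
  rw [h4] at h3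
  have h5 : cv z⁻¹ (η : C → ℂ) ≠ 0 := by
    intro h; rw [h, zero_mul] at h1; exact zero_ne_one h1
  apply mul_left_cancel₀ h5
  rw [h1, ← h3]; ring

/-- Let p be a prime, G a finite group and B a p-block of G (relative to a maximal ideal M of the algebraic integers containing p) with defect group D. Let Z be a central p-subgroup of G contained in D and λ a linear character of Z (a homomorphism to the nonzero complex numbers). Say an irreducible character χ of G lies over λ when χ(z) = χ(1)λ(z) for all z ∈ Z. If some irreducible character in B lying over λ has height zero, then λ extends to a linear character of D. -/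
theorem result {G : Type*} [Group G] [Finite G] (p : ℕ) [Fact p.Prime] (M : Ideal Cfsg.AlgInt) (hM : Cfsg.IsPModular p M) (B : Set (Cfsg.IrrCharacter G)) (hB : Cfsg.IsPBlock M B) (D : Subgroup G) (hD : Cfsg.IsDefectGroup p M B D) (Z : Subgroup G) (hZc : Z ≤ Subgroup.center G) (hZp : IsPGroup p ↥Z) (hZD : Z ≤ D) (lam : ↥Z →* ℂˣ) (χ : Cfsg.IrrCharacter G) (hχ : χ ∈ B) (hover : (∀ z : ↥Z, (χ : G → ℂ) z = (χ : G → ℂ) 1 * (lam z : ℂ))) (h0 : Cfsg.blockHeight p B (χ : G → ℂ) = 0) : (∃ μ : ↥D →* ℂˣ, ∀ z : ↥Z, μ ⟨(z : G), hZD z.2⟩ = lam z) := by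
  open Cfsg.Agent.H5 in
  classical
  have hprime := isPrime_of_isPModular hM
  have hfG : Fintype G := Fintype.ofFinite G
  obtain ⟨y, hy, hyD⟩ := (isDefectGroup_iff B D).mp hD
  have hval := value_not_memLocI hM hB hy hχ h0
  obtain ⟨C, hC⟩ : ∃ C : Subgroup G, C = D ⊔ Subgroup.zpowers y := ⟨_, rfl⟩
  have hDC : D ≤ C := by rw [hC]; exact le_sup_left
  have hyC : y ∈ C := by rw [hC]; exact (le_sup_right : Subgroup.zpowers y ≤ _) (Subgroup.mem_zpowers y)
  have hCy : C ≤ Subgroup.centralizer ({y} : Set G) := by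
    rw [hC]
    refine sup_le hyD.le ?_
    rw [Subgroup.zpowers_le, Subgroup.mem_centralizer_singleton_iff]
  have hyc : ∀ h : C, Commute (⟨y, hyC⟩ : C) h := by
    intro h
    have := hCy h.2
    rw [Subgroup.mem_centralizer_singleton_iff] at this
    exact Subtype.ext this.symm
  have hfC : Fintype C := Fintype.ofFinite C
  have hfD : Fintype D := Fintype.ofFinite D
  have hchar := isCharacter_restrict C (irr_isCharacter χ)
  have hexp := classFun_expansion_apply (IsCharacter.classFun hchar) (⟨y, hyC⟩ : C)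
  simp only at hexp
  -- some constituent of p'-degree
  have h1 : ∃ η : Cfsg.IrrCharacter C, classInner (fun c : C => (χ : G → ℂ) c) (η : C → ℂ) ≠ 0 ∧ ¬ p ∣ charDegree (η : C → ℂ) := by
    by_contra hcon
    push Not at hcon
    apply hval
    rw [hexp]
    refine memLocI_sum _ _ fun η _ => ?_
    by_cases hm : classInner (fun c : C => (χ : G → ℂ) c) (η : C → ℂ) = 0
    · rw [hm, zero_mul]; exact memLocI_zero
    · obtain ⟨k, hk⟩ := hcon η hm
      obtain ⟨m, hmm⟩ := IsCharacter.inner_nat hchar η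
      have h2 := central_mul hyc η 1
      rw [mul_one] at h2
      have h3 : (η : C → ℂ) 1 = (p : ℂ) * (k : ℂ) := by
        rw [IsCharacter.one_eq_charDegree (irr_isCharacter η), hk]; push_cast; rfl
      rw [hmm, h2, h3]
      refine memLocI_mul_left (memLocR_natCast _) (memLocI_mul_left (memLocR_of_isIntegral hprime.ne_top ?_) (memLocI_mul_right (memLocI_p hM) (memLocR_natCast _)))
      have := cv_integral hyc η
      unfold cv at this
      rw [h3] at this
      exact this
  obtain ⟨η, hη, hηp⟩ := h1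
  have hinj : Function.Injective (Subgroup.inclusion hDC) := Subgroup.inclusion_injective hDC
  have hchD : IsCharacter D (fun d : D => (η : C → ℂ) (Subgroup.inclusion hDC d)) := by
    exact isCharacter_comp (Subgroup.inclusion hDC) (irr_isCharacter η)
  have hexpD := classFun_expansion_apply (IsCharacter.classFun hchD) (1 : D)
  have h2 : ∃ μ : Cfsg.IrrCharacter D, classInner (fun d : D => (η : C → ℂ) (Subgroup.inclusion hDC d)) (μ : D → ℂ) ≠ 0 ∧ ¬ p ∣ charDegree (μ : D → ℂ) := by
    by_contra hcon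
    push Not at hcon
    apply hηp
    rw [← memLocI_natCast_iff hM, ← IsCharacter.one_eq_charDegree (irr_isCharacter η)]
    simp only [map_one] at hexpD
    rw [hexpD]
    refine memLocI_sum _ _ fun μ _ => ?_
    by_cases hm : classInner (fun d : D => (η : C → ℂ) (Subgroup.inclusion hDC d)) (μ : D → ℂ) = 0
    · rw [hm, zero_mul]; exact memLocI_zero
    · obtain ⟨k, hk⟩ := hcon μ hm
      obtain ⟨m, hmm⟩ := IsCharacter.inner_nat hchD μ
      rw [hmm, IsCharacter.one_eq_charDegree (irr_isCharacter μ), hk]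
      push_cast
      exact memLocI_mul_left (memLocR_natCast _) (memLocI_mul_right (memLocI_p hM) (memLocR_natCast _))
  obtain ⟨μ, hμ, hμp⟩ := h2
  have hμ1 : (μ : D → ℂ) 1 = 1 := by
    have h3 := charDegree_dvd_card μ.2
    obtain ⟨n, hn⟩ := hyD.isPGroup.exists_card_eq
    rw [hn, Nat.dvd_prime_pow hM.1] at h3
    obtain ⟨k, hk, hk'⟩ := h3
    have : k = 0 := by
      by_contra hk0
      exact hμp (hk' ▸ dvd_pow_self p hk0)
    rw [IsCharacter.one_eq_charDegree (irr_isCharacter μ), hk', this, pow_zero, Nat.cast_one]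
  obtain ⟨ν, hν⟩ := Cfsg.Agent.H4.exists_hom_of_degree_one (irr_isCharacter μ) hμ1
  refine ⟨ν, fun z => ?_⟩
  have hzc : ∀ h : G, Commute (z : G) h := fun h => (Subgroup.mem_center_iff.mp (hZc z.2) h).symm
  have hzC : (z : G) ∈ C := hDC (hZD z.2)
  have h4 : cv (⟨z, hzC⟩ : C) (η : C → ℂ) = (lam z : ℂ) := by
    refine centinner (fun h => Subtype.ext (hzc h).eq) (F := fun c : C => (χ : G → ℂ) c) ?_ η hη
    intro h
    have := central_mul hzc χ (h : G)
    have hne := IsIrr.one_ne_zero χ.2
    rw [hover] at this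
    simp only [Subgroup.coe_mul]
    rw [this]; field_simp
  have h5 : cv (⟨z, hZD z.2⟩ : D) (μ : D → ℂ) = (lam z : ℂ) := by
    refine centinner (fun h => Subtype.ext (hzc h).eq) (F := fun d : D => (η : C → ℂ) (Subgroup.inclusion hDC d)) ?_ μ hμ
    intro h
    have := central_mul (x := (⟨z, hzC⟩ : C)) (fun h => Subtype.ext (hzc h).eq) η (Subgroup.inclusion hDC h)
    rw [← h4]
    exact this
  unfold cv at h5
  rw [hμ1, div_one, hν] at h5
  exact Units.ext h5

end Cfsg.Agent.S5001
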