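import Cfsg.Statements.S5011


set_option autoImplicit false
open Cfsg

namespace Cfsg.Agent.S5011

/-- Let G be a finite non-abelian simple group and ρ an irreducible complex representation of G on a space of dimension greater than one (irreducible in the sense that the only subspaces invariant under every ρ(x) are 0 and the whole space). Then for every non-identity element g of G, the centralizer of g does not act irreducibly: there is a non-zero proper subspace invariant under ρ(c) for every c commuting with g. -/
theorem result {G : Type*} [Group G] [Finite G] [IsSimpleGroup G]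
    (hG : ¬ IsMulCommutative G) {V : Type*} [AddCommGroup V] [Module ℂ V] [FiniteDimensional ℂ V]
    (ρ : Representation ℂ G V)
    (hirr : ∀ W : Submodule ℂ V, (∀ x : G, ∀ v ∈ W, ρ x v ∈ W) → W = ⊥ ∨ W = ⊤)
    (hdim : 1 < Module.finrank ℂ V) (g : G) (hg : g ≠ 1) :
    ∃ W : Submodule ℂ V, W ≠ ⊥ ∧ W ≠ ⊤ ∧ ∀ c ∈ Subgroup.centralizer ({g} : Set G), ∀ v ∈ W, ρ c v ∈ W := by
  classical
  have hnt : Nontrivial V := by
    by_contra hc
    rw [not_nontrivial_iff_subsingleton] at hc
    rw [Module.finrank_zero_of_subsingleton] at hdim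
    omega
  obtain ⟨c, hc⟩ := Module.End.exists_eigenvalue (ρ g : Module.End ℂ V)
  refine ⟨Module.End.eigenspace (ρ g : Module.End ℂ V) c, hc, ?_, ?_⟩
  · intro htop
    have hscal : ∀ v, ρ g v = c • v := by
      intro v
      have : v ∈ Module.End.eigenspace (ρ g : Module.End ℂ V) c := by rw [htop]; trivial
      exact Module.End.mem_eigenspace_iff.1 this
    obtain ⟨v0, hv0⟩ := exists_ne (0 : V)
    have hinv : ∀ x : G, ∀ v, ρ x⁻¹ (ρ x v) = v := by
      intro x v
      have : (ρ x⁻¹ * ρ x) v = v := by rw [← map_mul, inv_mul_cancel, map_one]; rfl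
      exact this
    have hinv' : ∀ x : G, ∀ v, ρ x (ρ x⁻¹ v) = v := by
      intro x v
      have : (ρ x * ρ x⁻¹) v = v := by rw [← map_mul, mul_inv_cancel, map_one]; rfl
      exact this
    let N : Subgroup G :=
      { carrier := {x | ∃ a : ℂ, ∀ v, ρ x v = a • v}
        mul_mem' := by
          rintro x y ⟨a, ha⟩ ⟨b, hb⟩
          refine ⟨a * b, fun v => ?_⟩
          rw [map_mul]
          show ρ x (ρ y v) = _
          rw [hb, map_smul, ha, smul_smul, mul_comm]
        one_mem' := ⟨1, fun v => by rw [map_one, one_smul]; rfl⟩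
        inv_mem' := by
          rintro x ⟨a, ha⟩
          have ha0 : a ≠ 0 := by
            rintro rfl
            apply hv0
            rw [← hinv x v0, ha, zero_smul, map_zero]
          refine ⟨a⁻¹, fun v => ?_⟩
          have h1 := hinv x v
          rw [ha, map_smul] at h1
          rw [← h1, smul_smul, inv_mul_cancel₀ ha0, one_smul, h1] }
    have hN : N.Normal := by
      refine ⟨?_⟩
      rintro x ⟨a, ha⟩ y
      refine ⟨a, fun v => ?_⟩
      rw [map_mul, map_mul]
      show ρ y (ρ x (ρ y⁻¹ v)) = _
      rw [ha, map_smul, hinv']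
    have hNt : N = ⊤ := by
      rcases hN.eq_bot_or_eq_top with h | h
      · exfalso
        apply hg
        have : g ∈ N := ⟨c, hscal⟩
        rw [h] at this
        exact Subgroup.mem_bot.1 this
      · exact h
    have hline := hirr (Submodule.span ℂ {v0}) (by
      intro x v hv
      obtain ⟨a, ha⟩ : x ∈ N := by rw [hNt]; trivial
      rw [ha]; exact Submodule.smul_mem _ _ hv)
    rcases hline with h | h
    · rw [Submodule.span_singleton_eq_bot] at h; exact hv0 h
    · have := finrank_span_singleton (K := ℂ) hv0
      rw [h, finrank_top] at this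
      omega
  · intro x hx v hv
    rw [Subgroup.mem_centralizer_singleton_iff] at hx
    rw [Module.End.mem_eigenspace_iff] at hv ⊢
    have : ρ g (ρ x v) = ρ x (ρ g v) := by
      have h1 : (ρ g * ρ x) v = (ρ x * ρ g) v := by rw [← map_mul, ← map_mul, hx]
      exact h1
    rw [this, hv, map_smul]

end Cfsg.Agent.S5011
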