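import Cfsg.Statements.S5194
import Cfsg.Agent.H2.FusThom
import Mathlib

set_option autoImplicit false
open Cfsg

namespace Cfsg.Agent.S5194

open Cfsg.Agent.H2 Cfsg.Agent.L0 Cfsg.Agent.L0.Fus Cfsg.FusionSystem

/-- Thompson's normal p-complement Theorem for fusion systems. Let F be a saturated fusion system over a finite p-group S such that p is odd or F is S₄-free (the symmetric group of degree 4 is not involved in any model of the normalizer system of a fully normalized F-centric subgroup), and let J(S) be the subgroup generated by the abelian subgroups of S of largest order. If the centralizer fusion system of Z(S) in F is the inner fusion system of C_S(Z(S)) = S and the normalizer fusion system of J(S) in F is the inner fusion system of N_S(J(S)) = S, then F is the inner fusion system of S. -/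
theorem result {Ω : Type*} [Group Ω] {S : Subgroup Ω} [Finite S] (p : ℕ) [Fact p.Prime] (hS : IsPGroup p S) (F : Cfsg.FusionSystem S) (hF : F.IsSaturated p) (hp : p ≠ 2 ∨ F.IsSectionFree p (Equiv.Perm (Fin 4))) (hC : ∀ C : Cfsg.FusionSystem (Cfsg.FusionSystem.centralizerIn S (S ⊓ Subgroup.centralizer (S : Set Ω))), F.IsCentralizerSystem (S ⊓ Subgroup.centralizer (S : Set Ω)) C → ∀ P : Subgroup Ω, C.Hom P = (Cfsg.innerFusionSystem (Cfsg.FusionSystem.centralizerIn S (S ⊓ Subgroup.centralizer (S : Set Ω)))).Hom P) (hN : ∀ N : Cfsg.FusionSystem (Cfsg.FusionSystem.normalizerIn S (Cfsg.thompsonSubgroupAOf S)), F.IsNormalizerSystem (Cfsg.thompsonSubgroupAOf S) N → ∀ P : Subgroup Ω, N.Hom P = (Cfsg.innerFusionSystem (Cfsg.FusionSystem.normalizerIn S (Cfsg.thompsonSubgroupAOf S))).Hom P) : ∀ P : Subgroup Ω, F.Hom P = (Cfsg.innerFusionSystem S).Hom P := by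
  have hZS : (S ⊓ Subgroup.centralizer (S : Set Ω) : Subgroup Ω) ≤ S := inf_le_left
  obtain ⟨C, hCs⟩ := exists_centralizerSystem F hZS
  obtain ⟨N, hNs⟩ := exists_normalizerSystem F (jj_le S)
  apply eq_inner_of_le
  refine thompson_inner Ω S F hS hF hp ?_ ?_
  · intro Y φ hφ
    rw [show zc S = (S ⊓ Subgroup.centralizer (S : Set Ω) : Subgroup Ω) from rfl, ← hCs Y, hC C hCs Y] at hφ
    obtain ⟨a, s, hs, hx⟩ := hφ
    exact ⟨a.trans inf_le_left, s, hs.1, hx⟩
  · exact loc_of_inner hNs (fun P φ hφ => by rw [hN N hNs P] at hφ; exact hφ)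

end Cfsg.Agent.S5194
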