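import Cfsg.Statements.S5195
import Cfsg.Agent.H2.FusThom
import Mathlib

set_option autoImplicit false
open Cfsg

namespace Cfsg.Agent.S5195

open Cfsg.Agent.H2 Cfsg.Agent.L0 Cfsg.Agent.L0.Fus Cfsg.FusionSystem Cfsg.Agent.H6

universe u v w

/-- the `p`-automizer condition -/
def CharP {Ω : Type*} [Group Ω] {S : Subgroup Ω} (p : ℕ) (F : FusionSystem S) : Prop :=
  ∀ Q : Subgroup Ω, Q ≤ S → Q ≠ ⊥ → (Q.subgroupOf S).Characteristic → IsPGroup p (F.autGroup Q)

theorem autGroup_mono {Ω : Type*} [Group Ω] {S T : Subgroup Ω} [Finite S] [Finite T] {F : FusionSystem S} {E : FusionSystem T}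
    (h : E.IsSubsystemOf F) (hTS : T ≤ S) {Q : Subgroup Ω} (hQ : Q ≤ T) : E.autGroup Q ≤ F.autGroup Q := by
  intro α hα
  rw [mem_autGroup E hQ] at hα
  rw [mem_autGroup F (hQ.trans hTS)]
  exact h _ hα

theorem char_loc {p : ℕ} [Fact p.Prime] {Ω : Type u} [Group Ω] {S : Subgroup Ω} [Finite S] {F : FusionSystem S}
    (IH : ∀ (Ω' : Type u) [Group Ω'] (S' : Subgroup Ω') [Finite S'] (F' : FusionSystem S'), Smaller F' F →
      IsPGroup p S' → F'.IsSaturated p → (p ≠ 2 ∨ F'.IsSectionFree p (Equiv.Perm (Fin 4))) → CharP p F' →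
      F' ≤ innerFusionSystem S')
    (hS : IsPGroup p S) (hF : F.IsSaturated p) (hfree : p ≠ 2 ∨ F.IsSectionFree p (Equiv.Perm (Fin 4)))
    (hch : CharP p F) {W : Subgroup Ω} (hW : W ≤ S) (hWn : S ≤ Subgroup.normalizer (W : Set Ω)) (hn : ¬ F.IsNormal W) :
    LocIn F (innerFusionSystem S) W := by
  have hfn := fullyNormalized_of_le_normalizer (F := F) hW hWn
  obtain ⟨E, hE⟩ := exists_normalizerSystem F hW
  have hsub : E.IsSubsystemOf F := fun P φ hφ => by rw [hE P] at hφ; exact hφ.1
  have hsm : Smaller E F := smaller_of_sub hsub (fun h => hn (normal_of_normalizerHom hW fun P φ hφ => by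
    rw [← hE P]; exact h P hφ))
  have hTS : normalizerIn S W ≤ S := inf_le_left
  have hnS : normalizerIn S W = S := inf_eq_left.mpr hWn
  refine loc_of_inner hE (IH Ω _ E hsm (hS.to_le hTS) (normalizerSystem_saturated hS hF hfn hE)
    (hfree.imp_right (fun h => sectionFree_normalizer hS hF h hfn hE)) ?_)
  intro Q hQ hQne hQc
  have h1 : (Q.subgroupOf S).Characteristic := by
    have key : ∀ X : Subgroup Ω, X = S → (Q.subgroupOf X).Characteristic → (Q.subgroupOf S).Characteristic := by
      rintro X rfl h; exact h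
    exact key _ hnS hQc
  exact (hch Q (hQ.trans hTS) hQne h1).to_le (autGroup_mono hsub hTS hQ)

theorem char_fac {p : ℕ} [Fact p.Prime] {Ω : Type u} [Group Ω] {S : Subgroup Ω} [Finite S] {F : FusionSystem S}
    (IH : ∀ (Ω' : Type u) [Group Ω'] (S' : Subgroup Ω') [Finite S'] (F' : FusionSystem S'), Smaller F' F →
      IsPGroup p S' → F'.IsSaturated p → (p ≠ 2 ∨ F'.IsSectionFree p (Equiv.Perm (Fin 4))) → CharP p F' →
      F' ≤ innerFusionSystem S')
    (hS : IsPGroup p S) (hF : F.IsSaturated p) (hfree : p ≠ 2 ∨ F.IsSectionFree p (Equiv.Perm (Fin 4)))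
    (hch : CharP p F) {W : Subgroup Ω} (hWne : W ≠ ⊥) (hWc : (W.subgroupOf S).Characteristic) (hn : F.IsNormal W) :
    F ≤ innerFusionSystem S := by
  obtain ⟨Ω', _, _, θ, E, hE, hEs, hp', hlt, hne⟩ := exists_factor hS hF (stronglyClosed_of_normal hn)
  have hQsc := stronglyClosed_of_normal hn
  have hker : kerIn θ = W := stronglyClosed_kerIn_iff_agree hE.2.1 hn.1
  have hsm := factor_surjectiveMorphism hS hF hQsc hE
  have hr : θ.range = ⊤ := hsm.2.1
  have hθs : Function.Surjective θ := MonoidHom.range_eq_top.1 hr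
  suffices hin : E ≤ innerFusionSystem (⊤ : Subgroup Ω') by
    have e := inner_of_factor hS hF hn (hch W hn.1 hWne hWc) hp' hE hin
    intro P φ hφ
    rw [e] at hφ
    exact hφ
  refine IH Ω' ⊤ E (Or.inl (hlt hWne)) hp' hEs (hfree.imp_right (fun h => sectionFree_factor hS hF h hn hE)) ?_
  intro Q' _ hQ'ne hQ'c
  set P := preimageAlong θ Q' with hP
  have hPS : P ≤ S := preimageAlong_le
  have hKP : kerIn θ ≤ P := kerIn_le_preimageAlong
  have him : imageAlong θ P = Q' := image_preimage (by rw [hr]; exact le_top)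
  have hPne : P ≠ ⊥ := fun h => hWne (by rw [← hker, ← le_bot_iff, ← h]; exact hKP)
  have hPm : ∀ x : S, x ∈ P.subgroupOf S ↔ θ x ∈ Q' := fun x => by
    rw [Subgroup.mem_subgroupOf, hP, mem_preimageAlong]
    exact ⟨fun ⟨_, h⟩ => h, fun h => ⟨x.2, h⟩⟩
  have hPc : (P.subgroupOf S).Characteristic := by
    rw [Subgroup.characteristic_iff_le_comap]
    intro α x hx
    rw [Subgroup.mem_comap]
    rw [hPm] at hx
    show α x ∈ _
    rw [hPm]
    -- the induced automorphism
    have hk : θ.ker = W.subgroupOf S := by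
      ext y; rw [MonoidHom.mem_ker, hE.2.1]; rfl
    have hkc : θ.ker.map α.toMonoidHom = θ.ker := by
      rw [hk]; exact Subgroup.characteristic_iff_map_eq.1 hWc α
    let e1 : S ⧸ θ.ker ≃* S ⧸ θ.ker := QuotientGroup.congr θ.ker θ.ker α hkc
    let e2 : S ⧸ θ.ker ≃* Ω' := QuotientGroup.quotientKerEquivOfSurjective θ hθs
    let e3 : (⊤ : Subgroup Ω') ≃* Ω' := Subgroup.topEquiv
    let β : (⊤ : Subgroup Ω') ≃* (⊤ : Subgroup Ω') := ((e3.trans e2.symm).trans e1).trans (e2.trans e3.symm)
    have hβ : ∀ y : S, ((β ⟨θ y, Subgroup.mem_top _⟩ : (⊤ : Subgroup Ω')) : Ω') = θ (α y) := by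
      intro y
      have h1 : e2.symm (θ y) = QuotientGroup.mk y := by
        rw [MulEquiv.symm_apply_eq]; rfl
      show e2 (e1 (e2.symm (θ y))) = θ (α y)
      rw [h1]; rfl
    have h2 := Subgroup.characteristic_iff_le_comap.1 hQ'c β (x := ⟨θ x, Subgroup.mem_top _⟩) hx
    have h3 : ((β ⟨θ x, Subgroup.mem_top _⟩ : (⊤ : Subgroup Ω')) : Ω') ∈ Q' := h2
    rwa [hβ] at h3
  have h1 := hch P hPS hPne hPc
  have h2 : IsPGroup p (E.autGroup (imageAlong θ P)) := h1.of_surjective _ (autImage_surjective hsm hPS hKP)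
  rwa [him] at h2

theorem char_inner {p : ℕ} [Fact p.Prime] : ∀ (Ω : Type u) [Group Ω] (S : Subgroup Ω) [Finite S] (F : FusionSystem S),
    IsPGroup p S → F.IsSaturated p → (p ≠ 2 ∨ F.IsSectionFree p (Equiv.Perm (Fin 4))) → CharP p F →
    F ≤ innerFusionSystem S := by
  classical
  apply fusion_induction
  intro Ω _ S _ F IH hS hF hfree hch
  by_cases hS1 : S = ⊥
  · intro P φ hφ
    refine ⟨hom_le F hφ, 1, S.one_mem, fun x => ?_⟩
    have h1 := hom_mem F hφ x
    have h2 := hom_le F hφ x.2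
    rw [hS1, Subgroup.mem_bot] at h1 h2
    rw [h1, h2]; simp
  -- the two functors
  have hJc : ((thompsonSubgroupAOf S).subgroupOf S).Characteristic := by
    rw [Subgroup.characteristic_iff_map_eq]
    intro α
    have e1 : (thompsonSubgroupAOf S).subgroupOf S = thompsonSubgroupAOf (⊤ : Subgroup S) := by
      apply Subgroup.map_injective S.subtype_injective
      rw [Subgroup.map_subgroupOf_eq_of_le (jj_le S), thompsonAOf_map _ _ S.subtype_injective,
        ← MonoidHom.range_eq_map, Subgroup.range_subtype]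
    rw [e1, thompsonAOf_map _ _ α.injective, Subgroup.map_top_of_surjective _ α.surjective]
  have hZc : ((H2.zc S).subgroupOf S).Characteristic := by
    have e1 : (H2.zc S).subgroupOf S = Subgroup.center S := by
      ext x
      rw [Subgroup.mem_subgroupOf, Subgroup.mem_center_iff]
      constructor
      · rintro ⟨-, h⟩ y
        exact Subtype.ext (Subgroup.mem_centralizer_iff.1 h y y.2)
      · intro h
        refine ⟨x.2, Subgroup.mem_centralizer_iff.2 fun y hy => ?_⟩
        exact congrArg (fun z : S => (z : Ω)) (h ⟨y, hy⟩)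
    rw [e1]; infer_instance
  have hZne : H2.zc S ≠ ⊥ := by
    haveI : Group.IsNilpotent S := hS.isNilpotent
    exact inf_cent_ne_bot hS (D := S) le_rfl (by
      intro x hx; exact Subgroup.le_normalizer hx) hS1
  have hZn : S ≤ Subgroup.normalizer (H2.zc S : Set Ω) := by
    intro x hx
    haveI : Finite ↥(H2.zc S) := finite_of_le (inf_le_left : H2.zc S ≤ S)
    apply mem_normalizer_of_finite
    intro z hz
    have h1 := Subgroup.mem_centralizer_iff.1 hz.2 x hx
    have h2 : x * z * x⁻¹ = z := by rw [h1]; group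
    rw [h2]; exact hz
  by_cases h1 : F.IsNormal (thompsonSubgroupAOf S)
  · exact char_fac IH hS hF hfree hch (jj_ne_bot hS hS1) hJc h1
  by_cases h2 : F.IsNormal (H2.zc S)
  · exact char_fac IH hS hF hfree hch hZne hZc h2
  exact thompson_inner Ω S F hS hF hfree
    (cenIn_of_locIn inf_le_left (char_loc IH hS hF hfree hch inf_le_left hZn h2))
    (char_loc IH hS hF hfree hch (jj_le S) (Subgroup.le_normalizer.trans (norm_le_norm_jj S)) h1)

/-- A strengthened Frobenius normal p-complement criterion for fusion systems. Let F be a saturated fusion system over a finite p-group S such that p is odd or F is S₄-free (the symmetric group of degree 4 is not involved in any model of the normalizer system of a fully normalized F-centric subgroup). If Aut_F(Q) is a p-group for every nontrivial characteristic subgroup Q of S, then F is the inner fusion system of S. -/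
theorem result {Ω : Type*} [Group Ω] {S : Subgroup Ω} [Finite S] (p : ℕ) [Fact p.Prime] (hS : IsPGroup p S) (F : Cfsg.FusionSystem S) (hF : F.IsSaturated p) (hp : p ≠ 2 ∨ F.IsSectionFree p (Equiv.Perm (Fin 4))) (h : ∀ Q : Subgroup Ω, Q ≤ S → Q ≠ ⊥ → (Q.subgroupOf S).Characteristic → IsPGroup p (F.autGroup Q)) : ∀ P : Subgroup Ω, F.Hom P = (Cfsg.innerFusionSystem S).Hom P := by
  exact eq_inner_of_le (char_inner Ω S F hS hF hp h)

end Cfsg.Agent.S5195
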