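import Cfsg.Statements.S5196
import Cfsg.Agent.L0.Fus.Well4
-- import your own Cfsg.Agent.* helpers here

set_option autoImplicit false
universe u
open Cfsg

namespace Cfsg.Agent.S5196

/-- Let p be an odd prime and W a positive characteristic p-functor: W assigns to every finite p-group Q (in a fixed universe) a subgroup W(Q), nontrivial when Q is, carried to W(R) by every isomorphism Q ≅ R; assume also Z(Q) ≤ W(Q) for every finite p-group Q. Suppose W satisfies the local condition: for every finite group G with Sylow p-subgroup P, O_p(G) ∩ Z(G) = O_p(G) ∩ Z(N_G(W(P))). Then W controls weak closure of elements in every saturated fusion system F over a finite p-group S: the centre of the normalizer fusion system of W(S) in F equals the centre of F. (For p = 2 no functor satisfies the local condition, so p is taken odd.) -/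
theorem result {p : ℕ} [Fact p.Prime] (hp : p ≠ 2) (W : ∀ (Q : Type u) [Group Q], Subgroup Q) (hW1 : ∀ (Q : Type u) [Group Q] [Finite Q], IsPGroup p Q → Nontrivial Q → W Q ≠ ⊥) (hW2 : ∀ (Q R : Type u) [Group Q] [Group R] [Finite Q], IsPGroup p Q → ∀ φ : Q ≃* R, (W Q).map φ.toMonoidHom = W R) (hWZ : ∀ (Q : Type u) [Group Q] [Finite Q], IsPGroup p Q → Subgroup.center Q ≤ W Q) (hC : ∀ (G : Type u) [Group G] [Finite G] (P : Sylow p G), Cfsg.pCore p G ⊓ Subgroup.center G = Cfsg.pCore p G ⊓ (Subgroup.center ↥(Subgroup.normalizer (((W ↥(P : Subgroup G)).map (P : Subgroup G).subtype : Subgroup G) : Set G))).map (Subgroup.normalizer (((W ↥(P : Subgroup G)).map (P : Subgroup G).subtype : Subgroup G) : Set G)).subtype) {Ω : Type u} [Group Ω] {S : Subgroup Ω} [Finite S] (hS : IsPGroup p S) (F : Cfsg.FusionSystem S) (hF : F.IsSaturated p) (N : Cfsg.FusionSystem (Cfsg.FusionSystem.normalizerIn S ((W ↥S).map S.subtype))) (hN : F.IsNormalizerSystem ((W ↥S).map S.subtype) N) : N.center = F.center := by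
  refine Cfsg.Agent.L0.Fus.center_eq_of_local (Cfsg.Agent.L0.Fus.WFun.mk' W hW1 hW2) (fun Ω _ T _ hT z hz hzc => by
      refine ⟨⟨z, hz⟩, hWZ T hT ?_, rfl⟩
      rw [Subgroup.mem_center_iff]
      intro g
      exact Subtype.ext (hzc g g.2)) (fun G _ _ P z hz _ hg => ?_) hS F hF N hN
  have h1 : z ∈ Cfsg.pCore p G ⊓ Subgroup.center G := by
    rw [hC G P]
    have hzP : z ∈ (P : Subgroup G) := Cfsg.Agent.L0.pCore_le_sylow P hz
    have hzN : z ∈ Subgroup.normalizer (((W ↥(P : Subgroup G)).map (P : Subgroup G).subtype : Subgroup G) : Set G) := by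
      have := (Cfsg.Agent.L0.Fus.WFun.mk' W hW1 hW2).normalizer_self P.2
      exact this hzP
    refine ⟨hz, ⟨z, hzN⟩, ?_, rfl⟩
    rw [SetLike.mem_coe, Subgroup.mem_center_iff]
    intro g
    exact Subtype.ext (hg g g.2)
  intro g
  exact Subgroup.mem_center_iff.mp h1.2 g

end Cfsg.Agent.S5196
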