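import Cfsg.Statements.S5233
import Cfsg.Agent.H2.GenExt2
import Mathlib

set_option autoImplicit false
open Cfsg

namespace Cfsg.Agent.S5233

open Cfsg.Agent.H2 Cfsg.Agent.L0 Cfsg.Agent.L0.Fus Cfsg.FusionSystem
open scoped commutatorElement

/-- Let F be a saturated fusion system over a finite p-group S and P a subgroup of S strongly closed in F that is generalized extraspecial (its Frattini subgroup equals its commutator subgroup and has order p) and not isomorphic to E × A with A elementary abelian and E dihedral of order 8 (p = 2) or extraspecial of order p³ and exponent p (p odd). Then P is normal in F. -/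
theorem result {Ω : Type*} [Group Ω] {S : Subgroup Ω} [Finite S] (p : ℕ) [Fact p.Prime] (hS : IsPGroup p S) (F : Cfsg.FusionSystem S) (hF : F.IsSaturated p) (P : Subgroup Ω) (hP : F.StronglyClosed P) (hge : frattini ↥P = commutator ↥P ∧ Nat.card ↥(commutator ↥P) = p) (h2 : p = 2 → ¬ ∃ (A : Type) (_ : CommGroup A), (∀ a : A, a ^ 2 = 1) ∧ Nonempty (↥P ≃* DihedralGroup 4 × A)) (hodd : p ≠ 2 → ¬ ∃ (E : Type) (_ : Group E) (A : Type) (_ : CommGroup A), Cfsg.IsExtraspecial p E ∧ Nat.card E = p ^ 3 ∧ Monoid.exponent E = p ∧ (∀ a : A, a ^ p = 1) ∧ Nonempty (↥P ≃* E × A)) : F.IsNormal P := by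
  classical
  have hpp : p.Prime := Fact.out
  have hPS := hP.1
  haveI := finite_of_le hPS
  have hPp : IsPGroup p P := hS.to_le hPS
  obtain ⟨hfr, hcard⟩ := hge
  have hmap : (commutator ↥P).map P.subtype = ⁅P, P⁆ := Subgroup.map_subtype_commutator P
  have hZ : Nat.card ↥⁅P, P⁆ = p := by
    rw [← hmap, ← Nat.card_congr (Subgroup.equivMapOfInjective _ P.subtype P.subtype_injective).toEquiv, hcard]
  have hZP : ⁅P, P⁆ ≤ P := Subgroup.commutator_le_self P
  haveI : Finite ↥⁅P, P⁆ := finite_of_le (hZP.trans hPS)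
  have hpw : ∀ a ∈ P, a ^ p ∈ ⁅P, P⁆ := by
    intro a ha
    rw [← hmap]
    refine ⟨⟨a, ha⟩ ^ p, ?_, by simp⟩
    rw [← hfr]
    exact H6.pow_mem_frattini hPp _
  have hne : ⁅P, P⁆ ≠ ⊥ := by
    intro h; rw [h, Subgroup.card_bot] at hZ
    exact hpp.one_lt.ne hZ
  have hZcen : ⁅P, P⁆ ≤ Subgroup.centralizer (P : Set Ω) := by
    have h1 := inf_cent_ne_bot hPp hZP (by
      intro g hg
      apply mem_normalizer_of_finite
      intro x hx
      have h2 := Subgroup.commutator_mem_commutator hg (hZP hx)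
      have h3 : g * x * g⁻¹ = ⁅g, x⁆ * x := by rw [commutatorElement_def]; group
      rw [h3]
      exact Subgroup.mul_mem _ h2 hx) hne
    have h2 : ⁅P, P⁆ ⊓ Subgroup.centralizer (P : Set Ω) = ⁅P, P⁆ := by
      apply Subgroup.eq_of_le_of_card_ge inf_le_left
      have h4 : Nat.card ↥(⁅P, P⁆ ⊓ Subgroup.centralizer (P : Set Ω) : Subgroup Ω) ∣ p := by
        rw [← hZ]; exact Subgroup.card_dvd_of_le inf_le_left
      rcases (Nat.dvd_prime hpp).1 h4 with h5 | h5
      · exact absurd (Subgroup.card_eq_one.1 h5) h1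
      · rw [h5, hZ]
    rw [← h2]; exact inf_le_right
  have hZc : ∀ z ∈ ⁅P, P⁆, ∀ a ∈ P, a * z = z * a := fun z hz a ha => Subgroup.mem_centralizer_iff.1 (hZcen hz) a ha
  have hZc' : commutator ↥P ≤ Subgroup.center ↥P := by
    intro z hz
    rw [Subgroup.mem_center_iff]
    intro a
    apply Subtype.ext
    exact hZc z (hmap ▸ ⟨z, hz, rfl⟩) a a.2
  have hsc : F.StronglyClosed ⁅P, P⁆ := by
    refine ⟨hZP.trans hPS, fun R hR φ hφ x => ?_⟩
    by_contra hx
    obtain ⟨hCab, hCexp, -⟩ := gx_star hS hF hP hpw hZ hR hφ hx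
    have hyP : φ x ∈ P := hP.2 R (hR.trans hZP) φ hφ x
    set y := φ x with hy
    obtain ⟨g, hgP, hgy⟩ : ∃ g ∈ P, g * y ≠ y * g := by
      by_contra hcon
      push Not at hcon
      apply hne
      rw [Subgroup.commutator_eq_bot_iff_le_centralizer]
      intro a ha
      refine Subgroup.mem_centralizer_iff.2 ?_
      intro b hb
      exact (hCab a ha b hb (hcon a ha) (hcon b hb)).symm
    have hA : ∀ a b : ↥P, a * ⟨y, hyP⟩ = ⟨y, hyP⟩ * a → b * ⟨y, hyP⟩ = ⟨y, hyP⟩ * b → a * b = b * a := by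
      intro a b h1 h2
      exact Subtype.ext (hCab a a.2 b b.2 (congrArg Subtype.val h1) (congrArg Subtype.val h2))
    have hB : ∀ a : ↥P, a * ⟨y, hyP⟩ = ⟨y, hyP⟩ * a → a ^ p = 1 := by
      intro a h1
      exact Subtype.ext (by simpa using hCexp a a.2 (congrArg Subtype.val h1))
    have hc1 : ∀ g' (h : g' ∈ P), g' * y ≠ y * g' → ⁅(⟨g', h⟩ : ↥P), (⟨y, hyP⟩ : ↥P)⁆ ≠ 1 := by
      intro g' h h1 h2
      have h3 : (⟨g', h⟩ : ↥P) * (⟨y, hyP⟩ : ↥P) = ⟨y, hyP⟩ * ⟨g', h⟩ := commutatorElement_eq_one_iff_mul_comm.1 h2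
      exact h1 (congrArg Subtype.val h3)
    by_cases hp2 : p = 2
    · subst hp2
      apply h2 rfl
      -- an involution
      have hcsq : ∀ z ∈ ⁅P, P⁆, z ^ 2 = 1 := by
        intro z hz
        have h2 : (⟨z, hz⟩ : ↥⁅P, P⁆) ^ Nat.card ↥⁅P, P⁆ = 1 := pow_card_eq_one'
        rw [hZ] at h2
        exact congrArg Subtype.val h2
      obtain ⟨g', hg'P, hg'y, hg'2⟩ : ∃ g' ∈ P, g' * y ≠ y * g' ∧ g' ^ 2 = 1 := by
        by_cases hg2 : g ^ 2 = 1
        · exact ⟨g, hgP, hgy, hg2⟩
        · refine ⟨g * y, P.mul_mem hgP hyP, ?_, ?_⟩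
          · intro h
            apply hgy
            have h3 : g * y * y = (y * g) * y := by rw [h]; group
            exact mul_right_cancel h3
          · have h3 : ⁅g⁻¹, y⁆ ∈ ⁅P, P⁆ := Subgroup.commutator_mem_commutator (P.inv_mem hgP) hyP
            have h4 : ⁅g⁻¹, y⁆ ≠ 1 := by
              intro h
              apply hgy
              have := commutatorElement_eq_one_iff_mul_comm.1 h
              calc g * y = g * (y * g⁻¹) * g := by group
                _ = g * (g⁻¹ * y) * g := by rw [this]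
                _ = y * g := by group
            have h5 : g ^ 2 ∈ ⁅P, P⁆ := hpw g hgP
            -- both are the nontrivial element
            have h6 : g ^ 2 = ⁅g⁻¹, y⁆ := by
              have h7 : (⟨g ^ 2, h5⟩ : ↥⁅P, P⁆) ∈ Subgroup.zpowers (⟨⁅g⁻¹, y⁆, h3⟩ : ↥⁅P, P⁆) :=
                mem_zpowers_of_prime_card hZ (fun h => h4 (congrArg Subtype.val h))
              obtain ⟨k, hk⟩ := Subgroup.mem_zpowers_iff.1 h7
              have hk' : ⁅g⁻¹, y⁆ ^ k = g ^ 2 := congrArg Subtype.val hk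
              rcases Int.even_or_odd k with ⟨j, hj⟩ | ⟨j, hj⟩
              · exfalso; apply hg2
                rw [← hk', hj, ← two_mul, zpow_mul]
                have := hcsq _ h3
                rw [show (⁅g⁻¹, y⁆ : Ω) ^ (2 : ℤ) = ⁅g⁻¹, y⁆ ^ 2 from zpow_natCast _ 2, this, one_zpow]
              · rw [← hk', hj, zpow_add_one, zpow_mul]
                have := hcsq _ h3
                rw [show (⁅g⁻¹, y⁆ : Ω) ^ (2 : ℤ) = ⁅g⁻¹, y⁆ ^ 2 from zpow_natCast _ 2, this, one_zpow, one_mul]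
            have hy2 : y ^ 2 = 1 := hCexp y hyP rfl
            have h8 : (g * y) ^ 2 = g ^ 2 * (⁅g⁻¹, y⁆ * y ^ 2) := by
              rw [pow_two (g * y), commutatorElement_def]; group
            rw [h8, hy2, mul_one, ← h6, ← pow_two]
            exact hcsq _ h5
      exact genext_two hZc' hcard hA hB (hc1 g' hg'P hg'y) (Subtype.ext (by simpa using hg'2))
    · by_cases hex : ∃ g' ∈ P, g' * y ≠ y * g' ∧ g' ^ p = 1
      · obtain ⟨g', hg'P, hg'y, hg'p⟩ := hex
        exact hodd hp2 (genext_odd hp2 hZc' hcard hA hB (hc1 g' hg'P hg'y) (Subtype.ext (by simpa using hg'p)))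
      · push Not at hex
        exact gx_core hp2 hS hF hP hpw hZ hZc hR hφ hx hex
  refine normal_of_omega hS hF hP 2 (fun i => if i = 0 then ⊥ else if i = 1 then ⁅P, P⁆ else P) (if_pos rfl) ?_ ?_ ?_ ?_
  · intro x hx _
    simpa using hx
  · intro i
    rcases i with _ | _ | i
    · simp
    · simpa using hZP
    · simp
  · intro i
    rcases i with _ | _ | i
    · simpa using stronglyClosed_bot
    · simpa using hsc
    · simpa using hP
  · intro i
    rcases i with _ | _ | i
    · have h1 : ⁅⁅P, P⁆, P⁆ = ⊥ := (Subgroup.commutator_eq_bot_iff_le_centralizer).2 hZcen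
      simp [h1]
    · simp
    · simpa using hZP

end Cfsg.Agent.S5233
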