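import Cfsg.Statements.S5236
import Cfsg.Agent.H2.FusOm
import Mathlib

set_option autoImplicit false
open Cfsg

namespace Cfsg.Agent.S5236

open Cfsg.Agent.H2 Cfsg.Agent.L0 Cfsg.Agent.L0.Fus Cfsg.FusionSystem
open scoped commutatorElement

def Lc (p : ℕ) (X : Type*) [Group X] : ℕ → Subgroup X
  | 0 => Subgroup.closure {x : X | x ^ p = 1}
  | k + 1 => ⁅Lc p X k, (⊤ : Subgroup X)⁆

theorem Lc_char (p : ℕ) (X : Type*) [Group X] (k : ℕ) : (Lc p X k).Characteristic := by
  induction k with
  | zero =>
    rw [Subgroup.characteristic_iff_map_le]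
    intro φ
    show (Subgroup.closure {x : X | x ^ p = 1}).map _ ≤ _
    rw [MonoidHom.map_closure, Subgroup.closure_le]
    rintro _ ⟨x, hx, rfl⟩
    apply Subgroup.subset_closure
    show (φ x) ^ p = 1
    rw [← map_pow, hx, map_one]
  | succ k ih =>
    haveI := ih
    show (⁅Lc p X k, (⊤ : Subgroup X)⁆).Characteristic
    infer_instance

theorem Lc_le (p : ℕ) (X : Type*) [Group X] (k : ℕ) : Lc p X k ≤ (⊤ : Subgroup X).lowerCentralSeries k := by
  induction k with
  | zero => exact le_top
  | succ k ih => exact Subgroup.commutator_mono ih le_rfl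

theorem Lc_mono (p : ℕ) (X : Type*) [Group X] (k : ℕ) : Lc p X (k + 1) ≤ Lc p X k := by
  haveI := Lc_char p X k
  exact Subgroup.commutator_le_left _ _

/-- Let p be an odd prime, F a saturated fusion system over a finite p-group S and P a subgroup of S strongly closed in F. Then P is normal in F if and only if Ω₁(P) (the subgroup generated by the elements of order p of P) has a chain of subgroups 1 = Q₀ ≤ Q₁ ≤ ⋯ ≤ Qₙ = Ω₁(P), each strongly closed in F, with [Qᵢ₊₁, P] ≤ Qᵢ for all i. -/
theorem result {Ω : Type*} [Group Ω] {S : Subgroup Ω} [Finite S] (p : ℕ) [Fact p.Prime] (hS : IsPGroup p S) (F : Cfsg.FusionSystem S) (hF : F.IsSaturated p) (hp : p ≠ 2) (P : Subgroup Ω) (hP : F.StronglyClosed P) : F.IsNormal P ↔ ∃ (n : ℕ) (Q : Fin (n + 1) → Subgroup Ω), Q 0 = ⊥ ∧ Q (Fin.last n) = Cfsg.omegaOne p P ∧ Monotone Q ∧ (∀ i : Fin (n + 1), F.StronglyClosed (Q i)) ∧ ∀ i : Fin n, ⁅Q i.succ, P⁆ ≤ Q i.castSucc := by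
  constructor
  · intro hn
    haveI := finite_of_le hP.1
    haveI : Group.IsNilpotent ↥P := (hS.to_le hP.1).isNilpotent
    obtain ⟨n, hn'⟩ : ∃ n, Lc p ↥P n = ⊥ := by
      obtain ⟨n, h⟩ := Subgroup.nilpotent_iff_lowerCentralSeries.1 (inferInstance : Group.IsNilpotent ↥P)
      exact ⟨n, le_bot_iff.1 ((Lc_le p ↥P n).trans h.le)⟩
    have hsc : ∀ k, F.StronglyClosed ((Lc p ↥P k).map P.subtype) := by
      intro k
      apply stronglyClosed_of_normal
      refine normal_of_characteristic hn (Subgroup.map_subtype_le _) ?_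
      have h : ((Lc p ↥P k).map P.subtype).subgroupOf P = Lc p ↥P k :=
        Subgroup.comap_map_eq_self_of_injective P.subtype_injective _
      rw [h]
      exact Lc_char p ↥P k
    have hanti : ∀ i j, i ≤ j → Lc p ↥P j ≤ Lc p ↥P i := by
      intro i j hij
      induction hij with
      | refl => exact le_rfl
      | step _ ih => exact (Lc_mono p ↥P _).trans ih
    refine ⟨n, fun i => (Lc p ↥P (n - i)).map P.subtype, ?_, ?_, ?_, fun i => hsc _, ?_⟩
    · simp [hn']
    · simp only [Fin.val_last, Nat.sub_self]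
      show (Subgroup.closure {x : ↥P | x ^ p = 1}).map P.subtype = Subgroup.closure _
      rw [MonoidHom.map_closure]
      congr 1
      ext x
      constructor
      · rintro ⟨y, hy, rfl⟩
        exact ⟨y.2, by simpa using congrArg Subtype.val (show y ^ p = 1 from hy)⟩
      · rintro ⟨hx, hxp⟩
        exact ⟨⟨x, hx⟩, Subtype.ext (by simpa using hxp), rfl⟩
    · intro i j hij
      apply Subgroup.map_mono
      apply hanti
      have : (i : ℕ) ≤ j := hij
      omega
    · intro i
      have h1 : n - ((i.castSucc : Fin (n + 1)) : ℕ) = (n - ((i.succ : Fin (n + 1)) : ℕ)) + 1 := by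
        simp only [Fin.val_succ, Fin.val_castSucc]
        have := i.2
        omega
      show ⁅(Lc p ↥P (n - ((i.succ : Fin (n + 1)) : ℕ))).map P.subtype, P⁆ ≤ (Lc p ↥P (n - ((i.castSucc : Fin (n + 1)) : ℕ))).map P.subtype
      rw [h1]
      have h2 : P = (⊤ : Subgroup ↥P).map P.subtype := by rw [← MonoidHom.range_eq_map, Subgroup.range_subtype]
      have h3 : ⁅(Lc p ↥P (n - ((i.succ : Fin (n + 1)) : ℕ))).map P.subtype, (⊤ : Subgroup ↥P).map P.subtype⁆ =
        (Lc p ↥P (n - ((i.succ : Fin (n + 1)) : ℕ) + 1)).map P.subtype := by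
        rw [← Subgroup.map_commutator]; rfl
      rw [← h3, ← h2]
  · rintro ⟨n, Q, h0, hl, hm, hsc, hc⟩
    have hPn := StronglyClosed.le_normalizer hP
    let C : ℕ → Subgroup Ω := fun i => if h : i < n + 1 then Q ⟨i, h⟩ else Q (Fin.last n)
    have hC : ∀ i (h : i < n + 1), C i = Q ⟨i, h⟩ := fun i h => dif_pos h
    have hC' : ∀ i, ¬ i < n + 1 → C i = Q (Fin.last n) := fun i h => dif_neg h
    refine normal_of_omega hS hF hP n C ?_ ?_ ?_ ?_ ?_
    · rw [hC 0 (by omega)]; exact h0
    · rintro x hx (h | ⟨h, -⟩)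
      · rw [hC n (by omega)]
        show x ∈ Q (Fin.last n)
        rw [hl]
        exact Subgroup.subset_closure ⟨hx, h⟩
      · exact absurd h hp
    · intro i
      by_cases h1 : i + 1 < n + 1
      · rw [hC i (by omega), hC (i + 1) h1]
        apply hm
        show i ≤ i + 1
        omega
      · rw [hC' (i + 1) h1]
        by_cases h2 : i < n + 1
        · rw [hC i h2]
          apply hm
          exact Fin.le_last _
        · rw [hC' i h2]
    · intro i
      by_cases h2 : i < n + 1
      · rw [hC i h2]; exact hsc _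
      · rw [hC' i h2]; exact hsc _
    · intro i
      by_cases h1 : i < n
      · rw [hC i (by omega), hC (i + 1) (by omega)]
        exact hc ⟨i, h1⟩
      · have h2 : C (i + 1) = Q (Fin.last n) := hC' _ (by omega)
        have h3 : C i = Q (Fin.last n) := by
          by_cases h4 : i < n + 1
          · have h5 : i = n := by omega
            subst h5
            rw [hC i h4]; rfl
          · exact hC' i h4
        rw [h2, h3]
        have h4 := StronglyClosed.le_normalizer (hsc (Fin.last n))
        rw [Subgroup.commutator_le]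
        intro x hx y hy
        have h5 : y * x⁻¹ * y⁻¹ ∈ Q (Fin.last n) :=
          (Subgroup.mem_normalizer_iff.mp (h4 (hP.1 hy)) _).mp (Subgroup.inv_mem _ hx)
        have h6 := (Q (Fin.last n)).mul_mem hx h5
        have e : x * (y * x⁻¹ * y⁻¹) = ⁅x, y⁆ := by rw [commutatorElement_def]; group
        rwa [e] at h6

end Cfsg.Agent.S5236
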