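import Cfsg.Statements.S5249
import Cfsg.Agent.H2.ZjW
import Cfsg.Agent.L0.Fus.GrpSt
import Mathlib

set_option autoImplicit false
open Cfsg

namespace Cfsg.Agent.S5249

open Cfsg.Agent.H2 Cfsg.Agent.L0 Cfsg.Agent.L0.Fus Cfsg.FusionSystem

/-- Let p be an odd prime, G a finite group in which Qd(p) (the natural semidirect product of an elementary abelian group of order p² by SL₂(p)) is not involved, and P a Sylow p-subgroup of G. Then the fusion system of G on P is a solvable fusion system. -/
theorem result {G : Type*} [Group G] [Finite G] {p : ℕ} [Fact p.Prime] (hp : p ≠ 2) (hqd : ¬ Cfsg.Involves ↥(Cfsg.qd p) G) (P : Sylow p G) : (Cfsg.groupFusionSystem (P : Subgroup G)).IsSolvableSystem := by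
  haveI : Finite (P : Subgroup G) := inferInstance
  have hS : IsPGroup p (P : Subgroup G) := P.isPGroup'
  have hF := L0.Fus.group_saturated P
  have hfree := group_sectionFree P (H := ↥(qd p)) hqd
  intro R hR hne hRn E hE hcore
  have hEf := sectionFree_factor_sc hS hF hfree hR hE
  have hsm := factor_surjectiveMorphism hS hF hR hE
  have hEs := image_saturated hS hF hsm
  have hSp : IsPGroup p (⊤ : Subgroup ((P : Subgroup G) ⧸ R.subgroupOf (P : Subgroup G))) := (hS.to_quotient _).to_subgroup _
  have hn := zj_normal_free hp hSp hEs hEf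
  have hb : (zjW p).W (⊤ : Subgroup ((P : Subgroup G) ⧸ R.subgroupOf (P : Subgroup G))) ≠ ⊥ := by
    apply (zjW p).ne_bot _ hSp
    intro h
    apply hne
    apply le_antisymm hR.1
    intro s hs
    have h1 : (QuotientGroup.mk (⟨s, hs⟩ : (P : Subgroup G)) : (P : Subgroup G) ⧸ R.subgroupOf (P : Subgroup G)) ∈
      (⊤ : Subgroup ((P : Subgroup G) ⧸ R.subgroupOf (P : Subgroup G))) := Subgroup.mem_top _
    rw [h, Subgroup.mem_bot, QuotientGroup.eq_one_iff] at h1
    exact h1
  apply hb
  rw [← le_bot_iff, ← hcore]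
  exact le_core hn

end Cfsg.Agent.S5249
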