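import Cfsg.Statements.S5272
import Cfsg.Agent.H2.AxZ
import Mathlib

set_option autoImplicit false
open Cfsg

namespace Cfsg.Agent.S5272

open Cfsg.Agent.H2 Cfsg.Agent.L0 Cfsg.Agent.L0.Fus Cfsg.FusionSystem Cfsg.Agent.H6
open scoped commutatorElement

theorem norm_map_iff {X Y : Type*} [Group X] [Group Y] {f : X →* Y} (hf : Function.Injective f) {A B : Subgroup X} :
    B.map f ≤ Subgroup.normalizer ((A.map f : Subgroup Y) : Set Y) ↔ B ≤ Subgroup.normalizer (A : Set X) := by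
  have hmem : ∀ x, f x ∈ A.map f ↔ x ∈ A := fun x => by
    constructor
    · rintro ⟨y, hy, hyx⟩
      rwa [← hf hyx]
    · intro h; exact ⟨x, h, rfl⟩
  constructor
  · intro h b hb
    rw [Subgroup.mem_normalizer_iff]
    intro x
    have h1 := Subgroup.mem_normalizer_iff.1 (h ⟨b, hb, rfl⟩) (f x)
    rw [hmem] at h1
    rw [h1, ← hmem, map_mul, map_mul, map_inv]
  · rintro h _ ⟨b, hb, rfl⟩
    rw [Subgroup.mem_normalizer_iff]
    intro y
    constructor
    · rintro ⟨x, hx, rfl⟩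
      exact ⟨b * x * b⁻¹, (Subgroup.mem_normalizer_iff.1 (h hb) x).1 hx, by rw [map_mul, map_mul, map_inv]⟩
    · rintro ⟨x, hx, hxy⟩
      refine ⟨b⁻¹ * x * b, ?_, ?_⟩
      · refine (Subgroup.mem_normalizer_iff.1 (h hb) _).2 ?_
        have e : b * (b⁻¹ * x * b) * b⁻¹ = x := by group
        rw [e]; exact hx
      · rw [map_mul, map_mul, map_inv, hxy]; group

/-- An axiomatic Glauberman–Thompson nilpotency criterion for fusion systems. Let p be an odd prime, F a saturated fusion system over a finite p-group S, and 𝒜 a nonempty family of abelian subgroups of S. For Q ≤ S write I(Q) for the intersection of the members of 𝒜 contained in Q. Assume (invariance) that for every Q ≤ S containing a member of 𝒜, every F-automorphism of Q maps I(Q) into itself, and (replacement) that for every subgroup B of S of nilpotency class at most 2, if some member of 𝒜 contains [B,B] but not B, then B normalizes some member of 𝒜 that contains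 [B,B] but not B. Then F is the inner fusion system of S if and only if the normalizer fusion system of I(S) in F is the inner fusion system of N_S(I(S)). -/
theorem result {Ω : Type*} [Group Ω] {S : Subgroup Ω} [Finite S] (p : ℕ) [Fact p.Prime] (hS : IsPGroup p ↥S) (F : Cfsg.FusionSystem S) (hF : F.IsSaturated p) (hp : p ≠ 2) (𝒜 : Set (Subgroup Ω)) (h𝒜 : ∀ A ∈ 𝒜, A ≤ S ∧ IsMulCommutative ↥A) (hne : 𝒜.Nonempty) (hinv : ∀ Q : Subgroup Ω, Q ≤ S → (∃ A ∈ 𝒜, A ≤ Q) → ∀ α ∈ F.autGroup Q, ∀ x : ↥Q, (x : Ω) ∈ (⨅ A ∈ {A : Subgroup Ω | A ∈ 𝒜 ∧ A ≤ Q}, A) → (((α : MulAut ↥Q) x : ↥Q) : Ω) ∈ (⨅ A ∈ {A : Subgroup Ω | A ∈ 𝒜 ∧ A ≤ Q}, A)) (hrep : ∀ B : Subgroup Ω, B ≤ S → ⁅⁅B, B⁆, B⁆ = ⊥ → (∃ A ∈ 𝒜, ⁅B, B⁆ ≤ A ∧ ¬ B ≤ A) → ∃ A ∈ 𝒜, ⁅B, B⁆ ≤ A ∧ ¬ B ≤ A ∧ B ≤ Subgroup.normalizer (A : Set Ω)) : (∀ P : Subgroup Ω, F.Hom P = (Cfsg.innerFusionSystem S).Hom P) ↔ ∀ N : Cfsg.FusionSystem (Cfsg.FusionSystem.normalizerIn S (⨅ A ∈ 𝒜, A)), F.IsNormalizerSystem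 (⨅ A ∈ 𝒜, A) N → ∀ P : Subgroup Ω, N.Hom P = (Cfsg.innerFusionSystem (Cfsg.FusionSystem.normalizerIn S (⨅ A ∈ 𝒜, A))).Hom P := by
  classical
  obtain ⟨A00, hA00⟩ := hne
  have hWS : (⨅ A ∈ 𝒜, A) ≤ S := (iInf₂_le A00 hA00).trans (h𝒜 A00 hA00).1
  constructor
  · intro h N hN P
    exact normalizer_inner h hWS N hN P
  · intro h
    obtain ⟨NF, hNF⟩ := exists_normalizerSystem F hWS
    apply eq_inner_of_le
    by_contra hni
    have hloc : LocIn F (innerFusionSystem S) (⨅ A ∈ 𝒜, A) :=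
      loc_of_inner hNF (fun P φ hφ => by rw [h NF hNF P] at hφ; exact hφ)
    obtain ⟨E, hEs, hEF, hEn, G, _, ι, _, T, hr, hT, hcons, hco, hq⟩ := exists_min_model hp hS hF hni
    apply hEn
    have hιi := hr.1
    have hmem : ∀ (X : Subgroup S) (x : S), ι x ∈ X.map ι ↔ x ∈ X := fun X x => by
      constructor
      · rintro ⟨y, hy, hyx⟩
        rwa [← hιi hyx]
      · intro h; exact ⟨x, h, rfl⟩
    have hmem2 : ∀ (X : Subgroup S) (x : S), (x : Ω) ∈ X.map S.subtype ↔ x ∈ X := fun X x => by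
      constructor
      · rintro ⟨y, hy, hyx⟩
        have : y = x := Subtype.ext hyx
        rwa [← this]
      · intro h; exact ⟨x, h, rfl⟩
    set 𝒜' : Set (Subgroup G) := {A' | ∃ A0 : Subgroup S, A0.map S.subtype ∈ 𝒜 ∧ A0.map ι = A'} with h𝒜'
    have hback : ∀ A ∈ 𝒜, (A.subgroupOf S).map S.subtype = A := fun A hA => Subgroup.map_subgroupOf_eq_of_le (h𝒜 A hA).1
    have hin : ∀ A ∈ 𝒜, (A.subgroupOf S).map ι ∈ 𝒜' := fun A hA => ⟨A.subgroupOf S, (hback A hA).symm ▸ hA, rfl⟩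
    have key := ax_normal T 𝒜' ?_ ?_ ?_ ⟨_, hin A00 hA00⟩
      (fun B _ hB g hg => goodEl_of_coatom hp T hq hco B hB g hg) hcons
    · have hEN : E.IsNormal (⨅ A ∈ 𝒜, A) := by
        refine realized_normal hr hWS ?_
        have : (((⨅ A ∈ 𝒜, A) : Subgroup Ω).subgroupOf S).map ι = sInf 𝒜' := by
          ext y
          constructor
          · rintro ⟨x, hx, rfl⟩
            rw [Subgroup.mem_sInf]
            rintro _ ⟨A0, hA0, rfl⟩
            refine ⟨x, ?_, rfl⟩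
            have h1 : (x : Ω) ∈ ⨅ A ∈ 𝒜, A := hx
            rw [Subgroup.mem_iInf] at h1
            have h2 := h1 (A0.map S.subtype)
            rw [Subgroup.mem_iInf] at h2
            exact (hmem2 A0 x).1 (h2 hA0)
          · intro hy
            rw [Subgroup.mem_sInf] at hy
            obtain ⟨x, hx, rfl⟩ := hy _ (hin A00 hA00)
            refine ⟨x, ?_, rfl⟩
            show (x : Ω) ∈ ⨅ A ∈ 𝒜, A
            rw [Subgroup.mem_iInf]
            intro A
            rw [Subgroup.mem_iInf]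
            intro hA
            exact (hmem _ x).1 (hy _ (hin A hA))
        rw [this]; exact key
      intro P φ hφ
      rw [← normalizerHom_eq_of_normal hEN] at hφ
      obtain ⟨h1, h2, h3, ψ, hψ, h4, h5⟩ := hφ
      exact hloc P ⟨hEF _ h1, h2, h3, ψ, hEF _ hψ, h4, h5⟩
    · rintro _ ⟨A0, hA0, rfl⟩
      refine ⟨?_, ?_⟩
      · rw [hT]; rintro _ ⟨x, -, rfl⟩; exact ⟨x, rfl⟩
      · rintro _ ⟨x, hx, rfl⟩ _ ⟨y, hy, rfl⟩
        have h1 := (h𝒜 _ hA0).2.is_comm.comm ⟨x, (hmem2 A0 x).2 hx⟩ ⟨y, (hmem2 A0 y).2 hy⟩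
        have h2 : (x : Ω) * y = y * x := congrArg Subtype.val h1
        have h3 : x * y = y * x := Subtype.ext h2
        rw [← map_mul, h3, map_mul]
    · -- invariance
      rintro R' hR' ⟨A', ⟨A0', hA0', rfl⟩, hA'⟩ g hg
      set R0 := R'.comap ι with hR0
      set R := R0.map S.subtype with hR
      have hRS : R ≤ S := Subgroup.map_subtype_le _
      have hRm : ∀ x : S, (x : Ω) ∈ R ↔ ι x ∈ R' := fun x => hmem2 R0 x
      obtain ⟨φ, hφ, hφS, h1⟩ := exists_hom_of_conj hr g hRS (by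
        intro x
        have h2 : ι ⟨x, hRS x.2⟩ ∈ R' := (hRm ⟨x, hRS x.2⟩).1 x.2
        have h3 := (Subgroup.mem_normalizer_iff.1 hg _).1 h2
        rw [← hT]; exact hR' h3)
      have hφR : ∀ x : R, φ x ∈ R := by
        intro x
        have h2 : ι ⟨x, hRS x.2⟩ ∈ R' := (hRm ⟨x, hRS x.2⟩).1 x.2
        have h3 := (Subgroup.mem_normalizer_iff.1 hg _).1 h2
        rw [← h1] at h3
        exact (hRm ⟨φ x, hφS x⟩).2 h3
      haveI : Finite R := finite_of_le hRS
      obtain ⟨α, hα⟩ := exists_equiv_of_self hφ hφR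
      have hαA : α ∈ F.autGroup R := by
        rw [mem_autGroup F hRS]
        have : R.subtype.comp α.toMonoidHom = φ := by ext x; exact hα x
        show R.subtype.comp α.toMonoidHom ∈ F.Hom R
        rw [this]; exact hEF _ hφ
      have hAR : ∀ A0 : Subgroup S, A0.map ι ≤ R' ↔ A0.map S.subtype ≤ R := by
        intro A0
        constructor
        · rintro h2 _ ⟨x, hx, rfl⟩
          exact (hRm x).2 (h2 ⟨x, hx, rfl⟩)
        · rintro h2 _ ⟨x, hx, rfl⟩
          exact (hRm x).1 (h2 ⟨x, hx, rfl⟩)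
      apply H2.mem_norm_of_conj
      intro y hy
      have hy' : ∀ A0 : Subgroup S, A0.map S.subtype ∈ 𝒜 → A0.map ι ≤ R' → y ∈ A0.map ι := by
        intro A0 h2 h3
        exact (Subgroup.mem_sInf.1 hy) _ ⟨⟨A0, h2, rfl⟩, h3⟩
      obtain ⟨x, hx, rfl⟩ := hy' A0' hA0' hA'
      have hxR : (x : Ω) ∈ R := (hRm x).2 (hA' ⟨x, hx, rfl⟩)
      have h2 := hinv R hRS ⟨_, hA0', (hAR A0').1 hA'⟩ α hαA ⟨x, hxR⟩ (by
        rw [Subgroup.mem_iInf]
        intro A
        rw [Subgroup.mem_iInf]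
        rintro ⟨hA, hAR'⟩
        have h3 := hy' (A.subgroupOf S) ((hback A hA).symm ▸ hA) ((hAR _).2 ((hback A hA).symm ▸ hAR'))
        exact (hmem _ x).1 h3)
      unfold fI
      rw [Subgroup.mem_sInf]
      rintro _ ⟨⟨A0, hA0, rfl⟩, hA0R⟩
      rw [Subgroup.mem_iInf] at h2
      have h3 := h2 (A0.map S.subtype)
      rw [Subgroup.mem_iInf] at h3
      have h4 := h3 ⟨hA0, (hAR A0).1 hA0R⟩
      have h5 : ((α ⟨x, hxR⟩ : R) : Ω) = φ ⟨x, hxR⟩ := hα _
      have h6 := h1 ⟨x, hxR⟩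
      have h7 : (⟨(x : Ω), hRS hxR⟩ : S) = x := rfl
      change _ = g * ι ⟨(x : Ω), _⟩ * g⁻¹ at h6
      rw [h7] at h6
      rw [← h6]
      refine ⟨_, ?_, rfl⟩
      exact (hmem2 A0 ⟨φ ⟨x, hxR⟩, hφS _⟩).1 (by
        change φ ⟨x, hxR⟩ ∈ _
        rw [← h5]; exact h4)
    · -- replacement
      rintro B' hB' hcl ⟨A', ⟨A0, hA0, rfl⟩, hA1, hA2⟩
      have hB0 : (B'.comap ι).map ι = B' := by
        rw [Subgroup.map_comap_eq, inf_eq_right, ← hT]; exact hB'
      set B0 := B'.comap ι with hB0def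
      have hle : ∀ X Y : Subgroup S, X.map ι ≤ Y.map ι ↔ X ≤ Y := fun X Y => Subgroup.map_le_map_iff_of_injective hιi
      have hle2 : ∀ X Y : Subgroup S, X.map S.subtype ≤ Y.map S.subtype ↔ X ≤ Y :=
        fun X Y => Subgroup.map_le_map_iff_of_injective S.subtype_injective
      have hcl0 : ⁅⁅B0, B0⁆, B0⁆ = ⊥ := by
        apply Subgroup.map_injective hιi
        rw [Subgroup.map_commutator, Subgroup.map_commutator, hB0, hcl, Subgroup.map_bot]
      obtain ⟨A1, hA1m, h1, h2, h3⟩ := hrep (B0.map S.subtype) (Subgroup.map_subtype_le _) (by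
        rw [← Subgroup.map_commutator, ← Subgroup.map_commutator, hcl0, Subgroup.map_bot]) ⟨A0.map S.subtype, hA0, by
        rw [← Subgroup.map_commutator, hle2, ← hle, Subgroup.map_commutator, hB0]; exact hA1, by
        rw [hle2, ← hle, hB0]; exact hA2⟩
      refine ⟨(A1.subgroupOf S).map ι, hin A1 hA1m, ?_, ?_, ?_⟩
      · rw [← hback A1 hA1m, ← Subgroup.map_commutator, hle2, ← hle, Subgroup.map_commutator, hB0] at h1
        exact h1
      · rw [← hback A1 hA1m, hle2, ← hle, hB0] at h2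
        exact h2
      · rw [← hback A1 hA1m, norm_map_iff S.subtype_injective] at h3
        rw [← hB0, norm_map_iff hιi]
        exact h3

end Cfsg.Agent.S5272
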