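import Cfsg.Statements.S5292
import Cfsg.Agent.L0.Fus.ModelUn
import Cfsg.Agent.L0.Fus.ModelEx3
import Cfsg.Agent.H2.ActStab
import Cfsg.Agent.H5.V5
import Cfsg.Agent.L0.Fus.App3
import Cfsg.Agent.H2.InvTwo
import Mathlib

set_option autoImplicit false
universe u
open Cfsg

namespace Cfsg.Agent.S5292

open Cfsg.Agent.H2 Cfsg.Agent.L0 Cfsg.Agent.L0.Fus Cfsg.FusionSystem

theorem psolvable_ext {p : ℕ} {G : Type*} [Group G] [Finite G] [hp : Fact p.Prime] (N : Subgroup G) [hN : N.Normal]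
    (hNp : IsPGroup p N) (h : IsPSolvable p (G ⧸ N)) : IsPSolvable p G := by
  obtain ⟨n, H, h0, h1, hm, hn, hi⟩ := h
  let H' : Fin (n + 1 + 1) → Subgroup G := Fin.cons ⊥ (fun i => (H i).comap (QuotientGroup.mk' N))
  have hs : ∀ i : Fin (n + 1), H' i.succ = (H i).comap (QuotientGroup.mk' N) := fun i => rfl
  have hz : H' 0 = ⊥ := rfl
  refine ⟨n + 1, H', hz, ?_, ?_, ?_, ?_⟩
  · rw [← Fin.succ_last, hs, h1, Subgroup.comap_top]
  · rw [Fin.monotone_iff_le_succ]
    intro i
    refine Fin.cases ?_ (fun i => ?_) i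
    · have e : (0 : Fin (n + 1)).castSucc = 0 := rfl
      rw [e, hz]; exact bot_le
    · have e : (i.succ).castSucc = (i.castSucc).succ := rfl
      rw [e, hs, hs]
      exact Subgroup.comap_mono (hm (Fin.castSucc_lt_succ).le)
  · intro i
    refine Fin.cases ?_ (fun i => ?_) i
    · rw [hz]; infer_instance
    · rw [hs]; haveI := hn i; infer_instance
  · intro i
    refine Fin.cases ?_ (fun i => ?_) i
    · left
      obtain ⟨m, hm'⟩ := IsPGroup.iff_card.1 hNp
      refine ⟨m, ?_⟩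
      have e : (0 : Fin (n + 1)).castSucc = 0 := rfl
      rw [e, hz, hs, h0, Subgroup.relIndex_bot_left]
      have : (⊥ : Subgroup (G ⧸ N)).comap (QuotientGroup.mk' N) = N := by
        rw [MonoidHom.comap_bot, QuotientGroup.ker_mk']
      rw [this, hm']
    · have e : (i.succ).castSucc = (i.castSucc).succ := rfl
      rw [e, hs, hs]
      have e2 : ((H i.castSucc).comap (QuotientGroup.mk' N)).relIndex ((H i.succ).comap (QuotientGroup.mk' N)) =
          (H i.castSucc).relIndex (H i.succ) := by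
        rw [Subgroup.relIndex_comap, Subgroup.map_comap_eq_self_of_surjective (QuotientGroup.mk'_surjective N)]
      rw [e2]
      exact hi i

/-- Let F be a saturated fusion system over a finite p-group S. Then F is the fusion system of some finite p-solvable group on a Sylow p-subgroup if and only if F is constrained (some subgroup normal in F is centric in F) and the group of automorphisms that F induces on its largest normal subgroup O_p(F) is p-solvable. -/
theorem result {Ω : Type u} [Group Ω] {S : Subgroup Ω} [Finite S] (p : ℕ) [Fact p.Prime] (hS : IsPGroup p S)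
    (F : Cfsg.FusionSystem S) (hF : F.IsSaturated p) :
    (∃ (G : Type u) (_ : Group G) (_ : Finite G) (ι : S →* G), Cfsg.IsPSolvable p G ∧ F.IsRealizedBy ι ∧
        ∃ T : Sylow p G, (T : Subgroup G) = ι.range) ↔
      (F.IsConstrained p ∧ Cfsg.IsPSolvable p ↥(F.autGroup F.core)) := by
  classical
  constructor
  · rintro ⟨G, _, _, ι, hG, ⟨hinj, hreal⟩, T, hT⟩
    have hpp : p.Prime := Fact.out
    have hO : (Nat.card (pPrimeCore p G)).Coprime p := pPrimeCore_coprime p G
    have hOp : ¬ p ∣ Nat.card (pPrimeCore p G) := (Nat.Prime.coprime_iff_not_dvd hpp).1 hO.symm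
    have hTO : ∀ x ∈ (T : Subgroup G), x ∈ pPrimeCore p G → x = 1 := by
      intro x hx hxO
      obtain ⟨k, hk⟩ := T.2 ⟨x, hx⟩
      have hk' : x ^ p ^ k = 1 := by simpa using congrArg Subtype.val hk
      exact orderOf_eq_one_iff.1 (Nat.eq_one_of_dvd_coprimes (Nat.Coprime.pow_right k hO)
        (Subgroup.orderOf_dvd_natCard _ hxO) (orderOf_dvd_of_pow_eq_one hk'))
    have hιT : ∀ s : S, ι s ∈ (T : Subgroup G) := fun s => by rw [hT]; exact ⟨s, rfl⟩
    let Q : Subgroup Ω := ((pPrimePCore p G).comap ι).map S.subtype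
    have hQ : ∀ x, x ∈ Q ↔ ∃ h : x ∈ S, ι ⟨x, h⟩ ∈ pPrimePCore p G := by
      intro x
      constructor
      · rintro ⟨y, hy, rfl⟩
        exact ⟨y.2, hy⟩
      · rintro ⟨h, hx⟩
        exact ⟨⟨x, h⟩, hx, rfl⟩
    have hQS : Q ≤ S := Subgroup.map_subtype_le _
    haveI : Finite Q := finite_of_le hQS
    have hpc : ∀ x : G, x ∈ pPrimePCore p G ↔ (QuotientGroup.mk x : G ⧸ pPrimeCore p G) ∈ pCore p (G ⧸ pPrimeCore p G) :=
      fun x => Iff.rfl
    have hcoreT : ∀ y ∈ pCore p (G ⧸ pPrimeCore p G), ∃ t ∈ (T : Subgroup G), QuotientGroup.mk t = y := by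
      intro y hy
      have h1 := (L0.pCore_isPGroup p (G ⧸ pPrimeCore p G))
      have h2 : pCore p (G ⧸ pPrimeCore p G) ≤ (T.mapSurjective (QuotientGroup.mk'_surjective (pPrimeCore p G)) : Subgroup _) :=
        L0.pCore_le_sylow _
      have h3 := h2 hy
      rw [Sylow.coe_mapSurjective] at h3
      obtain ⟨t, ht, hty⟩ := h3
      exact ⟨t, ht, hty⟩
    have hQn : F.IsNormal Q := by
      refine ⟨hQS, fun P φ hφ => ?_⟩
      have hPS := hom_le F hφ
      have hφS := hom_mem F hφ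
      obtain ⟨g, hg⟩ := (hreal P hPS φ hφS).1 hφ
      have hPQS : P ⊔ Q ≤ S := sup_le hPS hQS
      obtain ⟨m, hm⟩ := fusion_lifts (pPrimeCore p G) hOp T (((P ⊔ Q).subgroupOf S).map ι) (by
        rintro _ ⟨x, -, rfl⟩; exact hιT x) (QuotientGroup.mk g) (by
        have : (P ⊔ Q).subgroupOf S ≤ ((T : Subgroup G).map (QuotientGroup.mk' (pPrimeCore p G))).comap
            ((MulAut.conj (QuotientGroup.mk g : G ⧸ pPrimeCore p G)).toMonoidHom.comp ((QuotientGroup.mk' (pPrimeCore p G)).comp ι)) := by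
          have h1 : P ⊔ Q ≤ (((T : Subgroup G).map (QuotientGroup.mk' (pPrimeCore p G))).comap
            ((MulAut.conj (QuotientGroup.mk g : G ⧸ pPrimeCore p G)).toMonoidHom.comp ((QuotientGroup.mk' (pPrimeCore p G)).comp ι))).map S.subtype := by
            refine sup_le ?_ ?_
            · intro x hx
              refine ⟨⟨x, hPS hx⟩, ?_, rfl⟩
              refine ⟨ι ⟨φ ⟨x, hx⟩, hφS _⟩, hιT _, ?_⟩
              rw [hg ⟨x, hx⟩]
              rfl
            · intro x hx
              obtain ⟨hxS, hxM⟩ := (hQ x).1 hx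
              refine ⟨⟨x, hxS⟩, ?_, rfl⟩
              have h2 := (inferInstance : (pCore p (G ⧸ pPrimeCore p G)).Normal).conj_mem _ ((hpc _).1 hxM) (QuotientGroup.mk g)
              obtain ⟨t, ht, hty⟩ := hcoreT _ h2
              exact ⟨t, ht, hty⟩
          intro x hx
          obtain ⟨y, hy, hyx⟩ := h1 (Subgroup.mem_subgroupOf.1 hx)
          have : y = x := Subtype.ext hyx
          rw [← this]; exact hy
        rintro _ ⟨x, hx, rfl⟩
        exact this hx)
      -- the map
      have hmT : ∀ x : ↥(P ⊔ Q), ∃ s : S, ι s = m * ι ⟨x, hPQS x.2⟩ * m⁻¹ := by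
        intro x
        have h1 : m * ι ⟨x, hPQS x.2⟩ * m⁻¹ ∈ (T : Subgroup G) := (hm _ ⟨⟨x, hPQS x.2⟩, Subgroup.mem_subgroupOf.2 x.2, rfl⟩).1
        rw [hT] at h1
        exact h1
      choose σ hσ using hmT
      let ψ : ↥(P ⊔ Q) →* Ω :=
        { toFun := fun x => (σ x : Ω)
          map_one' := by
            have : σ 1 = 1 := by
              apply hinj
              rw [hσ, map_one]
              have : (⟨((1 : ↥(P ⊔ Q)) : Ω), hPQS (1 : ↥(P ⊔ Q)).2⟩ : S) = 1 := rfl
              rw [this, map_one]; group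
            rw [this]; rfl
          map_mul' := by
            intro x y
            have : σ (x * y) = σ x * σ y := by
              apply hinj
              rw [map_mul, hσ, hσ, hσ]
              have : (⟨((x * y : ↥(P ⊔ Q)) : Ω), hPQS (x * y : ↥(P ⊔ Q)).2⟩ : S) = ⟨x, hPQS x.2⟩ * ⟨y, hPQS y.2⟩ := rfl
              rw [this, map_mul]; group
            rw [this]; rfl }
      have hψσ : ∀ x, ψ x = (σ x : Ω) := fun x => rfl
      have hψ : ψ ∈ F.Hom (P ⊔ Q) := (hreal _ hPQS ψ (fun x => (σ x).2)).2 ⟨m, fun x => hσ x⟩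
      have hmg : ∀ x : ↥(P ⊔ Q), (QuotientGroup.mk (ι (σ x)) : G ⧸ pPrimeCore p G) =
          QuotientGroup.mk g * QuotientGroup.mk (ι ⟨x, hPQS x.2⟩) * (QuotientGroup.mk g)⁻¹ := by
        intro x
        rw [hσ]
        exact (hm _ ⟨⟨x, hPQS x.2⟩, Subgroup.mem_subgroupOf.2 x.2, rfl⟩).2
      have hmapQ : ∀ x : ↥(P ⊔ Q), (x : Ω) ∈ Q → ψ x ∈ Q := by
        intro x hx
        obtain ⟨hxS, hxM⟩ := (hQ _).1 hx
        refine (hQ _).2 ⟨(σ x).2, ?_⟩
        rw [hpc]
        have h2 := (inferInstance : (pCore p (G ⧸ pPrimeCore p G)).Normal).conj_mem _ ((hpc _).1 hxM) (QuotientGroup.mk g)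
        rw [← hmg x] at h2
        exact h2
      refine ⟨ψ, hψ, ?_, ?_⟩
      · intro x
        have h1 := hmg (Subgroup.inclusion le_sup_left x)
        have h2 := hg x
        have h3 : (QuotientGroup.mk (ι (σ (Subgroup.inclusion le_sup_left x))) : G ⧸ pPrimeCore p G) =
            QuotientGroup.mk (ι ⟨φ x, hφS x⟩) := by
          rw [h1, h2]; rfl
        have h4 := hTO _ ((T : Subgroup G).mul_mem ((T : Subgroup G).inv_mem (hιT _)) (hιT _)) (QuotientGroup.eq.1 h3)
        have h5 := hinj (inv_mul_eq_one.1 h4)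
        exact congrArg Subtype.val h5
      · have h1 : (Q.subgroupOf (P ⊔ Q)).map ψ ≤ Q := by
          rintro _ ⟨x, hx, rfl⟩
          exact hmapQ x hx
        apply Subgroup.eq_of_le_of_card_ge h1
        have h2 : Nat.card ↥((Q.subgroupOf (P ⊔ Q)).map ψ) = Nat.card ↥(Q.subgroupOf (P ⊔ Q)) :=
          Nat.card_congr ((Q.subgroupOf (P ⊔ Q)).equivMapOfInjective ψ (F.injective_of_mem hψ)).symm.toEquiv
        rw [h2, Nat.card_congr (Subgroup.subgroupOfEquivOfLe (le_sup_right : Q ≤ P ⊔ Q)).toEquiv]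
    have hsc := stronglyClosed_of_normal hQn
    have hQc : F.IsCentric Q := by
      refine ⟨hQS, ?_⟩
      rintro _ ⟨φ, hφ, rfl⟩
      have hr : φ.range = Q := by
        have h1 : φ.range ≤ Q := by
          rintro _ ⟨x, rfl⟩
          exact hsc.2 Q le_rfl φ hφ x
        apply Subgroup.eq_of_le_of_card_ge h1
        rw [Nat.card_congr (MonoidHom.ofInjective (F.injective_of_mem hφ)).toEquiv]
      rw [hr]
      intro s hs
      obtain ⟨hsS, hsc'⟩ := mem_centralizerIn.1 hs
      refine (hQ s).2 ⟨hsS, ?_⟩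
      rw [hpc]
      letI : Fintype (G ⧸ pPrimeCore p G) := Fintype.ofFinite _
      apply H5.psolv_centralizer_le (Fact.out : p.Prime)
        (psolvable_surj hG (QuotientGroup.mk' (pPrimeCore p G)) (QuotientGroup.mk'_surjective _))
        (L0.pPrimeCore_quotient_pPrimeCore p G)
      rw [Subgroup.mem_centralizer_iff]
      intro y hy
      obtain ⟨t, ht, rfl⟩ := hcoreT y hy
      rw [hT] at ht
      obtain ⟨x, rfl⟩ := ht
      have hxQ : (x : Ω) ∈ Q := (hQ _).2 ⟨x.2, hy⟩
      have h1 := hsc' x hxQ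
      have h2 : x * ⟨s, hsS⟩ = ⟨s, hsS⟩ * x := Subtype.ext h1
      show QuotientGroup.mk (ι x * ι ⟨s, hsS⟩) = QuotientGroup.mk (ι ⟨s, hsS⟩ * ι x)
      rw [← map_mul, h2, map_mul]
    refine ⟨⟨hF, Q, hQn, hQc⟩, ?_⟩
    -- `Aut_F(core)` is an image of a subgroup of `G`
    have hCn := core_normal F
    have hCS := hCn.1
    haveI : Finite F.core := finite_of_le hCS
    let R : Subgroup G := (F.core.subgroupOf S).map ι
    let e : F.core ≃* R := MulEquiv.ofBijective
      (((ι.comp (Subgroup.inclusion hCS))).codRestrict R (fun x => ⟨⟨x, hCS x.2⟩, Subgroup.mem_subgroupOf.2 x.2, rfl⟩)) (by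
      constructor
      · intro a b hab
        have := hinj (congrArg Subtype.val hab)
        exact Subtype.ext (show (a : Ω) = b from congrArg (fun z : S => (z : Ω)) this)
      · rintro ⟨_, x, hx, rfl⟩
        exact ⟨⟨x, hx⟩, rfl⟩)
    have he : ∀ x : F.core, ((e x : R) : G) = ι ⟨x, hCS x.2⟩ := fun x => rfl
    let N := Subgroup.normalizer (R : Set G)
    let ρ : N →* MulAut F.core := (MulAut.congr e.symm).toMonoidHom.comp R.normalizerMonoidHom
    have hρ : ∀ (n : N) (x : F.core), ι ⟨(ρ n x : F.core), hCS (ρ n x).2⟩ = n * ι ⟨x, hCS x.2⟩ * (n : G)⁻¹ := by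
      intro n x
      rw [← he, ← he]
      show ((e (e.symm (R.normalizerMonoidHom n (e x))) : R) : G) = _
      rw [MulEquiv.apply_symm_apply]; rfl
    have hρF : ∀ n : N, ρ n ∈ F.autGroup F.core := by
      intro n
      rw [mem_autGroup F hCS]
      refine (hreal _ hCS _ (fun x => hCS (ρ n x).2)).2 ⟨n, fun x => hρ n x⟩
    refine psolvable_surj (psolvable_subgroup hG N) (ρ.codRestrict _ hρF) ?_
    rintro ⟨α, hα⟩
    obtain ⟨g, hg⟩ := (hreal _ hCS _ (fun x => hCS (α x).2)).1 ((mem_autGroup F hCS).1 hα)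
    have hgN : g ∈ N := by
      apply H2.mem_norm_of_conj
      rintro _ ⟨x, hx, rfl⟩
      have := hg ⟨x, hx⟩
      rw [← this]
      exact ⟨⟨_, hCS (α ⟨x, hx⟩).2⟩, Subgroup.mem_subgroupOf.2 (α ⟨x, hx⟩).2, rfl⟩
    refine ⟨⟨g, hgN⟩, Subtype.ext (MulEquiv.ext fun x => ?_)⟩
    have h1 := hρ ⟨g, hgN⟩ x
    have h2 := hg x
    have h3 : ι ⟨(ρ ⟨g, hgN⟩ x : F.core), hCS (ρ ⟨g, hgN⟩ x).2⟩ = ι ⟨(α x : F.core), hCS (α x).2⟩ := by
      rw [h1]; exact h2.symm
    exact Subtype.ext (show ((ρ ⟨g, hgN⟩ x : F.core) : Ω) = (α x : F.core) from congrArg (fun z : S => (z : Ω)) (hinj h3))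
  · rintro ⟨⟨-, Q, hQn, hQc⟩, hps⟩
    have hCn := core_normal F
    have hCS := hCn.1
    haveI : Finite F.core := finite_of_le hCS
    have hCc : F.IsCentric F.core := centric_of_ge hQc (le_core hQn) hCS
    obtain ⟨G, _, ι, ⟨hfin, ⟨hinj, hreal⟩, ⟨T, hT⟩, -⟩, hRn, hRc⟩ := exists_model hS hF hCn hCc
    haveI := hfin
    refine ⟨G, inferInstance, hfin, ι, ?_, ⟨hinj, hreal⟩, T, hT⟩
    set R : Subgroup G := (F.core.subgroupOf S).map ι with hR
    haveI := hRn
    set C : Subgroup G := Subgroup.centralizer (R : Set G) with hC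
    have hCp : IsPGroup p C := by
      have h1 : IsPGroup p R := by
        have : IsPGroup p (F.core.subgroupOf S) := hS.to_subgroup _
        exact this.map ι
      exact h1.to_le hRc
    haveI : C.Normal := inferInstance
    apply psolvable_ext C hCp
    have hl : ∀ α : F.autGroup F.core, ∃ g : G, ∀ x : F.core, ι ⟨((α : MulAut F.core) x : F.core), hCS ((α : MulAut F.core) x).2⟩ =
        g * ι ⟨x, hCS x.2⟩ * g⁻¹ := fun α =>
      (hreal _ hCS _ (fun x => hCS ((α : MulAut F.core) x).2)).1 ((mem_autGroup F hCS).1 α.2)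
    choose l hl using hl
    have hwd : ∀ g g' : G, (∀ x : F.core, g * ι ⟨x, hCS x.2⟩ * g⁻¹ = g' * ι ⟨x, hCS x.2⟩ * g'⁻¹) →
        (QuotientGroup.mk g : G ⧸ C) = QuotientGroup.mk g' := by
      intro g g' h
      rw [QuotientGroup.eq, hC, Subgroup.mem_centralizer_iff]
      rintro _ ⟨x, hx, rfl⟩
      have h1 := h ⟨x, hx⟩
      have h2 : ι x = g⁻¹ * (g' * ι x * g'⁻¹) * g := by
        have h3 : g * ι x * g⁻¹ = g' * ι x * g'⁻¹ := h1
        rw [← h3]; group
      calc ι x * (g⁻¹ * g') = (g⁻¹ * (g' * ι x * g'⁻¹) * g) * (g⁻¹ * g') := by rw [← h2]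
        _ = g⁻¹ * g' * ι x := by group
    let κ : F.autGroup F.core →* G ⧸ C := MonoidHom.mk' (fun α => QuotientGroup.mk (l α)) (by
      intro α β
      rw [← QuotientGroup.mk_mul]
      apply hwd
      intro x
      have h1 := hl (α * β) x
      have h2 := hl α ((β : MulAut F.core) x)
      have h3 := hl β x
      rw [← h1]
      have h4 : ((α * β : F.autGroup F.core) : MulAut F.core) x = (α : MulAut F.core) ((β : MulAut F.core) x) := rfl
      have h5 : ι ⟨(((α * β : F.autGroup F.core) : MulAut F.core) x : F.core), hCS (((α * β : F.autGroup F.core) : MulAut F.core) x).2⟩ =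
        ι ⟨((α : MulAut F.core) ((β : MulAut F.core) x) : F.core), hCS ((α : MulAut F.core) ((β : MulAut F.core) x)).2⟩ := rfl
      rw [h5, h2, h3]; group)
    refine psolvable_surj hps κ ?_
    intro y
    obtain ⟨g, rfl⟩ := QuotientGroup.mk_surjective y
    -- the automorphism induced by `g`
    have hg : ∀ x : F.core, ∃ y : F.core, ι ⟨y, hCS y.2⟩ = g * ι ⟨x, hCS x.2⟩ * g⁻¹ := by
      intro x
      obtain ⟨y, hy, hyx⟩ := hRn.conj_mem (ι ⟨x, hCS x.2⟩) ⟨⟨x, hCS x.2⟩, Subgroup.mem_subgroupOf.2 x.2, rfl⟩ g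
      exact ⟨⟨y, hy⟩, hyx⟩
    choose γ hγ using hg
    let φ : F.core →* Ω :=
      { toFun := fun x => (γ x : Ω)
        map_one' := by
          have : γ 1 = 1 := by
            have h1 : ι ⟨γ 1, hCS (γ 1).2⟩ = ι ⟨((1 : F.core) : Ω), hCS (1 : F.core).2⟩ := by
              rw [hγ]
              have : (⟨((1 : F.core) : Ω), hCS (1 : F.core).2⟩ : S) = 1 := rfl
              rw [this, map_one]; group
            exact Subtype.ext (show ((γ 1 : F.core) : Ω) = (1 : F.core) from congrArg (fun z : S => (z : Ω)) (hinj h1))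
          rw [this]; rfl
        map_mul' := by
          intro x y
          have h1 : ι ⟨γ (x * y), hCS (γ (x * y)).2⟩ = ι (⟨γ x, hCS (γ x).2⟩ * ⟨γ y, hCS (γ y).2⟩) := by
            rw [map_mul, hγ, hγ, hγ]
            have : (⟨((x * y : F.core) : Ω), hCS (x * y : F.core).2⟩ : S) = ⟨x, hCS x.2⟩ * ⟨y, hCS y.2⟩ := rfl
            rw [this, map_mul]; group
          exact congrArg Subtype.val (hinj h1) }
    have hφ : φ ∈ F.Hom F.core := (hreal _ hCS φ (fun x => hCS (γ x).2)).2 ⟨g, fun x => hγ x⟩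
    obtain ⟨α, hα, hαx⟩ := exists_aut_of_hom hφ (fun x => (γ x).2)
    refine ⟨⟨α, hα⟩, ?_⟩
    apply hwd
    intro x
    rw [← hl ⟨α, hα⟩ x, ← hγ x]
    congr 1
    exact Subtype.ext (hαx x)

end Cfsg.Agent.S5292
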