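import Cfsg.Statements.S5297
import Cfsg.Agent.H2.SmallF
import Mathlib

set_option autoImplicit false
universe u
open Cfsg

namespace Cfsg.Agent.S5297

open Cfsg.Agent.H2 Cfsg.Agent.L0 Cfsg.Agent.L0.Fus Cfsg.FusionSystem

/-- Let F be a saturated fusion system over a finite p-group S. If every map of F between cyclic subgroups of the hyperfocal subgroup of F of order p or 4 is a map of the normalizer system of S (it extends to a map of F defined on all of S), then S is normal in F. -/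
theorem result {Ω : Type u} [Group Ω] {S : Subgroup Ω} [Finite S] (p : ℕ) [Fact p.Prime] (hS : IsPGroup p S)
    (F : Cfsg.FusionSystem S) (hF : F.IsSaturated p)
    (h : ∀ A B : Subgroup Ω, A ≤ (F.hyperfocalSubgroup p) → B ≤ (F.hyperfocalSubgroup p) → IsCyclic ↥A → (Nat.card ↥A = p ∨ Nat.card ↥A = 4) → IsCyclic ↥B → (Nat.card ↥B = p ∨ Nat.card ↥B = 4) →
      F.homSet A B ⊆ F.normalizerHom S A) :
    F.IsNormal S := by
  classical
  rw [normal_iff_stronglyClosed hS hF]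
  refine ⟨⟨le_rfl, fun R hR φ hφ x => hom_mem F hφ x⟩, fun R hRc hRr => ?_⟩
  have hRS := hRc.1
  haveI := finite_of_le hRS
  have hRp : IsPGroup p R := hS.to_le hRS
  set H0 := F.hyperfocalSubgroup p with hH0
  have hsc : F.StronglyClosed H0 := hyperfocal_stronglyClosed hS hF
  let R0 : Subgroup R := H0.subgroupOf R
  have hR0 : ∀ α ∈ F.autGroup R, ∀ x ∈ R0, α x ∈ R0 := fun α hα x hx =>
    Subgroup.mem_subgroupOf.mpr (StronglyClosed.aut_mem hsc hRS hα (Subgroup.mem_subgroupOf.mp hx))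
  obtain ⟨D, hDchar, hDsmall, hDfaith⟩ := exists_small_crit (hRp.to_subgroup R0)
  have hDα : ∀ α ∈ F.autGroup R, ∀ x ∈ D.map R0.subtype, α x ∈ D.map R0.subtype := by
    rintro α hα _ ⟨y, hy, rfl⟩
    obtain ⟨β, hβ, -⟩ := exists_restrict α R0 (hR0 α hα)
    have h1 := hDchar.fixed β
    have h2 : y ∈ D.comap β.toMonoidHom := by rw [h1]; exact hy
    exact ⟨β y, h2, hβ y⟩
  have hext : ∀ α ∈ F.autGroup R, ∀ x ∈ D.map R0.subtype, ∀ i, (x : Ω) ∈ zser S i → ((α x : R) : Ω) ∈ zser S i := by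
    intro α hα x hx i hxi
    by_cases hx1 : x = 1
    · subst hx1
      rw [map_one]; exact hxi
    have hx' : (x : Ω) ^ p = 1 ∨ (p = 2 ∧ (x : Ω) ^ 4 = 1) := by
      obtain ⟨y, hy, rfl⟩ := hx
      rcases hDsmall y hy with h | ⟨h, h'⟩
      · left; simpa using congrArg (fun z : ↥R0 => ((z : R) : Ω)) h
      · right; exact ⟨h, by simpa using congrArg (fun z : ↥R0 => ((z : R) : Ω)) h'⟩
    have hαx' : ((α x : R) : Ω) ^ p = 1 ∨ (p = 2 ∧ ((α x : R) : Ω) ^ 4 = 1) := by
      rcases hx' with h | ⟨h, h'⟩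
      · left
        have h2 : x ^ p = 1 := Subtype.ext (by simpa using h)
        have := congrArg (fun z => ((α z : R) : Ω)) h2
        simpa using this
      · right
        have h2 : x ^ 4 = 1 := Subtype.ext (by simpa using h')
        have := congrArg (fun z => ((α z : R) : Ω)) h2
        exact ⟨h, by simpa using this⟩
    have hne : (x : Ω) ≠ 1 := fun h => hx1 (Subtype.ext h)
    have hne' : ((α x : R) : Ω) ≠ 1 := by
      intro h
      have : α x = 1 := Subtype.ext h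
      exact hx1 (α.injective (by rw [this, map_one]))
    have hle : Subgroup.zpowers (x : Ω) ≤ R := Subgroup.zpowers_le.2 x.2
    have hxH : (x : Ω) ∈ H0 := by
      obtain ⟨y, hy, rfl⟩ := hx
      exact y.2
    have hαxH : ((α x : R) : Ω) ∈ H0 := by
      obtain ⟨y, hy, hyx⟩ := hDα α hα x hx
      rw [← hyx]
      exact y.2
    have hφ := restrict_mem F ((mem_autGroup F hRS).1 hα) hle
    have h1 := h (Subgroup.zpowers (x : Ω)) (Subgroup.zpowers ((α x : R) : Ω)) (Subgroup.zpowers_le.2 hxH)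
      (Subgroup.zpowers_le.2 hαxH) inferInstance (card_small hx' hne) inferInstance (card_small hαx' hne')
      ⟨hφ, by
        rintro ⟨_, ⟨k, rfl⟩⟩
        refine ⟨k, ?_⟩
        show ((α x : R) : Ω) ^ k = ((α (Subgroup.inclusion hle ⟨(x : Ω) ^ k, _⟩) : R) : Ω)
        have e : Subgroup.inclusion hle ⟨(x : Ω) ^ k, ⟨k, rfl⟩⟩ = x ^ k := rfl
        rw [e, map_zpow]; rfl⟩
    obtain ⟨-, -, -, ψ, hψ, hψx, hψS⟩ := h1
    have hψ' := restrict_mem F hψ (le_sup_right : S ≤ Subgroup.zpowers (x : Ω) ⊔ S)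
    obtain ⟨γ, -, hγ⟩ := exists_aut_of_hom hψ' (fun a => hom_mem F hψ _)
    have h2 := zser_char i γ ⟨x, hRS x.2⟩ hxi
    rw [hγ] at h2
    have h3 : ψ (Subgroup.inclusion le_sup_right ⟨(x : Ω), hRS x.2⟩) = ((α x : R) : Ω) :=
      hψx ⟨(x : Ω), Subgroup.mem_zpowers _⟩
    rw [← h3]
    exact h2
  refine le_of_stab hS hRc hRr le_rfl Subgroup.le_normalizer
    (Set.range fun i => (D.map R0.subtype ⊓ (zser S (i + 1)).subgroupOf R, D.map R0.subtype ⊓ (zser S i).subgroupOf R)) ?_ ?_ ?_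
  · rintro q ⟨i, rfl⟩ α hα
    exact ⟨fun x hx => ⟨hDα α hα x hx.1, Subgroup.mem_subgroupOf.2 (hext α hα x hx.1 _ (Subgroup.mem_subgroupOf.1 hx.2))⟩,
      fun x hx => ⟨hDα α hα x hx.1, Subgroup.mem_subgroupOf.2 (hext α hα x hx.1 _ (Subgroup.mem_subgroupOf.1 hx.2))⟩⟩
  · intro α hα ho hst
    obtain ⟨n, hn⟩ := zser_top hS
    have h1 := fix_of_chain hRp ho (fun i => D.map R0.subtype ⊓ (zser S i).subgroupOf R)
      (by simp only [zser_zero]; rw [Subgroup.bot_subgroupOf, inf_bot_eq])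
      (fun i => inf_le_inf_left _ (Subgroup.comap_mono (zser_mono i)))
      (fun i x hx => hst _ ⟨i, rfl⟩ x hx) n
    obtain ⟨β, hβ, hβo⟩ := exists_restrict α R0 (hR0 α hα)
    have h2 := hDfaith β (Nat.Coprime.coprime_dvd_left hβo ho) (by
      intro y hy
      apply Subtype.ext
      rw [hβ]
      exact h1 y ⟨⟨y, hy, rfl⟩, Subgroup.mem_subgroupOf.2 (by rw [hn]; exact hRS (y : R).2)⟩)
    apply MulEquiv.ext
    intro x
    apply fix_of_pt hRp ho
    haveI := Fus.finite_autGroup (S := S) hRS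
    have hres : x⁻¹ * α x ∈ R0 := by
      have h1 : (⟨α, hα⟩ : F.autGroup R) ∈ pResidual p (F.autGroup R) := by
        apply Subgroup.subset_closure
        show (orderOf (⟨α, hα⟩ : F.autGroup R)).Coprime p
        rwa [Subgroup.orderOf_mk]
      exact Subgroup.mem_subgroupOf.2 (mem_hyperfocal F hRS h1 x)
    have h3 := hβ ⟨_, hres⟩
    rw [h2] at h3
    exact h3.symm
  · rintro α hα ⟨y, hy, hyα⟩ q ⟨i, rfl⟩ x hx
    refine ⟨Subgroup.mul_mem _ (Subgroup.inv_mem _ hx.1) (hDα α hα x hx.1), ?_⟩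
    apply Subgroup.mem_subgroupOf.mpr
    change (x : Ω)⁻¹ * ((α x : R) : Ω) ∈ _
    rw [hyα]
    exact zser_comm i (Subgroup.mem_subgroupOf.1 hx.2) hy

end Cfsg.Agent.S5297
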