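import Cfsg.Statements.S5298
import Cfsg.Agent.H2.SmallF
import Mathlib

set_option autoImplicit false
universe u
open Cfsg

namespace Cfsg.Agent.S5298

open Cfsg.Agent.H2 Cfsg.Agent.L0 Cfsg.Agent.L0.Fus Cfsg.FusionSystem

/-- Let F be a saturated fusion system over a finite p-group S. If every map of F between cyclic subgroups of the hyperfocal subgroup of F of order p or 4 is conjugation by an element of S, then F is the inner fusion system of S. -/
theorem result {Ω : Type u} [Group Ω] {S : Subgroup Ω} [Finite S] (p : ℕ) [Fact p.Prime] (hS : IsPGroup p S)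
    (F : Cfsg.FusionSystem S) (hF : F.IsSaturated p)
    (h : ∀ A B : Subgroup Ω, A ≤ (F.hyperfocalSubgroup p) → B ≤ (F.hyperfocalSubgroup p) → IsCyclic ↥A → (Nat.card ↥A = p ∨ Nat.card ↥A = 4) → IsCyclic ↥B → (Nat.card ↥B = p ∨ Nat.card ↥B = 4) →
      F.homSet A B ⊆ (Cfsg.innerFusionSystem S).Hom A) :
    ∀ P : Subgroup Ω, F.Hom P = (Cfsg.innerFusionSystem S).Hom P := by
  classical
  have key : ∀ (i : ℕ) (Q : Subgroup Ω), Q ≤ F.hyperfocalSubgroup p → Q ≤ zser S i → ∀ α ∈ F.autGroup Q,
      (orderOf α).Coprime p → α = 1 := by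
    intro i
    induction i with
    | zero =>
      intro Q _ hQ α _ _
      rw [zser_zero] at hQ
      apply MulEquiv.ext
      intro x
      apply Subtype.ext
      rw [Subgroup.mem_bot.1 (hQ (α x).2), MulAut.one_apply, Subgroup.mem_bot.1 (hQ x.2)]
    | succ i ih =>
      intro Q hQh hQ α hα ho
      have hQS : Q ≤ S := hQ.trans (zser_le _)
      haveI := finite_of_le hQS
      have hQp : IsPGroup p Q := hS.to_le hQS
      -- small elements move in the next term
      have hstep : ∀ x : Q, (x ^ p = 1 ∨ (p = 2 ∧ x ^ 4 = 1)) → ((x⁻¹ * α x : Q) : Ω) ∈ zser S i := by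
        intro x hx
        by_cases hx1 : x = 1
        · subst hx1
          simp
        have hx' : (x : Ω) ^ p = 1 ∨ (p = 2 ∧ (x : Ω) ^ 4 = 1) := by
          rcases hx with h | ⟨h, h'⟩
          · left; simpa using congrArg Subtype.val h
          · right; exact ⟨h, by simpa using congrArg Subtype.val h'⟩
        have hαx' : ((α x : Q) : Ω) ^ p = 1 ∨ (p = 2 ∧ ((α x : Q) : Ω) ^ 4 = 1) := by
          rcases hx with h | ⟨h, h'⟩
          · left
            have := congrArg (fun z => ((α z : Q) : Ω)) h
            simpa using this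
          · right
            have := congrArg (fun z => ((α z : Q) : Ω)) h'
            exact ⟨h, by simpa using this⟩
        have hne : (x : Ω) ≠ 1 := fun h => hx1 (Subtype.ext h)
        have hne' : ((α x : Q) : Ω) ≠ 1 := by
          intro h
          have : α x = 1 := Subtype.ext h
          exact hx1 (α.injective (by rw [this, map_one]))
        have hle : Subgroup.zpowers (x : Ω) ≤ Q := Subgroup.zpowers_le.2 x.2
        have hφ := restrict_mem F ((mem_autGroup F hQS).1 hα) hle
        have h1 := h (Subgroup.zpowers (x : Ω)) (Subgroup.zpowers ((α x : Q) : Ω)) (hle.trans hQh)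
          ((Subgroup.zpowers_le.2 (α x).2).trans hQh) inferInstance (card_small hx' hne) inferInstance (card_small hαx' hne')
          ⟨hφ, by
            rintro ⟨_, ⟨k, rfl⟩⟩
            refine ⟨k, ?_⟩
            show ((α x : Q) : Ω) ^ k = ((α (Subgroup.inclusion hle ⟨(x : Ω) ^ k, _⟩) : Q) : Ω)
            have e : Subgroup.inclusion hle ⟨(x : Ω) ^ k, ⟨k, rfl⟩⟩ = x ^ k := rfl
            rw [e, map_zpow]; rfl⟩
        obtain ⟨-, s, hs, hsx⟩ := mem_inner.1 h1
        have h2 : ((α x : Q) : Ω) = s * x * s⁻¹ := hsx ⟨x, Subgroup.mem_zpowers _⟩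
        show (x : Ω)⁻¹ * ((α x : Q) : Ω) ∈ _
        rw [h2]
        exact zser_comm i (hQ x.2) hs
      -- the subgroup generated by the displacements
      let D : Subgroup Q := Subgroup.closure {y | ∃ x : Q, (x ^ p = 1 ∨ (p = 2 ∧ x ^ 4 = 1)) ∧ y = x⁻¹ * α x}
      have hDα : ∀ y ∈ D, α y ∈ D := by
        intro y hy
        have : D ≤ D.comap α.toMonoidHom := by
          show Subgroup.closure _ ≤ _
          rw [Subgroup.closure_le]
          rintro _ ⟨x, hx, rfl⟩
          show α (x⁻¹ * α x) ∈ D
          rw [map_mul, map_inv]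
          refine Subgroup.subset_closure ⟨α x, ?_, rfl⟩
          rcases hx with h | ⟨h, h'⟩
          · left; rw [← map_pow, h, map_one]
          · right; exact ⟨h, by rw [← map_pow, h', map_one]⟩
        exact this hy
      have hDz : D.map Q.subtype ≤ zser S i := by
        show (Subgroup.closure _).map _ ≤ _
        rw [MonoidHom.map_closure, Subgroup.closure_le]
        rintro _ ⟨_, ⟨x, hx, rfl⟩, rfl⟩
        exact hstep x hx
      obtain ⟨β, hβ, hβx, hβo⟩ := restrict_aut hQS hα (D.map Q.subtype) (Subgroup.map_subtype_le _) (by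
        rintro x ⟨y, hy, hyx⟩
        have : y = x := Subtype.ext hyx
        subst this
        exact ⟨_, hDα _ hy, rfl⟩)
      have h1 := ih (D.map Q.subtype) ((Subgroup.map_subtype_le _).trans hQh) hDz β hβ (Nat.Coprime.coprime_dvd_left hβo ho)
      have hfix : ∀ y ∈ D, α y = y := by
        intro y hy
        have := hβx ⟨(y : Ω), ⟨y, hy, rfl⟩⟩
        rw [h1] at this
        exact Subtype.ext this.symm
      apply aut_eq_one_of_omega hQp ho
      intro a ha
      exact fix_of_pt hQp ho a (hfix _ (Subgroup.subset_closure ⟨a, ha, rfl⟩))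
  obtain ⟨n, hn⟩ := zser_top hS
  have h1 := isPGroup_aut_of_hyperfocal (F := F) hS (fun Q hQ => key n Q hQ (by rw [hn]; exact hQ.trans (hyperfocal_le F)))
  have hmain : F = innerFusionSystem S := by
    apply eq_inner_of_isPGroup hS hF
    intro P hPS
    haveI := finite_of_le hPS
    haveI := Fus.finite_autGroup (S := S) hPS
    exact H6.isPGroup_of_coprime (h1 P hPS)
  intro P; rw [← hmain]

end Cfsg.Agent.S5298
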