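import Cfsg.Statements.S5300
import Cfsg.Agent.H2.FusOm
import Cfsg.Agent.H2.FusZJ
import Mathlib

set_option autoImplicit false
universe u
open Cfsg

namespace Cfsg.Agent.S5300

open Cfsg.Agent.H2 Cfsg.Agent.L0 Cfsg.Agent.L0.Fus Cfsg.FusionSystem
open scoped commutatorElement

/-- Let F be a saturated fusion system over a finite p-group S. If every cyclic subgroup of the focal subgroup of F of order p (of order 2 or 4 when p = 2) is normal in S, then S is normal in F. -/
theorem result {Ω : Type u} [Group Ω] {S : Subgroup Ω} [Finite S] (p : ℕ) [Fact p.Prime] (hS : IsPGroup p S)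
    (F : Cfsg.FusionSystem S) (hF : F.IsSaturated p)
    (hnorm : ∀ x ∈ F.focalSubgroup, (x ^ p = 1 ∨ (p = 2 ∧ x ^ 4 = 1)) → ∀ s ∈ S, s * x * s⁻¹ ∈ Subgroup.zpowers x) :
    F.IsNormal S := by
  have hcen : ∀ x ∈ F.focalSubgroup, x ^ p = 1 → ∀ s ∈ S, s * x * s⁻¹ = x := by
    intro x hx hxp s hs
    have hfS : F.focalSubgroup ≤ S := by
      unfold FusionSystem.focalSubgroup
      rw [Subgroup.closure_le]
      rintro _ ⟨P, φ, x, hφ, rfl⟩
      exact S.mul_mem (S.inv_mem (hom_le F hφ x.2)) (hom_mem F hφ x)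
    by_cases hx1 : x = 1
    · rw [hx1]; group
    have hord : orderOf x = p := orderOf_eq_prime hxp hx1
    have hXS : Subgroup.zpowers x ≤ S := by rw [Subgroup.zpowers_le]; exact hfS hx
    haveI : Finite ↥(Subgroup.zpowers x) := finite_of_le hXS
    have hXn : S ≤ Subgroup.normalizer ((Subgroup.zpowers x : Subgroup Ω) : Set Ω) := by
      intro t ht
      apply mem_normalizer_of_finite
      intro y hy
      obtain ⟨k, rfl⟩ := Subgroup.mem_zpowers_iff.1 hy
      have h1 := hnorm x hx (Or.inl hxp) t ht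
      have h2 : t * x ^ k * t⁻¹ = (t * x * t⁻¹) ^ k := by rw [conj_zpow]
      rw [h2]
      exact Subgroup.zpow_mem _ h1 k
    have h1 := inf_cent_ne_bot hS hXS hXn (by
      intro h; exact hx1 (Subgroup.zpowers_eq_bot.1 h))
    have h2 : Subgroup.zpowers x ≤ Subgroup.centralizer (S : Set Ω) := by
      have hc : Nat.card ↥(Subgroup.zpowers x) = p := by rw [Nat.card_zpowers, hord]
      have h3 : Subgroup.zpowers x ⊓ Subgroup.centralizer (S : Set Ω) = Subgroup.zpowers x := by
        apply Subgroup.eq_of_le_of_card_ge inf_le_left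
        have h4 : Nat.card ↥(Subgroup.zpowers x ⊓ Subgroup.centralizer (S : Set Ω) : Subgroup Ω) ∣ p := by
          rw [← hc]; exact Subgroup.card_dvd_of_le inf_le_left
        rcases (Nat.dvd_prime (Fact.out : p.Prime)).1 h4 with h5 | h5
        · exact absurd (Subgroup.card_eq_one.1 h5) h1
        · rw [h5, hc]
      rw [← h3]; exact inf_le_right
    have h3 := Subgroup.mem_centralizer_iff.1 (h2 (Subgroup.mem_zpowers x)) s hs
    rw [h3]; group
  have hSsc : F.StronglyClosed S := ⟨le_rfl, fun R hR φ hφ x => hom_mem F hφ x⟩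
  rw [normal_iff_stronglyClosed hS hF]
  refine ⟨hSsc, fun R hRc hRr => ?_⟩
  have hRS := hRc.1
  haveI := finite_of_le hRS
  have hRp : IsPGroup p R := hS.to_le hRS
  set f := F.focalSubgroup with hf
  have hfm : ∀ α ∈ F.autGroup R, ∀ x : R, (x : Ω)⁻¹ * ((α x : R) : Ω) ∈ f := by
    intro α hα x
    have h1 := (mem_autGroup F hRS).mp hα
    exact Subgroup.subset_closure ⟨R, _, x, h1, rfl⟩
  set D : Subgroup R := f.subgroupOf R with hD
  have hDm : ∀ α ∈ F.autGroup R, ∀ x : R, x⁻¹ * α x ∈ D := fun α hα x => Subgroup.mem_subgroupOf.mpr (hfm α hα x)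
  have hDi : ∀ α ∈ F.autGroup R, ∀ x ∈ D, α x ∈ D := by
    intro α hα x hx
    have h1 := D.mul_mem hx (hDm α hα x)
    rwa [mul_inv_cancel_left] at h1
  set O : Subgroup R := Subgroup.closure {x : R | x ∈ D ∧ x ^ p = 1} with hO
  set W : Subgroup R := Subgroup.closure {x : R | x ∈ D ∧ (x ^ p = 1 ∨ (p = 2 ∧ x ^ 4 = 1))} with hW
  have hOi : ∀ α ∈ F.autGroup R, ∀ x ∈ O, α x ∈ O := by
    intro α hα x hx
    have h1 : O ≤ O.comap (α : R →* R) := by
      rw [hO, Subgroup.closure_le]
      rintro y ⟨hy, hyp⟩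
      apply Subgroup.subset_closure
      refine ⟨hDi α hα y hy, ?_⟩
      show (α y) ^ p = 1
      rw [← map_pow, hyp, map_one]
    exact h1 hx
  have hWi : ∀ α ∈ F.autGroup R, ∀ x ∈ W, α x ∈ W := by
    intro α hα x hx
    have h1 : W ≤ W.comap (α : R →* R) := by
      rw [hW, Subgroup.closure_le]
      rintro y ⟨hy, hyp⟩
      apply Subgroup.subset_closure
      refine ⟨hDi α hα y hy, ?_⟩
      show (α y) ^ p = 1 ∨ (p = 2 ∧ (α y) ^ 4 = 1)
      rcases hyp with h | ⟨h, h'⟩
      · left; rw [← map_pow, h, map_one]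
      · right; refine ⟨h, ?_⟩; rw [← map_pow, h', map_one]
    exact h1 hx
  -- `O` is centralized by `S`
  have hOc : ∀ x ∈ O, ∀ s ∈ S, s * (x : Ω) * s⁻¹ = x := by
    intro x hx s hs
    rw [hO] at hx
    induction hx using Subgroup.closure_induction with
    | mem y hy =>
      exact hcen y (Subgroup.mem_subgroupOf.mp hy.1) (by simpa using congrArg Subtype.val hy.2) s hs
    | one => simp
    | mul a b _ _ ha hb =>
      calc s * ((a * b : R) : Ω) * s⁻¹ = (s * (a : Ω) * s⁻¹) * (s * (b : Ω) * s⁻¹) := by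
            rw [Subgroup.coe_mul]; group
        _ = ((a * b : R) : Ω) := by rw [ha, hb, Subgroup.coe_mul]
    | inv a _ ha =>
      calc s * ((a⁻¹ : R) : Ω) * s⁻¹ = (s * (a : Ω) * s⁻¹)⁻¹ := by
            rw [Subgroup.coe_inv]; group
        _ = ((a⁻¹ : R) : Ω) := by rw [ha, Subgroup.coe_inv]
  refine le_of_stab hS hRc hRr le_rfl Subgroup.le_normalizer
    {((⊤ : Subgroup R), D), (O, ⊥), (W, O)} ?_ ?_ ?_
  · rintro q (rfl | rfl | rfl) α hα
    · exact ⟨fun x _ => Subgroup.mem_top _, hDi α hα⟩
    · exact ⟨hOi α hα, fun x hx => by rw [Subgroup.mem_bot.1 hx, map_one]; exact Subgroup.one_mem _⟩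
    · exact ⟨hWi α hα, hOi α hα⟩
  · intro α hα ho hst
    have h1 : ∀ x ∈ O, α x = x := by
      intro x hx
      have := hst (O, ⊥) (Or.inr (Or.inl rfl)) x hx
      exact (inv_mul_eq_one.1 (Subgroup.mem_bot.1 this)).symm
    have h2 : ∀ x ∈ W, x⁻¹ * α x ∈ O := hst (W, O) (Or.inr (Or.inr rfl))
    have h3 := fix_of_two hRp ho O W h1 h2
    exact aut_eq_one_of_omega_sub hRp ho D (hDi α hα) (hDm α hα) (fun a ha hap => h3 a (Subgroup.subset_closure ⟨ha, hap⟩))
  · rintro α hα ⟨y, hy, hyα⟩ q (rfl | rfl | rfl) x hx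
    · exact hDm α hα x
    · have h1 : α x = x := by
        apply Subtype.ext
        rw [hyα]
        exact hOc x hx y hy
      show x⁻¹ * α x ∈ (⊥ : Subgroup R)
      rw [h1, inv_mul_cancel]; exact Subgroup.one_mem _
    · -- generators
      have key : ∀ z : R, z ∈ D → (z ^ p = 1 ∨ (p = 2 ∧ z ^ 4 = 1)) → z⁻¹ * α z ∈ O := by
        intro z hz hzp
        rcases hzp with h | ⟨h2, h4⟩
        · have h1 : α z = z := by
            apply Subtype.ext
            rw [hyα]
            exact hOc z (Subgroup.subset_closure ⟨hz, h⟩) y hy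
          rw [h1, inv_mul_cancel]; exact Subgroup.one_mem _
        · apply Subgroup.subset_closure
          refine ⟨hDm α hα z, ?_⟩
          have h5 := hnorm (z : Ω) (Subgroup.mem_subgroupOf.mp hz)
            (Or.inr ⟨h2, by simpa using congrArg Subtype.val h4⟩) y hy
          obtain ⟨k, hk⟩ := Subgroup.mem_zpowers_iff.1 h5
          have h6 : α z = z ^ k := by
            apply Subtype.ext
            rw [hyα, ← hk]; simp
          subst h2
          rcases Int.even_or_odd k with ⟨j, hj⟩ | ⟨j, hj⟩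
          · have h7 : (α z) ^ 2 = 1 := by
              rw [h6, hj]
              calc (z ^ (j + j)) ^ 2 = (z ^ 4) ^ j := by
                    rw [← zpow_natCast, ← zpow_mul, ← zpow_natCast, ← zpow_mul]; congr 1; push_cast; ring
                _ = 1 := by rw [h4, one_zpow]
            have h8 : z ^ 2 = 1 := by
              apply α.injective
              rw [map_pow, h7, map_one]
            have h9 : α z = z := by
              apply Subtype.ext
              rw [hyα]
              exact hOc z (Subgroup.subset_closure ⟨hz, h8⟩) y hy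
            rw [h9, inv_mul_cancel, one_pow]
          · rw [h6, hj]
            calc (z⁻¹ * z ^ (2 * j + 1)) ^ 2 = (z ^ 4) ^ j := by
                  have : z⁻¹ * z ^ (2 * j + 1) = z ^ (2 * j) := by
                    rw [zpow_add_one, ← mul_assoc]
                    have : z⁻¹ * z ^ (2 * j) = z ^ (2 * j) * z⁻¹ := by
                      rw [← zpow_neg_one, ← zpow_add, ← zpow_add, add_comm]
                    rw [this]; group
                  rw [this, ← zpow_natCast, ← zpow_mul, ← zpow_natCast, ← zpow_mul]; congr 1; push_cast; ring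
              _ = 1 := by rw [h4, one_zpow]
      show x⁻¹ * α x ∈ O
      have hxW : x ∈ W := hx
      rw [hW] at hxW
      have hcomm : ∀ o ∈ O, ∀ r : R, r⁻¹ * o * r = o := by
        intro o ho r
        apply Subtype.ext
        have h1 := hOc o ho (r : Ω)⁻¹ (S.inv_mem (hRS r.2))
        simpa using h1
      induction hxW using Subgroup.closure_induction with
      | mem z hz => exact key z hz.1 hz.2
      | one => simp
      | mul a b ha' hb' ha hb =>
        have h1 := ha (by exact ha')
        have h2 := hb (by exact hb')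
        have h3 : (a * b)⁻¹ * α (a * b) = (b⁻¹ * (a⁻¹ * α a) * b) * (b⁻¹ * α b) := by rw [map_mul]; group
        rw [h3, hcomm _ h1]
        exact O.mul_mem h1 h2
      | inv a ha' ha =>
        have h1 := ha (by exact ha')
        have h2 : (a⁻¹)⁻¹ * α a⁻¹ = (a⁻¹)⁻¹ * (a⁻¹ * α a)⁻¹ * a⁻¹ := by rw [map_inv]; group
        rw [h2, hcomm _ (O.inv_mem h1)]
        exact O.inv_mem h1

end Cfsg.Agent.S5300
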