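import Cfsg.Statements.S5315
import Cfsg.Agent.L0.Fus.Well4
import Cfsg.Agent.H2.InvTwo
import Mathlib

set_option autoImplicit false
open Cfsg

namespace Cfsg.Agent.S5315

open Cfsg.Agent.H2 Cfsg.Agent.L0 Cfsg.Agent.L0.Fus Cfsg.FusionSystem
open scoped commutatorElement

/-- An analogue of Grün's lemma for fusion systems. Let F be a saturated fusion system over a finite p-group S that is perfect in the sense that its hyperfocal subgroup is all of S (F coincides with its p-residual subsystem). Then the second centre of F equals its centre: every fusion system over S/(Z(F) ∩ S) that is the factor system of F modulo its centre Z(F), read through the quotient map, has trivial centre. -/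
theorem result {Ω : Type*} [Group Ω] {S : Subgroup Ω} [Finite S] (p : ℕ) [Fact p.Prime] (hS : IsPGroup p S) (F : Cfsg.FusionSystem S) (hF : F.IsSaturated p)
    (hperf : F.hyperfocalSubgroup p = S)
    (E : Cfsg.FusionSystem (⊤ : Subgroup (↥S ⧸ (F.center).subgroupOf S)))
    (hE : F.IsFactorSystem F.center (QuotientGroup.mk' ((F.center).subgroupOf S)) E) : E.center = ⊥ := by
  classical
  have hsc : F.StronglyClosed F.center := central_stronglyClosed hS hF (center_central F)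
  have hmor := factor_surjectiveMorphism hS hF hsc hE
  have hZS : F.center ≤ S := hsc.1
  have hZc : ∀ z ∈ F.center, ∀ s ∈ S, s * z = z * s := fun z hz s hs => Fixes.comm (hZS hz) (center_fixes hz) s hs
  rw [eq_bot_iff]
  intro w' hw'
  obtain ⟨w, rfl⟩ := QuotientGroup.mk'_surjective _ w'
  have hstar : ∀ (P : Subgroup Ω) (φ : P →* Ω), φ ∈ F.Hom P → ∀ h : (w : Ω) ∈ P, (w : Ω)⁻¹ * φ ⟨w, h⟩ ∈ F.center := by
    intro P φ hφ hwP
    obtain ⟨φ', hφ', hPS, hφS, hm, hh⟩ := hmor.1.2 P φ hφ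
    have h1 := center_fixes hw' _ φ' hφ' (hm ⟨w, hwP⟩)
    have h2 := hh ⟨w, hwP⟩
    have h3 : QuotientGroup.mk' ((F.center).subgroupOf S) w =
        QuotientGroup.mk' ((F.center).subgroupOf S) ⟨φ ⟨w, hwP⟩, hφS ⟨w, hwP⟩⟩ := by rw [← h2]; exact h1.symm
    have h4 := QuotientGroup.eq.1 h3
    exact Subgroup.mem_subgroupOf.1 h4
  have hcomm : ∀ s ∈ S, ⁅(w : Ω)⁻¹, s⁆ ∈ F.center := by
    intro s hs
    have h1 := hstar S _ (F.conj_mem le_rfl hs) w.2
    have e : ⁅(w : Ω)⁻¹, s⁆ = (w : Ω)⁻¹ * (s * w * s⁻¹) := by rw [commutatorElement_def]; group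
    rw [e]; exact h1
  have hkey : ∀ (P : Subgroup Ω) (φ : P →* Ω), φ ∈ F.Hom P → ∀ x : P, ⁅(w : Ω)⁻¹, φ x⁆ = ⁅(w : Ω)⁻¹, (x : Ω)⁆ := by
    intro P φ hφ x
    obtain ⟨φ', hφ', hPS, hφS, hm, hh⟩ := hmor.1.2 P φ hφ
    obtain ⟨ψ', hψ', h1, h2⟩ := (center_central E).2 _ φ' hφ'
    obtain ⟨ψ, hψ, hQS, hψS, hm', hh'⟩ := hmor.2.2 _ le_top ψ' hψ'
    have hx : (x : Ω) ∈ preimageAlong (QuotientGroup.mk' ((F.center).subgroupOf S))
        (imageAlong (QuotientGroup.mk' ((F.center).subgroupOf S)) P ⊔ E.center) :=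
      mem_preimageAlong.2 ⟨hPS x.2, Subgroup.mem_sup_left (hm x)⟩
    have hw : (w : Ω) ∈ preimageAlong (QuotientGroup.mk' ((F.center).subgroupOf S))
        (imageAlong (QuotientGroup.mk' ((F.center).subgroupOf S)) P ⊔ E.center) :=
      mem_preimageAlong.2 ⟨w.2, Subgroup.mem_sup_right hw'⟩
    have h3 : QuotientGroup.mk' ((F.center).subgroupOf S) ⟨φ x, hφS x⟩ =
        QuotientGroup.mk' ((F.center).subgroupOf S) ⟨ψ ⟨x, hx⟩, hψS _⟩ := by
      rw [← hh' ⟨x, hx⟩, ← hh x]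
      exact (h1 ⟨_, hm x⟩).symm
    have h4 : (φ x)⁻¹ * ψ ⟨x, hx⟩ ∈ F.center := Subgroup.mem_subgroupOf.1 (QuotientGroup.eq.1 h3)
    have h5 := hstar _ ψ hψ hw
    have h6 := hcomm x (hPS x.2)
    have hmem : ⁅(w : Ω)⁻¹, (x : Ω)⁆ ∈ preimageAlong (QuotientGroup.mk' ((F.center).subgroupOf S))
        (imageAlong (QuotientGroup.mk' ((F.center).subgroupOf S)) P ⊔ E.center) := by
      rw [commutatorElement_def]
      exact Subgroup.mul_mem _ (Subgroup.mul_mem _ (Subgroup.mul_mem _ (Subgroup.inv_mem _ hw) hx)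
        (Subgroup.inv_mem _ (Subgroup.inv_mem _ hw))) (Subgroup.inv_mem _ hx)
    have h7 := center_fixes h6 _ ψ hψ hmem
    have h8 : ψ ⟨⁅(w : Ω)⁻¹, (x : Ω)⁆, hmem⟩ = ⁅(ψ ⟨w, hw⟩)⁻¹, ψ ⟨x, hx⟩⁆ := by
      rw [← map_inv, ← map_commutatorElement]; rfl
    rw [← h7, h8]
    obtain ⟨c, hc⟩ : ∃ c, c = (w : Ω)⁻¹ * ψ ⟨w, hw⟩ := ⟨_, rfl⟩
    obtain ⟨d, hd⟩ : ∃ d, d = (φ x)⁻¹ * ψ ⟨x, hx⟩ := ⟨_, rfl⟩
    rw [← hc] at h5
    rw [← hd] at h4
    have e1 : ψ ⟨w, hw⟩ = w * c := by rw [hc]; group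
    have e2 : ψ ⟨x, hx⟩ = φ x * d := by rw [hd]; group
    rw [e1, e2]
    have c1 : c * (φ x * d) = (φ x * d) * c := (hZc c h5 _ (S.mul_mem (hφS x) (hZS h4))).symm
    have c2 : d * (w : Ω) = w * d := (hZc d h4 _ w.2).symm
    have c3 : c * (w : Ω) = w * c := (hZc c h5 _ w.2).symm
    calc ⁅(w : Ω)⁻¹, φ x⁆ = (w : Ω)⁻¹ * φ x * w * (φ x)⁻¹ := by rw [commutatorElement_def, inv_inv]
      _ = (w : Ω)⁻¹ * φ x * (w * d) * d⁻¹ * (φ x)⁻¹ := by group
      _ = (w : Ω)⁻¹ * (φ x * d) * w * d⁻¹ * (φ x)⁻¹ := by rw [← c2]; group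
      _ = (w : Ω)⁻¹ * c⁻¹ * (c * (φ x * d)) * w * d⁻¹ * (φ x)⁻¹ := by group
      _ = (w : Ω)⁻¹ * c⁻¹ * (φ x * d) * (c * w) * (φ x * d)⁻¹ := by rw [c1]; group
      _ = ((w : Ω)⁻¹ * c⁻¹) * (φ x * d) * (w * c) * (φ x * d)⁻¹ := by rw [c3]
      _ = (c * w)⁻¹ * (φ x * d) * (w * c) * (φ x * d)⁻¹ := by rw [mul_inv_rev c (w : Ω)]
      _ = ⁅(w * c : Ω)⁻¹, φ x * d⁆ := by rw [commutatorElement_def, inv_inv, c3]
  have hwS : ∀ s ∈ S, s * (w : Ω) = w * s := by
    have h1 : F.hyperfocalSubgroup p ≤ Subgroup.centralizer {(w : Ω)} := by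
      unfold FusionSystem.hyperfocalSubgroup
      rw [Subgroup.closure_le]
      rintro _ ⟨P, α, x, hPS, hα, rfl⟩
      have h2 := hkey P _ ((mem_autGroup F hPS).1 α.2) x
      have h2' : ⁅(w : Ω)⁻¹, (((α : MulAut P) x : P) : Ω)⁆ = ⁅(w : Ω)⁻¹, (x : Ω)⁆ := h2
      have h3 := hcomm x (hPS x.2)
      refine Subgroup.mem_centralizer_iff.2 ?_
      rintro _ rfl
      obtain ⟨y, hy⟩ : ∃ y : Ω, y = (((α : MulAut P) x : P) : Ω) := ⟨_, rfl⟩
      rw [← hy] at h2' ⊢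
      obtain ⟨f, hf⟩ : ∃ f, f = ⁅(w : Ω)⁻¹, (x : Ω)⁆ := ⟨_, rfl⟩
      rw [← hf] at h2' h3
      have e1 : (w : Ω)⁻¹ * x * w = f * x := by rw [hf, commutatorElement_def]; group
      have e2 : (w : Ω)⁻¹ * y * w = f * y := by rw [← h2', commutatorElement_def]; group
      have e3 : (w : Ω)⁻¹ * ((x : Ω)⁻¹ * y) * w = (x : Ω)⁻¹ * y := by
        calc (w : Ω)⁻¹ * ((x : Ω)⁻¹ * y) * w = ((w : Ω)⁻¹ * x * w)⁻¹ * ((w : Ω)⁻¹ * y * w) := by group
          _ = (x : Ω)⁻¹ * y := by rw [e1, e2]; group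
      calc (w : Ω) * ((x : Ω)⁻¹ * y) = w * ((w : Ω)⁻¹ * ((x : Ω)⁻¹ * y) * w) := by rw [e3]
        _ = (x : Ω)⁻¹ * y * w := by group
    rw [hperf] at h1
    intro s hs
    exact (Subgroup.mem_centralizer_iff.1 (h1 hs) w rfl).symm
  have hfix : Fixes F (w : Ω) := by
    intro P φ hφ hwP
    have hle : Subgroup.zpowers (w : Ω) ≤ P := Subgroup.zpowers_le.2 hwP
    obtain ⟨ψ, hψ, h1, h2⟩ := (center_central F).2 _ _ (restrict_mem F hφ hle)
    have hcZ := hstar P φ hφ hwP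
    obtain ⟨c, hc⟩ : ∃ c, c = (w : Ω)⁻¹ * φ ⟨w, hwP⟩ := ⟨_, rfl⟩
    rw [← hc] at hcZ
    have e1 : φ ⟨w, hwP⟩ = w * c := by rw [hc]; group
    rw [e1]
    have hwW : (w : Ω) ∈ Subgroup.zpowers (w : Ω) ⊔ F.center := Subgroup.mem_sup_left (Subgroup.mem_zpowers _)
    have hψw : ψ ⟨w, hwW⟩ = w * c := by
      have := h1 ⟨w, Subgroup.mem_zpowers _⟩
      rw [← e1]; exact this
    have hWS : Subgroup.zpowers (w : Ω) ⊔ F.center ≤ S := sup_le (Subgroup.zpowers_le.2 w.2) hZS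
    have hmaps : ∀ x, ψ x ∈ Subgroup.zpowers (w : Ω) ⊔ F.center := by
      have h3 : Subgroup.zpowers (w : Ω) ⊔ F.center ≤
          ((Subgroup.zpowers (w : Ω) ⊔ F.center).comap ψ).map (Subgroup.zpowers (w : Ω) ⊔ F.center).subtype := by
        refine sup_le (Subgroup.zpowers_le.2 ⟨⟨w, hwW⟩, ?_, rfl⟩) ?_
        · change ψ ⟨w, hwW⟩ ∈ Subgroup.zpowers (w : Ω) ⊔ F.center
          rw [hψw]
          exact Subgroup.mul_mem_sup (Subgroup.mem_zpowers _) hcZ
        · intro z hz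
          refine ⟨⟨z, Subgroup.mem_sup_right hz⟩, ?_, rfl⟩
          change ψ ⟨z, _⟩ ∈ Subgroup.zpowers (w : Ω) ⊔ F.center
          have : ψ ⟨z, Subgroup.mem_sup_right hz⟩ = z := h2 ⟨z, hz⟩
          rw [this]; exact Subgroup.mem_sup_right hz
      intro x
      obtain ⟨y, hy, hyx⟩ := h3 x.2
      have : y = x := Subtype.ext hyx
      rw [← this]; exact hy
    haveI := finite_of_le hWS
    obtain ⟨β, hβ, hβx⟩ := exists_aut_of_hom hψ hmaps
    have hcW : c ∈ Subgroup.zpowers (w : Ω) ⊔ F.center := Subgroup.mem_sup_right hcZ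
    have hβc : β ⟨c, hcW⟩ = ⟨c, hcW⟩ := Subtype.ext (by rw [hβx]; exact h2 ⟨c, hcZ⟩)
    have hpow : ∀ n : ℕ, (β ^ n) ⟨w, hwW⟩ = ⟨w, hwW⟩ * ⟨c, hcW⟩ ^ n := by
      intro n
      induction n with
      | zero => simp
      | succ n ih =>
        rw [pow_succ', MulAut.mul_apply, ih, map_mul, map_pow, hβc, pow_succ', ← mul_assoc]
        congr 1
        exact Subtype.ext (by rw [hβx, hψw]; rfl)
    have hpz : ∀ (n : ℕ) (z : Ω) (hz : z ∈ F.center), (β ^ n) ⟨z, Subgroup.mem_sup_right hz⟩ = ⟨z, Subgroup.mem_sup_right hz⟩ := by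
      intro n z hz
      induction n with
      | zero => rfl
      | succ n ih =>
        rw [pow_succ', MulAut.mul_apply, ih]
        exact Subtype.ext (by rw [hβx]; exact h2 ⟨z, hz⟩)
    have hWn : S ≤ Subgroup.normalizer ((Subgroup.zpowers (w : Ω) ⊔ F.center : Subgroup Ω) : Set Ω) := by
      intro s hs
      apply mem_normalizer_of_finite
      intro x hx
      have hxc : ∀ x ∈ Subgroup.zpowers (w : Ω) ⊔ F.center, s * x = x * s := by
        have h3 : Subgroup.zpowers (w : Ω) ⊔ F.center ≤ Subgroup.centralizer {s} := by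
          refine sup_le (Subgroup.zpowers_le.2 ?_) ?_
          · refine Subgroup.mem_centralizer_iff.2 ?_
            rintro _ rfl; exact hwS _ hs
          · intro z hz
            refine Subgroup.mem_centralizer_iff.2 ?_
            rintro _ rfl; exact hZc z hz _ hs
        intro x hx
        exact Subgroup.mem_centralizer_iff.1 (h3 hx) s rfl
      rw [hxc x hx, mul_inv_cancel_right]; exact hx
    have hcen : ∀ s ∈ S, ∀ x ∈ Subgroup.zpowers (w : Ω) ⊔ F.center, s * x = x * s := by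
      intro s hs
      have h3 : Subgroup.zpowers (w : Ω) ⊔ F.center ≤ Subgroup.centralizer {s} := by
        refine sup_le (Subgroup.zpowers_le.2 ?_) ?_
        · refine Subgroup.mem_centralizer_iff.2 ?_
          rintro _ rfl; exact hwS _ hs
        · intro z hz
          refine Subgroup.mem_centralizer_iff.2 ?_
          rintro _ rfl; exact hZc z hz _ hs
      intro x hx
      exact Subgroup.mem_centralizer_iff.1 (h3 hx) s rfl
    haveI := Fus.finite_autGroup (S := S) hWS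
    obtain ⟨-, R, hR⟩ := fullyAutomized_of_fullyNormalized_sat hS hF (fullyNormalized_of_le_normalizer (F := F) hWS hWn)
    have hRbot : (R : Subgroup (F.autGroup (Subgroup.zpowers (w : Ω) ⊔ F.center))) = ⊥ := by
      rw [hR, eq_bot_iff]
      intro γ hγ
      obtain ⟨g, hg, hgx⟩ := mem_autInducedBy.1 (Subgroup.mem_subgroupOf.1 hγ)
      refine Subgroup.mem_bot.2 (Subtype.ext (MulEquiv.ext fun x => Subtype.ext ?_))
      rw [hgx, hcen g hg x x.2, mul_inv_cancel_right]; rfl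
    have hnd := R.not_dvd_index
    rw [hRbot, Subgroup.index_bot] at hnd
    obtain ⟨k, hk⟩ := hS ⟨c, hZS hcZ⟩
    have hck : c ^ p ^ k = 1 := by simpa using congrArg Subtype.val hk
    have hβp : β ^ p ^ k = 1 := by
      have h3 : (⟨w, hwW⟩ : ↥(Subgroup.zpowers (w : Ω) ⊔ F.center)) ∈
          {x | (β ^ p ^ k) x = x} := by
        show (β ^ p ^ k) _ = _
        rw [hpow]
        apply Subtype.ext
        show (w : Ω) * c ^ p ^ k = w
        rw [hck, mul_one]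
      let K : Subgroup ↥(Subgroup.zpowers (w : Ω) ⊔ F.center) :=
        { carrier := {x | (β ^ p ^ k) x = x}
          one_mem' := map_one _
          mul_mem' := by intro a b ha hb; show (β ^ p ^ k) (a * b) = a * b; rw [map_mul, ha, hb]
          inv_mem' := by intro a ha; show (β ^ p ^ k) a⁻¹ = a⁻¹; rw [map_inv, ha] }
      have h4 : Subgroup.zpowers (w : Ω) ⊔ F.center ≤ K.map (Subgroup.zpowers (w : Ω) ⊔ F.center).subtype := by
        refine sup_le (Subgroup.zpowers_le.2 ⟨⟨w, hwW⟩, h3, rfl⟩) ?_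
        intro z hz
        exact ⟨⟨z, Subgroup.mem_sup_right hz⟩, hpz _ z hz, rfl⟩
      apply MulEquiv.ext
      intro x
      obtain ⟨y, hy, hyx⟩ := h4 x.2
      have : y = x := Subtype.ext hyx
      rw [← this]; exact hy
    have hβ1 : β = 1 := by
      have h3 : orderOf (⟨β, hβ⟩ : F.autGroup (Subgroup.zpowers (w : Ω) ⊔ F.center)) ∣ p ^ k := by
        rw [Subgroup.orderOf_mk]; exact orderOf_dvd_of_pow_eq_one hβp
      have h4 := orderOf_dvd_natCard (⟨β, hβ⟩ : F.autGroup (Subgroup.zpowers (w : Ω) ⊔ F.center))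
      have hcop : (Nat.card (F.autGroup (Subgroup.zpowers (w : Ω) ⊔ F.center))).Coprime (p ^ k) :=
        Nat.Coprime.pow_right k ((Nat.Prime.coprime_iff_not_dvd Fact.out).2 hnd).symm
      have h5 := Nat.eq_one_of_dvd_coprimes hcop h4 h3
      have h6 := orderOf_eq_one_iff.1 h5
      exact congrArg Subtype.val h6
    have h3 := hβx ⟨w, hwW⟩
    rw [hβ1, hψw] at h3
    exact h3.symm
  have hwZ : (w : Ω) ∈ F.center := (mem_center_iff hS hF).2 ⟨w.2, hfix⟩
  exact Subgroup.mem_bot.2 ((QuotientGroup.eq_one_iff w).2 (Subgroup.mem_subgroupOf.2 hwZ))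

end Cfsg.Agent.S5315
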