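import Cfsg.Statements.S5562


set_option autoImplicit false
open Cfsg

namespace Cfsg.Agent.S5562

/-- Let G be a finite group, d an involution of G whose conjugates pairwise have products of odd order, and x any involution of G. Then the conjugacy class of d is the disjoint union, over the conjugates a of d commuting with x, of the sets of conjugates of d commuting with ax: every conjugate of d commutes with ax for exactly one conjugate a of d that commutes with x. -/
theorem result {G : Type*} [Group G] [Finite G] (d : G) (hd : orderOf d = 2)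
    (hodd : ∀ a ∈ conjugatesOf d, ∀ b ∈ conjugatesOf d, Odd (orderOf (a * b)))
    (x : G) (hx : orderOf x = 2) :
    ∀ e ∈ conjugatesOf d,
      ∃! a : G, a ∈ conjugatesOf d ∧ Commute a x ∧ Commute e (a * x) := by
  have hdd : d * d = 1 := by have := pow_orderOf_eq_one d; rw [hd, pow_two] at this; exact this
  have hxx : x * x = 1 := by have := pow_orderOf_eq_one x; rw [hx, pow_two] at this; exact this
  have inv2 : ∀ u ∈ conjugatesOf d, u * u = 1 := by
    intro u hu
    obtain ⟨g, hg⟩ := isConj_iff.1 (hu : IsConj d u)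
    rw [← hg]
    calc g * d * g⁻¹ * (g * d * g⁻¹) = g * (d * d) * g⁻¹ := by group
      _ = 1 := by rw [hdd]; group
  intro e he
  have hee := inv2 e he
  have hxi : x⁻¹ = x := inv_eq_of_mul_eq_one_left hxx
  have hei : e⁻¹ = e := inv_eq_of_mul_eq_one_left hee
  have cl : ∀ g u : G, u ∈ conjugatesOf d → g * u * g⁻¹ ∈ conjugatesOf d := by
    intro g u hu
    exact (hu : IsConj d u).trans (isConj_iff.2 ⟨g, rfl⟩)
  have hconjx : x * e * x ∈ conjugatesOf d := by
    have := cl x e he
    rwa [hxi] at this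
  obtain ⟨w, hw⟩ : ∃ w, w = e * (x * e * x) := ⟨_, rfl⟩
  obtain ⟨k, hk⟩ := hodd e he _ hconjx
  rw [← hw] at hk
  have hwm : w ^ (2 * k + 1) = 1 := by rw [← hk]; exact pow_orderOf_eq_one _
  have hxe : x * e * x = e * w := by rw [hw, ← mul_assoc e e, hee, one_mul]
  have hwi : w⁻¹ = x * e * x * e := by
    rw [hw]
    calc (e * (x * e * x))⁻¹ = x⁻¹ * e⁻¹ * x⁻¹ * e⁻¹ := by group
      _ = _ := by rw [hxi, hei]
  have s1 : SemiconjBy e w w⁻¹ := by
    show e * w = w⁻¹ * e
    rw [hwi, mul_assoc (x * e * x) e e, hee, mul_one]; exact hxe.symm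
  have s2 : SemiconjBy x w w⁻¹ := by
    show x * w = w⁻¹ * x
    rw [hwi, hw]
    calc x * (e * (x * e * x)) = x * e * x * e * x := by group
      _ = _ := rfl
  have p1 : ∀ j, e * w ^ j = w⁻¹ ^ j * e := fun j => s1.pow_right j
  have p2 : ∀ j, x * w ^ j = w⁻¹ ^ j * x := fun j => s2.pow_right j
  have ww : w ^ (k + 1) = w⁻¹ ^ k := by
    have : w ^ (k + 1) * w ^ k = 1 := by rw [← pow_add, ← hwm]; congr 1; omega
    rw [inv_pow]; exact eq_inv_of_mul_eq_one_left this
  refine ⟨e * w ^ (k + 1), ⟨?_, ?_, ?_⟩, ?_⟩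
  · have h1 : (w ^ ((k + 1) * (k + 1)))⁻¹ * e * (w ^ ((k + 1) * (k + 1)))⁻¹⁻¹ = e * w ^ (k + 1) := by
      rw [inv_inv, ← inv_pow, ← p1, mul_assoc, ← pow_add]
      congr 1
      have : (k + 1) * (k + 1) + (k + 1) * (k + 1) = (2 * k + 1) * (k + 1) + (k + 1) := by ring
      rw [this, pow_add, pow_mul, hwm, one_pow, one_mul]
    rw [← h1]
    exact cl _ e he
  · show e * w ^ (k + 1) * x = x * (e * w ^ (k + 1))
    have h2 : x * e = e * w * x := by rw [← hxe, mul_assoc, hxx, mul_one]
    have h3 : x * w⁻¹ ^ k = w ^ k * x := by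
      have := (s2.inv_right.pow_right k)
      rw [inv_inv] at this
      exact this
    rw [← mul_assoc, h2, mul_assoc (e * w), p2, ← mul_assoc, mul_assoc e w, ww, inv_pow, inv_pow]
    congr 2
    rw [pow_succ']
    group
  · show e * (e * w ^ (k + 1) * x) = e * w ^ (k + 1) * x * e
    have h2 : x * e = e * w * x := by rw [← hxe, mul_assoc, hxx, mul_one]
    calc e * (e * w ^ (k + 1) * x) = (e * e) * w ^ (k + 1) * x := by group
      _ = w⁻¹ ^ k * x := by rw [hee, one_mul, ww]
      _ = w⁻¹ ^ (k + 1) * w * x := by rw [pow_succ, inv_mul_cancel_right]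
      _ = w⁻¹ ^ (k + 1) * (e * e) * w * x := by rw [hee, mul_one]
      _ = (w⁻¹ ^ (k + 1) * e) * (e * w * x) := by simp only [mul_assoc]
      _ = (e * w ^ (k + 1)) * (x * e) := by rw [← p1, h2]
      _ = e * w ^ (k + 1) * x * e := by simp only [mul_assoc]
  · rintro b ⟨hb, hbx, hbe⟩
    have hbb := inv2 b hb
    have h1 : b * e * b = x * e * x := by
      have h2 : e * (b * x) = b * x * e := hbe
      have h3 : x * b = b * x := hbx.symm
      calc b * e * b = b * e * (b * (x * x)) := by rw [hxx, mul_one]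
        _ = b * (e * (b * x)) * x := by group
        _ = b * (b * x * e) * x := by rw [h2]
        _ = (b * b) * x * e * x := by group
        _ = x * e * x := by rw [hbb, one_mul]
    have h4 : (e * b) * (e * b) = w := by
      rw [hw, ← h1]; group
    obtain ⟨l, hl⟩ := hodd e he b hb
    have h5 : (e * b) ^ (2 * l + 1) = 1 := by rw [← hl]; exact pow_orderOf_eq_one _
    have h6 : (e * b) = w ^ (k + 1) := by
      have h7 : (e * b) ^ ((2 * l + 1) * (2 * k + 1) + 1) = e * b := by
        rw [pow_add, pow_mul, h5, one_pow, one_mul, pow_one]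
      have h8 : (2 * l + 1) * (2 * k + 1) + 1 = 2 * ((2 * k + 1) * l + (k + 1)) := by ring
      rw [h8, pow_mul, pow_two, h4, pow_add, pow_mul, hwm, one_pow, one_mul] at h7
      exact h7.symm
    rw [← h6, ← mul_assoc, hee, one_mul]

end Cfsg.Agent.S5562
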