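import Cfsg.Statements.S5729
import Mathlib

set_option autoImplicit false
open Cfsg

namespace Cfsg.Agent.S5729

theorem cnt {G X : Type*} [Group G] [Fintype G] [MulAction G X] [Fintype X] :
    (∑ g : G, (Nat.card (MulAction.fixedBy X g) : ℤ)) = Nat.card (MulAction.orbitRel.Quotient G X) * Fintype.card G := by
  classical
  haveI : Fintype (Quotient (MulAction.orbitRel G X)) := Fintype.ofFinite _
  have h := MulAction.sum_card_fixedBy_eq_card_orbits_mul_card_group G X
  have h2 : (∑ g : G, (Nat.card (MulAction.fixedBy X g) : ℤ)) = ((∑ g : G, Fintype.card (MulAction.fixedBy X g) : ℕ) : ℤ) := by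
    push_cast
    exact Finset.sum_congr rfl (fun g _ => by rw [Nat.card_eq_fintype_card])
  rw [h2, h, Nat.card_eq_fintype_card]
  push_cast
  rfl

/-- Let a finite group G act faithfully and transitively on a set with n ≥ 3 points. Then either G is a Frobenius permutation group (Frobenius as a permutation group: transitive, some non-identity element fixes a point, and no non-identity element fixes two points) of order n(n − 1) and exactly |G|/n of its elements are derangements (fix no point), or the number of derangements is greater than |G|/n. -/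
theorem result {G Ω : Type*} [Group G] [Finite G] [MulAction G Ω] [FaithfulSMul G Ω] [Fintype Ω] (htr : MulAction.IsPretransitive G Ω) (hn : 3 ≤ Fintype.card Ω) :
    ((MulAction.IsPretransitive G Ω ∧ (∃ g : G, g ≠ 1 ∧ ∃ ω : Ω, g • ω = ω) ∧ ∀ g : G, g ≠ 1 → Nat.card (MulAction.fixedBy Ω g) ≤ 1) ∧ Nat.card G = Fintype.card Ω * (Fintype.card Ω - 1) ∧ Fintype.card Ω * Nat.card {g : G // ∀ ω : Ω, g • ω ≠ ω} = Nat.card G) ∨
    Nat.card G < Fintype.card Ω * Nat.card {g : G // ∀ ω : Ω, g • ω ≠ ω} := by
  classical
  haveI := Fintype.ofFinite G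
  obtain ⟨n, hnn⟩ : ∃ n, n = Fintype.card Ω := ⟨_, rfl⟩
  rw [← hnn] at hn ⊢
  obtain ⟨f, hf⟩ : ∃ f : G → ℤ, ∀ g, f g = (Nat.card (MulAction.fixedBy Ω g) : ℤ) := ⟨_, fun _ => rfl⟩
  obtain ⟨δ, hδ⟩ : ∃ δ, δ = Nat.card {g : G // ∀ ω : Ω, g • ω ≠ ω} := ⟨_, rfl⟩
  have hG0 : (0 : ℤ) < Fintype.card G := by exact_mod_cast Fintype.card_pos
  have hn3 : (3 : ℤ) ≤ n := by exact_mod_cast hn
  haveI : Nonempty Ω := Fintype.card_pos_iff.1 (by omega)
  -- sums
  have s1 : ∑ g, f g = Fintype.card G := by
    have h1 := cnt (G := G) (X := Ω)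
    have h2 : Nat.card (MulAction.orbitRel.Quotient G Ω) = 1 := by
      haveI : Subsingleton (MulAction.orbitRel.Quotient G Ω) := (MulAction.pretransitive_iff_subsingleton_quotient G Ω).1 htr
      haveI : Nonempty (MulAction.orbitRel.Quotient G Ω) := ⟨Quotient.mk'' (Classical.arbitrary Ω)⟩
      exact Nat.card_unique
    rw [h2] at h1
    simp only [hf]
    rw [h1]; push_cast; ring
  obtain ⟨r, hr⟩ : ∃ r, r = Nat.card (MulAction.orbitRel.Quotient G (Ω × Ω)) := ⟨_, rfl⟩
  have hr2 : (2 : ℤ) ≤ r := by
    haveI : Fintype (MulAction.orbitRel.Quotient G (Ω × Ω)) := Fintype.ofFinite _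
    rw [hr, Nat.card_eq_fintype_card]
    have : 1 < Fintype.card (MulAction.orbitRel.Quotient G (Ω × Ω)) := by
      rw [Fintype.one_lt_card_iff]
      obtain ⟨a, b, hab⟩ := Fintype.one_lt_card_iff.1 (show 1 < Fintype.card Ω by omega)
      refine ⟨Quotient.mk'' (a, a), Quotient.mk'' (a, b), fun h => ?_⟩
      have h1 := MulAction.orbitRel_apply.1 (Quotient.exact' h)
      obtain ⟨g, hg⟩ := h1
      have h2 : g • a = a := congrArg Prod.fst hg
      have h3 : g • b = a := congrArg Prod.snd hg
      exact hab (smul_left_cancel g (h2.trans h3.symm))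
    exact_mod_cast this
  have s2 : ∑ g, f g ^ 2 = r * Fintype.card G := by
    have h1 := cnt (G := G) (X := Ω × Ω)
    rw [← hr] at h1
    rw [← h1]
    refine Finset.sum_congr rfl (fun g _ => ?_)
    rw [hf]
    have e : MulAction.fixedBy (Ω × Ω) g ≃ MulAction.fixedBy Ω g × MulAction.fixedBy Ω g :=
      { toFun := fun x => (⟨x.1.1, congrArg Prod.fst x.2⟩, ⟨x.1.2, congrArg Prod.snd x.2⟩)
        invFun := fun y => ⟨(y.1.1, y.2.1), Prod.ext y.1.2 y.2.2⟩
        left_inv := fun x => rfl
        right_inv := fun y => rfl }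
    rw [Nat.card_congr e, Nat.card_prod]; push_cast; ring
  have f0 : ∀ g, 0 ≤ f g := fun g => by rw [hf]; positivity
  have fn : ∀ g, f g ≤ n := fun g => by
    rw [hf, hnn, Nat.card_eq_fintype_card]
    exact_mod_cast Fintype.card_subtype_le _
  have fz : ∀ g, f g = 0 ↔ ∀ ω : Ω, g • ω ≠ ω := by
    intro g
    rw [hf, Nat.cast_eq_zero, Finite.card_eq_zero_iff, isEmpty_subtype]
    rfl
  have sδ : ∑ g : G, (if f g = 0 then (n : ℤ) else 0) = n * δ := by
    rw [← Finset.sum_filter, Finset.sum_const, nsmul_eq_mul, hδ, Nat.card_eq_fintype_card, Fintype.card_subtype, mul_comm]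
    congr 2
    congr 1
    ext g
    simp [fz]
  have hterm : ∀ g, 0 ≤ (if f g = 0 then (n : ℤ) else 0) - (f g - 1) * (f g - n) := by
    intro g
    by_cases h : f g = 0
    · rw [if_pos h, h]; ring_nf; exact le_refl _
    · rw [if_neg h]
      have h1 : 1 ≤ f g := by have := f0 g; omega
      have h2 := fn g
      nlinarith
  have hsum : ∑ g : G, ((if f g = 0 then (n : ℤ) else 0) - (f g - 1) * (f g - n)) = n * δ - (r - 1) * Fintype.card G := by
    rw [Finset.sum_sub_distrib, sδ]
    have : ∑ g : G, (f g - 1) * (f g - n) = ∑ g, f g ^ 2 - (n + 1) * ∑ g, f g + n * Fintype.card G := by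
      have h1 : ∀ g : G, (f g - 1) * (f g - n) = f g ^ 2 - (n + 1) * f g + n := fun g => by ring
      simp only [h1]
      rw [Finset.sum_add_distrib, Finset.sum_sub_distrib, ← Finset.mul_sum, Finset.sum_const, Finset.card_univ, nsmul_eq_mul]
      ring
    rw [this, s1, s2]; ring
  by_cases hlt : (Fintype.card G : ℤ) < n * δ
  · right
    rw [← hδ, Nat.card_eq_fintype_card]
    exact_mod_cast hlt
  · left
    push Not at hlt
    have h1 := Finset.sum_nonneg (fun g (_ : g ∈ Finset.univ) => hterm g)
    rw [hsum] at h1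
    have hr' : (r : ℤ) = 2 := by
      have : ((r : ℤ) - 1) * Fintype.card G ≤ Fintype.card G := by linarith
      nlinarith
    rw [hr'] at h1 hsum s2
    have heq : (n : ℤ) * δ = Fintype.card G := by linarith
    have h2 : ∀ g, (if f g = 0 then (n : ℤ) else 0) - (f g - 1) * (f g - n) = 0 := by
      have h3 : ∑ g : G, ((if f g = 0 then (n : ℤ) else 0) - (f g - 1) * (f g - n)) = 0 := by
        rw [hsum, heq]; ring
      exact fun g => (Finset.sum_eq_zero_iff_of_nonneg (fun g _ => hterm g)).1 h3 g (Finset.mem_univ g)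
    have h3 : ∀ g : G, g ≠ 1 → f g = 0 ∨ f g = 1 := by
      intro g hg
      by_cases h : f g = 0
      · exact Or.inl h
      · right
        have h4 := h2 g
        rw [if_neg h] at h4
        have h5 : (f g - 1) * (f g - n) = 0 := by linarith
        rcases mul_eq_zero.1 h5 with h6 | h6
        · linarith
        · exfalso
          apply hg
          have h7 : f g = n := by linarith
          rw [hf, hnn] at h7
          have h8 : Nat.card (MulAction.fixedBy Ω g) = Fintype.card Ω := by exact_mod_cast h7
          have h9 : MulAction.fixedBy Ω g = Set.univ := by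
            rw [Set.eq_univ_iff_ncard, ← Nat.card_coe_set_eq, h8, Nat.card_eq_fintype_card]
          apply FaithfulSMul.eq_of_smul_eq_smul (α := Ω)
          intro ω
          have : ω ∈ MulAction.fixedBy Ω g := by rw [h9]; trivial
          rw [one_smul]; exact this
    have hf1 : f 1 = n := by
      rw [hf, hnn]
      have : MulAction.fixedBy Ω (1 : G) = Set.univ := by
        ext ω; simp
      rw [this, Nat.card_univ, Nat.card_eq_fintype_card]
    have h4 : ∑ g : G, (f g ^ 2 - f g) = n ^ 2 - n := by
      rw [Finset.sum_eq_single 1]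
      · rw [hf1]
      · intro g _ hg
        rcases h3 g hg with h | h <;> rw [h] <;> ring
      · intro h; exact absurd (Finset.mem_univ _) h
    rw [Finset.sum_sub_distrib, s1, s2] at h4
    have hGn : (Fintype.card G : ℤ) = n * (n - 1) := by linarith
    refine ⟨⟨htr, ?_, ?_⟩, ?_, ?_⟩
    · by_contra hcon
      push Not at hcon
      have h5 : ∑ g : G, f g = n := by
        rw [Finset.sum_eq_single 1]
        · exact hf1
        · intro g _ hg
          exact (fz g).2 (hcon g hg)
        · intro h; exact absurd (Finset.mem_univ _) h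
      rw [s1, hGn] at h5
      nlinarith
    · intro g hg
      have h5 : f g ≤ 1 := by
        rcases h3 g hg with h | h <;> rw [h]; norm_num
      rw [hf] at h5
      exact_mod_cast h5
    · rw [Nat.card_eq_fintype_card]
      zify [show 1 ≤ n by omega]
      exact hGn
    · rw [← hδ, Nat.card_eq_fintype_card]
      exact_mod_cast heq

end Cfsg.Agent.S5729
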