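import Cfsg.Statements.S5739

set_option autoImplicit false
open Cfsg

namespace Cfsg.Agent.S5739

/-- Let F ⊆ K be finite fields with |F| = q and [K : F] = n ≥ 2, and let M ≤ GL_F(K) be the Singer group of multiplications by non-zero elements of K. If g ∈ GL_F(K) does not normalise M, then the order of M ∩ gMg⁻¹ divides q^r − 1 for some proper divisor r of n. In particular, when n is prime, that order divides q − 1. -/
theorem result {F K : Type*} [Field F] [Fintype F] [Field K] [Fintype K] [Algebra F K] (n : ℕ) (hn : 2 ≤ n) (hdim : Module.finrank F K = n)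
    (g : (Module.End F K)ˣ) (hg : ((Units.map ((Algebra.lmul F K : K →ₐ[F] Module.End F K) : K →* Module.End F K)).range).map (MulAut.conj g).toMonoidHom ≠ (Units.map ((Algebra.lmul F K : K →ₐ[F] Module.End F K) : K →* Module.End F K)).range) :
    ∃ r : ℕ, 1 ≤ r ∧ r ∣ n ∧ r < n ∧ Nat.card ↥(((Units.map ((Algebra.lmul F K : K →ₐ[F] Module.End F K) : K →* Module.End F K)).range).map (MulAut.conj g).toMonoidHom ⊓ (Units.map ((Algebra.lmul F K : K →ₐ[F] Module.End F K) : K →* Module.End F K)).range) ∣ Fintype.card F ^ r - 1 := by
  classical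
  let M : Subgroup (Module.End F K)ˣ := (Units.map ((Algebra.lmul F K : K →ₐ[F] Module.End F K) : K →* Module.End F K)).range
  -- the elements of `K` which are in the conjugate
  let gE : Module.End F K := (g : Module.End F K)
  haveI : Finite (Module.End F K) := Finite.of_injective (fun f : Module.End F K => (f : K → K)) DFunLike.coe_injective
  haveI : Finite (Module.End F K)ˣ := Finite.of_injective (fun f : (Module.End F K)ˣ => (f : Module.End F K)) Units.val_injective
  have hgg : ∀ x, gE (((g⁻¹ : (Module.End F K)ˣ) : Module.End F K) x) = x := by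
    intro x
    have := congrArg (fun f : Module.End F K => f x) (g.mul_inv)
    exact this
  have hgg' : ∀ x, ((g⁻¹ : (Module.End F K)ˣ) : Module.End F K) (gE x) = x := by
    intro x
    have := congrArg (fun f : Module.End F K => f x) (g.inv_mul)
    exact this
  let gi : Module.End F K := ((g⁻¹ : (Module.End F K)ˣ) : Module.End F K)
  -- the intermediate field
  let L : IntermediateField F K :=
    { carrier := {a | ∃ b : K, ∀ x, gE (b * gi x) = a * x}
      mul_mem' := by
        rintro a a' ⟨b, hb⟩ ⟨b', hb'⟩
        refine ⟨b * b', fun x => ?_⟩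
        have h1 : b' * gi x = gi (a' * x) := by
          rw [← hb' x]
          exact (hgg' _).symm
        rw [mul_assoc, h1, hb, mul_assoc]
      add_mem' := by
        rintro a a' ⟨b, hb⟩ ⟨b', hb'⟩
        exact ⟨b + b', fun x => by rw [add_mul, map_add, hb, hb', add_mul]⟩
      algebraMap_mem' := by
        intro c
        refine ⟨algebraMap F K c, fun x => ?_⟩
        rw [← Algebra.smul_def, map_smul, Algebra.smul_def]
        congr 1
        exact hgg x
      inv_mem' := by
        rintro a ⟨b, hb⟩
        by_cases ha : a = 0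
        · refine ⟨0, fun x => ?_⟩
          rw [ha, zero_mul, map_zero, inv_zero, zero_mul]
        · have hb0 : b ≠ 0 := by
            rintro rfl
            have h1 := hb 1
            rw [zero_mul, map_zero, mul_one] at h1
            exact ha h1.symm
          refine ⟨b⁻¹, fun x => ?_⟩
          have h1 := hb (a⁻¹ * x)
          rw [← mul_assoc, mul_inv_cancel₀ ha, one_mul] at h1
          have h2 : gi x = b * gi (a⁻¹ * x) := by
            have h3 := congrArg gi h1
            rw [← h3]
            exact hgg' _
          rw [h2, ← mul_assoc, inv_mul_cancel₀ hb0, one_mul]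
          exact hgg _ }
  have hL : ∀ a, a ∈ L ↔ ∃ b : K, ∀ x, gE (b * gi x) = a * x := fun a => Iff.rfl
  refine ⟨Module.finrank F L, Module.finrank_pos, ?_, ?_, ?_⟩
  · rw [← hdim]
    exact Dvd.intro _ (Module.finrank_mul_finrank F L K)
  · rw [← hdim]
    have h1 := Module.finrank_mul_finrank F L K
    have h2 : 0 < Module.finrank F L := Module.finrank_pos
    have h3 : 0 < Module.finrank L K := Module.finrank_pos
    rcases Nat.lt_or_ge (Module.finrank F L) (Module.finrank F K) with h | h
    · exact h
    exfalso
    have h4 : L = ⊤ := by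
      apply IntermediateField.eq_of_le_of_finrank_eq le_top
      rw [IntermediateField.finrank_top']
      exact le_antisymm (Nat.le_of_dvd Module.finrank_pos (Dvd.intro _ h1)) h
    apply hg
    symm
    apply Subgroup.eq_of_le_of_card_ge
    · rintro _ ⟨a, rfl⟩
      have h5 : (a : K) ∈ L := by rw [h4]; trivial
      obtain ⟨b, hb⟩ := h5
      have hb0 : b ≠ 0 := by
        rintro rfl
        have h6 := hb 1
        rw [zero_mul, map_zero, mul_one] at h6
        exact a.ne_zero h6.symm
      refine ⟨Units.map ((Algebra.lmul F K : K →ₐ[F] Module.End F K) : K →* Module.End F K) (Units.mk0 b hb0), ⟨_, rfl⟩, ?_⟩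
      apply Units.ext
      apply LinearMap.ext
      intro x
      exact hb x
    · apply Nat.card_le_card_of_surjective (fun x : M => (⟨(MulAut.conj g).toMonoidHom x, ⟨x, x.2, rfl⟩⟩ : M.map (MulAut.conj g).toMonoidHom))
      rintro ⟨_, x, hx, rfl⟩
      exact ⟨⟨x, hx⟩, rfl⟩
  · have h1 : Fintype.card F ^ Module.finrank F L - 1 = Nat.card Lˣ := by
      haveI : Fintype L := Fintype.ofFinite _
      rw [Nat.card_eq_fintype_card, Fintype.card_units, Module.card_eq_pow_finrank (K := F) (V := L)]
    rw [h1]
    let ψ : Lˣ →* (Module.End F K)ˣ := (Units.map ((Algebra.lmul F K : K →ₐ[F] Module.End F K) : K →* Module.End F K)).comp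
      (Units.map (algebraMap L K : L →* K))
    have h2 : (M.map (MulAut.conj g).toMonoidHom ⊓ M) ≤ ψ.range := by
      rintro f ⟨⟨f', ⟨b, rfl⟩, hf⟩, ⟨a, rfl⟩⟩
      have h3 : (a : K) ∈ L := by
        refine ⟨b, fun x => ?_⟩
        exact congrArg (fun f : (Module.End F K)ˣ => (f : Module.End F K) x) hf
      have h4 : (⟨(a : K), h3⟩ : L) ≠ 0 := fun h => a.ne_zero (congrArg Subtype.val h)
      refine ⟨Units.mk0 _ h4, ?_⟩
      apply Units.ext
      apply LinearMap.ext
      intro x
      rfl
    exact (Subgroup.card_dvd_of_le h2).trans (Subgroup.card_range_dvd ψ)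

end Cfsg.Agent.S5739
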