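import Cfsg.Statements.S5747

set_option autoImplicit false
open Cfsg

namespace Cfsg.Agent.S5747

section
variable {G Ω : Type*} [Group G] [MulAction G Ω]

/-- each point is moved by the stabiliser of the previous ones -/
def irr : Subgroup G → List Ω → Prop
  | _, [] => True
  | S, a :: l => (∃ g ∈ S, g • a ≠ a) ∧ irr (S ⊓ MulAction.stabilizer G a) l

/-- the pointwise stabiliser -/
def fixl : Subgroup G → List Ω → Subgroup G
  | S, [] => S
  | S, a :: l => fixl (S ⊓ MulAction.stabilizer G a) l

/-- irredundant base -/
def IB (S : Subgroup G) (l : List Ω) : Prop := irr S l ∧ fixl S l = ⊥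

open Classical in
/-- remove the redundant points -/
noncomputable def filt : Subgroup G → List Ω → List Ω
  | _, [] => []
  | S, a :: l => if ∃ g ∈ S, g • a ≠ a then a :: filt (S ⊓ MulAction.stabilizer G a) l else filt S l

theorem mem_fixl (S : Subgroup G) (l : List Ω) (g : G) : g ∈ fixl S l ↔ g ∈ S ∧ ∀ a ∈ l, g • a = a := by
  induction l generalizing S with
  | nil => simp [fixl]
  | cons a l ih =>
    rw [fixl, ih, Subgroup.mem_inf, MulAction.mem_stabilizer_iff]
    simp only [List.mem_cons, forall_eq_or_imp]
    tauto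

theorem fixl_append (S : Subgroup G) (l l' : List Ω) : fixl S (l ++ l') = fixl (fixl S l) l' := by
  induction l generalizing S with
  | nil => rfl
  | cons a l ih => exact ih _

theorem irr_append (S : Subgroup G) (l l' : List Ω) : irr S (l ++ l') ↔ irr S l ∧ irr (fixl S l) l' := by
  induction l generalizing S with
  | nil => simp [irr, fixl]
  | cons a l ih =>
    rw [List.cons_append, irr, ih, irr, fixl]
    tauto

theorem irr_filt (S : Subgroup G) (l : List Ω) : irr S (filt S l) := by
  induction l generalizing S with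
  | nil => trivial
  | cons a l ih =>
    rw [filt]
    split_ifs with h
    · exact ⟨h, ih _⟩
    · exact ih _

theorem fixl_filt (S : Subgroup G) (l : List Ω) : fixl S (filt S l) = fixl S l := by
  induction l generalizing S with
  | nil => rfl
  | cons a l ih =>
    rw [filt]
    split_ifs with h
    · exact ih _
    · rw [ih, fixl]
      congr 1
      symm
      push Not at h
      exact inf_eq_left.2 (fun g hg => h g hg)

theorem filt_length (S : Subgroup G) (l : List Ω) : (filt S l).length ≤ l.length := by
  induction l generalizing S with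
  | nil => simp [filt]
  | cons a l ih =>
    rw [filt]
    split_ifs with h
    · simp only [List.length_cons]
      exact Nat.add_le_add_right (ih _) 1
    · exact le_trans (ih _) (by simp)

theorem filt_eq (S : Subgroup G) (l : List Ω) (h : (filt S l).length = l.length) : filt S l = l := by
  induction l generalizing S with
  | nil => simp [filt]
  | cons a l ih =>
    rw [filt] at h ⊢
    split_ifs with h1
    · rw [if_pos h1] at h
      rw [ih _ (by simpa using h)]
    · rw [if_neg h1] at h
      have := filt_length S l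
      rw [h, List.length_cons] at this
      omega

theorem irr_nodup (S : Subgroup G) (l : List Ω) (h : irr S l) : l.Nodup := by
  have key : ∀ (l : List Ω) (S : Subgroup G) (a : Ω), irr S l → (∀ g ∈ S, g • a = a) → a ∉ l := by
    intro l
    induction l with
    | nil => intro _ _ _ _; simp
    | cons b l ih =>
      rintro S a ⟨⟨g, hg, hgb⟩, h2⟩ h3
      rw [List.mem_cons, not_or]
      refine ⟨?_, ?_⟩
      · rintro rfl
        exact hgb (h3 g hg)
      · exact ih _ a h2 (fun g hg => h3 g hg.1)
  induction l generalizing S with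
  | nil => simp
  | cons a l ih =>
    rw [List.nodup_cons]
    exact ⟨key l _ a h.2 (fun g hg => hg.2), ih _ h.2⟩

theorem fin_iff' (t : ℕ) (S : Subgroup G) (f : Fin t → Ω) :
    ((∀ g ∈ S, (∀ i : Fin t, g • f i = f i) → g = 1) ∧
      ∀ i : Fin t, ∃ g ∈ S, (∀ j : Fin t, j < i → g • f j = f j) ∧ g • f i ≠ f i) ↔ IB S (List.ofFn f) := by
  induction t generalizing S with
  | zero =>
    simp only [List.ofFn_zero, IB, irr, fixl, true_and, Subgroup.eq_bot_iff_forall]
    constructor
    · rintro ⟨h, -⟩ g hg
      exact h g hg (fun i => i.elim0)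
    · intro h
      exact ⟨fun g hg _ => h g hg, fun i => i.elim0⟩
  | succ t ih =>
    have h1 := ih (S ⊓ MulAction.stabilizer G (f 0)) (fun i => f i.succ)
    rw [List.ofFn_succ, IB, irr, fixl, and_assoc, ← IB, ← h1]
    simp only [Fin.forall_fin_succ, Subgroup.mem_inf, MulAction.mem_stabilizer_iff, Fin.succ_lt_succ_iff, Fin.succ_pos,
      true_imp_iff, and_assoc, Fin.not_lt_zero, false_imp_iff, and_imp, forall_const, true_and,
      lt_self_iff_false, implies_true]
    constructor
    · rintro ⟨h2, ⟨g, hg, h3⟩, h4⟩
      exact ⟨⟨g, hg, h3⟩, h2, h4⟩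
    · rintro ⟨⟨g, hg, h3⟩, h2, h4⟩
      exact ⟨h2, ⟨g, hg, h3⟩, h4⟩

theorem fin_iff {t : ℕ} (f : Fin t → Ω) :
    ((∀ g : G, (∀ i : Fin t, g • f i = f i) → g = 1) ∧
      ∀ i : Fin t, ∃ g : G, (∀ j : Fin t, j < i → g • f j = f j) ∧ g • f i ≠ f i) ↔
      IB (⊤ : Subgroup G) (List.ofFn f) := by
  rw [← fin_iff']
  simp

end

/-- Let a finite group G act on a finite set Ω. An irredundant base is a sequence of points ω₁, …, ω_t whose pointwise stabiliser is trivial and in which each ω_i is moved by some element fixing ω₁, …, ω_{i−1}. Then all irredundant bases have the same length if and only if every reordering of an irredundant base is again an irredundant base. -/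
theorem result {G Ω : Type*} [Group G] [Finite G] [MulAction G Ω] [Fintype Ω] :
    (∀ (t t' : ℕ) (f : Fin t → Ω) (f' : Fin t' → Ω), ((∀ g : G, (∀ i : Fin t, g • f i = f i) → g = 1) ∧ ∀ i : Fin t, ∃ g : G, (∀ j : Fin t, j < i → g • f j = f j) ∧ g • f i ≠ f i) → ((∀ g : G, (∀ i : Fin t', g • f' i = f' i) → g = 1) ∧ ∀ i : Fin t', ∃ g : G, (∀ j : Fin t', j < i → g • f' j = f' j) ∧ g • f' i ≠ f' i) → t = t') ↔
    (∀ (t : ℕ) (f : Fin t → Ω) (σ : Equiv.Perm (Fin t)), ((∀ g : G, (∀ i : Fin t, g • f i = f i) → g = 1) ∧ ∀ i : Fin t, ∃ g : G, (∀ j : Fin t, j < i → g • f j = f j) ∧ g • f i ≠ f i) → ((∀ g : G, (∀ i : Fin t, g • (f ∘ σ) i = (f ∘ σ) i) → g = 1) ∧ ∀ i : Fin t, ∃ g : G, (∀ j : Fin t, j < i → g • (f ∘ σ) j = (f ∘ σ) j) ∧ g • (f ∘ σ) i ≠ (f ∘ σ) i)) := by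
  constructor
  · intro h t f σ hf
    have h1 : IB (⊤ : Subgroup G) (List.ofFn f) := (fin_iff f).1 hf
    have h2 : fixl (⊤ : Subgroup G) (List.ofFn (f ∘ σ)) = ⊥ := by
      rw [← h1.2]
      ext g
      rw [mem_fixl, mem_fixl]
      simp only [Function.comp_apply, List.mem_ofFn]
      constructor
      · rintro ⟨hg, h3⟩
        refine ⟨hg, ?_⟩
        rintro _ ⟨i, rfl⟩
        have := h3 _ ⟨σ.symm i, rfl⟩
        simpa using this
      · rintro ⟨hg, h3⟩
        exact ⟨hg, by rintro _ ⟨i, rfl⟩; exact h3 _ ⟨σ i, rfl⟩⟩
    set l' := filt (⊤ : Subgroup G) (List.ofFn (f ∘ σ)) with hl'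
    have h3 : IB (⊤ : Subgroup G) l' := ⟨irr_filt _ _, by rw [hl', fixl_filt, h2]⟩
    have h4 : l'.length = (List.ofFn (f ∘ σ)).length := by
      rw [List.length_ofFn]
      have h5 := h3
      rw [← List.ofFn_get l'] at h5
      exact h _ _ _ _ ((fin_iff _).2 h5) hf
    have h5 := filt_eq _ _ h4
    rw [← hl'] at h5
    rw [h5] at h3
    exact (fin_iff _).2 h3
  · intro h
    classical
    have hperm : ∀ l l' : List Ω, l.Perm l' → IB (⊤ : Subgroup G) l → IB (⊤ : Subgroup G) l' := by
      intro l l' hp hl
      have hnd := irr_nodup _ _ hl.1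
      have hnd' := hp.nodup_iff.1 hnd
      let σ : Equiv.Perm (Fin l.length) := (finCongr hp.length_eq).trans ((List.Nodup.getEquiv l' hnd').trans
        ((Equiv.subtypeEquivRight (fun x => (hp.mem_iff (a := x)).symm)).trans (List.Nodup.getEquiv l hnd).symm))
      have hσ : ∀ i, l.get (σ i) = l'.get (Fin.cast hp.length_eq i) := by
        intro i
        have h1 : (List.Nodup.getEquiv l hnd (σ i)).1 = l'.get (Fin.cast hp.length_eq i) := by
          simp [σ]
        exact h1
      have h1 : List.ofFn (l.get ∘ σ) = l' := by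
        apply List.ext_get
        · rw [List.length_ofFn, hp.length_eq]
        · intro n h1 h2
          rw [List.get_ofFn]
          exact hσ _
      rw [← h1]
      apply (fin_iff _).1
      apply h _ _ σ
      apply (fin_iff _).2
      rw [List.ofFn_get]
      exact hl
    have key : ∀ w : List Ω, IB (⊤ : Subgroup G) w → ∀ p : List Ω, irr (⊤ : Subgroup G) p →
        ∃ l, IB (⊤ : Subgroup G) (p ++ l) ∧ (p ++ l).length ≤ w.length := by
      intro w hw p
      induction p using List.reverseRecOn with
      | nil => intro _; exact ⟨w, hw, le_rfl⟩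
      | append_singleton p a ih =>
        intro hp
        rw [irr_append] at hp
        obtain ⟨l, hl, hlen⟩ := ih hp.1
        set l1 := filt (fixl (⊤ : Subgroup G) (p ++ [a])) l with hl1
        have h1 : IB (⊤ : Subgroup G) (p ++ [a] ++ l1) := by
          refine ⟨?_, ?_⟩
          · rw [irr_append, irr_append]
            exact ⟨hp, irr_filt _ _⟩
          · rw [fixl_append, hl1, fixl_filt, ← fixl_append, ← le_bot_iff, ← hl.2]
            intro g hg
            rw [mem_fixl] at hg ⊢
            refine ⟨hg.1, fun x hx => hg.2 x ?_⟩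
            rw [List.mem_append] at hx
            rcases hx with hx | hx
            · simp [hx]
            · simp [hx]
        refine ⟨l1, h1, ?_⟩
        have h2 := filt_length (fixl (⊤ : Subgroup G) (p ++ [a])) l
        rw [← hl1] at h2
        rcases Nat.lt_or_ge l1.length l.length with h3 | h3
        · simp only [List.length_append, List.length_singleton] at hlen ⊢
          omega
        · exfalso
          have h4 := filt_eq _ _ (le_antisymm h2 h3)
          rw [← hl1] at h4
          rw [h4] at h1
          have h5 : IB (⊤ : Subgroup G) (p ++ l ++ [a]) := by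
            refine hperm _ _ ?_ h1
            rw [List.append_assoc, List.append_assoc]
            exact List.Perm.append_left p List.perm_append_comm
          have h6 := h5.1
          rw [irr_append] at h6
          obtain ⟨g, hg, hga⟩ := h6.2.1
          rw [hl.2, Subgroup.mem_bot] at hg
          rw [hg, one_smul] at hga
          exact hga rfl
    intro t t' f f' hf hf'
    have h1 := (fin_iff f).1 hf
    have h2 := (fin_iff f').1 hf'
    obtain ⟨l, -, h3⟩ := key _ h1 _ h2.1
    obtain ⟨l', -, h4⟩ := key _ h2 _ h1.1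
    rw [List.length_append, List.length_ofFn, List.length_ofFn] at h3 h4
    omega

end Cfsg.Agent.S5747
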