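import Cfsg.Statements.S5754

set_option autoImplicit false
open Cfsg

namespace Cfsg.Agent.S5754

/-- Let V be a finite-dimensional vector space over a finite field F carrying an anisotropic quadratic form Q (Q(v) = 0 only for v = 0). Then the group of all maps v ↦ φ(v) + c, with φ an isometry of Q and c ∈ V, acts on V as a binary permutation group: given n ≥ 2 and two n-tuples u, u' of vectors such that every pair of corresponding entries of u is carried to that of u' by such a map, one such map carries u to u'. -/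
theorem result {F V : Type*} [Field F] [Finite F] [AddCommGroup V] [Module F V] [Module.Finite F V]
    (Q : QuadraticForm F V) (hQ : Q.Anisotropic) (n : ℕ) (hn : 2 ≤ n) (u u' : Fin n → V)
    (h2 : ∀ i j : Fin n, i ≠ j → ∃ (φ : Q.IsometryEquiv Q) (c : V), φ (u i) + c = u' i ∧ φ (u j) + c = u' j) :
    ∃ (φ : Q.IsometryEquiv Q) (c : V), ∀ i, φ (u i) + c = u' i := by
  classical
  -- the reflections
  have hrefl : ∀ v : V, Q v ≠ 0 → ∃ φ : Q.IsometryEquiv Q, ∀ x, φ x = x - ((Q v)⁻¹ * QuadraticMap.polar Q v x) • v := by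
    intro v hv
    let T : V →ₗ[F] V := LinearMap.id - ((Q v)⁻¹ • QuadraticMap.polarBilin Q v).smulRight v
    have hT : ∀ x, T x = x - ((Q v)⁻¹ * QuadraticMap.polar Q v x) • v := by
      intro x
      simp [T, smul_smul]
    have hQT : ∀ x, Q (T x) = Q x := by
      intro x
      rw [hT, sub_eq_add_neg, ← neg_smul, QuadraticMap.map_add Q, QuadraticMap.map_smul Q, QuadraticMap.polar_smul_right,
        QuadraticMap.polar_comm Q x v]
      simp only [smul_eq_mul]
      field_simp
      ring
    have hTT : ∀ x, T (T x) = x := by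
      intro x
      rw [hT (T x), hT x, QuadraticMap.polar_sub_right, QuadraticMap.polar_smul_right, QuadraticMap.polar_self, smul_eq_mul]
      rw [sub_sub, ← add_smul]
      have : ((Q v)⁻¹ * QuadraticMap.polar Q v x) + (Q v)⁻¹ * (QuadraticMap.polar Q v x - (Q v)⁻¹ * QuadraticMap.polar Q v x * (2 • Q v)) = 0 := by
        rw [two_nsmul]
        field_simp
        ring
      rw [this, zero_smul, sub_zero]
    exact ⟨⟨LinearEquiv.ofLinear T T (LinearMap.ext hTT) (LinearMap.ext hTT), hQT⟩, hT⟩
  -- extension
  have hext : ∀ (m : ℕ) (v v' : Fin m → V), (∀ i, Q (v i) = Q (v' i)) →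
      (∀ i j, QuadraticMap.polar Q (v i) (v j) = QuadraticMap.polar Q (v' i) (v' j)) →
      ∃ φ : Q.IsometryEquiv Q, ∀ i, φ (v i) = v' i := by
    intro m
    induction m with
    | zero => exact fun v v' _ _ => ⟨QuadraticMap.IsometryEquiv.refl Q, fun i => i.elim0⟩
    | succ m ih =>
      intro v v' h1 h2
      obtain ⟨φ, hφ⟩ := ih (fun i => v i.castSucc) (fun i => v' i.castSucc) (fun i => h1 _) (fun i j => h2 _ _)
      obtain ⟨x, hx⟩ : ∃ x, x = φ (v (Fin.last m)) := ⟨_, rfl⟩
      obtain ⟨y, hy⟩ : ∃ y, y = v' (Fin.last m) := ⟨_, rfl⟩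
      have hpol : ∀ a b, QuadraticMap.polar Q (φ a) (φ b) = QuadraticMap.polar Q a b := by
        intro a b
        simp only [QuadraticMap.polar]
        rw [← map_add, φ.map_app, φ.map_app, φ.map_app]
      have hQxy : Q x = Q y := by rw [hx, hy, φ.map_app]; exact h1 _
      by_cases hxy : x = y
      · refine ⟨φ, fun i => ?_⟩
        refine Fin.lastCases ?_ (fun i => hφ i) i
        rw [← hx, hxy, hy]
      · have hu : Q (x - y) ≠ 0 := fun h => hxy (sub_eq_zero.1 (hQ _ h))
        obtain ⟨ψ, hψ⟩ := hrefl (x - y) hu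
        refine ⟨φ.trans ψ, fun i => ?_⟩
        change ψ (φ (v i)) = v' i
        refine Fin.lastCases ?_ (fun i => ?_) i
        · rw [← hx, ← hy, hψ]
          have h3 : QuadraticMap.polar Q (x - y) x = Q (x - y) := by
            have e1 : Q (x - y) = Q x + Q y - QuadraticMap.polar Q x y := by
              rw [sub_eq_add_neg, QuadraticMap.map_add Q, QuadraticMap.map_neg, QuadraticMap.polar_neg_right]
              ring
            rw [e1, QuadraticMap.polar_sub_left, QuadraticMap.polar_self, two_nsmul, QuadraticMap.polar_comm Q y x, ← hQxy]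
          rw [h3, inv_mul_cancel₀ hu, one_smul]
          abel
        · rw [hφ, hψ]
          have h3 : QuadraticMap.polar Q (x - y) (v' i.castSucc) = 0 := by
            rw [QuadraticMap.polar_sub_left, hx, hy, ← hφ i, hpol, h2, hφ i, sub_self]
          rw [h3, mul_zero, zero_smul, sub_zero]
  have hQd : ∀ i j, Q (u i - u j) = Q (u' i - u' j) := by
    intro i j
    by_cases hij : i = j
    · rw [hij, sub_self, sub_self]
    · obtain ⟨φ, c, h3, h4⟩ := h2 i j hij
      rw [← h3, ← h4, add_sub_add_right_eq_sub, ← map_sub, φ.map_app]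
  obtain ⟨φ, hφ⟩ := hext n (fun i => u i - u ⟨0, by omega⟩) (fun i => u' i - u' ⟨0, by omega⟩) (fun i => hQd _ _) (by
    intro i j
    have key : ∀ a b : V, QuadraticMap.polar Q a b = Q a + Q b - Q (a - b) := by
      intro a b
      have e1 : Q (a - b) = Q a + Q b - QuadraticMap.polar Q a b := by
        rw [sub_eq_add_neg, QuadraticMap.map_add Q, QuadraticMap.map_neg, QuadraticMap.polar_neg_right]
        ring
      rw [e1]
      ring
    rw [key, key, hQd i, hQd j, sub_sub_sub_cancel_right, sub_sub_sub_cancel_right, hQd i j])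
  refine ⟨φ, u' ⟨0, by omega⟩ - φ (u ⟨0, by omega⟩), fun i => ?_⟩
  have h3 := hφ i
  simp only at h3
  rw [map_sub] at h3
  have h4 : φ (u i) = (u' i - u' ⟨0, by omega⟩) + φ (u ⟨0, by omega⟩) := by rw [← h3]; abel
  rw [h4]
  abel

end Cfsg.Agent.S5754
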