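import Cfsg.Statements.S5885

set_option autoImplicit false
open Cfsg
open scoped Pointwise

namespace Cfsg.Agent.S5885

theorem coatom_iff {G : Type*} [Group G] {H K : Subgroup G} (hHK : H ≤ K) :
    IsCoatom (H.subgroupOf K) ↔ H ≠ K ∧ ∀ L : Subgroup G, H ≤ L → L ≤ K → L = H ∨ L = K := by
  constructor
  · intro h
    refine ⟨fun e => h.1 (by rw [e]; exact Subgroup.subgroupOf_self K), fun L h1 h2 => ?_⟩
    rcases h.le_iff.1 (show H.subgroupOf K ≤ L.subgroupOf K from fun x hx => h1 hx) with e | e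
    · right
      exact le_antisymm h2 (Subgroup.subgroupOf_eq_top.1 e)
    · left
      have := congrArg (Subgroup.map K.subtype) e
      rw [Subgroup.subgroupOf_map_subtype, Subgroup.subgroupOf_map_subtype, inf_eq_left.2 h2,
        inf_eq_left.2 hHK] at this
      exact this
  · rintro ⟨h1, h2⟩
    refine ⟨fun e => h1 (le_antisymm hHK (Subgroup.subgroupOf_eq_top.1 e)), fun L hL => ?_⟩
    have h3 : H ≤ L.map K.subtype := fun x hx => ⟨⟨x, hHK hx⟩, hL.le hx, rfl⟩
    have h4 : L.map K.subtype ≤ K := by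
      rintro _ ⟨y, -, rfl⟩
      exact y.2
    rcases h2 _ h3 h4 with e | e
    · exfalso
      apply hL.ne
      rw [← e]
      ext x
      simp [Subgroup.mem_subgroupOf]
    · rw [eq_top_iff]
      intro x _
      have : (x : G) ∈ L.map K.subtype := by rw [e]; exact x.2
      obtain ⟨y, hy, hyx⟩ := this
      have : y = x := Subtype.ext hyx
      rwa [← this]

theorem core {G Ω : Type*} [Group G] [MulAction G Ω] [Finite Ω] (hodd : Odd (Nat.card Ω))
    (htr : ∀ x y : Ω, ∃ g : G, g • x = y)
    (h3 : ∀ x y z : Ω, x ≠ y → y ≠ z → x ≠ z → ∃ g : G, g • x = y ∧ g • y = z ∧ g • z = x ∧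
      ∀ w, w ≠ x → w ≠ y → w ≠ z → g • w = w)
    (a : Ω) (S : Subgroup G) (hS : ∀ g, g ∈ S ↔ g • a = a) (hM : IsCoatom S) (H : Subgroup G)
    (hHM : H ≤ S) (hmax : ∀ L : Subgroup G, H ≤ L → L ≤ S → L = H ∨ L = S) (hHS : H ≠ S)
    (K : Subgroup G) (hK : IsCoatom K) (hHK : H ≤ K) (hKS : K ≠ S) :
    H ≠ K ∧ ∀ L : Subgroup G, H ≤ L → L ≤ K → L = H ∨ L = K := by
  have n1 : ¬ K ≤ S := by
    intro h
    rcases hK.le_iff.1 h with e | e
    · exact hM.1 e
    · exact hKS e.symm
  have n2 : ¬ S ≤ K := by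
    intro h
    rcases hM.le_iff.1 h with e | e
    · exact hK.1 e
    · exact hKS e
  have hKH : ∀ g, g ∈ K → g • a = a → g ∈ H := by
    intro g hg hga
    rcases hmax (K ⊓ S) (le_inf hHK hHM) inf_le_right with e | e
    · rw [← e]; exact ⟨hg, (hS g).2 hga⟩
    · exact absurd (inf_eq_right.1 e) n2
  refine ⟨fun e => n1 (e ▸ hHM), fun L hHL hLK => ?_⟩
  by_contra hcon
  push Not at hcon
  obtain ⟨hLH, hLK'⟩ := hcon
  obtain ⟨l, hl, hlH⟩ : ∃ l ∈ L, l ∉ H := by
    by_contra hc
    push Not at hc
    exact hLH (le_antisymm hc hHL)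
  obtain ⟨k, hk, hkL⟩ : ∃ k ∈ K, k ∉ L := by
    by_contra hc
    push Not at hc
    exact hLK' (le_antisymm hLK hc)
  have hla : l • a ≠ a := fun h => hlH (hKH l (hLK hl) h)
  -- block property
  have hblock : ∀ g ∈ K, ∀ l1 ∈ L, ∀ l2 ∈ L, g • (l1 • a) = l2 • a → g ∈ L := by
    intro g hg l1 h1 l2 h2 h
    have h4 : (l2⁻¹ * g * l1) • a = a := by
      rw [mul_smul, mul_smul, h, inv_smul_smul]
    have h5 := hHL (hKH _ (K.mul_mem (K.mul_mem (K.inv_mem (hLK h2)) hg) (hLK h1)) h4)
    have h6 := L.mul_mem (L.mul_mem h2 h5) (L.inv_mem h1)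
    convert h6 using 1
    group
  have hka : ∀ l2 ∈ L, k • a ≠ l2 • a := by
    intro l2 h2 h
    exact hkL (hblock k hk 1 L.one_mem l2 h2 (by rw [one_smul]; exact h))
  have hkla : ∀ l1 ∈ L, ∀ l2 ∈ L, k • (l1 • a) ≠ l2 • a := by
    intro l1 h1 l2 h2 h
    exact hkL (hblock k hk l1 h1 l2 h2 h)
  by_cases hKt : ∀ w : Ω, ∃ g ∈ K, g • a = w
  · -- K transitive
    let B : Set Ω := {x | ∃ g ∈ L, g • a = x}
    have hBfin : B.Finite := Set.toFinite _
    have haB : a ∈ B := ⟨1, L.one_mem, one_smul _ _⟩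
    have hHB : H ≤ MulAction.stabilizer G B := by
      intro h hh
      rw [MulAction.mem_stabilizer_set' hBfin]
      rintro x ⟨l1, h1, rfl⟩
      exact ⟨h * l1, L.mul_mem (hHL hh) h1, mul_smul _ _ _⟩
    have hN : (S ⊓ MulAction.stabilizer G B) = H := by
      rcases hmax (S ⊓ MulAction.stabilizer G B) (le_inf hHM hHB) inf_le_left with e | e
      · exact e
      · exfalso
        obtain ⟨g, g1, g2, g3, g4⟩ := h3 (l • a) (k • a) (k • (l • a)) (fun h => hka l hl h.symm)
          (fun h => hla (MulAction.injective k h).symm)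
          (fun h => hkla l hl l hl h.symm)
        have hgS : g ∈ S := by
          rw [hS]
          apply g4 a (fun h => hla h.symm)
          · intro h; exact hka 1 L.one_mem (by rw [one_smul]; exact h.symm)
          · intro h; exact hkla l hl 1 L.one_mem (by rw [one_smul]; exact h.symm)
        rw [← e] at hgS
        have h5 := (MulAction.mem_stabilizer_set' hBfin).1 hgS.2 (show l • a ∈ B from ⟨l, hl, rfl⟩)
        rw [g1] at h5
        obtain ⟨l', hl', h6⟩ := h5
        exact hka l' hl' h6.symm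
    obtain ⟨u, hu1, hu2⟩ : ∃ u : Ω, u ∉ B ∧ u ∉ k • B := by
      by_contra hc
      push Not at hc
      have hU : B ∪ k • B = Set.univ := by
        ext x
        simp only [Set.mem_union, Set.mem_univ, iff_true]
        by_cases hx : x ∈ B
        · left; exact hx
        · right; exact hc x hx
      have hD : Disjoint B (k • B) := by
        rw [Set.disjoint_left]
        rintro x ⟨l1, h1, rfl⟩ hx
        rw [Set.mem_smul_set] at hx
        obtain ⟨y, ⟨l2, h2, rfl⟩, hy⟩ := hx
        exact hkla l2 h2 l1 h1 hy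
      have hcard : Nat.card Ω = B.ncard + B.ncard := by
        rw [← Set.ncard_univ, ← hU, Set.ncard_union_eq hD hBfin (Set.toFinite _)]
        congr 1
        exact Set.ncard_image_of_injective _ (MulAction.injective k)
      rw [hcard] at hodd
      exact (Nat.not_even_iff_odd.2 hodd) ⟨_, rfl⟩
    have hku : ∀ l1 ∈ L, k • (l1 • a) ≠ u := by
      intro l1 h1 h
      apply hu2
      rw [Set.mem_smul_set]
      exact ⟨l1 • a, ⟨l1, h1, rfl⟩, h⟩
    obtain ⟨g, g1, g2, g3, g4⟩ := h3 (k • a) (k • (l • a)) u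
      (fun h => hla (MulAction.injective k h).symm) (hku l hl)
      (fun h => hku 1 L.one_mem (by rw [one_smul]; exact h))
    have hgH : g ∈ H := by
      rw [← hN]
      have key : ∀ l1 ∈ L, g • (l1 • a) = l1 • a := by
        intro l1 h1
        apply g4
        · intro h; exact hka l1 h1 h.symm
        · intro h; exact hkla l hl l1 h1 h.symm
        · intro h; exact hu1 ⟨l1, h1, h⟩
      refine Subgroup.mem_inf.2 ⟨(hS g).2 ?_, ?_⟩
      · have := key 1 L.one_mem
        rwa [one_smul] at this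
      · rw [MulAction.mem_stabilizer_set' hBfin]
        rintro x ⟨l1, h1, rfl⟩
        rw [key l1 h1]
        exact ⟨l1, h1, rfl⟩
    have hgK := hHK hgH
    have h5 : (k⁻¹ * g * k) ∈ L := by
      apply hblock _ (K.mul_mem (K.mul_mem (K.inv_mem hk) hgK) hk) 1 L.one_mem l hl
      rw [one_smul, mul_smul, mul_smul, g1, inv_smul_smul]
    apply hku (k⁻¹ * g * k * l) (L.mul_mem h5 hl)
    rw [← g2, mul_smul, mul_smul, mul_smul, smul_inv_smul]
  · -- K intransitive
    push Not at hKt
    obtain ⟨w, hw⟩ := hKt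
    let D : Set Ω := {x | ∃ g ∈ K, g • a = x}
    have hDfin : D.Finite := Set.toFinite _
    have hKD : K ≤ MulAction.stabilizer G D := by
      intro g hg
      rw [MulAction.mem_stabilizer_set' hDfin]
      rintro x ⟨g1, h1, rfl⟩
      exact ⟨g * g1, K.mul_mem hg h1, mul_smul _ _ _⟩
    have hst : MulAction.stabilizer G D = K := by
      rcases hK.le_iff.1 hKD with e | e
      · exfalso
        obtain ⟨g, hg⟩ := htr a w
        have h5 : g ∈ MulAction.stabilizer G D := by rw [e]; trivial
        have h6 := (MulAction.mem_stabilizer_set' hDfin).1 h5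
          (show a ∈ D from ⟨1, K.one_mem, one_smul _ _⟩)
        rw [hg] at h6
        obtain ⟨g', hg', h7⟩ := h6
        exact hw g' hg' h7
      · exact e
    obtain ⟨g, g1, g2, g3, g4⟩ := h3 a (l • a) (k • a) hla.symm (fun h => hka l hl h.symm)
      (fun h => hka 1 L.one_mem (by rw [one_smul]; exact h.symm))
    have hgK : g ∈ K := by
      rw [← hst, MulAction.mem_stabilizer_set' hDfin]
      intro x hx
      by_cases e1 : x = a
      · rw [e1, g1]; exact ⟨l, hLK hl, rfl⟩
      by_cases e2 : x = l • a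
      · rw [e2, g2]; exact ⟨k, hk, rfl⟩
      by_cases e3 : x = k • a
      · rw [e3, g3]; exact ⟨1, K.one_mem, one_smul _ _⟩
      rw [g4 x e1 e2 e3]
      exact hx
    have hgL : g ∈ L := hblock g hgK 1 L.one_mem l hl (by rw [one_smul]; exact g1)
    apply hka (g * l) (L.mul_mem hgL hl)
    rw [mul_smul, g2]

/-- Let n be an odd positive integer such that every primitive permutation group of degree n contains the alternating group (so the symmetric and alternating groups are the only primitive groups of degree n). Let G be a finite group, M a maximal subgroup of G of index n, and H a maximal subgroup of M. Then H is a second maximal subgroup of G: H is maximal in every maximal subgroup K of G containing H. -/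
theorem result {G : Type*} [Group G]
    [Finite G] (n : ℕ) (hodd : Odd n)
    (hA : ∀ P : Subgroup (Equiv.Perm (Fin n)), MulAction.IsPreprimitive P (Fin n) → alternatingGroup (Fin n) ≤ P)
    (M : Subgroup G) (hM : IsCoatom M) (hn : M.index = n) (H : Subgroup G) (hHM : H ≤ M)
    (hmax : IsCoatom (H.subgroupOf M)) (K : Subgroup G) (hK : IsCoatom K) (hHK : H ≤ K) :
    IsCoatom (H.subgroupOf K) := by
  classical
  by_cases hKM : K = M
  · rw [hKM]; exact hmax
  rw [coatom_iff hHM] at hmax
  rw [coatom_iff hHK]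
  have hfin : Finite (G ⧸ M) := inferInstance
  have hcard : Nat.card (G ⧸ M) = n := hn
  have hS : ∀ g : G, g ∈ M ↔ g • ((1 : G) : G ⧸ M) = ((1 : G) : G ⧸ M) := by
    intro g
    conv_lhs => rw [← MulAction.stabilizer_quotient M]
    rfl
  have hnt : Nontrivial (G ⧸ M) := by
    rw [← Finite.one_lt_card_iff_nontrivial]
    have h1 : M.index ≠ 1 := fun h => hM.1 (Subgroup.index_eq_one.1 h)
    have h2 : M.index ≠ 0 := Subgroup.index_ne_zero_of_finite
    have h3 : Nat.card (G ⧸ M) = M.index := rfl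
    omega
  have hprim : MulAction.IsPreprimitive G (G ⧸ M) := by
    rw [← MulAction.isCoatom_stabilizer_iff_preprimitive G (((1 : G) : G ⧸ M)), MulAction.stabilizer_quotient]
    exact hM
  -- transport to Fin n
  obtain ⟨e⟩ : Nonempty ((G ⧸ M) ≃ Fin n) := by
    rw [← hcard]; exact ⟨Finite.equivFin _⟩
  let f : G →* Equiv.Perm (Fin n) := (e.permCongrHom.toMonoidHom).comp (MulAction.toPermHom G (G ⧸ M))
  have hf : ∀ g x, f g (e x) = e (g • x) := by
    intro g x
    simp [f, Equiv.permCongrHom, MulAction.toPermHom]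
  have hP : MulAction.IsPreprimitive f.range (Fin n) := by
    let φ : G → f.range := fun g => ⟨f g, g, rfl⟩
    let F : (G ⧸ M) →ₑ[φ] (Fin n) := ⟨e, fun g x => (hf g x).symm⟩
    exact MulAction.IsPreprimitive.of_surjective (f := F) e.surjective
  have hAn := hA _ hP
  refine core (Ω := G ⧸ M) (by rw [hcard]; exact hodd) (fun x y => MulAction.exists_smul_eq G x y) ?_
    (((1 : G) : G ⧸ M)) M hS hM H hHM hmax.2 hmax.1 K hK hHK hKM
  intro x y z hxy hyz hxz
  have hex : e x ≠ e y := fun h => hxy (e.injective h)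
  have hey : e y ≠ e z := fun h => hyz (e.injective h)
  have hexz : e x ≠ e z := fun h => hxz (e.injective h)
  have hc : Equiv.swap (e x) (e y) * Equiv.swap (e y) (e z) ∈ alternatingGroup (Fin n) := by
    rw [Equiv.Perm.mem_alternatingGroup, Equiv.Perm.sign_mul, Equiv.Perm.sign_swap hex,
      Equiv.Perm.sign_swap hey]
    rfl
  obtain ⟨g, hg⟩ := hAn hc
  refine ⟨g, ?_, ?_, ?_, ?_⟩
  · apply e.injective
    rw [← hf, hg, Equiv.Perm.mul_apply, Equiv.swap_apply_of_ne_of_ne hex hexz, Equiv.swap_apply_left]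
  · apply e.injective
    rw [← hf, hg, Equiv.Perm.mul_apply, Equiv.swap_apply_left,
      Equiv.swap_apply_of_ne_of_ne hexz.symm hey.symm]
  · apply e.injective
    rw [← hf, hg, Equiv.Perm.mul_apply, Equiv.swap_apply_right, Equiv.swap_apply_right]
  · intro w h1 h2 h3
    apply e.injective
    have i1 : e w ≠ e x := fun h => h1 (e.injective h)
    have i2 : e w ≠ e y := fun h => h2 (e.injective h)
    have i3 : e w ≠ e z := fun h => h3 (e.injective h)
    rw [← hf, hg, Equiv.Perm.mul_apply, Equiv.swap_apply_of_ne_of_ne i2 i3,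
      Equiv.swap_apply_of_ne_of_ne i1 i2]

end Cfsg.Agent.S5885
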