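import Cfsg.Statements.S5895
import Cfsg.Agent.H9.MinIrr

set_option autoImplicit false
open Cfsg

namespace Cfsg.Agent.S5895

/-- For every prime p and every d ≥ 2 there is a finite group G with a maximal subgroup M of index p^d and a maximal subgroup H of M that is not second maximal in G: some maximal subgroup K of G contains H without H being maximal in K. (One may take G the affine group V ⋊ GL(V) of V = 𝔽_p^d, M = GL(V), H the stabiliser in M of a line W of V, and K = V ⋊ H, with H < W ⋊ H < K.) So the prime-index hypothesis in the second-maximality criterion cannot be relaxed to prime-power index. -/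
theorem result (p d : ℕ) (hp : p.Prime)
    (hd : 2 ≤ d) :
    ∃ (G : Type) (_ : Group G) (_ : Finite G) (M H K : Subgroup G), IsCoatom M ∧ M.index = p ^ d ∧ H ≤ M ∧
      IsCoatom (H.subgroupOf M) ∧ IsCoatom K ∧ H ≤ K ∧ ¬ IsCoatom (H.subgroupOf K) := by
  have _i : Fact p.Prime := ⟨hp⟩
  have hcard : Nat.card (GaloisField p d) = p ^ d := GaloisField.card p d (by omega)
  have hfin : Finite (GaloisField p d) := Nat.finite_of_card_ne_zero (by rw [hcard]; exact pow_ne_zero _ hp.ne_zero)
  rw [← hcard]
  apply Cfsg.Agent.H9.MinIrr.field_case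
  refine ⟨Subgroup.zpowers (Multiplicative.ofAdd (1 : GaloisField p d)), ?_, ?_⟩
  · rw [Subgroup.zpowers_ne_bot]
    intro h
    exact one_ne_zero (α := GaloisField p d) h
  · intro h
    have h1 : Nat.card (Subgroup.zpowers (Multiplicative.ofAdd (1 : GaloisField p d))) = p ^ d := by
      rw [h, Subgroup.card_top]; exact hcard
    rw [Nat.card_zpowers] at h1
    have h2 : (Multiplicative.ofAdd (1 : GaloisField p d)) ^ p = 1 := by
      rw [← ofAdd_nsmul]
      have : p • (1 : GaloisField p d) = 0 := by rw [nsmul_eq_mul, CharP.cast_eq_zero, zero_mul]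
      rw [this]; rfl
    have h3 := Nat.le_of_dvd hp.pos (orderOf_dvd_of_pow_eq_one h2)
    rw [h1] at h3
    have h4 : p ^ 2 ≤ p ^ d := Nat.pow_le_pow_right hp.pos hd
    have h5 : p < p ^ 2 := by rw [pow_two]; exact (Nat.lt_mul_self_iff).2 hp.one_lt
    omega

end Cfsg.Agent.S5895
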