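import Cfsg.Statements.S5902
import Cfsg.Agent.S5901

set_option autoImplicit false
open Cfsg

namespace Cfsg.Agent.S5902

/-- Let G be a finite group, X a subgroup whose own subgroup lattice is complemented, and suppose X lies in exactly one maximal subgroup M of G. Then every subgroup H of G not contained in the normal core of M has a complement in the subgroup lattice of G (some C with H ⊔ C = G and H ⊓ C = 1); in particular the subgroup lattice of G modulo the normal core of M is complemented. -/
theorem result {G : Type*} [Group G] [Finite G] (X M : Subgroup G)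
    (hK : ComplementedLattice (Subgroup X))
    (hM : IsCoatom M) (hXM : X ≤ M) (huniq : ∀ M' : Subgroup G, IsCoatom M' → X ≤ M' → M' = M) :
    (∀ H : Subgroup G, ¬ H ≤ M.normalCore → ∃ C : Subgroup G, H ⊔ C = ⊤ ∧ H ⊓ C = ⊥) ∧
    ComplementedLattice (Subgroup (G ⧸ M.normalCore)) := by
  have key : ∀ H : Subgroup G, ¬ H ≤ M.normalCore → ∃ C : Subgroup G, H ⊔ C = ⊤ ∧ H ⊓ C = ⊥ := by
    intro H hH
    obtain ⟨h, hh, hhM⟩ := SetLike.not_le_iff_exists.1 hH
    obtain ⟨g, hg⟩ : ∃ g : G, g * h * g⁻¹ ∉ M := by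
      by_contra hcon
      push Not at hcon
      exact hhM hcon
    let e : Subgroup G ≃o Subgroup G := (MulAut.conj g).mapSubgroup
    obtain ⟨C, h1, h2⟩ := Cfsg.Agent.S5901.result (⊥ : Subgroup G) X M bot_le
      (by rintro rfl; exact hM.1 (top_le_iff.1 hXM)) (by
        intro Y _ hY
        obtain ⟨D, hD⟩ := hK.exists_isCompl (Y.subgroupOf X)
        refine ⟨D.map X.subtype, bot_le, Subgroup.map_subtype_le D, ?_, ?_⟩
        · have h3 := congrArg (Subgroup.map X.subtype) hD.sup_eq_top
          rw [Subgroup.map_sup, Subgroup.map_subgroupOf_eq_of_le hY, ← MonoidHom.range_eq_map, Subgroup.range_subtype] at h3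
          exact h3
        · have h3 := congrArg (Subgroup.map X.subtype) hD.inf_eq_bot
          rw [Subgroup.map_inf _ _ _ X.subtype_injective, Subgroup.map_subgroupOf_eq_of_le hY, Subgroup.map_bot] at h3
          exact h3) hM hXM huniq (e H) (by
        intro h3
        exact hg (h3 ⟨h, hh, rfl⟩)) (by rw [inf_bot_eq])
    refine ⟨e.symm C, ?_, ?_⟩
    · apply e.injective
      rw [map_sup, e.apply_symm_apply, h1, map_top]
    · apply e.injective
      rw [map_inf, e.apply_symm_apply, h2, map_bot]
  refine ⟨key, ⟨fun Hb => ?_⟩⟩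
  let π := QuotientGroup.mk' M.normalCore
  have hker : π.ker = M.normalCore := QuotientGroup.ker_mk' _
  have hπ : Function.Surjective π := QuotientGroup.mk'_surjective _
  by_cases hb : Hb = ⊥
  · exact ⟨⊤, by rw [hb]; exact isCompl_bot_top⟩
  have h1 : ¬ Hb.comap π ≤ M.normalCore := by
    intro h2
    apply hb
    rw [eq_bot_iff]
    intro x hx
    obtain ⟨y, rfl⟩ := hπ x
    have h3 := h2 (show y ∈ Hb.comap π from hx)
    rw [← hker] at h3
    exact h3
  obtain ⟨C, hC1, hC2⟩ := key _ h1
  refine ⟨C.map π, ?_, ?_⟩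
  · rw [disjoint_iff, eq_bot_iff]
    rintro x ⟨hx1, ⟨c, hc, rfl⟩⟩
    have h2 : c ∈ Hb.comap π ⊓ C := ⟨hx1, hc⟩
    rw [hC2, Subgroup.mem_bot] at h2
    rw [h2, map_one]
    exact one_mem _
  · rw [codisjoint_iff]
    have h2 := congrArg (Subgroup.map π) hC1
    rw [Subgroup.map_sup, Subgroup.map_comap_eq_self_of_surjective hπ, ← MonoidHom.range_eq_map, MonoidHom.range_eq_top.2 hπ] at h2
    exact h2

end Cfsg.Agent.S5902
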