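import Cfsg.Statements.S5903
import Cfsg.Agent.S5901

set_option autoImplicit false
open Cfsg

namespace Cfsg.Agent.S5903

/-- Let G be a finite simple group, X a subgroup lying in exactly one maximal subgroup M of G, and N a subgroup of prime order with N ≤ X that is central in M. If the subgroup lattice of X/N is complemented, then the subgroup lattice of G is complemented. -/
theorem result {G : Type*} [Group G] [Finite G] [IsSimpleGroup G] (X M N : Subgroup G)
    (hM : IsCoatom M) (hXM : X ≤ M) (huniq : ∀ M' : Subgroup G, IsCoatom M' → X ≤ M' → M' = M)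
    (hNX : N ≤ X) (hN : (Nat.card N).Prime) (hcen : ∀ n ∈ N, ∀ m ∈ M, m * n = n * m)
    [(N.subgroupOf X).Normal] (hK : ComplementedLattice (Subgroup (X ⧸ N.subgroupOf X))) :
    ComplementedLattice (Subgroup G) := by
  have hMtop := hM.1
  have hcore : M.normalCore = ⊥ := by
    rcases Subgroup.Normal.eq_bot_or_eq_top (Subgroup.normalCore_normal M) with h | h
    · exact h
    · exact absurd (top_le_iff.1 (h ▸ M.normalCore_le)) hMtop
  have hNbot : N ≠ ⊥ := by
    rintro rfl
    rw [Subgroup.card_bot] at hN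
    exact Nat.not_prime_one hN
  -- the interval
  have hint : ∀ Y : Subgroup G, N ≤ Y → Y ≤ X → ∃ C : Subgroup G, N ≤ C ∧ C ≤ X ∧ Y ⊔ C = X ∧ Y ⊓ C = N := by
    intro Y hNY hYX
    let π := QuotientGroup.mk' (N.subgroupOf X)
    have hπ : Function.Surjective π := QuotientGroup.mk'_surjective _
    have hker : π.ker = N.subgroupOf X := QuotientGroup.ker_mk' _
    obtain ⟨D, hD⟩ := hK.exists_isCompl ((Y.subgroupOf X).map π)
    have hNs : N.subgroupOf X ≤ Y.subgroupOf X := fun x hx => hNY hx
    have hYs : ((Y.subgroupOf X).map π).comap π = Y.subgroupOf X := by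
      rw [Subgroup.comap_map_eq_self]
      rw [hker]
      exact hNs
    refine ⟨(D.comap π).map X.subtype, ?_, Subgroup.map_subtype_le _, ?_, ?_⟩
    · intro x hx
      refine ⟨⟨x, hNX hx⟩, ?_, rfl⟩
      rw [SetLike.mem_coe, Subgroup.mem_comap]
      have h1 : (⟨x, hNX hx⟩ : X) ∈ π.ker := by rw [hker]; exact hx
      rw [MonoidHom.mem_ker.1 h1]
      exact one_mem _
    · have h1 : Y.subgroupOf X ⊔ D.comap π = ⊤ := by
        have h2 := congrArg (Subgroup.comap π) hD.sup_eq_top
        rw [Subgroup.comap_top, ← Subgroup.comap_sup_eq _ _ _ hπ, hYs] at h2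
        exact h2
      have h3 := congrArg (Subgroup.map X.subtype) h1
      rw [Subgroup.map_sup, Subgroup.map_subgroupOf_eq_of_le hYX, ← MonoidHom.range_eq_map, Subgroup.range_subtype] at h3
      exact h3
    · have h1 : Y.subgroupOf X ⊓ D.comap π = N.subgroupOf X := by
        have h2 := congrArg (Subgroup.comap π) hD.inf_eq_bot
        rw [Subgroup.comap_inf, hYs] at h2
        rw [h2]
        exact hker
      have h3 := congrArg (Subgroup.map X.subtype) h1
      rw [Subgroup.map_inf _ _ _ X.subtype_injective, Subgroup.map_subgroupOf_eq_of_le hYX,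
        Subgroup.map_subgroupOf_eq_of_le hNX] at h3
      exact h3
  refine ⟨fun H => ?_⟩
  by_cases hb : H = ⊥
  · exact ⟨⊤, by rw [hb]; exact isCompl_bot_top⟩
  by_cases ht : H = ⊤
  · exact ⟨⊥, by rw [ht]; exact isCompl_top_bot⟩
  obtain ⟨g, hg1, hg2⟩ : ∃ g : G, (∃ h ∈ H, g * h * g⁻¹ ∉ M) ∧ ∀ n ∈ N, g⁻¹ * n * g ∈ H → n = 1 := by
    by_contra hcon
    push Not at hcon
    -- all conjugates of `N` normalise `H`
    have h1 : ∀ g : G, ∀ n ∈ N, g⁻¹ * n * g ∈ Subgroup.normalizer (H : Set G) := by
      intro g n hn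
      by_cases h2 : ∃ h ∈ H, g * h * g⁻¹ ∉ M
      · obtain ⟨n', hn', hn'H, hn'1⟩ := hcon g h2
        apply Subgroup.le_normalizer
        -- `N` is generated by `n'`
        haveI : Fact (Nat.card N).Prime := ⟨hN⟩
        have h3 : Subgroup.zpowers (⟨n', hn'⟩ : N) = ⊤ := by
          rcases (Subgroup.zpowers (⟨n', hn'⟩ : N)).eq_bot_or_eq_top_of_prime_card with h4 | h4
          · exfalso
            rw [Subgroup.zpowers_eq_bot] at h4
            exact hn'1 (congrArg Subtype.val h4)
          · exact h4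
        have h4 : (⟨n, hn⟩ : N) ∈ Subgroup.zpowers (⟨n', hn'⟩ : N) := by rw [h3]; trivial
        obtain ⟨k, hk⟩ := Subgroup.mem_zpowers_iff.1 h4
        have h5 : n = n' ^ k := by
          have := congrArg Subtype.val hk
          simpa using this.symm
        have h6 : g⁻¹ * n * g = (g⁻¹ * n' * g) ^ k := by
          rw [h5]
          have : ∀ x : G, g⁻¹ * x * g = MulAut.conj g⁻¹ x := fun x => by simp
          rw [this, this, map_zpow]
        rw [h6]
        exact zpow_mem hn'H k
      · push Not at h2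
        rw [Subgroup.mem_normalizer_iff]
        intro h
        have hc : ∀ h ∈ H, g⁻¹ * n * g * h * (g⁻¹ * n * g)⁻¹ = h := by
          intro h hh
          have h3 := hcen n hn _ (h2 h hh)
          have h4 : n * (g * h * g⁻¹) * n⁻¹ = g * h * g⁻¹ := by rw [← h3, mul_inv_cancel_right]
          have h5 : g⁻¹ * n * g * h * (g⁻¹ * n * g)⁻¹ = g⁻¹ * (n * (g * h * g⁻¹) * n⁻¹) * g := by group
          rw [h5, h4]
          group
        constructor
        · intro hh
          rw [hc h hh]; exact hh
        · intro hh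
          have h3 := hc _ hh
          have h4 : g⁻¹ * n * g * h * (g⁻¹ * n * g)⁻¹ = h := by
            have h5 : (g⁻¹ * n * g)⁻¹ * (g⁻¹ * n * g * (g⁻¹ * n * g * h * (g⁻¹ * n * g)⁻¹) * (g⁻¹ * n * g)⁻¹) * (g⁻¹ * n * g) =
              (g⁻¹ * n * g)⁻¹ * (g⁻¹ * n * g * h * (g⁻¹ * n * g)⁻¹) * (g⁻¹ * n * g) := by rw [h3]
            have h6 : (g⁻¹ * n * g)⁻¹ * (g⁻¹ * n * g * (g⁻¹ * n * g * h * (g⁻¹ * n * g)⁻¹) * (g⁻¹ * n * g)⁻¹) * (g⁻¹ * n * g) =
              g⁻¹ * n * g * h * (g⁻¹ * n * g)⁻¹ := by group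
            rw [h6] at h5
            rw [h5]
            group
          rw [← h4]; exact hh
    have h2 : Subgroup.normalClosure (N : Set G) ≤ Subgroup.normalizer (H : Set G) := by
      rw [Subgroup.normalClosure, Subgroup.closure_le]
      intro x hx
      rw [Group.mem_conjugatesOfSet_iff] at hx
      obtain ⟨n, hn, hnx⟩ := hx
      obtain ⟨c, hc⟩ := isConj_iff.1 hnx
      have := h1 c⁻¹ n hn
      rw [inv_inv] at this
      rwa [hc] at this
    have h3 : Subgroup.normalClosure (N : Set G) = ⊤ := by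
      rcases Subgroup.Normal.eq_bot_or_eq_top (Subgroup.normalClosure_normal (s := (N : Set G))) with h | h
      · exfalso
        apply hNbot
        rw [eq_bot_iff, ← h]
        exact Subgroup.le_normalClosure
      · exact h
    have h4 : H.Normal := by
      rw [← Subgroup.normalizer_eq_top_iff]
      rw [eq_top_iff, ← h3]
      exact h2
    rcases Subgroup.Normal.eq_bot_or_eq_top h4 with h | h
    · exact hb h
    · exact ht h
  let e : Subgroup G ≃o Subgroup G := (MulAut.conj g).mapSubgroup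
  obtain ⟨h, hh, hhM⟩ := hg1
  obtain ⟨C, h1, h2⟩ := Cfsg.Agent.S5901.result N X M hNX
    (by rintro rfl; exact hM.1 (top_le_iff.1 hXM)) hint hM hXM huniq (e H) (by
      intro h3
      exact hhM (h3 ⟨h, hh, rfl⟩)) (by
      rw [eq_bot_iff]
      rintro x ⟨⟨y, hy, rfl⟩, hx⟩
      rw [Subgroup.mem_bot]
      apply hg2 _ hx
      change g⁻¹ * (g * y * g⁻¹) * g ∈ H
      have : g⁻¹ * (g * y * g⁻¹) * g = y := by group
      rw [this]
      exact hy)
  refine ⟨e.symm C, ?_, ?_⟩
  · rw [disjoint_iff]
    apply e.injective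
    rw [map_inf, e.apply_symm_apply, h2, map_bot]
  · rw [codisjoint_iff]
    apply e.injective
    rw [map_sup, e.apply_symm_apply, h1, map_top]

end Cfsg.Agent.S5903
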