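import Cfsg.Statements.S5904

set_option autoImplicit false
open scoped Pointwise
open Cfsg

namespace Cfsg.Agent.S5904

/-- Let Ω be a finite set with more than two elements and O ⊆ Ω a subset with exactly as many elements as its complement. Then the setwise stabilizer of O in the symmetric group on Ω is not a maximal subgroup (it is properly contained in the stabilizer of the partition {O, Ω ∖ O}, which is proper). -/
theorem result {Ω : Type*} [Fintype Ω] [DecidableEq Ω] (hΩ : 2 < Fintype.card Ω)
    (O : Set Ω) (hO : Nat.card O = Nat.card ↥Oᶜ) :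
    ¬ IsCoatom (MulAction.stabilizer (Equiv.Perm Ω) O) := by
  classical
  intro hco
  haveI : Fintype O := Fintype.ofFinite _
  have hcards : Nat.card O + Nat.card ↥Oᶜ = Fintype.card Ω := by
    rw [Nat.card_eq_fintype_card, Nat.card_eq_fintype_card, Fintype.card_compl_set]
    have := Fintype.card_subtype_le (fun x => x ∈ O)
    have h2 : Fintype.card ↥O = Fintype.card {x // x ∈ O} := rfl
    omega
  have hcO : 1 < Nat.card O := by omega
  -- a bijection
  obtain ⟨e⟩ : Nonempty (O ≃ ↥Oᶜ) := by
    rw [Nat.card_eq_fintype_card, Nat.card_eq_fintype_card] at hO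
    exact ⟨Fintype.equivOfCardEq hO⟩
  obtain ⟨a, b, hab⟩ : ∃ a b : O, a ≠ b := by
    haveI : Nontrivial O := by
      rw [← Fintype.one_lt_card_iff_nontrivial, ← Nat.card_eq_fintype_card]
      exact hcO
    exact exists_pair_ne O
  -- the swap of the parts
  let s : Ω → Ω := fun x => if h : x ∈ O then (e ⟨x, h⟩ : Ω) else (e.symm ⟨x, h⟩ : Ω)
  have hs1 : ∀ x (h : x ∈ O), s x = e ⟨x, h⟩ := fun x h => dif_pos h
  have hs2 : ∀ x (h : x ∉ O), s x = e.symm ⟨x, h⟩ := fun x h => dif_neg h
  have hss : ∀ x, s (s x) = x := by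
    intro x
    by_cases h : x ∈ O
    · rw [hs1 x h]
      have h1 : ((e ⟨x, h⟩ : ↥Oᶜ) : Ω) ∉ O := (e ⟨x, h⟩).2
      rw [hs2 _ h1]
      simp
    · rw [hs2 x h]
      have h1 : ((e.symm ⟨x, h⟩ : O) : Ω) ∈ O := (e.symm ⟨x, h⟩).2
      rw [hs1 _ h1]
      simp
  let σ : Equiv.Perm Ω := ⟨s, s, hss, hss⟩
  -- the overgroup
  let K : Subgroup (Equiv.Perm Ω) :=
    { carrier := {g | ∀ x y, (x ∈ O ↔ y ∈ O) ↔ (g x ∈ O ↔ g y ∈ O)}
      mul_mem' := by
        intro g h hg hh x y
        rw [hh x y, hg (h x) (h y)]
        rfl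
      one_mem' := fun x y => Iff.rfl
      inv_mem' := by
        intro g hg x y
        rw [hg (g⁻¹ x) (g⁻¹ y)]
        simp }
  have hmem : ∀ g : Equiv.Perm Ω, g ∈ MulAction.stabilizer (Equiv.Perm Ω) O ↔ ∀ x, x ∈ O ↔ g x ∈ O := by
    intro g
    rw [MulAction.mem_stabilizer_iff]
    constructor
    · intro h x
      constructor
      · intro hx
        rw [← h]
        exact Set.smul_mem_smul_set hx
      · intro hx
        rw [← h] at hx
        obtain ⟨y, hy, hxy⟩ := hx
        have : y = x := g.injective hxy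
        rwa [← this]
    · intro h
      ext x
      constructor
      · rintro ⟨y, hy, rfl⟩
        exact (h y).1 hy
      · intro hx
        refine ⟨g⁻¹ x, ?_, by simp⟩
        rw [h]
        simpa using hx
  have hHK : MulAction.stabilizer (Equiv.Perm Ω) O < K := by
    refine lt_of_le_of_ne ?_ ?_
    · intro g hg x y
      rw [hmem] at hg
      rw [← hg x, ← hg y]
    · intro heq
      have h1 : σ ∈ K := by
        intro x y
        have h2 : ∀ z, σ z ∈ O ↔ z ∉ O := by
          intro z
          constructor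
          · intro hz hzO
            have : σ z = e ⟨z, hzO⟩ := hs1 z hzO
            rw [this] at hz
            exact (e ⟨z, hzO⟩).2 hz
          · intro hz
            have : σ z = e.symm ⟨z, hz⟩ := hs2 z hz
            rw [this]
            exact (e.symm ⟨z, hz⟩).2
        rw [h2, h2]
        exact not_iff_not.symm
      rw [← heq, hmem] at h1
      have h2 := (h1 a).1 a.2
      have h3 : σ a = e a := hs1 a a.2
      rw [h3] at h2
      exact (e a).2 h2
  have hKtop := hco.2 K hHK
  have h4 : Equiv.swap (b : Ω) (e a : Ω) ∈ K := by rw [hKtop]; trivial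
  have h5 := (h4 a b).1 ⟨fun _ => b.2, fun _ => a.2⟩
  rw [Equiv.swap_apply_left, Equiv.swap_apply_of_ne_of_ne] at h5
  · exact (e a).2 (h5.1 a.2)
  · exact fun h => hab (Subtype.ext h)
  · intro h
    have := (e a).2
    rw [← h] at this
    exact this a.2

end Cfsg.Agent.S5904
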