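import Cfsg.Statements.S5905

set_option autoImplicit false
open Cfsg

namespace Cfsg.Agent.S5905

/-- the stabiliser of the partition into fibres -/
def PSt {Ω β : Type*} (f : Ω → β) : Subgroup (Equiv.Perm Ω) where
  carrier := {g | ∀ x y : Ω, f x = f y ↔ f (g x) = f (g y)}
  mul_mem' {a b} ha hb := fun x y => by
    rw [hb x y, ha (b x) (b y)]; rfl
  one_mem' := fun x y => Iff.rfl
  inv_mem' {a} ha := fun x y => by
    have := ha (a⁻¹ x) (a⁻¹ y)
    rw [show a (a⁻¹ x) = x from Equiv.apply_symm_apply a x, show a (a⁻¹ y) = y from Equiv.apply_symm_apply a y] at this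
    exact this.symm

/-- Let Ω be a finite set and f : Ω → Fin b a map onto b ≥ 2 labels whose fibres all have the same size a ≥ 2 (a partition of Ω into b blocks of size a, so |Ω| = ab). Then the stabilizer of this partition in the symmetric group on Ω — the permutations g such that x and y lie in the same block exactly when g x and g y do, a group isomorphic to the imprimitive wreath product S_a ≀ S_b — is a maximal subgroup of the symmetric group. -/
theorem result {Ω : Type*} [Fintype Ω] [DecidableEq Ω] (a b : ℕ) (ha : 2 ≤ a) (hb : 2 ≤ b)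
    (f : Ω → Fin b) (hf : ∀ i : Fin b, Nat.card {x : Ω // f x = i} = a) :
    IsCoatom (Subgroup.closure {g : Equiv.Perm Ω | ∀ x y : Ω, f x = f y ↔ f (g x) = f (g y)}) := by
  have hcl : Subgroup.closure {g : Equiv.Perm Ω | ∀ x y : Ω, f x = f y ↔ f (g x) = f (g y)} = PSt f := by
    apply le_antisymm
    · rw [Subgroup.closure_le]; exact fun g hg => hg
    · exact fun g hg => Subgroup.subset_closure hg
  rw [hcl]
  have hfib : ∀ i : Fin b, Nonempty ({x : Ω // f x = i} ≃ Fin a) := by
    intro i
    haveI : Finite {x : Ω // f x = i} := inferInstance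
    exact ⟨(Finite.equivFin _).trans (finCongr (hf i))⟩
  let ef : ∀ i : Fin b, {x : Ω // f x = i} ≃ Fin a := fun i => (hfib i).some
  let e : Ω ≃ Fin b × Fin a := (Equiv.sigmaFiberEquiv f).symm.trans ((Equiv.sigmaCongrRight ef).trans (Equiv.sigmaEquivProd _ _))
  have he : ∀ x, (e x).1 = f x := fun x => rfl
  have hes : ∀ p, f (e.symm p) = p.1 := by
    intro p
    rw [← he, Equiv.apply_symm_apply]
  refine ⟨?_, ?_⟩
  · intro h
    let u : Ω := e.symm (⟨0, by omega⟩, ⟨0, by omega⟩)
    let u' : Ω := e.symm (⟨0, by omega⟩, ⟨1, by omega⟩)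
    let v : Ω := e.symm (⟨1, by omega⟩, ⟨0, by omega⟩)
    have h1 : Equiv.swap u v ∈ PSt f := h ▸ Subgroup.mem_top _
    have h2 := (h1 u u').1 (by rw [hes, hes])
    have h3 : u' ≠ u := fun h => by
      have := congrArg (fun p => (Prod.snd p).1) (e.symm.injective h)
      simp at this
    have h4 : u' ≠ v := fun h => by
      have := congrArg (fun p => (Prod.fst p).1) (e.symm.injective h)
      simp at this
    rw [Equiv.swap_apply_left, Equiv.swap_apply_of_ne_of_ne h3 h4, hes, hes] at h2
    simp at h2
  · intro M hM
    obtain ⟨hle, g, hg, hgH⟩ := SetLike.lt_iff_le_and_exists.1 hM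
    -- the relation
    let R : Ω → Ω → Prop := fun x y => x = y ∨ Equiv.swap x y ∈ M
    have hsymm : ∀ x y, R x y → R y x := by
      rintro x y (h | h)
      · exact Or.inl h.symm
      · right; rw [Equiv.swap_comm]; exact h
    have hconj : ∀ h ∈ M, ∀ x y, R x y → R (h x) (h y) := by
      rintro h hh x y (h1 | h1)
      · exact Or.inl (by rw [h1])
      · right
        have h2 := M.mul_mem (M.mul_mem hh h1) (M.inv_mem hh)
        rwa [Equiv.mul_swap_eq_swap_mul, mul_assoc, mul_inv_cancel, mul_one] at h2
    have htrans : ∀ x y z, R x y → R y z → R x z := by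
      rintro x y z (h1 | h1) h2
      · rw [h1]; exact h2
      · by_cases hxz : x = z
        · exact Or.inl hxz
        rcases h2 with h2 | h2
        · right; rw [← h2]; exact h1
        · by_cases hyz : y = z
          · right; rw [← hyz]; exact h1
          by_cases hxy : x = y
          · right; rw [hxy]; exact h2
          have h3 := hconj _ h2 x y (Or.inr h1)
          rwa [Equiv.swap_apply_of_ne_of_ne hxy hxz, Equiv.swap_apply_left] at h3
    have hfibR : ∀ x y, f x = f y → R x y := by
      intro x y hxy
      right
      apply hle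
      have hs : ∀ z, f (Equiv.swap x y z) = f z := by
        intro z
        rw [Equiv.swap_apply_def]
        split_ifs with h1 h2
        · rw [h1, hxy]
        · rw [h2, hxy]
        · rfl
      intro z w
      rw [hs, hs]
    obtain ⟨u, v, huv, hR⟩ : ∃ u v, f u ≠ f v ∧ R u v := by
      by_contra hcon
      push Not at hcon
      apply hgH
      intro x y
      constructor
      · intro h
        by_contra h1
        exact hcon _ _ h1 (hconj g hg x y (hfibR x y h))
      · intro h
        by_contra h1
        have h2 := hconj g⁻¹ (M.inv_mem hg) _ _ (hfibR _ _ h)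
        rw [show g⁻¹ (g x) = x from Equiv.symm_apply_apply g x, show g⁻¹ (g y) = y from Equiv.symm_apply_apply g y] at h2
        exact hcon _ _ h1 h2
    have hall : ∀ x, R u x := by
      intro x
      by_cases h1 : f x = f u
      · exact hfibR _ _ h1.symm
      let h : Equiv.Perm Ω := e.trans (((Equiv.swap (f v) (f x)).prodCongr (Equiv.refl _)).trans e.symm)
      have hh : ∀ z, f (h z) = Equiv.swap (f v) (f x) (f z) := by
        intro z
        change f (e.symm _) = _
        rw [hes]
        rfl
      have hhM : h ∈ M := by
        apply hle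
        intro z w
        rw [hh, hh, (Equiv.swap (f v) (f x)).injective.eq_iff]
      have hu : h u = u := by
        apply e.injective
        change e (e.symm _) = _
        rw [Equiv.apply_symm_apply]
        refine Prod.ext ?_ rfl
        change Equiv.swap (f v) (f x) (f u) = f u
        exact Equiv.swap_apply_of_ne_of_ne huv (fun h => h1 h.symm)
      have h2 := hconj h hhM u v hR
      rw [hu] at h2
      refine htrans _ _ _ h2 (hfibR _ _ ?_)
      rw [hh, Equiv.swap_apply_left]
    rw [eq_top_iff, ← Equiv.Perm.closure_isSwap, Subgroup.closure_le]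
    rintro s ⟨x, y, hxy, rfl⟩
    rcases htrans _ _ _ (hsymm _ _ (hall x)) (hall y) with h | h
    · exact absurd h hxy
    · exact h

end Cfsg.Agent.S5905
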