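import Cfsg.Statements.S5908
import Cfsg.Agent.H7.PSU32

set_option autoImplicit false
open Cfsg
open Cfsg.Agent.H7 Cfsg.Agent.H7.UTv

namespace Cfsg.Agent.S5908

/-- The subgroup lattice of PSU₃(2) (the solvable group of order 72, realised over the field with 4 elements) is not complemented: some subgroup H has no subgroup X with H ⊔ X = ⊤ and H ⊓ X = ⊥. -/
theorem result {F : Type*} [Field F] [Fintype F] (hF : Fintype.card F = 4) :
    ¬ ComplementedLattice (Subgroup (Cfsg.PSU 3 F 2)) := by
  obtain ⟨h1, N, hN, hN9, -, ⟨e⟩⟩ := psu32 hF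
  haveI := hN
  intro hcl
  let π := QuotientGroup.mk' N
  have hπ : Function.Surjective π := QuotientGroup.mk'_surjective _
  let ρ : Cfsg.PSU 3 F 2 →* QuaternionGroup 2 := e.toMonoidHom.comp π
  have hρ : Function.Surjective ρ := e.surjective.comp hπ
  -- the centre of the quaternion group
  have hq1 : ∀ x y : QuaternionGroup 2, x * x = 1 → y * y = 1 → (x * y) * (x * y) = 1 := by decide
  have hq4 : ∀ x : QuaternionGroup 2, (x * x) * (x * x) = 1 := by decide
  let C : Subgroup (QuaternionGroup 2) :=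
    { carrier := {x | x * x = 1}
      mul_mem' := fun {x y} hx hy => hq1 x y hx hy
      one_mem' := one_mul 1
      inv_mem' := by
        intro x hx
        change x⁻¹ * x⁻¹ = 1
        rw [← _root_.mul_inv_rev]
        have h : x * x = 1 := hx
        rw [h, inv_one] }
  have hC : ∀ x, x ∈ C ↔ x * x = 1 := fun x => Iff.rfl
  have hne : C ≠ ⊤ := by
    intro h
    have h2 : (QuaternionGroup.a 1 : QuaternionGroup 2) ∈ C := by rw [h]; trivial
    have h3 : ¬ (QuaternionGroup.a 1 : QuaternionGroup 2) * QuaternionGroup.a 1 = 1 := by decide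
    exact h3 h2
  obtain ⟨X, hX⟩ := hcl.exists_isCompl (C.comap ρ)
  have hin : ∀ x ∈ X, ρ x * ρ x = 1 → x = 1 := by
    intro x hx hx2
    have h2 : x ∈ C.comap ρ ⊓ X := ⟨hx2, hx⟩
    rw [hX.inf_eq_bot] at h2
    exact h2
  have hX1 : X = ⊥ := by
    rw [eq_bot_iff]
    intro x hx
    have h2 : x * x = 1 := by
      apply hin _ (mul_mem hx hx)
      rw [map_mul]
      exact hq4 _
    rw [Subgroup.mem_bot]
    apply hin x hx
    rw [← map_mul, h2, map_one]
  rw [hX1] at hX
  have h3 := hX.sup_eq_top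
  rw [sup_bot_eq] at h3
  apply hne
  rw [eq_top_iff]
  intro x _
  obtain ⟨y, rfl⟩ := hρ x
  have : y ∈ C.comap ρ := by rw [h3]; trivial
  exact this

end Cfsg.Agent.S5908
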