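import Cfsg.Statements.S5909
import Cfsg.Agent.H7.Part

set_option autoImplicit false
open Cfsg
open Cfsg.Agent.H7.Part

namespace Cfsg.Agent.S5909

/-- Let Ω be a finite set whose size is not 8, and f : Ω → Fin b a labelling with b ≥ 2 whose fibres all have the same size a ≥ 2 (a partition into b blocks of size a). Then the even permutations preserving the partition — the intersection of the imprimitive wreath product S_a ≀ S_b with the alternating group — form a maximal subgroup of the alternating group on Ω. -/
theorem result {Ω : Type*} [Fintype Ω] [DecidableEq Ω] (h8 : Fintype.card Ω ≠ 8) (a b : ℕ) (ha : 2 ≤ a) (hb : 2 ≤ b)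
    (f : Ω → Fin b) (hf : ∀ i : Fin b, Nat.card {x : Ω // f x = i} = a) :
    IsCoatom ((Subgroup.closure {g : Equiv.Perm Ω | ∀ x y : Ω, f x = f y ↔ f (g x) = f (g y)} ⊓ alternatingGroup Ω).subgroupOf (alternatingGroup Ω)) := by
  have hcl : Subgroup.closure {g : Equiv.Perm Ω | ∀ x y : Ω, f x = f y ↔ f (g x) = f (g y)} = PSt f := by
    apply le_antisymm
    · rw [Subgroup.closure_le]; exact fun g hg => hg
    · exact fun g hg => Subgroup.subset_closure hg
  rw [hcl]
  obtain ⟨e, he⟩ := exists_coord f hf
  have hes : ∀ p, f (e.symm p) = p.1 := by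
    intro p
    rw [← he, Equiv.apply_symm_apply]
  have hcard : Fintype.card Ω = b * a := by
    rw [Fintype.card_congr e]; simp
  haveI : Nontrivial Ω := by
    rw [← Fintype.one_lt_card_iff_nontrivial, hcard]
    nlinarith
  refine ⟨?_, ?_⟩
  · intro h
    let u : Ω := e.symm (⟨0, by omega⟩, ⟨0, by omega⟩)
    let u' : Ω := e.symm (⟨0, by omega⟩, ⟨1, by omega⟩)
    let v : Ω := e.symm (⟨1, by omega⟩, ⟨0, by omega⟩)
    have huu : u' ≠ u := fun h => by
      have := congrArg (fun p => (Prod.snd p).1) (e.symm.injective h)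
      simp at this
    have huv : u ≠ v := fun h => by
      have := congrArg (fun p => (Prod.fst p).1) (e.symm.injective h)
      simp at this
    have huv' : u' ≠ v := fun h => by
      have := congrArg (fun p => (Prod.fst p).1) (e.symm.injective h)
      simp at this
    let g : alternatingGroup Ω := ⟨Equiv.swap u v * Equiv.swap u u', two_swaps_even huv huu.symm⟩
    have h1 : g ∈ ((PSt f ⊓ alternatingGroup Ω).subgroupOf (alternatingGroup Ω)) := h ▸ Subgroup.mem_top _
    have h2 : g.1 ∈ PSt f := (Subgroup.mem_subgroupOf.1 h1).1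
    have h3 := (h2 u u').1 (by rw [hes, hes])
    change f ((Equiv.swap u v * Equiv.swap u u') u) = f ((Equiv.swap u v * Equiv.swap u u') u') at h3
    rw [Equiv.Perm.mul_apply, Equiv.Perm.mul_apply, Equiv.swap_apply_left, Equiv.swap_apply_right, Equiv.swap_apply_left,
      Equiv.swap_apply_of_ne_of_ne huu huv', hes, hes] at h3
    simp at h3
  · intro M' hM'
    obtain ⟨hle, g, hg, hgH⟩ := SetLike.lt_iff_le_and_exists.1 hM'
    set M : Subgroup (Equiv.Perm Ω) := M'.map (alternatingGroup Ω).subtype with hM
    have h1 : PSt f ⊓ alternatingGroup Ω ≤ M := by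
      rintro x ⟨hx, hx'⟩
      exact ⟨⟨x, hx'⟩, hle (Subgroup.mem_subgroupOf.2 ⟨hx, hx'⟩), rfl⟩
    have h2 : g.1 ∈ M := ⟨g, hg, rfl⟩
    have h3 : g.1 ∉ PSt f := fun h => hgH (Subgroup.mem_subgroupOf.2 ⟨h, g.2⟩)
    have hfin : alternatingGroup Ω ≤ M → M' = ⊤ := by
      intro h
      rw [eq_top_iff]
      intro x _
      obtain ⟨y, hy, hxy⟩ := h x.2
      have : y = x := Subtype.ext hxy
      rw [← this]; exact hy
    rcases Nat.lt_or_ge 2 a with ha3 | ha2
    · exact hfin (alt_le_of_R (alt_three he ha3 h1 h2 h3))
    have ha' : a = 2 := by omega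
    rcases Nat.lt_or_ge 2 b with hb3 | hb2
    · refine hfin (alt_le_of_R (alt_two he ha' hb3 ?_ h1 h2 h3))
      rintro rfl
      apply h8
      rw [hcard, ha']
    -- four points
    have hb' : b = 2 := by omega
    subst ha' hb'
    have hcA : Nat.card (alternatingGroup Ω) = 12 := by
      have := nat_card_alternatingGroup (α := Ω)
      rw [this, Nat.card_eq_fintype_card, hcard]
      rfl
    have h4 : 4 ≤ Nat.card ((PSt f ⊓ alternatingGroup Ω).subgroupOf (alternatingGroup Ω)) := by
      have hsg : ∀ p : Fin 2 × Fin 2, Equiv.Perm.sign (Equiv.addRight p) = 1 := by decide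
      let φ : Fin 2 × Fin 2 → ((PSt f ⊓ alternatingGroup Ω).subgroupOf (alternatingGroup Ω)) := fun p =>
        ⟨⟨e.symm.permCongr (Equiv.addRight p), by
            rw [Equiv.Perm.mem_alternatingGroup, Equiv.Perm.sign_permCongr, hsg]⟩,
          Subgroup.mem_subgroupOf.2 ⟨fun x y => by
            have h5 : ∀ z, f (e.symm.permCongr (Equiv.addRight p) z) = f z + p.1 := by
              intro z
              rw [Equiv.permCongr_apply, hes, ← he]
              rfl
            change _ ↔ f (e.symm.permCongr (Equiv.addRight p) x) = f (e.symm.permCongr (Equiv.addRight p) y)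
            rw [h5, h5, add_left_inj], by
            change e.symm.permCongr (Equiv.addRight p) ∈ alternatingGroup Ω
            rw [Equiv.Perm.mem_alternatingGroup, Equiv.Perm.sign_permCongr, hsg]⟩⟩
      have hφ : Function.Injective φ := by
        intro p q hpq
        have h5 : e.symm.permCongr (Equiv.addRight p) = e.symm.permCongr (Equiv.addRight q) :=
          congrArg (fun x => x.1.1) hpq
        have h6 := congrArg (fun s => e (s (e.symm 0))) h5
        simp only [Equiv.permCongr_apply, Equiv.symm_symm, Equiv.apply_symm_apply, Equiv.coe_addRight, zero_add] at h6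
        exact h6
      have := Nat.card_le_card_of_injective φ hφ
      simpa using this
    have h5 : Nat.card ((PSt f ⊓ alternatingGroup Ω).subgroupOf (alternatingGroup Ω)) ∣ Nat.card M' := Subgroup.card_dvd_of_le hle
    have h6 : Nat.card ((PSt f ⊓ alternatingGroup Ω).subgroupOf (alternatingGroup Ω)) ≠ Nat.card M' := by
      intro h
      exact hM'.ne (Subgroup.eq_of_le_of_card_ge hle h.symm.le)
    have h7 : Nat.card M' ∣ 12 := by rw [← hcA]; exact Subgroup.card_subgroup_dvd_card M'
    apply Subgroup.eq_top_of_card_eq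
    rw [hcA]
    obtain ⟨c, hc⟩ := h5
    have hpos : 0 < Nat.card M' := Nat.card_pos
    have hc2 : 2 ≤ c := by
      by_contra hcon
      push Not at hcon
      interval_cases c
      · rw [mul_zero] at hc; omega
      · rw [mul_one] at hc; exact h6 hc.symm
    have h8' : 8 ≤ Nat.card M' := by rw [hc]; nlinarith
    have h9 : Nat.card M' ≤ 12 := Nat.le_of_dvd (by norm_num) h7
    interval_cases Nat.card M' <;> omega

end Cfsg.Agent.S5909
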