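import Cfsg.Statements.S5910
import Cfsg.Agent.H7.Part

set_option autoImplicit false
open Cfsg
open Cfsg.Agent.H7.Part

namespace Cfsg.Agent.S5910

/-- the affine space -/
abbrev VV := (Fin 2 × Fin 2) × Fin 2

/-- the affine group -/
def Aff : Subgroup (Equiv.Perm VV) where
  carrier := {τ | ∀ x y z : VV, τ (x + y + z) = τ x + τ y + τ z}
  mul_mem' {a b} ha hb := fun x y z => by
    rw [Equiv.Perm.mul_apply, hb, ha]; rfl
  one_mem' := fun x y z => rfl
  inv_mem' {a} ha := fun x y z => by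
    apply a.injective
    rw [ha]
    rw [show ∀ x, a (a⁻¹ x) = x from fun x => Equiv.apply_symm_apply a x, show ∀ x, a (a⁻¹ x) = x from fun x => Equiv.apply_symm_apply a x,
      show ∀ x, a (a⁻¹ x) = x from fun x => Equiv.apply_symm_apply a x, show ∀ x, a (a⁻¹ x) = x from fun x => Equiv.apply_symm_apply a x]

/-- exchange two coordinates -/
def tau1 : Equiv.Perm VV where
  toFun v := ((v.2, v.1.2), v.1.1)
  invFun v := ((v.2, v.1.2), v.1.1)
  left_inv _ := rfl
  right_inv _ := rfl

/-- a three-cycle -/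
def tau2 : Equiv.Perm VV := Equiv.swap ((0, 0), 0) ((0, 1), 0) * Equiv.swap ((0, 0), 0) ((1, 0), 0)

theorem even_fun : ∀ c : Fin 2 × Fin 2 → Fin 2, ∑ i, c i = 0 → ∀ i j k, c (i + j + k) = c i + c j + c k := by decide

theorem even_prod : ∀ c : Fin 2 × Fin 2 → Fin 2, (∏ i, (if c i = 0 then (1 : ℤˣ) else -1)) = 1 → ∑ i, c i = 0 := by decide

theorem aff_of {τ : Equiv.Perm VV} (h1 : ∀ v w : VV, (τ v).1 = (τ w).1 ↔ v.1 = w.1) (h2 : Equiv.Perm.sign τ = 1) : τ ∈ Aff := by
  let π0 : Fin 2 × Fin 2 → Fin 2 × Fin 2 := fun i => (τ (i, 0)).1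
  have hinj : Function.Injective π0 := fun i j h => (h1 _ _).1 h
  let π : Equiv.Perm (Fin 2 × Fin 2) := Equiv.ofBijective π0 (Finite.injective_iff_bijective.1 hinj)
  let c : Fin 2 × Fin 2 → Fin 2 := fun i => (τ (i, 0)).2
  have hτ : ∀ v, τ v = (π v.1, v.2 + c v.1) := by
    rintro ⟨i, t⟩
    refine Prod.ext ((h1 _ _).2 rfl) ?_
    rcases (show ∀ t : Fin 2, t = 0 ∨ t = 1 by decide) t with rfl | rfl
    · change _ = 0 + (τ (i, 0)).2
      rw [zero_add]
    · change (τ (i, 1)).2 = 1 + (τ (i, 0)).2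
      have h3 : τ (i, 1) ≠ τ (i, 0) := fun h => by
        have := τ.injective h
        simp at this
      have h4 : (τ (i, 1)).1 = (τ (i, 0)).1 := (h1 _ _).2 rfl
      have h5 : (τ (i, 1)).2 ≠ (τ (i, 0)).2 := fun h => h3 (Prod.ext h4 h)
      revert h5
      generalize (τ (i, 1)).2 = a
      generalize (τ (i, 0)).2 = b
      revert a b; decide
  have hτ' : τ = Equiv.prodCongrLeft (fun _ : Fin 2 => π) * Equiv.prodCongrRight (fun i => Equiv.addRight (c i)) := by
    apply Equiv.ext
    intro v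
    rw [hτ]
    rfl
  have hc : ∑ i, c i = 0 := by
    apply even_prod
    rw [hτ', Equiv.Perm.sign_mul, Equiv.Perm.sign_prodCongrLeft, Equiv.Perm.sign_prodCongrRight, Finset.prod_const,
      Finset.card_univ, Fintype.card_fin, Int.units_sq, one_mul] at h2
    refine Eq.trans ?_ h2
    apply Finset.prod_congr rfl
    intro i _
    have : ∀ t : Fin 2, (if t = 0 then (1 : ℤˣ) else -1) = Equiv.Perm.sign (Equiv.addRight t) := by decide
    exact this _
  have hp1 : ∀ i j k, (π (i + j + k)).1 = (π i).1 + (π j).1 + (π k).1 := by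
    apply even_fun (fun i => (π i).1)
    rw [Equiv.sum_comp π (fun j => j.1)]
    decide
  have hp2 : ∀ i j k, (π (i + j + k)).2 = (π i).2 + (π j).2 + (π k).2 := by
    apply even_fun (fun i => (π i).2)
    rw [Equiv.sum_comp π (fun j => j.2)]
    decide
  have hp3 := even_fun c hc
  intro x y z
  rw [hτ, hτ, hτ, hτ]
  refine Prod.ext (Prod.ext (hp1 _ _ _) (hp2 _ _ _)) ?_
  change x.2 + y.2 + z.2 + c (x.1 + y.1 + z.1) = x.2 + c x.1 + (y.2 + c y.1) + (z.2 + c z.1)
  rw [hp3]
  abel

/-- Let Ω be a set with 8 elements and f : Ω → Fin 4 a labelling whose four fibres all have size 2 (a partition of the 8 points into 4 pairs). Then the group of even permutations preserving this partition, (S₂ ≀ S₄) ∩ A₈, is not a maximal subgroup of the alternating group A₈ (it lies in a subgroup isomorphic to the affine group AGL₃(2)). -/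
theorem result {Ω : Type*} [Fintype Ω] [DecidableEq Ω] (h8 : Fintype.card Ω = 8)
    (f : Ω → Fin 4) (hf : ∀ i : Fin 4, Nat.card {x : Ω // f x = i} = 2) :
    ¬ IsCoatom ((Subgroup.closure {g : Equiv.Perm Ω | ∀ x y : Ω, f x = f y ↔ f (g x) = f (g y)} ⊓ alternatingGroup Ω).subgroupOf (alternatingGroup Ω)) := by
  have hcl : Subgroup.closure {g : Equiv.Perm Ω | ∀ x y : Ω, f x = f y ↔ f (g x) = f (g y)} = PSt f := by
    apply le_antisymm
    · rw [Subgroup.closure_le]; exact fun g hg => hg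
    · exact fun g hg => Subgroup.subset_closure hg
  rw [hcl]
  obtain ⟨e, he⟩ := exists_coord f hf
  let d : Fin 4 ≃ Fin 2 × Fin 2 := (finProdFinEquiv (m := 2) (n := 2)).symm
  let E : Ω ≃ VV := e.trans (d.prodCongr (Equiv.refl _))
  have hE : ∀ x, (E x).1 = d (f x) := by
    intro x
    change d (e x).1 = _
    rw [he]
  have hE' : ∀ v, d (f (E.symm v)) = v.1 := by
    intro v; rw [← hE, Equiv.apply_symm_apply]
  let M' : Subgroup (alternatingGroup Ω) := (Aff.comap E.permCongrHom.toMonoidHom).comap (alternatingGroup Ω).subtype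
  have hmem : ∀ g : alternatingGroup Ω, g ∈ M' ↔ E.permCongr g.1 ∈ Aff := fun g => Iff.rfl
  have hof : ∀ τ : Equiv.Perm VV, Equiv.Perm.sign τ = 1 → E.symm.permCongr τ ∈ alternatingGroup Ω := by
    intro τ hτ
    rw [Equiv.Perm.mem_alternatingGroup, Equiv.Perm.sign_permCongr, hτ]
  have hEE : ∀ τ : Equiv.Perm VV, E.permCongr (E.symm.permCongr τ) = τ := by
    intro τ
    ext x
    · simp [Equiv.permCongr_apply]
    · simp [Equiv.permCongr_apply]
    · simp [Equiv.permCongr_apply]
  have hle : (PSt f ⊓ alternatingGroup Ω).subgroupOf (alternatingGroup Ω) ≤ M' := by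
    rintro g hg
    have hg1 : g.1 ∈ PSt f := (Subgroup.mem_subgroupOf.1 hg).1
    rw [hmem]
    apply aff_of
    · intro v w
      rw [Equiv.permCongr_apply, Equiv.permCongr_apply, hE, hE, d.injective.eq_iff, ← hg1 (E.symm v) (E.symm w),
        ← d.injective.eq_iff, hE', hE']
    · rw [Equiv.Perm.sign_permCongr]
      exact g.2
  intro hco
  have hlt : (PSt f ⊓ alternatingGroup Ω).subgroupOf (alternatingGroup Ω) < M' := by
    refine lt_of_le_of_ne hle ?_
    intro h
    let g : alternatingGroup Ω := ⟨E.symm.permCongr tau1, hof tau1 (by decide)⟩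
    have h1 : g ∈ M' := by
      rw [hmem]
      change E.permCongr (E.symm.permCongr tau1) ∈ Aff
      rw [hEE]
      intro x y z
      revert x y z; decide
    rw [← h] at h1
    have h2 : g.1 ∈ PSt f := (Subgroup.mem_subgroupOf.1 h1).1
    have h3 := (h2 (E.symm ((0, 0), 0)) (E.symm ((0, 0), 1))).1 (by
      apply d.injective; rw [hE', hE'])
    have h4 := congrArg d h3
    change d (f (E.symm.permCongr tau1 _)) = d (f (E.symm.permCongr tau1 _)) at h4
    rw [Equiv.permCongr_apply, Equiv.permCongr_apply, Equiv.symm_symm, Equiv.apply_symm_apply, Equiv.apply_symm_apply, hE', hE'] at h4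
    revert h4
    decide
  have h5 := hco.2 _ hlt
  let g : alternatingGroup Ω := ⟨E.symm.permCongr tau2, hof tau2 (by decide)⟩
  have h6 : g ∈ M' := h5 ▸ Subgroup.mem_top g
  rw [hmem] at h6
  change E.permCongr (E.symm.permCongr tau2) ∈ Aff at h6
  rw [hEE] at h6
  have h7 := h6 ((0, 0), 0) ((0, 1), 0) ((0, 0), 1)
  revert h7
  decide

end Cfsg.Agent.S5910
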