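import Cfsg.Statements.S5913

-- import your own Cfsg.Agent.* helpers here

set_option autoImplicit false
open Cfsg

namespace Cfsg.Agent.S5913

/-- Let S be a non-abelian simple group and n a natural number. Every normal subgroup N of the direct power S^n (functions Fin n → S) is a subproduct: there is a set T of coordinates such that N consists exactly of the elements whose coordinates outside T are trivial. In particular the minimal normal subgroups of S^n are its n factors. -/
theorem result {S : Type*} [Group S] [IsSimpleGroup S] (hS : ¬ IsMulCommutative S) (n : ℕ)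
    (N : Subgroup (Fin n → S)) [N.Normal] :
    ∃ T : Finset (Fin n), ∀ x : Fin n → S, x ∈ N ↔ ∀ i, i ∉ T → x i = 1 := by
  classical
  set T : Finset (Fin n) := Finset.univ.filter (fun i => ∃ x ∈ N, x i ≠ 1) with hT
  have hcen : Subgroup.center S = ⊥ := by
    rcases (inferInstance : (Subgroup.center S).Normal).eq_bot_or_eq_top with h | h
    · exact h
    · exfalso
      apply hS
      exact ⟨⟨fun a b => (Subgroup.mem_center_iff.mp (by rw [h]; trivial : b ∈ Subgroup.center S) a)⟩⟩
  have hsing : ∀ i ∈ T, ∀ s : S, Pi.mulSingle i s ∈ N := by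
    intro i hi
    rw [hT, Finset.mem_filter] at hi
    obtain ⟨-, x, hx, hxi⟩ := hi
    obtain ⟨y, hy⟩ : ∃ y : S, y * x i ≠ x i * y := by
      by_contra hcon
      push Not at hcon
      apply hxi
      have : x i ∈ Subgroup.center S := Subgroup.mem_center_iff.mpr hcon
      rw [hcen] at this
      exact Subgroup.mem_bot.mp this
    let M : Subgroup S := N.comap (MonoidHom.mulSingle (fun _ : Fin n => S) i)
    have hM : ∀ s, s ∈ M ↔ Pi.mulSingle i s ∈ N := fun s => Iff.rfl
    haveI : M.Normal := inferInstance
    have h1 : Pi.mulSingle i (x i * y * (x i)⁻¹ * y⁻¹) ∈ N := by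
      have h2 : x * (Pi.mulSingle i y) * x⁻¹ * (Pi.mulSingle i y)⁻¹ ∈ N := by
        have h3 : x * ((Pi.mulSingle i y) * x⁻¹ * (Pi.mulSingle i y)⁻¹) ∈ N :=
          N.mul_mem hx ((inferInstance : N.Normal).conj_mem _ (N.inv_mem hx) _)
        simpa [mul_assoc] using h3
      have h4 : x * (Pi.mulSingle i y) * x⁻¹ * (Pi.mulSingle i y)⁻¹ = (Pi.mulSingle i (x i * y * (x i)⁻¹ * y⁻¹) : Fin n → S) := by
        funext j
        by_cases hj : j = i
        · subst hj
          simp
        · simp [Pi.mulSingle_eq_of_ne hj]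
      rwa [h4] at h2
    rcases (inferInstance : M.Normal).eq_bot_or_eq_top with h | h
    · exfalso
      have h2 : x i * y * (x i)⁻¹ * y⁻¹ ∈ M := h1
      rw [h, Subgroup.mem_bot, mul_inv_eq_one, mul_inv_eq_iff_eq_mul] at h2
      exact hy h2.symm
    · intro s
      rw [← hM, h]; trivial
  refine ⟨T, fun x => ⟨fun hx i hi => ?_, fun hx => ?_⟩⟩
  · by_contra hcon
    exact hi (by rw [hT, Finset.mem_filter]; exact ⟨Finset.mem_univ _, x, hx, hcon⟩)
  · apply Subgroup.pi_mem_of_mulSingle_mem
    intro i
    by_cases hi : i ∈ T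
    · exact hsing i hi _
    · rw [hx i hi, Pi.mulSingle_one]; exact N.one_mem

end Cfsg.Agent.S5913
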