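import Cfsg.Statements.S5946

set_option autoImplicit false
open Cfsg

namespace Cfsg.Agent.S5946

/-- Let F ⊆ K be finite fields with [K : F] = n ≥ 2 and regard K as an n-dimensional F-vector space. The Singer group M ≤ GL_F(K) of multiplications by the non-zero elements of K is self-centralizing: every F-linear automorphism of K commuting with all of M lies in M. -/
theorem result {F K : Type*} [Field F] [Fintype F] [Field K] [Fintype K] [Algebra F K] (n : ℕ) (hn : 2 ≤ n) (hdim : Module.finrank F K = n) :
    Subgroup.centralizer (((Units.map ((Algebra.lmul F K : K →ₐ[F] Module.End F K) : K →* Module.End F K)).range : Subgroup (Module.End F K)ˣ) : Set (Module.End F K)ˣ) = (Units.map ((Algebra.lmul F K : K →ₐ[F] Module.End F K) : K →* Module.End F K)).range := by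
  apply le_antisymm
  · intro f hf
    rw [Subgroup.mem_centralizer_iff] at hf
    have h1 : ∀ a : Kˣ, ∀ x : K, (f : Module.End F K) ((a : K) * x) = (a : K) * (f : Module.End F K) x := by
      intro a x
      have h2 := hf _ ⟨a, rfl⟩
      have h3 := congrArg (fun g : (Module.End F K)ˣ => (g : Module.End F K) x) h2
      exact h3.symm
    have h4 : ∀ x : K, (f : Module.End F K) x = (f : Module.End F K) 1 * x := by
      intro x
      by_cases hx : x = 0
      · rw [hx, map_zero, mul_zero]
      · have h5 := h1 (Units.mk0 x hx) 1
        rw [Units.val_mk0, mul_one] at h5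
        rw [h5, mul_comm]
    have h0 : (f : Module.End F K) 1 ≠ 0 := by
      intro h
      have h5 : (f : Module.End F K) = 0 := by
        apply LinearMap.ext
        intro x
        rw [h4, h, zero_mul, LinearMap.zero_apply]
      exact f.ne_zero h5
    refine ⟨Units.mk0 _ h0, ?_⟩
    apply Units.ext
    apply LinearMap.ext
    intro x
    exact (h4 x).symm
  · rintro _ ⟨a, rfl⟩
    rw [Subgroup.mem_centralizer_iff]
    rintro _ ⟨b, rfl⟩
    rw [← map_mul, ← map_mul, mul_comm]

end Cfsg.Agent.S5946
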